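import Cfsg.Agent.Lib.ZerosCodegree.BlockTools
import Cfsg.Agent.Lib.BrauerCharacters.Projection
import Cfsg.Agent.Lib.BlockLocal.WeakOrth
import Cfsg.Agent.Lib.CharTheory.Inflation

/-!
The regular rank of the principal block over a normal `p`-subgroup centralised by the regular elements.
-/

set_option autoImplicit false
set_option linter.unusedSectionVars false
set_option linter.style.haveILetI false

open Cfsg

namespace CfsgLib.ZerosCodegree

open CfsgLib.CharTheory CfsgLib.Blocks CfsgLib.BlockLocal CfsgLib.BrauerCharacters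
open scoped ComplexConjugate

universe u
variable {G : Type u} [Group G] [Finite G] {p : ℕ} [hp : Fact p.Prime]

/-- An exponent killing `p`-parts and fixing regular elements, in the group and its images. -/
theorem exists_regular_exponent (G : Type u) [Group G] [Finite G] (p : ℕ) [Fact p.Prime] :
    ∃ k : ℕ, (∀ z : G, ¬ p ∣ orderOf (z ^ k)) ∧
      ∀ {H : Type u} [Group H] (f : G →* H) (z : G), ¬ p ∣ orderOf (f z) → f z ^ k = f z := by
  have hp : p.Prime := Fact.out
  set a := (Nat.card G).factorization p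
  set m := Nat.card G / p ^ a with hm
  have hm' : p ^ a * m = Nat.card G := Nat.ordProj_mul_ordCompl_eq_self _ p
  have hcop : (p ^ a).Coprime m := Nat.Coprime.pow_left a
    (hp.coprime_iff_not_dvd.2 (Nat.not_dvd_ordCompl hp Nat.card_pos.ne'))
  obtain ⟨k, hk0, hk1⟩ := Nat.chineseRemainder hcop 0 1
  refine ⟨k, fun z hd => ?_, fun f z hz => ?_⟩
  · refine Nat.not_dvd_ordCompl hp (Nat.card_pos (α := G)).ne'
      (hd.trans (orderOf_dvd_of_pow_eq_one ?_))
    obtain ⟨l, hl⟩ := Nat.modEq_zero_iff_dvd.1 hk0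
    rw [← pow_mul, hl, mul_right_comm, hm', pow_mul, pow_card_eq_one', one_pow]
  · have hord : orderOf (f z) ∣ m := Nat.Coprime.dvd_of_dvd_mul_left
      ((hp.coprime_iff_not_dvd.2 hz).pow_left a).symm
      (hm' ▸ (orderOf_map_dvd f z).trans (orderOf_dvd_natCard z))
    conv_rhs => rw [← pow_one (f z)]
    exact pow_eq_pow_iff_modEq.2 (hk1.of_dvd hord)

variable (Q : Subgroup G) [Q.Normal]

variable (p) in
/-- A regular lift. -/
noncomputable def regularLift (x : G ⧸ Q) : G :=
  Quotient.out x ^ (exists_regular_exponent G p).choose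

theorem not_dvd_orderOf_regularLift (x : G ⧸ Q) : ¬ p ∣ orderOf (regularLift p Q x) :=
  (exists_regular_exponent G p).choose_spec.1 _

theorem mk_regularLift {x : G ⧸ Q} (hx : ¬ p ∣ orderOf x) : ((regularLift p Q x : G) : G ⧸ Q) = x := by
  have h := (exists_regular_exponent G p).choose_spec.2 (QuotientGroup.mk' Q) (Quotient.out x)
  simp only [QuotientGroup.mk'_apply, QuotientGroup.out_eq'] at h
  rw [regularLift, QuotientGroup.mk_pow, QuotientGroup.out_eq']
  exact h hx

omit hp in
theorem not_dvd_orderOf_mk {g : G} (hg : ¬ p ∣ orderOf g) : ¬ p ∣ orderOf (g : G ⧸ Q) :=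
  fun h => hg (h.trans (orderOf_map_dvd (QuotientGroup.mk' Q) g))

variable {Q}

/-- The regular elements centralise `Q`. -/
def RegularCentralizes (p : ℕ) (Q : Subgroup G) : Prop :=
  ∀ g : G, ¬ p ∣ orderOf g → ∀ q ∈ Q, Commute g q

theorem eq_of_regular_mk_eq (hQ : IsPGroup p Q) (hc : RegularCentralizes p Q) {g h : G}
    (hg : ¬ p ∣ orderOf g) (hh : ¬ p ∣ orderOf h) (e : (g : G ⧸ Q) = (h : G ⧸ Q)) : g = h := by
  have hz : g⁻¹ * h ∈ Q := QuotientGroup.eq.1 e
  have hcomm := hc g hg _ hz
  obtain ⟨k, hk⟩ := hQ ⟨_, hz⟩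
  have hk' : (g⁻¹ * h) ^ p ^ k = 1 := congrArg Subtype.val hk
  refine inv_mul_eq_one.1 (orderOf_eq_one_iff.1 (Nat.eq_one_of_dvd_coprimes
    (Nat.Coprime.pow_left k (hp.out.coprime_iff_not_dvd.2
      (fun hd => ((Nat.Prime.dvd_mul hp.out).1 hd).elim hg hh) : p.Coprime (orderOf g * orderOf h)))
    (orderOf_dvd_of_pow_eq_one hk') (orderOf_dvd_of_pow_eq_one ?_)))
  rw [(Commute.inv_left (show Commute g h by
      have := (Commute.refl g).mul_right hcomm
      rwa [mul_inv_cancel_left] at this)).mul_pow, inv_pow, pow_mul, pow_orderOf_eq_one, one_pow,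
    inv_one, one_mul, mul_comm, pow_mul, pow_orderOf_eq_one, one_pow]

theorem centralizer_mk_of_regular (hQ : IsPGroup p Q) (hc : RegularCentralizes p Q) {g : G}
    (hg : ¬ p ∣ orderOf g) :
    (Subgroup.centralizer ({(g : G ⧸ Q)} : Set (G ⧸ Q))).index =
      (Subgroup.centralizer ({g} : Set G)).index := by
  rw [← Subgroup.index_comap_of_surjective _ (QuotientGroup.mk'_surjective Q)]
  congr 1
  ext x
  simp only [Subgroup.mem_comap, Subgroup.mem_centralizer_singleton_iff, QuotientGroup.mk'_apply]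
  refine ⟨fun h => ?_, fun h => by rw [← QuotientGroup.mk_mul, ← QuotientGroup.mk_mul, h]⟩
  have h1 : x * g * x⁻¹ = g := eq_of_regular_mk_eq hQ hc
    (by rwa [show orderOf (x * g * x⁻¹) = orderOf g from (MulAut.conj x).orderOf_eq g]) hg
    (by rw [QuotientGroup.mk_mul, QuotientGroup.mk_mul, h, QuotientGroup.mk_inv, mul_inv_cancel_right])
  exact mul_inv_eq_iff_eq_mul.1 h1

variable (Q) in
/-- The inflation of a character of the quotient. -/
def inflateIrr (ψ : IrrCharacter (G ⧸ Q)) : IrrCharacter G :=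
  ⟨fun g => (ψ : G ⧸ Q → ℂ) (g : G ⧸ Q),
    isIrrCharacter_comp ψ.2 (f := QuotientGroup.mk' Q) (QuotientGroup.mk'_surjective Q)⟩

theorem centralChar_inflateIrr (hQ : IsPGroup p Q) (hc : RegularCentralizes p Q)
    (ψ : IrrCharacter (G ⧸ Q)) {g : G} (hg : ¬ p ∣ orderOf g) :
    centralChar (inflateIrr Q ψ : G → ℂ) g = centralChar (ψ : G ⧸ Q → ℂ) (g : G ⧸ Q) := by
  rw [centralChar, centralChar, centralizer_mk_of_regular hQ hc hg]
  rfl

theorem inflateIrr_mem_principalBlock_iff {M : Ideal AlgInt} [M.IsPrime] (hM : IsPModular p M)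
    (hQ : IsPGroup p Q) (hc : RegularCentralizes p Q) (ψ : IrrCharacter (G ⧸ Q)) :
    inflateIrr Q ψ ∈ principalBlock M G ↔ ψ ∈ principalBlock M (G ⧸ Q) := by
  constructor
  · refine fun h => mem_principalBlock_of_regular hM fun x hx => ?_
    have hg := not_dvd_orderOf_regularLift (p := p) Q x
    have h1 := h (regularLift p Q x)
    rw [centralChar_inflateIrr hQ hc ψ hg, CfsgLib.Correspondences.centralChar_one_eq,
      ← centralizer_mk_of_regular hQ hc hg, mk_regularLift Q hx] at h1
    rwa [CfsgLib.Correspondences.centralChar_one_eq]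
  · refine fun h => mem_principalBlock_of_regular hM fun g hg => ?_
    have h1 := h (g : G ⧸ Q)
    rw [CfsgLib.Correspondences.centralChar_one_eq, centralizer_mk_of_regular hQ hc hg] at h1
    rwa [centralChar_inflateIrr hQ hc ψ hg, CfsgLib.Correspondences.centralChar_one_eq]

variable (p Q) in
/-- Pull back and cut down to the regular elements. -/
noncomputable def pullReg : (G ⧸ Q → ℂ) →ₗ[ℂ] (G → ℂ) where
  toFun f := pRegularPart p fun g : G => f (g : G ⧸ Q)
  map_add' f f' := by
    classical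
    funext g
    simp only [pRegularPart_apply, Pi.add_apply]
    split_ifs <;> simp
  map_smul' c f := by
    classical
    funext g
    simp only [pRegularPart_apply, Pi.smul_apply, RingHom.id_apply, smul_eq_mul]
    split_ifs <;> simp

open scoped Classical in
variable (p Q) in
/-- Read off the regular lifts. -/
noncomputable def pushReg : (G → ℂ) →ₗ[ℂ] (G ⧸ Q → ℂ) where
  toFun h x := if p ∣ orderOf x then 0 else h (regularLift p Q x)
  map_add' f f' := by funext x; simp only [Pi.add_apply]; split_ifs <;> simp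
  map_smul' c f := by
    funext x; simp only [Pi.smul_apply, RingHom.id_apply, smul_eq_mul]; split_ifs <;> simp

theorem pullReg_pushReg (hQ : IsPGroup p Q) (hc : RegularCentralizes p Q) (f : G → ℂ) :
    pullReg p Q (pushReg p Q f) = pRegularPart p f := by
  classical
  funext g
  simp only [pullReg, pushReg, LinearMap.coe_mk, AddHom.coe_mk, pRegularPart_apply]
  by_cases hg : p ∣ orderOf g
  · rw [if_pos hg, if_pos hg]
  · rw [if_neg hg, if_neg hg, if_neg (not_dvd_orderOf_mk Q hg),
      eq_of_regular_mk_eq hQ hc (not_dvd_orderOf_regularLift Q _) hg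
        (mk_regularLift Q (not_dvd_orderOf_mk Q hg))]

theorem pushReg_pullReg (f : G ⧸ Q → ℂ) : pushReg p Q (pullReg p Q f) = pRegularPart p f := by
  classical
  funext x
  simp only [pullReg, pushReg, LinearMap.coe_mk, AddHom.coe_mk, pRegularPart_apply]
  by_cases hx : p ∣ orderOf x
  · rw [if_pos hx, if_pos hx]
  · rw [if_neg hx, if_neg hx, if_neg (not_dvd_orderOf_regularLift Q x), mk_regularLift Q hx]

theorem classInner_pushReg (hQ : IsPGroup p Q) (hc : RegularCentralizes p Q) [Fintype G]
    [Fintype (G ⧸ Q)] (f : G → ℂ) (ψ : IrrCharacter (G ⧸ Q)) :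
    (Nat.card (G ⧸ Q) : ℂ) * classInner (pushReg p Q f) (ψ : G ⧸ Q → ℂ) =
      (Nat.card G : ℂ) * classInner (pRegularPart p f) (inflateIrr Q ψ : G → ℂ) := by
  classical
  simp only [classInner]
  rw [mul_inv_cancel_left₀ (Nat.cast_ne_zero.2 (Nat.card_pos (α := G ⧸ Q)).ne'),
    mul_inv_cancel_left₀ (Nat.cast_ne_zero.2 (Nat.card_pos (α := G)).ne')]
  refine Eq.trans (Finset.sum_subset
    (Finset.filter_subset (fun x : G ⧸ Q => ¬ p ∣ orderOf x) _) ?_).symm (Eq.trans ?_
    (Finset.sum_subset (Finset.filter_subset (fun g : G => ¬ p ∣ orderOf g) _) ?_))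
  · intro x _ hx
    simp only [Finset.mem_filter, Finset.mem_univ, true_and, not_not] at hx
    simp [pushReg, hx]
  swap
  · intro g _ hg
    simp only [Finset.mem_filter, Finset.mem_univ, true_and, not_not] at hg
    rw [pRegularPart_apply, if_pos hg, zero_mul]
  refine Finset.sum_nbij' (fun x => regularLift p Q x) (fun g => (g : G ⧸ Q)) (fun x _ => ?_)
    (fun g hg => ?_) (fun x hx => ?_) (fun g hg => ?_) fun x hx => ?_
  · simpa using not_dvd_orderOf_regularLift Q x
  · exact Finset.mem_filter.2 ⟨Finset.mem_univ _, not_dvd_orderOf_mk Q (Finset.mem_filter.1 hg).2⟩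
  · exact mk_regularLift Q (Finset.mem_filter.1 hx).2
  · exact eq_of_regular_mk_eq hQ hc (not_dvd_orderOf_regularLift Q _) (Finset.mem_filter.1 hg).2
      (mk_regularLift Q (not_dvd_orderOf_mk Q (Finset.mem_filter.1 hg).2))
  · have hx' := (Finset.mem_filter.1 hx).2
    rw [pRegularPart_apply, if_neg (not_dvd_orderOf_regularLift Q x)]
    show pushReg p Q f x * conj ((ψ : G ⧸ Q → ℂ) x) =
      f (regularLift p Q x) * conj ((ψ : G ⧸ Q → ℂ) ((regularLift p Q x : G) : G ⧸ Q))
    rw [mk_regularLift Q hx']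
    simp [pushReg, hx']

theorem isClassFunction_pushReg (hQ : IsPGroup p Q) (hc : RegularCentralizes p Q) {f : G → ℂ}
    (hf : IsClassFunction G f) : IsClassFunction (G ⧸ Q) (pushReg p Q f) := by
  classical
  intro x y
  simp only [pushReg, LinearMap.coe_mk, AddHom.coe_mk]
  rw [show orderOf (y * x * y⁻¹) = orderOf x from (MulAut.conj y).orderOf_eq x]
  split_ifs with hx
  · rfl
  obtain ⟨g, rfl⟩ := QuotientGroup.mk_surjective y
  have hx' : ¬ p ∣ orderOf ((g : G ⧸ Q) * x * (g : G ⧸ Q)⁻¹) := by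
    rwa [show orderOf ((g : G ⧸ Q) * x * (g : G ⧸ Q)⁻¹) = orderOf x from
      (MulAut.conj (g : G ⧸ Q)).orderOf_eq x]
  rw [eq_of_regular_mk_eq hQ hc (not_dvd_orderOf_regularLift Q _)
    (h := g * regularLift p Q x * g⁻¹)
    (by rw [show orderOf (g * regularLift p Q x * g⁻¹) = orderOf (regularLift p Q x) from
          (MulAut.conj g).orderOf_eq _]
        exact not_dvd_orderOf_regularLift Q x)
    (by rw [mk_regularLift Q hx', QuotientGroup.mk_mul, QuotientGroup.mk_mul, QuotientGroup.mk_inv,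
      mk_regularLift Q hx]), hf]

/-- The regular rank of the principal block passes to the quotient. -/
theorem blockRank_principalBlock_quotient {M : Ideal AlgInt} [M.IsPrime] (hM : IsPModular p M)
    (hQ : IsPGroup p Q) (hc : RegularCentralizes p Q) :
    blockRank p (principalBlock M G) = blockRank p (principalBlock M (G ⧸ Q)) := by
  classical
  haveI : Fintype G := Fintype.ofFinite G
  haveI : Fintype (G ⧸ Q) := Fintype.ofFinite _
  haveI : Fintype (IrrCharacter (G ⧸ Q)) := Fintype.ofFinite _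
  set W := Submodule.span ℂ ((fun χ : IrrCharacter G => pRegularPart p (χ : G → ℂ)) ''
    principalBlock M G)
  set V := Submodule.span ℂ ((fun χ : IrrCharacter (G ⧸ Q) => pRegularPart p (χ : G ⧸ Q → ℂ)) ''
    principalBlock M (G ⧸ Q))
  show Module.finrank ℂ W = Module.finrank ℂ V
  haveI : FiniteDimensional ℂ V := FiniteDimensional.finiteDimensional_submodule _
  haveI : FiniteDimensional ℂ W := FiniteDimensional.finiteDimensional_submodule _
  have hW : W ≤ V.map (pullReg p Q) := by
    rw [Submodule.span_le]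
    rintro _ ⟨χ, hχ, rfl⟩
    refine ⟨pushReg p Q (χ : G → ℂ), ?_, pullReg_pushReg hQ hc _⟩
    have hfix : pRegularPart p (pushReg p Q (χ : G → ℂ)) = pushReg p Q (χ : G → ℂ) := by
      funext x
      rw [pRegularPart_apply]
      by_cases hx : p ∣ orderOf x <;> simp [pushReg, hx]
    show pushReg p Q (χ : G → ℂ) ∈ V
    rw [← hfix, eq_sum_classInner (isClassFunction_pushReg hQ hc (IsIrrCharacter.isClassFunction χ.2)),
      pRegularPart_sum]
    refine Submodule.sum_mem _ fun ψ _ => ?_
    by_cases hψ : ψ ∈ principalBlock M (G ⧸ Q)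
    · exact Submodule.smul_mem _ _ (Submodule.subset_span ⟨ψ, hψ, rfl⟩)
    · have h0 := classInner_pushReg hQ hc (χ : G → ℂ) ψ
      rw [show classInner (pRegularPart p (χ : G → ℂ)) (inflateIrr Q ψ : G → ℂ) =
          regInner p (χ : G → ℂ) (inflateIrr Q ψ : G → ℂ) from rfl, regInner_eq_pairReg,
        pairReg_eq_zero' hM (fun hsame => hψ ((inflateIrr_mem_principalBlock_iff hM hQ hc ψ).1
          (sameBlock_trans hχ hsame))), mul_zero, mul_zero, mul_eq_zero] at h0
      rw [h0.resolve_left (Nat.cast_ne_zero.2 (Nat.card_pos (α := G ⧸ Q)).ne'), zero_smul]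
      exact zero_mem _
  have hV : V ≤ W.map (pushReg p Q) := by
    rw [Submodule.span_le]
    rintro _ ⟨ψ, hψ, rfl⟩
    refine ⟨pRegularPart p (inflateIrr Q ψ : G → ℂ), Submodule.subset_span
      ⟨_, (inflateIrr_mem_principalBlock_iff hM hQ hc ψ).2 hψ, rfl⟩, ?_⟩
    exact pushReg_pullReg (p := p) (Q := Q) (ψ : G ⧸ Q → ℂ)
  exact le_antisymm ((Submodule.finrank_mono hW).trans (Submodule.finrank_map_le _ _))
    ((Submodule.finrank_mono hV).trans (Submodule.finrank_map_le _ _))

end CfsgLib.ZerosCodegree
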