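import Cfsg.Agent.Lib.PGroups.Frattini
import Cfsg.Agent.Lib.AltGroups.PowerOfSimple
import Cfsg.Agent.Lib.AltGroups.MinimalNormalProduct
import Cfsg.Agent.Lib.Transfer.Tate
import Cfsg.Agent.Lib.Cores.MinimalNormal
import Cfsg.Agent.Lib.NormalPComplement.Basic

/-!
Sylow subgroups whose abelianization has order `p ^ 2`, in groups without `p'`-core which are not
almost simple: a normal subgroup meets the Sylow subgroup in an abelian subgroup of index `p`.
-/

set_option autoImplicit false
set_option linter.unusedSectionVars false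
set_option linter.style.haveILetI false

open scoped commutatorElement
open Cfsg

namespace CfsgLib.ZerosCodegree

universe u

section Cyclic

variable {Q : Type u} [Group Q]

/-- Over a normal subgroup with cyclic quotient, the derived subgroup is generated by the
commutators with the subgroup. -/
theorem commutator_le_of_generator {R K : Subgroup Q} [R.Normal] [K.Normal] {y : Q}
    (hy : R ⊔ Subgroup.zpowers y = ⊤) (h1 : ∀ r ∈ R, ∀ s ∈ R, ⁅r, s⁆ ∈ K)
    (h2 : ∀ r ∈ R, ⁅r, y⁆ ∈ K) : commutator Q ≤ K := by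
  have hc : ∀ a b : Q, ⁅a, b⁆ ∈ K → Commute (QuotientGroup.mk' K a) (QuotientGroup.mk' K b) :=
    fun a b h => by
      rw [Commute, SemiconjBy, ← commutatorElement_eq_one_iff_mul_comm, ← map_commutatorElement]
      exact (QuotientGroup.eq_one_iff _).2 h
  rw [commutator_def, Subgroup.commutator_le]
  intro a _ b _
  obtain ⟨r, hr, s, hs, rfl⟩ := Subgroup.mem_sup_of_normal_left.1 (hy ▸ Subgroup.mem_top a)
  obtain ⟨i, rfl⟩ := Subgroup.mem_zpowers_iff.1 hs
  obtain ⟨r', hr', s', hs', rfl⟩ := Subgroup.mem_sup_of_normal_left.1 (hy ▸ Subgroup.mem_top b)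
  obtain ⟨j, rfl⟩ := Subgroup.mem_zpowers_iff.1 hs'
  refine (QuotientGroup.eq_one_iff _).1 ?_
  show QuotientGroup.mk' K _ = 1
  rw [map_commutatorElement, commutatorElement_eq_one_iff_commute, map_mul, map_mul, map_zpow, map_zpow]
  exact ((hc _ _ (h1 r hr r' hr')).mul_right ((hc _ _ (h2 r hr)).zpow_right j)).mul_left
    ((((hc _ _ (h2 r' hr')).symm).zpow_left i).mul_right ((Commute.refl _).zpow_zpow i j))

variable [Finite Q] {p : ℕ} [hp : Fact p.Prime]

theorem eq_of_le_of_index_le {H K : Subgroup Q} (hle : H ≤ K) (h : H.index ≤ K.index) : H = K := by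
  refine Subgroup.eq_of_le_of_card_ge hle ?_
  have h1 := Subgroup.card_mul_index H
  have h2 := Subgroup.card_mul_index K
  rw [← h1] at h2
  refine Nat.le_of_mul_le_mul_right ?_ (Nat.pos_of_ne_zero K.index_ne_zero_of_finite)
  calc Nat.card K * K.index = Nat.card H * H.index := h2
    _ ≤ Nat.card H * K.index := Nat.mul_le_mul_left _ h

/-- A normal subgroup with cyclic abelianized quotient has cyclic quotient. -/
theorem sup_zpowers_eq_top (hQ : IsPGroup p Q) {R : Subgroup Q}
    (hi : (R ⊔ commutator Q).index = p) : ∃ y, R ⊔ Subgroup.zpowers y = ⊤ := by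
  have hne : R ⊔ commutator Q ≠ ⊤ := fun h => hp.out.one_lt.ne' (by rw [← hi, h, Subgroup.index_top])
  obtain ⟨y, -, hy⟩ := SetLike.exists_of_lt hne.lt_top
  refine ⟨y, frattini_nongenerating (eq_top_iff.2 ?_)⟩
  have h : R ⊔ commutator Q ⊔ Subgroup.zpowers y = ⊤ := by
    have hdvd := Subgroup.index_dvd_of_le (le_sup_left : R ⊔ commutator Q ≤ R ⊔ commutator Q ⊔ Subgroup.zpowers y)
    rw [hi, Nat.dvd_prime hp.out] at hdvd
    refine Subgroup.index_eq_one.1 (hdvd.resolve_right fun h => hy ?_)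
    have := eq_of_le_of_index_le (le_sup_left : R ⊔ commutator Q ≤ R ⊔ commutator Q ⊔ Subgroup.zpowers y)
      (by rw [hi, h])
    rw [this]
    exact Subgroup.mem_sup_right (Subgroup.mem_zpowers y)
  rw [← h]
  exact sup_le (sup_le (le_sup_of_le_left le_sup_left)
    (le_sup_of_le_right (CfsgLib.PGroups.commutator_le_frattini hQ))) (le_sup_of_le_left le_sup_right)

theorem index_eq_of_sup_commutator (hQ : IsPGroup p Q) {R : Subgroup Q} [R.Normal]
    (hi : (R ⊔ commutator Q).index = p) : commutator Q ≤ R ∧ R.index = p := by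
  obtain ⟨y, hy⟩ := sup_zpowers_eq_top hQ hi
  have h : commutator Q ≤ R := commutator_le_of_generator hy
    (fun r hr s hs => Subgroup.commutator_le_self R (Subgroup.commutator_mem_commutator hr hs))
    fun r hr => by
      rw [commutatorElement_def, mul_assoc r y, mul_assoc]
      exact R.mul_mem hr ((inferInstance : R.Normal).conj_mem _ (R.inv_mem hr) y)
  refine ⟨h, ?_⟩
  rwa [sup_eq_left.2 h] at hi

/-- The centralizer in an abelian subgroup of index `p`, when the abelianization has order `p²`. -/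
theorem card_centralizer_of_abelian (hQ : IsPGroup p Q) (hd : (commutator Q).index = p ^ 2)
    {R : Subgroup Q} [R.Normal] (hR : R.index = p) (hab : ∀ r ∈ R, ∀ s ∈ R, r * s = s * r)
    {y : Q} (hy : y ∉ R) : Nat.card (Subgroup.centralizer ({y} : Set Q)) = p ^ 2 := by
  have hgen : R ⊔ Subgroup.zpowers y = ⊤ := by
    have hdvd := Subgroup.index_dvd_of_le (le_sup_left : R ≤ R ⊔ Subgroup.zpowers y)
    rw [hR, Nat.dvd_prime hp.out] at hdvd
    refine Subgroup.index_eq_one.1 (hdvd.resolve_right fun h => hy ?_)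
    rw [eq_of_le_of_index_le (le_sup_left : R ≤ R ⊔ Subgroup.zpowers y) (by rw [hR, h])]
    exact Subgroup.mem_sup_right (Subgroup.mem_zpowers y)
  have hRn : R.Normal := inferInstance
  have hmem : ∀ r ∈ R, ⁅r, y⁆ ∈ R := fun r hr => by
    rw [commutatorElement_def, mul_assoc r y, mul_assoc]
    exact R.mul_mem hr (hRn.conj_mem _ (R.inv_mem hr) y)
  let f : R →* Q :=
    { toFun := fun r => ⁅(r : Q), y⁆
      map_one' := by simp
      map_mul' := fun r s => by
        have h := hab _ r.2 _ (hmem s s.2)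
        calc ⁅(r : Q) * s, y⁆ = (r : Q) * ⁅(s : Q), y⁆ * (r : Q)⁻¹ * ⁅(r : Q), y⁆ := by
              simp only [commutatorElement_def]; group
          _ = ⁅(s : Q), y⁆ * ⁅(r : Q), y⁆ := by rw [h, mul_inv_cancel_right]
          _ = ⁅(r : Q), y⁆ * ⁅(s : Q), y⁆ := hab _ (hmem s s.2) _ (hmem r r.2) }
  have hfR : f.range ≤ R := by rintro _ ⟨r, rfl⟩; exact hmem r r.2
  haveI hfn : f.range.Normal := by
    refine ⟨fun v hv g => ?_⟩
    obtain ⟨s, hs, t, ht, rfl⟩ := Subgroup.mem_sup_of_normal_left.1 (hgen ▸ Subgroup.mem_top g)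
    obtain ⟨i, rfl⟩ := Subgroup.mem_zpowers_iff.1 ht
    obtain ⟨r, rfl⟩ := hv
    have h2 : y ^ i * f r * (y ^ i)⁻¹ = f ⟨y ^ i * r * (y ^ i)⁻¹, hRn.conj_mem _ r.2 _⟩ := by
      have hc : y ^ i * y = y * y ^ i := ((Commute.refl y).zpow_left i).eq
      show y ^ i * ⁅(r : Q), y⁆ * (y ^ i)⁻¹ = ⁅y ^ i * (r : Q) * (y ^ i)⁻¹, y⁆
      rw [conjugate_commutatorElement, hc, mul_inv_cancel_right]
    have h3 : s * y ^ i * f r * (s * y ^ i)⁻¹ = f ⟨y ^ i * r * (y ^ i)⁻¹, hRn.conj_mem _ r.2 _⟩ := by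
      rw [show s * y ^ i * f r * (s * y ^ i)⁻¹ = s * (y ^ i * f r * (y ^ i)⁻¹) * s⁻¹ by group, h2,
        hab _ hs _ (hfR ⟨_, rfl⟩), mul_inv_cancel_right]
    exact h3 ▸ ⟨_, rfl⟩
  have hrange : f.range = commutator Q := by
    refine le_antisymm ?_ (commutator_le_of_generator hgen
      (fun r hr s hs => by rw [commutatorElement_eq_one_iff_mul_comm.2 (hab r hr s hs)]; exact one_mem _)
      fun r hr => ⟨⟨r, hr⟩, rfl⟩)
    rintro _ ⟨r, rfl⟩
    exact Subgroup.commutator_mem_commutator (Subgroup.mem_top _) (Subgroup.mem_top _)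
  set C := Subgroup.centralizer ({y} : Set Q)
  have hker : f.ker = C.subgroupOf R := by
    ext r
    rw [MonoidHom.mem_ker, Subgroup.mem_subgroupOf, Subgroup.mem_centralizer_singleton_iff]
    exact commutatorElement_eq_one_iff_mul_comm
  have hCR : Nat.card (C.subgroupOf R) = p := by
    have h1 := Subgroup.card_mul_index f.ker
    rw [Subgroup.index_ker, hker, hrange] at h1
    have h2 := Subgroup.card_mul_index R
    have h3 := Subgroup.card_mul_index (commutator Q)
    rw [hR] at h2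
    rw [hd] at h3
    rw [← h1] at h2
    refine Nat.eq_of_mul_eq_mul_right (Nat.card_pos (α := commutator Q)) ?_
    refine Nat.eq_of_mul_eq_mul_right hp.out.pos ?_
    rw [h2, ← h3, pow_two]; ring
  have hidx : R.relIndex C = p := by
    have hdvd : R.relIndex C ∣ p := hR ▸ Subgroup.relIndex_dvd_index_of_normal R C
    refine ((Nat.dvd_prime hp.out).1 hdvd).resolve_left fun h => hy ?_
    exact Subgroup.relIndex_eq_one.1 h (Subgroup.mem_centralizer_singleton_iff.2 rfl)
  have h4 := Subgroup.card_mul_index (R.subgroupOf C)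
  rw [show (R.subgroupOf C).index = p from hidx] at h4
  rw [← h4, pow_two]
  congr 1
  rw [← hCR]
  exact Nat.card_congr
    { toFun := fun r => ⟨⟨((r : C) : Q), r.2⟩, (r : C).2⟩
      invFun := fun r => ⟨⟨((r : R) : Q), r.2⟩, (r : R).2⟩
      left_inv := fun _ => rfl
      right_inv := fun _ => rfl }

end Cyclic

section Power

variable {ι : Type} [Fintype ι] [DecidableEq ι] {T : Type} [Group T] [Finite T] [IsSimpleGroup T]
  {Q : Type u} [Group Q] [Finite Q] {p : ℕ} [hp : Fact p.Prime]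

/-- A subgroup with coordinates in a power of a simple group, all of them Sylow subgroups, with
coordinates permuted by conjugation, and of cyclic quotient: it is abelian. -/
theorem abelian_of_coordinates (hQ : IsPGroup p Q) (hd : (commutator Q).index = p ^ 2)
    (hT : ¬ IsMulCommutative T) {R : Subgroup Q} [R.Normal] (hR : R.index = p)
    (hRd : commutator Q ≤ R) (e : R →* (ι → T)) (S : ι → Sylow p T)
    (hS : ∀ v : ι → T, v ∈ e.range ↔ ∀ i, v i ∈ (S i : Subgroup T)) (he : Function.Injective e)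
    (hm : ∃ i j : ι, i ≠ j) (hpT : p ∣ Nat.card T)
    (hact : ∀ g : Q, ∃ α : (ι → T) ≃* (ι → T),
      ∀ r : R, e ⟨g * r * g⁻¹, (inferInstance : R.Normal).conj_mem _ r.2 g⟩ = α (e r)) :
    ∀ r ∈ R, ∀ s ∈ R, r * s = s * r := by
  classical
  have hRn : R.Normal := inferInstance
  choose α hα using hact
  have hperm := fun g => CfsgLib.AltGroups.exists_perm_of_mulEquiv_pi hT (α g)
  choose π a hπb hπ using hperm
  -- elements supported at one coordinate
  have hsupp : ∀ i, ∀ t ∈ (S i : Subgroup T), ∃ r : R, e r = Pi.mulSingle i t := fun i t ht => by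
    refine (hS (Pi.mulSingle i t)).2 fun j => ?_
    by_cases hj : j = i
    · subst hj; simpa using ht
    · rw [Pi.mulSingle_eq_of_ne hj]; exact one_mem _
  have hne : ∀ i, ∃ t ∈ (S i : Subgroup T), t ≠ 1 := fun i => by
    have h := (S i).ne_bot_of_dvd_card hpT
    obtain ⟨t, ht, ht1⟩ := (Subgroup.ne_bot_iff_exists_ne_one.1 h : ∃ t : (S i : Subgroup T), t ≠ 1) |>
      fun ⟨t, h1⟩ => (⟨t.1, t.2, fun h => h1 (Subtype.ext h)⟩ : ∃ t ∈ (S i : Subgroup T), t ≠ 1)
    exact ⟨t, ht, ht1⟩
  -- classes modulo the derived subgroup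
  have hRq : ((commutator Q).subgroupOf R).index = p := by
    have h := Subgroup.relIndex_mul_index hRd
    rw [hd, hR, pow_two] at h
    exact Nat.eq_of_mul_eq_mul_right hp.out.pos h
  haveI : ((commutator Q).subgroupOf R).Normal := inferInstance
  have hgen : ∀ r : R, (r : Q) ∉ commutator Q →
      Subgroup.zpowers (QuotientGroup.mk' ((commutator Q).subgroupOf R) r) = ⊤ := fun r hr =>
    zpowers_eq_top_of_prime_card (p := p) (by rw [← Subgroup.index_eq_card, hRq])
      fun h => hr ((QuotientGroup.eq_one_iff r).1 h)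
  by_cases hmove : ∃ (g : Q) (j : ι), π g j ≠ j
  · obtain ⟨g, j, hgj⟩ := hmove
    have hgpow : g ^ p ∈ R := by
      have := R.pow_index_mem g
      rwa [hR] at this
    -- coordinates of the iterated conjugates
    have hiter : ∀ n : ℕ, ∀ r : R, ∀ i, ∃ b : T ≃* T,
        e ⟨g ^ n * r * (g ^ n)⁻¹, hRn.conj_mem _ r.2 _⟩ i = b (e r ((π g)^[n] i)) ∧
        ∀ s : R, e ⟨g ^ n * s * (g ^ n)⁻¹, hRn.conj_mem _ s.2 _⟩ i = b (e s ((π g)^[n] i)) := by
      intro n
      induction n with
      | zero =>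
        intro r i
        have h0 : ∀ s : R, (⟨g ^ 0 * s * (g ^ 0)⁻¹, hRn.conj_mem _ s.2 _⟩ : R) = s := fun s =>
          Subtype.ext (by simp)
        exact ⟨MulEquiv.refl T, by rw [h0]; rfl, fun s => by rw [h0]; rfl⟩
      | succ n ih =>
        intro r i
        obtain ⟨b, -, hb⟩ := ih r (π g i)
        have key : ∀ s : R, e ⟨g ^ (n + 1) * s * (g ^ (n + 1))⁻¹, hRn.conj_mem _ s.2 _⟩ i =
            (b.trans (a g i)) (e s ((π g)^[n + 1] i)) := fun s => by
          rw [show (⟨g ^ (n + 1) * s * (g ^ (n + 1))⁻¹, hRn.conj_mem _ s.2 _⟩ : R) =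
            ⟨g * ((⟨g ^ n * s * (g ^ n)⁻¹, hRn.conj_mem _ s.2 _⟩ : R) : Q) * g⁻¹,
              hRn.conj_mem _ (hRn.conj_mem _ s.2 _) g⟩ from Subtype.ext (by
              simp only [pow_succ']; group), hα, hπ, hb, Function.iterate_succ_apply]
          rfl
        exact ⟨_, key r, key⟩
    have hper : ∀ i, (π g)^[p] i = i := by
      intro i
      by_contra hi
      obtain ⟨t, ht, ht1⟩ := hne ((π g)^[p] i)
      obtain ⟨r, hr⟩ := hsupp _ t ht
      obtain ⟨b, hb, -⟩ := hiter p r i
      rw [hr, Pi.mulSingle_eq_same, show (⟨g ^ p * r * (g ^ p)⁻¹, hRn.conj_mem _ r.2 _⟩ : R) =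
        ⟨g ^ p, hgpow⟩ * r * ⟨g ^ p, hgpow⟩⁻¹ from rfl, map_mul, map_mul, Pi.mul_apply, Pi.mul_apply,
        map_inv, Pi.inv_apply, hr, Pi.mulSingle_eq_of_ne (Ne.symm hi), mul_one, mul_inv_cancel] at hb
      exact ht1 (b.map_eq_one_iff.1 hb.symm)
    have horb : ∀ n, 0 < n → n < p → (π g)^[n] j ≠ j := by
      intro n hn0 hnp h
      have h1 : Function.IsPeriodicPt (π g) n j := h
      have h2 : Function.IsPeriodicPt (π g) p j := hper j
      have h3 := h1.gcd h2
      rw [
        Nat.Coprime.gcd_eq_one ((hp.out.coprime_iff_not_dvd.2 (Nat.not_dvd_of_pos_of_lt hn0 hnp)).symm)] at h3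
      exact hgj h3
    -- the norm map
    let A := Abelianization (S j : Subgroup T)
    have hSj : ∀ (r : R) (i : ι), e r i ∈ (S i : Subgroup T) := fun r i => (hS _).1 ⟨r, rfl⟩ i
    let cj : R →* A := Abelianization.of.comp
      (((Pi.evalMonoidHom (fun _ : ι => T) j).comp e).codRestrict _ fun r => hSj r j)
    let ψ : ℕ → (R →* A) := fun n => cj.comp
      (MulAut.conjNormal (H := R) (g ^ n)).toMonoidHom
    let Φ : R →* A := ∏ n ∈ Finset.range p, ψ n
    have hψ : ∀ (n : ℕ) (r : R), ψ n r =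
        cj ⟨g ^ n * r * (g ^ n)⁻¹, hRn.conj_mem _ r.2 _⟩ := fun n r =>
      congrArg cj (Subtype.ext (MulAut.conjNormal_apply (g ^ n) r))
    have hinv : ∀ r : R, Φ ⟨g * r * g⁻¹, hRn.conj_mem _ r.2 g⟩ = Φ r := by
      intro r
      simp only [Φ, MonoidHom.finsetProd_apply]
      have h1 : ∀ n, ψ n ⟨g * r * g⁻¹, hRn.conj_mem _ r.2 g⟩ = ψ (n + 1) r := fun n => by
        rw [hψ, hψ]
        exact congrArg cj (Subtype.ext (by simp only [pow_succ]; group))
      have hp0 : ψ p r = ψ 0 r := by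
        rw [hψ, hψ, show (⟨g ^ p * r * (g ^ p)⁻¹, hRn.conj_mem _ r.2 _⟩ : R) =
          ⟨g ^ p, hgpow⟩ * r * ⟨g ^ p, hgpow⟩⁻¹ from rfl, map_mul, map_mul, map_inv,
          mul_inv_cancel_comm]
        exact congrArg cj (Subtype.ext (by simp))
      rw [Finset.prod_congr rfl fun n _ => h1 n]
      have h2 := Finset.prod_range_succ' (fun n => ψ n r) p
      rw [Finset.prod_range_succ, hp0] at h2
      exact (mul_right_cancel h2).symm
    have hker : commutator Q ≤ Φ.ker.map R.subtype := by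
      obtain ⟨y, hy⟩ : ∃ y, R ⊔ Subgroup.zpowers y = ⊤ :=
        sup_zpowers_eq_top hQ (by rw [sup_eq_left.2 hRd, hR])
      have hgR : g ∉ R := fun hg => by
        obtain ⟨t, ht, ht1⟩ := hne (π g j)
        obtain ⟨r, hr⟩ := hsupp _ t ht
        have h := hα g r
        rw [show (⟨g * r * g⁻¹, hRn.conj_mem _ r.2 g⟩ : R) = ⟨g, hg⟩ * r * ⟨g, hg⟩⁻¹ from rfl,
          map_mul, map_mul, map_inv] at h
        have hj := congrFun h j
        rw [Pi.mul_apply, Pi.mul_apply, Pi.inv_apply, hπ, hr, Pi.mulSingle_eq_of_ne (Ne.symm hgj),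
          Pi.mulSingle_eq_same, mul_one, mul_inv_cancel] at hj
        exact ht1 ((a g j).map_eq_one_iff.1 hj.symm)
      have hgen' : R ⊔ Subgroup.zpowers g = ⊤ := by
        have hdvd := Subgroup.index_dvd_of_le (le_sup_left : R ≤ R ⊔ Subgroup.zpowers g)
        rw [hR, Nat.dvd_prime hp.out] at hdvd
        refine Subgroup.index_eq_one.1 (hdvd.resolve_right fun h => hgR ?_)
        rw [eq_of_le_of_index_le (le_sup_left : R ≤ R ⊔ Subgroup.zpowers g) (by rw [hR, h])]
        exact Subgroup.mem_sup_right (Subgroup.mem_zpowers g)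
      haveI : (Φ.ker.map R.subtype).Normal := by
        rw [← Subgroup.normalizer_eq_top_iff, eq_top_iff, ← hgen', sup_le_iff, Subgroup.zpowers_le]
        constructor
        · intro r hr
          rw [Subgroup.mem_normalizer_iff]
          have hfix : ∀ z : R, Φ (⟨r, hr⟩ * z * ⟨r, hr⟩⁻¹) = Φ z := fun z => by
            rw [map_mul, map_mul, map_inv, mul_inv_cancel_comm]
          intro z
          constructor
          · rintro ⟨w, hw, rfl⟩
            exact ⟨⟨r, hr⟩ * w * ⟨r, hr⟩⁻¹, (hfix w).trans hw, rfl⟩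
          · rintro ⟨w, hw, hwz⟩
            refine ⟨⟨r, hr⟩⁻¹ * w * ⟨r, hr⟩, ?_, ?_⟩
            · show Φ _ = 1
              rw [map_mul, map_mul, map_inv, show Φ w = 1 from hw, mul_one, inv_mul_cancel]
            · show r⁻¹ * (w : Q) * r = z
              rw [show (w : Q) = r * z * r⁻¹ from hwz]; group
        · rw [Subgroup.mem_normalizer_iff]
          intro z
          constructor
          · rintro ⟨w, hw, rfl⟩
            exact ⟨⟨g * w * g⁻¹, hRn.conj_mem _ w.2 g⟩, (hinv w).trans hw, rfl⟩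
          · rintro ⟨w, hw, hwz⟩
            have hzR : z ∈ R := by
              have h := hRn.conj_mem _ w.2 g⁻¹
              rw [show g⁻¹ * (w : Q) * g⁻¹⁻¹ = z by rw [show (w : Q) = g * z * g⁻¹ from hwz]; group] at h
              exact h
            refine ⟨⟨z, hzR⟩, ?_, rfl⟩
            show Φ ⟨z, hzR⟩ = 1
            rw [← hinv ⟨z, hzR⟩, show (⟨g * z * g⁻¹, hRn.conj_mem _ hzR g⟩ : R) = w from
              Subtype.ext hwz.symm]
            exact hw
      refine commutator_le_of_generator hgen' (fun r hr s hs => ?_) (fun r hr => ?_)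
      · refine ⟨⁅(⟨r, hr⟩ : R), ⟨s, hs⟩⁆, ?_, map_commutatorElement R.subtype _ _⟩
        show Φ _ = 1
        rw [map_commutatorElement, commutatorElement_eq_one_iff_mul_comm]
        exact mul_comm _ _
      · refine ⟨⟨r, hr⟩ * (⟨g * r * g⁻¹, hRn.conj_mem _ hr g⟩ : R)⁻¹, ?_, ?_⟩
        · show Φ _ = 1
          rw [map_mul, map_inv, hinv ⟨r, hr⟩, mul_inv_cancel]
        · show r * (g * r * g⁻¹)⁻¹ = ⁅r, g⁆
          rw [commutatorElement_def]; group
    -- the abelianization of a coordinate has order at most p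
    have hsurj : Function.Surjective Φ := by
      intro x
      obtain ⟨⟨t, ht⟩, rfl⟩ := QuotientGroup.mk_surjective x
      obtain ⟨r, hr⟩ := hsupp j t ht
      refine ⟨r, ?_⟩
      simp only [Φ, MonoidHom.finsetProd_apply]
      rw [Finset.prod_eq_single_of_mem 0 (Finset.mem_range.2 hp.out.pos) fun n hn hn0 => ?_]
      · rw [hψ, show (⟨g ^ 0 * r * (g ^ 0)⁻¹, hRn.conj_mem _ r.2 _⟩ : R) = r from
          Subtype.ext (by simp)]
        exact congrArg Abelianization.of (Subtype.ext (show e r j = t by rw [hr, Pi.mulSingle_eq_same]))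
      · rw [hψ]
        obtain ⟨b, hb, -⟩ := hiter n r j
        rw [hr, Pi.mulSingle_eq_of_ne (horb n (Nat.pos_of_ne_zero hn0) (Finset.mem_range.1 hn)),
          map_one] at hb
        exact (congrArg Abelianization.of (Subtype.ext (a2 := (1 : (S j : Subgroup T))) hb)).trans
          (map_one _)
    have hcard : Nat.card A ∣ p := by
      have h1 : Φ.ker.index = Nat.card A := by
        rw [Subgroup.index_ker, MonoidHom.range_eq_top.2 hsurj, Subgroup.card_top]
      refine h1 ▸ (Subgroup.index_dvd_of_le (H := (commutator Q).subgroupOf R) fun r hr => ?_).trans hRq.dvd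
      obtain ⟨w, hw, hwr⟩ := hker hr
      exact (Subtype.ext hwr : w = r) ▸ hw
    haveI : IsCyclic A := by
      rcases (Nat.dvd_prime hp.out).1 hcard with h | h
      · haveI := (Nat.card_eq_one_iff_unique.1 h).1
        exact isCyclic_of_subsingleton
      · exact isCyclic_of_prime_card h
    have hab : ∀ x y : (S j : Subgroup T), x * y = y * x := by
      obtain ⟨z, hz⟩ := IsCyclic.exists_generator (α := A)
      obtain ⟨z, rfl⟩ := QuotientGroup.mk_surjective z
      have hzt : Subgroup.zpowers z = ⊤ := by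
        refine frattini_nongenerating (eq_top_iff.2 fun x _ => ?_)
        obtain ⟨i, hi⟩ := Subgroup.mem_zpowers_iff.1 (hz (Abelianization.of x))
        have hx : (z ^ i)⁻¹ * x ∈ commutator (S j : Subgroup T) := by
          rw [← QuotientGroup.eq]
          exact hi
        rw [← mul_inv_cancel_left (z ^ i) x]
        exact mul_mem (Subgroup.mem_sup_left (Subgroup.zpow_mem_zpowers z i))
          (Subgroup.mem_sup_right (CfsgLib.PGroups.commutator_le_frattini (S j).2 hx))
      intro x y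
      obtain ⟨i, rfl⟩ := Subgroup.mem_zpowers_iff.1 (hzt ▸ Subgroup.mem_top x)
      obtain ⟨k, rfl⟩ := Subgroup.mem_zpowers_iff.1 (hzt ▸ Subgroup.mem_top y)
      exact ((Commute.refl z).zpow_zpow i k).eq
    -- all the coordinates
    intro r hr s hs
    have hrs : (⟨r, hr⟩ : R) * ⟨s, hs⟩ = ⟨s, hs⟩ * ⟨r, hr⟩ := by
      refine he (funext fun i => ?_)
      obtain ⟨c, hc⟩ := MulAction.exists_smul_eq T (S j) (S i)
      have hconj : ∀ x ∈ (S i : Subgroup T), c⁻¹ * x * c ∈ (S j : Subgroup T) := fun x hx => by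
        rw [← hc, Sylow.coe_subgroup_smul, Subgroup.mem_pointwise_smul_iff_inv_smul_mem] at hx
        simpa using hx
      have h := congrArg Subtype.val (hab ⟨_, hconj _ (hSj ⟨r, hr⟩ i)⟩ ⟨_, hconj _ (hSj ⟨s, hs⟩ i)⟩)
      simp only [Subgroup.coe_mul] at h
      rw [map_mul, map_mul, Pi.mul_apply, Pi.mul_apply]
      refine mul_right_cancel (b := c) (mul_left_cancel (a := c⁻¹) ?_)
      calc c⁻¹ * (e ⟨r, hr⟩ i * e ⟨s, hs⟩ i * c)
          = (c⁻¹ * e ⟨r, hr⟩ i * c) * (c⁻¹ * e ⟨s, hs⟩ i * c) := by group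
        _ = _ := h
        _ = c⁻¹ * (e ⟨s, hs⟩ i * e ⟨r, hr⟩ i * c) := by group
    exact congrArg Subtype.val hrs
  · -- no coordinate moves: impossible
    exfalso
    push Not at hmove
    obtain ⟨i, j, hij⟩ := hm
    have hSi : ∀ (r : R) (i : ι), e r i ∈ (S i : Subgroup T) := fun r i => (hS _).1 ⟨r, rfl⟩ i
    -- the derived subgroup is not onto at any coordinate
    have hproper : ∀ i, ∃ t ∈ (S i : Subgroup T), ∀ r : R, (r : Q) ∈ commutator Q → e r i ≠ t := by
      intro i
      by_contra hall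
      push Not at hall
      have key : ∀ n : ℕ, ∀ t ∈ (S i : Subgroup T), ∃ r : R,
          (r : Q) ∈ (⊤ : Subgroup Q).lowerCentralSeries (n + 1) ∧ e r i = t := by
        intro n
        induction n with
        | zero =>
          intro t ht
          obtain ⟨r, hr, hrt⟩ := hall t ht
          refine ⟨r, ?_, hrt⟩
          rw [Nat.zero_add, Subgroup.top_lowerCentralSeries_one]
          exact hr
        | succ n ih =>
          intro t ht
          obtain ⟨r, hr, hrt⟩ := hall t ht
          let U : Subgroup Q :=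
            (((⊤ : Subgroup Q).lowerCentralSeries (n + 1 + 1)).subgroupOf R ⊔
              ((Pi.evalMonoidHom (fun _ : ι => T) i).comp e).ker).map R.subtype
          haveI hUn : U.Normal := by
            refine ⟨fun z hz x => ?_⟩
            obtain ⟨w, hw, rfl⟩ := hz
            obtain ⟨u, hu, v, hv, rfl⟩ := Subgroup.mem_sup_of_normal_left.1 hw
            refine ⟨⟨x * u * x⁻¹, hRn.conj_mem _ u.2 x⟩ * ⟨x * v * x⁻¹, hRn.conj_mem _ v.2 x⟩,
              Subgroup.mul_mem_sup ?_ ?_, ?_⟩
            · exact (inferInstance : ((⊤ : Subgroup Q).lowerCentralSeries (n + 1 + 1)).Normal).conj_mem _ hu x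
            · show e _ i = 1
              rw [hα, hπ, hmove x i, show e v i = 1 from hv, map_one]
            · simp [mul_assoc]
          have hU : commutator Q ≤ U := by
            obtain ⟨y, hy⟩ : ∃ y, R ⊔ Subgroup.zpowers y = ⊤ :=
              sup_zpowers_eq_top hQ (by rw [sup_eq_left.2 hRd, hR])
            have hmain : ∀ a ∈ R, ∀ b : Q, ⁅a, b⁆ ∈ U := by
              intro a ha b
              obtain ⟨a', ha', hae⟩ := ih _ (hSi ⟨a, ha⟩ i)
              have hk : (a'⁻¹ * ⟨a, ha⟩ : R) ∈ ((Pi.evalMonoidHom (fun _ : ι => T) i).comp e).ker := by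
                show e _ i = 1
                rw [map_mul, map_inv, Pi.mul_apply, Pi.inv_apply, hae, inv_mul_cancel]
              have h1 : ⁅(a' : Q), b⁆ ∈ U := by
                refine ⟨⟨⁅(a' : Q), b⁆, hRd (Subgroup.commutator_mem_commutator (Subgroup.mem_top _) (Subgroup.mem_top _))⟩,
                  Subgroup.mem_sup_left ?_, rfl⟩
                show ⁅(a' : Q), b⁆ ∈ (⊤ : Subgroup Q).lowerCentralSeries (n + 1 + 1)
                rw [Subgroup.lowerCentralSeries_succ]
                exact Subgroup.commutator_mem_commutator ha' (Subgroup.mem_top b)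
              have h2 : ((a' : Q)⁻¹ * a) ∈ U := ⟨a'⁻¹ * ⟨a, ha⟩, Subgroup.mem_sup_right hk, rfl⟩
              have h3 : ⁅(a' : Q)⁻¹ * a, b⁆ ∈ U := by
                rw [commutatorElement_def, show ((a' : Q)⁻¹ * a) * b * ((a' : Q)⁻¹ * a)⁻¹ * b⁻¹ =
                  ((a' : Q)⁻¹ * a) * (b * ((a' : Q)⁻¹ * a)⁻¹ * b⁻¹) by group]
                exact U.mul_mem h2 (hUn.conj_mem _ (U.inv_mem h2) b)
              rw [show ⁅a, b⁆ = (a' : Q) * ⁅(a' : Q)⁻¹ * a, b⁆ * (a' : Q)⁻¹ * ⁅(a' : Q), b⁆ by
                simp only [commutatorElement_def]; group]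
              exact U.mul_mem (hUn.conj_mem _ h3 _) h1
            exact commutator_le_of_generator hy (fun a ha b _ => hmain a ha b) fun a ha => hmain a ha y
          obtain ⟨w, hw, hwr⟩ := hU hr
          obtain ⟨u, hu, v, hv, rfl⟩ := Subgroup.mem_sup_of_normal_left.1 hw
          refine ⟨u, hu, ?_⟩
          rw [← hrt, ← show u * v = r from Subtype.ext hwr, map_mul, Pi.mul_apply,
            show e v i = 1 from hv, mul_one]
      obtain ⟨k, hk⟩ := Subgroup.nilpotent_iff_lowerCentralSeries.1 hQ.isNilpotent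
      obtain ⟨t, ht, ht1⟩ := hne i
      obtain ⟨r, hr, hrt⟩ := key k t ht
      have h0 := Subgroup.lowerCentralSeries_antitone (⊤ : Subgroup Q) (Nat.le_succ k) hr
      rw [hk, Subgroup.mem_bot] at h0
      rw [show r = 1 from Subtype.ext h0, map_one] at hrt
      exact ht1 hrt.symm
    obtain ⟨t, ht, htc⟩ := hproper i
    obtain ⟨r, hr⟩ := hsupp i t ht
    have hrc : (r : Q) ∉ commutator Q := fun h => htc r h (by rw [hr, Pi.mulSingle_eq_same])
    obtain ⟨u, hu, huc⟩ := hproper j
    obtain ⟨s, hs⟩ := hsupp j u hu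
    obtain ⟨k, hk⟩ := Subgroup.mem_zpowers_iff.1
      ((hgen r hrc) ▸ Subgroup.mem_top (QuotientGroup.mk' ((commutator Q).subgroupOf R) s))
    have hmem : ((r ^ k)⁻¹ * s : R) ∈ (commutator Q).subgroupOf R := by
      rw [← QuotientGroup.eq]
      exact hk
    refine huc ((r ^ k)⁻¹ * s) (Subgroup.mem_subgroupOf.1 hmem) ?_
    rw [map_mul, map_inv, map_zpow, Pi.mul_apply, Pi.inv_apply, Pi.pow_apply, hr, hs,
      Pi.mulSingle_eq_same, Pi.mulSingle_eq_of_ne hij.symm, one_zpow, inv_one, one_mul]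

end Power

end CfsgLib.ZerosCodegree
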