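import Mathlib

/-!
# Families of non-degenerate alternating forms

A space of alternating bilinear forms on a space of dimension `d` over a prime field, all non-zero
members of which are non-degenerate, has dimension at most `d / 2`: the Pfaffian of the generic
member is a polynomial of degree `d / 2` with the origin as only zero (Chevalley–Warning).
-/

set_option autoImplicit false
set_option linter.unusedSectionVars false
set_option linter.style.haveILetI false

open Matrix

namespace CfsgLib.ZerosCodegree.AlternatingFamily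

/-- The determinant of an alternating matrix over a field is a square. -/
theorem det_isSquare {L : Type*} [Field L] : ∀ (d : ℕ) {ι : Type} [Fintype ι] [DecidableEq ι],
    Fintype.card ι = d → ∀ A : Matrix ι ι L, (∀ i j, A j i = - A i j) → (∀ i, A i i = 0) →
      ∃ s : L, A.det = s * s := by
  intro d
  induction d using Nat.strong_induction_on with
  | _ d ih =>
    intro ι _ _ hd A hskew hdiag
    classical
    by_cases h0 : ∀ i j, A i j = 0
    · have hA : A = 0 := Matrix.ext h0
      rcases isEmpty_or_nonempty ι with hι | hι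
      · exact ⟨1, by rw [Matrix.det_isEmpty, one_mul]⟩
      · exact ⟨0, by rw [hA, Matrix.det_zero, mul_zero]⟩
    push Not at h0
    obtain ⟨i, j, hij⟩ := h0
    have hne : i ≠ j := fun h => hij (h ▸ hdiag i)
    let g : Fin 2 → {x : ι // x = i ∨ x = j} := ![⟨i, Or.inl rfl⟩, ⟨j, Or.inr rfl⟩]
    have hg : Function.Bijective g := by
      refine ⟨fun a b h => ?_, fun x => ?_⟩
      · have h' := congrArg Subtype.val h
        fin_cases a <;> fin_cases b
        · rfl
        · exact absurd h' hne
        · exact absurd h'.symm hne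
        · rfl
      · rcases x.2 with h | h
        · exact ⟨0, Subtype.ext h.symm⟩
        · exact ⟨1, Subtype.ext h.symm⟩
    let e : Fin 2 ⊕ {x : ι // ¬(x = i ∨ x = j)} ≃ ι :=
      (Equiv.sumCongr (Equiv.ofBijective g hg) (Equiv.refl _)).trans
        (Equiv.sumCompl fun x => x = i ∨ x = j)
    have he0 : e (Sum.inl 0) = i := rfl
    have he1 : e (Sum.inl 1) = j := rfl
    set M := A.submatrix e e with hM
    have hMskew : ∀ a b, M b a = - M a b := fun a b => hskew _ _
    have hMdiag : ∀ a, M a a = 0 := fun a => hdiag _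
    set a := A i j with ha
    have hM01 : M (Sum.inl 0) (Sum.inl 1) = a := by simp [hM, he0, he1, ha]
    have hM10 : M (Sum.inl 1) (Sum.inl 0) = -a := by rw [hMskew, hM01]
    let T : Matrix (Fin 2) (Fin 2) L := M.toBlocks₁₁
    have hT : T = !![0, a; -a, 0] := by
      ext p q
      fin_cases p <;> fin_cases q <;>
        simp [T, Matrix.toBlocks₁₁, hMdiag, hM01, hM10]
    have hTdet : T.det = a * a := by rw [hT, Matrix.det_fin_two]; simp
    have hI1 : !![0, -a⁻¹; a⁻¹, 0] * T = 1 := by
      rw [hT]
      ext p q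
      fin_cases p <;> fin_cases q <;> simp [hij]
    letI : Invertible T := ⟨!![0, -a⁻¹; a⁻¹, 0], hI1, mul_eq_one_comm.1 hI1⟩
    have hinv : (⅟T : Matrix (Fin 2) (Fin 2) L) = !![0, -a⁻¹; a⁻¹, 0] := rfl
    set S := M.toBlocks₂₂ - M.toBlocks₂₁ * ⅟T * M.toBlocks₁₂ with hS
    have hSapp : ∀ k l, S k l = M (Sum.inr k) (Sum.inr l) -
        (M (Sum.inr k) (Sum.inl 1) * a⁻¹ * M (Sum.inl 0) (Sum.inr l) -
          M (Sum.inr k) (Sum.inl 0) * a⁻¹ * M (Sum.inl 1) (Sum.inr l)) := fun k l => by
      rw [hS, hinv]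
      simp [Matrix.mul_apply, Fin.sum_univ_two, Matrix.toBlocks₂₂, Matrix.toBlocks₂₁,
        Matrix.toBlocks₁₂]
      ring
    have hcard : Fintype.card {x : ι // ¬(x = i ∨ x = j)} < d := by
      rw [← hd]
      exact Fintype.card_subtype_lt (x := i) (by simp)
    obtain ⟨s, hs⟩ := ih _ hcard rfl S (fun k l => by
      rw [hSapp, hSapp, hMskew (Sum.inr k) (Sum.inr l), hMskew (Sum.inl 1) (Sum.inr l),
        hMskew (Sum.inl 0) (Sum.inr l), hMskew (Sum.inr k) (Sum.inl 0),
        hMskew (Sum.inr k) (Sum.inl 1)]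
      ring) fun k => by
      rw [hSapp, hMdiag, hMskew (Sum.inr k) (Sum.inl 0), hMskew (Sum.inr k) (Sum.inl 1)]
      ring
    refine ⟨a * s, ?_⟩
    rw [← Matrix.det_submatrix_equiv_self e A, ← hM, ← Matrix.fromBlocks_toBlocks M,
      Matrix.det_fromBlocks₁₁, ← hS, hs, hTdet]
    ring

/-- A space of alternating forms with non-degenerate non-zero members is small. -/
theorem card_sq_le {r : ℕ} [Fact r.Prime] {E V : Type*} [AddCommGroup E] [Module (ZMod r) E]
    [AddCommGroup V] [Module (ZMod r) V] [Finite E] [Finite V] [Nontrivial V]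
    (b : E →ₗ[ZMod r] V →ₗ[ZMod r] V →ₗ[ZMod r] ZMod r) (halt : ∀ e v, b e v v = 0)
    (hnd : ∀ e, e ≠ 0 → ∀ v, (∀ w, b e v w = 0) → v = 0) :
    Nat.card E ^ 2 ≤ Nat.card V := by
  classical
  haveI : Module.Finite (ZMod r) E := Module.Finite.of_finite
  haveI : Module.Finite (ZMod r) V := Module.Finite.of_finite
  rw [Module.natCard_eq_pow_finrank (K := ZMod r) (V := E),
    Module.natCard_eq_pow_finrank (K := ZMod r) (V := V), Nat.card_zmod, ← pow_mul]
  refine Nat.pow_le_pow_right (Fact.out : r.Prime).pos ?_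
  set n := Module.finrank (ZMod r) E with hn
  set d := Module.finrank (ZMod r) V with hd
  have hd0 : 0 < d := Module.finrank_pos
  let bE := Module.finBasis (ZMod r) E
  let bV := Module.finBasis (ZMod r) V
  by_contra hlt
  have hn0 : 0 < n := by omega
  let R := MvPolynomial (Fin n) (ZMod r)
  let M : Matrix (Fin d) (Fin d) R :=
    fun i j => ∑ k, MvPolynomial.C (b (bE k) (bV i) (bV j)) * MvPolynomial.X k
  have hskew : ∀ e v w, b e w v = - b e v w := fun e v w => by
    have h := halt e (v + w)
    simp only [map_add, LinearMap.add_apply, halt, zero_add, add_zero] at h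
    exact eq_neg_of_add_eq_zero_left h
  have hMskew : ∀ i j, M j i = - M i j := fun i j => by
    show (∑ k, _) = - ∑ k, _
    rw [← Finset.sum_neg_distrib]
    exact Finset.sum_congr rfl fun k _ => by
      rw [hskew (bE k) (bV i) (bV j), map_neg, neg_mul]
  have hMdiag : ∀ i, M i i = 0 := fun i => by
    simp only [M, halt, map_zero, zero_mul, Finset.sum_const_zero]
  -- the value at a point
  let pt : (Fin n → ZMod r) → E := fun c => ∑ k, c k • bE k
  have heval : ∀ c i j, MvPolynomial.eval c (M i j) = b (pt c) (bV i) (bV j) := fun c i j => by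
    simp only [M, map_sum, map_mul, MvPolynomial.eval_C, MvPolynomial.eval_X, pt, map_smul,
      LinearMap.sum_apply, LinearMap.smul_apply, smul_eq_mul]
    exact Finset.sum_congr rfl fun k _ => mul_comm _ _
  have hdet : ∀ c, c ≠ 0 → MvPolynomial.eval c M.det ≠ 0 := by
    intro c hc h0
    rw [RingHom.map_det] at h0
    obtain ⟨v, hv, hvM⟩ := Matrix.exists_vecMul_eq_zero_iff.2 h0
    have hpt : pt c ≠ 0 := fun h => hc (funext fun k => by
      have := congrArg (fun e => bE.repr e k) h
      simpa [pt, bE.repr_sum_self, Finsupp.single_apply] using this)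
    refine hv (funext fun i => ?_)
    have hz : (∑ i, v i • bV i : V) = 0 := hnd _ hpt _ fun w => by
      have h1 : b (pt c) (∑ i, v i • bV i) = 0 := bV.ext fun j => by
        have h2 := congrFun hvM j
        simp only [Matrix.vecMul, dotProduct, RingHom.mapMatrix_apply, Matrix.map_apply, heval,
          Pi.zero_apply] at h2
        simpa [map_sum, LinearMap.sum_apply] using h2
      rw [h1, LinearMap.zero_apply]
    have := congrArg (fun x => bV.repr x i) hz
    simpa [bV.repr_sum_self, Finsupp.single_apply] using this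
  -- the Pfaffian
  let K := FractionRing R
  obtain ⟨s, hs⟩ := det_isSquare d (Fintype.card_fin d) (M.map (algebraMap R K))
    (fun i j => by simp [hMskew i j]) fun i => by simp [hMdiag i]
  have hs' : s ^ 2 = algebraMap R K M.det := by
    rw [pow_two, ← hs, RingHom.map_det]
    rfl
  obtain ⟨P, hP⟩ := IsIntegrallyClosed.exists_algebraMap_eq_of_isIntegral_pow (R := R) (x := s)
    two_pos (by rw [hs']; exact isIntegral_algebraMap)
  have hPM : M.det = P * P := by
    apply IsFractionRing.injective R K
    rw [map_mul, hP, ← hs', pow_two]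
  have hP0 : P ≠ 0 := fun h => hdet (Pi.single ⟨0, hn0⟩ 1)
    (fun hc => one_ne_zero (α := ZMod r) (by simpa using congrFun hc ⟨0, hn0⟩))
    (by rw [hPM, h, mul_zero, map_zero])
  have htot : M.det.totalDegree ≤ d := by
    rw [Matrix.det_apply]
    refine MvPolynomial.totalDegree_finsetSum_le fun σ _ => ?_
    have hent : ∀ i j, (M i j).totalDegree ≤ 1 := fun i j =>
      MvPolynomial.totalDegree_finsetSum_le fun k _ => (MvPolynomial.totalDegree_mul _ _).trans
        (by rw [MvPolynomial.totalDegree_C, MvPolynomial.totalDegree_X])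
    refine le_trans ?_ (le_trans (MvPolynomial.totalDegree_finsetProd Finset.univ
      fun i => M (σ i) i) (le_trans (Finset.sum_le_sum fun i _ => hent (σ i) i) (by simp)))
    rcases Int.units_eq_one_or (Equiv.Perm.sign σ) with h | h
    · rw [h, one_smul]
    · rw [h, Units.neg_smul, one_smul]
      exact le_of_eq (MvPolynomial.totalDegree_neg _)
  have hlt' : P.totalDegree < Fintype.card (Fin n) := by
    have h := MvPolynomial.totalDegree_mul_of_isDomain hP0 hP0
    rw [← hPM] at h
    rw [Fintype.card_fin]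
    omega
  have h00 : MvPolynomial.eval (0 : Fin n → ZMod r) P = 0 := by
    have h : MvPolynomial.eval (0 : Fin n → ZMod r) M.det = 0 := by
      rw [RingHom.map_det]
      haveI : Nonempty (Fin d) := ⟨⟨0, hd0⟩⟩
      convert Matrix.det_zero (n := Fin d) (R := ZMod r)
      ext i j
      rw [RingHom.mapMatrix_apply, Matrix.map_apply, heval]
      simp [pt]
    rw [hPM, map_mul, mul_self_eq_zero] at h
    exact h
  have hdvd := char_dvd_card_solutions r hlt'
  obtain ⟨c, hc⟩ := Fintype.exists_ne_of_one_lt_card (α := {c : Fin n → ZMod r //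
      MvPolynomial.eval c P = 0}) (lt_of_lt_of_le (Fact.out : r.Prime).one_lt
        (Nat.le_of_dvd (Fintype.card_pos_iff.2 ⟨⟨0, h00⟩⟩) hdvd)) ⟨0, h00⟩
  refine hdet c.1 (fun h => hc (Subtype.ext h)) ?_
  rw [hPM, map_mul, c.2, mul_zero]

/-- The same for groups. -/
theorem index_sq_le {r : ℕ} [Fact r.Prime] {X Y : Type*} [Group X] [Group Y] [Finite X] [Finite Y]
    (β : X → Y → Y → ZMod r) (hx : ∀ x x' a b, β (x * x') a b = β x a b + β x' a b)
    (hl : ∀ x a a' b, β x (a * a') b = β x a b + β x a' b)
    (hr : ∀ x a b b', β x a (b * b') = β x a b + β x a b')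
    (halt : ∀ x a, β x a a = 0) {E₁ : Subgroup X} {V₁ : Subgroup Y}
    (hE : ∀ x ∈ E₁, ∀ a b, β x a b = 0) (hV₁ : ∀ a ∈ V₁, ∀ x b, β x a b = 0)
    (hnd : ∀ x, x ∉ E₁ → ∀ a, (∀ b, β x a b = 0) → a ∈ V₁) (hV : V₁ ≠ ⊤) :
    E₁.index ^ 2 ≤ V₁.index := by
  classical
  by_cases hE1 : E₁ = ⊤
  · rw [hE1, Subgroup.index_top, one_pow]
    exact Nat.one_le_iff_ne_zero.2 Subgroup.index_ne_zero_of_finite
  obtain ⟨x₀, -, hx₀⟩ := SetLike.exists_of_lt (lt_of_le_of_ne le_top hE1)
  have hskew : ∀ x a b, β x b a = - β x a b := fun x a b => by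
    have h := halt x (a * b)
    rw [hl, hr, hr, halt, halt, zero_add, add_zero] at h
    exact eq_neg_of_add_eq_zero_left (by rw [add_comm]; exact h)
  let θ : Additive X →+ (Y × Y → ZMod r) :=
    AddMonoidHom.mk' (fun x p => β (Additive.toMul x) p.1 p.2)
      fun x x' => funext fun p => hx _ _ _ _
  let ψ : Additive Y →+ (X × Y → ZMod r) :=
    AddMonoidHom.mk' (fun a p => β p.1 (Additive.toMul a) p.2)
      fun a a' => funext fun p => hl _ _ _ _
  have hθ : θ.ker = Subgroup.toAddSubgroup E₁ := by
    ext x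
    refine ⟨fun h => ?_, fun h => funext fun p => hE _ h _ _⟩
    by_contra hxE
    obtain ⟨a, -, ha⟩ := SetLike.exists_of_lt (lt_of_le_of_ne le_top hV)
    exact ha (hnd _ hxE a fun b => congrFun h (a, b))
  have hψ : ψ.ker = Subgroup.toAddSubgroup V₁ := by
    ext a
    exact ⟨fun h => hnd x₀ hx₀ _ fun b => congrFun h (x₀, b),
      fun h => funext fun p => hV₁ _ h _ _⟩
  let SE : Submodule (ZMod r) (Y × Y → ZMod r) := AddSubgroup.toZModSubmodule r θ.range
  let SV : Submodule (ZMod r) (X × Y → ZMod r) := AddSubgroup.toZModSubmodule r ψ.range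
  have hcE : Nat.card SE = E₁.index := by
    show Nat.card θ.range = _
    rw [← AddSubgroup.index_ker, hθ]
    exact Subgroup.index_toAddSubgroup
  have hcV : Nat.card SV = V₁.index := by
    show Nat.card ψ.range = _
    rw [← AddSubgroup.index_ker, hψ]
    exact Subgroup.index_toAddSubgroup
  haveI : Nontrivial SV := Finite.one_lt_card_iff_nontrivial.1 (by
    rw [hcV]
    exact lt_of_le_of_ne (Nat.one_le_iff_ne_zero.2 Subgroup.index_ne_zero_of_finite)
      fun h => hV (Subgroup.index_eq_one.1 h.symm))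
  choose pre hpre using fun v : SV => v.2
  have key : ∀ (e : SE) (v : SV) (w : SV), ∀ a b, ψ a = v.1 → ψ b = w.1 →
      e.1 (Additive.toMul (pre v), Additive.toMul (pre w)) =
        e.1 (Additive.toMul a, Additive.toMul b) := by
    rintro ⟨_, x, rfl⟩ v w a b ha hb
    show β _ _ _ = β _ _ _
    have h1 := congrFun ((hpre v).trans ha.symm) (Additive.toMul x, Additive.toMul (pre w))
    have h2 := congrFun ((hpre w).trans hb.symm) (Additive.toMul x, Additive.toMul a)
    refine h1.trans ?_
    show β _ _ _ = _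
    rw [hskew _ (Additive.toMul (pre w)), hskew _ (Additive.toMul b)]
    exact congrArg Neg.neg h2
  have hadd₁ : ∀ (e : SE) (v v' w : SV),
      e.1 (Additive.toMul (pre (v + v')), Additive.toMul (pre w)) =
        e.1 (Additive.toMul (pre v), Additive.toMul (pre w)) +
          e.1 (Additive.toMul (pre v'), Additive.toMul (pre w)) := fun e v v' w => by
    rw [key e (v + v') w (pre v + pre v') (pre w) (by rw [map_add, hpre, hpre]; rfl) (hpre w)]
    obtain ⟨_, x, rfl⟩ := e
    exact hl _ _ _ _
  have hadd₂ : ∀ (e : SE) (v w w' : SV),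
      e.1 (Additive.toMul (pre v), Additive.toMul (pre (w + w'))) =
        e.1 (Additive.toMul (pre v), Additive.toMul (pre w)) +
          e.1 (Additive.toMul (pre v), Additive.toMul (pre w')) := fun e v w w' => by
    rw [key e v (w + w') (pre v) (pre w + pre w') (hpre v) (by rw [map_add, hpre, hpre]; rfl)]
    obtain ⟨_, x, rfl⟩ := e
    exact hr _ _ _ _
  let bil : SE → SV →ₗ[ZMod r] SV →ₗ[ZMod r] ZMod r := fun e =>
    AddMonoidHom.toZModLinearMap r (AddMonoidHom.mk' (fun v => AddMonoidHom.toZModLinearMap r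
      (AddMonoidHom.mk' (fun w => e.1 (Additive.toMul (pre v), Additive.toMul (pre w)))
        (hadd₂ e v))) fun v v' => LinearMap.ext fun w => hadd₁ e v v' w)
  let b : SE →ₗ[ZMod r] SV →ₗ[ZMod r] SV →ₗ[ZMod r] ZMod r :=
    AddMonoidHom.toZModLinearMap r (AddMonoidHom.mk' bil fun e e' =>
      LinearMap.ext fun v => LinearMap.ext fun w => rfl)
  have h := card_sq_le b (fun e v => by
    obtain ⟨⟨_, x, rfl⟩, rfl⟩ : ∃ e', e' = e := ⟨e, rfl⟩
    exact halt _ _) (fun e he v hv => by
    obtain ⟨_, x, rfl⟩ := e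
    have hxE : Additive.toMul x ∉ E₁ := fun h => he (Subtype.ext (funext fun p => hE _ h _ _))
    have h1 : Additive.toMul (pre v) ∈ V₁ := hnd _ hxE _ fun c => by
      exact (key ⟨_, x, rfl⟩ v ⟨ψ (Additive.ofMul c), Additive.ofMul c, rfl⟩ (pre v)
        (Additive.ofMul c) (hpre v) rfl).symm.trans (hv _)
    refine Subtype.ext ?_
    rw [← hpre v]
    exact funext fun p => hV₁ _ h1 _ _)
  rwa [hcE, hcV] at h

/-- A pairing into the prime field bounds the index of its left kernel by that of its right one. -/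
theorem index_le {r : ℕ} [Fact r.Prime] {X Y : Type*} [Group X] [Group Y] [Finite X] [Finite Y]
    (β : X → Y → ZMod r) (hx : ∀ x x' y, β (x * x') y = β x y + β x' y)
    (hy : ∀ x y y', β x (y * y') = β x y + β x y') {X₁ : Subgroup X} {Y₁ : Subgroup Y}
    (hX : ∀ x, (∀ y, β x y = 0) → x ∈ X₁) (hY : ∀ y ∈ Y₁, ∀ x, β x y = 0) :
    X₁.index ≤ Y₁.index := by
  classical
  let θ : Additive X →+ (Y → ZMod r) :=
    AddMonoidHom.mk' (fun x y => β (Additive.toMul x) y) fun x x' => funext fun y => hx _ _ _
  let ψ : Additive Y →+ (X → ZMod r) :=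
    AddMonoidHom.mk' (fun y x => β x (Additive.toMul y)) fun y y' => funext fun x => hy _ _ _
  let SE : Submodule (ZMod r) (Y → ZMod r) := AddSubgroup.toZModSubmodule r θ.range
  let SV : Submodule (ZMod r) (X → ZMod r) := AddSubgroup.toZModSubmodule r ψ.range
  choose pre hpre using fun v : SV => v.2
  have key : ∀ (e : SE) (v : SV) (a : Additive Y), ψ a = v.1 →
      e.1 (Additive.toMul (pre v)) = e.1 (Additive.toMul a) := by
    rintro ⟨_, x, rfl⟩ v a ha
    exact congrFun ((hpre v).trans ha.symm) (Additive.toMul x)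
  let ev : SE →ₗ[ZMod r] Module.Dual (ZMod r) SV :=
    AddMonoidHom.toZModLinearMap r (AddMonoidHom.mk' (fun e => AddMonoidHom.toZModLinearMap r
      (AddMonoidHom.mk' (fun v => e.1 (Additive.toMul (pre v))) fun v v' => by
        rw [key e (v + v') (pre v + pre v') (by rw [map_add, hpre, hpre]; rfl)]
        obtain ⟨_, x, rfl⟩ := e
        exact hy _ _ _))
      fun e e' => LinearMap.ext fun v => rfl)
  have hev : Function.Injective ev := fun e e' h => Subtype.ext (funext fun y => by
    have h1 := LinearMap.congr_fun h ⟨ψ (Additive.ofMul y), Additive.ofMul y, rfl⟩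
    exact ((key e _ (Additive.ofMul y) rfl).symm.trans h1).trans (key e' _ (Additive.ofMul y) rfl))
  haveI : Module.Finite (ZMod r) SV := Module.Finite.of_finite
  haveI : Module.Finite (ZMod r) (Module.Dual (ZMod r) SV) := inferInstance
  haveI : Finite (Module.Dual (ZMod r) SV) := Module.finite_of_finite (ZMod r)
  have h1 : X₁.index ≤ Nat.card SE := by
    show _ ≤ Nat.card θ.range
    rw [← AddSubgroup.index_ker, ← Subgroup.index_toAddSubgroup]
    exact Nat.le_of_dvd (Nat.pos_of_ne_zero AddSubgroup.index_ne_zero_of_finite)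
      (AddSubgroup.index_dvd_of_le fun x hx0 => hX _ fun y => congrFun hx0 y)
  have h2 : Nat.card SV ≤ Y₁.index := by
    show Nat.card ψ.range ≤ _
    rw [← AddSubgroup.index_ker, ← Subgroup.index_toAddSubgroup]
    exact Nat.le_of_dvd (Nat.pos_of_ne_zero AddSubgroup.index_ne_zero_of_finite)
      (AddSubgroup.index_dvd_of_le fun y hy0 => funext fun x => hY _ hy0 x)
  refine h1.trans ((Nat.card_le_card_of_injective ev hev).trans (le_of_eq_of_le ?_ h2))
  rw [Module.natCard_eq_pow_finrank (K := ZMod r) (V := SV),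
    Module.natCard_eq_pow_finrank (K := ZMod r) (V := Module.Dual (ZMod r) SV),
    Subspace.dual_finrank_eq]

end CfsgLib.ZerosCodegree.AlternatingFamily
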