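import Cfsg.Agent.Lib.ZerosCodegree.SolvableWreath
import Cfsg.Agent.Lib.CharTheory.Decomp
import Cfsg.Agent.Lib.Brauer.Dual
import Mathlib.GroupTheory.Perm.Cycle.Type

/-!
Bijective cocycles on solvable groups' overgroups, and the central type groups they give.
-/

set_option autoImplicit false
set_option linter.unusedSectionVars false
set_option linter.style.haveILetI false

open scoped ComplexConjugate
open Cfsg RegularWreathProduct

namespace CfsgLib.ZerosCodegree

universe u

/-- A bijective cocycle with values killed by `e`. -/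
structure BijCocycle (W : Type u) [Group W] (e : ℕ) where
  /-- The module. -/
  A : Type u
  [grp : CommGroup A]
  /-- The cocycle. -/
  map : W ≃ A
  /-- The action. -/
  act : W →* MulAut A
  cocycle : ∀ g h, map (g * h) = map g * act g (map h)
  pow_eq_one : ∀ a : A, a ^ e = 1

attribute [instance] BijCocycle.grp

theorem BijCocycle.map_one {W : Type u} [Group W] {e : ℕ} (c : BijCocycle W e) : c.map 1 = 1 := by
  have h := c.cocycle 1 1
  simpa using h

/-- The action on the module of a wreath product. -/
def wreathAct {W Q A : Type u} [Group W] [CommGroup Q] [CommGroup A] (act : W →* MulAut A) :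
    W ≀ᵣ Q →* MulAut ((Q → A) × Q) where
  toFun w :=
    { toFun := fun p => (fun x => act (w.left x) (p.1 (w.right⁻¹ * x)), p.2)
      invFun := fun p => (fun x => (act (w.left (w.right * x))).symm (p.1 (w.right * x)), p.2)
      left_inv := fun p => Prod.ext (funext fun x => by simp) rfl
      right_inv := fun p => Prod.ext (funext fun x => by simp) rfl
      map_mul' := fun p q => Prod.ext (funext fun x => map_mul (act (w.left x)) _ _) rfl }
  map_one' := MulEquiv.ext fun p => Prod.ext (funext fun x => by simp) rfl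
  map_mul' v w := MulEquiv.ext fun p => Prod.ext (funext fun x => by
    show act ((v * w).left x) _ = act (v.left x) (act (w.left _) (p.1 _))
    rw [RegularWreathProduct.mul_left, Pi.mul_apply, map_mul, MulAut.mul_apply,
      RegularWreathProduct.mul_right, mul_inv_rev, mul_assoc]) rfl

/-- Wreath products with abelian groups keep bijective cocycles. -/
def BijCocycle.wreath {W Q : Type u} [Group W] [CommGroup Q] {e : ℕ} (c : BijCocycle W e)
    (hQ : ∀ q : Q, q ^ e = 1) : BijCocycle (W ≀ᵣ Q) e where
  A := (Q → c.A) × Q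
  map :=
    { toFun := fun w => (fun x => c.map (w.left x), w.right)
      invFun := fun p => ⟨fun x => c.map.symm (p.1 x), p.2⟩
      left_inv := fun w => RegularWreathProduct.ext (funext fun x => c.map.symm_apply_apply _) rfl
      right_inv := fun p => Prod.ext (funext fun x => c.map.apply_symm_apply _) rfl }
  act := wreathAct c.act
  cocycle v w := Prod.ext (funext fun x => by
    show c.map ((v * w).left x) = c.map (v.left x) * c.act (v.left x) (c.map _)
    rw [RegularWreathProduct.mul_left, Pi.mul_apply, c.cocycle]) rfl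
  pow_eq_one p := Prod.ext (funext fun x => by
    rw [Prod.pow_fst, Pi.pow_apply]; exact c.pow_eq_one _) (by rw [Prod.pow_snd]; exact hQ p.2)

/-- A larger exponent. -/
def BijCocycle.mono {W : Type u} [Group W] {e f : ℕ} (c : BijCocycle W e) (h : e ∣ f) :
    BijCocycle W f where
  A := c.A
  map := c.map
  act := c.act
  cocycle := c.cocycle
  pow_eq_one a := by obtain ⟨k, rfl⟩ := h; rw [pow_mul, c.pow_eq_one, one_pow]

theorem prod_primeFactors_dvd {m n : ℕ} (h : m ∣ n) (hn : n ≠ 0) :
    ∏ p ∈ m.primeFactors, p ∣ ∏ p ∈ n.primeFactors, p :=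
  Finset.prod_dvd_prod_of_subset _ _ _ (Nat.primeFactors_mono h hn)

/-- Solvable groups embed in groups with bijective cocycles. -/
theorem exists_bijCocycle {G : Type u} [Group G] [Finite G] (hs : Group.IsSolvable G) :
    ∃ (W : Type u) (_ : Group W) (_ : Finite W) (f : G →* W),
      Function.Injective f ∧ (∀ p : ℕ, p.Prime → p ∣ Nat.card W → p ∣ Nat.card G) ∧
      Nonempty (BijCocycle W (∏ p ∈ (Nat.card G).primeFactors, p)) := by
  haveI := hs
  induction hcard : Nat.card G using Nat.strong_induction_on generalizing G with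
  | _ n ih =>
    subst hcard
    rcases subsingleton_or_nontrivial G with hG | hG
    · refine ⟨PUnit, inferInstance, inferInstance, 1, fun a b _ => Subsingleton.elim a b,
        fun p hp h => absurd (by simpa using h) hp.ne_one, ⟨?_⟩⟩
      exact ⟨PUnit, Equiv.refl _, 1, fun _ _ => rfl, fun _ => rfl⟩
    obtain ⟨N, hN, hp⟩ := exists_normal_prime_index hs
    haveI := hN
    have hlt : Nat.card N < Nat.card G := by
      rw [← N.card_mul_index]
      exact lt_mul_of_one_lt_right Nat.card_pos hp.one_lt
    have hNs : Group.IsSolvable N := inferInstance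
    obtain ⟨W, _, _, f, hf, hW, ⟨c⟩⟩ := ih _ hlt hNs hNs rfl
    have hQ : (Nat.card (G ⧸ N)).Prime := by rwa [← Subgroup.index_eq_card]
    haveI : Fact (Nat.card (G ⧸ N)).Prime := ⟨hQ⟩
    haveI : IsCyclic (G ⧸ N) := isCyclic_of_prime_card rfl
    letI : CommGroup (G ⧸ N) := { (inferInstance : Group (G ⧸ N)) with
      mul_comm := fun a b => (IsCyclic.isMulCommutative (α := G ⧸ N)).is_comm.comm a b }
    have hdvd : Nat.card (G ⧸ N) ∣ Nat.card G := Subgroup.card_quotient_dvd_card N
    refine ⟨W ≀ᵣ (G ⧸ N), inferInstance, inferInstance, (mapWreath f).comp (toWreath N),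
      (mapWreath_injective hf).comp (toWreath_injective N), fun p hp' h => ?_,
      ⟨(c.mono (prod_primeFactors_dvd (Subgroup.card_subgroup_dvd_card N) Nat.card_pos.ne')).wreath
        fun q => ?_⟩⟩
    · rw [RegularWreathProduct.card] at h
      rcases hp'.dvd_mul.1 h with h | h
      · exact (hW p hp' (hp'.dvd_of_dvd_pow h)).trans (Subgroup.card_subgroup_dvd_card N)
      · exact h.trans hdvd
    · refine orderOf_dvd_iff_pow_eq_one.1 ((orderOf_dvd_natCard q).trans ?_)
      exact Finset.dvd_prod_of_mem _ (Nat.mem_primeFactors.2 ⟨hQ, hdvd, Nat.card_pos.ne'⟩)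

section CentralType

variable {W : Type u} [Group W] {e : ℕ} (c : BijCocycle W e)

/-- The functions that are affine for the cocycle. -/
noncomputable def affineFun : (rootsOfUnity e ℂ) × (c.A →* ℂˣ) →* (W → ℂˣ) where
  toFun t x := (t.1 : ℂˣ) * t.2 (c.map x)
  map_one' := funext fun x => by simp
  map_mul' s t := funext fun x => by simp [mul_mul_mul_comm]

theorem affineFun_injective : Function.Injective (affineFun c) := by
  intro s t h
  have h1 := congrFun h 1
  simp only [affineFun, MonoidHom.coe_mk, OneHom.coe_mk, c.map_one, map_one, mul_one] at h1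
  refine Prod.ext (Subtype.ext h1) (MonoidHom.ext fun a => ?_)
  have h2 := congrFun h (c.map.symm a)
  simp only [affineFun, MonoidHom.coe_mk, OneHom.coe_mk, Equiv.apply_symm_apply, h1] at h2
  exact mul_left_cancel h2

/-- The image of the affine functions. -/
noncomputable def affineRange : Subgroup (W → ℂˣ) :=
  MonoidHom.range (G := (rootsOfUnity e ℂ) × (c.A →* ℂˣ)) (N := W → ℂˣ) (affineFun c)

/-- The central type group. -/
noncomputable def centralTypeGroup : Subgroup (ℂˣ ≀ᵣ W) where
  carrier := {w | w.left ∈ affineRange c}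
  one_mem' := (affineRange c).one_mem
  mul_mem' {v w} hv hw := by
    obtain ⟨⟨ζ, φ⟩, hs⟩ := hw
    show (v * w).left ∈ affineRange c
    rw [RegularWreathProduct.mul_left]
    refine Subgroup.mul_mem _ hv ?_
    refine ⟨(ζ * ⟨φ (c.map v.right⁻¹), ?_⟩, φ.comp (c.act v.right⁻¹).toMonoidHom), funext fun x => ?_⟩
    · rw [mem_rootsOfUnity, ← map_pow, c.pow_eq_one, map_one]
    · rw [← hs]
      simp [affineFun, c.cocycle, mul_assoc]
  inv_mem' {v} hv := by
    obtain ⟨⟨ζ, φ⟩, hs⟩ := hv
    show v⁻¹.left ∈ affineRange c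
    rw [RegularWreathProduct.inv_left]
    refine ⟨((ζ * ⟨φ (c.map v.right), ?_⟩)⁻¹, (φ.comp (c.act v.right).toMonoidHom)⁻¹),
      funext fun x => ?_⟩
    · rw [mem_rootsOfUnity, ← map_pow, c.pow_eq_one, map_one]
    · simp [affineFun, c.cocycle, ← hs, mul_assoc, mul_comm, mul_left_comm]

/-- An element from its parameters. -/
noncomputable def centralTypeMk (p : ((rootsOfUnity e ℂ) × (c.A →* ℂˣ)) × W) : centralTypeGroup c :=
  ⟨⟨affineFun c p.1, p.2⟩, ⟨p.1, rfl⟩⟩

theorem centralTypeMk_bijective : Function.Bijective (centralTypeMk c) := by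
  refine ⟨fun p q h => Prod.ext (affineFun_injective c
    (congrArg (fun v : centralTypeGroup c => (v : ℂˣ ≀ᵣ W).left) h))
    (congrArg (fun v : centralTypeGroup c => (v : ℂˣ ≀ᵣ W).right) h), fun w => ?_⟩
  obtain ⟨t, ht⟩ := w.2
  exact ⟨(t, (w : ℂˣ ≀ᵣ W).right), Subtype.ext (RegularWreathProduct.ext ht rfl)⟩

/-- The parameters of an element. -/
noncomputable def centralTypeEquiv :
    centralTypeGroup c ≃ ((rootsOfUnity e ℂ) × (c.A →* ℂˣ)) × W :=
  (Equiv.ofBijective (centralTypeMk c) (centralTypeMk_bijective c)).symm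

/-- The monomial action. -/
noncomputable def monomialRep (W : Type u) [Group W] : Representation ℂ (ℂˣ ≀ᵣ W) (W → ℂ) where
  toFun w :=
    { toFun := fun v x => (w.left x : ℂ) * v (w.right⁻¹ * x)
      map_add' := fun a b => funext fun x => mul_add _ _ _
      map_smul' := fun r a => funext fun x => by simp [mul_left_comm] }
  map_one' := LinearMap.ext fun v => funext fun x => by simp
  map_mul' a b := LinearMap.ext fun v => funext fun x => by simp [mul_assoc]

open Classical in
theorem monomialRep_character [Fintype W] (w : ℂˣ ≀ᵣ W) :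
    (monomialRep W).character w = if w.right = 1 then ∑ x, (w.left x : ℂ) else 0 := by
  rw [Representation.character, LinearMap.trace_eq_matrix_trace ℂ (Pi.basisFun ℂ W)]
  simp only [Matrix.trace, Matrix.diag, LinearMap.toMatrix_apply, Pi.basisFun_apply,
    Pi.basisFun_repr]
  rw [Finset.sum_congr rfl fun x _ => show monomialRep W w (Pi.single x 1) x =
    if w.right = 1 then (w.left x : ℂ) else 0 by
      show (w.left x : ℂ) * Pi.single (M := fun _ : W => ℂ) x 1 (w.right⁻¹ * x) = _
      rw [Pi.single_apply]
      simp [mul_eq_right, inv_eq_one]]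
  split_ifs <;> simp

variable [Fintype W]

theorem finite_module : Finite c.A := Finite.of_equiv W c.map

theorem card_dual : Nat.card (c.A →* ℂˣ) = Nat.card W := by
  haveI := finite_module c
  rw [CommGroup.card_monoidHom_of_hasEnoughRootsOfUnity]
  exact (Nat.card_congr c.map).symm

theorem finite_centralType [NeZero e] : Finite (centralTypeGroup c) := by
  haveI := finite_module c
  exact Finite.of_equiv _ (centralTypeEquiv c).symm

theorem card_centralType [NeZero e] :
    Nat.card (centralTypeGroup c) = e * Nat.card W * Nat.card W := by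
  rw [Nat.card_congr (centralTypeEquiv c), Nat.card_prod, Nat.card_prod, card_dual,
    HasEnoughRootsOfUnity.natCard_rootsOfUnity]

/-- The faithful fully ramified character. -/
noncomputable def centralTypeChar (w : centralTypeGroup c) : ℂ :=
  (monomialRep W).character (w : ℂˣ ≀ᵣ W)

theorem centralTypeChar_one : centralTypeChar c 1 = Nat.card W := by
  classical
  simp [centralTypeChar, monomialRep_character, Nat.card_eq_fintype_card]

theorem isIrrCharacter_centralType [NeZero e] :
    IsIrrCharacter (centralTypeGroup c) (centralTypeChar c) := by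
  classical
  haveI := finite_module c
  haveI := finite_centralType c
  letI : Fintype (centralTypeGroup c) := Fintype.ofFinite _
  letI : Fintype c.A := Fintype.ofFinite _
  letI : Fintype (rootsOfUnity e ℂ) := Fintype.ofFinite _
  refine (CfsgLib.CharTheory.isIrrCharacter_iff_norm_one (CfsgLib.CharTheory.isCharacter_character
    ((monomialRep W).comp (centralTypeGroup c).subtype))).2 ?_
  show classInner (centralTypeChar c) (centralTypeChar c) = 1
  rw [classInner, ← Equiv.sum_comp (centralTypeEquiv c).symm, Fintype.sum_prod_type]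
  have hval : ∀ (t : (rootsOfUnity e ℂ) × (c.A →* ℂˣ)) (g : W),
      centralTypeChar c ((centralTypeEquiv c).symm (t, g)) *
        conj (centralTypeChar c ((centralTypeEquiv c).symm (t, g))) =
      if g = 1 then ∑ x : W, ∑ y : W, (t.2 (c.map x * (c.map y)⁻¹) : ℂ) else 0 := by
    intro t g
    simp only [centralTypeChar, monomialRep_character]
    show (if g = 1 then _ else (0 : ℂ)) * conj (if g = 1 then _ else 0) = _
    split_ifs with hg
    · rw [map_sum, Finset.sum_mul_sum]
      refine Finset.sum_congr rfl fun x _ => Finset.sum_congr rfl fun y _ => ?_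
      show ((affineFun c t x : ℂˣ) : ℂ) * conj ((affineFun c t y : ℂˣ) : ℂ) = _
      have hn : ∀ u : ℂˣ, (u : ℂ) ^ e = 1 → conj (u : ℂ) = ((u⁻¹ : ℂˣ) : ℂ) := fun u hu => by
        rw [Units.val_inv_eq_inv_val]
        exact (Complex.inv_eq_conj (Complex.norm_eq_one_of_pow_eq_one hu (NeZero.ne e))).symm
      rw [hn _ (by
        rw [← Units.val_pow_eq_pow_val, Units.val_eq_one]
        show ((t.1 : ℂˣ) * t.2 (c.map y)) ^ e = 1
        rw [mul_pow, ← map_pow, c.pow_eq_one, map_one, mul_one]
        exact (mem_rootsOfUnity _ _).1 t.1.2), ← Units.val_mul]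
      congr 1
      show (t.1 : ℂˣ) * t.2 (c.map x) * ((t.1 : ℂˣ) * t.2 (c.map y))⁻¹ = _
      rw [map_mul, map_inv, mul_inv_rev, mul_comm ((t.2 (c.map y))⁻¹) _, mul_mul_mul_comm,
        mul_inv_cancel, one_mul]
    · simp
  simp only [hval, Finset.sum_ite_eq', Finset.mem_univ, if_true]
  rw [Fintype.sum_prod_type, Finset.sum_congr rfl fun ζ _ => Finset.sum_comm]
  simp only [Finset.sum_comm (γ := c.A →* ℂˣ), CfsgLib.Brauer.sum_homUnits_apply,
    mul_inv_eq_one, c.map.injective.eq_iff, Finset.sum_ite_eq', Finset.sum_ite_eq, Finset.mem_univ,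
    if_true, Finset.sum_const, Finset.card_univ, nsmul_eq_mul]
  simp only [Fintype.card_eq_nat_card, card_centralType, HasEnoughRootsOfUnity.natCard_rootsOfUnity,
    ← Nat.card_congr c.map]
  push_cast
  have h1 : (Nat.card W : ℂ) ≠ 0 := Nat.cast_ne_zero.2 Nat.card_pos.ne'
  have h2 : (e : ℂ) ≠ 0 := Nat.cast_ne_zero.2 (NeZero.ne e)
  field_simp

theorem centralTypeChar_faithful [NeZero e] (w : centralTypeGroup c)
    (h : centralTypeChar c w = centralTypeChar c 1) : w = 1 := by
  classical
  rw [centralTypeChar_one, centralTypeChar, monomialRep_character] at h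
  split_ifs at h with hg
  · obtain ⟨⟨ζ, φ⟩, hs⟩ := w.2
    have hle : ∀ x ∈ (Finset.univ : Finset W), (((w : ℂˣ ≀ᵣ W).left x : ℂ)).re ≤ 1 := fun x _ => by
      refine (Complex.re_le_norm _).trans (le_of_eq ?_)
      rw [← hs]
      refine Complex.norm_eq_one_of_pow_eq_one ?_ (NeZero.ne e)
      rw [← Units.val_pow_eq_pow_val, Units.val_eq_one]
      show ((ζ : ℂˣ) * φ (c.map x)) ^ e = 1
      rw [mul_pow, ← map_pow, c.pow_eq_one, map_one, mul_one]
      exact (mem_rootsOfUnity _ _).1 ζ.2
    have h1 := congrArg Complex.re h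
    rw [Complex.re_sum, Complex.natCast_re, Nat.card_eq_fintype_card] at h1
    have h2 := (Finset.sum_eq_sum_iff_of_le hle).1 (by simpa using h1)
    refine Subtype.ext (RegularWreathProduct.ext (funext fun x => Units.ext ?_) hg)
    have h3 := h2 x (Finset.mem_univ x)
    have h4 : ‖((w : ℂˣ ≀ᵣ W).left x : ℂ)‖ = 1 := by
      rw [← hs]
      refine Complex.norm_eq_one_of_pow_eq_one ?_ (NeZero.ne e)
      rw [← Units.val_pow_eq_pow_val, Units.val_eq_one]
      show ((ζ : ℂˣ) * φ (c.map x)) ^ e = 1
      rw [mul_pow, ← map_pow, c.pow_eq_one, map_one, mul_one]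
      exact (mem_rootsOfUnity _ _).1 ζ.2
    have h5 := Complex.re_eq_norm.1 (h3.trans h4.symm)
    exact Complex.ext (by simpa using h3) (by simpa using (Complex.le_def.1 h5).2.symm)
  · exact absurd h.symm (Nat.cast_ne_zero.2 Nat.card_pos.ne')

/-- The scalar elements. -/
noncomputable def scalarHom : rootsOfUnity e ℂ →* centralTypeGroup c where
  toFun ζ := ⟨⟨fun _ => (ζ : ℂˣ), 1⟩, ⟨(ζ, 1), funext fun _ => by simp [affineFun]⟩⟩
  map_one' := rfl
  map_mul' a b := Subtype.ext (RegularWreathProduct.ext (funext fun x => by simp) (by simp))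

theorem center_eq_range [NeZero e] :
    Subgroup.center (centralTypeGroup c) = (scalarHom c).range := by
  haveI := finite_module c
  refine le_antisymm (fun w hw => ?_) ?_
  · rw [Subgroup.mem_center_iff] at hw
    obtain ⟨⟨ζ, φ⟩, hs⟩ := w.2
    have hg : (w : ℂˣ ≀ᵣ W).right = 1 := by
      by_contra hg
      have hne : c.map (w : ℂˣ ≀ᵣ W).right⁻¹ ≠ 1 := fun h =>
        hg (inv_eq_one.1 (c.map.injective (h.trans c.map_one.symm)))
      obtain ⟨ψ, hψ⟩ := CommGroup.exists_apply_ne_one_of_hasEnoughRootsOfUnity c.A ℂ hne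
      have h := congrFun (congrArg (fun v : centralTypeGroup c => (v : ℂˣ ≀ᵣ W).left)
        (hw ⟨⟨affineFun c (1, ψ), 1⟩, ⟨(1, ψ), rfl⟩⟩)) 1
      simp [affineFun, c.map_one] at h
      exact hψ h
    have hconst : ∀ k, (w : ℂˣ ≀ᵣ W).left k⁻¹ = (w : ℂˣ ≀ᵣ W).left 1 := fun k => by
      have h := congrFun (congrArg (fun v : centralTypeGroup c => (v : ℂˣ ≀ᵣ W).left)
        (hw ⟨⟨1, k⟩, (affineRange c).one_mem⟩)) 1
      simpa [hg] using h
    refine ⟨ζ, Subtype.ext (RegularWreathProduct.ext (funext fun x => ?_) hg.symm)⟩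
    show (ζ : ℂˣ) = _
    rw [← inv_inv x, hconst, ← hs]
    simp [affineFun, c.map_one]
  · rintro w ⟨ζ, rfl⟩
    rw [Subgroup.mem_center_iff]
    intro v
    refine Subtype.ext (RegularWreathProduct.ext (funext fun x => ?_) ?_)
    · simp [scalarHom, mul_comm]
    · simp [scalarHom]

theorem card_center [NeZero e] : Nat.card (Subgroup.center (centralTypeGroup c)) = e := by
  rw [center_eq_range, ← Nat.card_congr (MonoidHom.ofInjective (f := scalarHom c) ?_).toEquiv,
    HasEnoughRootsOfUnity.natCard_rootsOfUnity]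
  intro a b h
  exact Subtype.ext (congrFun (congrArg (fun v : centralTypeGroup c => (v : ℂˣ ≀ᵣ W).left) h) 1)

theorem index_center [NeZero e] :
    (Subgroup.center (centralTypeGroup c)).index = Nat.card W ^ 2 := by
  have h := (Subgroup.center (centralTypeGroup c)).card_mul_index
  rw [card_center, card_centralType, mul_assoc] at h
  rw [pow_two]
  exact Nat.eq_of_mul_eq_mul_left (Nat.pos_of_ne_zero (NeZero.ne e)) h

/-- The permutations, modulo scalars. -/
noncomputable def toCentralQuotient :
    W →* centralTypeGroup c ⧸ Subgroup.center (centralTypeGroup c) where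
  toFun g := QuotientGroup.mk ⟨⟨1, g⟩, (affineRange c).one_mem⟩
  map_one' := rfl
  map_mul' a b := by
    rw [← QuotientGroup.mk_mul]
    congr 1
    exact Subtype.ext (RegularWreathProduct.ext (funext fun x => by simp) (by simp))

theorem toCentralQuotient_injective [NeZero e] : Function.Injective (toCentralQuotient c) := by
  rw [← MonoidHom.ker_eq_bot_iff, Subgroup.eq_bot_iff_forall]
  intro g hg
  have h := (QuotientGroup.eq_one_iff _).1 (MonoidHom.mem_ker.1 hg)
  rw [center_eq_range] at h
  obtain ⟨ζ, hζ⟩ := h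
  exact (congrArg (fun v : centralTypeGroup c => (v : ℂˣ ≀ᵣ W).right) hζ).symm

end CentralType

end CfsgLib.ZerosCodegree
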