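import Cfsg.Agent.Lib.ZerosCodegree.CaminaClassThree

/-!
# Camina groups of prime power order have class at most three

For a functional `χ` on the fourth term let `D₀` be the centraliser of the third.  The indices of
`D₀`, of the centralisers `P_t` of `[γ₂, t]` and the dimension bound for families of non-degenerate
alternating forms contradict each other.
-/

set_option autoImplicit false
set_option linter.unusedSectionVars false
set_option linter.unusedVariables false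
set_option linter.style.haveILetI false

open scoped commutatorElement

namespace CfsgLib.ZerosCodegree.Camina

universe u

variable {D : Type u} [Group D] [Finite D] {r : ℕ} [Fact r.Prime]

/-- The arithmetic behind the contradiction. -/
theorem arith {Q δ p h E : ℕ} (hQ : 0 < Q) (h1 : δ * (p * h) = Q * Q) (h2 : p ^ 2 ≤ Q)
    (h3 : δ * h ≤ E * Q) (h4 : E ^ 2 ≤ h) (h5 : h ≤ Q) (h6 : Q < δ ^ 2) : False := by
  have e1 : Q ^ 4 = δ ^ 2 * p ^ 2 * h ^ 2 := by
    calc Q ^ 4 = (Q * Q) ^ 2 := by ring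
      _ = (δ * (p * h)) ^ 2 := by rw [h1]
      _ = _ := by ring
  have e2 : Q ^ 4 ≤ δ ^ 2 * h ^ 2 * Q := by
    rw [e1]
    calc δ ^ 2 * p ^ 2 * h ^ 2 ≤ δ ^ 2 * Q * h ^ 2 :=
          Nat.mul_le_mul_right _ (Nat.mul_le_mul_left _ h2)
      _ = _ := by ring
  have e3 : δ ^ 2 * h ^ 2 ≤ h * Q ^ 2 := by
    calc δ ^ 2 * h ^ 2 = (δ * h) ^ 2 := by ring
      _ ≤ (E * Q) ^ 2 := Nat.pow_le_pow_left h3 2
      _ = E ^ 2 * Q ^ 2 := by ring
      _ ≤ _ := Nat.mul_le_mul_right _ h4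
  have e4 : Q ^ 3 ≤ h * Q ^ 2 := by
    refine le_trans (Nat.le_of_mul_le_mul_right ?_ hQ) e3
    calc Q ^ 3 * Q = Q ^ 4 := by ring
      _ ≤ _ := e2
  have e5 : Q ≤ h := by
    refine Nat.le_of_mul_le_mul_right ?_ (pow_pos hQ 2)
    calc Q * Q ^ 2 = Q ^ 3 := by ring
      _ ≤ _ := e4
  have e6 : h = Q := le_antisymm h5 e5
  rw [e6] at h3 h4
  have e7 : δ ≤ E := Nat.le_of_mul_le_mul_right h3 hQ
  have := Nat.pow_le_pow_left e7 2
  omega

/-- Camina groups of prime power order have class at most three. -/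
theorem g4_eq_bot (hD : IsPGroup r D) (hC : IsCamina D) : g4 D = ⊥ := by
  classical
  by_contra hg4
  have hnil := hD.isNilpotent
  have hg34 : ¬ g3 D ≤ g4 D := fun h => by
    have h1 : g4 D = g3 D := le_antisymm g4_le h
    by_cases h0 : g3 D = ⊥
    · exact hg4 (h1.trans h0)
    · exact comm_top_lt hnil h0 h1
  obtain ⟨χ, hχ⟩ := exists_fun (r := r) (N := g4 D) hD (g5_le (D := D))
    (fun h => comm_top_lt hnil hg4 (le_antisymm g5_le h)) le_rfl
  have hr2 : r ≠ 2 := fun h2 => by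
    subst h2
    obtain ⟨χ', hχ'⟩ := exists_fun (r := 2) (N := g3 D) hD (g4_le (D := D)) hg34 le_rfl
    exact no_fun_two hD hC hχ'
  set g2 := commutator D with hg2def
  set Q := (g3 D).relIndex g2 with hQdef
  -- the centraliser of the third term
  have hm3 : ∀ a ∈ ((g3 D : Subgroup D) : Set D), ∀ t, ⁅a, t⁆ ∈ g4 D := fun a ha t =>
    comm_mem_left ha t
  set D₀ := hχ.cen ((g3 D : Subgroup D) : Set D) hm3 with hD₀def
  have hmem0 : ∀ {t : D}, t ∈ D₀ ↔ ∀ a ∈ g3 D, χ ⁅a, t⁆ = 0 := Iff.rfl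
  have hg22 : ∀ {u v : D}, u ∈ g2 → v ∈ g2 → ⁅u, v⁆ ∈ g4 D := fun hu hv =>
    comm_g2_g2 (Subgroup.commutator_mem_commutator hu hv)
  have hg23 : ∀ {u v : D}, u ∈ g2 → v ∈ g3 D → χ ⁅u, v⁆ = 0 := fun hu hv =>
    hχ.ker _ (comm_g2_g3 (Subgroup.commutator_mem_commutator hu hv))
  have hg32 : ∀ {u v : D}, u ∈ g3 D → v ∈ g2 → χ ⁅u, v⁆ = 0 := fun hu hv => by
    rw [hχ.swap (hg22 hv (g3_le hu)), hg23 hv hu, neg_zero]
  have hle0 : g2 ≤ D₀ := fun w hw a ha => hg32 ha hw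
  -- functionals on the third term
  have hfun : ∀ z, z ∉ D₀ → Fun (g3 D) (g4 D) fun w => χ ⁅w, z⁆ := fun z hz => by
    refine ⟨inferInstance, le_rfl, fun a ha b hb => hχ.mul_left (hm3 a ha z) (hm3 b hb z),
      fun a ha => hχ.ker _ (comm_mem_left ha z), ?_⟩
    rw [hmem0] at hz
    push Not at hz
    exact hz
  obtain ⟨z₀, hz₀⟩ : ∃ z, z ∉ D₀ := by
    by_contra hcon
    push Not at hcon
    obtain ⟨a, ha, ha0⟩ := hχ.ne
    let Z : Subgroup D :=
      { carrier := {x | x ∈ g4 D ∧ χ x = 0}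
        one_mem' := ⟨one_mem _, hχ.map_one⟩
        mul_mem' := fun {x y} hx hy => ⟨mul_mem hx.1 hy.1, by
          rw [hχ.add _ hx.1 _ hy.1, hx.2, hy.2, add_zero]⟩
        inv_mem' := fun {x} hx => ⟨inv_mem hx.1, by rw [hχ.map_inv hx.1, hx.2, neg_zero]⟩ }
    have hle : g4 D ≤ Z := Subgroup.commutator_le.2 fun w hw t _ =>
      ⟨comm_mem_left hw t, hmem0.1 (hcon t) w hw⟩
    exact ha0 (hle ha).2
  have dat := fun z (hz : z ∉ D₀) => centralizerData hD hC (hfun z hz)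
  have hQ2 : g2.index = Q * Q := (dat z₀ hz₀).card
  have hne : g2 ≠ ⊥ := fun h0 => hg4 (le_bot_iff.1 (g4_le.trans (g3_le.trans h0.le)))
  haveI : Nontrivial D := by
    by_contra h0
    rw [not_nontrivial_iff_subsingleton] at h0
    exact hne (Subsingleton.elim _ _)
  have hQ1 : 1 < Q := by
    refine lt_of_le_of_ne (Nat.one_le_iff_ne_zero.2 Subgroup.index_ne_zero_of_finite) fun h => ?_
    rw [← h, one_mul, Subgroup.index_eq_one] at hQ2
    exact derived_ne_top hD hQ2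
  -- the first identity
  have hI : ∀ t ∈ D₀, ∀ w ∈ g2, ∀ z, χ ⁅⁅w, t⁆, z⁆ = χ ⁅w, ⁅t, z⁆⁆ := by
    intro t ht w hw z
    have h1 := hχ.jacobi (a := w) (b := t) (c := z) (hm3 _ (comm_mem_left hw t) z)
      (hg22 (comm_mem_g2 t z) hw) (hm3 _ (comm_mem_right hw z) t)
      (hm3 _ (comm_mem_left hw t) _) (hg22 (comm_mem_g2 t z) (comm_mem_g2 z w))
      (hm3 _ (comm_mem_right hw z) _) (hg32 (comm_mem_left hw t) (comm_mem_g2 t z))
      (hg23 (comm_mem_g2 t z) (comm_mem_right hw z))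
      (hg32 (comm_mem_right hw z) (comm_mem_g2 w t))
    rw [hmem0.1 ht _ (comm_mem_right hw z), add_zero] at h1
    rw [hχ.swap (hg22 (comm_mem_g2 t z) hw)]
    exact eq_neg_of_add_eq_zero_left h1
  -- the radical in the second term
  let R : Subgroup D :=
    { carrier := {w | w ∈ g2 ∧ ∀ v ∈ g2, χ ⁅v, w⁆ = 0}
      one_mem' := ⟨one_mem _, fun v _ => by rw [commutatorElement_one_right, hχ.map_one]⟩
      mul_mem' := fun {a b} ha hb => ⟨mul_mem ha.1 hb.1, fun v hv => by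
        rw [hχ.mul_right (hg22 hv ha.1) (hg22 hv hb.1), ha.2 v hv, hb.2 v hv, add_zero]⟩
      inv_mem' := fun {a} ha => ⟨inv_mem ha.1, fun v hv => by
        have h1 := hχ.mul_right (hg22 hv (inv_mem ha.1)) (hg22 hv ha.1)
        rw [inv_mul_cancel, commutatorElement_one_right, hχ.map_one, ha.2 v hv, add_zero] at h1
        exact h1.symm⟩ }
  have hg3R : g3 D ≤ R := fun w hw => ⟨g3_le hw, fun v hv => hg23 hv hw⟩
  haveI : R.Normal := ⟨fun w hw g => by
    rw [show g * w * g⁻¹ = ⁅g, w⁆ * w by rw [commutatorElement_def, inv_mul_cancel_right]]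
    exact R.mul_mem (hg3R (comm_mem_right hw.1 g)) hw⟩
  -- the centraliser of `[γ₂, x]`
  have hmemP : ∀ x, ∀ a ∈ {a : D | ∃ w ∈ g2, a = ⁅w, x⁆}, ∀ t, ⁅a, t⁆ ∈ g4 D := by
    rintro x a ⟨w, hw, rfl⟩ t
    exact hm3 _ (comm_mem_left hw x) t
  let P : D → Subgroup D := fun x => hχ.cen {a | ∃ w ∈ g2, a = ⁅w, x⁆} (hmemP x)
  have hPmem : ∀ {x z : D}, z ∈ P x ↔ ∀ w ∈ g2, χ ⁅⁅w, x⁆, z⁆ = 0 := fun {x z} =>
    ⟨fun h w hw => h _ ⟨w, hw, rfl⟩, fun h a ⟨w, hw, hw'⟩ => hw' ▸ h w hw⟩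
  have hP0 : ∀ x, D₀ ≤ P x := fun x z hz => hPmem.2 fun w hw => hmem0.1 hz _ (comm_mem_left hw x)
  have hPcc : ∀ x z (hz : z ∉ D₀), z ∈ P x → x ∈ cc (hfun z hz) := fun x z hz h w hw =>
    hPmem.1 h w hw
  -- the bound on these centralisers
  have hPsq : ∀ x, x ∉ g2 → D₀.relIndex (P x) ^ 2 ≤ Q := by
    intro x hx
    by_cases hall : P x ≤ D₀
    · rw [Subgroup.relIndex_eq_one.2 hall, one_pow]
      exact hQ1.le
    obtain ⟨z, hzP, hz⟩ := SetLike.not_le_iff_exists.1 hall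
    set K := modCent (g3 D) x with hK
    have hKz : ∀ z, z ∈ P x → ∀ hz : z ∉ D₀, cc (hfun z hz) = K := fun z hzP hz =>
      ((dat z hz).eq x (hPcc x z hz hzP) hx).symm
    have hiso : ∀ a ∈ K, ∀ b ∈ K, ⁅a, b⁆ ∈ g3 D := fun a ha b hb =>
      (dat z hz).iso a (hKz z hzP hz ▸ ha) b (hKz z hzP hz ▸ hb)
    have hcc : g2 ≤ K := derived_le_modCent x
    have hrel : (g2.subgroupOf K).index = Q := by
      have h1 := Subgroup.relIndex_mul_index hcc
      rw [index_modCent hC hx (g3 D), hQ2] at h1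
      exact Nat.eq_of_mul_eq_mul_right (Nat.pos_of_ne_zero Subgroup.index_ne_zero_of_finite) h1
    show (D₀.subgroupOf (P x)).index ^ 2 ≤ Q
    rw [← hrel]
    refine AlternatingFamily.index_sq_le (X := P x) (Y := K)
      (fun z c c' => χ ⁅⁅(c : D), (c' : D)⁆, (z : D)⁆)
      (fun z z' c c' => hχ.mul_right (hm3 _ (hiso _ c.2 _ c'.2) _) (hm3 _ (hiso _ c.2 _ c'.2) _))
      (fun z a a' b => ?_) (fun z a b b' => ?_)
      (fun z a => by rw [commutatorElement_self, commutatorElement_one_left, hχ.map_one])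
      (fun z hz c c' => hmem0.1 hz _ (hiso _ c.2 _ c'.2))
      (fun c hc z c' => ?_) (fun z hz c hcc' => ?_) ?_
    · rw [Subgroup.coe_mul, show ⁅(a : D) * a', (b : D)⁆ =
        ⁅(a : D), ⁅(a' : D), (b : D)⁆⁆ * ⁅(a' : D), (b : D)⁆ * ⁅(a : D), (b : D)⁆ by
          simp only [commutatorElement_def]; group]
      have h1 : ⁅(a : D), ⁅(a' : D), (b : D)⁆⁆ ∈ g4 D :=
        comm_mem_right (hiso _ a'.2 _ b.2) _
      rw [hχ.mul_left (hm3 _ (mul_mem (g4_le h1) (hiso _ a'.2 _ b.2)) _) (hm3 _ (hiso _ a.2 _ b.2) _),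
        hχ.mul_left (hm3 _ (g4_le h1) _) (hm3 _ (hiso _ a'.2 _ b.2) _),
        hχ.ker _ (comm_mem_left h1 _), zero_add, add_comm]
    · rw [Subgroup.coe_mul, show ⁅(a : D), (b : D) * b'⁆ =
        ⁅(a : D), (b : D)⁆ * ⁅(b : D), ⁅(a : D), (b' : D)⁆⁆ * ⁅(a : D), (b' : D)⁆ by
          simp only [commutatorElement_def]; group]
      have h1 : ⁅(b : D), ⁅(a : D), (b' : D)⁆⁆ ∈ g4 D :=
        comm_mem_right (hiso _ a.2 _ b'.2) _
      rw [hχ.mul_left (hm3 _ (mul_mem (hiso _ a.2 _ b.2) (g4_le h1)) _) (hm3 _ (hiso _ a.2 _ b'.2) _),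
        hχ.mul_left (hm3 _ (hiso _ a.2 _ b.2) _) (hm3 _ (g4_le h1) _),
        hχ.ker _ (comm_mem_left h1 _), add_zero]
    · have hc' : (c : D) ∈ g2 := hc
      exact hPmem.1 (z.2) _ hc' |> fun h => by
        have hz := z.2
        by_cases hz0 : (z : D) ∈ D₀
        · exact hmem0.1 hz0 _ (hiso _ c.2 _ c'.2)
        · have h1 : (c' : D) ∈ cc (hfun z hz0) := by
            rw [hKz z hz hz0]
            exact c'.2
          exact h1 _ hc'
    · by_contra hcD
      have hz' : (z : D) ∉ D₀ := hz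
      obtain ⟨c', hc', hne'⟩ := (dat z hz').nondeg c (by rw [hKz z z.2 hz']; exact c.2) hcD
      rw [hKz z z.2 hz'] at hc'
      exact hne' (hcc' ⟨c', hc'⟩)
    · intro h
      rw [h, Subgroup.index_top] at hrel
      omega
  -- counting
  have hδ : Q < g2.relIndex D₀ ^ 2 := by
    set δ := g2.relIndex D₀ with hδdef
    set s := Nat.sqrt Q with hsdef
    have hmul : δ * D₀.index = Q * Q := by rw [hδdef, Subgroup.relIndex_mul_index hle0, hQ2]
    haveI : D₀.Normal := ⟨fun t ht g => by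
      rw [show g * t * g⁻¹ = ⁅g, t⁆ * t by rw [commutatorElement_def, inv_mul_cancel_right]]
      exact D₀.mul_mem (hle0 (comm_mem_g2 g t)) ht⟩
    haveI : Fintype (D ⧸ D₀) := Fintype.ofFinite _
    haveI : Fintype (D ⧸ g2) := Fintype.ofFinite _
    have hout : ∀ q : D ⧸ D₀, q ≠ 1 → q.out ∉ D₀ := fun q hq h => hq (by
      rw [← QuotientGroup.out_eq' q]
      exact (QuotientGroup.eq_one_iff _).2 h)
    let f : D ⧸ D₀ → Subgroup D := fun q => if h : q.out ∈ D₀ then ⊥ else cc (hfun q.out h)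
    set S := Finset.univ.erase (1 : D ⧸ D₀) with hS
    have hSc : S.card + 1 = D₀.index := by
      rw [hS, Finset.card_erase_add_one (Finset.mem_univ _), Finset.card_univ,
        Subgroup.index_eq_card, Nat.card_eq_fintype_card]
    -- the images are few
    let T : Subgroup D → Finset (D ⧸ g2) := fun K =>
      (Finset.univ.filter fun v : D ⧸ g2 => v.out ∈ K).erase 1
    have hKprop : ∀ K ∈ S.image f, ∃ z, ∃ hz : z ∉ D₀, K = cc (hfun z hz) := fun K hK => by
      obtain ⟨q, hq, rfl⟩ := Finset.mem_image.1 hK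
      have h := hout q (Finset.ne_of_mem_erase hq)
      exact ⟨q.out, h, dif_neg h⟩
    have hTmem : ∀ {v : D ⧸ g2}, v ≠ 1 → v.out ∉ g2 := fun {v} hv h => hv (by
      rw [← QuotientGroup.out_eq' v]
      exact (QuotientGroup.eq_one_iff _).2 h)
    have hTc : ∀ K ∈ S.image f, (T K).card + 1 = Q := fun K hK => by
      obtain ⟨z, hz, rfl⟩ := hKprop K hK
      set C := cc (hfun z hz)
      have hg2C : g2 ≤ C := derived_le_cc (hfun z hz)
      have h1 : (g2.subgroupOf C).index = Q := by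
        have h2 := Subgroup.relIndex_mul_index hg2C
        rw [(dat z hz).index, hQ2] at h2
        exact Nat.eq_of_mul_eq_mul_right (Nat.pos_of_ne_zero Subgroup.index_ne_zero_of_finite) h2
      have hiff : ∀ x : D, ((x : D ⧸ g2).out ∈ C ↔ x ∈ C) := fun x => by
        obtain ⟨n, hn⟩ := QuotientGroup.mk_out_eq_mul g2 x
        rw [hn]
        exact C.mul_mem_cancel_right (hg2C n.2)
      rw [show T C = (Finset.univ.filter fun v : D ⧸ g2 => v.out ∈ C).erase 1 from rfl,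
        Finset.card_erase_add_one (s := Finset.univ.filter fun v : D ⧸ g2 => v.out ∈ C)
          (a := (1 : D ⧸ g2)) (Finset.mem_filter.2 ⟨Finset.mem_univ _, (hiff 1).2 C.one_mem⟩),
        ← h1, Subgroup.index_eq_card]
      rw [← Fintype.card_coe, ← Nat.card_eq_fintype_card]
      refine Nat.card_congr (Equiv.symm (Equiv.ofBijective
        (fun c : C ⧸ g2.subgroupOf C => (⟨((c.out : C) : D), Finset.mem_filter.2
          ⟨Finset.mem_univ _, (hiff _).2 c.out.2⟩⟩ :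
            {v // v ∈ Finset.univ.filter fun v : D ⧸ g2 => v.out ∈ C})) ⟨fun a b h => ?_, fun v => ?_⟩))
      · rw [← QuotientGroup.out_eq' a, ← QuotientGroup.out_eq' b]
        refine QuotientGroup.eq.2 (Subgroup.mem_subgroupOf.2 ?_)
        exact QuotientGroup.eq.1 (congrArg Subtype.val h :)
      · refine ⟨((⟨v.1.out, (Finset.mem_filter.1 v.2).2⟩ : C) : C ⧸ g2.subgroupOf C), Subtype.ext ?_⟩
        obtain ⟨n, hn⟩ := QuotientGroup.mk_out_eq_mul (g2.subgroupOf C)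
          ⟨v.1.out, (Finset.mem_filter.1 v.2).2⟩
        show ((_ : D) : D ⧸ g2) = v.1
        rw [hn]
        refine (QuotientGroup.eq.2 ?_).trans (QuotientGroup.out_eq' v.1)
        show (v.1.out * ((n : C) : D))⁻¹ * v.1.out ∈ g2
        rw [mul_inv_rev, inv_mul_cancel_right]
        exact g2.inv_mem n.2
    have hdisj : ((S.image f : Finset (Subgroup D)) : Set (Subgroup D)).PairwiseDisjoint T := by
      intro K hK K' hK' hne'
      rw [Function.onFun, Finset.disjoint_left]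
      intro v hv hv'
      obtain ⟨hv1, hv⟩ := Finset.mem_erase.1 hv
      obtain ⟨z, hz, rfl⟩ := hKprop K hK
      obtain ⟨z', hz', rfl⟩ := hKprop K' hK'
      exact hne' (((dat z hz).eq _ (Finset.mem_filter.1 hv).2 (hTmem hv1)).symm.trans
        ((dat z' hz').eq _ (Finset.mem_filter.1 (Finset.mem_of_mem_erase hv')).2 (hTmem hv1)))
    have himg : (S.image f).card ≤ Q + 1 := by
      have h1 : ((S.image f).biUnion T).card = (S.image f).card * (Q - 1) := by
        rw [Finset.card_biUnion hdisj, Finset.sum_const_nat (m := Q - 1) fun K hK => by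
          have := hTc K hK
          omega]
      have h2 : ((S.image f).biUnion T).card ≤ Q * Q - 1 := by
        refine le_trans (Finset.card_le_card (t := Finset.univ.erase (1 : D ⧸ g2))
          (Finset.biUnion_subset.2 fun K _ v hv => Finset.mem_erase.2
            ⟨(Finset.mem_erase.1 hv).1, Finset.mem_univ _⟩)) ?_
        rw [Finset.card_erase_of_mem (Finset.mem_univ _), Finset.card_univ,
          ← Nat.card_eq_fintype_card, ← Subgroup.index_eq_card, hQ2]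
      rw [h1, show Q * Q - 1 = (Q + 1) * (Q - 1) by rw [← Nat.mul_self_sub_mul_self_eq]] at h2
      exact Nat.le_of_mul_le_mul_right h2 (by omega)
    have hfib : ∀ K ∈ S.image f, (S.filter fun q => f q = K).card ≤ s - 1 := fun K hK => by
      obtain ⟨z, hz, rfl⟩ := hKprop K hK
      obtain ⟨x, hxC, hxD⟩ : ∃ x, x ∈ cc (hfun z hz) ∧ x ∉ g2 := by
        by_contra hcon
        push Not at hcon
        have h1 := Subgroup.index_dvd_of_le (show cc (hfun z hz) ≤ g2 from hcon)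
        rw [(dat z hz).index, hQ2] at h1
        have h2 : Q * Q ≤ Q :=
          Nat.le_of_dvd (Nat.pos_of_ne_zero Subgroup.index_ne_zero_of_finite) h1
        nlinarith
      have hps : D₀.relIndex (P x) ≤ s := Nat.le_sqrt'.2 (hPsq x hxD)
      refine le_trans ?_ (Nat.sub_le_sub_right hps 1)
      haveI : Fintype ((P x) ⧸ D₀.subgroupOf (P x)) := Fintype.ofFinite _
      have himp : ∀ q ∈ S.filter (fun q => f q = cc (hfun z hz)), q.out ∈ P x := fun q hq => by
        obtain ⟨hqS, hqf⟩ := Finset.mem_filter.1 hq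
        have hq0 := hout q (Finset.ne_of_mem_erase hqS)
        simp only [f, dif_neg hq0] at hqf
        refine hPmem.2 fun w hw => ?_
        have : x ∈ cc (hfun q.out hq0) := hqf ▸ hxC
        exact this w hw
      show _ ≤ (D₀.subgroupOf (P x)).index - 1
      rw [Subgroup.index_eq_card, Nat.card_eq_fintype_card]
      refine le_trans (Finset.card_le_card_of_injOn
        (fun q => if h : q.out ∈ P x then ((⟨q.out, h⟩ : P x) : (P x) ⧸ D₀.subgroupOf (P x)) else 1)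
        (t := Finset.univ.erase 1) (fun q hq => ?_) (fun q hq q' hq' h => ?_)) (le_of_eq ?_)
      · have hq' := Finset.mem_coe.1 hq
        simp only [dif_pos (himp q hq')]
        refine Finset.mem_coe.2 (Finset.mem_erase.2 ⟨fun h => ?_, Finset.mem_univ _⟩)
        exact hout q (Finset.ne_of_mem_erase (Finset.mem_filter.1 hq').1)
          (Subgroup.mem_subgroupOf.1 ((QuotientGroup.eq_one_iff _).1 h))
      · simp only [dif_pos (himp q (Finset.mem_coe.1 hq)),
          dif_pos (himp q' (Finset.mem_coe.1 hq'))] at h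
        rw [← QuotientGroup.out_eq' q, ← QuotientGroup.out_eq' q']
        exact QuotientGroup.eq.2 (Subgroup.mem_subgroupOf.1 (QuotientGroup.eq.1 h))
      · rw [Finset.card_erase_of_mem (Finset.mem_univ _), Finset.card_univ]
    have hScard : S.card ≤ (s - 1) * (S.image f).card :=
      Finset.card_le_mul_card_image S (s - 1) hfib
    have hs1 : 1 ≤ s := Nat.le_sqrt'.2 (by omega)
    have hsQ : s < Q := Nat.sqrt_lt_self hQ1
    have hss : s * s ≤ Q := Nat.sqrt_le Q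
    have h7 : D₀.index < Q * s := by
      have h8 : S.card ≤ (s - 1) * (Q + 1) := hScard.trans (Nat.mul_le_mul_left _ himg)
      obtain ⟨k, hk⟩ : ∃ k, s = k + 1 := ⟨s - 1, by omega⟩
      rw [hk, Nat.add_sub_cancel] at h8
      rw [hk]
      rw [hk] at hsQ
      nlinarith
    have hδ0 : 0 < δ := Nat.pos_of_ne_zero fun h => by
      rw [h, zero_mul] at hmul
      nlinarith
    have h9 : Q < δ * s := by
      refine Nat.lt_of_mul_lt_mul_left (a := Q) ?_
      calc Q * Q = δ * D₀.index := hmul.symm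
        _ < δ * (Q * s) := Nat.mul_lt_mul_of_pos_left h7 hδ0
        _ = Q * (δ * s) := by ring
    refine Nat.lt_of_mul_lt_mul_left (a := Q) ?_
    calc Q * Q < (δ * s) * (δ * s) := Nat.mul_self_lt_mul_self h9
      _ = δ ^ 2 * (s * s) := by ring
      _ ≤ δ ^ 2 * Q := Nat.mul_le_mul_left _ hss
      _ = Q * δ ^ 2 := mul_comm _ _
  -- an element of `D₀` outside the derived subgroup
  obtain ⟨t, ht0, ht⟩ : ∃ t, t ∈ D₀ ∧ t ∉ g2 := by
    by_contra hcon
    push Not at hcon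
    rw [Subgroup.relIndex_eq_one.2 hcon, one_pow] at hδ
    omega
  have hPt : P t = modCent R t := by
    ext z
    rw [hPmem, mem_modCent]
    refine ⟨fun h => ⟨comm_mem_g2 t z, fun v hv => ?_⟩, fun h w hw => ?_⟩
    · rw [← hI t ht0 v hv z]
      exact h v hv
    · rw [hI t ht0 w hw z]
      exact h.2 w hw
  set h := (P t).index with hhdef
  have hh : h = R.relIndex g2 := by rw [hhdef, hPt, index_modCent hC ht R]
  have hh5 : h ≤ Q := by
    rw [hh]
    exact Nat.le_of_dvd (by omega) (Subgroup.relIndex_dvd_of_le_left g2 hg3R)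
  have h1 : g2.relIndex D₀ * (D₀.relIndex (P t) * h) = Q * Q := by
    rw [Subgroup.relIndex_mul_index (hP0 t), Subgroup.relIndex_mul_index hle0, hQ2]
  have h2 := hPsq t ht
  by_cases hPtop : P t = ⊤
  · -- the degenerate case
    have hR : ∀ w ∈ g2, w ∈ R := by
      rw [hhdef, hPtop, Subgroup.index_top] at hh
      exact Subgroup.relIndex_eq_one.1 hh.symm
    have hsub : D₀ ≤ cc (hfun z₀ hz₀) := fun t' ht' w hw => by
      show χ ⁅⁅w, t'⁆, z₀⁆ = 0
      rw [hI t' ht' w hw z₀]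
      exact (hR _ (comm_mem_g2 t' z₀)).2 w hw
    have h3 : g2.relIndex D₀ ≤ Q := by
      have h4 := Subgroup.relIndex_mul_index (derived_le_cc (hfun z₀ hz₀))
      rw [(dat z₀ hz₀).index, hQ2] at h4
      have h5 : g2.relIndex (cc (hfun z₀ hz₀)) = Q :=
        Nat.eq_of_mul_eq_mul_right (Nat.pos_of_ne_zero Subgroup.index_ne_zero_of_finite) h4
      rw [← h5]
      exact Subgroup.relIndex_le_of_le_right hsub Subgroup.index_ne_zero_of_finite
    rw [hhdef, hPtop, Subgroup.index_top, mul_one] at h1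
    rw [hPtop] at h2
    have h6 : Q ≤ D₀.relIndex ⊤ := Nat.le_of_mul_le_mul_left
      ((le_of_eq h1.symm).trans (Nat.mul_le_mul_right _ h3)) (by omega)
    nlinarith [Nat.pow_le_pow_left h6 2]
  set K := modCent (g3 D) t with hKdef
  have hKP : K ≤ P t := by
    rw [hPt]
    exact fun z hz => hg3R hz
  have hKi : K.index = Q := index_modCent hC ht (g3 D)
  -- the size of `E`
  have h3 : g2.relIndex D₀ * h ≤ g2.relIndex (D₀ ⊓ K) * Q := by
    have e1 : g2.relIndex (D₀ ⊓ K) * (D₀ ⊓ K).relIndex D₀ = g2.relIndex D₀ :=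
      Subgroup.relIndex_mul_relIndex _ _ _ (le_inf hle0 (derived_le_modCent t)) inf_le_left
    rw [← e1, mul_assoc, ← hKi]
    refine Nat.mul_le_mul_left _ ?_
    rw [← Subgroup.relIndex_mul_index hKP, ← hhdef, inf_comm, Subgroup.inf_relIndex_right]
    exact Nat.mul_le_mul_right _ (Subgroup.relIndex_le_of_le_right (hP0 t) Subgroup.index_ne_zero_of_finite)
  have h4 : g2.relIndex (D₀ ⊓ K) ^ 2 ≤ h := by
    have hB : ∀ {u u' v : D}, u ∈ g2 → u' ∈ g2 → v ∈ g2 →
        χ ⁅u * u', v⁆ = χ ⁅u, v⁆ + χ ⁅u', v⁆ := fun hu hu' hv =>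
      hχ.mul_left (hg22 hu hv) (hg22 hu' hv)
    have hB' : ∀ {u v v' : D}, u ∈ g2 → v ∈ g2 → v' ∈ g2 →
        χ ⁅u, v * v'⁆ = χ ⁅u, v⁆ + χ ⁅u, v'⁆ := fun hu hv hv' =>
      hχ.mul_right (hg22 hu hv) (hg22 hu hv')
    have hγskew : ∀ t' ∈ D₀ ⊓ K, ∀ a c : D,
        χ ⁅⁅t, c⁆, ⁅t', a⁆⁆ = - χ ⁅⁅t, a⁆, ⁅t', c⁆⁆ := by
      intro t' ht' a c
      have htt' : ⁅t, t'⁆ ∈ g3 D := ht'.2
      have hF : χ ⁅⁅⁅a, t⁆, t'⁆, c⁆ + χ ⁅⁅⁅t', a⁆, t⁆, c⁆ = 0 := by
        by_cases hc0 : c ∈ D₀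
        · rw [hmem0.1 hc0 _ (comm_mem_left (comm_mem_g2 a t) t'),
            hmem0.1 hc0 _ (comm_mem_left (comm_mem_g2 t' a) t), add_zero]
        have hc := hfun c hc0
        have h3' : ∀ a b y : D, ⁅⁅a, b⁆, y⁆ ∈ g3 D := fun a b y =>
          comm_mem_left (comm_mem_g2 a b) y
        have h4' : ∀ a b x y : D, (fun w => χ ⁅w, c⁆) ⁅⁅a, b⁆, ⁅x, y⁆⁆ = 0 := fun a b x y =>
          hc.ker _ (hg22 (comm_mem_g2 a b) (comm_mem_g2 x y))
        have hj := hc.jacobi (a := a) (b := t) (c := t') (h3' _ _ _) (h3' _ _ _) (h3' _ _ _)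
          (h3' _ _ _) (h3' _ _ _) (h3' _ _ _) (h4' _ _ _ _) (h4' _ _ _ _) (h4' _ _ _ _)
        rwa [hc.ker _ (comm_mem_left htt' a), add_zero] at hj
      rw [hI t' ht'.1 _ (comm_mem_g2 a t) c, hI t ht0 _ (comm_mem_g2 t' a) c,
        hχ.swap (hg22 (comm_mem_g2 t c) (comm_mem_g2 t' a))] at hF
      have hinv : χ ⁅⁅a, t⁆, ⁅t', c⁆⁆ = - χ ⁅⁅t, a⁆, ⁅t', c⁆⁆ := by
        have h := hB (comm_mem_g2 a t) (comm_mem_g2 t a) (comm_mem_g2 t' c)
        rw [← commutatorElement_inv t a, inv_mul_cancel, commutatorElement_one_left, hχ.map_one,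
          commutatorElement_inv] at h
        exact eq_neg_of_add_eq_zero_left h.symm
      rw [hinv, ← neg_add, neg_eq_zero] at hF
      exact eq_neg_of_add_eq_zero_right hF
    have hl2 : ∀ (v a a' : D), v ∈ g2 → χ ⁅⁅t, a * a'⁆, v⁆ = χ ⁅⁅t, a⁆, v⁆ + χ ⁅⁅t, a'⁆, v⁆ :=
      fun v a a' hv => by
      rw [show ⁅t, a * a'⁆ = ⁅t, a⁆ * ⁅a, ⁅t, a'⁆⁆ * ⁅t, a'⁆ by
        simp only [commutatorElement_def]; group,
        hB (mul_mem (comm_mem_g2 _ _) (comm_mem_g2 _ _)) (comm_mem_g2 _ _) hv,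
        hB (comm_mem_g2 _ _) (comm_mem_g2 _ _) hv,
        hg32 (comm_mem_right (comm_mem_g2 t a') a) hv, add_zero]
    show (g2.subgroupOf (D₀ ⊓ K)).index ^ 2 ≤ (P t).index
    refine AlternatingFamily.index_sq_le (X := ↥(D₀ ⊓ K)) (Y := D)
      (fun t' a c => χ ⁅⁅t, a⁆, ⁅(t' : D), c⁆⁆) (fun t' t'' a c => ?_)
      (fun t' a a' c => hl2 _ a a' (comm_mem_g2 _ _)) (fun t' a c c' => ?_) (fun t' a => ?_)
      (fun t' ht' a c => hg23 (comm_mem_g2 t a) (comm_mem_left (Subgroup.mem_subgroupOf.1 ht') c))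
      (fun a ha t' c => ?_) (fun t' ht' a hac => ?_) hPtop
    · rw [Subgroup.coe_mul, show ⁅(t' : D) * t'', c⁆ =
        ⁅(t' : D), ⁅(t'' : D), c⁆⁆ * ⁅(t'' : D), c⁆ * ⁅(t' : D), c⁆ by
          simp only [commutatorElement_def]; group,
        hB' (comm_mem_g2 _ _) (mul_mem (comm_mem_g2 _ _) (comm_mem_g2 _ _)) (comm_mem_g2 _ _),
        hB' (comm_mem_g2 _ _) (comm_mem_g2 _ _) (comm_mem_g2 _ _),
        hg23 (comm_mem_g2 t a) (comm_mem_right (comm_mem_g2 (t'' : D) c) (t' : D)), zero_add, add_comm]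
    · rw [show ⁅(t' : D), c * c'⁆ = ⁅(t' : D), c⁆ * ⁅c, ⁅(t' : D), c'⁆⁆ * ⁅(t' : D), c'⁆ by
        simp only [commutatorElement_def]; group,
        hB' (comm_mem_g2 _ _) (mul_mem (comm_mem_g2 _ _) (comm_mem_g2 _ _)) (comm_mem_g2 _ _),
        hB' (comm_mem_g2 _ _) (comm_mem_g2 _ _) (comm_mem_g2 _ _),
        hg23 (comm_mem_g2 t a) (comm_mem_right (comm_mem_g2 (t' : D) c') c), add_zero]
    · have h := hγskew t' t'.2 a a
      have h2' : (2 : ZMod r) * χ ⁅⁅t, a⁆, ⁅(t' : D), a⁆⁆ = 0 := by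
        rw [two_mul]
        nth_rewrite 1 [h]
        exact neg_add_cancel _
      refine (mul_eq_zero.1 h2').resolve_left fun h2 => hr2 ?_
      have h2'' : ((2 : ℕ) : ZMod r) = 0 := by exact_mod_cast h2
      exact (Nat.prime_dvd_prime_iff_eq (Fact.out : r.Prime) Nat.prime_two).1
        ((ZMod.natCast_eq_zero_iff 2 r).1 h2'')
    · have ha' : ⁅t, a⁆ ∈ R := by rw [hPt] at ha; exact ha
      rw [← neg_eq_zero, ← hχ.swap (hg22 (comm_mem_g2 t a) (comm_mem_g2 _ c))]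
      exact ha'.2 _ (comm_mem_g2 _ c)
    · rw [hPt]
      refine ⟨comm_mem_g2 t a, fun v hv => ?_⟩
      obtain ⟨c, rfl⟩ := hC (t' : D) ht' v hv
      rw [hχ.swap (hg22 (comm_mem_g2 t a) hv), hac c, neg_zero]
  exact arith (by omega) h1 h2 h3 h4 hh5 hδ

end CfsgLib.ZerosCodegree.Camina
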