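import Cfsg.Agent.Lib.ZerosCodegree.CaminaClassTools

/-!
# Camina groups of class three

For a functional on the third central term, its centraliser in the second has square index, is
isotropic and carries a non-degenerate form.  There is no such functional for the prime two.
-/

set_option autoImplicit false
set_option linter.unusedSectionVars false
set_option linter.unusedVariables false
set_option linter.style.haveILetI false

open scoped commutatorElement

namespace CfsgLib.ZerosCodegree.Camina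

universe u

variable {D : Type u} [Group D] [Finite D] {r : ℕ} [Fact r.Prime]

theorem derived_ne_top [Nontrivial D] (hD : IsPGroup r D) : commutator D ≠ ⊤ := fun h => by
  refine comm_top_lt hD.isNilpotent (N := (⊤ : Subgroup D)) ?_ h
  exact top_ne_bot

theorem g3_ne_derived (hD : IsPGroup r D) (hne : commutator D ≠ ⊥) : ¬ commutator D ≤ g3 D :=
  fun h => comm_top_lt hD.isNilpotent hne (le_antisymm g3_le h)

/-- Powers of commutators in the first argument, modulo the third term. -/
theorem comm_pow_mem (x y : D) : ∀ k : ℕ, (⁅x, y⁆ ^ k)⁻¹ * ⁅x ^ k, y⁆ ∈ g3 D := by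
  intro k
  have key : ∀ k, (QuotientGroup.mk' (g3 D)) ⁅x ^ k, y⁆ = (QuotientGroup.mk' (g3 D)) ⁅x, y⁆ ^ k := by
    intro k
    induction k with
    | zero => rw [pow_zero, commutatorElement_one_left, map_one, pow_zero]
    | succ k ih =>
      rw [pow_succ', show ⁅x * x ^ k, y⁆ = ⁅x, ⁅x ^ k, y⁆⁆ * ⁅x ^ k, y⁆ * ⁅x, y⁆ by
        simp only [commutatorElement_def]; group, map_mul, map_mul, ih,
        show (QuotientGroup.mk' (g3 D)) ⁅x, ⁅x ^ k, y⁆⁆ = 1 from
          (QuotientGroup.eq_one_iff _).2 (comm_mem_right (comm_mem_g2 _ _) x), one_mul, ← pow_succ]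
  refine (QuotientGroup.eq_one_iff _).1 ?_
  show QuotientGroup.mk' (g3 D) _ = 1
  rw [map_mul, map_inv, map_pow, key, inv_mul_cancel]

/-- The Frattini quotient is elementary. -/
theorem pow_mem_derived (hD : IsPGroup r D) (hC : IsCamina D) (hne : commutator D ≠ ⊥) (x : D) :
    x ^ r ∈ commutator D := by
  by_contra hx
  obtain ⟨χ, hχ⟩ :=
    exists_fun (r := r) (N := commutator D) hD (g3_le (D := D)) (g3_ne_derived hD hne) le_rfl
  obtain ⟨w, hw, hw0⟩ := hχ.ne
  obtain ⟨y, hy⟩ := hC _ hx w hw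
  have h1 := comm_pow_mem x y r
  rw [hy] at h1
  have h2 := hχ.ker _ h1
  rw [hχ.add _ (Subgroup.inv_mem _ (Subgroup.pow_mem _ (comm_mem_g2 x y) r)) _ hw,
    hχ.map_inv (Subgroup.pow_mem _ (comm_mem_g2 x y) r), hχ.map_pow (comm_mem_g2 x y),
    ZModModule.char_nsmul_eq_zero, neg_zero, zero_add] at h2
  exact hw0 h2

theorem pow_mem_g3 (hD : IsPGroup r D) (hC : IsCamina D) (hne : commutator D ≠ ⊥) {w : D}
    (hw : w ∈ commutator D) : w ^ r ∈ g3 D := by
  haveI : Nontrivial D := by
    by_contra h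
    rw [not_nontrivial_iff_subsingleton] at h
    exact hne (Subsingleton.elim _ _)
  obtain ⟨x, -, hx⟩ := SetLike.exists_of_lt (lt_of_le_of_ne le_top (derived_ne_top (D := D) hD))
  obtain ⟨y, rfl⟩ := hC x hx w hw
  have h1 := comm_pow_mem x y r
  have h2 : ⁅x ^ r, y⁆ ∈ g3 D := comm_mem_left (pow_mem_derived hD hC hne x) y
  have h3 := (g3 D).mul_mem h2 ((g3 D).inv_mem h1)
  rwa [mul_inv_rev, inv_inv, mul_inv_cancel_left] at h3

/-- An alternating bilinear map that is onto from every element outside a proper subgroup. -/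
theorem card_sq_le_of_pairing {W : Type*} [AddCommGroup W] [Module (ZMod r) W] [Finite W]
    {V₁ : Subgroup D} (cl : D → D → W) (hl : ∀ a a' b, cl (a * a') b = cl a b + cl a' b)
    (hr : ∀ a b b', cl a (b * b') = cl a b + cl a b') (halt : ∀ a, cl a a = 0)
    (h0 : ∀ a ∈ V₁, ∀ b, cl a b = 0) (hV : V₁ ≠ ⊤)
    (honto : ∀ a, a ∉ V₁ → ∀ z, ∃ b, cl a b = z) : Nat.card W ^ 2 ≤ V₁.index := by
  haveI : Module.Finite (ZMod r) W := Module.Finite.of_finite
  haveI : Finite (Module.Dual (ZMod r) W) := Module.finite_of_finite (ZMod r)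
  have h := AlternatingFamily.index_sq_le (r := r)
    (X := Multiplicative (Module.Dual (ZMod r) W)) (Y := D)
    (fun f a b => (Multiplicative.toAdd f) (cl a b))
    (fun f f' a b => by rw [toAdd_mul, LinearMap.add_apply])
    (fun f a a' b => by rw [hl, map_add]) (fun f a b b' => by rw [hr, map_add])
    (fun f a => by rw [halt, map_zero])
    (E₁ := ⊥) (V₁ := V₁)
    (fun f hf a b => by rw [Subgroup.mem_bot.1 hf, toAdd_one, LinearMap.zero_apply])
    (fun a ha f b => by rw [h0 a ha, map_zero])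
    (fun f hf a hab => by
      by_contra ha
      refine hf (Subgroup.mem_bot.2 (Multiplicative.toAdd.injective (LinearMap.ext fun z => ?_)))
      obtain ⟨b, rfl⟩ := honto a ha z
      rw [hab b, toAdd_one, LinearMap.zero_apply])
    hV
  refine le_of_eq_of_le ?_ h
  rw [Subgroup.index_bot, Nat.card_congr Multiplicative.toAdd,
    Module.natCard_eq_pow_finrank (K := ZMod r) (V := Module.Dual (ZMod r) W),
    Subspace.dual_finrank_eq, ← Module.natCard_eq_pow_finrank]

/-- The second factor of the lower central series is at most the square root of the first. -/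
theorem relIndex_sq_le (hD : IsPGroup r D) (hC : IsCamina D) (hne : commutator D ≠ ⊥) :
    (g3 D).relIndex (commutator D) ^ 2 ≤ (commutator D).index := by
  classical
  haveI : Nontrivial D := by
    by_contra h
    rw [not_nontrivial_iff_subsingleton] at h
    exact hne (Subsingleton.elim _ _)
  let A := commutator D ⧸ (g3 D).subgroupOf (commutator D)
  letI : CommGroup A :=
    { (inferInstance : Group A) with
      mul_comm := fun a b => by
        obtain ⟨a, rfl⟩ := QuotientGroup.mk'_surjective _ a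
        obtain ⟨b, rfl⟩ := QuotientGroup.mk'_surjective _ b
        rw [← map_mul, ← map_mul]
        refine QuotientGroup.eq.2 ?_
        rw [Subgroup.mem_subgroupOf]
        have h := comm_mem_left b.2 (a : D)⁻¹
        simpa [commutatorElement_def, mul_assoc] using
          (inferInstance : (g3 D).Normal).conj_mem _ (comm_mem_left (Subgroup.inv_mem _ b.2) (a : D)⁻¹) 1 }
  letI : Module (ZMod r) (Additive A) := AddCommGroup.zmodModule (n := r) fun z => by
    obtain ⟨w, hw⟩ := QuotientGroup.mk'_surjective _ (Additive.toMul z)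
    have h : (Additive.toMul z) ^ r = 1 := by
      rw [← hw, ← map_pow]
      exact (QuotientGroup.eq_one_iff _).2 (pow_mem_g3 hD hC hne w.2)
    exact Additive.toMul.injective (by rw [toMul_nsmul, h, toMul_zero])
  let cl : D → D → Additive A := fun a b => Additive.ofMul (⟨_, comm_mem_g2 a b⟩ : commutator D)
  have hl : ∀ a a' b, cl (a * a') b = cl a b + cl a' b := fun a a' b => by
    refine Additive.toMul.injective ?_
    rw [toMul_add, mul_comm]
    show QuotientGroup.mk' _ _ = QuotientGroup.mk' _ _ * QuotientGroup.mk' _ _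
    rw [← map_mul]
    refine QuotientGroup.eq.2 ?_
    rw [Subgroup.mem_subgroupOf]
    show ⁅a * a', b⁆⁻¹ * (⁅a', b⁆ * ⁅a, b⁆) ∈ g3 D
    rw [show ⁅a * a', b⁆⁻¹ * (⁅a', b⁆ * ⁅a, b⁆) =
      ⁅a, b⁆⁻¹ * (⁅a', b⁆⁻¹ * ⁅a, ⁅a', b⁆⁆⁻¹ * ⁅a', b⁆) * ⁅a, b⁆ by
        simp only [commutatorElement_def]; group]
    have h := (g3 D).inv_mem (comm_mem_right (comm_mem_g2 a' b) a)
    have h' := (inferInstance : (g3 D).Normal).conj_mem _
      ((inferInstance : (g3 D).Normal).conj_mem _ h ⁅a', b⁆⁻¹) ⁅a, b⁆⁻¹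
    simpa only [inv_inv, mul_assoc] using h'
  have hskew : ∀ a b, cl b a = - cl a b := fun a b => by
    refine Additive.toMul.injective ?_
    rw [toMul_neg]
    show QuotientGroup.mk' _ _ = (QuotientGroup.mk' _ _)⁻¹
    rw [← map_inv]
    exact congrArg _ (Subtype.ext (commutatorElement_inv a b).symm)
  have hr : ∀ a b b', cl a (b * b') = cl a b + cl a b' := fun a b b' => by
    rw [hskew (b * b') a, hl, neg_add, hskew a b, hskew a b', neg_neg, neg_neg]
  have h0 : ∀ a ∈ commutator D, ∀ b, cl a b = 0 := fun a ha b => by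
    refine Additive.toMul.injective ?_
    rw [toMul_zero]
    exact (QuotientGroup.eq_one_iff _).2 (comm_mem_left ha b)
  refine card_sq_le_of_pairing (r := r) (W := Additive A) cl hl hr (fun a => ?_) h0 (derived_ne_top hD) fun a ha z => ?_
  · refine Additive.toMul.injective ?_
    rw [toMul_zero]
    refine (QuotientGroup.eq_one_iff _).2 ?_
    rw [Subgroup.mem_subgroupOf]
    show ⁅a, a⁆ ∈ g3 D
    rw [commutatorElement_self]
    exact one_mem _
  · obtain ⟨⟨w, hw⟩, hz⟩ := QuotientGroup.mk'_surjective _ (Additive.toMul z)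
    obtain ⟨b, hb⟩ := hC a ha w hw
    exact ⟨b, Additive.toMul.injective ((congrArg _ (Subtype.ext hb)).trans hz)⟩

section Three

variable {χ : D → ZMod r}

theorem Fun.hmem3 (h : Fun (g3 D) (g4 D) χ) :
    ∀ a ∈ ((commutator D : Subgroup D) : Set D), ∀ t, ⁅a, t⁆ ∈ g3 D :=
  fun a ha t => comm_mem_left ha t

/-- The centraliser in the second term of a functional on the third. -/
def cc (h : Fun (g3 D) (g4 D) χ) : Subgroup D :=
  h.cen ((commutator D : Subgroup D) : Set D) h.hmem3

theorem derived_le_cc (h : Fun (g3 D) (g4 D) χ) : commutator D ≤ cc h := fun w hw a ha =>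
  h.ker _ (comm_g2_g2 (Subgroup.commutator_mem_commutator ha hw))

/-- The structure of the centraliser. -/
structure CentralizerData (h : Fun (g3 D) (g4 D) χ) : Prop where
  index : (cc h).index = (g3 D).relIndex (commutator D)
  card : (commutator D).index = (g3 D).relIndex (commutator D) * (g3 D).relIndex (commutator D)
  iso : ∀ c ∈ cc h, ∀ c' ∈ cc h, ⁅c, c'⁆ ∈ g3 D
  eq : ∀ x ∈ cc h, x ∉ commutator D → modCent (g3 D) x = cc h
  nondeg : ∀ c ∈ cc h, c ∉ commutator D → ∃ c' ∈ cc h, χ ⁅c, c'⁆ ≠ 0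
  rad : ∀ w ∈ commutator D, (∀ t, χ ⁅w, t⁆ = 0) → w ∈ g3 D

/-- The main facts on class three. -/
theorem centralizerData (hD : IsPGroup r D) (hC : IsCamina D) (h : Fun (g3 D) (g4 D) χ) :
    CentralizerData h := by
  classical
  set C := cc h with hCdef
  set Q := (g3 D).relIndex (commutator D) with hQdef
  have hne : commutator D ≠ ⊥ := fun h0 => by
    obtain ⟨a, ha, ha0⟩ := h.ne
    refine ha0 ?_
    have := g3_le ha
    rw [h0, Subgroup.mem_bot] at this
    rw [this, h.map_one]
  haveI : Nontrivial D := by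
    by_contra h0
    rw [not_nontrivial_iff_subsingleton] at h0
    exact hne (Subsingleton.elim _ _)
  have hmemC : ∀ {t : D}, t ∈ C ↔ ∀ a ∈ commutator D, χ ⁅a, t⁆ = 0 := Iff.rfl
  have hgen : ∀ {a : D}, a ∈ g3 D → ∀ t, χ ⁅a, t⁆ = 0 := fun ha t => h.ker _ (comm_mem_left ha t)
  have h3 : ∀ a b y : D, ⁅⁅a, b⁆, y⁆ ∈ g3 D := fun a b y => comm_mem_left (comm_mem_g2 a b) y
  have h4 : ∀ a b c d : D, χ ⁅⁅a, b⁆, ⁅c, d⁆⁆ = 0 := fun a b c d =>
    h.ker _ (comm_g2_g2 (Subgroup.commutator_mem_commutator (comm_mem_g2 a b) (comm_mem_g2 c d)))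
  have hlin : ∀ a a' b z : D, χ ⁅⁅a * a', b⁆, z⁆ = χ ⁅⁅a, b⁆, z⁆ + χ ⁅⁅a', b⁆, z⁆ := fun a a' b z => by
    rw [show ⁅a * a', b⁆ = ⁅a, ⁅a', b⁆⁆ * ⁅a', b⁆ * ⁅a, b⁆ by
      simp only [commutatorElement_def]; group,
      h.mul_left (comm_mem_left (Subgroup.mul_mem _ (comm_mem_g2 _ _) (comm_mem_g2 _ _)) z) (h3 _ _ _),
      h.mul_left (comm_mem_left (comm_mem_g2 _ _) z) (h3 _ _ _),
      hgen (comm_mem_right (comm_mem_g2 a' b) a) z, zero_add, add_comm]
  have hskew : ∀ a b z : D, χ ⁅⁅b, a⁆, z⁆ = - χ ⁅⁅a, b⁆, z⁆ := fun a b z => by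
    have := h.mul_left (a := ⁅b, a⁆) (b := ⁅a, b⁆) (c := z) (h3 _ _ _) (h3 _ _ _)
    rw [← commutatorElement_inv a b, inv_mul_cancel, commutatorElement_one_left, h.map_one,
      commutatorElement_inv] at this
    exact eq_neg_of_add_eq_zero_left this.symm
  have hlinr : ∀ a b b' z : D, χ ⁅⁅a, b * b'⁆, z⁆ = χ ⁅⁅a, b⁆, z⁆ + χ ⁅⁅a, b'⁆, z⁆ := fun a b b' z => by
    rw [hskew (b * b') a, hlin, neg_add, ← hskew b a, ← hskew b' a]
  -- the kernel in the second term
  let K : Subgroup (commutator D) :=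
    { carrier := {w | ∀ t, χ ⁅(w : D), t⁆ = 0}
      one_mem' := fun t => by rw [OneMemClass.coe_one, commutatorElement_one_left, h.map_one]
      mul_mem' := fun {a b} ha hb t => by
        rw [Subgroup.coe_mul, h.mul_left (comm_mem_left a.2 t) (comm_mem_left b.2 t), ha t, hb t,
          add_zero]
      inv_mem' := fun {a} ha t => by
        have h1 := h.mul_left (a := (a : D)⁻¹) (b := a) (c := t)
          (comm_mem_left (Subgroup.inv_mem _ a.2) t) (comm_mem_left a.2 t)
        rw [inv_mul_cancel, commutatorElement_one_left, h.map_one, ha t, add_zero] at h1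
        rw [Subgroup.coe_inv]
        exact h1.symm }
  have hKle : (g3 D).subgroupOf (commutator D) ≤ K := fun w hw t => hgen hw t
  have hp1 : C.index ≤ K.index := AlternatingFamily.index_le (X := D) (Y := commutator D)
    (fun t w => χ ⁅(w : D), t⁆)
    (fun t t' w => h.mul_right (comm_mem_left w.2 t) (comm_mem_left w.2 t'))
    (fun t w w' => h.mul_left (comm_mem_left w.2 t) (comm_mem_left w'.2 t))
    (fun t ht => hmemC.2 fun a ha => ht ⟨a, ha⟩) (fun w hw t => hw t)
  have hp2 : K.index ≤ C.index := AlternatingFamily.index_le (X := commutator D) (Y := D)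
    (fun w t => χ ⁅(w : D), t⁆)
    (fun w w' t => h.mul_left (comm_mem_left w.2 t) (comm_mem_left w'.2 t))
    (fun w t t' => h.mul_right (comm_mem_left w.2 t) (comm_mem_left w.2 t'))
    (fun w hw => hw) (fun t ht w => hmemC.1 ht w w.2)
  have hnz : ∀ z, z ∉ C → ∀ a, a ∉ commutator D → ∃ b, χ ⁅⁅a, b⁆, z⁆ ≠ 0 := fun z hz a ha => by
    rw [hmemC] at hz
    push Not at hz
    obtain ⟨w, hw, hw0⟩ := hz
    obtain ⟨b, rfl⟩ := hC a ha w hw
    exact ⟨b, hw0⟩
  -- the square of the index
  have hsq : C.index ^ 2 ≤ (commutator D).index :=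
    AlternatingFamily.index_sq_le (X := D) (Y := D) (fun z a b => χ ⁅⁅a, b⁆, z⁆)
      (fun z z' a b => h.mul_right (h3 a b z) (h3 a b z')) (fun z a a' b => hlin a a' b z)
      (fun z a b b' => hlinr a b b' z)
      (fun z a => by rw [commutatorElement_self, commutatorElement_one_left, h.map_one])
      (fun z hz a b => hmemC.1 hz _ (comm_mem_g2 a b))
      (fun a ha z b => hgen (comm_mem_left ha b) z)
      (fun z hz a hab => Classical.byContradiction fun ha => by
        obtain ⟨b, hb⟩ := hnz z hz a ha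
        exact hb (hab b))
      (derived_ne_top hD)
  -- isotropy
  obtain ⟨z₀, -, hz₀⟩ : ∃ z ∈ (⊤ : Subgroup D), z ∉ C := by
    by_contra hcon
    push Not at hcon
    obtain ⟨a, ha, ha0⟩ := h.ne
    let Z : Subgroup D :=
      { carrier := {x | x ∈ g3 D ∧ χ x = 0}
        one_mem' := ⟨one_mem _, h.map_one⟩
        mul_mem' := fun {x y} hx hy => ⟨mul_mem hx.1 hy.1, by
          rw [h.add _ hx.1 _ hy.1, hx.2, hy.2, add_zero]⟩
        inv_mem' := fun {x} hx => ⟨inv_mem hx.1, by rw [h.map_inv hx.1, hx.2, neg_zero]⟩ }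
    have hle : g3 D ≤ Z := Subgroup.commutator_le.2 fun w hw t ht =>
      ⟨comm_mem_left hw t, hmemC.1 (hcon t ht) w hw⟩
    exact ha0 (hle ha).2
  have hiso : ((commutator D).subgroupOf C).index ≤ C.index :=
    AlternatingFamily.index_le (X := C) (Y := D) (fun c t => χ ⁅⁅(c : D), t⁆, z₀⁆)
      (fun c c' t => hlin c c' t z₀) (fun c t t' => hlinr c t t' z₀)
      (fun c hc => Classical.byContradiction fun hcD => by
        obtain ⟨t, ht⟩ := hnz z₀ hz₀ c hcD
        exact ht (hc t))
      (fun t ht c => by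
        have h1 := h.jacobi (a := (c : D)) (b := t) (c := z₀) (h3 _ _ _) (h3 _ _ _) (h3 _ _ _)
          (h3 _ _ _) (h3 _ _ _) (h3 _ _ _) (h4 _ _ _ _) (h4 _ _ _ _) (h4 _ _ _ _)
        rwa [hmemC.1 c.2 _ (comm_mem_g2 t z₀), hmemC.1 ht _ (comm_mem_g2 z₀ c), add_zero,
          add_zero] at h1)
  have hmul : ((commutator D).subgroupOf C).index * C.index = (commutator D).index :=
    Subgroup.relIndex_mul_index (derived_le_cc h)
  have hQ : Q ^ 2 ≤ (commutator D).index := relIndex_sq_le hD hC hne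
  have hKQ : K.index ≤ Q := Nat.le_of_dvd
    (Nat.pos_of_ne_zero Subgroup.index_ne_zero_of_finite) (Subgroup.index_dvd_of_le hKle)
  have hKC : K.index = C.index := le_antisymm hp2 hp1
  have hV : (commutator D).index = C.index * C.index := by nlinarith
  have hQC : C.index = Q := by
    rw [hV, ← pow_two] at hQ
    exact le_antisymm (hKC ▸ hKQ) ((Nat.pow_le_pow_iff_left two_ne_zero).1 hQ)
  have hKeq : (g3 D).subgroupOf (commutator D) = K := by
    refine le_antisymm hKle fun w hw => ?_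
    have h1 := Subgroup.relIndex_mul_index hKle
    rw [show ((g3 D).subgroupOf (commutator D)).index = Q from rfl, hKC, hQC] at h1
    have h2 : ((g3 D).subgroupOf (commutator D)).relIndex K = 1 :=
      (Nat.mul_eq_right (hQC ▸ Subgroup.index_ne_zero_of_finite)).1 h1
    exact Subgroup.relIndex_eq_one.1 h2 hw
  have hisog : ∀ c ∈ C, ∀ c' ∈ C, ⁅c, c'⁆ ∈ g3 D := fun c hc c' hc' => by
    have h1 : (⟨_, comm_mem_g2 c c'⟩ : commutator D) ∈ K := fun t => by
      have h2 := h.jacobi (a := c) (b := c') (c := t) (h3 _ _ _) (h3 _ _ _) (h3 _ _ _)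
        (h3 _ _ _) (h3 _ _ _) (h3 _ _ _) (h4 _ _ _ _) (h4 _ _ _ _) (h4 _ _ _ _)
      rwa [hmemC.1 hc _ (comm_mem_g2 c' t), hmemC.1 hc' _ (comm_mem_g2 t c), add_zero,
        add_zero] at h2
    rw [← hKeq, Subgroup.mem_subgroupOf] at h1
    exact h1
  have heq : ∀ x ∈ C, x ∉ commutator D → modCent (g3 D) x = C := fun x hx hxD => by
    refine (Subgroup.eq_of_le_of_card_ge (fun c hc => hisog x hx c hc) (le_of_eq ?_)).symm
    have h1 := Subgroup.card_mul_index C
    rw [← Subgroup.card_mul_index (modCent (g3 D) x), index_modCent hC hxD (g3 D), ← hQdef, ← hQC] at h1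
    exact (Nat.eq_of_mul_eq_mul_right (Nat.pos_of_ne_zero Subgroup.index_ne_zero_of_finite) h1).symm
  refine ⟨hQC, by rw [hV, hQC], hisog, heq, fun c hc hcD => ?_, fun w hw hwt =>
    Subgroup.mem_subgroupOf.1 (hKeq.ge (show (⟨w, hw⟩ : commutator D) ∈ K from hwt))⟩
  obtain ⟨a, ha, ha0⟩ := h.ne
  obtain ⟨y, rfl⟩ := hC c hcD a (g3_le ha)
  exact ⟨y, (heq c hc hcD).le (mem_modCent.2 ha), ha0⟩

end Three

/-- For the prime two there is no functional on the third term. -/
theorem no_fun_two {D : Type u} [Group D] [Finite D] (hD : IsPGroup 2 D) (hC : IsCamina D)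
    {χ : D → ZMod 2} (h : Fun (g3 D) (g4 D) χ) : False := by
  classical
  have d := centralizerData hD hC h
  set C := cc h with hCdef
  have hne : commutator D ≠ ⊥ := fun h0 => by
    obtain ⟨a, ha, ha0⟩ := h.ne
    refine ha0 ?_
    have := g3_le ha
    rw [h0, Subgroup.mem_bot] at this
    rw [this, h.map_one]
  haveI : Nontrivial D := by
    by_contra h0
    rw [not_nontrivial_iff_subsingleton] at h0
    exact hne (Subsingleton.elim _ _)
  have hmemC : ∀ {t : D}, t ∈ C ↔ ∀ a ∈ commutator D, χ ⁅a, t⁆ = 0 := Iff.rfl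
  -- every element of the second term is a commutator with `C` modulo the third
  have hsur : ∀ y, y ∉ C → ∀ w ∈ commutator D, ∃ c ∈ C, ⁅y, c⁆⁻¹ * w ∈ g3 D := by
    intro y hy w hw
    let F : C ⧸ (commutator D).subgroupOf C → commutator D ⧸ (g3 D).subgroupOf (commutator D) :=
      Quotient.lift (fun c => ((⟨_, comm_mem_g2 y c⟩ : commutator D) :
        commutator D ⧸ (g3 D).subgroupOf (commutator D))) fun a b hab => by
        refine QuotientGroup.eq.2 ?_
        rw [Subgroup.mem_subgroupOf]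
        show ⁅y, (a : D)⁆⁻¹ * ⁅y, (b : D)⁆ ∈ g3 D
        rw [show ⁅y, (a : D)⁆⁻¹ * ⁅y, (b : D)⁆ = (a : D) * ⁅y, (a : D)⁻¹ * b⁆ * (a : D)⁻¹ by
          simp only [commutatorElement_def]; group]
        exact Subgroup.Normal.conj_mem inferInstance _
          (comm_mem_right (b := y) (show ((a : D)⁻¹ * b) ∈ commutator D from
            Subgroup.mem_subgroupOf.1 (QuotientGroup.leftRel_apply.1 hab))) _
    have hinj : Function.Injective F := by
      refine fun a b => QuotientGroup.induction_on a fun c => QuotientGroup.induction_on b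
        fun c' hcc' => QuotientGroup.eq.2 ?_
      have h1 := QuotientGroup.eq.1 hcc'
      rw [Subgroup.mem_subgroupOf] at h1 ⊢
      change ⁅y, (c : D)⁆⁻¹ * ⁅y, (c' : D)⁆ ∈ g3 D at h1
      show (c : D)⁻¹ * c' ∈ commutator D
      by_contra hcD
      refine hy ?_
      refine (d.eq _ (C.mul_mem (C.inv_mem c.2) c'.2) hcD).le ?_
      rw [mem_modCent, ← commutatorElement_inv]
      refine (g3 D).inv_mem ?_
      rw [show ⁅y, (c : D)⁻¹ * c'⁆ = (c : D)⁻¹ * (⁅y, (c : D)⁆⁻¹ * ⁅y, (c' : D)⁆) * (c : D) by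
        simp only [commutatorElement_def]; group]
      simpa using Subgroup.Normal.conj_mem inferInstance _ h1 (c : D)⁻¹
    have hcard : Nat.card (C ⧸ (commutator D).subgroupOf C) =
        Nat.card (commutator D ⧸ (g3 D).subgroupOf (commutator D)) := by
      have h1 := Subgroup.relIndex_mul_index (derived_le_cc h)
      rw [d.index, d.card] at h1
      exact Nat.eq_of_mul_eq_mul_right (Nat.pos_of_ne_zero Subgroup.index_ne_zero_of_finite) h1
    obtain ⟨q, hq⟩ := ((Nat.bijective_iff_injective_and_card F).2 ⟨hinj, hcard⟩).2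
      ((⟨w, hw⟩ : commutator D) : commutator D ⧸ (g3 D).subgroupOf (commutator D))
    obtain ⟨c, rfl⟩ := QuotientGroup.mk'_surjective _ q
    refine ⟨c, c.2, ?_⟩
    have h2 := QuotientGroup.eq.1 hq
    exact Subgroup.mem_subgroupOf.1 h2
  -- the square
  have key : ∀ y, y ∉ C → ∀ w ∈ commutator D, χ (w * w) = χ ⁅w, y⁆ := by
    intro y hy w hw
    obtain ⟨c, hc, hcw⟩ := hsur y hy w hw
    set u := ⁅y, c⁆ with hu
    have hu2 : u ∈ commutator D := comm_mem_g2 y c
    have hu3 : u * u ∈ g3 D := by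
      have := pow_mem_g3 hD hC hne hu2
      rwa [pow_two] at this
    obtain ⟨v, hv, rfl⟩ : ∃ v ∈ g3 D, w = u * v := ⟨u⁻¹ * w, hcw, by rw [mul_inv_cancel_left]⟩
    have hid : ⁅y * y, c⁆ = ⁅y, u⁆ * (u * u) := by
      rw [hu]; simp only [commutatorElement_def]; group
    have h0 : χ ⁅y * y, c⁆ = 0 := hmemC.1 hc _ (by
      rw [← pow_two]; exact pow_mem_derived hD hC hne y)
    rw [hid, h.add _ (comm_mem_right hu2 y) _ hu3, h.swap (comm_mem_left hu2 y),
      neg_add_eq_zero] at h0
    rw [show u * v * (u * v) = u * u * (u⁻¹ * v * u⁻¹⁻¹) * v by group,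
      h.add _ (mul_mem hu3 (h.normal.conj_mem _ hv _)) _ hv,
      h.add _ hu3 _ (h.normal.conj_mem _ hv _), h.map_conj hv, add_assoc,
      CharTwo.add_self_eq_zero, add_zero, ← h0,
      h.mul_left (comm_mem_left hu2 y) (comm_mem_left (g3_le hv) y),
      h.ker _ (comm_mem_left hv y), add_zero]
  obtain ⟨y₀, hy₀⟩ : ∃ y, y ∉ C := by
    by_contra hcon
    push Not at hcon
    have hC1 : C = ⊤ := eq_top_iff.2 fun t _ => hcon t
    have h1 : (1 : ℕ) = (g3 D).relIndex (commutator D) := by
      rw [← d.index, ← hCdef, hC1, Subgroup.index_top]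
    have := d.card
    rw [← h1, one_mul, Subgroup.index_eq_one] at this
    exact derived_ne_top hD this
  have hidx : C.index = 2 := by
    refine Subgroup.index_eq_two_iff'.2 ⟨y₀, fun b => ?_⟩
    by_cases hb : b ∈ C
    · refine Or.inr ⟨hb, fun h1 => hy₀ ?_⟩
      have := C.mul_mem h1 (C.inv_mem hb)
      rwa [mul_inv_cancel_right] at this
    · refine Or.inl ⟨hmemC.2 fun w hw => ?_, hb⟩
      rw [h.mul_right (comm_mem_left hw y₀) (comm_mem_left hw b), ← key b hb w hw,
        ← key y₀ hy₀ w hw, CharTwo.add_self_eq_zero]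
  have hQ : (g3 D).relIndex (commutator D) = 2 := by rw [← d.index, hidx]
  have hrel : ((commutator D).subgroupOf C).index = 2 := by
    have h1 := Subgroup.relIndex_mul_index (derived_le_cc h)
    rw [hidx, d.card, hQ] at h1
    exact Nat.eq_of_mul_eq_mul_right two_pos h1
  obtain ⟨c, hc⟩ : ∃ c : C, c ∉ (commutator D).subgroupOf C := by
    by_contra hcon
    push Not at hcon
    rw [Subgroup.index_eq_one.2 (eq_top_iff.2 fun t _ => hcon t)] at hrel
    omega
  rw [Subgroup.mem_subgroupOf] at hc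
  obtain ⟨c', hc', hne'⟩ := d.nondeg c c.2 hc
  by_cases hcD : c' ∈ commutator D
  · exact hne' (by rw [h.swap (comm_mem_left hcD _), hmemC.1 c.2 c' hcD, neg_zero])
  · have h1 : (c : D) * c' ∈ commutator D := by
      have h2 := Subgroup.mul_mem_iff_of_index_two hrel (a := c) (b := ⟨c', hc'⟩)
      rw [Subgroup.mem_subgroupOf, Subgroup.mem_subgroupOf, Subgroup.mem_subgroupOf] at h2
      exact h2.2 (iff_of_false hc hcD)
    refine hne' ?_
    have h3 := h.mul_right (a := (c : D)) (b := c) (c := c')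
      (d.iso _ c.2 _ c.2) (d.iso _ c.2 _ hc')
    rw [commutatorElement_self, h.map_one, zero_add,
      h.swap (comm_mem_left h1 _), hmemC.1 c.2 _ h1, neg_zero] at h3
    exact h3.symm

end CfsgLib.ZerosCodegree.Camina
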