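import Cfsg.Agent.Lib.ZerosCodegree.AlternatingFamily

/-!
# Camina groups of prime power order: tools

The lower central terms, functionals on central sections, the subgroups they annihilate.
-/

set_option autoImplicit false
set_option linter.unusedSectionVars false
set_option linter.style.haveILetI false

open scoped commutatorElement

namespace CfsgLib.ZerosCodegree.Camina

universe u

variable {D : Type u} [Group D]

/-- Every element outside the derived subgroup has all of it as commutators. -/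
def IsCamina (D : Type u) [Group D] : Prop :=
  ∀ x : D, x ∉ commutator D → ∀ w ∈ commutator D, ∃ y : D, ⁅x, y⁆ = w

/-- The third term of the lower central series. -/
abbrev g3 (D : Type u) [Group D] : Subgroup D := ⁅commutator D, (⊤ : Subgroup D)⁆

/-- The fourth term. -/
abbrev g4 (D : Type u) [Group D] : Subgroup D := ⁅g3 D, (⊤ : Subgroup D)⁆

/-- The fifth term. -/
abbrev g5 (D : Type u) [Group D] : Subgroup D := ⁅g4 D, (⊤ : Subgroup D)⁆

theorem three_subgroup {A B C : Subgroup D} (M : Subgroup D) [M.Normal] (h1 : ⁅⁅B, C⁆, A⁆ ≤ M)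
    (h2 : ⁅⁅C, A⁆, B⁆ ≤ M) : ⁅⁅A, B⁆, C⁆ ≤ M := by
  have key : ∀ {X Y Z : Subgroup D}, ⁅⁅X, Y⁆, Z⁆ ≤ M ↔ ⁅⁅X.map (QuotientGroup.mk' M),
      Y.map (QuotientGroup.mk' M)⁆, Z.map (QuotientGroup.mk' M)⁆ = ⊥ := fun {X Y Z} => by
    rw [← Subgroup.map_commutator, ← Subgroup.map_commutator, Subgroup.map_eq_bot_iff,
      QuotientGroup.ker_mk']
  exact key.2 (Subgroup.commutator_commutator_eq_bot_of_rotate (key.1 h1) (key.1 h2))

theorem comm_mem_g2 (a b : D) : ⁅a, b⁆ ∈ commutator D :=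
  Subgroup.commutator_mem_commutator (Subgroup.mem_top _) (Subgroup.mem_top _)

theorem comm_mem_left {N : Subgroup D} {a : D} (ha : a ∈ N) (b : D) :
    ⁅a, b⁆ ∈ ⁅N, (⊤ : Subgroup D)⁆ :=
  Subgroup.commutator_mem_commutator ha (Subgroup.mem_top _)

theorem comm_mem_right {N : Subgroup D} {a : D} (ha : a ∈ N) (b : D) :
    ⁅b, a⁆ ∈ ⁅N, (⊤ : Subgroup D)⁆ := by
  rw [← commutatorElement_inv]
  exact Subgroup.inv_mem _ (comm_mem_left ha b)

theorem g3_le : g3 D ≤ commutator D := Subgroup.commutator_le_left _ _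
theorem g4_le : g4 D ≤ g3 D := Subgroup.commutator_le_left _ _
theorem g5_le : g5 D ≤ g4 D := Subgroup.commutator_le_left _ _

theorem comm_g2_g2 : ⁅commutator D, commutator D⁆ ≤ g4 D := by
  have h : ⁅⁅(⊤ : Subgroup D), (⊤ : Subgroup D)⁆, commutator D⁆ ≤ g4 D :=
    three_subgroup (g4 D) (by rw [Subgroup.commutator_comm (⊤ : Subgroup D) (commutator D)])
      le_rfl
  rw [← commutator_def] at h
  exact h

theorem comm_g2_g3 : ⁅commutator D, g3 D⁆ ≤ g5 D := by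
  have h : ⁅⁅(⊤ : Subgroup D), (⊤ : Subgroup D)⁆, g3 D⁆ ≤ g5 D :=
    three_subgroup (g5 D) (by rw [Subgroup.commutator_comm (⊤ : Subgroup D) (g3 D)]) le_rfl
  rw [← commutator_def] at h
  exact h

/-- The Hall–Witt identity. -/
theorem hall_witt (a b c : D) :
    ⁅⁅a, b⁆, b * c * b⁻¹⁆ * ⁅⁅b, c⁆, c * a * c⁻¹⁆ * ⁅⁅c, a⁆, a * b * a⁻¹⁆ = 1 := by
  simp only [commutatorElement_def]
  group

/-- An additive function on a normal subgroup, zero on the commutators with the whole group and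
not identically zero. -/
structure Fun {r : ℕ} (N M : Subgroup D) (χ : D → ZMod r) : Prop where
  normal : N.Normal
  comm : ⁅N, (⊤ : Subgroup D)⁆ ≤ M
  add : ∀ a ∈ N, ∀ b ∈ N, χ (a * b) = χ a + χ b
  ker : ∀ a ∈ M, χ a = 0
  ne : ∃ a ∈ N, χ a ≠ 0

namespace Fun

variable {r : ℕ} {N M : Subgroup D} {χ : D → ZMod r}

theorem map_one (h : Fun N M χ) : χ 1 = 0 := by
  have h1 := h.add 1 N.one_mem 1 N.one_mem
  rw [one_mul] at h1
  exact left_eq_add.1 h1

theorem map_inv (h : Fun N M χ) {a : D} (ha : a ∈ N) : χ a⁻¹ = - χ a := by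
  have h1 := h.add a⁻¹ (N.inv_mem ha) a ha
  rw [inv_mul_cancel, h.map_one] at h1
  exact eq_neg_of_add_eq_zero_left h1.symm

theorem map_pow (h : Fun N M χ) {a : D} (ha : a ∈ N) : ∀ k : ℕ, χ (a ^ k) = k • χ a
  | 0 => by rw [pow_zero, zero_smul, h.map_one]
  | k + 1 => by rw [pow_succ, h.add _ (N.pow_mem ha k) _ ha, map_pow h ha k, succ_nsmul]

theorem comm_mem (h : Fun N M χ) {a : D} (ha : a ∈ N) (g : D) : ⁅g, a⁆ ∈ N := by
  rw [commutatorElement_def]
  exact N.mul_mem (h.normal.conj_mem _ ha g) (N.inv_mem ha)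

theorem map_conj (h : Fun N M χ) {a : D} (ha : a ∈ N) (g : D) : χ (g * a * g⁻¹) = χ a := by
  rw [show g * a * g⁻¹ = ⁅g, a⁆ * a by rw [commutatorElement_def, inv_mul_cancel_right],
    h.add _ (h.comm_mem ha g) _ ha, h.ker _ (h.comm (comm_mem_right ha g)), zero_add]

theorem mul_left (h : Fun N M χ) {a b c : D} (h1 : ⁅a, c⁆ ∈ N) (h2 : ⁅b, c⁆ ∈ N) :
    χ ⁅a * b, c⁆ = χ ⁅a, c⁆ + χ ⁅b, c⁆ := by
  rw [show ⁅a * b, c⁆ = (a * ⁅b, c⁆ * a⁻¹) * ⁅a, c⁆ by simp only [commutatorElement_def]; group,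
    h.add _ (h.normal.conj_mem _ h2 a) _ h1, h.map_conj h2, add_comm]

theorem mul_right (h : Fun N M χ) {a b c : D} (h1 : ⁅a, b⁆ ∈ N) (h2 : ⁅a, c⁆ ∈ N) :
    χ ⁅a, b * c⁆ = χ ⁅a, b⁆ + χ ⁅a, c⁆ := by
  rw [show ⁅a, b * c⁆ = ⁅a, b⁆ * (b * ⁅a, c⁆ * b⁻¹) by simp only [commutatorElement_def]; group,
    h.add _ h1 _ (h.normal.conj_mem _ h2 b), h.map_conj h2]

theorem swap (h : Fun N M χ) {a b : D} (h1 : ⁅a, b⁆ ∈ N) : χ ⁅b, a⁆ = - χ ⁅a, b⁆ := by
  rw [← commutatorElement_inv, h.map_inv h1]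

/-- The cyclic identity. -/
theorem jacobi (h : Fun N M χ) {a b c : D} (h1 : ⁅⁅a, b⁆, c⁆ ∈ N) (h2 : ⁅⁅b, c⁆, a⁆ ∈ N)
    (h3 : ⁅⁅c, a⁆, b⁆ ∈ N) (k1 : ⁅⁅a, b⁆, ⁅b, c⁆⁆ ∈ N) (k2 : ⁅⁅b, c⁆, ⁅c, a⁆⁆ ∈ N)
    (k3 : ⁅⁅c, a⁆, ⁅a, b⁆⁆ ∈ N) (e1 : χ ⁅⁅a, b⁆, ⁅b, c⁆⁆ = 0) (e2 : χ ⁅⁅b, c⁆, ⁅c, a⁆⁆ = 0)
    (e3 : χ ⁅⁅c, a⁆, ⁅a, b⁆⁆ = 0) :
    χ ⁅⁅a, b⁆, c⁆ + χ ⁅⁅b, c⁆, a⁆ + χ ⁅⁅c, a⁆, b⁆ = 0 := by
  have hc : ∀ x y : D, x * y * x⁻¹ = ⁅x, y⁆ * y := fun x y => by
    rw [commutatorElement_def, inv_mul_cancel_right]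
  have hm : ∀ u v w : D, ⁅u, v⁆ ∈ N → ⁅u, w⁆ ∈ N → ⁅u, v * w⁆ ∈ N := fun u v w p1 p2 => by
    rw [show ⁅u, v * w⁆ = ⁅u, v⁆ * (v * ⁅u, w⁆ * v⁻¹) by simp only [commutatorElement_def]; group]
    exact N.mul_mem p1 (h.normal.conj_mem _ p2 v)
  have hw := congrArg χ (hall_witt a b c)
  rw [h.map_one, hc b c, hc c a, hc a b,
    h.add _ (N.mul_mem (hm _ _ _ k1 h1) (hm _ _ _ k2 h2)) _ (hm _ _ _ k3 h3),
    h.add _ (hm _ _ _ k1 h1) _ (hm _ _ _ k2 h2), h.mul_right k1 h1, h.mul_right k2 h2,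
    h.mul_right k3 h3, e1, e2, e3, zero_add, zero_add, zero_add] at hw
  exact hw

/-- The elements killing a set under the functional. -/
def cen (h : Fun N M χ) (A : Set D) (hA : ∀ a ∈ A, ∀ t, ⁅a, t⁆ ∈ N) : Subgroup D where
  carrier := {t | ∀ a ∈ A, χ ⁅a, t⁆ = 0}
  one_mem' a _ := by rw [commutatorElement_one_right, h.map_one]
  mul_mem' {s t} hs ht a ha := by
    rw [h.mul_right (hA a ha s) (hA a ha t), hs a ha, ht a ha, add_zero]
  inv_mem' {t} ht a ha := by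
    have h1 := h.mul_right (hA a ha t⁻¹) (hA a ha t)
    rw [inv_mul_cancel, commutatorElement_one_right, h.map_one, ht a ha, add_zero] at h1
    exact h1.symm

theorem mem_cen (h : Fun N M χ) {A : Set D} {hA : ∀ a ∈ A, ∀ t, ⁅a, t⁆ ∈ N} {t : D} :
    t ∈ h.cen A hA ↔ ∀ a ∈ A, χ ⁅a, t⁆ = 0 := Iff.rfl

end Fun

/-- The elements whose commutators with `x` lie in a normal subgroup. -/
def modCent (M : Subgroup D) [hM : M.Normal] (x : D) : Subgroup D where
  carrier := {y | ⁅x, y⁆ ∈ M}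
  one_mem' := by show ⁅x, (1 : D)⁆ ∈ M; rw [commutatorElement_one_right]; exact M.one_mem
  mul_mem' {a b} ha hb := by
    show ⁅x, a * b⁆ ∈ M
    rw [show ⁅x, a * b⁆ = ⁅x, a⁆ * (a * ⁅x, b⁆ * a⁻¹) by simp only [commutatorElement_def]; group]
    exact M.mul_mem ha (hM.conj_mem _ hb a)
  inv_mem' {a} ha := by
    show ⁅x, a⁻¹⁆ ∈ M
    rw [show ⁅x, a⁻¹⁆ = a⁻¹ * ⁅x, a⁆⁻¹ * a⁻¹⁻¹ by simp only [commutatorElement_def]; group]
    exact hM.conj_mem _ (M.inv_mem ha) _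

theorem mem_modCent {M : Subgroup D} [M.Normal] {x y : D} : y ∈ modCent M x ↔ ⁅x, y⁆ ∈ M :=
  Iff.rfl

theorem derived_le_modCent (x : D) : commutator D ≤ modCent (g3 D) x := fun _ hw =>
  comm_mem_right hw x

/-- For `x` outside the derived subgroup, commutation with `x` identifies `D / K_x` with the
second factor of the lower central series. -/
theorem index_modCent (hC : IsCamina D) {x : D} (hx : x ∉ commutator D) (M : Subgroup D)
    [M.Normal] : (modCent M x).index = M.relIndex (commutator D) := by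
  classical
  let q := QuotientGroup.mk' (M.subgroupOf (commutator D))
  let f : D → commutator D ⧸ M.subgroupOf (commutator D) := fun y => q ⟨_, comm_mem_g2 x y⟩
  have hiff : ∀ y y' : D, f y = f y' ↔ y⁻¹ * y' ∈ modCent M x := fun y y' => by
    refine QuotientGroup.eq.trans ?_
    rw [Subgroup.mem_subgroupOf, mem_modCent]
    show ⁅x, y⁆⁻¹ * ⁅x, y'⁆ ∈ M ↔ _
    have key : y * ⁅x, y⁻¹ * y'⁆ * y⁻¹ = ⁅x, y⁆⁻¹ * ⁅x, y'⁆ := by
      simp only [commutatorElement_def]; group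
    rw [← key]
    refine ⟨fun h => ?_, fun h => Subgroup.Normal.conj_mem inferInstance _ h y⟩
    have h1 := Subgroup.Normal.conj_mem (H := M) inferInstance _ h y⁻¹
    simpa [mul_assoc] using h1
  let F : D ⧸ modCent M x → commutator D ⧸ M.subgroupOf (commutator D) :=
    Quotient.lift f fun a b hab => (hiff a b).2 (QuotientGroup.leftRel_apply.1 hab)
  refine Nat.card_congr (Equiv.ofBijective F ⟨fun a b => ?_, fun z => ?_⟩)
  · refine QuotientGroup.induction_on a fun y => QuotientGroup.induction_on b fun y' h => ?_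
    exact QuotientGroup.eq.2 ((hiff y y').1 h)
  · obtain ⟨⟨w, hw⟩, rfl⟩ := QuotientGroup.mk'_surjective _ z
    obtain ⟨y, hy⟩ := hC x hx w hw
    exact ⟨(y : D ⧸ modCent M x), congrArg q (Subtype.ext hy)⟩

variable [Finite D]

theorem comm_top_lt (hnil : Group.IsNilpotent D) {N : Subgroup D} (hN : N ≠ ⊥) :
    ⁅N, (⊤ : Subgroup D)⁆ ≠ N := by
  intro h
  obtain ⟨n, hn⟩ := Subgroup.nilpotent_iff_lowerCentralSeries.1 hnil
  have hle : ∀ k, N ≤ Subgroup.lowerCentralSeries (⊤ : Subgroup D) k := by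
    intro k
    induction k with
    | zero => exact le_top
    | succ k ih => exact h.ge.trans (Subgroup.commutator_mono ih le_rfl)
  exact hN (le_bot_iff.1 (hn ▸ hle n))

/-- There is a functional on a section of prime power order. -/
theorem exists_fun {r : ℕ} [Fact r.Prime] (hD : IsPGroup r D) {N M : Subgroup D} [hN : N.Normal]
    (hMN : M ≤ N) (hne : ¬ N ≤ M) (hcomm : ⁅N, (⊤ : Subgroup D)⁆ ≤ M) :
    ∃ χ : D → ZMod r, Fun N M χ := by
  classical
  haveI : Finite (Subgroup N) := Finite.of_injective _ SetLike.coe_injective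
  have hM' : M.subgroupOf N ≠ ⊤ := fun h => hne (Subgroup.subgroupOf_eq_top.1 h)
  obtain ⟨Q, hMQ, hQ⟩ := Finite.exists_le_maximal (α := Subgroup N)
    (p := fun X => M.subgroupOf N ≤ X ∧ X ≠ ⊤) ⟨le_rfl, hM'⟩
  have hQco : IsCoatom Q := ⟨hQ.prop.2, fun X hX => Classical.byContradiction fun hXt =>
    not_le_of_gt hX (hQ.le_of_ge ⟨hQ.prop.1.trans hX.le, hXt⟩ hX.le)⟩
  have hNp : IsPGroup r N := hD.to_subgroup N
  haveI : Group.IsNilpotent N := hNp.isNilpotent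
  haveI : Q.Normal := Subgroup.NormalizerCondition.normal_of_coatom Q Group.normalizerCondition_of_isNilpotent hQco
  have hidx : Nat.card (N ⧸ Q) = r := by
    rw [← Subgroup.index_eq_card]
    obtain ⟨k, hk⟩ := hNp.index Q
    rcases Nat.lt_or_ge k 2 with hk2 | hk2
    · interval_cases k
      · exact absurd (Subgroup.index_eq_one.1 (by rw [hk, pow_zero])) hQco.1
      · rw [hk, pow_one]
    · exfalso
      haveI : IsPGroup r (N ⧸ Q) := hNp.to_quotient Q
      have hc : Nat.card (N ⧸ Q) = r ^ k := by rw [← Subgroup.index_eq_card, hk]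
      obtain ⟨X, hX⟩ := Sylow.exists_subgroup_card_pow_prime r (G := N ⧸ Q) (n := 1)
        (by rw [hc]; exact pow_dvd_pow r (by omega))
      rw [pow_one] at hX
      have hlt : Q < X.comap (QuotientGroup.mk' Q) := by
        refine lt_of_le_of_ne (fun z hz => ?_) fun h => ?_
        · show QuotientGroup.mk' Q z ∈ X
          rw [QuotientGroup.mk'_apply, (QuotientGroup.eq_one_iff z).2 hz]
          exact X.one_mem
        · have : X = ⊥ := by
            rw [← Subgroup.map_comap_eq_self_of_surjective (QuotientGroup.mk'_surjective Q) X, ← h,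
              Subgroup.map_eq_bot_iff, QuotientGroup.ker_mk']
          rw [this, Subgroup.card_bot] at hX
          exact (Fact.out : r.Prime).one_lt.ne hX
      have htop := hQco.2 _ hlt
      have : X = ⊤ := by
        rw [← Subgroup.map_comap_eq_self_of_surjective (QuotientGroup.mk'_surjective Q) X, htop,
          Subgroup.map_top_of_surjective _ (QuotientGroup.mk'_surjective Q)]
      rw [this, Subgroup.card_top, hc] at hX
      have := Nat.pow_right_injective (Fact.out : r.Prime).two_le (hX.trans (pow_one r).symm)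
      omega
  haveI : IsCyclic (N ⧸ Q) := isCyclic_of_prime_card hidx
  let e : N ⧸ Q ≃* Multiplicative (ZMod r) :=
    (hidx ▸ (zmodCyclicMulEquiv (G := N ⧸ Q) inferInstance).symm)
  refine ⟨fun a => if h : a ∈ N then Multiplicative.toAdd (e ((⟨a, h⟩ : N) : N ⧸ Q)) else 0,
    hN, hcomm, fun a ha b hb => ?_, fun a ha => ?_, ?_⟩
  · simp only [dif_pos ha, dif_pos hb, dif_pos (N.mul_mem ha hb)]
    rw [← toAdd_mul, ← map_mul, ← QuotientGroup.mk_mul]
    rfl
  · simp only [dif_pos (hMN ha)]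
    rw [(QuotientGroup.eq_one_iff (⟨a, hMN ha⟩ : N)).2 (hQ.prop.1 ha), map_one, toAdd_one]
  · obtain ⟨a, -, ha⟩ := SetLike.exists_of_lt (lt_of_le_of_ne le_top hQco.1)
    refine ⟨a, a.2, ?_⟩
    simp only [dif_pos a.2, Subtype.coe_eta]
    intro h
    refine ha ((QuotientGroup.eq_one_iff a).1 (e.injective ?_))
    rw [map_one]
    exact toAdd_eq_zero.1 h

end CfsgLib.ZerosCodegree.Camina
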