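import Cfsg.Agent.Lib.ZerosCodegree.CaminaClassFour
import Cfsg.Agent.Lib.CoprimeAction.Abelian
import Cfsg.Agent.Lib.PGroups.ClassTwo

/-!
# Camina groups acting without fixed points

A non-abelian Camina `r`-group, not quaternion of order eight, has no coprime action on a
non-trivial solvable group in which all elements outside the derived subgroup fix only the identity.
-/

set_option autoImplicit false
set_option linter.unusedSectionVars false
set_option linter.unusedVariables false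
set_option linter.style.haveILetI false

open scoped commutatorElement

namespace CfsgLib.ZerosCodegree.Camina

universe u

variable {G : Type u} [Group G] [Finite G] {r : ℕ} [Fact r.Prime]

/-- Generation by fixed points, in a section. -/
theorem le_of_section {S U H : Subgroup G} {a b : G} (hS : IsPGroup r S) (hU : Group.IsSolvable U)
    (hcop : (Nat.card U).Coprime r) (hSU : ∀ s ∈ S, ∀ u ∈ U, s * u = u * s)
    (haU : a ∈ Subgroup.normalizer (U : Set G)) (hbU : b ∈ Subgroup.normalizer (U : Set G))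
    (haS : a ∈ Subgroup.normalizer (S : Set G)) (hbS : b ∈ Subgroup.normalizer (S : Set G))
    (har : a ^ r ∈ S) (hbr : b ^ r ∈ S) (hab : ⁅a, b⁆ ∈ S) (hb : b ∉ S)
    (hne : ∀ i : ℕ, a * b ^ i ∉ S)
    (hH : ∀ i j : ℕ, a ^ i * b ^ j ∉ S → ∀ u ∈ U, a ^ i * b ^ j * u = u * (a ^ i * b ^ j) → u ∈ H) :
    U ≤ H := by
  classical
  set M := Subgroup.normalizer (S : Set G) with hM
  have hUM : U ≤ M := fun u hu => Subgroup.mem_normalizer_iff.2 fun s => by
    constructor
    · intro hs
      rw [← hSU s hs u hu, mul_inv_cancel_right]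
      exact hs
    · intro hs
      have h1 := hSU _ hs u hu
      have h3 : s = u⁻¹ * (u * s * u⁻¹ * u) := by group
      rw [h1, inv_mul_cancel_left] at h3
      exact h3 ▸ hs
  have hSM : S ≤ M := Subgroup.le_normalizer
  haveI : (S.subgroupOf M).Normal :=
    Subgroup.normal_subgroupOf_iff_le_normalizer hSM |>.2 le_rfl
  let q : M →* M ⧸ S.subgroupOf M := QuotientGroup.mk' _
  have hq1 : ∀ {x : M}, q x = 1 ↔ (x : G) ∈ S := fun {x} => by
    rw [QuotientGroup.mk'_apply, QuotientGroup.eq_one_iff, Subgroup.mem_subgroupOf]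
  set Ū := (U.subgroupOf M).map q with hŪ
  set H' := ((H ⊓ U).subgroupOf M).map q with hH'
  have hdisj : ∀ x, x ∈ S → x ∈ U → x = 1 := fun x hxS hxU => by
    obtain ⟨k, hk⟩ := hS ⟨x, hxS⟩
    have hk' : x ^ r ^ k = 1 := congrArg Subtype.val hk
    have h1 : orderOf x ∣ r ^ k := orderOf_dvd_of_pow_eq_one hk'
    have h2 : orderOf x ∣ Nat.card U :=
      (U.orderOf_mk x hxU) ▸ orderOf_dvd_natCard (⟨x, hxU⟩ : U)
    exact orderOf_eq_one_iff.1 (Nat.eq_one_of_dvd_coprimes (hcop.pow_right k) h2 h1)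
  have hnorm : ∀ x (hx : x ∈ M), x ∈ Subgroup.normalizer (U : Set G) →
      q ⟨x, hx⟩ ∈ Subgroup.normalizer (Ū : Set (M ⧸ S.subgroupOf M)) := fun x hx hxU => by
    refine CfsgLib.CoprimeAction.mem_normalizer_of_conj_mem ?_
    rintro _ ⟨u, hu, rfl⟩
    refine ⟨⟨x, hx⟩ * u * ⟨x, hx⟩⁻¹, ?_, by rw [map_mul, map_mul, map_inv]⟩
    show x * (u : G) * x⁻¹ ∈ U
    exact (Subgroup.mem_normalizer_iff.1 hxU _).1 hu
  haveI := hU
  haveI : Group.IsSolvable (U.subgroupOf M) :=
    Group.isSolvable_of_surjective (f := (Subgroup.subgroupOfEquivOfLe hUM).symm.toMonoidHom)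
      (Subgroup.subgroupOfEquivOfLe hUM).symm.surjective
  have hsolv : Group.IsSolvable Ū :=
    Group.isSolvable_of_surjective (MonoidHom.subgroupMap_surjective q _)
  have hcard : Nat.card Ū ∣ Nat.card U := by
    rw [← Nat.card_congr (Subgroup.subgroupOfEquivOfLe hUM).toEquiv]
    exact Subgroup.card_map_dvd _ q
  have key : Ū ≤ H' := by
    refine CfsgLib.CoprimeAction.le_of_centralizers_of_isSolvable (Fact.out : r.Prime)
      (x := q ⟨a, haS⟩) (y := q ⟨b, hbS⟩) ?_ ?_ ?_ ?_ ?_ (hnorm a haS haU) (hnorm b hbS hbU)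
      (hcop.coprime_dvd_left hcard) hsolv fun z hz hz1 => ?_
    · rw [← map_pow, hq1]; exact har
    · rw [← map_pow, hq1]; exact hbr
    · rw [← commutatorElement_eq_one_iff_mul_comm, ← map_commutatorElement, hq1]
      exact hab
    · intro i h
      rw [← map_pow, ← map_mul, hq1] at h
      exact hne i h
    · intro h
      exact hb (hq1.1 h)
    obtain ⟨i, j, rfl⟩ : ∃ i j : ℕ, z = q ⟨a, haS⟩ ^ i * q ⟨b, hbS⟩ ^ j := by
      have hcomm : Commute (q ⟨a, haS⟩) (q ⟨b, hbS⟩) := by
        rw [Commute, SemiconjBy, ← commutatorElement_eq_one_iff_mul_comm, ← map_commutatorElement,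
          hq1]
        exact hab
      have hpow : ∀ (c : M ⧸ S.subgroupOf M), c⁻¹ = c ^ (orderOf c - 1) := fun c => by
        refine inv_eq_of_mul_eq_one_right ?_
        rw [← pow_succ', Nat.sub_add_cancel (orderOf_pos c), pow_orderOf_eq_one]
      clear hz1
      induction hz using Subgroup.closure_induction with
      | mem x hx =>
        rcases hx with rfl | rfl
        · exact ⟨1, 0, by rw [pow_one, pow_zero, mul_one]⟩
        · exact ⟨0, 1, by rw [pow_zero, pow_one, one_mul]⟩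
      | one => exact ⟨0, 0, by rw [pow_zero, pow_zero, one_mul]⟩
      | mul x y _ _ hx hy =>
        obtain ⟨i, j, rfl⟩ := hx
        obtain ⟨k, l, rfl⟩ := hy
        refine ⟨i + k, j + l, ?_⟩
        rw [pow_add, pow_add, mul_assoc, ← mul_assoc (q ⟨b, hbS⟩ ^ j),
          ((hcomm.pow_pow k j).symm).eq]
        simp only [mul_assoc]
      | inv x _ hx =>
        obtain ⟨i, j, rfl⟩ := hx
        rw [hpow, (hcomm.pow_pow i j).mul_pow, ← pow_mul, ← pow_mul]
        exact ⟨_, _, rfl⟩
    rintro _ ⟨⟨u, hu, rfl⟩, hzu⟩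
    refine ⟨u, ⟨?_, hu⟩, rfl⟩
    have h1 := Subgroup.mem_centralizer_singleton_iff.1 hzu
    rw [← map_pow, ← map_pow, ← map_mul, ← map_mul, ← map_mul] at h1
    have he : a ^ i * b ^ j ∉ S := fun h => hz1 (by rw [← map_pow, ← map_pow, ← map_mul, hq1]; exact h)
    refine hH i j he u hu ?_
    set e : G := a ^ i * b ^ j with hedef
    have h2 : ⁅e, (u : G)⁆ ∈ S := by
      have h3 : q ⁅(⟨a, haS⟩ : M) ^ i * (⟨b, hbS⟩ : M) ^ j, u⁆ = 1 := by
        rw [map_commutatorElement, commutatorElement_eq_one_iff_mul_comm, ← map_mul, ← map_mul]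
        exact h1.symm
      exact hq1.1 h3
    have heU : e ∈ Subgroup.normalizer (U : Set G) :=
      mul_mem (pow_mem haU i) (pow_mem hbU j)
    have h4 : ⁅e, (u : G)⁆ ∈ U := by
      rw [commutatorElement_def]
      exact U.mul_mem ((Subgroup.mem_normalizer_iff.1 heU _).1 hu) (U.inv_mem hu)
    exact commutatorElement_eq_one_iff_mul_comm.1 (hdisj _ h2 h4)
  intro u hu
  obtain ⟨h, hh, hhu⟩ := key ⟨⟨u, hUM hu⟩, hu, rfl⟩
  have h1 : ((h⁻¹ * ⟨u, hUM hu⟩ : M) : G) ∈ S := by
    rw [← hq1, map_mul, map_inv, hhu, inv_mul_cancel]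
  have h2 : ((h⁻¹ * ⟨u, hUM hu⟩ : M) : G) ∈ U := U.mul_mem (U.inv_mem hh.2) hu
  have h3 : u = (h : G) := by
    have h4 := hdisj _ h1 h2
    rw [Subgroup.coe_mul, Subgroup.coe_inv, inv_mul_eq_one] at h4
    exact h4.symm
  rw [h3]
  exact hh.1

/-- A power prime to `r` of an element with `r`-th power in a subgroup recovers it. -/
theorem mem_of_pow_mem {D : Type*} [Group D] {S : Subgroup D} {x : D} (hxr : x ^ r ∈ S) {i : ℕ}
    (hi : ¬ r ∣ i) (hxi : x ^ i ∈ S) : x ∈ S := by
  have hcop : Nat.Coprime i r := ((Fact.out : r.Prime).coprime_iff_not_dvd.2 hi).symm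
  have key : x ^ (Nat.gcd i r : ℤ) ∈ S := by
    rw [Nat.gcd_eq_gcd_ab, zpow_add, zpow_mul, zpow_mul, zpow_natCast, zpow_natCast]
    exact S.mul_mem (S.zpow_mem hxi _) (S.zpow_mem hxr _)
  rw [show Nat.gcd i r = 1 from hcop, Nat.cast_one, zpow_one] at key
  exact key

section Main

variable {P W : Subgroup G}

/-- A layer centralises `W` if every functional on it admits a suitable element. -/
theorem centralizes_layer (hP : IsPGroup r P) (hPW : P ≤ Subgroup.normalizer (W : Set G))
    (hcop : (Nat.card W).Coprime r) (hsolv : Group.IsSolvable W)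
    (hfpf : ∀ x : P, x ∉ commutator P → ∀ w ∈ W, (x : G) * w = w * x → w = 1)
    (hg2 : ∀ x : P, x ^ r ∈ commutator P)
    {N M : Subgroup P} [N.Normal] (hMN : M ≤ N) (hN2 : N ≤ commutator P)
    (hcomm : ⁅N, (⊤ : Subgroup P)⁆ ≤ M) (helem : ∀ a ∈ N, a ^ r ∈ M)
    (hM : ∀ m ∈ M, ∀ w ∈ W, ((m : P) : G) * w = w * (m : P))
    (hx : ∀ χ : P → ZMod r, Fun N M χ → ∃ x : P, x ∉ commutator P ∧ x ^ r ∈ N ∧ χ (x ^ r) = 0) :
    ∀ a ∈ N, ∀ w ∈ W, (a : G) * w = w * a := by
  classical
  let C : Subgroup G := Subgroup.centralizer ((N.map P.subtype : Subgroup G) : Set G)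
  suffices hmain : ∀ S : Subgroup P, M ≤ S → S ≤ N → ∀ w ∈ W,
      (∀ s ∈ S, ((s : P) : G) * w = w * (s : P)) → w ∈ C by
    intro a ha w hw
    exact Subgroup.mem_centralizer_iff.1 (hmain M le_rfl hMN w hw fun s hs => hM s hs w hw) a
      ⟨a, ha, rfl⟩
  intro S
  induction S using WellFoundedGT.induction with
  | ind S ih =>
    intro hMS hSN w hw hwS
    by_cases hNS : N ≤ S
    · refine Subgroup.mem_centralizer_iff.2 ?_
      rintro _ ⟨a, ha, rfl⟩
      exact hwS a (hNS ha)
    obtain ⟨b, hbN, hbS⟩ := SetLike.not_le_iff_exists.1 hNS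
    haveI hSn : S.Normal := ⟨fun s hs g => by
      rw [show g * s * g⁻¹ = ⁅g, s⁆ * s by rw [commutatorElement_def, inv_mul_cancel_right]]
      exact S.mul_mem (hMS (hcomm (comm_mem_right (hSN hs) g))) hs⟩
    set S' : Subgroup G := S.map P.subtype with hS'
    set U : Subgroup G := W ⊓ Subgroup.centralizer (S' : Set G) with hU
    have hwU : w ∈ U := ⟨hw, Subgroup.mem_centralizer_iff.2 fun y hy => by
      obtain ⟨s, hs, rfl⟩ := hy
      exact hwS s hs⟩
    have hnS : ∀ x : P, (x : G) ∈ Subgroup.normalizer (S' : Set G) := fun x => by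
      refine CfsgLib.CoprimeAction.mem_normalizer_of_conj_mem ?_
      rintro _ ⟨s, hs, rfl⟩
      exact ⟨x * s * x⁻¹, hSn.conj_mem _ hs x, rfl⟩
    have hnU : ∀ x : P, (x : G) ∈ Subgroup.normalizer (U : Set G) := fun x => by
      refine CfsgLib.CoprimeAction.mem_normalizer_of_conj_mem ?_
      intro u hu
      refine ⟨(Subgroup.mem_normalizer_iff.1 (hPW x.2) _).1 hu.1,
        Subgroup.mem_centralizer_iff.2 fun y hy => ?_⟩
      obtain ⟨s, hs, rfl⟩ := hy
      have h1 := Subgroup.mem_centralizer_iff.1 hu.2 _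
        ⟨x⁻¹ * s * x, by simpa using hSn.conj_mem _ hs x⁻¹, rfl⟩
      simp only [Subgroup.coe_subtype, Subgroup.coe_mul, Subgroup.coe_inv] at h1 ⊢
      calc (s : G) * ((x : G) * u * (x : G)⁻¹)
          = (x : G) * (((x : G)⁻¹ * s * x) * u) * (x : G)⁻¹ := by group
        _ = (x : G) * (u * ((x : G)⁻¹ * s * x)) * (x : G)⁻¹ := by rw [h1]
        _ = ((x : G) * u * (x : G)⁻¹) * s := by group
    have hUsolv : Group.IsSolvable U := CfsgLib.CoprimeAction.isSolvable_of_le inf_le_left
    have hUcop : (Nat.card U).Coprime r :=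
      hcop.coprime_dvd_left (Subgroup.card_dvd_of_le inf_le_left)
    have hSU : ∀ s ∈ S', ∀ u ∈ U, s * u = u * s := fun s hs u hu =>
      Subgroup.mem_centralizer_iff.1 hu.2 s hs
    have hS'p : IsPGroup r S' := (hP.to_subgroup S).map _
    have hmem : ∀ {x : P}, (x : G) ∈ S' ↔ x ∈ S := fun {x} =>
      Subgroup.mem_map_iff_mem P.subtype_injective
    by_cases hA : ∃ a ∈ N, ∃ c ∈ N, c ∉ S ∧ ∀ i : ℕ, a * c ^ i ∉ S
    · obtain ⟨a, haN, c, hcN, hcS, hne⟩ := hA
      refine le_of_section hS'p hUsolv hUcop hSU (hnU a) (hnU c) (hnS a) (hnS c)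
        (hmem.2 (hMS (helem a haN))) (hmem.2 (hMS (helem c hcN)))
        (show ((⁅a, c⁆ : P) : G) ∈ S' from hmem.2 (hMS (hcomm (comm_mem_left haN c))))
        (fun h => hcS (hmem.1 h))
        (fun i h => hne i (hmem.1 (by simpa using h))) (fun i j he u hu hcom => ?_) hwU
      have heS : a ^ i * c ^ j ∉ S := fun h => he (by simpa using hmem.2 h)
      refine ih (S ⊔ Subgroup.zpowers (a ^ i * c ^ j))
        (lt_of_le_of_ne le_sup_left fun h => heS (h.ge (Subgroup.mem_sup_right (Subgroup.mem_zpowers _))))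
        (hMS.trans le_sup_left)
        (sup_le hSN (Subgroup.zpowers_le.2 (N.mul_mem (N.pow_mem haN i) (N.pow_mem hcN j))))
        u hu.1 fun s hs => ?_
      have hle : S ⊔ Subgroup.zpowers (a ^ i * c ^ j) ≤
          (Subgroup.centralizer ({u} : Set G)).comap P.subtype := by
        refine sup_le (fun s hs => ?_) (Subgroup.zpowers_le.2 ?_)
        · exact Subgroup.mem_centralizer_singleton_iff.2 (hSU _ (hmem.2 hs) u hu)
        · exact Subgroup.mem_centralizer_singleton_iff.2 (by simpa using hcom)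
      exact Subgroup.mem_centralizer_singleton_iff.1 (hle hs)
    · push Not at hA
      have hrep : ∀ a ∈ N, ∃ i : ℕ, a * b ^ i ∈ S := fun a ha => hA a ha b hbN hbS
      obtain ⟨χ, hχ⟩ := exists_fun (r := r) hP hSN hNS (hcomm.trans hMS)
      have hχb : χ b ≠ 0 := fun h => by
        obtain ⟨a, ha, ha0⟩ := hχ.ne
        obtain ⟨i, hi⟩ := hrep a ha
        have h1 := hχ.ker _ hi
        rw [hχ.add _ ha _ (N.pow_mem hbN i), hχ.map_pow hbN, h, smul_zero, add_zero] at h1
        exact ha0 h1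
      obtain ⟨x, hxD, hxrN, hχx⟩ := hx χ
        ⟨inferInstance, hcomm, hχ.add, fun a ha => hχ.ker a (hMS ha), hχ.ne⟩
      have hxrS : x ^ r ∈ S := by
        obtain ⟨i, hi⟩ := hrep _ hxrN
        have h1 := hχ.ker _ hi
        rw [hχ.add _ hxrN _ (N.pow_mem hbN i), hχx, zero_add, hχ.map_pow hbN, nsmul_eq_mul,
          mul_eq_zero] at h1
        obtain ⟨j, rfl⟩ := (ZMod.natCast_eq_zero_iff i r).1 (h1.resolve_right hχb)
        have hbi : b ^ (r * j) ∈ S := by
          rw [pow_mul]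
          exact S.pow_mem (hMS (helem b hbN)) j
        exact (S.mul_mem_cancel_right hbi).1 hi
      have hbD : b ∈ commutator P := hN2 hbN
      refine le_of_section hS'p hUsolv hUcop hSU (hnU x) (hnU b) (hnS x) (hnS b)
        (hmem.2 hxrS) (hmem.2 (hMS (helem b hbN)))
        (show ((⁅x, b⁆ : P) : G) ∈ S' from hmem.2 (hMS (hcomm (comm_mem_right hbN x))))
        (fun h => hbS (hmem.1 h))
        (fun i h => hxD (((commutator P).mul_mem_cancel_right
          ((commutator P).pow_mem hbD i)).1 (hN2 (hSN (hmem.1 (by simpa using h))))))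
        (fun i j he u hu hcom => ?_) hwU
      have heS : x ^ i * b ^ j ∉ S := fun h => he (by simpa using hmem.2 h)
      have hu1 : u ∈ W := hu.1
      by_cases hri : r ∣ i
      · obtain ⟨k, rfl⟩ := hri
        set T : Subgroup P := (Subgroup.centralizer ({u} : Set G)).comap P.subtype with hT
        have hST : S ≤ T := fun s hs =>
          Subgroup.mem_centralizer_singleton_iff.2 (hSU _ (hmem.2 hs) u hu)
        have hxk : x ^ (r * k) ∈ S := by rw [pow_mul]; exact S.pow_mem hxrS k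
        have hbj : b ^ j ∈ T := by
          have h1 : x ^ (r * k) * b ^ j ∈ T :=
            Subgroup.mem_centralizer_singleton_iff.2 (by simpa using hcom)
          exact (T.mul_mem_cancel_left (hST hxk)).1 h1
        have hj : ¬ r ∣ j := fun hd => by
          obtain ⟨l, rfl⟩ := hd
          refine heS (S.mul_mem hxk ?_)
          rw [pow_mul]
          exact S.pow_mem (hMS (helem b hbN)) l
        have hb : b ∈ T := mem_of_pow_mem (hST (hMS (helem b hbN))) hj hbj
        refine Subgroup.mem_centralizer_iff.2 ?_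
        rintro _ ⟨a, ha, rfl⟩
        obtain ⟨l, hl⟩ := hrep a ha
        have haT : a ∈ T := (T.mul_mem_cancel_right (T.pow_mem hb l)).1 (hST hl)
        exact Subgroup.mem_centralizer_singleton_iff.1 haT
      · have he2 : x ^ i * b ^ j ∉ commutator P := fun h => hxD (mem_of_pow_mem (hg2 x) hri
          (((commutator P).mul_mem_cancel_right ((commutator P).pow_mem hbD j)).1 h))
        rw [hfpf _ he2 u hu1 (by simpa using hcom)]
        exact one_mem _

/-- Products and powers in class three. -/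
theorem fun_comm_pow {D : Type*} [Group D] [Finite D] {χ : D → ZMod r}
    (h : Fun (g3 D) (g4 D) χ) (h4 : g4 D = ⊥) (a b : D) :
    ∀ k : ℕ, χ ((⁅a, b⁆ ^ k)⁻¹ * ⁅a ^ k, b⁆) = k.choose 2 • χ ⁅a, ⁅a, b⁆⁆ := by
  have hcen : g3 D ≤ Subgroup.center D := Subgroup.commutator_top_right_eq_bot_iff_le_center.1 h4
  intro k
  induction k with
  | zero =>
    rw [pow_zero, pow_zero, commutatorElement_one_left, inv_one, one_mul, h.map_one]
    simp
  | succ k ih =>
    set w := ⁅a, b⁆ with hw
    set v := (w ^ k)⁻¹ * ⁅a ^ k, b⁆ with hv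
    have hv3 : v ∈ g3 D := comm_pow_mem a b k
    have hX : ⁅a ^ k, b⁆ = w ^ k * v := by rw [hv, mul_inv_cancel_left]
    have hw2 : w ∈ commutator D := comm_mem_g2 a b
    set t := ⁅a, w ^ k * v⁆ with ht
    have ht3 : t ∈ g3 D := comm_mem_right (mul_mem (pow_mem hw2 k) (g3_le hv3)) a
    have hstep : (w ^ (k + 1))⁻¹ * ⁅a ^ (k + 1), b⁆ = t * v := by
      rw [pow_succ' a, show ⁅a * a ^ k, b⁆ = ⁅a, ⁅a ^ k, b⁆⁆ * ⁅a ^ k, b⁆ * w by
        rw [hw]; simp only [commutatorElement_def]; group, hX, ← ht, pow_succ w k]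
      have c1 := Subgroup.mem_center_iff.1 (hcen ht3)
      have c2 := Subgroup.mem_center_iff.1 (hcen hv3)
      calc (w ^ k * w)⁻¹ * (t * (w ^ k * v) * w)
          = w⁻¹ * ((w ^ k)⁻¹ * t) * (w ^ k * v * w) := by group
        _ = w⁻¹ * (t * (w ^ k)⁻¹) * (w ^ k * v * w) := by rw [c1]
        _ = w⁻¹ * t * (v * w) := by group
        _ = t * w⁻¹ * (w * v) := by rw [c1, c2]
        _ = t * v := by group
    rw [hstep, h.add _ ht3 _ hv3, ih, ht,
      h.mul_right (comm_mem_right (pow_mem hw2 k) a) (comm_mem_right (g3_le hv3) a),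
      h.ker _ (comm_mem_right hv3 a), add_zero]
    have hk : χ ⁅a, w ^ k⁆ = k • χ ⁅a, w⁆ := by
      clear hstep ih hv hX ht ht3 hv3 v t
      induction k with
      | zero => rw [pow_zero, commutatorElement_one_right, h.map_one, zero_smul]
      | succ k ih => rw [pow_succ, h.mul_right (comm_mem_right (pow_mem hw2 k) a)
          (comm_mem_right hw2 a), ih, succ_nsmul]
    rw [hk, Nat.choose_succ_succ', Nat.choose_one_right, add_smul]

theorem choose_two_eq_zero (h2 : r ≠ 2) (z : ZMod r) : r.choose 2 • z = 0 := by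
  obtain ⟨k, hk⟩ := (Fact.out : r.Prime).dvd_choose_self two_ne_zero
    (lt_of_le_of_ne (Fact.out : r.Prime).two_le (Ne.symm h2))
  rw [hk, nsmul_eq_mul, Nat.cast_mul, ZMod.natCast_self, zero_mul, zero_mul]

/-- A Camina group cannot act with everything outside the derived subgroup fixed point free. -/
theorem eq_bot_of_fpf (hP : IsPGroup r P) (hPW : P ≤ Subgroup.normalizer (W : Set G))
    (hcop : (Nat.card W).Coprime r) (hsolv : Group.IsSolvable W) (hC : IsCamina P)
    (hne : commutator P ≠ ⊥) (hsize : r = 2 → 4 < (commutator P).index)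
    (hfpf : ∀ x : P, x ∉ commutator P → ∀ w ∈ W, (x : G) * w = w * x → w = 1) : W = ⊥ := by
  classical
  have hg2 : ∀ x : P, x ^ r ∈ commutator P := pow_mem_derived hP hC hne
  have h4 : g4 P = ⊥ := g4_eq_bot hP hC
  have hcen : g3 P ≤ Subgroup.center P := Subgroup.commutator_top_right_eq_bot_iff_le_center.1 h4
  haveI : Nontrivial P := by
    by_contra h
    rw [not_nontrivial_iff_subsingleton] at h
    exact hne (Subsingleton.elim _ _)
  have hquo : ∀ {χ : P → ZMod r}, Fun (commutator P) (g3 P) χ → ∀ x y : P,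
      χ ((x * y) ^ r) = χ (x ^ r) + χ (y ^ r) + r.choose 2 • χ ⁅y, x⁆ := by
    intro χ h x y
    let q := QuotientGroup.mk' (g3 P)
    have hc : ∀ z, Commute (q ⁅y, x⁆) (q z) := fun z => by
      rw [Commute, SemiconjBy, ← commutatorElement_eq_one_iff_mul_comm, ← map_commutatorElement]
      exact (QuotientGroup.eq_one_iff _).2 (comm_mem_left (comm_mem_g2 y x) z)
    have h1 : q ((x * y) ^ r) = q (x ^ r * y ^ r * ⁅y, x⁆ ^ r.choose 2) := by
      rw [map_pow, map_mul, CfsgLib.PGroups.mul_pow_of_commute (x := q x) (y := q y)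
        (by rw [← map_commutatorElement]; exact hc x) (by rw [← map_commutatorElement]; exact hc y),
        map_mul, map_mul, map_pow, map_pow, map_pow, map_commutatorElement]
    have h2 := h.ker _ (QuotientGroup.eq.1 h1)
    rw [h.add _ (inv_mem (hg2 _)) _
      (mul_mem (mul_mem (hg2 _) (hg2 _)) (pow_mem (comm_mem_g2 y x) _)), h.map_inv (hg2 _),
      h.add _ (mul_mem (hg2 _) (hg2 _)) _ (pow_mem (comm_mem_g2 y x) _), h.add _ (hg2 _) _ (hg2 _),
      h.map_pow (comm_mem_g2 y x), neg_add_eq_zero] at h2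
    exact h2
  have hbil : ∀ {χ : P → ZMod r}, Fun (commutator P) (g3 P) χ → ∀ (y x : P) (k : ℕ),
      χ ⁅x ^ k, y⁆ = k • χ ⁅x, y⁆ := by
    intro χ h y x k
    induction k with
    | zero => rw [pow_zero, commutatorElement_one_left, h.map_one, zero_smul]
    | succ k ih =>
      rw [pow_succ, h.mul_left (comm_mem_g2 _ _) (comm_mem_g2 _ _), ih, succ_nsmul]
  -- the third term centralises
  have step3 : ∀ a ∈ g3 P, ∀ w ∈ W, (a : G) * w = w * a := by
    refine centralizes_layer hP hPW hcop hsolv hfpf hg2 (M := ⊥) bot_le g3_le h4.le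
      (fun a ha => ?_) (fun m hm w _ => by
        rw [Subgroup.mem_bot.1 hm, OneMemClass.coe_one, one_mul, mul_one]) fun χ hχ => ?_
    · let Z : Subgroup P :=
        { carrier := {x | x ∈ g3 P ∧ x ^ r = 1}
          one_mem' := ⟨one_mem _, one_pow _⟩
          mul_mem' := fun {x y} hx hy => ⟨mul_mem hx.1 hy.1, by
            rw [(show Commute x y from (Subgroup.mem_center_iff.1 (hcen hy.1) x)).mul_pow, hx.2,
              hy.2, one_mul]⟩
          inv_mem' := fun {x} hx => ⟨inv_mem hx.1, by rw [inv_pow, hx.2, inv_one]⟩ }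
      have hle : g3 P ≤ Z := Subgroup.commutator_le.2 fun w hw t ht => ⟨comm_mem_left hw t, by
        rw [← CfsgLib.PGroups.commutatorElement_pow_left (hcen (comm_mem_left hw t))]
        exact Subgroup.mem_bot.1 (h4 ▸ comm_mem_left (pow_mem_g3 hP hC hne hw) t)⟩
      exact Subgroup.mem_bot.2 (hle ha).2
    · have hχ' : Fun (g3 P) (g4 P) χ :=
        ⟨hχ.normal, le_rfl, hχ.add, fun a ha => hχ.ker a (h4 ▸ ha), hχ.ne⟩
      have hr2 : r ≠ 2 := fun h2 => by
        subst h2
        exact no_fun_two hP hC hχ'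
      have d := centralizerData hP hC hχ'
      have hpow : ∀ a b : P, χ ⁅a ^ r, b⁆ = χ (⁅a, b⁆ ^ r) := fun a b => by
        have h1 := fun_comm_pow hχ' h4 a b r
        rw [choose_two_eq_zero hr2, hχ'.add _ (inv_mem (pow_mem_g3 hP hC hne (comm_mem_g2 a b))) _
          (comm_mem_left (hg2 a) b), hχ'.map_inv (pow_mem_g3 hP hC hne (comm_mem_g2 a b)),
          neg_add_eq_zero] at h1
        exact h1.symm
      have hrC : ∀ y ∈ cc hχ', ∀ t, χ ⁅y ^ r, t⁆ = 0 := fun y hy t => by
        have h2 : χ ⁅t ^ r, y⁆ = 0 := hy _ (hg2 t)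
        rw [hpow, ← commutatorElement_inv t y, inv_pow,
          hχ'.map_inv (pow_mem_g3 hP hC hne (comm_mem_g2 t y)), ← hpow, h2, neg_zero]
      have hr3 : ∀ y ∈ cc hχ', y ^ r ∈ g3 P := fun y hy => d.rad _ (hg2 y) (hrC y hy)
      have hadd : ∀ x ∈ cc hχ', ∀ y ∈ cc hχ', χ ((x * y) ^ r) = χ (x ^ r) + χ (y ^ r) :=
        fun x hx y hy => by
        have hc := d.iso y hy x hx
        have hcc : ∀ z, Commute ⁅y, x⁆ z := fun z => (Subgroup.mem_center_iff.1 (hcen hc) z).symm
        rw [CfsgLib.PGroups.mul_pow_of_commute (hcc x) (hcc y),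
          hχ'.add _ (mul_mem (hr3 x hx) (hr3 y hy)) _ (pow_mem hc _),
          hχ'.add _ (hr3 x hx) _ (hr3 y hy), hχ'.map_pow hc, choose_two_eq_zero hr2, add_zero]
      obtain ⟨c, hcC, hcD⟩ : ∃ c, c ∈ cc hχ' ∧ c ∉ commutator P := by
        by_contra hcon
        push Not at hcon
        have h1 := Subgroup.index_dvd_of_le (show cc hχ' ≤ commutator P from hcon)
        rw [d.index, d.card] at h1
        have h2 : (g3 P).relIndex (commutator P) * (g3 P).relIndex (commutator P) ≤
            (g3 P).relIndex (commutator P) :=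
          Nat.le_of_dvd (Nat.pos_of_ne_zero Subgroup.index_ne_zero_of_finite) h1
        have h3 : (g3 P).relIndex (commutator P) ≠ 1 := fun h => by
          have := d.card
          rw [h, one_mul, Subgroup.index_eq_one] at this
          exact derived_ne_top hP this
        have h4 : (g3 P).relIndex (commutator P) ≠ 0 := Subgroup.index_ne_zero_of_finite
        have := Nat.le_of_mul_le_mul_left (h2.trans_eq (mul_one _).symm) (Nat.pos_of_ne_zero h4)
        omega
      by_cases hc0 : χ (c ^ r) = 0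
      · exact ⟨c, hcD, hr3 c hcC, hc0⟩
      obtain ⟨c', hc'C, hcc'⟩ := d.nondeg c hcC hcD
      set k := (- χ (c' ^ r) / χ (c ^ r)).val
      have hkC : c ^ k ∈ cc hχ' := pow_mem hcC k
      refine ⟨c ^ k * c', fun h => hcc' ?_, hr3 _ (mul_mem hkC hc'C), ?_⟩
      · have hck : ∀ m : ℕ, χ ⁅c, c ^ m⁆ = 0 := fun m => by
          rw [show ⁅c, c ^ m⁆ = 1 from commutatorElement_eq_one_iff_mul_comm.2
            (Commute.self_pow c m), hχ'.map_one]
        have h5 : χ ⁅c ^ k * c', c⁆ = 0 := hcC _ h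
        rw [hχ'.swap (d.iso c hcC _ (mul_mem hkC hc'C)), hχ'.mul_right (d.iso c hcC _ hkC)
          (d.iso c hcC _ hc'C), hck, zero_add, neg_eq_zero] at h5
        exact h5
      · rw [hadd _ hkC _ hc'C, pow_right_comm, hχ'.map_pow (hr3 c hcC), nsmul_eq_mul,
          ZMod.natCast_zmod_val, div_mul_cancel₀ _ hc0, neg_add_cancel]
  -- a pair independent modulo the derived subgroup
  obtain ⟨χ₀, hχ₀⟩ := exists_fun (r := r) (N := commutator P) hP (g3_le (D := P))
    (g3_ne_derived hP hne) le_rfl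
  obtain ⟨a, -, haD⟩ := SetLike.exists_of_lt (lt_of_le_of_ne le_top (derived_ne_top (D := P) hP))
  have step2 : ∀ z ∈ commutator P, ∀ w ∈ W, (z : G) * w = w * z := by
    refine centralizes_layer hP hPW hcop hsolv hfpf hg2 (M := g3 P) g3_le le_rfl le_rfl
      (fun z hz => pow_mem_g3 hP hC hne hz) step3 fun χ hχ => ?_
    by_cases hca : χ (a ^ r) = 0
    · exact ⟨a, haD, hg2 a, hca⟩
    obtain ⟨w₀, hw₀, hw0⟩ := hχ.ne
    obtain ⟨b, rfl⟩ := hC a haD w₀ hw₀
    have hbD : b ∉ commutator P := fun h => hw0 (hχ.ker _ (comm_mem_right h a))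
    by_cases hcb : χ (b ^ r) = 0
    · exact ⟨b, hbD, hg2 b, hcb⟩
    by_cases hr2 : r = 2
    · subst hr2
      have hone' : ∀ z : ZMod 2, z ≠ 0 → z = 1 := fun z hz => by fin_cases z <;> first | exact absurd rfl hz | rfl
      have hone : ∀ {z : ZMod 2}, z ≠ 0 → z = 1 := fun {z} => hone' z
      let φ : P →* Multiplicative (ZMod 2 × ZMod 2) :=
        MonoidHom.mk' (fun t => Multiplicative.ofAdd (χ ⁅t, a⁆, χ ⁅t, b⁆)) fun s t => by
          rw [← ofAdd_add, Prod.mk_add_mk, hχ.mul_left (comm_mem_g2 _ _) (comm_mem_g2 _ _),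
            hχ.mul_left (comm_mem_g2 _ _) (comm_mem_g2 _ _)]
      obtain ⟨c, hc, hcD⟩ : ∃ c, c ∈ φ.ker ∧ c ∉ commutator P := by
        by_contra hcon
        push Not at hcon
        have h1 := Subgroup.index_dvd_of_le (show φ.ker ≤ commutator P from hcon)
        have h2 : φ.ker.index ≤ 4 := by
          rw [Subgroup.index_ker]
          exact (Subgroup.card_le_card_group _).trans
            (by rw [Nat.card_congr Multiplicative.toAdd, Nat.card_prod, Nat.card_zmod])
        have := Nat.le_of_dvd (Nat.pos_of_ne_zero Subgroup.index_ne_zero_of_finite) h1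
        have := hsize rfl
        omega
      obtain ⟨hca', hcb'⟩ := Prod.mk.inj (Multiplicative.ofAdd.injective (hc : φ c = _))
      by_cases hcc : χ (c ^ 2) = 0
      · exact ⟨c, hcD, hg2 c, hcc⟩
      refine ⟨a * c, fun h => ?_, hg2 _, ?_⟩
      · have h1 : χ ⁅a * c, b⁆ = 0 := hχ.ker _ (comm_mem_left h b)
        rw [hχ.mul_left (comm_mem_g2 _ _) (comm_mem_g2 _ _), hcb', add_zero] at h1
        exact hw0 h1
      · rw [hquo hχ, hone hca, hone hcc, hca', smul_zero, add_zero]
        rfl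
    set k := (- χ (b ^ r) / χ (a ^ r)).val
    refine ⟨a ^ k * b, fun h => hw0 ?_, hg2 _, ?_⟩
    · have h1 : χ ⁅a ^ k * b, a⁆ = 0 := hχ.ker _ (comm_mem_left h a)
      rw [hχ.mul_left (comm_mem_g2 _ _) (comm_mem_g2 _ _), hbil hχ, commutatorElement_self,
        hχ.map_one, smul_zero, zero_add, hχ.swap (comm_mem_g2 a b), neg_eq_zero] at h1
      exact h1
    · rw [hquo hχ, choose_two_eq_zero hr2, add_zero, pow_right_comm, hχ.map_pow (hg2 a),
        nsmul_eq_mul, ZMod.natCast_zmod_val, div_mul_cancel₀ _ hca, neg_add_cancel]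
  -- conclusion
  obtain ⟨w₀, hw₀, hw0⟩ := hχ₀.ne
  obtain ⟨b, rfl⟩ := hC a haD w₀ hw₀
  have hbD : b ∉ commutator P := fun h => hw0 (hχ₀.ker _ (comm_mem_right h a))
  set S : Subgroup G := (commutator P).map P.subtype with hS
  have hmem : ∀ {x : P}, (x : G) ∈ S ↔ x ∈ commutator P := fun {x} =>
    Subgroup.mem_map_iff_mem P.subtype_injective
  have hnS : ∀ x : P, (x : G) ∈ Subgroup.normalizer (S : Set G) := fun x => by
    refine CfsgLib.CoprimeAction.mem_normalizer_of_conj_mem ?_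
    rintro _ ⟨s, hs, rfl⟩
    exact ⟨x * s * x⁻¹, Subgroup.Normal.conj_mem inferInstance _ hs x, rfl⟩
  refine le_bot_iff.1 (le_of_section ((hP.to_subgroup _).map _) hsolv hcop ?_ (hPW a.2) (hPW b.2)
    (hnS a) (hnS b) (hmem.2 (hg2 a)) (hmem.2 (hg2 b))
    (show ((⁅a, b⁆ : P) : G) ∈ S from hmem.2 (comm_mem_g2 a b)) (fun h => hbD (hmem.1 h))
    (fun i h => ?_) fun i j he u hu hcom => ?_)
  · rintro _ ⟨z, hz, rfl⟩ u hu
    exact step2 z hz u hu
  · have h1 : a * b ^ i ∈ commutator P := hmem.1 (by rwa [Subgroup.coe_mul, Subgroup.coe_pow])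
    have h2 : χ₀ ⁅a * b ^ i, b⁆ = 0 := hχ₀.ker _ (comm_mem_left h1 b)
    rw [hχ₀.mul_left (comm_mem_g2 _ _) (comm_mem_g2 _ _), hbil hχ₀, commutatorElement_self,
      hχ₀.map_one, smul_zero, add_zero] at h2
    exact hw0 h2
  · exact Subgroup.mem_bot.2 (hfpf (a ^ i * b ^ j) (fun h => he (by
      have h5 := hmem.2 h
      rwa [Subgroup.coe_mul, Subgroup.coe_pow, Subgroup.coe_pow] at h5)) u hu
      (by simpa using hcom))

end Main

end CfsgLib.ZerosCodegree.Camina
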