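import Cfsg.Agent.Lib.ZerosCodegree.BlockTools
import Cfsg.Agent.Lib.Clifford.Basic

/-!
Principal blocks of a product of two commuting subgroups meeting in a `p`-group.
-/

set_option autoImplicit false
set_option linter.unusedSectionVars false
set_option linter.style.haveILetI false

open MonoidAlgebra Cfsg

namespace CfsgLib.ZerosCodegree

open CfsgLib.CharTheory CfsgLib.Blocks

universe u
variable {G : Type u} [Group G]

theorem index_inf_of_mul [Finite G] (A B : Subgroup G) (h : ∀ g : G, ∃ a ∈ A, ∃ b ∈ B, g = a * b) :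
    (A ⊓ B).index = A.index * B.index := by
  simp only [Subgroup.index]
  rw [← Nat.card_prod]
  refine Nat.card_congr (Equiv.ofBijective
    (fun q : G ⧸ (A ⊓ B) => Quotient.liftOn' q (fun g => ((g : G ⧸ A), (g : G ⧸ B))) ?_) ⟨?_, ?_⟩)
  · intro a b hab
    rw [QuotientGroup.leftRel_apply] at hab
    exact Prod.ext (QuotientGroup.eq.2 hab.1) (QuotientGroup.eq.2 hab.2)
  · rintro ⟨a⟩ ⟨b⟩ hab
    exact QuotientGroup.eq.2 ⟨QuotientGroup.eq.1 (congrArg Prod.fst hab),
      QuotientGroup.eq.1 (congrArg Prod.snd hab)⟩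
  · rintro ⟨⟨g⟩, ⟨g'⟩⟩
    obtain ⟨a, ha, b, hb, hab⟩ := h (g⁻¹ * g')
    refine ⟨((g * a : G) : G ⧸ (A ⊓ B)), Prod.ext (QuotientGroup.eq.2 (by simpa using A.inv_mem ha))
      (QuotientGroup.eq.2 ?_)⟩
    rw [show (g * a)⁻¹ * g' = a⁻¹ * (g⁻¹ * g') by group, hab, inv_mul_cancel_left]
    exact hb

/-- The structure: two commuting subgroups that generate. -/
structure CommPair (U V : Subgroup G) : Prop where
  comm : ∀ u ∈ U, ∀ v ∈ V, u * v = v * u
  gen : ∀ g : G, ∃ u ∈ U, ∃ v ∈ V, g = u * v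

theorem CommPair.symm {U V : Subgroup G} (h : CommPair U V) : CommPair V U where
  comm := fun v hv u hu => (h.comm u hu v hv).symm
  gen := fun g => by
    obtain ⟨u, hu, v, hv, rfl⟩ := h.gen g
    exact ⟨v, hv, u, hu, h.comm u hu v hv⟩

theorem commPair_of_sup {U V : Subgroup G} (hcomm : ∀ u ∈ U, ∀ v ∈ V, u * v = v * u)
    (hgen : U ⊔ V = ⊤) : CommPair U V where
  comm := hcomm
  gen := fun g => by
    have hle : U ≤ Subgroup.normalizer (V : Set G) := fun u hu =>
      Subgroup.mem_normalizer_iff.2 fun v => by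
        constructor
        · intro hv
          rwa [hcomm u hu v hv, mul_inv_cancel_right]
        · intro hv
          have h1 := hcomm u⁻¹ (U.inv_mem hu) _ hv
          have h2 : v = u * v * u⁻¹ := by
            calc v = u⁻¹ * (u * v * u⁻¹) * u := by group
              _ = u * v * u⁻¹ * u⁻¹ * u := by rw [h1]
              _ = u * v * u⁻¹ := by group
          rwa [← h2] at hv
    have h1 : g ∈ (↑(U ⊔ V) : Set G) := by rw [hgen]; trivial
    rw [Subgroup.coe_mul_of_left_le_normalizer_right U V hle] at h1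
    obtain ⟨u, hu, v, hv, rfl⟩ := h1
    exact ⟨u, hu, v, hv, rfl⟩

variable [Finite G] {U V : Subgroup G}

theorem CommPair.normal (h : CommPair U V) : U.Normal where
  conj_mem := fun n hn g => by
    obtain ⟨u, hu, v, hv, rfl⟩ := h.gen g
    rw [show u * v * n * (u * v)⁻¹ = u * (v * n * v⁻¹) * u⁻¹ by group, ← h.comm n hn v hv,
      mul_inv_cancel_right]
    exact U.mul_mem (U.mul_mem hu hn) (U.inv_mem hu)

theorem CommPair.index_centralizer_coe (h : CommPair U V) (u : U) :
    (Subgroup.centralizer ({u} : Set U)).index =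
      (Subgroup.centralizer ({(u : G)} : Set G)).index := by
  have hc : Subgroup.centralizer ({u} : Set U) =
      (Subgroup.centralizer ({(u : G)} : Set G)).subgroupOf U := by
    ext c
    simp only [Subgroup.mem_subgroupOf, Subgroup.mem_centralizer_singleton_iff]
    exact ⟨fun e => congrArg Subtype.val e, fun e => Subtype.ext e⟩
  rw [hc, Subgroup.index]
  refine Nat.card_congr (Equiv.ofBijective (fun q : U ⧸ (Subgroup.centralizer ({(u : G)} : Set G)).subgroupOf U =>
    Quotient.liftOn' q (fun x : U => ((x : G) : G ⧸ Subgroup.centralizer ({(u : G)} : Set G))) ?_) ⟨?_, ?_⟩)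
  · intro a b hab
    rw [QuotientGroup.leftRel_apply, Subgroup.mem_subgroupOf] at hab
    exact QuotientGroup.eq.2 (by simpa using hab)
  · rintro ⟨a⟩ ⟨b⟩ hab
    exact QuotientGroup.eq.2 (by
      rw [Subgroup.mem_subgroupOf]; simpa using QuotientGroup.eq.1 hab)
  · rintro ⟨g⟩
    obtain ⟨x, hx, y, hy, rfl⟩ := h.gen g
    refine ⟨Quotient.mk'' (⟨x, hx⟩ : U), (QuotientGroup.eq (a := x) (b := x * y)).2 ?_⟩
    rw [inv_mul_cancel_left, Subgroup.mem_centralizer_singleton_iff]
    exact (h.comm (u : G) u.2 y hy).symm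

/-- Central characters on `U` of a character and of its constituent agree. -/
theorem CommPair.centralChar_eq [Fintype G] [Fintype U] (h : CommPair U V) {χ : IrrCharacter G}
    {ψ : IrrCharacter U} (hψ : classInner (fun u : U => (χ : G → ℂ) u) (ψ : U → ℂ) ≠ 0) (u : U) :
    centralChar (χ : G → ℂ) (u : G) = centralChar (ψ : U → ℂ) u := by
  haveI := h.normal
  have hinv : ∀ g : G, CfsgLib.Clifford.conjChar U (ψ : U → ℂ) g = ψ := fun g => by
    funext n
    obtain ⟨x, hx, y, hy, rfl⟩ := h.gen g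
    rw [CfsgLib.Clifford.conjChar_apply]
    refine Eq.trans (congrArg (ψ : U → ℂ) (Subtype.ext ?_))
      (IsIrrCharacter.isClassFunction ψ.2 n ⟨x, hx⟩)
    show x * y * (n : G) * (x * y)⁻¹ = x * (n : G) * x⁻¹
    rw [show x * y * (n : G) * (x * y)⁻¹ = x * (y * n * y⁻¹) * x⁻¹ by group,
      ← h.comm n n.2 y hy, mul_inv_cancel_right]
  have hres := CfsgLib.Clifford.res_eq_of_invariant U χ.2 ψ.2 hinv hψ
  have h1 := congrFun hres u
  have h2 := congrFun hres 1
  simp only [Pi.smul_apply, smul_eq_mul, Subgroup.coe_one] at h1 h2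
  have := apply_one_ne_zero_of_isIrr ψ.2
  rw [centralChar, centralChar, h.index_centralizer_coe u, h1, h2]
  field_simp

open scoped Classical in
/-- On commuting factors an irreducible character is multiplicative up to the degree. -/
theorem CommPair.apply_mul [Fintype G] (h : CommPair U V) (χ : IrrCharacter G) {u v : G}
    (hu : u ∈ U) (hv : v ∈ V) :
    (χ : G → ℂ) (u * v) * (χ : G → ℂ) 1 = (χ : G → ℂ) u * (χ : G → ℂ) v := by
  haveI := h.symm.normal
  obtain ⟨n, ρ, hρ, hρχ⟩ := χ.2
  haveI := hρ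
  have hz := isClassElem_classSum (R := ℂ) v
  have h1 := asAlgebraHom_eq_omega_smul ρ hz
  have h2 := congrArg (fun T : (Fin n → ℂ) →ₗ[ℂ] (Fin n → ℂ) =>
    LinearMap.trace ℂ (Fin n → ℂ) (ρ u * T)) h1
  simp only [classSum_eq_sum, map_sum, Finset.mul_sum, mul_smul_comm, map_smul, smul_eq_mul] at h2
  rw [show (ρ u * LinearMap.id : Module.End ℂ (Fin n → ℂ)) = ρ u from mul_one _] at h2
  have hterm : ∀ w : G, IsConj v w →
      LinearMap.trace ℂ (Fin n → ℂ) (ρ u * ρ.asAlgebraHom (single w 1)) = ρ.character (u * v) := by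
    intro w hw
    obtain ⟨g, hg⟩ := isConj_iff.1 hw
    obtain ⟨x, hx, y, hy, rfl⟩ := h.gen g
    have hw' : w = y * v * y⁻¹ := by
      rw [← hg, show x * y * v * (x * y)⁻¹ = x * (y * v * y⁻¹) * x⁻¹ by group,
        h.comm x hx _ (V.mul_mem (V.mul_mem hy hv) (V.inv_mem hy)), mul_inv_cancel_right]
    rw [ρ.asAlgebraHom_single_one, ← map_mul]
    show ρ.character (u * w) = ρ.character (u * v)
    rw [hw', show u * (y * v * y⁻¹) = y * (u * v) * y⁻¹ by
      rw [show u * (y * v * y⁻¹) = (u * y) * v * y⁻¹ by group, h.comm u hu y hy]; group]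
    exact ρ.char_conj (u * v) y
  replace h2 := Eq.trans
    (Finset.sum_congr rfl fun w hw => (hterm w (by simpa using hw)).symm) h2
  rw [Finset.sum_const, nsmul_eq_mul, ← classSum_eq_sum,
    omega_classSum (fun a b => ρ.char_conj a b), centralChar_apply, card_filter_isConj,
    show LinearMap.trace ℂ (Fin n → ℂ) (ρ u) = ρ.character u from rfl] at h2
  rw [hρχ] at *
  have h0 := apply_one_ne_zero_of_isIrr χ.2
  have hi : ((Subgroup.centralizer ({v} : Set G)).index : ℂ) ≠ 0 :=
    Nat.cast_ne_zero.2 (centralizer_index_ne_zero v)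
  field_simp at h2
  rw [h2]
  field_simp

/-- Split a regular element into regular factors. -/
theorem CommPair.exists_regular (h : CommPair U V) {p : ℕ} [Fact p.Prime] {g : G}
    (hg : ¬ p ∣ orderOf g) :
    ∃ u ∈ U, ∃ v ∈ V, g = u * v ∧ ¬ p ∣ orderOf u ∧ ¬ p ∣ orderOf v := by
  have hp : p.Prime := Fact.out
  set a := (Nat.card G).factorization p
  set m := Nat.card G / p ^ a with hm
  have hm' : p ^ a * m = Nat.card G := Nat.ordProj_mul_ordCompl_eq_self _ p
  have hcop : (p ^ a).Coprime m := Nat.Coprime.pow_left a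
    (hp.coprime_iff_not_dvd.2 (Nat.not_dvd_ordCompl hp Nat.card_pos.ne'))
  obtain ⟨k, hk0, hk1⟩ := Nat.chineseRemainder hcop 0 1
  obtain ⟨x, hx, y, hy, rfl⟩ := h.gen g
  have hord : orderOf (x * y) ∣ m := Nat.Coprime.dvd_of_dvd_mul_left
    ((hp.coprime_iff_not_dvd.2 hg).pow_left a).symm (hm' ▸ orderOf_dvd_natCard (x * y))
  have hpow : (x * y) ^ k = x * y := by
    conv_rhs => rw [← pow_one (x * y)]
    exact pow_eq_pow_iff_modEq.2 (hk1.of_dvd hord)
  have hreg : ∀ z : G, ¬ p ∣ orderOf (z ^ k) := fun z hd => by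
    refine Nat.not_dvd_ordCompl hp (Nat.card_pos (α := G)).ne' (hd.trans (orderOf_dvd_of_pow_eq_one ?_))
    obtain ⟨l, hl⟩ := Nat.modEq_zero_iff_dvd.1 hk0
    rw [← pow_mul, hl, mul_right_comm, hm', pow_mul, pow_card_eq_one', one_pow]
  exact ⟨x ^ k, U.pow_mem hx k, y ^ k, V.pow_mem hy k,
    by rw [← (show Commute x y from h.comm x hx y hy).mul_pow, hpow], hreg x, hreg y⟩

theorem CommPair.index_centralizer_mul (h : CommPair U V) {p : ℕ} [Fact p.Prime]
    (hZ : IsPGroup p ↥(U ⊓ V)) {u v : G} (hu : u ∈ U) (hv : v ∈ V) (hur : ¬ p ∣ orderOf u) :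
    (Subgroup.centralizer ({u * v} : Set G)).index =
      (Subgroup.centralizer ({u} : Set G)).index * (Subgroup.centralizer ({v} : Set G)).index := by
  rw [← index_inf_of_mul]
  · congr 1
    refine le_antisymm (fun c hc => ?_) fun c hc => ?_
    · rw [Subgroup.mem_centralizer_singleton_iff] at hc
      obtain ⟨x, hx, y, hy, rfl⟩ := h.gen c
      set z := u⁻¹ * (x * u * x⁻¹) with hz
      have hzU : z ∈ U := U.mul_mem (U.inv_mem hu) (U.mul_mem (U.mul_mem hx hu) (U.inv_mem hx))
      have e : z = v * (y * v * y⁻¹)⁻¹ := by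
        have h1 : x * u * x⁻¹ * (y * v * y⁻¹) = u * v := by
          calc x * u * x⁻¹ * (y * v * y⁻¹) = x * u * (x⁻¹ * y) * v * y⁻¹ := by group
            _ = x * u * (y * x⁻¹) * v * y⁻¹ := by rw [h.comm x⁻¹ (U.inv_mem hx) y hy]
            _ = x * (u * y) * (x⁻¹ * v) * y⁻¹ := by group
            _ = x * (y * u) * (v * x⁻¹) * y⁻¹ := by
              rw [h.comm u hu y hy, h.comm x⁻¹ (U.inv_mem hx) v hv]
            _ = x * y * (u * v) * (y * x)⁻¹ := by group
            _ = u * v * (x * y) * (x * y)⁻¹ := by rw [hc, ← h.comm x hx y hy]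
            _ = u * v := by group
        calc z = u⁻¹ * (x * u * x⁻¹ * (y * v * y⁻¹)) * (y * v * y⁻¹)⁻¹ := by rw [hz]; group
          _ = v * (y * v * y⁻¹)⁻¹ := by rw [h1]; group
      have hzV : z ∈ V := e ▸ V.mul_mem hv (V.inv_mem (V.mul_mem (V.mul_mem hy hv) (V.inv_mem hy)))
      have hzc : Commute u z := h.comm u hu z hzV
      obtain ⟨k, hk⟩ := hZ ⟨z, hzU, hzV⟩
      have hk' : z ^ p ^ k = 1 := congrArg Subtype.val hk
      have hz1 : z = 1 := by
        have h2 : (u * z) ^ orderOf u = 1 := by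
          rw [show u * z = x * u * x⁻¹ by rw [hz]; group, conj_pow, pow_orderOf_eq_one, mul_one,
            mul_inv_cancel]
        rw [hzc.mul_pow, pow_orderOf_eq_one, one_mul] at h2
        refine orderOf_eq_one_iff.1 (Nat.eq_one_of_dvd_coprimes
          (Nat.Coprime.pow_left k ((Fact.out : p.Prime).coprime_iff_not_dvd.2 hur))
          (orderOf_dvd_of_pow_eq_one hk') (orderOf_dvd_of_pow_eq_one h2))
      have hxu : x * u = u * x := by
        rw [hz, inv_mul_eq_one] at hz1
        exact mul_inv_eq_iff_eq_mul.1 hz1.symm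
      have hyv : y * v = v * y := by
        rw [e, mul_inv_eq_one] at hz1
        exact mul_inv_eq_iff_eq_mul.1 hz1.symm
      refine ⟨Subgroup.mem_centralizer_singleton_iff.2 ?_, Subgroup.mem_centralizer_singleton_iff.2 ?_⟩
      · show Commute (x * y) u
        exact Commute.mul_left hxu (h.comm u hu y hy).symm
      · show Commute (x * y) v
        exact Commute.mul_left (h.comm x hx v hv) hyv
    · obtain ⟨h1, h2⟩ := hc
      exact Subgroup.mem_centralizer_singleton_iff.2 (Commute.mul_right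
        (show Commute c u from Subgroup.mem_centralizer_singleton_iff.1 h1)
        (show Commute c v from Subgroup.mem_centralizer_singleton_iff.1 h2))
  · intro g
    obtain ⟨x, hx, y, hy, rfl⟩ := h.gen g
    exact ⟨y, Subgroup.mem_centralizer_singleton_iff.2 (h.comm u hu y hy).symm, x,
      Subgroup.mem_centralizer_singleton_iff.2 (h.comm x hx v hv), h.comm x hx y hy⟩

theorem CommPair.constituent_principal [Fintype G] [Fintype U] (h : CommPair U V) {M : Ideal AlgInt}
    [M.IsPrime] {χ : IrrCharacter G} {ψ : IrrCharacter U}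
    (hψ : classInner (fun u : U => (χ : G → ℂ) u) (ψ : U → ℂ) ≠ 0)
    (hχ : χ ∈ principalBlock M G) : ψ ∈ principalBlock M U := fun u => by
  have h1 := hχ (u : G)
  rw [h.centralChar_eq hψ u, CfsgLib.Correspondences.centralChar_one_eq] at h1
  rwa [CfsgLib.Correspondences.centralChar_one_eq, h.index_centralizer_coe u]

/-- The principal block of a central product. -/
theorem CommPair.mem_principalBlock [Fintype G] [Fintype U] [Fintype V] (h : CommPair U V) {p : ℕ}
    [Fact p.Prime] {M : Ideal AlgInt} [M.IsPrime] (hM : IsPModular p M)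
    (hZ : IsPGroup p ↥(U ⊓ V)) {χ : IrrCharacter G} {ψ₁ : IrrCharacter U} {ψ₂ : IrrCharacter V}
    (h₁ : classInner (fun u : U => (χ : G → ℂ) u) (ψ₁ : U → ℂ) ≠ 0)
    (h₂ : classInner (fun u : V => (χ : G → ℂ) u) (ψ₂ : V → ℂ) ≠ 0)
    (hB₁ : ψ₁ ∈ principalBlock M U) (hB₂ : ψ₂ ∈ principalBlock M V) : χ ∈ principalBlock M G := by
  refine mem_principalBlock_of_regular hM fun g hg => ?_
  obtain ⟨u, hu, v, hv, rfl, hur, -⟩ := h.exists_regular hg
  have e1 : MemLocalIdeal M ((((Subgroup.centralizer ({u} : Set G)).index : ℕ) : ℂ) -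
      centralChar (χ : G → ℂ) u) := by
    have := hB₁ ⟨u, hu⟩
    rwa [CfsgLib.Correspondences.centralChar_one_eq, h.index_centralizer_coe ⟨u, hu⟩,
      ← h.centralChar_eq h₁ ⟨u, hu⟩] at this
  have e2 : MemLocalIdeal M ((((Subgroup.centralizer ({v} : Set G)).index : ℕ) : ℂ) -
      centralChar (χ : G → ℂ) v) := by
    have := hB₂ ⟨v, hv⟩
    rwa [CfsgLib.Correspondences.centralChar_one_eq, h.symm.index_centralizer_coe ⟨v, hv⟩,
      ← h.symm.centralChar_eq h₂ ⟨v, hv⟩] at this
  have h0 := apply_one_ne_zero_of_isIrr χ.2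
  have hcc : centralChar (χ : G → ℂ) (u * v) =
      centralChar (χ : G → ℂ) u * centralChar (χ : G → ℂ) v := by
    rw [centralChar, centralChar, centralChar, h.index_centralizer_mul hZ hu hv hur]
    push_cast
    field_simp
    linear_combination (((Subgroup.centralizer ({u} : Set G)).index : ℂ) *
      ((Subgroup.centralizer ({v} : Set G)).index : ℂ)) * h.apply_mul χ hu hv
  rw [CfsgLib.Correspondences.centralChar_one_eq, hcc,
    h.index_centralizer_mul hZ hu hv hur, Nat.cast_mul]
  have := memLocalIdeal_add (memLocalIdeal_mul_left (memLocalRing_natCast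
    (Subgroup.centralizer ({u} : Set G)).index) e2)
    (memLocalIdeal_mul_right e1 (memLocalRing_centralChar χ v))
  convert this using 1
  ring

end CfsgLib.ZerosCodegree
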