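import Cfsg.Agent.Lib.ZerosCodegree.CharsOver
import Cfsg.Agent.Lib.ZerosCodegree.RelDegreeGraph
import Cfsg.Agent.Lib.Brauer.IndCalc
import Cfsg.Agent.Lib.RealChar.Extension

/-!
# Clifford theory over a normal subgroup with cyclic quotient

A constituent extends to its inertia group, so the degree above is the index of the inertia group
times the degree below. When all the twists of a character by a group of linear characters, moved
without fixed points by the quotient, have inertia groups bigger than the subgroup, they are all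
equal.
-/

set_option autoImplicit false
set_option linter.style.haveILetI false
set_option linter.unusedSectionVars false

namespace CfsgLib.ZerosCodegree.CyclicClifford

open Cfsg CfsgLib.CharTheory CfsgLib.Clifford CfsgLib.ZerosCodegree.RelGraph

universe u

variable {G : Type u} [Group G] [Fintype G] {N : Subgroup G} [N.Normal] [Fintype N]

/-- A constituent extends to its inertia group, inducing the character above it. -/
theorem exists_extension_inertia
    (hcyc : IsCyclic (G ⧸ N)) {χ : G → ℂ} (hχ : IsIrrCharacter G χ)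
    {θ : N → ℂ} (hθ : IsIrrCharacter N θ) [Fintype (inertia N θ)]
    (h : classInner (fun n : N => χ n) θ ≠ 0) :
    ∃ ψ : inertia N θ → ℂ, IsIrrCharacter (inertia N θ) ψ ∧ indFun (inertia N θ) ψ = χ ∧
      ∀ n : N, ψ ⟨n, le_inertia N (IsIrrCharacter.isClassFunction hθ) n.2⟩ = θ n := by
  classical
  have hNT := le_inertia N (IsIrrCharacter.isClassFunction hθ)
  set T := inertia N θ with hT
  obtain ⟨ψ, hψ, hind, hmult⟩ := exists_indFun_inertia_eq hθ (mem_inertia N θ) hNT hχ h
  let N' := N.subgroupOf T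
  haveI : Fintype N' := Fintype.ofFinite _
  let e : N' ≃* N := Subgroup.subgroupOfEquivOfLe hNT
  have hθ' : IsIrrCharacter N' (fun k => θ (e k)) := isIrrCharacter_comp_mulEquiv hθ e
  haveI := hcyc
  let f : T ⧸ N' →* G ⧸ N := QuotientGroup.map N' N T.subtype le_rfl
  have hf : Function.Injective f := by
    rw [← MonoidHom.ker_eq_bot_iff, eq_bot_iff]
    intro x hx
    obtain ⟨x, rfl⟩ := QuotientGroup.mk_surjective x
    exact Subgroup.mem_bot.2 ((QuotientGroup.eq_one_iff x).2
      ((QuotientGroup.eq_one_iff (x : G)).1 (MonoidHom.mem_ker.1 hx)))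
  have hc' : IsCyclic (T ⧸ N') :=
    isCyclic_of_surjective (MonoidHom.ofInjective hf).symm.toMonoidHom (MulEquiv.surjective _)
  obtain ⟨φ, hφ, hφθ⟩ := CfsgLib.RealChar.exists_extension_character_of_cyclic N' hc' _ hθ'
    fun t k => by
      have h1 := congrFun ((mem_inertia N θ _).1 t.2) (e k)
      rw [conjChar_apply] at h1
      refine (congrArg θ (Subtype.ext ?_)).trans h1
      show (((MulAut.conjNormal t k : N') : T) : G) = _
      rw [MulAut.conjNormal_apply]
      rfl
  have hne : classInner (fun k : N' => ψ k) (fun k => θ (e k)) ≠ 0 := by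
    rw [← hmult, ← classInner_comp_mulEquiv e] at h
    exact h
  refine ⟨ψ, hψ, hind, fun n => ?_⟩
  haveI := hc'
  have h1 := res_eq_of_extension_of_comm N'
    (fun a b => IsCyclic.isMulCommutative.1.1 a b) hφ hψ hθ' hφθ hne (e.symm n)
  rw [e.apply_symm_apply] at h1
  exact h1

/-- The degree over a constituent is the index of its inertia group times its degree. -/
theorem degree_over (hcyc : IsCyclic (G ⧸ N)) {χ : IrrCharacter G} {θ : IrrCharacter N}
    (h : Over N χ θ) :
    charDegree (χ : G → ℂ) = (inertia N (θ : N → ℂ)).index * charDegree (θ : N → ℂ) := by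
  classical
  obtain ⟨ψ, hψ, hind, hres⟩ := exists_extension_inertia hcyc χ.2 θ.2 h
  have h1 : (χ : G → ℂ) 1 =
      ((inertia N (θ : N → ℂ)).index : ℂ) * (θ : N → ℂ) 1 := by
    rw [← hind, CfsgLib.Frobenius.indFun_one, ← hres 1]
    rfl
  rw [(BrauerCharacters.charDegree_spec χ).1, (BrauerCharacters.charDegree_spec θ).1] at h1
  exact_mod_cast h1

/-- A linear character of the quotient fixing a character is trivial on the inertia group of a
constituent. -/
theorem le_ker_of_twist (hcyc : IsCyclic (G ⧸ N)) {χ : G → ℂ} (hχ : IsIrrCharacter G χ)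
    {θ : N → ℂ} (hθ : IsIrrCharacter N θ) (h : classInner (fun n : N => χ n) θ ≠ 0)
    (μ : G →* ℂˣ) (hμ : N ≤ μ.ker) (hfix : linFun μ * χ = χ) : inertia N θ ≤ μ.ker := by
  classical
  set T := inertia N θ with hT
  haveI : Fintype T := Fintype.ofFinite _
  have hNT : N ≤ T := le_inertia N (IsIrrCharacter.isClassFunction hθ)
  obtain ⟨ψ, hψ, hind, hres⟩ := exists_extension_inertia hcyc hχ hθ h
  have hθψ : ∀ n : N, ψ ⟨(n : G), hNT n.2⟩ = θ n := hres
  let ν : T →* ℂˣ := μ.comp T.subtype
  have hν : ∀ n : N, ν ⟨(n : G), hNT n.2⟩ = 1 := fun n => hμ n.2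
  have hψ' : IsIrrCharacter T (linFun ν * ψ) := isIrrCharacter_linFun_mul ν hψ
  have hne : ∀ φ : T → ℂ, (∀ n : N, φ ⟨(n : G), hNT n.2⟩ = θ n) →
      classInner (fun n : N => φ ⟨(n : G), hNT n.2⟩) θ ≠ 0 := fun φ hφ => by
    rw [funext hφ, classInner_self_of_isIrr hθ]
    exact one_ne_zero
  have heq : linFun ν * ψ = ψ := by
    refine indFun_inertia_injective hθ (mem_inertia N θ) hNT hψ' hψ (hne _ fun n => ?_) (hne _ hθψ) ?_
    · rw [Pi.mul_apply, linFun_apply, hν, Units.val_one, one_mul, hθψ]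
    · rw [hind, show linFun ν * ψ = fun t : T => (linFun μ) t * ψ t from rfl,
        CfsgLib.Brauer.indFun_res_mul T ψ (φ := linFun μ)
          (IsIrrCharacter.isClassFunction (isIrrCharacter_linear μ)), hind]
      exact hfix
  let N' := N.subgroupOf T
  haveI : Fintype N' := Fintype.ofFinite _
  let e : N' ≃* N := Subgroup.subgroupOfEquivOfLe hNT
  have hθ' : IsIrrCharacter N' (fun k => θ (e k)) := isIrrCharacter_comp_mulEquiv hθ e
  have h1 := eq_one_of_mul_eq_self N' hψ hθ' (fun k => hθψ (e k)) ν (fun k => hν (e k)) heq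
  intro t ht
  exact DFunLike.congr_fun h1 ⟨t, ht⟩

/-- Conjugation of a linear character. -/
def conjLin (g : G) : (N →* ℂˣ) →* (N →* ℂˣ) where
  toFun v := v.comp (MulAut.conjNormal g).toMonoidHom
  map_one' := rfl
  map_mul' _ _ := rfl

theorem conjChar_linFun (v : N →* ℂˣ) (g : G) :
    conjChar N (linFun v) g = linFun (conjLin g v) := by
  rw [conjChar_eq_comp]
  rfl

theorem conjLin_eq_self_iff {v : N →* ℂˣ} {g : G} :
    conjLin g v = v ↔ g ∈ inertia N (linFun v) := by
  rw [mem_inertia, conjChar_linFun]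
  exact linFun_injective.eq_iff.symm

theorem conjChar_mul (a b : N → ℂ) (g : G) :
    conjChar N (a * b) g = conjChar N a g * conjChar N b g := rfl

theorem linFun_mul_cancel (v : N →* ℂˣ) {a b : N → ℂ} (h : linFun v * a = linFun v * b) : a = b :=
  funext fun n => mul_left_cancel₀ (v n).ne_zero (congrFun h n)

/-- Twists all moved by few elements are equal. -/
theorem mul_eq_self_of_fixed (hcyc : IsCyclic (G ⧸ N)) {θ : N → ℂ} (hθ : IsClassFunction N θ)
    (X : Subgroup (N →* ℂˣ)) [Finite X] (hst : ∀ g : G, ∀ v ∈ X, conjLin g v ∈ X)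
    (hfpf : ∀ g, g ∉ N → ∀ v ∈ X, conjLin g v = v → v = 1)
    (hfix : ∀ v ∈ X, ∃ g, g ∉ N ∧ conjChar N (linFun v * θ) g = linFun v * θ) :
    ∀ v ∈ X, linFun v * θ = θ := by
  classical
  haveI := hcyc
  obtain ⟨γ, hγ⟩ := IsCyclic.exists_generator (α := G ⧸ N)
  obtain ⟨g₀, rfl⟩ := QuotientGroup.mk_surjective γ
  have hf : orderOf (g₀ : G ⧸ N) = N.index := orderOf_eq_card_of_forall_mem_zpowers hγ
  have hpow : ∀ k, g₀ ^ k ∈ N ↔ N.index ∣ k := fun k => by
    rw [← hf, orderOf_dvd_iff_pow_eq_one, ← QuotientGroup.mk_pow, QuotientGroup.eq_one_iff]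
  have hcl : ∀ v : N →* ℂˣ, IsClassFunction N (linFun v * θ) := fun v a b => by
    simp only [Pi.mul_apply, linFun_apply, hθ a b, map_mul, map_inv, mul_comm (v b) (v a),
      mul_inv_cancel_right]
  -- each twist is fixed by an element of prime order modulo `N`
  have hprime : ∀ v ∈ X, ∃ l : ℕ, l.Prime ∧ l ∣ N.index ∧
      conjChar N (linFun v * θ) (g₀ ^ (N.index / l)) = linFun v * θ := by
    intro v hv
    obtain ⟨g, hgN, hg⟩ := hfix v hv
    set S := inertia N (linFun v * θ) with hS
    have hNS : N ≤ S := le_inertia N (hcl v)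
    haveI hSn : S.Normal := ⟨fun a ha b => by
      have h1 : ((b * a * b⁻¹ : G) : G ⧸ N) = (a : G ⧸ N) := by
        rw [QuotientGroup.mk_mul, QuotientGroup.mk_mul, IsCyclic.isMulCommutative.1.1
          ((b : G) : G ⧸ N) (a : G ⧸ N), QuotientGroup.mk_inv, mul_inv_cancel_right]
      rw [show b * a * b⁻¹ = a * (a⁻¹ * (b * a * b⁻¹)) by group]
      exact S.mul_mem ha (hNS (QuotientGroup.eq.1 h1.symm))⟩
    obtain ⟨c, hc⟩ := Subgroup.index_dvd_of_le hNS
    have hc1 : c ≠ 1 := fun h1 => hgN ((Subgroup.eq_of_le_of_card_ge hNS (le_of_eq ?_)).ge hg)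
    swap
    · have h2 := S.index_mul_card
      rw [← N.index_mul_card, hc, h1, mul_one] at h2
      exact mul_left_cancel₀ Subgroup.index_ne_zero_of_finite h2
    obtain ⟨l, hl, c', hc'⟩ := Nat.exists_prime_and_dvd hc1
    refine ⟨l, hl, ⟨S.index * c', by rw [hc, hc']; ring⟩, ?_⟩
    have h3 : N.index / l = S.index * c' := by
      rw [hc, hc', show S.index * (l * c') = S.index * c' * l by ring, Nat.mul_div_cancel _ hl.pos]
    have h4 : g₀ ^ (N.index / l) ∈ S := by
      rw [h3, pow_mul]
      exact S.pow_mem (S.pow_index_mem g₀) _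
    exact h4
  choose! ℓ hℓp hℓd hℓfix using hprime
  have hnotN : ∀ l : ℕ, l.Prime → l ∣ N.index → g₀ ^ (N.index / l) ∉ N := fun l hl hd h => by
    obtain ⟨k, hk⟩ := (hpow _).1 h
    have h1 := Nat.div_lt_self (Nat.pos_of_ne_zero (Subgroup.index_ne_zero_of_finite (H := N))) hl.one_lt
    rcases Nat.eq_zero_or_pos k with rfl | hk0
    · rw [mul_zero] at hk
      exact absurd hk (Nat.div_pos (Nat.le_of_dvd
        (Nat.pos_of_ne_zero Subgroup.index_ne_zero_of_finite) hd) hl.pos).ne'
    · exact absurd h1 (not_lt.2 (hk ▸ Nat.le_mul_of_pos_right _ hk0))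
  -- an element outside `N` fixes at most one twist
  have huniq : ∀ g, g ∉ N → ∀ v ∈ X, ∀ w ∈ X, conjChar N (linFun v * θ) g = linFun v * θ →
      conjChar N (linFun w * θ) g = linFun w * θ → linFun v * θ = linFun w * θ := by
    intro g hg v hv w hw hgv hgw
    have key : ∀ u : N →* ℂˣ, conjChar N (linFun u * θ) g =
        linFun (conjLin g u) * conjChar N θ g := fun u => by
      rw [conjChar_mul, conjChar_linFun]
    rw [key] at hgv hgw
    have hA1 : ∀ u : N →* ℂˣ, linFun u * θ = θ → linFun (conjLin g u) * θ = θ := fun u hu => by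
      have h1 := congrArg (fun a => conjChar N a g) hu
      simp only [key] at h1
      refine linFun_mul_cancel v ?_
      rw [mul_left_comm, ← hgv, mul_left_comm, h1]
    set u := w * v⁻¹ with hu
    have hd : linFun (u * (conjLin g u)⁻¹) * θ = θ := by
      refine linFun_mul_cancel (conjLin g u * v) ?_
      rw [← mul_assoc, ← map_mul,
        show conjLin g u * v * (u * (conjLin g u)⁻¹) = u * v from
          MonoidHom.ext fun x => by simp [mul_comm, mul_left_comm],
        show u * v = w from inv_mul_cancel_right w v,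
        map_mul, mul_assoc, ← hgv, ← mul_assoc, ← map_mul, ← map_mul,
        show u * v = w from inv_mul_cancel_right w v, hgw]
    let A : Set (N →* ℂˣ) := {a | a ∈ X ∧ linFun a * θ = θ}
    haveI : Finite A := Finite.of_injective (fun a : A => (⟨a.1, a.2.1⟩ : X))
      fun a b hab => Subtype.ext (congrArg Subtype.val hab :)
    have hAmul : ∀ a ∈ A, ∀ b ∈ A, a * b⁻¹ ∈ A := fun a ha b hb =>
      ⟨X.mul_mem ha.1 (X.inv_mem hb.1), linFun_mul_cancel b (by
        rw [← mul_assoc, ← map_mul, show b * (a * b⁻¹) = a from MonoidHom.ext fun x => by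
          simp [mul_comm, mul_left_comm], ha.2, hb.2])⟩
    let f : A → A := fun a => ⟨a.1 * (conjLin g a.1)⁻¹,
      hAmul _ a.2 _ ⟨hst g _ a.2.1, hA1 _ a.2.2⟩⟩
    have hfinj : ∀ a b : N →* ℂˣ, a ∈ X → b ∈ X →
        a * (conjLin g a)⁻¹ = b * (conjLin g b)⁻¹ → a = b := fun a b ha hb h => by
      refine eq_of_div_eq_one (hfpf g hg _ (X.div_mem ha hb) (MonoidHom.ext fun x => ?_))
      have hx := DFunLike.congr_fun h x
      simp only [MonoidHom.mul_apply, MonoidHom.inv_apply, ← div_eq_mul_inv] at hx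
      rw [div_eq_div_iff_mul_eq_mul] at hx
      simp only [map_div, MonoidHom.div_apply]
      rw [div_eq_div_iff_mul_eq_mul, mul_comm, ← hx, mul_comm]
    have hfi : Function.Injective f := fun a b h =>
      Subtype.ext (hfinj _ _ a.2.1 b.2.1 (congrArg Subtype.val h :))
    obtain ⟨a, ha⟩ := Finite.injective_iff_surjective.1 hfi
      ⟨_, X.mul_mem (X.mul_mem hw (X.inv_mem hv))
        (X.inv_mem (hst g _ (X.mul_mem hw (X.inv_mem hv)))), hd⟩
    have hau : a.1 = u := hfinj _ _ a.2.1 (X.mul_mem hw (X.inv_mem hv)) (congrArg Subtype.val ha :)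
    have h5 : linFun u * θ = θ := hau ▸ a.2.2
    rw [show w = v * u from ((mul_comm v u).trans (inv_mul_cancel_right w v)).symm, map_mul, mul_assoc, h5]
  -- counting
  let Sg : Set (N → ℂ) := Set.range fun v : X => linFun v.1 * θ
  haveI : Fintype Sg := Fintype.ofFinite _
  choose vv hvv using fun η : Sg => η.2
  let L : Sg → ℕ := fun η => ℓ (vv η).1
  have hL : Function.Injective L := fun η η' h => by
    have h1 := hℓfix _ (vv η').2
    rw [show ℓ ((vv η').1) = ℓ (vv η).1 from h.symm] at h1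
    exact Subtype.ext ((hvv η).symm.trans ((huniq _ (hnotN _ (hℓp _ (vv η).2) (hℓd _ (vv η).2))
      _ (vv η).2 _ (vv η').2 (hℓfix _ (vv η).2) h1).trans (hvv η')))
  have hdvd : ∀ η : Sg, (L η) ∣ Fintype.card Sg - 1 := by
    intro η
    set g := g₀ ^ (N.index / L η) with hg
    have hlp : (L η).Prime := hℓp _ (vv η).2
    have hgN : g ∉ N := hnotN _ hlp (hℓd _ (vv η).2)
    have hgl : g ^ L η ∈ N := by
      rw [hg, ← pow_mul, hpow, Nat.div_mul_cancel (hℓd _ (vv η).2)]
    have hη : conjChar N (linFun (vv η).1 * θ) g = linFun (vv η).1 * θ := hℓfix _ (vv η).2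
    have hθg : conjChar N θ g = linFun ((vv η).1 * (conjLin g (vv η).1)⁻¹) * θ := by
      refine linFun_mul_cancel (conjLin g (vv η).1) ?_
      rw [← conjChar_linFun, ← conjChar_mul, hη, ← mul_assoc, conjChar_linFun, ← map_mul,
        show conjLin g (vv η).1 * ((vv η).1 * (conjLin g (vv η).1)⁻¹) = (vv η).1 from
          MonoidHom.ext fun x => by simp [mul_comm, mul_left_comm]]
    have hmem : ∀ ξ : Sg, conjChar N (ξ : N → ℂ) g ∈ Sg := fun ξ => by
      obtain ⟨w, hw⟩ := ξ.2
      refine ⟨⟨_, X.mul_mem (hst g _ w.2)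
        (X.mul_mem (vv η).2 (X.inv_mem (hst g _ (vv η).2)))⟩, ?_⟩
      rw [← hw]
      show _ = conjChar N (linFun w.1 * θ) g
      rw [conjChar_mul, conjChar_linFun, hθg]
      simp only [map_mul, mul_assoc]
    let σf : Sg → Sg := fun ξ => ⟨_, hmem ξ⟩
    have hσf : Function.Injective σf := fun a b h => Subtype.ext (by
      have h1 := congrArg (fun a : Sg => conjChar N (a : N → ℂ) g⁻¹) h
      simp only [σf, conjChar_conjChar, mul_inv_cancel, conjChar_one] at h1
      exact h1)
    let σ : Equiv.Perm Sg := Equiv.ofBijective σf (Finite.injective_iff_bijective.1 hσf)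
    have hσk : ∀ k, ∀ ξ : Sg, ((σ ^ k) ξ : N → ℂ) = conjChar N (ξ : N → ℂ) (g ^ k) := by
      intro k
      induction k with
      | zero => simp [conjChar_one]
      | succ k ih =>
        intro ξ
        rw [pow_succ', Equiv.Perm.mul_apply]
        show conjChar N ((σ ^ k) ξ : N → ℂ) g = _
        rw [ih, conjChar_conjChar, pow_succ]
    have hσl : σ ^ L η ^ 1 = 1 := Equiv.ext fun ξ => Subtype.ext (by
      rw [pow_one, hσk]
      obtain ⟨w, hw⟩ := ξ.2
      show conjChar N (ξ : N → ℂ) _ = (ξ : N → ℂ)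
      rw [← hw]
      exact (mem_inertia N _ _).1 (le_inertia N (hcl w.1) hgl))
    haveI := Fact.mk hlp
    have h1 := Equiv.Perm.card_compl_support_modEq hσl
    have h2 : σ.supportᶜ = {η} := by
      ext ξ
      rw [Finset.mem_compl, Equiv.Perm.mem_support, not_not, Finset.mem_singleton]
      constructor
      · intro hξ
        have h3 := congrArg Subtype.val hξ
        change conjChar N (ξ : N → ℂ) g = _ at h3
        rw [← hvv ξ] at h3
        exact Subtype.ext ((hvv ξ).symm.trans ((huniq g hgN _ (vv ξ).2 _ (vv η).2 h3 hη).trans (hvv η)))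
      · rintro rfl
        refine Subtype.ext ?_
        show conjChar N (ξ : N → ℂ) g = _
        rw [← hvv ξ]
        exact hη
    rw [h2, Finset.card_singleton] at h1
    exact (Nat.modEq_iff_dvd' (Fintype.card_pos_iff.2 ⟨η⟩)).1 h1
  have hcard : Fintype.card Sg = 1 := by
    have hpos : 0 < Fintype.card Sg := Fintype.card_pos_iff.2 ⟨⟨_, ⟨1, rfl⟩⟩⟩
    have h1 : ∏ η : Sg, L η ∣ Fintype.card Sg - 1 := by
      rw [← Finset.prod_image (f := fun p => p) (fun a _ b _ h => hL h)]
      refine Finset.prod_primes_dvd _ (fun p hp => ?_) fun p hp => ?_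
      · obtain ⟨η, -, rfl⟩ := Finset.mem_image.1 hp
        exact (hℓp _ (vv η).2).prime
      · obtain ⟨η, -, rfl⟩ := Finset.mem_image.1 hp
        exact hdvd η
    have h2 : 2 ^ Fintype.card Sg ≤ ∏ η : Sg, L η := by
      rw [← Finset.card_univ]
      exact Finset.pow_card_le_prod _ _ _ fun η _ => (hℓp _ (vv η).2).two_le
    by_contra hne
    have h3 := Nat.le_of_dvd (by omega) h1
    have h4 := Nat.lt_two_pow_self (n := Fintype.card Sg)
    omega
  intro v hv
  have h1 := (Fintype.card_eq_one_iff.1 hcard)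
  obtain ⟨η₀, hη₀⟩ := h1
  have h2 := congrArg Subtype.val ((hη₀ ⟨_, ⟨⟨v, hv⟩, rfl⟩⟩).trans (hη₀ ⟨_, ⟨1, rfl⟩⟩).symm)
  simpa using h2

end CfsgLib.ZerosCodegree.CyclicClifford
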