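import Cfsg.Agent.Lib.Clifford.Basic
import Cfsg.Agent.Lib.ZerosCodegree.CharBasics
import Cfsg.Agent.Lib.BlockLocal.Covering

/-!
Characters concentrated on a normal subgroup as a multiple of an invariant irreducible character.
-/

set_option autoImplicit false
set_option linter.unusedSectionVars false
set_option linter.style.haveILetI false

open Cfsg

namespace CfsgLib.ZerosCodegree

open CfsgLib.CharTheory
open scoped ComplexConjugate

universe u
variable {G : Type u} [Group G]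

/-- `χ` is `e θ` on `Z` and vanishes elsewhere, `θ` being invariant. -/
structure FlatOver (Z : Subgroup G) [Z.Normal] (χ : G → ℂ) (θ : IrrCharacter Z) (e : ℕ) : Prop where
  char : IsCharacter G χ
  pos : e ≠ 0
  on : ∀ z : Z, χ z = (e : ℂ) * (θ : Z → ℂ) z
  off : ∀ g, g ∉ Z → χ g = 0
  inv : ∀ g : G, CfsgLib.Clifford.conjChar Z (θ : Z → ℂ) g = θ

variable [Fintype G] {Z : Subgroup G} [Z.Normal] [Fintype Z] {χ : G → ℂ} {θ : IrrCharacter Z} {e : ℕ}

theorem sum_sq_irr {A : Type*} [Group A] [Fintype A] {f : A → ℂ} (hf : IsIrrCharacter A f) :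
    ∑ a : A, f a * conj (f a) = (Nat.card A : ℂ) := by
  have h := classInner_self_of_isIrr hf
  rw [classInner, inv_mul_eq_one₀ (Nat.cast_ne_zero.2 (Nat.card_pos (α := A)).ne')] at h
  exact h.symm

theorem sum_subgroup_of_support {A : Subgroup G} [Fintype A] (hA : Z ≤ A) (F : A → ℂ)
    (hF : ∀ a : A, (a : G) ∉ Z → F a = 0) :
    ∑ a : A, F a = ∑ z : Z, F ⟨z, hA z.2⟩ := by
  classical
  rw [← Finset.sum_subset (Finset.filter_subset (fun a : A => (a : G) ∈ Z) Finset.univ)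
    (fun a _ ha => hF a fun h => ha (Finset.mem_filter.2 ⟨Finset.mem_univ _, h⟩))]
  exact Finset.sum_bij' (fun a ha => (⟨(a : G), (Finset.mem_filter.1 ha).2⟩ : Z))
    (fun z _ => ⟨z, hA z.2⟩) (fun _ _ => Finset.mem_univ _)
    (fun z _ => Finset.mem_filter.2 ⟨Finset.mem_univ _, z.2⟩) (fun _ _ => rfl) (fun _ _ => rfl)
    fun _ _ => rfl

theorem FlatOver.restrict (h : FlatOver Z χ θ e) {A : Subgroup G} (hA : Z ≤ A) [Fintype A]
    [Fintype (Z.subgroupOf A)] :
    ∃ θ' : IrrCharacter (Z.subgroupOf A),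
      (∀ z : Z.subgroupOf A, (θ' : Z.subgroupOf A → ℂ) z = (θ : Z → ℂ) ⟨(z : A), z.2⟩) ∧
        FlatOver (Z.subgroupOf A) (fun a : A => χ a) θ' e := by
  refine ⟨⟨_, isIrrCharacter_comp_mulEquiv θ.2 (Subgroup.subgroupOfEquivOfLe hA)⟩, fun _ => rfl,
    CfsgLib.Coherence.isCharacter_comp h.char A.subtype, h.pos, fun z => h.on ⟨(z : A), z.2⟩,
    fun a ha => h.off a fun hz => ha hz, fun a => funext fun z => ?_⟩
  exact congrFun (h.inv (a : G)) ⟨(z : A), z.2⟩

/-- The multiplicity of a character of a subgroup between `Z` and the group. -/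
theorem FlatOver.classInner_res (h : FlatOver Z χ θ e) {A : Subgroup G} (hA : Z ≤ A) [Fintype A]
    {α : A → ℂ} {n : ℕ} (hn : classInner (fun z : Z => α ⟨z, hA z.2⟩) (θ : Z → ℂ) = n) :
    (Z.relIndex A : ℂ) * classInner (fun a : A => χ a) α = (e : ℂ) * n := by
  have hZ : (Nat.card Z : ℂ) ≠ 0 := Nat.cast_ne_zero.2 (Nat.card_pos (α := Z)).ne'
  have hidx : (Z.relIndex A : ℂ) * (Nat.card Z : ℂ) = (Nat.card A : ℂ) := by
    rw [← Nat.cast_mul, Subgroup.relIndex, ← Nat.card_congr (Subgroup.subgroupOfEquivOfLe hA).toEquiv,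
      Subgroup.index_mul_card]
  have hn' : classInner (θ : Z → ℂ) (fun z : Z => α ⟨z, hA z.2⟩) = n := by
    rw [classInner_conj_symm, hn, map_natCast]
  rw [classInner, sum_subgroup_of_support hA _ (fun a ha => by rw [h.off _ ha, zero_mul]),
    ← hn', classInner, ← hidx]
  simp only [h.on, mul_assoc, ← Finset.mul_sum]
  have hr : (Z.relIndex A : ℂ) ≠ 0 := fun h0 => by
    rw [h0, zero_mul] at hidx
    exact (Nat.card_pos (α := A)).ne' (Nat.cast_eq_zero.1 hidx.symm)
  field_simp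

/-- Over `θ` there is a constituent below any intermediate subgroup. -/
theorem FlatOver.exists_over (h : FlatOver Z χ θ e) {A : Subgroup G} (hA : Z ≤ A) [Fintype A] :
    ∃ α : IrrCharacter A, classInner (fun z : Z => (α : A → ℂ) ⟨z, hA z.2⟩) (θ : Z → ℂ) ≠ 0 := by
  classical
  haveI : Fintype (IrrCharacter A) := Fintype.ofFinite _
  by_contra hcon
  push Not at hcon
  obtain ⟨m, hm⟩ := IsCharacter.exists_sum (CfsgLib.Coherence.isCharacter_comp h.char A.subtype)
  have h0 : ∀ α : IrrCharacter A, m α = 0 := fun α => by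
    have h1 := h.classInner_res hA (α := (α : A → ℂ)) (n := 0) (by rw [hcon α, Nat.cast_zero])
    rw [show (fun a : A => χ a) = ∑ φ, (m φ : ℂ) • (φ : A → ℂ) from hm, classInner_sum_irr,
      Nat.cast_zero, mul_zero, mul_eq_zero, Nat.cast_eq_zero] at h1
    exact_mod_cast h1.resolve_left (fun h0 => Subgroup.index_ne_zero_of_finite h0)
  have h1 := congrFun hm 1
  simp only [h0, Nat.cast_zero, zero_smul, Finset.sum_const_zero, Pi.zero_apply] at h1
  change χ 1 = 0 at h1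
  rw [show (1 : G) = ((1 : Z) : G) from rfl, h.on, mul_eq_zero] at h1
  exact h1.elim (fun h2 => h.pos (Nat.cast_eq_zero.1 h2)) (apply_one_ne_zero_of_isIrr θ.2)

section PPower

variable {p t e' : ℕ}

/-- In prime power index every character over `θ` is flat of multiplicity `p ^ t`. -/
theorem FlatOver.irr_over [Fact p.Prime] (h : FlatOver Z χ θ e) (hidx : Z.index = p ^ (2 * t))
    (he : e = p ^ t * e') (he' : ¬ p ∣ e') {ψ : IrrCharacter G}
    (hψ : classInner (fun z : Z => (ψ : G → ℂ) z) (θ : Z → ℂ) ≠ 0) :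
    FlatOver Z (ψ : G → ℂ) θ (p ^ t) := by
  classical
  haveI : Fintype (⊤ : Subgroup G) := Fintype.ofFinite _
  obtain ⟨n, hn⟩ := IsCharacter.exists_classInner_eq_nat
    (CfsgLib.Coherence.isCharacter_comp (IsIrrCharacter.isCharacter ψ.2) Z.subtype) θ
  change classInner (fun z : Z => (ψ : G → ℂ) z) (θ : Z → ℂ) = n at hn
  have hon := CfsgLib.Clifford.res_eq_of_invariant Z ψ.2 θ.2 h.inv hψ
  rw [hn] at hon
  -- the multiplicity of ψ in χ
  obtain ⟨m, hm⟩ := IsCharacter.exists_classInner_eq_nat h.char ψ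
  have hZG : (Z.index : ℂ) * (Nat.card Z : ℂ) = (Nat.card G : ℂ) := by
    rw [← Nat.cast_mul, Subgroup.index_mul_card]
  have hsplit : ∀ F : G → ℂ, (∀ g, g ∉ Z → F g = 0) → ∑ g, F g = ∑ z : Z, F z := by
    intro F hF
    rw [← Finset.sum_subset (Finset.filter_subset (· ∈ Z) Finset.univ)
      (fun a _ ha => hF a fun h => ha (Finset.mem_filter.2 ⟨Finset.mem_univ _, h⟩))]
    exact Finset.sum_subtype _ (by simp) F
  have hZ : (Nat.card Z : ℂ) ≠ 0 := Nat.cast_ne_zero.2 (Nat.card_pos (α := Z)).ne'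
  have hG : (Nat.card G : ℂ) ≠ 0 := Nat.cast_ne_zero.2 (Nat.card_pos (α := G)).ne'
  have hmn : m * p ^ (2 * t) = e * n := by
    rw [classInner, hsplit _ (fun g hg => by rw [h.off g hg, zero_mul])] at hm
    simp only [h.on, fun z : Z => show (ψ : G → ℂ) z = (n : ℂ) * (θ : Z → ℂ) z from congrFun hon z,
      map_mul, map_natCast] at hm
    rw [Finset.sum_congr rfl (fun z _ => show (e : ℂ) * (θ : Z → ℂ) z * ((n : ℂ) * conj ((θ : Z → ℂ) z))
      = ((e : ℂ) * n) * ((θ : Z → ℂ) z * conj ((θ : Z → ℂ) z)) by ring), ← Finset.mul_sum,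
      sum_sq_irr θ.2, ← hZG, hidx] at hm
    have h0 : ((p ^ (2 * t) : ℕ) : ℂ) ≠ 0 := Nat.cast_ne_zero.2 (pow_ne_zero _ (Fact.out : p.Prime).ne_zero)
    field_simp at hm
    have h2 : ((m * p ^ (2 * t) : ℕ) : ℂ) = ((e * n : ℕ) : ℂ) := by
      push_cast at hm ⊢; linear_combination -hm
    exact_mod_cast h2
  have hdvd : p ^ t ∣ n := by
    have h1 : p ^ t * (e' * n) = p ^ t * (m * p ^ t) := by
      rw [← mul_assoc, ← he, ← hmn, two_mul, pow_add]; ring
    have h2 := Nat.eq_of_mul_eq_mul_left (pow_pos (Fact.out : p.Prime).pos t) h1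
    exact (Nat.Coprime.pow_left t ((Fact.out : p.Prime).coprime_iff_not_dvd.2 he')).dvd_of_dvd_mul_left
      ⟨m, by rw [h2]; ring⟩
  have hn0 : n ≠ 0 := fun h0 => hψ (by rw [hn, h0, Nat.cast_zero])
  have hge : p ^ t ≤ n := Nat.le_of_dvd (Nat.pos_of_ne_zero hn0) hdvd
  -- the norm
  have h1 := sum_sq_irr ψ.2
  rw [← Finset.sum_filter_add_sum_filter_not Finset.univ (fun g : G => g ∈ Z),
    Finset.sum_subtype (Finset.univ.filter fun g : G => g ∈ Z) (p := fun g => g ∈ Z) (by simp)] at h1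
  rw [show (∑ z : Z, (ψ : G → ℂ) z * conj ((ψ : G → ℂ) z)) = ((n * n * Nat.card Z : ℕ) : ℂ) by
    rw [Nat.cast_mul, ← sum_sq_irr θ.2, Finset.mul_sum]
    refine Finset.sum_congr rfl fun z _ => ?_
    rw [show (ψ : G → ℂ) z = (n : ℂ) * (θ : Z → ℂ) z from congrFun hon z, map_mul, map_natCast]
    push_cast; ring] at h1
  simp only [Complex.mul_conj, ← Complex.ofReal_sum] at h1
  have h2 : ((n * n * Nat.card Z : ℕ) : ℝ) +
      ∑ g ∈ Finset.univ.filter (fun g : G => g ∉ Z), Complex.normSq ((ψ : G → ℂ) g) =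
      (Nat.card G : ℝ) := by
    have := congrArg Complex.re h1
    simpa using this
  have hcard : Nat.card G = p ^ t * p ^ t * Nat.card Z := by
    rw [← Subgroup.index_mul_card Z, hidx, two_mul, pow_add]
  have hrest : 0 ≤ ∑ g ∈ Finset.univ.filter (fun g : G => g ∉ Z), Complex.normSq ((ψ : G → ℂ) g) :=
    Finset.sum_nonneg fun g _ => Complex.normSq_nonneg _
  have hle : n * n * Nat.card Z ≤ Nat.card G := by
    exact_mod_cast (le_add_of_nonneg_right hrest).trans h2.le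
  have hneq : n = p ^ t := by
    rw [hcard] at hle
    have := Nat.le_of_mul_le_mul_right hle Nat.card_pos
    exact le_antisymm (Nat.mul_self_le_mul_self_iff.1 this) hge
  subst hneq
  rw [← hcard, add_eq_left] at h2
  exact ⟨IsIrrCharacter.isCharacter ψ.2, pow_ne_zero _ (Fact.out : p.Prime).ne_zero,
    fun z => congrFun hon z, fun g hg => Complex.normSq_eq_zero.1
      ((Finset.sum_eq_zero_iff_of_nonneg fun x _ => Complex.normSq_nonneg _).1 h2 g
        (Finset.mem_filter.2 ⟨Finset.mem_univ _, hg⟩)), h.inv⟩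

theorem FlatOver.eq_of_over [Fact p.Prime] (h : FlatOver Z χ θ e) (hidx : Z.index = p ^ (2 * t))
    (he : e = p ^ t * e') (he' : ¬ p ∣ e') {ψ ψ' : IrrCharacter G}
    (hψ : classInner (fun z : Z => (ψ : G → ℂ) z) (θ : Z → ℂ) ≠ 0)
    (hψ' : classInner (fun z : Z => (ψ' : G → ℂ) z) (θ : Z → ℂ) ≠ 0) : ψ = ψ' := by
  have h1 := h.irr_over hidx he he' hψ
  have h2 := h.irr_over hidx he he' hψ'
  refine Subtype.ext (funext fun g => ?_)
  by_cases hg : g ∈ Z
  · rw [h1.on ⟨g, hg⟩, h2.on ⟨g, hg⟩]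
  · rw [h1.off g hg, h2.off g hg]

variable {A : Subgroup G} [A.Normal] [Fintype A]

/-- A constituent upstairs of a character over `θ` of an intermediate normal subgroup. -/
theorem exists_irr_over_both (hA : Z ≤ A) (α : IrrCharacter A)
    (hα : classInner (fun z : Z => (α : A → ℂ) ⟨z, hA z.2⟩) (θ : Z → ℂ) ≠ 0) :
    ∃ ψ : IrrCharacter G, classInner (fun a : A => (ψ : G → ℂ) a) (α : A → ℂ) ≠ 0 ∧
      classInner (fun z : Z => (ψ : G → ℂ) z) (θ : Z → ℂ) ≠ 0 := by
  classical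
  haveI : Fintype (IrrCharacter G) := Fintype.ofFinite _
  obtain ⟨m, hm⟩ := IsCharacter.exists_sum
    (CfsgLib.Frobenius.isCharacter_indFun A (α : A → ℂ) (IsIrrCharacter.isCharacter α.2))
  obtain ⟨ψ, hψ⟩ : ∃ ψ, m ψ ≠ 0 := by
    by_contra h0
    push Not at h0
    have h1 := congrFun hm 1
    simp only [h0, Nat.cast_zero, zero_smul, Finset.sum_const_zero, Pi.zero_apply,
      CfsgLib.Frobenius.indFun_one] at h1
    exact mul_ne_zero (Nat.cast_ne_zero.2 Subgroup.index_ne_zero_of_finite)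
      (apply_one_ne_zero_of_isIrr α.2) h1
  have h1 : classInner (fun a : A => (ψ : G → ℂ) a) (α : A → ℂ) ≠ 0 := fun h0 => by
    have e : classInner (indFun A (α : A → ℂ)) (ψ : G → ℂ) = (m ψ : ℂ) := by
      rw [hm]; exact classInner_sum_irr _ ψ
    rw [CfsgLib.Frobenius.classInner_indFun A _ _ (IsIrrCharacter.isClassFunction ψ.2),
      classInner_conj_symm, h0, map_zero] at e
    exact hψ (Nat.cast_eq_zero.1 e.symm)
  refine ⟨ψ, h1, ?_⟩
  obtain ⟨a, l, ha, hl, hle⟩ := CfsgLib.Clifford.classInner_res_le hA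
    (IsIrrCharacter.isCharacter ψ.2) θ.2 {α} (fun φ hφ => by rw [Finset.mem_singleton.1 hφ]; exact h1)
  rw [Finset.sum_singleton] at hle
  rw [ha, Nat.cast_ne_zero]
  have : l α ≠ 0 := fun h0 => hα (by rw [hl α, h0, Nat.cast_zero])
  omega

/-- The data carried by an intermediate normal subgroup in prime power index: one orbit, whose length
times a square is the index, and the degree relation. -/
theorem FlatOver.orbit [Fact p.Prime] (h : FlatOver Z χ θ e) (hidx : Z.index = p ^ (2 * t))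
    (he : e = p ^ t * e') (he' : ¬ p ∣ e') (hA : Z ≤ A) (α : IrrCharacter A)
    (hα : classInner (fun z : Z => (α : A → ℂ) ⟨z, hA z.2⟩) (θ : Z → ℂ) ≠ 0) :
    (∀ β : IrrCharacter A, classInner (fun z : Z => (β : A → ℂ) ⟨z, hA z.2⟩) (θ : Z → ℂ) ≠ 0 →
      ∃ g : G, (β : A → ℂ) = CfsgLib.Clifford.conjChar A (α : A → ℂ) g) ∧
    ∃ f : ℕ, (∃ ψ : IrrCharacter G, classInner (fun z : Z => (ψ : G → ℂ) z) (θ : Z → ℂ) ≠ 0 ∧
        classInner (fun a : A => (ψ : G → ℂ) a) (α : A → ℂ) = f) ∧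
      A.index = f ^ 2 * (CfsgLib.Clifford.conjOrbit A (α : A → ℂ)).card ∧
      (p : ℂ) ^ t * (θ : Z → ℂ) 1 =
        f * ((CfsgLib.Clifford.conjOrbit A (α : A → ℂ)).card : ℂ) * (α : A → ℂ) 1 := by
  classical
  obtain ⟨ψ, hψα, hψ⟩ := exists_irr_over_both hA α hα
  refine ⟨fun β hβ => ?_, ?_⟩
  · obtain ⟨ψ', hψ'β, hψ'⟩ := exists_irr_over_both hA β hβ
    rw [h.eq_of_over hidx he he' hψ' hψ] at hψ'β
    exact CfsgLib.Clifford.exists_conj_of_constituents A ψ.2 α.2 β.2 hψα hψ'β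
  obtain ⟨f, hf⟩ := IsCharacter.exists_classInner_eq_nat
    (CfsgLib.Coherence.isCharacter_comp (IsIrrCharacter.isCharacter ψ.2) A.subtype) α
  change classInner (fun a : A => (ψ : G → ℂ) a) (α : A → ℂ) = f at hf
  have hflat := h.irr_over hidx he he' hψ
  refine ⟨f, ⟨ψ, hψ, hf⟩, ?_, ?_⟩
  · have hres := CfsgLib.Clifford.res_eq A ψ.2 α.2 hψα
    rw [hf] at hres
    have h1 : classInner (fun a : A => (ψ : G → ℂ) a) (fun a : A => (ψ : G → ℂ) a) =
        (f : ℂ) * f * ((CfsgLib.Clifford.conjOrbit A (α : A → ℂ)).card : ℂ) := by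
      have e1 : ∀ η ∈ CfsgLib.Clifford.conjOrbit A (α : A → ℂ),
          classInner (fun a : A => (ψ : G → ℂ) a) η = (f : ℂ) := by
        intro η hη
        obtain ⟨g, rfl⟩ := (CfsgLib.Clifford.mem_conjOrbit A).1 hη
        rw [CfsgLib.Clifford.classInner_conjChar A (IsIrrCharacter.isClassFunction ψ.2), hf]
      conv_lhs => arg 2; rw [hres]
      rw [classInner_smul_right, classInner_sum_right, Finset.sum_congr rfl e1, Finset.sum_const,
        nsmul_eq_mul, map_natCast]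
      ring
    rw [classInner, sum_subgroup_of_support hA _ (fun a ha => by rw [hflat.off _ ha, zero_mul])] at h1
    simp only [hflat.on, map_mul, map_natCast] at h1
    rw [Finset.sum_congr rfl (fun z _ => show ((p ^ t : ℕ) : ℂ) * (θ : Z → ℂ) z *
      (((p ^ t : ℕ) : ℂ) * conj ((θ : Z → ℂ) z)) =
      ((p ^ (2 * t) : ℕ) : ℂ) * ((θ : Z → ℂ) z * conj ((θ : Z → ℂ) z)) by
        push_cast; rw [two_mul, pow_add]; ring), ← Finset.mul_sum, sum_sq_irr θ.2, ← Nat.cast_mul,
      ← hidx, Subgroup.index_mul_card] at h1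
    rw [← A.index_mul_card, Nat.cast_mul, inv_mul_eq_iff_eq_mul₀
      (Nat.cast_ne_zero.2 (Nat.card_pos (α := A)).ne'), mul_comm (Nat.card A : ℂ)] at h1
    have h2 := mul_right_cancel₀ (Nat.cast_ne_zero.2 (Nat.card_pos (α := A)).ne') h1
    rw [pow_two]
    exact_mod_cast h2
  · have h1 := CfsgLib.Clifford.apply_one_eq A ψ.2 α.2 hψα
    rw [hf] at h1
    rw [← h1, ← Nat.cast_pow, ← hflat.on 1]
    rfl

end PPower

end CfsgLib.ZerosCodegree
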