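import Cfsg.Agent.Lib.ZerosCodegree.FlatCharacters
import Cfsg.Agent.Lib.RealChar.Extension

/-!
A fully ramified character yields complements to Sylow subgroups of quotients.
-/

set_option autoImplicit false
set_option linter.unusedSectionVars false
set_option linter.style.haveILetI false

open Cfsg

namespace CfsgLib.ZerosCodegree

open CfsgLib.CharTheory
open scoped ComplexConjugate

universe u
variable {G : Type u} [Group G] [Fintype G] {Z : Subgroup G} [Z.Normal] [Fintype Z] {χ : G → ℂ}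
  {θ : IrrCharacter Z} {e p t e' : ℕ} {A : Subgroup G} [A.Normal] [Fintype A]

/-- With cyclic quotient the multiplicity is one. -/
theorem FlatOver.mult_one_of_cyclic [Fact p.Prime] (h : FlatOver Z χ θ e)
    (hidx : Z.index = p ^ (2 * t)) (he : e = p ^ t * e') (he' : ¬ p ∣ e') (hA : Z ≤ A)
    (hcyc : IsCyclic (G ⧸ A)) (α : IrrCharacter A)
    (hα : classInner (fun z : Z => (α : A → ℂ) ⟨z, hA z.2⟩) (θ : Z → ℂ) ≠ 0) {ψ : IrrCharacter G}
    (hψ : classInner (fun z : Z => (ψ : G → ℂ) z) (θ : Z → ℂ) ≠ 0) {f : ℕ}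
    (hf : classInner (fun a : A => (ψ : G → ℂ) a) (α : A → ℂ) = f) : f = 1 := by
  classical
  let T : Subgroup G :=
    { carrier := {g | CfsgLib.Clifford.conjChar A (α : A → ℂ) g = α}
      one_mem' := CfsgLib.Clifford.conjChar_one A _
      mul_mem' := fun {a b} ha hb => by
        show CfsgLib.Clifford.conjChar A (α : A → ℂ) (a * b) = α
        rw [← CfsgLib.Clifford.conjChar_conjChar, ha, hb]
      inv_mem' := fun {a} ha => by
        show CfsgLib.Clifford.conjChar A (α : A → ℂ) a⁻¹ = α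
        conv_lhs => rw [← ha, CfsgLib.Clifford.conjChar_conjChar, mul_inv_cancel,
          CfsgLib.Clifford.conjChar_one] }
  have hT : ∀ g : G, g ∈ T ↔ CfsgLib.Clifford.conjChar A (α : A → ℂ) g = α := fun g => Iff.rfl
  have hAT : A ≤ T := fun a ha => funext fun n =>
    IsIrrCharacter.isClassFunction α.2 n ⟨a, ha⟩
  haveI : Fintype T := Fintype.ofFinite T
  haveI : Fintype (A.subgroupOf T) := Fintype.ofFinite _
  haveI : IsCyclic (G ⧸ A) := hcyc
  have hcyc' : IsCyclic (T ⧸ A.subgroupOf T) :=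
    isCyclic_of_injective (QuotientGroup.map (A.subgroupOf T) A T.subtype (fun _ hx => hx)) (by
      rw [← MonoidHom.ker_eq_bot_iff, eq_bot_iff]
      intro x hx
      obtain ⟨x, rfl⟩ := QuotientGroup.mk_surjective x
      have hx' : ((x : G) : G ⧸ A) = 1 := hx
      rw [QuotientGroup.eq_one_iff] at hx'
      exact Subgroup.mem_bot.2 ((QuotientGroup.eq_one_iff x).2 hx'))
  let ι : A.subgroupOf T ≃* A := Subgroup.subgroupOfEquivOfLe hAT
  obtain ⟨β, hβ, hβα⟩ := CfsgLib.RealChar.exists_extension_character_of_cyclic (A.subgroupOf T) hcyc'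
    (fun x => (α : A → ℂ) (ι x)) (isIrrCharacter_comp_mulEquiv α.2 ι) (fun g n => by
      exact congrFun ((hT (g : G)).1 g.2) (ι n))
  have hres : (fun a : A => β ⟨(a : G), hAT a.2⟩) = (α : A → ℂ) :=
    funext fun a => hβα ⟨⟨(a : G), hAT a.2⟩, a.2⟩
  obtain ⟨hirr, hmult⟩ := CfsgLib.Clifford.isIrrCharacter_indFun_inertia α.2 hT hAT hβ
    (by rw [hres, classInner_self_of_isIrr α.2]; exact one_ne_zero)
  rw [hres, classInner_self_of_isIrr α.2] at hmult
  let γ : IrrCharacter G := ⟨_, hirr⟩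
  have hγ : classInner (fun z : Z => (γ : G → ℂ) z) (θ : Z → ℂ) ≠ 0 := by
    obtain ⟨a, l, ha, hl, hle⟩ := CfsgLib.Clifford.classInner_res_le hA
      (IsIrrCharacter.isCharacter γ.2) θ.2 {α} (fun φ hφ => by
        rw [Finset.mem_singleton.1 hφ, show classInner (fun a : A => (γ : G → ℂ) a) (α : A → ℂ) = 1
          from hmult]
        exact one_ne_zero)
    rw [Finset.sum_singleton] at hle
    rw [ha, Nat.cast_ne_zero]
    have : l α ≠ 0 := fun h0 => hα (by rw [hl α, h0, Nat.cast_zero])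
    omega
  rw [h.eq_of_over hidx he he' hψ hγ] at hf
  have h1 : ((1 : ℕ) : ℂ) = (f : ℂ) := by rw [Nat.cast_one, ← hmult]; exact hf
  exact (Nat.cast_injective h1).symm

/-- A constituent with a degree bound forces multiplicity one. -/
theorem FlatOver.mult_one_of_degree [Fact p.Prime] (h : FlatOver Z χ θ e)
    (hidx : Z.index = p ^ (2 * t)) (he : e = p ^ t * e') (he' : ¬ p ∣ e') (hA : Z ≤ A)
    {μ : A → ℂ} (hμ : IsCharacter A μ) {c : ℕ}
    (hdeg : μ 1 * A.index * c = (e : ℂ) * (θ : Z → ℂ) 1)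
    (hover : ∀ β : IrrCharacter A, classInner μ (β : A → ℂ) ≠ 0 →
      classInner (fun z : Z => (β : A → ℂ) ⟨z, hA z.2⟩) (θ : Z → ℂ) ≠ 0)
    (α : IrrCharacter A) (hα : classInner (fun z : Z => (α : A → ℂ) ⟨z, hA z.2⟩) (θ : Z → ℂ) ≠ 0)
    {f : ℕ} (hq : A.index = f ^ 2 * (CfsgLib.Clifford.conjOrbit A (α : A → ℂ)).card)
    (hd : (p : ℂ) ^ t * (θ : Z → ℂ) 1 =
      f * ((CfsgLib.Clifford.conjOrbit A (α : A → ℂ)).card : ℂ) * (α : A → ℂ) 1) : f = 1 := by
  classical
  haveI : Fintype (IrrCharacter A) := Fintype.ofFinite _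
  obtain ⟨m, hm⟩ := IsCharacter.exists_sum hμ
  have hμ1 : μ 1 = ((∑ β : IrrCharacter A, m β : ℕ) : ℂ) * (α : A → ℂ) 1 := by
    rw [hm, Finset.sum_apply, Nat.cast_sum, Finset.sum_mul]
    refine Finset.sum_congr rfl fun β _ => ?_
    rw [Pi.smul_apply, smul_eq_mul]
    rcases Nat.eq_zero_or_pos (m β) with h0 | h0
    · rw [h0]; simp
    obtain ⟨g, hg⟩ := (h.orbit hidx he he' hA α hα).1 β (hover β (by
      rw [hm, classInner_sum_irr]
      exact Nat.cast_ne_zero.2 h0.ne'))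
    rw [hg, CfsgLib.Clifford.conjChar_apply_one]
  set S := (CfsgLib.Clifford.conjOrbit A (α : A → ℂ)).card
  set K := ∑ β : IrrCharacter A, m β
  have hα1 : (α : A → ℂ) 1 ≠ 0 := apply_one_ne_zero_of_isIrr α.2
  have h1 : ((K * (f ^ 2 * S) * c : ℕ) : ℂ) = ((e' * (f * S) : ℕ) : ℂ) := by
    refine mul_right_cancel₀ hα1 ?_
    rw [hμ1, hq, he] at hdeg
    push_cast at hdeg ⊢
    linear_combination hdeg + (e' : ℂ) * hd
  rw [Nat.cast_inj] at h1
  have hp : p.Prime := Fact.out
  have hq0 : f ^ 2 * S ≠ 0 := hq ▸ Subgroup.index_ne_zero_of_finite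
  have hfS : 0 < f * S := Nat.pos_of_ne_zero (mul_ne_zero
    (pow_ne_zero_iff two_ne_zero |>.1 (left_ne_zero_of_mul hq0)) (right_ne_zero_of_mul hq0))
  have h2 : f ∣ e' := by
    refine ⟨K * c, ?_⟩
    refine Nat.eq_of_mul_eq_mul_right hfS (h1.symm.trans ?_)
    ring
  have h3 : f ∣ p ^ (2 * t) := by
    refine dvd_trans ?_ (hidx ▸ Subgroup.index_dvd_of_le hA)
    rw [hq, pow_two, mul_assoc]
    exact dvd_mul_right f _
  exact Nat.eq_one_of_dvd_coprimes (Nat.Coprime.pow_left _ (hp.coprime_iff_not_dvd.2 he')) h3 h2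

open scoped Classical in
/-- The inertia group of a character over `θ` gives a subgroup of the right index. -/
theorem FlatOver.exists_index [Fact p.Prime] (h : FlatOver Z χ θ e) (L J : Subgroup G) [J.Normal]
    (hA : Z ≤ A) (hAL : A ≤ L) (hAJ : A ≤ J) (hJ : ¬ p ∣ A.relIndex J)
    (hidx : Z.relIndex L = p ^ (2 * t)) (he : e = p ^ t * e') (he' : ¬ p ∣ e')
    (hcase : IsCyclic (L ⧸ A.subgroupOf L) ∨ ∃ (μ : A → ℂ) (c : ℕ), IsCharacter A μ ∧
      μ 1 * A.relIndex L * c = (e : ℂ) * (θ : Z → ℂ) 1 ∧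
      ∀ β : IrrCharacter A, classInner μ (β : A → ℂ) ≠ 0 →
        classInner (fun z : Z => (β : A → ℂ) ⟨z, hA z.2⟩) (θ : Z → ℂ) ≠ 0) :
    ∃ T : Subgroup G, J ≤ T ∧ T.index = A.relIndex L := by
  have hp : p.Prime := Fact.out
  obtain ⟨α, hα⟩ := h.exists_over hA
  have hZL : Z ≤ L := hA.trans hAL
  obtain ⟨θL, hθL, hL⟩ := h.restrict hZL
  let ι : A.subgroupOf L ≃* A := Subgroup.subgroupOfEquivOfLe hAL
  let κ : Z.subgroupOf L ≃* Z := Subgroup.subgroupOfEquivOfLe hZL
  have hθ : (θL : Z.subgroupOf L → ℂ) = fun z => (θ : Z → ℂ) (κ z) := funext hθL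
  have hA' : Z.subgroupOf L ≤ A.subgroupOf L := fun z hz => hA hz
  have hinner : ∀ β : IrrCharacter A,
      classInner (fun z : Z.subgroupOf L => (β : A → ℂ) (ι ⟨z, hA' z.2⟩)) (θL : Z.subgroupOf L → ℂ) =
        classInner (fun z : Z => (β : A → ℂ) ⟨z, hA z.2⟩) (θ : Z → ℂ) := fun β => by
    rw [hθ]
    exact CfsgLib.Clifford.classInner_comp_mulEquiv κ (fun z : Z => (β : A → ℂ) ⟨z, hA z.2⟩) _
  let up : IrrCharacter A → IrrCharacter (A.subgroupOf L) := fun β =>
    ⟨_, isIrrCharacter_comp_mulEquiv β.2 ι⟩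
  have hαL : classInner (fun z : Z.subgroupOf L => (up α : A.subgroupOf L → ℂ) ⟨z, hA' z.2⟩)
      (θL : Z.subgroupOf L → ℂ) ≠ 0 := by rw [← hinner α] at hα; exact hα
  obtain ⟨htrans, f, ⟨ψ, hψ, hψf⟩, hq, hd⟩ := hL.orbit hidx he he' hA' (up α) hαL
  have hf1 : f = 1 := by
    rcases hcase with hcyc | ⟨μ, c, hμ, hdeg, hover⟩
    · exact hL.mult_one_of_cyclic hidx he he' hA' hcyc (up α) hαL hψ hψf
    · refine hL.mult_one_of_degree hidx he he' hA'
        (μ := fun x => μ (ι x)) (CfsgLib.Coherence.isCharacter_comp hμ ι.toMonoidHom) (c := c) ?_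
        (fun β hβ => ?_) (up α) hαL hq hd
      · show μ (ι 1) * _ * _ = _
        rw [map_one, hθ]
        simpa [Subgroup.relIndex] using hdeg
      · let β' : IrrCharacter A := ⟨_, isIrrCharacter_comp_mulEquiv β.2 ι.symm⟩
        have e1 : classInner μ (β' : A → ℂ) ≠ 0 := by
          rw [← CfsgLib.Clifford.classInner_comp_mulEquiv ι μ (β' : A → ℂ)]
          simpa [β'] using hβ
        have := hover β' e1
        rw [← hinner β'] at this
        simpa [β'] using this
  rw [hf1, one_pow, one_mul] at hq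
  let T : Subgroup G :=
    { carrier := {g | CfsgLib.Clifford.conjChar A (α : A → ℂ) g = α}
      one_mem' := CfsgLib.Clifford.conjChar_one A _
      mul_mem' := fun {a b} ha hb => by
        show CfsgLib.Clifford.conjChar A (α : A → ℂ) (a * b) = α
        rw [← CfsgLib.Clifford.conjChar_conjChar, ha, hb]
      inv_mem' := fun {a} ha => by
        show CfsgLib.Clifford.conjChar A (α : A → ℂ) a⁻¹ = α
        conv_lhs => rw [← ha, CfsgLib.Clifford.conjChar_conjChar, mul_inv_cancel,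
          CfsgLib.Clifford.conjChar_one] }
  have hAT : A ≤ T := fun a ha => funext fun n => IsIrrCharacter.isClassFunction α.2 n ⟨a, ha⟩
  have hTidx : T.index = A.relIndex L := by
    rw [← CfsgLib.Clifford.card_conjOrbit A (α : A → ℂ) T (fun g => Iff.rfl), Subgroup.relIndex, hq]
    refine Finset.card_bij (fun η _ => fun x => η (ι x)) (fun η hη => ?_) (fun a _ b _ hab => ?_)
      (fun η hη => ?_)
    · obtain ⟨g, rfl⟩ := (CfsgLib.Clifford.mem_conjOrbit A).1 hη
      let β : IrrCharacter A := ⟨_, CfsgLib.Clifford.isIrrCharacter_conjChar A α.2 g⟩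
      have hβ : classInner (fun z : Z => (β : A → ℂ) ⟨z, hA z.2⟩) (θ : Z → ℂ) ≠ 0 := by
        have e1 : classInner (fun z : Z => (β : A → ℂ) ⟨z, hA z.2⟩)
            (CfsgLib.Clifford.conjChar Z (θ : Z → ℂ) g) =
            classInner (fun z : Z => (α : A → ℂ) ⟨z, hA z.2⟩) (θ : Z → ℂ) := by
          simp only [classInner]
          congr 1
          refine Fintype.sum_equiv (MulAut.conjNormal g).toEquiv _ _ fun z => ?_
          exact congrArg₂ (· * ·)
            (congrArg (α : A → ℂ) (Subtype.ext (MulAut.conjNormal_apply g z).symm))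
            (congrArg conj (congrArg (θ : Z → ℂ) (Subtype.ext (MulAut.conjNormal_apply g z).symm)))
        rw [h.inv g] at e1
        rw [e1]; exact hα
      obtain ⟨l, hl⟩ := htrans (up β) (by rw [← hinner β] at hβ; exact hβ)
      exact (CfsgLib.Clifford.mem_conjOrbit _).2 ⟨l, hl.symm⟩
    · funext x
      simpa using congrFun hab (ι.symm x)
    · obtain ⟨l, rfl⟩ := (CfsgLib.Clifford.mem_conjOrbit _).1 hη
      exact ⟨CfsgLib.Clifford.conjChar A (α : A → ℂ) (l : G),
        (CfsgLib.Clifford.mem_conjOrbit A).2 ⟨_, rfl⟩, rfl⟩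
  refine ⟨T, ?_, hTidx⟩
  set I := T ⊓ J
  have h1 := Subgroup.relIndex_mul_relIndex I T (T ⊔ J) inf_le_left le_sup_left
  have h2 := Subgroup.relIndex_mul_relIndex I J (T ⊔ J) inf_le_right le_sup_right
  rw [Subgroup.relIndex_sup_right, Subgroup.inf_relIndex_right, ← Subgroup.inf_relIndex_left T J] at h2
  have h3 : T.relIndex J = T.relIndex (T ⊔ J) := by
    refine Nat.eq_of_mul_eq_mul_left (Nat.pos_of_ne_zero (Subgroup.index_ne_zero_of_finite
      (H := I.subgroupOf T))) ?_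
    show I.relIndex T * _ = I.relIndex T * _
    rw [h1, ← h2, mul_comm]
  have h4 : T.relIndex J ∣ p ^ (2 * t) := by
    rw [h3]
    refine (Subgroup.relIndex_dvd_index_of_le le_sup_left).trans (hTidx ▸ ?_)
    rw [← hidx, ← Subgroup.relIndex_mul_relIndex Z A L hA hAL]
    exact dvd_mul_left _ _
  have h5 : T.relIndex J = 1 := Nat.eq_one_of_dvd_coprimes
    (Nat.Coprime.pow_left _ (hp.coprime_iff_not_dvd.2 hJ)) h4 (Subgroup.relIndex_dvd_of_le_left J hAT)
  exact Subgroup.relIndex_eq_one.1 h5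

end CfsgLib.ZerosCodegree
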