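import Mathlib.LinearAlgebra.Vandermonde
import Mathlib.LinearAlgebra.Matrix.Adjugate
import Mathlib.Algebra.Module.BigOperators
import Mathlib.Logic.Function.Iterate

/-!
# Fixed points of a semilinear map with separated conjugates

A semilinear endomorphism of order `m` of a finite module, for which some scalar has `m` conjugates
with injective differences, has exactly the `m`-th root of the order of the module many fixed
points.
-/

set_option autoImplicit false

namespace CfsgLib.ZerosCodegree.FreeFix

variable {W : Type*} [AddCommGroup W] {R : Type*} [CommRing R] [Module R W]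

open Matrix

theorem sum_adj_smul {n : ℕ} (A : Matrix (Fin n) (Fin n) R) (c : Fin n → W) (k : Fin n) :
    ∑ i, A.adjugate k i • ∑ j, A i j • c j = A.det • c k := by
  simp only [Finset.smul_sum, smul_smul]
  rw [Finset.sum_comm]
  simp only [← Finset.sum_smul]
  have h : ∀ j, ∑ i, A.adjugate k i * A i j = if k = j then A.det else 0 := fun j => by
    have := congrFun (congrFun A.adjugate_mul k) j
    rw [Matrix.mul_apply, Matrix.smul_apply, Matrix.one_apply] at this
    rw [this]
    simp
  simp only [h, ite_smul, zero_smul, Finset.sum_ite_eq, Finset.mem_univ, if_true]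

theorem sum_smul_adj {n : ℕ} (A : Matrix (Fin n) (Fin n) R) (v : Fin n → W) (k : Fin n) :
    ∑ j, A k j • ∑ i, A.adjugate j i • v i = A.det • v k := by
  simp only [Finset.smul_sum, smul_smul]
  rw [Finset.sum_comm]
  simp only [← Finset.sum_smul]
  have h : ∀ i, ∑ j, A k j * A.adjugate j i = if k = i then A.det else 0 := fun i => by
    have := congrFun (congrFun A.mul_adjugate k) i
    rw [Matrix.mul_apply, Matrix.smul_apply, Matrix.one_apply] at this
    rw [this]
    simp
  simp only [h, ite_smul, zero_smul, Finset.sum_ite_eq, Finset.mem_univ, if_true]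

/-- The fixed points. -/
def fixed (τ : W →+ W) : AddSubgroup W := (τ - AddMonoidHom.id W).ker

theorem mem_fixed {τ : W →+ W} {w : W} : w ∈ fixed τ ↔ τ w = w := by
  rw [fixed, AddMonoidHom.mem_ker, AddMonoidHom.sub_apply, AddMonoidHom.id_apply, sub_eq_zero]

/-- The count. -/
theorem card_fixed_pow [Finite W] (τ : W →+ W) (σ : R → R)
    (hsemi : ∀ (a : R) (w : W), τ (a • w) = σ a • τ w)
    (hpow : ∀ (a : R) (n : ℕ), σ (a ^ n) = σ a ^ n)
    {m : ℕ} (hm : 0 < m) (hτ : ∀ w, τ^[m] w = w) (x : R) (hσ : σ^[m] x = x)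
    (hsep : ∀ i < m, ∀ k < m, i < k → ∀ w : W, (σ^[k] x - σ^[i] x) • w = 0 → w = 0) :
    Nat.card (fixed τ) ^ m = Nat.card W := by
  classical
  obtain ⟨m, rfl⟩ := Nat.exists_eq_succ_of_ne_zero hm.ne'
  let A : Matrix (Fin m.succ) (Fin m.succ) R := Matrix.vandermonde fun i => σ^[(i : ℕ)] x
  have hdet : ∀ w : W, A.det • w = 0 → w = 0 := by
    have h1 : ∀ s : Finset (Fin m.succ × Fin m.succ),
        (∀ p ∈ s, (p.1 : ℕ) < p.2) → ∀ w : W,
          (∏ p ∈ s, (σ^[(p.2 : ℕ)] x - σ^[(p.1 : ℕ)] x)) • w = 0 → w = 0 := by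
      intro s
      induction s using Finset.induction with
      | empty => intro _ w hw; rwa [Finset.prod_empty, one_smul] at hw
      | insert a t ha ih =>
        intro hlt w hw
        rw [Finset.prod_insert ha, ← smul_smul] at hw
        exact ih (fun p hp => hlt p (Finset.mem_insert_of_mem hp)) w
          (hsep _ a.1.2 _ a.2.2 (hlt a (Finset.mem_insert_self _ _)) _ hw)
    intro w hw
    refine h1 ((Finset.univ (α := Fin m.succ × Fin m.succ)).filter fun p => (p.1 : ℕ) < p.2)
      (fun p hp => (Finset.mem_filter.1 hp).2) w ?_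
    rw [Matrix.det_vandermonde] at hw
    rw [Finset.prod_filter, Fintype.prod_prod_type]
    convert hw using 2
    refine Finset.prod_congr rfl fun i _ => ?_
    rw [← Finset.prod_filter]
    refine Finset.prod_congr (Finset.ext fun j => ?_) fun j _ => rfl
    simp only [Finset.mem_filter, Finset.mem_univ, true_and, Finset.mem_Ioi, Fin.lt_def]
  have hkill : ∀ c : Fin m.succ → W, (∀ i, ∑ j, A i j • c j = 0) → c = 0 := fun c hc => funext fun k =>
    hdet _ (by rw [← sum_adj_smul A c k]; simp only [hc, smul_zero, Finset.sum_const_zero])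
  have hsum : ∀ (n : ℕ) (c : Fin m.succ → W),
      τ (∑ j : Fin m.succ, (σ^[n] x) ^ (j : ℕ) • c j) = ∑ j : Fin m.succ, (σ^[n + 1] x) ^ (j : ℕ) • τ (c j) := fun n c => by
    rw [map_sum]
    refine Finset.sum_congr rfl fun j _ => ?_
    rw [hsemi, hpow, Function.iterate_succ_apply']
  let Φ : (Fin m.succ → fixed τ) → W := fun c => ∑ j : Fin m.succ, x ^ (j : ℕ) • (c j : W)
  have hiter : ∀ (c : Fin m.succ → fixed τ) (n : ℕ),
      τ^[n] (Φ c) = ∑ j : Fin m.succ, (σ^[n] x) ^ (j : ℕ) • (c j : W) := by
    intro c n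
    induction n with
    | zero => rfl
    | succ n ih =>
      rw [Function.iterate_succ_apply', ih, hsum]
      exact Finset.sum_congr rfl fun j _ => by rw [mem_fixed.1 (c j).2]
  have hinj : Function.Injective Φ := fun c d h => by
    have h1 := hkill (fun j => (c j : W) - d j) fun i => by
      simp only [smul_sub, Finset.sum_sub_distrib, A, Matrix.vandermonde_apply]
      rw [← hiter c, ← hiter d, h, sub_self]
    exact funext fun j => Subtype.ext (sub_eq_zero.1 (congrFun h1 j))
  have hsurj : Function.Surjective Φ := fun w => by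
    let f : W → W := fun v => A.det • v
    have hf : Function.Surjective f := Finite.injective_iff_surjective.1 fun a b hab =>
      sub_eq_zero.1 (hdet _ (by rw [smul_sub]; exact sub_eq_zero.2 hab))
    choose c hc using fun k => hf (∑ i, A.adjugate k i • τ^[(i : ℕ)] w)
    have heq : ∀ i : Fin m.succ, ∑ j, A i j • c j = τ^[(i : ℕ)] w := fun i => by
      refine sub_eq_zero.1 (hdet _ ?_)
      rw [smul_sub, sub_eq_zero, ← sum_smul_adj A (fun i => τ^[(i : ℕ)] w) i, Finset.smul_sum]
      refine Finset.sum_congr rfl fun j _ => ?_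
      rw [smul_comm, show A.det • c j = f (c j) from rfl, hc]
    have hfix : (fun j => τ (c j) - c j) = 0 := hkill _ fun i => by
      simp only [smul_sub, Finset.sum_sub_distrib]
      rw [sub_eq_zero, heq i]
      obtain ⟨i, hi⟩ := i
      cases i with
      | zero =>
        have h1 := congrArg τ (heq ⟨m, Nat.lt_succ_self m⟩)
        simp only [A, Matrix.vandermonde_apply] at h1 ⊢
        rw [hsum, hσ, ← Function.iterate_succ_apply' (⇑τ), hτ] at h1
        exact h1
      | succ i =>
        have h1 := congrArg τ (heq ⟨i, Nat.lt_of_succ_lt hi⟩)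
        simp only [A, Matrix.vandermonde_apply] at h1 ⊢
        rw [hsum, ← Function.iterate_succ_apply' (⇑τ)] at h1
        exact h1
    refine ⟨fun j => ⟨c j, mem_fixed.2 (sub_eq_zero.1 (congrFun hfix j))⟩, ?_⟩
    have h1 := heq 0
    simp only [A, Matrix.vandermonde_apply, Fin.val_zero, Function.iterate_zero, id_eq] at h1
    exact h1
  rw [← Nat.card_congr (Equiv.ofBijective Φ ⟨hinj, hsurj⟩), Nat.card_fun, Nat.card_fin]

end CfsgLib.ZerosCodegree.FreeFix
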