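import Cfsg.Agent.Lib.BlockStar.Star

/-!
# The product of an irreducible character with a fusion-invariant generalized character

The scalars of `Lib.BlockStar` with a fusion-invariant generalized character of the defect group in
place of a linear one; the local sums are still generalized characters.
-/

set_option autoImplicit false
set_option linter.style.haveILetI false
set_option linter.unusedSectionVars false

noncomputable section

namespace CfsgLib.ZerosCodegree

open Cfsg CfsgLib.Blocks MonoidAlgebra CfsgLib.BrauerPairs CfsgLib.BlockStar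

section Scalars

variable {G : Type*} [Group G] {k : Type*} [Field k] {p : ℕ}

/-- A function on a subgroup, zero outside. -/
def funAt {P : Subgroup G} (lam : P → ℂ) (x : G) : ℂ := by
  classical exact if h : x ∈ P then lam ⟨x, h⟩ else 0

theorem funAt_of_mem {P : Subgroup G} (lam : P → ℂ) {x : G} (h : x ∈ P) :
    funAt lam x = lam ⟨x, h⟩ := by
  classical
  rw [funAt, dif_pos h]

/-- Invariance under the fusion of the pairs below `(P, e0)`. -/
def FunInv (p : ℕ) {P : Subgroup G} (e0 : MonoidAlgebra k G) (lam : P → ℂ) : Prop :=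
  ∀ u g : G, ∀ c : MonoidAlgebra k G, PairLE p (⊤ : Subgroup G) (Subgroup.zpowers u) c P e0 →
    PairLE p (⊤ : Subgroup G) (Subgroup.zpowers (g * u * g⁻¹)) (conjA g c) P e0 →
      funAt lam (g * u * g⁻¹) = funAt lam u

/-- The scalar at the pair of `u` and `c`. -/
def GLam (p : ℕ) {P : Subgroup G} (e0 : MonoidAlgebra k G) (lam : P → ℂ) (u : G)
    (c : MonoidAlgebra k G) : ℂ := by
  classical exact
    if h : ∃ g : G, PairLE p (⊤ : Subgroup G) (Subgroup.zpowers (g * u * g⁻¹)) (conjA g c) P e0
    then funAt lam (h.choose * u * h.choose⁻¹) else 0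

theorem GLam_eq {P : Subgroup G} {e0 : MonoidAlgebra k G} {lam : P → ℂ} (hlam : FunInv p e0 lam)
    {u x : G} {c : MonoidAlgebra k G}
    (hx : PairLE p (⊤ : Subgroup G) (Subgroup.zpowers (x * u * x⁻¹)) (conjA x c) P e0) :
    GLam p e0 lam u c = funAt lam (x * u * x⁻¹) := by
  classical
  have h : ∃ g : G, PairLE p (⊤ : Subgroup G) (Subgroup.zpowers (g * u * g⁻¹)) (conjA g c) P e0 :=
    ⟨x, hx⟩
  rw [GLam, dif_pos h]
  have key := hlam (x * u * x⁻¹) (h.choose * x⁻¹) (conjA x c) hx
  have e : h.choose * x⁻¹ * (x * u * x⁻¹) * (h.choose * x⁻¹)⁻¹ = h.choose * u * h.choose⁻¹ := by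
    group
  rw [e, ← conjA_mul, inv_mul_cancel_right] at key
  exact key h.choose_spec

theorem GLam_eq_zero {P : Subgroup G} {e0 : MonoidAlgebra k G} {lam : P → ℂ} {u : G}
    {c : MonoidAlgebra k G}
    (h : ∀ g : G, ¬ PairLE p (⊤ : Subgroup G) (Subgroup.zpowers (g * u * g⁻¹)) (conjA g c) P e0) :
    GLam p e0 lam u c = 0 := by
  classical
  rw [GLam, dif_neg fun ⟨g, hg⟩ => h g hg]

theorem GLam_conj {P : Subgroup G} {e0 : MonoidAlgebra k G} {lam : P → ℂ} (hlam : FunInv p e0 lam)
    (h u : G) (c : MonoidAlgebra k G) :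
    GLam p e0 lam (h * u * h⁻¹) (conjA h c) = GLam p e0 lam u c := by
  by_cases hc : ∃ g : G,
      PairLE p (⊤ : Subgroup G) (Subgroup.zpowers (g * u * g⁻¹)) (conjA g c) P e0
  · obtain ⟨g, hg⟩ := hc
    rw [GLam_eq hlam hg, GLam_eq hlam (x := g * h⁻¹) (u := h * u * h⁻¹) (c := conjA h c)]
    · congr 1; group
    · rw [← conjA_mul, inv_mul_cancel_right,
        show g * h⁻¹ * (h * u * h⁻¹) * (g * h⁻¹)⁻¹ = g * u * g⁻¹ by group]
      exact hg
  · rw [GLam_eq_zero fun g hg => hc ⟨g, hg⟩, GLam_eq_zero fun g hg => hc ⟨g * h, ?_⟩]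
    rw [← conjA_mul, show g * (h * u * h⁻¹) * g⁻¹ = g * h * u * (g * h)⁻¹ by group] at hg
    exact hg

variable [Finite G] [Fact p.Prime] [CharP k p] {b : MonoidAlgebra k G} {P : Subgroup G}
  {e0 : MonoidAlgebra k G}

theorem GLam_eq_zero_of_not_pairOf (hb : IsBlockIdem (⊤ : Subgroup G) b)
    (hmax : IsMaxPair p (⊤ : Subgroup G) b P e0) (lam : P → ℂ) {u : G} {c : MonoidAlgebra k G}
    (h : ¬ PairOf p (⊤ : Subgroup G) b (Subgroup.zpowers u) c) : GLam p e0 lam u c = 0 :=
  GLam_eq_zero fun g hg => h ((BlockStar.exists_conj_iff hb hmax).1 ⟨g, hg⟩)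

end Scalars

variable {G : Type*} [Group G] [Fintype G] {M : Ideal AlgInt} [M.IsPrime] {p : ℕ} [Fact p.Prime]

/-- The local sum at `g`. -/
def GHval (p : ℕ) [Fact p.Prime] (χ : IrrCharacter G) {P : Subgroup G}
    (e0 : MonoidAlgebra (Res M) G) (lam : P → ℂ) (ε : MonoidAlgebra (Res M) G) (g : G) : ℂ :=
  ∑ c ∈ blockIdems (Res M) (cenIn (⊤ : Subgroup G) (Subgroup.zpowers (ppart p g))),
    GLam p e0 lam (ppart p g) c * val χ g (brau (Subgroup.zpowers (ppart p g)) ε * c)

variable (χ : IrrCharacter G) {P : Subgroup G} {e0 : MonoidAlgebra (Res M) G} {lam : P → ℂ}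

theorem GHval_add (hM : IsPModular p M) {g : G} {ε ε' : MonoidAlgebra (Res M) G}
    (hε : ε * ε = ε) (hε' : ε' * ε' = ε') (hg : Commute (single g 1) ε)
    (hg' : Commute (single g 1) ε') (h : ε * ε' = 0) (h' : ε' * ε = 0) :
    GHval p χ e0 lam (ε + ε') g = GHval p χ e0 lam ε g + GHval p χ e0 lam ε' g := by
  haveI := charP_res hM
  rw [GHval, GHval, GHval, ← Finset.sum_add_distrib]
  refine Finset.sum_congr rfl fun c hc => ?_
  have hc' := mem_blockIdems.1 hc
  obtain ⟨a1, a2⟩ := isIdem_brau_mul hM hε hg hc'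
  obtain ⟨b1, b2⟩ := isIdem_brau_mul hM hε' hg' hc'
  have hS := isPGroup_zpowers_of_isPPart (ppart_spec (p := p) g)
  have hfix := fun {x : MonoidAlgebra (Res M) G} (hx : Commute (single g 1) x) =>
    fixedBy_anti (zpowers_le_of_isPPart (ppart_spec (p := p) g)) (mem_fixedBy_zpowers_iff.2 hx)
  have hz : ∀ {x y : MonoidAlgebra (Res M) G}, Commute (single g 1) x → Commute (single g 1) y →
      x * y = 0 → brau (Subgroup.zpowers (ppart p g)) x * c *
        (brau (Subgroup.zpowers (ppart p g)) y * c) = 0 := by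
    intro x y hx hy hxy
    rw [mul_assoc, ← mul_assoc c, (commute_block hc' y).2.eq, mul_assoc _ c c, hc'.mul_self,
      ← mul_assoc, ← trunc_centralizer_mul hS (hfix hx) (hfix hy), hxy, map_zero, zero_mul]
  rw [map_add, add_mul, val_add χ a1 b1 a2 b2 (hz hg hg' h) (hz hg' hg h'), mul_add]

theorem GHval_zero (g : G) : GHval p χ e0 lam (0 : MonoidAlgebra (Res M) G) g = 0 :=
  Finset.sum_eq_zero fun c _ => by rw [map_zero, zero_mul, val_zero, mul_zero]

theorem GHval_sum (hM : IsPModular p M) {ι : Type*} (s : Finset ι)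
    (f : ι → MonoidAlgebra (Res M) G) {g : G} (hf : ∀ i ∈ s, f i * f i = f i)
    (hg : ∀ i ∈ s, Commute (single g 1) (f i))
    (horth : ∀ i ∈ s, ∀ j ∈ s, i ≠ j → f i * f j = 0) :
    GHval p χ e0 lam (∑ i ∈ s, f i) g = ∑ i ∈ s, GHval p χ e0 lam (f i) g := by
  classical
  induction s using Finset.induction_on with
  | empty => simp [GHval_zero]
  | insert a t hat ih =>
    rw [Finset.sum_insert hat, Finset.sum_insert hat,
      ← ih (fun i hi => hf i (Finset.mem_insert_of_mem hi))
        (fun i hi => hg i (Finset.mem_insert_of_mem hi))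
        (fun i hi j hj => horth i (Finset.mem_insert_of_mem hi) j (Finset.mem_insert_of_mem hj))]
    have ha := Finset.mem_insert_self a t
    refine GHval_add χ hM (hf a ha) ?_ (hg a ha)
      (Commute.sum_right _ _ _ fun i hi => hg i (Finset.mem_insert_of_mem hi)) ?_ ?_
    · rw [Finset.sum_mul]
      refine Finset.sum_congr rfl fun i hi => ?_
      rw [Finset.mul_sum, Finset.sum_eq_single i]
      · exact hf i (Finset.mem_insert_of_mem hi)
      · exact fun j hj hji =>
          horth i (Finset.mem_insert_of_mem hi) j (Finset.mem_insert_of_mem hj) hji.symm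
      · exact fun h => absurd hi h
    · rw [Finset.mul_sum]
      exact Finset.sum_eq_zero fun i hi =>
        horth a ha i (Finset.mem_insert_of_mem hi) fun e => hat (e ▸ hi)
    · rw [Finset.sum_mul]
      exact Finset.sum_eq_zero fun i hi =>
        horth i (Finset.mem_insert_of_mem hi) a ha fun e => hat (e ▸ hi)

theorem GHval_conj (hM : IsPModular p M) (hlam : FunInv p e0 lam) (h g : G)
    {ε : MonoidAlgebra (Res M) G} (hε : ε * ε = ε) (hg : Commute (single g 1) ε) :
    GHval p χ e0 lam (conjA h ε) (h * g * h⁻¹) = GHval p χ e0 lam ε g := by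
  have hcen : cenIn (⊤ : Subgroup G) (Subgroup.zpowers (ppart p (h * g * h⁻¹))) =
      cj h (cenIn (⊤ : Subgroup G) (Subgroup.zpowers (ppart p g))) := by
    rw [cj_cenIn (Subgroup.mem_top h), cj_zpowers, ppart_conj]
  rw [GHval, GHval, hcen]
  refine Finset.sum_bij' (fun c _ => conjA h⁻¹ c) (fun c _ => conjA h c) ?_ ?_ ?_ ?_ ?_
  · intro c hc
    have := (mem_blockIdems.1 hc).conj_cj h⁻¹
    rw [← cj_mul, inv_mul_cancel, cj_one] at this
    exact mem_blockIdems.2 this
  · intro c hc
    exact mem_blockIdems.2 ((mem_blockIdems.1 hc).conj_cj h)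
  · intro c _; rw [← conjA_mul, mul_inv_cancel, conjA_one]
  · intro c _; rw [← conjA_mul, inv_mul_cancel, conjA_one]
  · intro c hc
    have hc' : IsBlockIdem (cenIn (⊤ : Subgroup G) (Subgroup.zpowers (ppart p g))) (conjA h⁻¹ c) := by
      have := (mem_blockIdems.1 hc).conj_cj h⁻¹
      rwa [← cj_mul, inv_mul_cancel, cj_one] at this
    obtain ⟨h1, h2⟩ := isIdem_brau_mul hM hε hg hc'
    conv_lhs => rw [show c = conjA h (conjA h⁻¹ c) by rw [← conjA_mul, mul_inv_cancel, conjA_one]]
    rw [ppart_conj, GLam_conj hlam, ← cj_zpowers, brau_cj, ← map_mul, val_conj χ h h1 h2]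

variable {B : Set (IrrCharacter G)}

/-- On a subgroup fixing an idempotent the local sum is a generalized character. -/
theorem isGeneralizedCharacter_GHval (hM : IsPModular p M) (hB : IsPBlock M B)
    (hmax : IsMaxPair p (⊤ : Subgroup G) (redElem M (blockCoeff B)) P e0)
    (hgc : IsGeneralizedCharacter P lam) (hlam : FunInv p e0 lam) :
    ∀ (n : ℕ) (T R : Subgroup G), Nat.card T = n → IsPGroup p T →
      R ≤ Subgroup.centralizer (T : Set G) → ¬ p ∣ Nat.card R →
      ∀ ε ∈ fixedBy (Res M) (T ⊔ R), ε * ε = ε →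
        IsGeneralizedCharacter ↥(T ⊔ R) (fun g : ↥(T ⊔ R) => GHval p χ e0 lam ε (g : G)) := by
  classical
  haveI := charP_res hM
  haveI : M.IsMaximal := hM.2.1
  haveI : IsAlgClosed (Res M) := isAlgClosed_res
  have hb := isBlockIdem_redElem_blockCoeff (M := M) hB
  intro n
  induction n using Nat.strong_induction_on with
  | _ n ih =>
  intro T R hn hT hRT hR ε hε hεε
  have hR0 : (Nat.card R : Res M) ≠ 0 := fun h => hR ((CharP.cast_eq_zero_iff (Res M) p _).1 h)
  have hcomm : ∀ {x : MonoidAlgebra (Res M) G}, x ∈ fixedBy (Res M) (T ⊔ R) →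
      ∀ g : ↥(T ⊔ R), Commute (single (g : G) (1 : Res M)) x :=
    fun hx g => mem_fixedBy_iff_commute.1 hx g g.2
  refine idem_induction (k := Res M) (T ⊔ R)
    (P := fun x => IsGeneralizedCharacter ↥(T ⊔ R) (fun g : ↥(T ⊔ R) => GHval p χ e0 lam x (g : G)))
    ?_ (fun i hi => ?_) (fun e f he hf hee hff hef hfe hPe hPf => ?_) hε hεε
  · simp only [GHval_zero]
    exact CfsgLib.Coherence.isGeneralizedCharacter_zero
  · by_cases hbr : brau T i = 0
    · -- induced from a subgroup of index `p`
      obtain ⟨S, hST, hSn, hlt, σ, hσ, hbij, j, hj, hjj, htr, horth⟩ :=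
        exists_induced hT hRT hR0 hi hbr
      obtain ⟨hjS, hjR⟩ := mem_fixedBy_sup.1 hj
      have hiT := (mem_fixedBy_sup.1 hi.1).1
      have hRS : R ≤ Subgroup.centralizer (S : Set G) := hRT.trans (Subgroup.centralizer_le hST)
      have hθ := ih _ (hn ▸ hlt) S R rfl (hT.to_le hST) hRS hR j hj hjj
      set H := T ⊔ R
      have hKH : S ⊔ R ≤ H := sup_le_sup_right hST R
      have hNS := le_normalizer_of_subgroupOf_normal hST hSn
      have hnorm : ∀ x ∈ H, ∀ y ∈ S ⊔ R, x⁻¹ * y * x ∈ S ⊔ R := by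
        intro x hx y hy
        obtain ⟨t, ht, r, hr, rfl⟩ := exists_mul_of_mem_sup hRT hx
        obtain ⟨s, hs, r', hr', rfl⟩ := exists_mul_of_mem_sup hRS hy
        have h1 : t⁻¹ * s * t ∈ S := (Subgroup.mem_normalizer_iff''.1 (hNS ht) s).1 hs
        have h2 : r' * t = t * r' := (Subgroup.mem_centralizer_iff.1 (hRT hr') t ht).symm
        rw [show (t * r)⁻¹ * (s * r') * (t * r) = r⁻¹ * (t⁻¹ * s * t) * (t⁻¹ * (r' * t)) * r by
          group, h2, show r⁻¹ * (t⁻¹ * s * t) * (t⁻¹ * (t * r')) * r =
            r⁻¹ * (t⁻¹ * s * t) * r' * r by group]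
        exact mul_mem (mul_mem (mul_mem (Subgroup.mem_sup_right (R.inv_mem hr))
          (Subgroup.mem_sup_left h1)) (Subgroup.mem_sup_right hr')) (Subgroup.mem_sup_right hr)
      set K := (S ⊔ R).subgroupOf H with hK
      let θ : K → ℂ := fun x => GHval p χ e0 lam j ((x : H) : G)
      have hθ' : IsGeneralizedCharacter K θ :=
        CfsgLib.Coherence.isGeneralizedCharacter_comp hθ
          (Subgroup.subgroupOfEquivOfLe hKH).toMonoidHom
      suffices heq : (fun g : H => GHval p χ e0 lam i (g : G)) = indFun K θ by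
        show IsGeneralizedCharacter H (fun g : H => GHval p χ e0 lam i (g : G))
        rw [heq]
        exact CfsgLib.Frobenius.isGeneralizedCharacter_indFun K θ hθ'
      funext g
      have hiSum : i = ∑ l : Fin p, conjA (σ ^ (l : ℕ)) j := by
        rw [← htr, relTr_eq_sum hjS _ hbij]
      by_cases hgK : (g : G) ∈ S ⊔ R
      · -- a bijection with the product
        have hbij' : Function.Bijective (fun x : Fin p × K =>
            (⟨σ ^ (x.1 : ℕ), Subgroup.mem_sup_left (pow_mem hσ _)⟩ : H) * (x.2 : H)) := by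
          refine ⟨?_, fun y => ?_⟩
          · rintro ⟨a, κ⟩ ⟨a', κ'⟩ h
            have h' := congrArg Subtype.val h
            simp only [Subgroup.coe_mul] at h'
            have hmem : (σ ^ (a : ℕ))⁻¹ * σ ^ (a' : ℕ) ∈ S := by
              refine mem_left_of_mem_sup hT hRT hR (T.mul_mem (T.inv_mem (pow_mem hσ _))
                (pow_mem hσ _)) hST ?_
              have h2 : (σ ^ (a : ℕ))⁻¹ * σ ^ (a' : ℕ) = ((κ : H) : G) * (((κ' : H) : G))⁻¹ := by
                rw [eq_mul_inv_iff_mul_eq, mul_assoc, ← h', inv_mul_cancel_left]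
              rw [h2]
              exact mul_mem (Subgroup.mem_subgroupOf.1 κ.2)
                (inv_mem (Subgroup.mem_subgroupOf.1 κ'.2))
            have ha : a = a' := hbij.1 (QuotientGroup.eq.2 (Subgroup.mem_subgroupOf.2 hmem))
            subst ha
            exact Prod.ext rfl (Subtype.ext (Subtype.ext (mul_left_cancel h')))
          · obtain ⟨t, ht, r, hr, hy⟩ := exists_mul_of_mem_sup hRT y.2
            obtain ⟨l, hl⟩ := hbij.2 (QuotientGroup.mk ⟨t, ht⟩)
            have hl' := Subgroup.mem_subgroupOf.1 (QuotientGroup.eq.1 hl)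
            simp only [Subgroup.coe_mul, Subgroup.coe_inv] at hl'
            refine ⟨(l, ⟨(⟨σ ^ (l : ℕ), Subgroup.mem_sup_left (pow_mem hσ _)⟩ : H)⁻¹ * y,
              Subgroup.mem_subgroupOf.2 ?_⟩), mul_inv_cancel_left _ _⟩
            simp only [Subgroup.coe_mul, Subgroup.coe_inv, hy, ← mul_assoc]
            exact mul_mem (Subgroup.mem_sup_left hl') (Subgroup.mem_sup_right hr)
        have hterm : ∀ x : Fin p × K,
            extendByZero K θ (((⟨σ ^ (x.1 : ℕ), Subgroup.mem_sup_left (pow_mem hσ _)⟩ : H) *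
              (x.2 : H))⁻¹ * g * ((⟨σ ^ (x.1 : ℕ), Subgroup.mem_sup_left (pow_mem hσ _)⟩ : H) *
              (x.2 : H))) = GHval p χ e0 lam (conjA (σ ^ (x.1 : ℕ)) j) (g : G) := by
          intro x
          set y : H := (⟨σ ^ (x.1 : ℕ), Subgroup.mem_sup_left (pow_mem hσ _)⟩ : H) * (x.2 : H)
            with hy
          have hmem : (y : G)⁻¹ * g * y ∈ S ⊔ R := hnorm y y.2 g hgK
          have hyj : conjA (y : G) j = conjA (σ ^ (x.1 : ℕ)) j := by
            rw [hy, Subgroup.coe_mul, conjA_mul, hj _ (Subgroup.mem_subgroupOf.1 x.2.2)]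
          have h1 := GHval_conj χ hM hlam (y : G) ((y : G)⁻¹ * g * y) hjj
            (mem_fixedBy_iff_commute.1 hj _ hmem)
          rw [hyj, show (y : G) * ((y : G)⁻¹ * g * y) * (y : G)⁻¹ = g by group] at h1
          rw [CfsgLib.Frobenius.extendByZero_of_mem K θ
            (show y⁻¹ * g * y ∈ K from Subgroup.mem_subgroupOf.2 hmem)]
          exact h1.symm
        rw [indFun, ← hbij'.sum_comp (fun y => extendByZero K θ (y⁻¹ * g * y)),
          Finset.sum_congr rfl fun x _ => hterm x, Fintype.sum_prod_type]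
        simp only [Finset.sum_const, Finset.card_univ, nsmul_eq_mul, ← Finset.mul_sum,
          ← Nat.card_eq_fintype_card]
        rw [← mul_assoc, inv_mul_cancel₀ (Nat.cast_ne_zero.2 Nat.card_pos.ne'), one_mul]
        conv_lhs => rw [hiSum]
        refine GHval_sum χ hM _ _ (fun l _ => by rw [← map_mul, hjj]) (fun l _ => ?_)
          (fun a _ b _ hab => horth a b hab)
        refine commute_single_iff.2 ?_
        have hm := hnorm (σ ^ (l : ℕ)) (Subgroup.mem_sup_left (pow_mem hσ _)) g hgK
        have h3 := hj _ hm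
        calc conjA (g : G) (conjA (σ ^ (l : ℕ)) j)
            = conjA (σ ^ (l : ℕ) * ((σ ^ (l : ℕ))⁻¹ * g * σ ^ (l : ℕ))) j := by
              rw [← conjA_mul]; congr 1; group
          _ = conjA (σ ^ (l : ℕ)) j := by rw [conjA_mul, h3]
      · rw [indFun, Finset.sum_eq_zero fun x _ => ?_, mul_zero]
        · refine Finset.sum_eq_zero fun c _ => ?_
          rw [← htr]
          suffices h0 : brau (Subgroup.zpowers (ppart p (g : G))) (relTr S T j) = 0 by
            rw [h0, zero_mul, val_zero, mul_zero]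
          by_contra hne
          obtain ⟨t, ht, hts⟩ := exists_conj_le_of_brau_relTr_ne_zero
            (isPGroup_zpowers_of_isPPart (ppart_spec (p := p) (g : G)))
            (Subgroup.zpowers_le.2 (ppart_mem hT hRT hR g.2)) hjS hne
          apply hgK
          have h1 : ppart p (g : G) ∈ S := by
            have h2 := hts _ (Subgroup.mem_zpowers (ppart p (g : G)))
            exact (Subgroup.mem_normalizer_iff''.1 (hNS ht) _).2 h2
          obtain ⟨t', ht', r, hr, hgtr⟩ := exists_mul_of_mem_sup hRT g.2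
          rw [hgtr, ppart_mul hT hRT hR ht' hr] at h1
          rw [hgtr]
          exact mul_mem (Subgroup.mem_sup_left h1) (Subgroup.mem_sup_right hr)
        · refine CfsgLib.Frobenius.extendByZero_of_not_mem K θ ?_
          intro hx
          apply hgK
          have h1 := hnorm ((x : G)⁻¹) (H.inv_mem x.2) _ (Subgroup.mem_subgroupOf.1 hx)
          simpa [mul_assoc] using h1
    · -- the Brauer map does not kill `i`
      obtain ⟨b, hpair, hsub⟩ := exists_pair_of_prim hT hRT hR0 hi hbr
      have hprod : ∀ g : ↥(T ⊔ R), ∀ c0, PairLE p (⊤ : Subgroup G)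
          (Subgroup.zpowers (ppart p (g : G))) c0 T b →
          GHval p χ e0 lam i (g : G) = GLam p e0 lam (ppart p (g : G)) c0 * val χ (g : G) i := by
        intro g c0 hc0
        set u := ppart p (g : G) with hu
        have huT : Subgroup.zpowers u ≤ T := Subgroup.zpowers_le.2 (ppart_mem hT hRT hR g.2)
        have hc0b : IsBlockIdem (cenIn (⊤ : Subgroup G) (Subgroup.zpowers u)) c0 :=
          (hc0.isPair_left hpair).2.2
        have hzero : ∀ c, IsBlockIdem (cenIn (⊤ : Subgroup G) (Subgroup.zpowers u)) c → c ≠ c0 →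
            brau (Subgroup.zpowers u) i * c = 0 := fun c hc hne => by_contra fun h =>
          hne ((existsUnique_pairLE hpair huT).unique (hsub _ huT c hc h) hc0)
        have hsum : brau (Subgroup.zpowers u) i * c0 = brau (Subgroup.zpowers u) i := by
          conv_rhs => rw [← mul_one (brau (Subgroup.zpowers u) i),
            ← sum_blockIdems (k := Res M) (cenIn (⊤ : Subgroup G) (Subgroup.zpowers u)),
            Finset.mul_sum, Finset.sum_eq_single_of_mem c0 (mem_blockIdems.2 hc0b)
              (fun c hc hne => hzero c (mem_blockIdems.1 hc) hne)]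
        rw [GHval, ← hu, Finset.sum_eq_single_of_mem c0 (mem_blockIdems.2 hc0b) (fun c hc hne => by
          rw [hzero c (mem_blockIdems.1 hc) hne, val_zero, mul_zero]), hsum,
          ← val_brau χ hM (ppart_spec (g : G)) hi.2.1 (hcomm hi.1 g)]
      obtain ⟨E, hE, hEm, hEc⟩ := exists_lift_idem hi.2.1
      obtain ⟨n, ρ, hρ, hχρ⟩ := χ.2
      have hchar : IsCharacter ↥(T ⊔ R) (fun g : ↥(T ⊔ R) => val χ (g : G) i) := by
        let π : Representation ℂ ↥(T ⊔ R) (Fin n → ℂ) := ρ.comp (T ⊔ R).subtype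
        let Q : Module.End ℂ (Fin n → ℂ) := ρ.asAlgebraHom (mapRingHom G (locRing M).subtype E)
        have hc : ∀ g : ↥(T ⊔ R), ρ.asAlgebraHom (mapRingHom G (locRing M).subtype
            (single (g : G) 1)) = π g := fun g => by
          rw [mapRingHom_single, map_one, Representation.asAlgebraHom_single, one_smul]; rfl
        have h := CfsgLib.Correspondences.isCharacter_idem π Q
          (by simp only [Q]; rw [← map_mul, ← map_mul, hE]) (fun g => by
            simp only [Q]
            rw [← hc, ← map_mul, ← map_mul, ← map_mul, ← map_mul, (hEc _ (hcomm hi.1 g)).eq])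
        convert h using 1
        funext g
        rw [val_eq χ hE hEm (hEc _ (hcomm hi.1 g)), chiSum_eq_trace χ ρ hχρ]
        simp only [Q]
        rw [← hc, ← map_mul, ← map_mul]
      by_cases hBpair : ∃ x : G, PairLE p (⊤ : Subgroup G) (cj x T) (conjA x b) P e0
      · obtain ⟨x, hx⟩ := hBpair
        have hxP : ∀ g : ↥(T ⊔ R), x * ppart p (g : G) * x⁻¹ ∈ P := fun g =>
          hx.le (mem_cj.2 (by simpa [mul_assoc] using ppart_mem hT hRT hR g.2))
        let μ : ↥(T ⊔ R) →* P :=
          { toFun := fun g => ⟨_, hxP g⟩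
            map_one' := Subtype.ext (by simp [ppart_one])
            map_mul' := fun g g' => by
              refine Subtype.ext ?_
              simp only [Subgroup.coe_mul]
              rw [ppart_mul_mul hT hRT hR g.2 g'.2]
              group }
        have heq : (fun g : ↥(T ⊔ R) => GHval p χ e0 lam i (g : G)) =
            fun g : ↥(T ⊔ R) => lam (μ g) * val χ (g : G) i := by
          funext g
          have huT : Subgroup.zpowers (ppart p (g : G)) ≤ T :=
            Subgroup.zpowers_le.2 (ppart_mem hT hRT hR g.2)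
          obtain ⟨c0, hc0⟩ := exists_pairLE hpair huT
          have h1 := (hc0.conj (c := x) (Subgroup.mem_top x)).trans hx
          rw [cj_zpowers] at h1
          rw [hprod g c0 hc0, GLam_eq hlam h1, funAt_of_mem _ (hxP g)]
          rfl
        show IsGeneralizedCharacter ↥(T ⊔ R) (fun g : ↥(T ⊔ R) => GHval p χ e0 lam i (g : G))
        rw [heq]
        exact CfsgLib.Brauer.isGeneralizedCharacter_mul
          (CfsgLib.Coherence.isGeneralizedCharacter_comp hgc μ)
          (CfsgLib.Brauer.isGeneralizedCharacter_of_isCharacter hchar)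
      · have heq : (fun g : ↥(T ⊔ R) => GHval p χ e0 lam i (g : G)) = 0 := by
          funext g
          have huT : Subgroup.zpowers (ppart p (g : G)) ≤ T :=
            Subgroup.zpowers_le.2 (ppart_mem hT hRT hR g.2)
          obtain ⟨c0, hc0⟩ := exists_pairLE hpair huT
          rw [hprod g c0 hc0, GLam_eq_zero_of_not_pairOf hb hmax lam (fun hpo => hBpair ?_),
            zero_mul]
          · rfl
          · obtain ⟨x, -, hx⟩ := ((hc0.pairOf_iff hb).1 hpo).exists_conj_le hb hmax
            exact ⟨x, hx⟩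
        show IsGeneralizedCharacter ↥(T ⊔ R) (fun g : ↥(T ⊔ R) => GHval p χ e0 lam i (g : G))
        rw [heq]
        exact CfsgLib.Coherence.isGeneralizedCharacter_zero
  · have heq : (fun g : ↥(T ⊔ R) => GHval p χ e0 lam (e + f) (g : G)) =
        (fun g : ↥(T ⊔ R) => GHval p χ e0 lam e (g : G)) +
          fun g : ↥(T ⊔ R) => GHval p χ e0 lam f (g : G) :=
      funext fun g => GHval_add χ hM hee hff (hcomm he g) (hcomm hf g) hef hfe
    show IsGeneralizedCharacter ↥(T ⊔ R) (fun g : ↥(T ⊔ R) => GHval p χ e0 lam (e + f) (g : G))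
    rw [heq]
    exact CfsgLib.Coherence.isGeneralizedCharacter_add hPe hPf

end CfsgLib.ZerosCodegree
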