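import Cfsg.Agent.Lib.ZerosCodegree.GenStar
import Cfsg.Agent.Lib.BlockSections.AbelianCount

/-!
# The inner products of the products of characters with generalized characters of an abelian defect
group

For a maximal pair `(P, e)` with abelian `P` and stabiliser `T` the inner products are sums over `P`
of the contributions of the subsections `(u, e_u)`, weighted by `|T ∩ C(u)| / |T|`.
-/

set_option autoImplicit false
set_option linter.style.haveILetI false
set_option linter.unusedSectionVars false

noncomputable section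

open scoped ComplexConjugate

namespace CfsgLib.ZerosCodegree

open Cfsg CfsgLib.Blocks MonoidAlgebra CfsgLib.BrauerPairs CfsgLib.BlockStar
open CfsgLib.BrauerCharacters (cenElem commute_cenElem blockFinset mem_blockFinset contrib secPart)
open CfsgLib.CharTheory (classInner_irrCharacter eq_sum_classInner exists_classInner_eq_int)

variable {G : Type*} [Group G] [Fintype G] {M : Ideal AlgInt} [M.IsPrime] {p : ℕ} [hp : Fact p.Prime]

/-- The product of a character with a function on the defect group. -/
def genStar (p : ℕ) [Fact p.Prime] (χ : IrrCharacter G) {P : Subgroup G}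
    (e0 : MonoidAlgebra (Res M) G) (η : P → ℂ) (g : G) : ℂ :=
  ∑ c ∈ blocksAt M (ppart p g), GLam p e0 η (ppart p g) c * val χ g c

/-- The sum over the section of `y` of the products of the block parts. -/
def secSum (p : ℕ) [Fact p.Prime] (y : G) (c : MonoidAlgebra (Res M) G) (χ ψ : IrrCharacter G) : ℂ :=
  ∑ g ∈ secSet p y, val χ g c * conj (val ψ g c)

/-- The `p`-elements. -/
def pElems (p : ℕ) (G : Type*) [Group G] [Fintype G] : Finset G := by
  classical exact Finset.univ.filter fun y => ∃ k : ℕ, orderOf y = p ^ k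

omit hp in
theorem mem_pElems {y : G} : y ∈ pElems p G ↔ ∃ k : ℕ, orderOf y = p ^ k := by
  classical simp [pElems]

theorem ppart_of_mem_secSet {y g : G} (hg : g ∈ secSet p y) : ppart p g = y :=
  ppart_eq (mem_secSet.1 hg)

omit hp in
theorem single_commute_of_mem_secSet [Fact p.Prime] {y g : G} (hg : g ∈ secSet p y)
    {c : MonoidAlgebra (Res M) G} (hc : c ∈ blocksAt M y) : Commute (single g (1 : Res M)) c := by
  have h := mem_blockIdems.1 hc
  rw [← ppart_of_mem_secSet hg] at h
  exact (commute_block h 0).1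

theorem blocksAt_conj (h y : G) {c : MonoidAlgebra (Res M) G} (hc : c ∈ blocksAt M y) :
    conjA h c ∈ blocksAt M (h * y * h⁻¹) := by
  refine mem_blockIdems.2 ?_
  have := (mem_blockIdems.1 hc).conj_cj h
  rwa [cj_cenIn (Subgroup.mem_top h), BlockStar.cj_zpowers] at this

/-- Conjugation invariance. -/
theorem secSum_conj (h y : G) {c : MonoidAlgebra (Res M) G} (hc : c ∈ blocksAt M y)
    (χ ψ : IrrCharacter G) :
    secSum p (h * y * h⁻¹) (conjA h c) χ ψ = secSum p y c χ ψ := by
  refine (Finset.sum_bij' (fun g _ => h * g * h⁻¹) (fun g _ => h⁻¹ * g * h) ?_ ?_ ?_ ?_ ?_).symm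
  · intro g hg; exact mem_secSet.2 (IsPPart.conj (mem_secSet.1 hg) h)
  · intro g hg
    have := IsPPart.conj (mem_secSet.1 hg) h⁻¹
    rw [inv_inv, show h⁻¹ * (h * y * h⁻¹) * h = y by group] at this
    exact mem_secSet.2 this
  · intro g _; group
  · intro g _; group
  · intro g hg
    have hcc := (mem_blockIdems.1 hc).mul_self
    have hcomm := single_commute_of_mem_secSet hg hc
    rw [val_conj χ h hcc hcomm, val_conj ψ h hcc hcomm]

theorem conj_secSum (y : G) (c : MonoidAlgebra (Res M) G) (χ ψ : IrrCharacter G) :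
    conj (secSum p y c χ ψ) = secSum p y c ψ χ := by
  simp only [secSum, map_sum, map_mul, Complex.conj_conj]
  exact Finset.sum_congr rfl fun g _ => mul_comm _ _

/-- Parts of different blocks are orthogonal on a section. -/
theorem sum_val_mul_conj_eq_zero (hM : IsPModular p M) {y : G} (hy : ∃ k : ℕ, orderOf y = p ^ k)
    {c c' : MonoidAlgebra (Res M) G} (hc : c ∈ blocksAt M y) (hc' : c' ∈ blocksAt M y) (hne : c ≠ c')
    (χ ψ : IrrCharacter G) : ∑ g ∈ secSet p y, val χ g c * conj (val ψ g c') = 0 := by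
  haveI := charP_res hM
  haveI : M.IsMaximal := hM.2.1
  haveI : IsAlgClosed (Res M) := isAlgClosed_res
  haveI : Fintype (Subgroup.centralizer ({y} : Set G)) := Fintype.ofFinite _
  have h1 := mem_blockIdems.1 hc
  have h2 := mem_blockIdems.1 hc'
  rw [BlockStar.cenIn_zpowers] at h1 h2
  obtain ⟨b, hb, rfl⟩ := exists_isPBlock_subIdem h1
  obtain ⟨b', hb', rfl⟩ := exists_isPBlock_subIdem h2
  rw [sum_secSet_eq rfl hy (yC := cenElem y) rfl]
  refine Eq.trans ?_ (sum_subFun_mul_conj_eq_zero hM (commute_cenElem y) hb hb'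
    (fun e => hne (by rw [e])) χ ψ)
  refine Finset.sum_congr rfl fun s _ => ?_
  split_ifs
  · rfl
  · rw [val_subIdem χ _ hb, val_subIdem ψ _ hb']

/-- The inner product of two combinations of block parts. -/
theorem classInner_combination (hM : IsPModular p M) (χ ψ : IrrCharacter G)
    (A A' : G → MonoidAlgebra (Res M) G → ℂ) :
    classInner (fun g : G => ∑ c ∈ blocksAt M (ppart p g), A (ppart p g) c * val χ g c)
        (fun g : G => ∑ c ∈ blocksAt M (ppart p g), A' (ppart p g) c * val ψ g c) =
      (Nat.card G : ℂ)⁻¹ * ∑ y ∈ pElems p G, ∑ c ∈ blocksAt M y,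
        A y c * conj (A' y c) * secSum p y c χ ψ := by
  classical
  rw [classInner]
  congr 1
  rw [← sum_sum_secSet (p := p) (fun g : G => (∑ c ∈ blocksAt M (ppart p g),
    A (ppart p g) c * val χ g c) * conj (∑ c ∈ blocksAt M (ppart p g), A' (ppart p g) c * val ψ g c))]
  refine Finset.sum_congr (by ext; simp [pElems]) fun y hy => ?_
  have hy' := mem_pElems.1 hy
  rw [Finset.sum_congr rfl (g := fun g => ∑ c ∈ blocksAt M y, ∑ c' ∈ blocksAt M y,
    A y c * conj (A' y c') * (val χ g c * conj (val ψ g c'))) (fun g hg => by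
      rw [ppart_of_mem_secSet hg, map_sum, Finset.sum_mul_sum]
      refine Finset.sum_congr rfl fun c _ => Finset.sum_congr rfl fun c' _ => ?_
      rw [map_mul]; ring), Finset.sum_comm]
  refine Finset.sum_congr rfl fun c hc => ?_
  rw [Finset.sum_comm, Finset.sum_eq_single c]
  · rw [← Finset.mul_sum]; rfl
  · intro c' hc' hne
    rw [← Finset.mul_sum, sum_val_mul_conj_eq_zero hM hy' hc hc' hne.symm, mul_zero]
  · exact fun h => absurd hc h

section Abelian

variable {B : Set (IrrCharacter G)} {P : Subgroup G} {e : MonoidAlgebra (Res M) G}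

/-- The idempotent below `(P, e)` at `u`. -/
def belowIdem (p : ℕ) (P : Subgroup G) (e : MonoidAlgebra (Res M) G) (u : G) :
    MonoidAlgebra (Res M) G :=
  subIdem M _ (BlockSections.belowBlock (M := M) p P e u)

/-- The contribution of the subsection at `u`. -/
def subContr (p : ℕ) [Fact p.Prime] (P : Subgroup G) (e : MonoidAlgebra (Res M) G) (u : G)
    (χ ψ : IrrCharacter G) : ℂ :=
  (Nat.card (Subgroup.centralizer ({u} : Set G)) : ℂ)⁻¹ * secSum p u (belowIdem p P e u) χ ψ

/-- The elements of a subgroup. -/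
def elemsOf (P : Subgroup G) : Finset G := by
  classical exact Finset.univ.filter fun u => u ∈ P

theorem mem_elemsOf {u : G} : u ∈ elemsOf P ↔ u ∈ P := by
  classical simp [elemsOf]

/-- The weight of an element of the defect group. -/
def wgt (P : Subgroup G) (e : MonoidAlgebra (Res M) G) (u : G) : ℂ :=
  (Nat.card ↥(pairStab (⊤ : Subgroup G) P e ⊓ Subgroup.centralizer ({u} : Set G)) : ℂ) /
    (Nat.card (pairStab (⊤ : Subgroup G) P e) : ℂ)

/-- The matrix of a function on the defect group. -/
def starPair (p : ℕ) [Fact p.Prime] {P : Subgroup G} (e : MonoidAlgebra (Res M) G) (η : P → ℂ)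
    (χ ψ : IrrCharacter G) : ℂ :=
  ∑ u ∈ elemsOf P, wgt P e u * funAt η u * subContr p P e u χ ψ

/-- Invariance under the stabiliser of the pair. -/
def StabInv (e : MonoidAlgebra (Res M) G) (η : P → ℂ) : Prop :=
  ∀ t ∈ pairStab (⊤ : Subgroup G) P e, ∀ u ∈ P, funAt η (t * u * t⁻¹) = funAt η u

variable [CharP (Res M) p] [IsAlgClosed (Res M)]
  (hM : IsPModular p M) (hB : IsPBlock M B)
  (hmax : IsMaxPair p (⊤ : Subgroup G) (redElem M (blockCoeff B)) P e)
  (hab : ∀ x ∈ P, ∀ y ∈ P, x * y = y * x)

include hM hB hmax hab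

theorem belowIdem_mem {u : G} (hu : u ∈ P) : belowIdem p P e u ∈ blocksAt M u := by
  refine mem_blockIdems.2 ?_
  rw [BlockStar.cenIn_zpowers]
  exact isBlockIdem_subIdem (BlockSections.belowBlock_spec hM hB hmax hu).1

theorem funInv_of_stabInv {η : P → ℂ} (hη : StabInv e η) : FunInv p e η := by
  intro u g c h1 h2
  have hu : u ∈ P := h1.le (Subgroup.mem_zpowers _)
  have hv : g * u * g⁻¹ ∈ P := h2.le (Subgroup.mem_zpowers _)
  have e1 : c = belowIdem p P e u :=
    (existsUnique_pairLE hmax.1.1 h1.le).unique h1 (BlockSections.belowBlock_spec hM hB hmax hu).2.1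
  have e2 : conjA g c = belowIdem p P e (g * u * g⁻¹) :=
    (existsUnique_pairLE hmax.1.1 h2.le).unique h2 (BlockSections.belowBlock_spec hM hB hmax hv).2.1
  subst e1
  obtain ⟨t, ht, htu⟩ := BlockSections.exists_stab_of_conj hM hB hmax hab hu hv rfl e2
  rw [← htu]
  exact hη t ht u hu

/-- Sums over the pairs of the block as sums over the defect group. -/
theorem sum_pairs_eq (H : G → MonoidAlgebra (Res M) G → ℂ)
    (hconj : ∀ h y c, c ∈ blocksAt M y → H (h * y * h⁻¹) (conjA h c) = H y c)
    (hsupp : ∀ y, ∀ c ∈ blocksAt M y,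
      ¬ PairOf p (⊤ : Subgroup G) (redElem M (blockCoeff B)) (Subgroup.zpowers y) c → H y c = 0) :
    (Nat.card G : ℂ)⁻¹ * ∑ y ∈ pElems p G, ∑ c ∈ blocksAt M y, H y c =
      ∑ u ∈ elemsOf P, wgt P e u *
        ((Nat.card (Subgroup.centralizer ({u} : Set G)) : ℂ)⁻¹ * H u (belowIdem p P e u)) := by
  classical
  have hb := isBlockIdem_redElem_blockCoeff (M := M) hB
  set T := pairStab (⊤ : Subgroup G) P e with hT
  have hT0 : (Nat.card T : ℂ) ≠ 0 := Nat.cast_ne_zero.2 Nat.card_pos.ne'
  have hG0 : (Nat.card G : ℂ) ≠ 0 := Nat.cast_ne_zero.2 Nat.card_pos.ne'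
  set K : G → ℂ := fun u =>
    (Nat.card ↥(T ⊓ Subgroup.centralizer ({u} : Set G)) : ℂ) *
      (Nat.card (Subgroup.centralizer ({u} : Set G)) : ℂ)⁻¹ with hK
  -- the count of the points over a pair
  have hfib : ∀ y, ∀ c ∈ blocksAt M y,
      H y c * ∑ u ∈ elemsOf P, ∑ g : G,
        (if g * u * g⁻¹ = y ∧ conjA g (belowIdem p P e u) = c then K u else 0) =
      (Nat.card T : ℂ) * H y c := by
    intro y c hc
    by_cases hp' : PairOf p (⊤ : Subgroup G) (redElem M (blockCoeff B)) (Subgroup.zpowers y) c
    swap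
    · rw [hsupp y c hc hp', zero_mul, mul_zero]
    rw [mul_comm]
    congr 1
    obtain ⟨x, hx⟩ := (BlockStar.exists_conj_iff hb hmax).2 hp'
    set u0 := x * y * x⁻¹ with hu0def
    have hu0 : u0 ∈ P := hx.le (Subgroup.mem_zpowers _)
    have hc0 : conjA x c = belowIdem p P e u0 :=
      (existsUnique_pairLE hmax.1.1 hx.le).unique hx (BlockSections.belowBlock_spec hM hB hmax hu0).2.1
    set F := (elemsOf P).filter fun u => ∃ g : G, g * u * g⁻¹ = y ∧ conjA g (belowIdem p P e u) = c
      with hF
    have hzero : ∀ u ∈ elemsOf P, u ∉ F → (∑ g : G,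
        if g * u * g⁻¹ = y ∧ conjA g (belowIdem p P e u) = c then K u else 0) = 0 := by
      intro u hu hnF
      refine Finset.sum_eq_zero fun g _ => if_neg fun hg => hnF ?_
      exact Finset.mem_filter.2 ⟨hu, g, hg⟩
    rw [← Finset.sum_subset (Finset.filter_subset _ _) hzero]
    have hcoset : ∀ u ∈ F, (∑ g : G,
        if g * u * g⁻¹ = y ∧ conjA g (belowIdem p P e u) = c then K u else 0) =
        (Nat.card ↥(T ⊓ Subgroup.centralizer ({u} : Set G)) : ℂ) := by
      intro u hu
      obtain ⟨huP, g0, hg0, hg0c⟩ := Finset.mem_filter.1 hu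
      have hset : (Finset.univ.filter fun g : G =>
          g * u * g⁻¹ = y ∧ conjA g (belowIdem p P e u) = c).card =
          Nat.card (Subgroup.centralizer ({u} : Set G)) := by
        rw [Nat.card_eq_fintype_card, ← Finset.card_univ]
        symm
        refine Finset.card_bij (fun (z : Subgroup.centralizer ({u} : Set G)) _ => g0 * (z : G))
          (fun z _ => ?_)
          (fun a _ b _ h => by simpa using h) (fun g hg => ?_)
        · refine Finset.mem_filter.2 ⟨Finset.mem_univ _, ?_, ?_⟩
          · calc g0 * (z : G) * u * (g0 * (z : G))⁻¹ = g0 * ((z : G) * u) * (z : G)⁻¹ * g0⁻¹ := by group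
              _ = g0 * u * g0⁻¹ := by rw [Subgroup.mem_centralizer_singleton_iff.1 z.2]; group
              _ = y := hg0
          · have hfix : conjA (z : G) (belowIdem p P e u) = belowIdem p P e u := by
              have h := (mem_ctr.1 (mem_blockIdems.1 (belowIdem_mem hM hB hmax hab (mem_elemsOf.1 huP))).mem).2
              exact h _ (by rw [BlockStar.cenIn_zpowers]; exact z.2)
            rw [conjA_mul, hfix, hg0c]
        · obtain ⟨hg1, -⟩ := (Finset.mem_filter.1 hg).2
          refine ⟨⟨g0⁻¹ * g, Subgroup.mem_centralizer_singleton_iff.2 ?_⟩, Finset.mem_univ _,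
            mul_inv_cancel_left _ _⟩
          calc g0⁻¹ * g * u = g0⁻¹ * (g * u * g⁻¹) * g := by group
            _ = g0⁻¹ * (g0 * u * g0⁻¹) * g := by rw [hg1, hg0]
            _ = u * (g0⁻¹ * g) := by group
      rw [← Finset.sum_filter, Finset.sum_const, hset, nsmul_eq_mul, hK]
      field_simp
    rw [Finset.sum_congr rfl hcoset, ← Nat.cast_sum]
    congr 1
    have horbit : ∀ t : T, (t : G) * u0 * (t : G)⁻¹ ∈ F := by
      intro t
      obtain ⟨hmem, hcA⟩ := BlockSections.conjA_belowBlock hM hB hmax hu0 t.2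
      refine Finset.mem_filter.2 ⟨mem_elemsOf.2 hmem, x⁻¹ * (t : G)⁻¹, ?_, ?_⟩
      · rw [hu0def]; group
      · show conjA _ (subIdem M _ _) = _
        rw [← hcA, conjA_mul, conjA_inv_conjA]
        show conjA x⁻¹ (belowIdem p P e u0) = c
        rw [← hc0, conjA_inv_conjA]
    have hstab : ∀ u ∈ F, ∃ t : T, (t : G) * u0 * (t : G)⁻¹ = u := by
      intro u hu
      obtain ⟨huP, g, hg, hgc⟩ := Finset.mem_filter.1 hu
      obtain ⟨t, ht, htu⟩ := BlockSections.exists_stab_of_conj hM hB hmax hab hu0 (mem_elemsOf.1 huP)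
        (g := g⁻¹ * x⁻¹) (by rw [hu0def, ← hg]; group) (by
          rw [conjA_mul]
          show conjA g⁻¹ (conjA x⁻¹ (belowIdem p P e u0)) = belowIdem p P e u
          rw [← hc0, conjA_inv_conjA, ← hgc, conjA_inv_conjA])
      exact ⟨⟨t, ht⟩, htu⟩
    symm
    rw [Nat.card_eq_fintype_card, ← Finset.card_univ (α := T),
      Finset.card_eq_sum_card_fiberwise (f := fun t : T => (t : G) * u0 * (t : G)⁻¹) (t := F)
        (fun t _ => horbit t)]
    refine Finset.sum_congr rfl fun u hu => ?_
    obtain ⟨t0, ht0⟩ := hstab u hu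
    rw [Nat.card_eq_fintype_card, ← Finset.card_univ]
    symm
    refine Finset.card_bij (fun s _ => (⟨(s : G), (Subgroup.mem_inf.1 s.2).1⟩ : T) * t0)
      (fun s _ => ?_) (fun a _ b _ h => Subtype.ext (by simpa using congrArg Subtype.val h))
      (fun t ht => ?_)
    · refine Finset.mem_filter.2 ⟨Finset.mem_univ _, ?_⟩
      rw [Subgroup.coe_mul]
      calc (s : G) * t0 * u0 * ((s : G) * t0)⁻¹ = (s : G) * ((t0 : G) * u0 * (t0 : G)⁻¹) * (s : G)⁻¹ := by group
        _ = u := by
          rw [ht0, Subgroup.mem_centralizer_singleton_iff.1 (Subgroup.mem_inf.1 s.2).2,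
            mul_inv_cancel_right]
    · have htu := (Finset.mem_filter.1 ht).2
      refine ⟨⟨(t : G) * (t0 : G)⁻¹, Subgroup.mem_inf.2 ⟨T.mul_mem t.2 (T.inv_mem t0.2), ?_⟩⟩,
        Finset.mem_univ _, Subtype.ext (inv_mul_cancel_right _ _)⟩
      rw [Subgroup.mem_centralizer_singleton_iff]
      calc (t : G) * (t0 : G)⁻¹ * u = (t : G) * (t0 : G)⁻¹ * ((t0 : G) * u0 * (t0 : G)⁻¹) := by rw [ht0]
        _ = (t : G) * u0 * (t : G)⁻¹ * ((t : G) * (t0 : G)⁻¹) := by group
        _ = u * ((t : G) * (t0 : G)⁻¹) := by rw [htu]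
  -- both sides count the points
  have hdouble : (Nat.card T : ℂ) * ∑ y ∈ pElems p G, ∑ c ∈ blocksAt M y, H y c =
      (Nat.card G : ℂ) * ∑ u ∈ elemsOf P, K u * H u (belowIdem p P e u) := by
    rw [Finset.mul_sum, Finset.sum_congr rfl fun y _ => (Finset.mul_sum _ _ _).trans
      (Finset.sum_congr rfl fun c hc => (hfib y c hc).symm)]
    simp only [Finset.mul_sum]
    rw [Finset.sum_congr rfl (g := fun y => ∑ u ∈ elemsOf P, ∑ c ∈ blocksAt M y, ∑ g : G,
      H y c * (if g * u * g⁻¹ = y ∧ conjA g (belowIdem p P e u) = c then K u else 0))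
      (fun y _ => Finset.sum_comm), Finset.sum_comm]
    refine Finset.sum_congr rfl fun u hu => ?_
    have huP := mem_elemsOf.1 hu
    rw [Finset.sum_congr rfl fun y _ => Finset.sum_comm, Finset.sum_comm]
    have hone : ∀ g : G, (∑ y ∈ pElems p G, ∑ c ∈ blocksAt M y,
        H y c * (if g * u * g⁻¹ = y ∧ conjA g (belowIdem p P e u) = c then K u else 0)) =
        K u * H u (belowIdem p P e u) := by
      intro g
      have hy : g * u * g⁻¹ ∈ pElems p G := by
        obtain ⟨k, hk⟩ := BlockSections.isPElem_of_mem hM hB hmax huP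
        exact mem_pElems.2 ⟨k, by rw [← hk]; exact (MulAut.conj g).orderOf_eq u⟩
      have hc := blocksAt_conj g u (belowIdem_mem hM hB hmax hab huP)
      rw [Finset.sum_eq_single_of_mem _ hy fun y _ hne => Finset.sum_eq_zero fun c _ => by
          rw [if_neg fun h => hne h.1.symm, mul_zero],
        Finset.sum_eq_single_of_mem _ hc fun c _ hne => by
          rw [if_neg fun h => hne h.2.symm, mul_zero],
        if_pos ⟨rfl, rfl⟩, hconj g u _ (belowIdem_mem hM hB hmax hab huP), mul_comm]
    rw [Finset.sum_congr rfl fun g _ => hone g, Finset.sum_const, Finset.card_univ, nsmul_eq_mul,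
      ← Nat.card_eq_fintype_card]
  rw [inv_mul_eq_iff_eq_mul₀ hG0]
  refine mul_left_cancel₀ hT0 (hdouble.trans ?_)
  rw [mul_left_comm]
  simp only [Finset.mul_sum]
  refine Finset.sum_congr rfl fun u _ => ?_
  simp only [hK, wgt, ← hT]
  field_simp

theorem GLam_belowIdem {η : P → ℂ} (hη : StabInv e η) {u : G} (hu : u ∈ P) :
    GLam p e η u (belowIdem p P e u) = funAt η u := by
  have h : PairLE p (⊤ : Subgroup G) (Subgroup.zpowers (1 * u * (1 : G)⁻¹))
      (conjA 1 (belowIdem p P e u)) P e := by
    rw [one_mul, inv_one, mul_one, conjA_one]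
    exact (BlockSections.belowBlock_spec hM hB hmax hu).2.1
  rw [GLam_eq (funInv_of_stabInv hM hB hmax hab hη) h, one_mul, inv_one, mul_one]

/-- The inner product with an irreducible character. -/
theorem classInner_genStar_irr {η : P → ℂ} (hη : StabInv e η) (χ ψ : IrrCharacter G) :
    classInner (genStar p χ e η) (ψ : G → ℂ) = starPair p e η χ ψ := by
  have hb := isBlockIdem_redElem_blockCoeff (M := M) hB
  have hf := funInv_of_stabInv hM hB hmax hab hη
  have h1 : (ψ : G → ℂ) = fun g : G => ∑ c ∈ blocksAt M (ppart p g), 1 * val ψ g c := funext fun g => by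
    simp only [one_mul]
    exact apply_eq_sum_val ψ g
  rw [h1, show genStar p χ e η = fun g : G => ∑ c ∈ blocksAt M (ppart p g),
      GLam p e η (ppart p g) c * val χ g c from rfl,
    classInner_combination hM χ ψ (fun y c => GLam p e η y c) (fun _ _ => 1),
    sum_pairs_eq hM hB hmax hab]
  · refine Finset.sum_congr rfl fun u hu => ?_
    rw [GLam_belowIdem hM hB hmax hab hη (mem_elemsOf.1 hu), map_one, mul_one, subContr]
    ring
  · intro h y c hc
    rw [GLam_conj hf, secSum_conj h y hc]
  · intro y c _ hn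
    rw [GLam_eq_zero_of_not_pairOf hb hmax η hn, zero_mul, zero_mul]

/-- The inner product of two products. -/
theorem classInner_genStar {η η' : P → ℂ} (hη : StabInv e η) (hη' : StabInv e η')
    (χ φ : IrrCharacter G) :
    classInner (genStar p χ e η) (genStar p φ e η') =
      starPair p e (fun u => η u * conj (η' u)) χ φ := by
  have hb := isBlockIdem_redElem_blockCoeff (M := M) hB
  have hf := funInv_of_stabInv hM hB hmax hab hη
  have hf' := funInv_of_stabInv hM hB hmax hab hη'
  rw [show genStar p χ e η = fun g : G => ∑ c ∈ blocksAt M (ppart p g),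
      GLam p e η (ppart p g) c * val χ g c from rfl,
    show genStar p φ e η' = fun g : G => ∑ c ∈ blocksAt M (ppart p g),
      GLam p e η' (ppart p g) c * val φ g c from rfl,
    classInner_combination hM χ φ (fun y c => GLam p e η y c) (fun y c => GLam p e η' y c),
    sum_pairs_eq hM hB hmax hab]
  · refine Finset.sum_congr rfl fun u hu => ?_
    have huP := mem_elemsOf.1 hu
    rw [GLam_belowIdem hM hB hmax hab hη huP, GLam_belowIdem hM hB hmax hab hη' huP, subContr,
      funAt_of_mem _ huP, funAt_of_mem _ huP, funAt_of_mem _ huP]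
    ring
  · intro h y c hc
    rw [GLam_conj hf, GLam_conj hf', secSum_conj h y hc]
  · intro y c _ hn
    rw [GLam_eq_zero_of_not_pairOf hb hmax η hn, zero_mul, zero_mul]

/-- A character of the block is its product with one. -/
theorem genStar_one {χ : IrrCharacter G} (hχ : χ ∈ B) :
    genStar p χ e (fun _ : P => (1 : ℂ)) = (χ : G → ℂ) := by
  have hb := isBlockIdem_redElem_blockCoeff (M := M) hB
  have hinv : StabInv e (fun _ : P => (1 : ℂ)) := fun t ht u hu => by
    rw [funAt_of_mem _ hu,
      funAt_of_mem _ (BlockSections.conjA_belowBlock hM hB hmax hu ht).1]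
  funext g
  rw [genStar, apply_eq_sum_val (M := M) (p := p) χ g]
  refine Finset.sum_congr rfl fun c hc => ?_
  by_cases hp' : PairOf p (⊤ : Subgroup G) (redElem M (blockCoeff B)) (Subgroup.zpowers (ppart p g)) c
  · obtain ⟨x, hx⟩ := (BlockStar.exists_conj_iff hb hmax).2 hp'
    rw [GLam_eq (funInv_of_stabInv hM hB hmax hab hinv) hx,
      funAt_of_mem _ (hx.le (Subgroup.mem_zpowers _)), one_mul]
  · rw [val_eq_zero_of_not_pairOf hM hB hχ (mem_blockIdems.1 hc) hp', mul_zero]

/-- The product with a generalized character is a generalized character. -/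
theorem isGeneralizedCharacter_genStar {η : P → ℂ} (hgc : IsGeneralizedCharacter P η)
    (hη : StabInv e η) (χ : IrrCharacter G) : IsGeneralizedCharacter G (genStar p χ e η) := by
  have hf := funInv_of_stabInv hM hB hmax hab hη
  have hval : genStar p χ e η = GHval p χ e η 1 := funext fun g => by
    rw [genStar, GHval]
    refine Finset.sum_congr rfl fun c _ => ?_
    rw [trunc_eq_self (one_mem _), one_mul]
  rw [hval]
  have hfclass : IsClassFunction G (GHval p χ e η 1) := fun g h => by
    have := GHval_conj χ hM hf h g (one_mul (1 : MonoidAlgebra (Res M) G)) (Commute.one_right _)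
    rwa [map_one] at this
  refine CfsgLib.Brauer.isGeneralizedCharacter_of_elementary hfclass fun E q hq hE => ?_
  obtain ⟨T, R, hT, hRT, hR, rfl⟩ := exists_decomp_of_isElementary (p := p) hq hE
  exact isGeneralizedCharacter_GHval χ hM hB hmax hgc hf _ T R rfl hT hRT hR 1 (one_mem _)
    (one_mul _)

/-- The contribution of a subsection is that of the block below. -/
theorem subContr_eq_contrib {u : G} (hu : u ∈ P) [Fintype (Subgroup.centralizer ({u} : Set G))]
    (χ ψ : IrrCharacter G) :
    subContr p P e u χ ψ =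
      contrib u (BlockSections.belowBlock (M := M) p P e u) p χ ψ := by
  have hbl := (BlockSections.belowBlock_spec hM hB hmax hu).1
  rw [subContr, contrib, secSum,
    sum_secSet_eq rfl (BlockSections.isPElem_of_mem hM hB hmax hu) (yC := cenElem u) rfl]
  congr 1
  refine Finset.sum_congr rfl fun s _ => ?_
  split_ifs
  · rfl
  · rw [belowIdem, val_subIdem χ _ hbl, val_subIdem ψ _ hbl]
    rfl

theorem subContr_stab {t u : G} (ht : t ∈ pairStab (⊤ : Subgroup G) P e) (hu : u ∈ P)
    (χ ψ : IrrCharacter G) :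
    subContr p P e (t * u * t⁻¹) χ ψ = subContr p P e u χ ψ := by
  have h := (BlockSections.conjA_belowBlock hM hB hmax hu ht).2
  rw [subContr, subContr, BlockSections.centralizer_cj_singleton,
    Subgroup.card_map_of_injective (MulAut.conj t).injective]
  congr 1
  show secSum p (t * u * t⁻¹) (subIdem M _ _) χ ψ = _
  rw [← h]
  exact secSum_conj t u (belowIdem_mem hM hB hmax hab hu) χ ψ

theorem conj_subContr (u : G) (χ ψ : IrrCharacter G) :
    conj (subContr p P e u χ ψ) = subContr p P e u ψ χ := by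
  rw [subContr, subContr, map_mul, conj_secSum, map_inv₀, map_natCast]

theorem conj_starPair (η : P → ℂ) (χ ψ : IrrCharacter G) :
    conj (starPair p e η χ ψ) = starPair p e (fun u => conj (η u)) ψ χ := by
  simp only [starPair, map_sum, map_mul]
  refine Finset.sum_congr rfl fun u hu => ?_
  rw [conj_subContr hM hB hmax hab, funAt_of_mem _ (mem_elemsOf.1 hu),
    funAt_of_mem _ (mem_elemsOf.1 hu), wgt, map_div₀, map_natCast, map_natCast]

theorem starPair_eq_zero_of_notMem {χ ψ : IrrCharacter G} (hψ : ψ ∉ B) (η : P → ℂ) :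
    starPair p e η χ ψ = 0 := by
  refine Finset.sum_eq_zero fun u hu => ?_
  have huP := mem_elemsOf.1 hu
  haveI : Fintype (Subgroup.centralizer ({u} : Set G)) := Fintype.ofFinite _
  rw [← conj_subContr hM hB hmax hab u ψ χ, subContr_eq_contrib hM hB hmax hab huP,
    BlockSections.contrib_eq_zero_of_notMem u hM (BlockSections.isPElem_of_mem hM hB hmax huP)
      (BlockSections.belowBlock_spec hM hB hmax huP).2.2 hψ, map_zero, mul_zero]

/-- The entries are integers. -/
theorem exists_int_starPair {η : P → ℂ} (hgc : IsGeneralizedCharacter P η) (hη : StabInv e η)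
    (χ ψ : IrrCharacter G) : ∃ z : ℤ, starPair p e η χ ψ = z := by
  rw [← classInner_genStar_irr hM hB hmax hab hη]
  exact exists_classInner_eq_int (isGeneralizedCharacter_genStar hM hB hmax hab hgc hη χ)
    (CfsgLib.CharTheory.IsIrrCharacter.isGeneralizedCharacter ψ.2)

/-- The product rule. -/
theorem sum_starPair_mul {η η' : P → ℂ} (hgc : IsGeneralizedCharacter P η) (hη : StabInv e η)
    (hη' : StabInv e η') (χ φ : IrrCharacter G) :
    ∑ ψ ∈ blockFinset B, starPair p e η χ ψ * conj (starPair p e η' φ ψ) =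
      starPair p e (fun u => η u * conj (η' u)) χ φ := by
  classical
  haveI := Fintype.ofFinite (IrrCharacter G)
  rw [← classInner_genStar hM hB hmax hab hη hη']
  have hcl : IsClassFunction G (genStar p χ e η) :=
    CfsgLib.CharTheory.IsGeneralizedCharacter.isClassFunction
      (isGeneralizedCharacter_genStar hM hB hmax hab hgc hη χ)
  conv_rhs => rw [eq_sum_classInner hcl, CfsgLib.CharTheory.classInner_sum_left]
  rw [Finset.sum_subset (Finset.subset_univ (blockFinset B)) fun ψ _ hψ => by
    rw [starPair_eq_zero_of_notMem hM hB hmax hab (by simpa using hψ), zero_mul]]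
  refine Finset.sum_congr rfl fun ψ _ => ?_
  rw [CfsgLib.CharTheory.classInner_smul_left, classInner_genStar_irr hM hB hmax hab hη,
    CfsgLib.CharTheory.classInner_conj_symm (ψ : G → ℂ),
    classInner_genStar_irr hM hB hmax hab hη']

/-- The identity. -/
theorem starPair_one {χ : IrrCharacter G} (hχ : χ ∈ B) (ψ : IrrCharacter G) :
    starPair p e (fun _ : P => (1 : ℂ)) χ ψ = if χ = ψ then 1 else 0 := by
  have hinv : StabInv e (fun _ : P => (1 : ℂ)) := fun t ht u hu => by
    rw [funAt_of_mem _ hu,
      funAt_of_mem _ (BlockSections.conjA_belowBlock hM hB hmax hu ht).1]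
  rw [← classInner_genStar_irr hM hB hmax hab hinv, genStar_one hM hB hmax hab hχ,
    classInner_irrCharacter]

end Abelian

end CfsgLib.ZerosCodegree
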