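import Cfsg.Agent.Lib.BlockSections.Cyclotomic
import Cfsg.Agent.Lib.BlockSections.ExceptionalSetup
import Cfsg.Agent.Lib.Brauer.CharRing
import Cfsg.Agent.Lib.Coherence.Virtual

/-!
# The count of a block with a fixed-point-free inertial quotient of order three on a `2`-group

The abstract argument: from the integral matrices of the invariant generalized characters of `X`
the matrix of the top-level indicator is four times a projection which splits into a vector of norm
four and copies of the root system of rank three, one for each family of four orbits of characters.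
-/

set_option autoImplicit false
set_option linter.unusedSectionVars false
set_option linter.style.haveILetI false

noncomputable section

open Finset Cfsg
open scoped ComplexConjugate

namespace CfsgLib.ZerosCodegree

/-- Positive reals with product at least one have mean at least one, and mean one only if all are
one. -/
theorem mean_one_of_prod {ι : Type*} (s : Finset ι) (x : ι → ℝ) (hx : ∀ i ∈ s, 0 < x i)
    (h : 1 ≤ ∏ i ∈ s, x i) :
    (s.card : ℝ) ≤ ∑ i ∈ s, x i ∧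
      (∑ i ∈ s, x i = (s.card : ℝ) → ∀ i ∈ s, x i = 1) ∧
      (1 < ∏ i ∈ s, x i → (s.card : ℝ) < ∑ i ∈ s, x i) := by
  have hlog : 0 ≤ ∑ i ∈ s, Real.log (x i) := by
    rw [← Real.log_prod fun i hi => (hx i hi).ne']
    exact Real.log_nonneg h
  have hle : ∀ i ∈ s, Real.log (x i) ≤ x i - 1 := fun i hi => Real.log_le_sub_one_of_pos (hx i hi)
  have hsum : ∑ i ∈ s, (x i - 1) = ∑ i ∈ s, x i - (s.card : ℝ) := by
    rw [sum_sub_distrib, sum_const, nsmul_eq_mul, mul_one]
  have hle' := sum_le_sum hle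
  refine ⟨by linarith, fun he i hi => ?_, fun hlt => ?_⟩
  · by_contra hne
    have hstrict : ∑ i ∈ s, Real.log (x i) < ∑ i ∈ s, (x i - 1) :=
      sum_lt_sum hle ⟨i, hi, Real.log_lt_sub_one_of_pos (hx i hi) hne⟩
    linarith
  · have : 0 < ∑ i ∈ s, Real.log (x i) := by
      rw [← Real.log_prod fun i hi => (hx i hi).ne']
      exact Real.log_pos hlt
    linarith

/-- The squared differences of integers on four points, not all equal, sum to at least six. -/
theorem six_le_sum_sq_sub {ι : Type*} (s : Finset ι) (hs : s.card = 4) (f : ι → ℤ) {a b : ι}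
    (ha : a ∈ s) (hb : b ∈ s) (hne : f a ≠ f b) :
    6 ≤ ∑ i ∈ s, ∑ j ∈ s, (f i - f j) ^ 2 := by
  have hW : ∑ i ∈ s, ∑ j ∈ s, (f i - f j) ^ 2 = 8 * (∑ i ∈ s, f i ^ 2) - 2 * (∑ i ∈ s, f i) ^ 2 := by
    simp only [sub_sq, sum_add_distrib, sum_sub_distrib, sum_const, hs, ← mul_sum, ← sum_mul,
      nsmul_eq_mul, Nat.cast_ofNat]
    ring
  have hpos : 0 < ∑ i ∈ s, ∑ j ∈ s, (f i - f j) ^ 2 :=
    sum_pos' (fun i _ => sum_nonneg fun j _ => sq_nonneg _)
      ⟨a, ha, sum_pos' (fun j _ => sq_nonneg _) ⟨b, hb, sq_pos_of_ne_zero (sub_ne_zero.2 hne)⟩⟩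
  rw [hW] at hpos ⊢
  obtain ⟨k, hk | hk⟩ := Int.even_or_odd' (∑ i ∈ s, f i)
  · rw [hk, mul_pow] at hpos ⊢
    generalize k ^ 2 = q at hpos ⊢
    omega
  · rw [hk, show (2 * k + 1) ^ 2 = 4 * (k ^ 2 + k) + 1 by ring] at hpos ⊢
    generalize k ^ 2 = q at hpos ⊢
    omega

section Galois

open CfsgLib.Jordan CfsgLib.BlockSections CfsgLib.Blocks

variable {X : Type*} [CommGroup X] [Fintype X] [Fintype (X →* ℂˣ)]

/-- A product of integral values of a rational combination of linear characters over a set stable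
under the powers prime to the order is a positive integer. -/
theorem exists_nat_prod_fourier (c : (X →* ℂˣ) → ℚ) (s : Finset X) (w : X → ℝ)
    (hs : ∀ u ∈ s, ∀ t : ℕ, t.Coprime (Fintype.card X) → u ^ t ∈ s)
    (hw : ∀ u ∈ s, 0 < w u) (hint : ∀ u ∈ s, IsIntegral ℤ (w u : ℂ))
    (hc : ∀ u ∈ s, (w u : ℂ) = ∑ l : X →* ℂˣ, (c l : ℂ) * (l u : ℂ)) :
    ∃ z : ℕ, 1 ≤ z ∧ ∏ u ∈ s, w u = z := by
  classical
  haveI : NeZero (Fintype.card X) := ⟨Fintype.card_ne_zero⟩
  set n := Fintype.card X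
  have hroot : ∀ (l : X →* ℂˣ) (u : X), (l u : ℂ) ^ n = 1 := fun l u => by
    rw [← Units.val_pow_eq_pow_val, ← map_pow, pow_card_eq_one, map_one, Units.val_one]
  let R : (X →* ℂˣ) → X → cycField n := fun l u => ⟨(l u : ℂ), mem_cycField_of_pow_eq_one (hroot l u)⟩
  let Z : X → cycField n := fun u => ∑ l, (c l : cycField n) * R l u
  have hZ : ∀ u ∈ s, (Z u : ℂ) = (w u : ℂ) := fun u hu => by
    rw [hc u hu]
    simp [Z, R]
  have hfix : ∀ σ : Gal n, σ (∏ u ∈ s, Z u) = ∏ u ∈ s, Z u := by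
    intro σ
    obtain ⟨t, htc, ht⟩ := exists_galois_pow n σ
    have hσ : ∀ u, σ (Z u) = Z (u ^ t) := fun u => by
      simp only [Z, map_sum, map_mul, map_ratCast]
      refine sum_congr rfl fun l _ => ?_
      congr 1
      refine Subtype.ext ((ht (R l u) (hroot l u)).trans ?_)
      show (l u : ℂ) ^ t = (l (u ^ t) : ℂ)
      rw [map_pow, Units.val_pow_eq_pow_val]
    have hinj : Function.Injective fun u : X => u ^ t :=
      (powCoprime (G := X) (n := t) (by rwa [Nat.card_eq_fintype_card, Nat.coprime_comm])).injective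
    have himg : s.image (fun u => u ^ t) = s :=
      eq_of_subset_of_card_le (image_subset_iff.2 fun u hu => hs u hu t htc)
        (card_image_of_injective _ hinj).ge
    rw [map_prod, prod_congr rfl fun u _ => hσ u]
    conv_rhs => rw [← himg, prod_image hinj.injOn]
  obtain ⟨r, hr⟩ := IntermediateField.mem_bot.mp ((IsGalois.mem_bot_iff_fixed _).mpr hfix)
  have hr' : ((∏ u ∈ s, w u : ℝ) : ℂ) = algebraMap ℚ ℂ r := by
    push_cast
    rw [← prod_congr rfl hZ, ← SubmonoidClass.coe_finsetProd, ← hr]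
    rfl
  have hI : IsIntegral ℤ ((∏ u ∈ s, w u : ℝ) : ℂ) := by
    push_cast
    exact IsIntegral.prod _ hint
  rw [hr', isIntegral_algebraMap_iff (algebraMap ℚ ℂ).injective] at hI
  obtain ⟨z, hz⟩ := IsIntegrallyClosed.isIntegral_iff.mp hI
  have hzw : ∏ u ∈ s, w u = (z : ℝ) := by
    apply Complex.ofReal_injective
    rw [hr', ← hz]
    simp
  have hpos : (0 : ℝ) < z := hzw ▸ prod_pos hw
  have hz0 : 0 < z := by exact_mod_cast hpos
  refine ⟨z.toNat, by omega, ?_⟩
  rw [hzw]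
  exact_mod_cast (Int.toNat_of_nonneg hz0.le).symm

/-- If moreover a value lies in the modular ideal the product exceeds one. -/
theorem one_lt_prod_fourier {p : ℕ} {M : Ideal AlgInt} [M.IsPrime] (hM : IsPModular p M)
    (c : (X →* ℂˣ) → ℚ) (s : Finset X) (w : X → ℝ)
    (hs : ∀ u ∈ s, ∀ t : ℕ, t.Coprime (Fintype.card X) → u ^ t ∈ s)
    (hw : ∀ u ∈ s, 0 < w u) (hint : ∀ u ∈ s, IsIntegral ℤ (w u : ℂ))
    (hc : ∀ u ∈ s, (w u : ℂ) = ∑ l : X →* ℂˣ, (c l : ℂ) * (l u : ℂ))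
    {u : X} (hu : u ∈ s) (hM' : MemLocalIdeal M (w u : ℂ)) : 1 < ∏ u ∈ s, w u := by
  classical
  obtain ⟨z, hz1, hz⟩ := exists_nat_prod_fourier c s w hs hw hint hc
  have hmem : MemLocalIdeal M ((z : ℕ) : ℂ) := by
    rw [show ((z : ℕ) : ℂ) = (((z : ℕ) : ℝ) : ℂ) by simp, ← hz, ← mul_prod_erase s _ hu]
    push_cast
    exact memLocalIdeal_mul_right hM' (memLocalRing_of_isIntegral
      (IsIntegral.prod _ fun v hv => hint v (mem_of_mem_erase hv)))
  rw [memLocalIdeal_natCast_iff hM] at hmem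
  have h2 : 2 ≤ z := hM.1.two_le.trans (Nat.le_of_dvd (by omega) hmem)
  rw [hz]
  exact_mod_cast h2

end Galois

section Count

variable {X : Type*} [CommGroup X] [Fintype X] [Fintype (X →* ℂˣ)]
  {I : Type*} [Fintype I]

/-- The group of linear characters, with reducible access to its structure. -/
local instance instCommGroupMonoidHomHomocyclic {X : Type*} [CommGroup X] :
    CommGroup (X →* ℂˣ) := inferInstance

/-- The weight of the pair at `u`. -/
def thirdWgt (u : X) : ℂ := by classical exact if u = 1 then 1 else 1 / 3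

/-- The matrix of a function. -/
def pairF (S : X → I → I → ℂ) (η : X → ℂ) (χ ψ : I) : ℂ :=
  ∑ u : X, thirdWgt u * η u * S u χ ψ

theorem pairF_add (S : X → I → I → ℂ) (η η' : X → ℂ) (χ ψ : I) :
    pairF S (η + η') χ ψ = pairF S η χ ψ + pairF S η' χ ψ := by
  simp only [pairF, Pi.add_apply, mul_add, add_mul, sum_add_distrib]

theorem pairF_sub (S : X → I → I → ℂ) (η η' : X → ℂ) (χ ψ : I) :
    pairF S (η - η') χ ψ = pairF S η χ ψ - pairF S η' χ ψ := by
  simp only [pairF, Pi.sub_apply, mul_sub, sub_mul, sum_sub_distrib]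

theorem pairF_const_mul (S : X → I → I → ℂ) (z : ℂ) (η : X → ℂ) (χ ψ : I) :
    pairF S (fun u => z * η u) χ ψ = z * pairF S η χ ψ := by
  simp only [pairF, mul_sum]
  exact sum_congr rfl fun u _ => by ring

/-- The hypotheses of the count. -/
structure CountData {X : Type*} [CommGroup X] [Fintype X] [Fintype (X →* ℂˣ)] {I : Type*}
    [Fintype I] (σ : X ≃* X) (S : X → I → I → ℂ) (M : Ideal AlgInt) : Prop where
  cube : ∀ u, σ (σ (σ u)) = u
  free : ∀ u, σ u = u → u = 1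
  card_two : Nat.card {l : X →* ℂˣ // l ^ 2 = 1} = 4
  inv : ∀ u χ ψ, S (σ u) χ ψ = S u χ ψ
  conj_eq : ∀ u χ ψ, conj (S u χ ψ) = S u ψ χ
  int : ∀ η : X → ℂ, IsGeneralizedCharacter X η → (∀ u, η (σ u) = η u) →
    ∀ χ ψ, ∃ z : ℤ, pairF S η χ ψ = z
  mul : ∀ η η' : X → ℂ, IsGeneralizedCharacter X η → (∀ u, η (σ u) = η u) →
    (∀ u, η' (σ u) = η' u) → ∀ χ φ,
      ∑ ψ, pairF S η χ ψ * conj (pairF S η' φ ψ) = pairF S (fun u => η u * conj (η' u)) χ φ
  one : ∀ χ, pairF S (fun _ => 1) χ χ = 1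
  trace : ∀ u, u ≠ 1 → ∑ χ, S u χ χ = 1
  pos : ∀ u, u ≠ 1 → ∀ χ, ∃ r : ℝ, 0 < r ∧ S u χ χ = r
  pos_one : ∀ χ, ∃ r : ℝ, 0 < r ∧ S 1 χ χ = r
  integral : ∀ u, u ≠ 1 → ∀ χ, IsIntegral ℤ ((Fintype.card X : ℂ) * S u χ χ)
  height : ∀ χ, (∃ z : ℤ, z % 2 = 1 ∧ (Fintype.card X : ℂ) * S 1 χ χ = z) ∨
    ∀ u, u ≠ 1 → ∃ w : ℂ, IsIntegral ℤ w ∧ MemLocalIdeal M w ∧ (Fintype.card X : ℂ) * S u χ χ = 2 * w

set_option maxHeartbeats 4000000 in
open scoped Classical in
/-- The counting theorem. -/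
theorem card_of_countData {σ : X ≃* X} {S : X → I → I → ℂ} {M : Ideal AlgInt} [M.IsPrime]
    (hM : IsPModular 2 M) (D : CountData σ S M) {l : ℕ} (hl : 1 ≤ l)
    (hkl : Fintype.card I * 3 + 1 = 3 * l + Fintype.card X) :
    l = 3 ∧ 3 * Fintype.card I = Fintype.card X + 8 := by
  classical
  set N := Fintype.card X with hN
  have hN0 : (N : ℂ) ≠ 0 := Nat.cast_ne_zero.2 Fintype.card_ne_zero
  -- the map induced on the characters
  set sx : (X →* ℂˣ) → (X →* ℂˣ) := fun x => x.comp σ.toMonoidHom with hsx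
  have hsx_apply : ∀ x u, sx x u = x (σ u) := fun _ _ => rfl
  have hsx3 : ∀ x, sx (sx (sx x)) = x := fun x => MonoidHom.ext fun u => congrArg x (D.cube u)
  have hsx_inj : Function.Injective sx := fun a b h => by
    rw [← hsx3 a, ← hsx3 b, h]
  have hsx_mul : ∀ x y, sx (x * y) = sx x * sx y := fun _ _ => rfl
  have hsx_one : sx 1 = 1 := rfl
  have hsx_inv : ∀ x, sx x⁻¹ = (sx x)⁻¹ := fun _ => rfl
  have hsx_free : ∀ x, sx x = x → x = 1 := by
    intro x hx
    let f : X →* X := σ.toMonoidHom * (MonoidHom.id X)⁻¹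
    have hfinj : Function.Injective f := by
      rw [injective_iff_map_eq_one]
      intro u hu
      exact D.free u (mul_inv_eq_one.1 hu)
    have hfsurj := Finite.injective_iff_surjective.1 hfinj
    refine MonoidHom.ext fun v => ?_
    obtain ⟨u, rfl⟩ := hfsurj v
    show x (σ u * u⁻¹) = 1
    rw [map_mul, map_inv, ← hsx_apply, hx, mul_inv_cancel]
  have hsx_free2 : ∀ x, sx (sx x) = x → x = 1 := fun x hx => hsx_free x (by
    conv_rhs => rw [← hsx3 x, hx])
  -- the characters of exponent two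
  set M4 : Finset (X →* ℂˣ) := univ.filter fun x => x ^ 2 = 1 with hM4def
  have hM4 : ∀ {x}, x ∈ M4 ↔ x ^ 2 = 1 := fun {x} => by simp [hM4def]
  have hM4card : M4.card = 4 := by
    rw [← D.card_two, Nat.card_eq_fintype_card, Fintype.card_subtype]
  have hM4one : (1 : X →* ℂˣ) ∈ M4 := hM4.2 (one_pow 2)
  have hM4mul : ∀ {x y}, x ∈ M4 → y ∈ M4 → x * y ∈ M4 := fun hx hy =>
    hM4.2 (by rw [mul_pow, hM4.1 hx, hM4.1 hy, one_mul])
  have hM4sx : ∀ {x}, x ∈ M4 → sx x ∈ M4 := fun {x} hx => hM4.2 (by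
    rw [sq, ← hsx_mul, ← sq, hM4.1 hx, hsx_one])
  have hM4self : ∀ {x}, x ∈ M4 → x * x = 1 := fun {x} hx => by rw [← sq]; exact hM4.1 hx
  -- the top level
  set top : Finset X := univ.filter fun u => ∃ μ ∈ M4, μ u ≠ 1 with htopdef
  set ηT : X → ℂ := fun u => 4 - ∑ μ ∈ M4, (μ u : ℂ) with hηTdef
  have hηTval : ∀ u, ηT u = if u ∈ top then 4 else 0 := by
    intro u
    by_cases h : u ∈ top
    · rw [if_pos h]
      obtain ⟨ν, hν, hν1⟩ := (mem_filter.1 h).2
      have h0 : (ν u : ℂ) * ∑ μ ∈ M4, (μ u : ℂ) = ∑ μ ∈ M4, (μ u : ℂ) := by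
        rw [mul_sum]
        exact sum_nbij' (ν * ·) (ν * ·) (fun μ hμ => hM4mul hν hμ) (fun μ hμ => hM4mul hν hμ)
          (fun μ _ => by rw [← mul_assoc, hM4self hν, one_mul])
          (fun μ _ => by rw [← mul_assoc, hM4self hν, one_mul])
          (fun μ _ => by simp)
      have : ∑ μ ∈ M4, (μ u : ℂ) = 0 := by
        by_contra hne
        exact hν1 (Units.ext ((mul_eq_right₀ hne).1 h0))
      simp only [hηTdef, this, sub_zero]
    · rw [if_neg h]
      have : ∀ μ ∈ M4, (μ u : ℂ) = 1 := fun μ hμ => by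
        by_contra hne
        exact h (mem_filter.2 ⟨mem_univ _, μ, hμ, fun e => hne (by rw [e, Units.val_one])⟩)
      simp only [hηTdef, sum_congr rfl this, sum_const, hM4card]
      norm_num
  have h1top : (1 : X) ∉ top := fun h => by
    obtain ⟨μ, -, hμ⟩ := (mem_filter.1 h).2
    exact hμ (map_one μ)
  have htopne : ∀ u ∈ top, u ≠ 1 := fun u hu e => h1top (e ▸ hu)
  have htopcard : 4 * top.card = 3 * N := by
    have h1 : ∑ u : X, ∑ μ ∈ M4, (μ u : ℂ) = (N : ℂ) := by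
      rw [sum_comm, sum_eq_single_of_mem (1 : X →* ℂˣ) hM4one fun μ _ hne => by
        rw [CfsgLib.BlockSections.Exceptional.sum_apply_hom, if_neg hne], CfsgLib.BlockSections.Exceptional.sum_apply_hom, if_pos rfl]
    have h2 : ∑ u : X, ηT u = 4 * (N : ℂ) - N := by
      simp only [hηTdef, sum_sub_distrib, h1, sum_const, card_univ, nsmul_eq_mul, ← hN]
      ring
    simp only [hηTval, sum_ite_mem, univ_inter, sum_const, nsmul_eq_mul] at h2
    have h3 : ((4 * top.card : ℕ) : ℂ) = ((3 * N : ℕ) : ℂ) := by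
      push_cast; linear_combination h2
    exact_mod_cast h3
  have htopinv : ∀ u, σ u ∈ top ↔ u ∈ top := by
    intro u
    simp only [htopdef, mem_filter, mem_univ, true_and]
    constructor
    · rintro ⟨μ, hμ, h⟩
      exact ⟨sx μ, hM4sx hμ, by rwa [hsx_apply]⟩
    · rintro ⟨μ, hμ, h⟩
      refine ⟨sx (sx μ), hM4sx (hM4sx hμ), ?_⟩
      rwa [hsx_apply, hsx_apply, D.cube]
  have hN4 : 4 ∣ N := by omega
  have htoppow : ∀ u ∈ top, ∀ t : ℕ, t.Coprime N → u ^ t ∈ top := by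
    intro u hu t ht
    obtain ⟨μ, hμ, hne⟩ := (mem_filter.1 hu).2
    refine mem_filter.2 ⟨mem_univ _, μ, hμ, fun h => hne ?_⟩
    obtain ⟨j, hj⟩ : Odd t := by
      exact Nat.coprime_two_right.1 (Nat.Coprime.coprime_dvd_right (dvd_trans (by norm_num) hN4) ht)
    have h2 : μ u ^ 2 = 1 := DFunLike.congr_fun (hM4.1 hμ) u
    rwa [map_pow, hj, pow_succ, pow_mul, h2, one_pow, one_mul] at h
  -- invariance and generalized characters
  have hlin : ∀ x : X →* ℂˣ, IsGeneralizedCharacter X (fun u => (x u : ℂ)) := fun x =>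
    CfsgLib.Brauer.isGeneralizedCharacter_of_isCharacter (CfsgLib.Brauer.isCharacter_monoidHom x)
  have hsumgen : ∀ s : Finset (X →* ℂˣ), IsGeneralizedCharacter X (fun u => ∑ x ∈ s, (x u : ℂ)) :=
    fun s => by
      rw [show (fun u => ∑ x ∈ s, (x u : ℂ)) = ∑ x ∈ s, fun u => (x u : ℂ) from
        funext fun u => (Finset.sum_apply u s fun (x : X →* ℂˣ) (u : X) => (x u : ℂ)).symm]
      exact CfsgLib.Coherence.isGeneralizedCharacter_sum s _ fun x _ => hlin x
  have hsuminv : ∀ s : Finset (X →* ℂˣ), (∀ x ∈ s, sx x ∈ s) →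
      ∀ u, ∑ x ∈ s, (x (σ u) : ℂ) = ∑ x ∈ s, (x u : ℂ) := by
    intro s hs u
    exact sum_nbij' sx (fun x => sx (sx x)) hs (fun x hx => hs _ (hs x hx))
      (fun x _ => hsx3 x) (fun x _ => hsx3 x) (fun x _ => by rw [hsx_apply])
  have hηTgen : IsGeneralizedCharacter X ηT :=
    CfsgLib.Brauer.isGeneralizedCharacter_sub
      (show IsGeneralizedCharacter X (fun _ : X => (4 : ℂ)) from by
        have h := CfsgLib.Brauer.isGeneralizedCharacter_zsmul (G := X)
          CfsgLib.Brauer.isGeneralizedCharacter_one 4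
        convert h using 1
        funext u
        simp) (hsumgen M4)
  have hηTinv : ∀ u, ηT (σ u) = ηT u := fun u => by
    rw [hηTval, hηTval]; simp only [htopinv u]
  have hconjF : ∀ η χ ψ, conj (pairF S η χ ψ) = pairF S (fun u => conj (η u)) ψ χ := by
    intro η χ ψ
    simp only [pairF, map_sum, map_mul, D.conj_eq]
    refine sum_congr rfl fun u _ => ?_
    congr 2
    rw [thirdWgt]
    split_ifs <;> simp [map_ofNat]
  -- the top matrix
  choose Q hQ using fun χ ψ => D.int ηT hηTgen hηTinv χ ψ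
  have hηTconj : (fun u => conj (ηT u)) = ηT := funext fun u => by
    rw [hηTval]; split_ifs <;> simp [map_ofNat]
  have hQsymm : ∀ χ ψ, Q χ ψ = Q ψ χ := fun χ ψ => by
    have h := hconjF ηT χ ψ
    rw [hηTconj, hQ, hQ, map_intCast] at h
    exact_mod_cast h
  have hQQ : ∀ χ φ, ∑ ψ, Q χ ψ * Q φ ψ = 4 * Q χ φ := fun χ φ => by
    have h := D.mul ηT ηT hηTgen hηTinv hηTinv χ φ
    rw [show (fun u => ηT u * conj (ηT u)) = fun u => 4 * ηT u from funext fun u => by
      rw [hηTval]; split_ifs <;> simp [map_ofNat], pairF_const_mul, hQ] at h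
    simp only [hQ, map_intCast] at h
    exact_mod_cast h
  -- the averages on the top level
  choose α0 hα0pos hα0 using fun u (hu : u ≠ 1) χ => D.pos u hu χ
  set α : X → I → ℝ := fun u χ => if hu : u = 1 then 0 else (N : ℝ) * α0 u hu χ with hαdef
  have hα : ∀ u, u ≠ 1 → ∀ χ, 0 < α u χ ∧ (α u χ : ℂ) = (N : ℂ) * S u χ χ := by
    intro u hu χ
    simp only [hαdef, dif_neg hu]
    refine ⟨mul_pos (Nat.cast_pos.2 Fintype.card_pos) (hα0pos u hu χ), ?_⟩
    rw [hα0 u hu χ]; push_cast; ring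
  have htopF : ∀ η : X → ℂ, (∀ u, u ∉ top → η u = 0) → ∀ χ,
      pairF S η χ χ = (3 * (N : ℂ))⁻¹ * ∑ u ∈ top, η u * (α u χ : ℂ) := by
    intro η hη χ
    rw [pairF, ← sum_subset (subset_univ top) fun u _ hu => by rw [hη u hu, mul_zero, zero_mul],
      mul_sum]
    refine sum_congr rfl fun u hu => ?_
    rw [thirdWgt, if_neg (htopne u hu), (hα u (htopne u hu) χ).2]
    field_simp
  have hA : ∀ χ, (Q χ χ : ℝ) * top.card = ∑ u ∈ top, α u χ := by
    intro χ
    have h := htopF ηT (fun u hu => by rw [hηTval, if_neg hu]) χ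
    rw [hQ, sum_congr rfl (g := fun u => 4 * (α u χ : ℂ)) (fun u hu => by rw [hηTval, if_pos hu]),
      ← mul_sum] at h
    apply Complex.ofReal_injective
    push_cast
    rw [h]
    have h4 : (4 : ℂ) * top.card = 3 * N := by exact_mod_cast htopcard
    field_simp
    linear_combination (∑ u ∈ top, (α u χ : ℂ)) * h4
  have htop0 : 0 < top.card := by
    have := Fintype.card_pos (α := X); omega
  -- the Fourier expansion of the averages
  have hfourier : ∀ χ, ∃ c : (X →* ℂˣ) → ℤ, ∀ u, u ≠ 1 →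
      (α u χ : ℂ) = ∑ x : X →* ℂˣ, (c x : ℂ) * (x u : ℂ) := by
    intro χ
    let Lam : (X →* ℂˣ) → X → ℂ := fun x v =>
      ((x⁻¹ v : ℂˣ) : ℂ) + ((x⁻¹ (σ v) : ℂˣ) : ℂ) + ((x⁻¹ (σ (σ v)) : ℂˣ) : ℂ)
    have hLgen : ∀ x, IsGeneralizedCharacter X (Lam x) := fun x =>
      CfsgLib.Coherence.isGeneralizedCharacter_add
        (CfsgLib.Coherence.isGeneralizedCharacter_add (hlin x⁻¹) (hlin (sx x⁻¹)))
        (hlin (sx (sx x⁻¹)))
    have hLinv : ∀ x u, Lam x (σ u) = Lam x u := fun x u => by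
      simp only [Lam, D.cube]; ring
    choose c hc using fun x => D.int (Lam x) (hLgen x) (hLinv x) χ χ
    refine ⟨c, fun u hu => ?_⟩
    have key : ∀ v, ∑ x : X →* ℂˣ, Lam x v * (x u : ℂ) =
        (if u = v then (N : ℂ) else 0) + (if u = σ v then (N : ℂ) else 0) +
          (if u = σ (σ v) then (N : ℂ) else 0) := by
      intro v
      have e : ∀ w, ∑ x : X →* ℂˣ, ((x⁻¹ w : ℂˣ) : ℂ) * (x u : ℂ) =
          if u = w then (N : ℂ) else 0 := fun w => by
        have : ∀ x : X →* ℂˣ, ((x⁻¹ w : ℂˣ) : ℂ) * (x u : ℂ) = ((x (u / w) : ℂˣ) : ℂ) := fun x => by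
          rw [MonoidHom.inv_apply, map_div, div_eq_inv_mul, Units.val_mul]
        rw [sum_congr rfl fun x _ => this x, CfsgLib.BlockSections.Exceptional.sum_hom_apply]
        simp only [div_eq_one, ← hN]
      simp only [Lam, add_mul, sum_add_distrib, e]
    rw [(hα u hu χ).2]
    simp only [← hc, pairF, sum_mul]
    rw [sum_comm, sum_congr rfl (g := fun v => thirdWgt v * S v χ χ *
      ((if u = v then (N : ℂ) else 0) + (if u = σ v then (N : ℂ) else 0) +
          (if u = σ (σ v) then (N : ℂ) else 0))) (fun v _ => by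
        rw [← key v, mul_sum]; exact sum_congr rfl fun x _ => by ring)]
    simp only [mul_add, sum_add_distrib, mul_ite, mul_zero]
    have e1 : ∀ v, u = σ v ↔ σ (σ u) = v := fun v =>
      ⟨fun h => by rw [h, D.cube], fun h => by rw [← h, D.cube]⟩
    have e2 : ∀ v, u = σ (σ v) ↔ σ u = v := fun v =>
      ⟨fun h => by rw [h, D.cube], fun h => by rw [← h, D.cube]⟩
    simp only [e2]
    simp only [e1, sum_ite_eq, mem_univ, if_true]
    have hs1 : σ u ≠ 1 := fun h => hu (σ.map_eq_one_iff.1 h)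
    have hs2 : σ (σ u) ≠ 1 := fun h => hs1 (σ.map_eq_one_iff.1 h)
    rw [thirdWgt, thirdWgt, thirdWgt, if_neg hu, if_neg hs1, if_neg hs2, D.inv, D.inv]
    ring
  -- means, and the bound above
  have hmean : ∀ χ, (1 : ℝ) ≤ Q χ χ ∧ (Q χ χ = 1 → ∀ u ∈ top, α u χ = 1) := by
    intro χ
    obtain ⟨c, hc⟩ := hfourier χ
    obtain ⟨z, hz1, hz⟩ := exists_nat_prod_fourier (fun x => (c x : ℚ)) top (fun u => α u χ) htoppow
      (fun u hu => (hα u (htopne u hu) χ).1)
      (fun u hu => by rw [(hα u (htopne u hu) χ).2]; exact D.integral u (htopne u hu) χ)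
      (fun u hu => by rw [hc u (htopne u hu)]; push_cast; rfl)
    have h1 : (1 : ℝ) ≤ ∏ u ∈ top, α u χ := by rw [hz]; exact_mod_cast hz1
    obtain ⟨hle, heq, -⟩ := mean_one_of_prod top (fun u => α u χ)
      (fun u hu => (hα u (htopne u hu) χ).1) h1
    rw [← hA] at hle
    refine ⟨le_of_mul_le_mul_right (by linarith) (Nat.cast_pos.2 htop0), fun h => heq ?_⟩
    rw [← hA, h, Int.cast_one, one_mul]
  have hub : ∀ χ, Q χ χ ≤ 3 := by
    intro χ
    have h := D.one χ
    obtain ⟨r1, hr1, hS1⟩ := D.pos_one χ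
    rw [pairF, ← add_sum_erase univ _ (mem_univ (1 : X))] at h
    set R : ℝ := ∑ u ∈ univ.erase (1 : X), α u χ with hRdef
    have hR : ∑ u ∈ univ.erase (1 : X), thirdWgt u * 1 * S u χ χ =
        (((3 * (N : ℝ))⁻¹ * R : ℝ) : ℂ) := by
      rw [hRdef]
      push_cast
      rw [mul_sum]
      refine sum_congr rfl fun u hu => ?_
      rw [thirdWgt, if_neg (ne_of_mem_erase hu), (hα u (ne_of_mem_erase hu) χ).2]
      field_simp
    rw [hR, thirdWgt, if_pos rfl, hS1, one_mul, one_mul, ← Complex.ofReal_add,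
      Complex.ofReal_eq_one] at h
    have hsub : ∑ u ∈ top, α u χ ≤ R :=
      sum_le_sum_of_subset_of_nonneg (fun u hu => mem_erase.2 ⟨htopne u hu, mem_univ _⟩)
        fun u hu _ => (hα u (ne_of_mem_erase hu) χ).1.le
    rw [← hA] at hsub
    have h4 : (4 : ℝ) * top.card = 3 * N := by exact_mod_cast htopcard
    have hNpos : (0 : ℝ) < 3 * (N : ℝ) := by
      have : (0 : ℝ) < N := Nat.cast_pos.2 Fintype.card_pos
      linarith
    have h5 : (3 * (N : ℝ))⁻¹ * R < 1 := by linarith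
    rw [inv_mul_lt_iff₀ hNpos, mul_one] at h5
    have h6 : (Q χ χ : ℝ) * top.card < 4 * top.card := by linarith
    have h7 : (Q χ χ : ℝ) < 4 := lt_of_mul_lt_mul_right h6 (Nat.cast_nonneg _)
    have h8 : Q χ χ < 4 := by exact_mod_cast h7
    omega
  -- no average equal to two
  have hno2 : ∀ χ, Q χ χ ≠ 2 := by
    intro χ h2
    rcases D.height χ with ⟨z, hz, hz1⟩ | hev
    · -- parity
      set L2 : Finset (X →* ℂˣ) := univ.filter fun x => x ∉ M4 with hL2
      let key : (X →* ℂˣ) → ℕ := fun x => (Fintype.equivFin (Finset (X →* ℂˣ))) {x, sx x, sx (sx x)}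
      have hkeysx : ∀ x, key (sx x) = key x := by
        intro x
        simp only [key]
        congr 2
        rw [hsx3]
        ext y; simp only [mem_insert, mem_singleton]; tauto
      have hkeyinv : ∀ x ∈ L2, key x⁻¹ ≠ key x := by
        intro x hx he
        have he' := (Fintype.equivFin _).injective (Fin.ext he)
        have hmem : x⁻¹ ∈ ({x, sx x, sx (sx x)} : Finset (X →* ℂˣ)) := by
          rw [← he']; simp
        simp only [mem_insert, mem_singleton] at hmem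
        apply (mem_filter.1 hx).2
        refine hM4.2 ?_
        rcases hmem with h | h | h
        · rw [sq]; nth_rw 1 [← h]; exact inv_mul_cancel x
        · have : sx (sx x) = x := by rw [← h, hsx_inv, ← h, inv_inv]
          rw [hsx_free2 x this, one_pow]
        · have : sx (sx (sx (sx x))) = x := by rw [← h, hsx_inv, hsx_inv, ← h, inv_inv]
          rw [hsx3] at this
          rw [hsx_free x this, one_pow]
      set H := L2.filter fun x => key x < key x⁻¹ with hHdef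
      have hHsx : ∀ x ∈ H, sx x ∈ H := by
        intro x hx
        obtain ⟨hx1, hx2⟩ := mem_filter.1 hx
        refine mem_filter.2 ⟨mem_filter.2 ⟨mem_univ _, fun h => (mem_filter.1 hx1).2 ?_⟩, ?_⟩
        · have h' := hM4sx (hM4sx h); rwa [hsx3] at h'
        · rwa [← hsx_inv, hkeysx, hkeysx]
      set η : X → ℂ := fun u => ∑ x ∈ H, (x u : ℂ) with hηdef
      have hηinv : ∀ u, η (σ u) = η u := hsuminv H hHsx
      obtain ⟨h0, hh0⟩ := D.int η (hsumgen H) hηinv χ χ
      have hMinv : ∀ u, ∑ x ∈ M4, (x (σ u) : ℂ) = ∑ x ∈ M4, (x u : ℂ) := hsuminv M4 fun x hx => hM4sx hx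
      obtain ⟨m0, hm0⟩ := D.int _ (hsumgen M4) hMinv χ χ
      have hsplit : (fun u => if u = 1 then (N : ℂ) else 0) =
          (fun u => ∑ x ∈ M4, (x u : ℂ)) + (η + fun u => conj (η u)) := by
        funext u
        simp only [Pi.add_apply]
        rw [← CfsgLib.BlockSections.Exceptional.sum_hom_apply u, ← sum_filter_add_sum_filter_not univ (fun x => x ∈ M4)]
        congr 1
        · exact sum_congr (by ext; simp) fun _ _ => rfl
        rw [← hL2, ← sum_filter_add_sum_filter_not L2 (fun x => key x < key x⁻¹)]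
        congr 1
        simp only [hηdef, map_sum, CfsgLib.BlockSections.Exceptional.conj_unit]
        refine sum_nbij' (·⁻¹) (·⁻¹) ?_ ?_ (fun x _ => inv_inv x) (fun x _ => inv_inv x) (fun x _ => by simp)
        · intro x hx
          obtain ⟨hx1, hx2⟩ := mem_filter.1 hx
          refine mem_filter.2 ⟨mem_filter.2 ⟨mem_univ _, fun h => (mem_filter.1 hx1).2 ?_⟩, ?_⟩
          · rw [hM4, ← inv_inj, ← inv_pow, inv_one]; exact hM4.1 h
          · rw [inv_inv]
            exact lt_of_le_of_ne (not_lt.1 hx2) (hkeyinv x hx1)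
        · intro x hx
          obtain ⟨hx1, hx2⟩ := mem_filter.1 hx
          refine mem_filter.2 ⟨mem_filter.2 ⟨mem_univ _, fun h => (mem_filter.1 hx1).2 ?_⟩, ?_⟩
          · rw [hM4, ← inv_inj, ← inv_pow, inv_one]; exact hM4.1 h
          · rw [inv_inv]
            exact hx2.le.not_gt
      have hF := congrArg (fun f => pairF S f χ χ) hsplit
      simp only [pairF_add] at hF
      rw [← hconjF η χ χ, hh0, map_intCast, hm0] at hF
      have hδ : pairF S (fun u => if u = 1 then (N : ℂ) else 0) χ χ = (N : ℂ) * S 1 χ χ := by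
        rw [pairF, sum_eq_single (1 : X) (fun u _ hu => by rw [if_neg hu]; simp)
          fun h => absurd (mem_univ _) h]
        simp [thirdWgt]
      rw [hδ, hz1] at hF
      have hQm : (Q χ χ : ℂ) = 4 - (m0 : ℂ) := by
        rw [← hQ, show ηT = (fun u => (4 : ℂ) * 1) - fun u => ∑ μ ∈ M4, (μ u : ℂ) from
          funext fun u => by simp [hηTdef], pairF_sub, pairF_const_mul, D.one, hm0, mul_one]
      have e1 : z = m0 + (h0 + h0) := by exact_mod_cast hF
      have e2 : Q χ χ = 4 - m0 := by exact_mod_cast hQm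
      omega
    · -- twice a positive element of the ideal
      obtain ⟨c, hc⟩ := hfourier χ
      have hhalf : ∀ u ∈ top, ((α u χ / 2 : ℝ) : ℂ) = ∑ x : X →* ℂˣ, (((c x : ℚ) / 2 : ℚ) : ℂ) * (x u : ℂ) := by
        intro u hu
        push_cast
        rw [hc u (htopne u hu), sum_div]
        exact sum_congr rfl fun x _ => by ring
      have hw : ∀ u ∈ top, IsIntegral ℤ ((α u χ / 2 : ℝ) : ℂ) ∧ MemLocalIdeal M ((α u χ / 2 : ℝ) : ℂ) := by
        intro u hu
        obtain ⟨w, hw1, hw2, hw3⟩ := hev u (htopne u hu)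
        have : ((α u χ / 2 : ℝ) : ℂ) = w := by
          push_cast
          rw [(hα u (htopne u hu) χ).2, hw3]; ring
        rw [this]; exact ⟨hw1, hw2⟩
      obtain ⟨u0, hu0⟩ := card_pos.1 htop0
      have hlt := one_lt_prod_fourier hM (fun x => (c x : ℚ) / 2) top (fun u => α u χ / 2) htoppow
        (fun u hu => half_pos (hα u (htopne u hu) χ).1) (fun u hu => (hw u hu).1) hhalf hu0 (hw u0 hu0).2
      have h := (mean_one_of_prod top (fun u => α u χ / 2)
        (fun u hu => half_pos (hα u (htopne u hu) χ).1) hlt.le).2.2 hlt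
      rw [← sum_div, ← hA, h2] at h
      push_cast at h
      linarith
  have hQpos : ∀ χ, 1 ≤ Q χ χ := fun χ => by exact_mod_cast (hmean χ).1
  -- the trace
  have htr : ∑ χ, Q χ χ = (N : ℤ) := by
    have h : ∑ χ, pairF S ηT χ χ = (N : ℂ) := by
      simp only [pairF]
      rw [sum_comm, sum_congr rfl (g := fun u => if u ∈ top then (4 / 3 : ℂ) else 0) (fun u _ => by
        rw [← mul_sum, hηTval]
        split_ifs with hu
        · rw [D.trace u (htopne u hu), thirdWgt, if_neg (htopne u hu)]; ring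
        · simp), sum_ite_mem, univ_inter, sum_const, nsmul_eq_mul]
      have h4 : (4 : ℂ) * top.card = 3 * N := by exact_mod_cast htopcard
      linear_combination h4 / 3
    simp only [hQ] at h
    exact_mod_cast h
  -- a character with average one
  obtain ⟨χ0, hχ0⟩ : ∃ χ, Q χ χ = 1 := by
    by_contra hne
    push Not at hne
    have h3 : ∀ χ, 3 ≤ Q χ χ := fun χ => by
      have := hQpos χ; have := hne χ; have := hno2 χ; omega
    have := sum_le_sum (s := (univ : Finset I)) fun χ _ => h3 χ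
    rw [sum_const, card_univ, nsmul_eq_mul, htr] at this
    omega
  have hα1 := (hmean χ0).2 hχ0
  have hinner : ∀ η η' : X → ℂ, IsGeneralizedCharacter X η → (∀ u, η (σ u) = η u) →
      (∀ u, η' (σ u) = η' u) → (∀ u, u ∉ top → η u = 0) →
      ∑ ψ, pairF S η χ0 ψ * conj (pairF S η' χ0 ψ) =
        (3 * (N : ℂ))⁻¹ * ∑ u : X, η u * conj (η' u) := by
    intro η η' h1 h2 h3 h4
    rw [D.mul η η' h1 h2 h3, htopF _ (fun u hu => by rw [h4 u hu, zero_mul]),
      ← sum_subset (subset_univ top) fun u _ hu => by rw [h4 u hu, zero_mul]]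
    congr 1
    exact sum_congr rfl fun u hu => by rw [hα1 u hu]; simp
  -- orbits and the rows
  set O : (X →* ℂˣ) → Finset (X →* ℂˣ) := fun x => {x, sx x, sx (sx x)} with hOdef
  have hOsx : ∀ x, ∀ y ∈ O x, sx y ∈ O x := fun x y hy => by
    simp only [hOdef, mem_insert, mem_singleton] at hy ⊢
    rcases hy with rfl | rfl | rfl
    · exact Or.inr (Or.inl rfl)
    · exact Or.inr (Or.inr rfl)
    · exact Or.inl (hsx3 x)
  have hOcard : ∀ x, x ≠ 1 → (O x).card = 3 := fun x hx => by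
    rw [hOdef]
    exact card_eq_three.2 ⟨x, sx x, sx (sx x), fun e => hx (hsx_free x e.symm),
      fun e => hx (hsx_free2 x e.symm), fun e => hx (hsx_free x (hsx_inj e).symm), rfl⟩
  have hOeq : ∀ x y, y ∈ O x → O y = O x := by
    intro x y hy
    simp only [hOdef, mem_insert, mem_singleton] at hy
    rcases hy with rfl | rfl | rfl
    · rfl
    · ext z; simp only [hOdef, hsx3, mem_insert, mem_singleton]; tauto
    · ext z; simp only [hOdef, hsx3, mem_insert, mem_singleton]; tauto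
  set Lam : (X →* ℂˣ) → X → ℂ := fun x u => ∑ y ∈ O x, (y u : ℂ) with hLamdef
  have hLinv : ∀ x u, Lam x (σ u) = Lam x u := fun x => hsuminv (O x) (hOsx x)
  choose ρ hρ using fun x ψ => D.int (Lam x) (hsumgen (O x)) (hLinv x) χ0 ψ
  have hρsx : ∀ x ψ, ρ (sx x) ψ = ρ x ψ := fun x ψ => by
    have h := hρ (sx x) ψ
    rw [show Lam (sx x) = Lam x from funext fun u =>
      sum_congr (hOeq x (sx x) (by simp [hOdef])) fun _ _ => rfl, hρ] at h
    exact_mod_cast h.symm
  set L : Finset (X →* ℂˣ) := univ.filter fun x => x ∉ M4 with hLdef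
  have hLmem : ∀ {x}, x ∈ L ↔ x ∉ M4 := fun {x} => by simp [hLdef]
  have hLcard : (L.card : ℤ) = (N : ℤ) - 4 := by
    have h := card_filter_add_card_filter_not (s := (univ : Finset (X →* ℂˣ))) (fun x => x ∈ M4)
    rw [filter_mem_eq_inter, univ_inter, hM4card, card_univ, ← hLdef,
      ← Nat.card_eq_fintype_card, CommGroup.card_monoidHom_of_hasEnoughRootsOfUnity,
      Nat.card_eq_fintype_card] at h
    omega
  have hL1 : ∀ {x}, x ∈ L → x ≠ 1 := fun hx e => hLmem.1 hx (e ▸ hM4one)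
  have hLmul : ∀ {x μ}, x ∈ L → μ ∈ M4 → x * μ ∈ L := fun {x μ} hx hμ => hLmem.2 fun h => by
    have h' := hM4mul h hμ
    rw [mul_assoc, hM4self hμ, mul_one] at h'
    exact hLmem.1 hx h'
  have hLsx : ∀ {x}, x ∈ L → sx x ∈ L := fun {x} hx => hLmem.2 fun h => by
    have h' := hM4sx (hM4sx h)
    rw [hsx3] at h'
    exact hLmem.1 hx h'
  have hnotO : ∀ {x μ}, x ∈ L → μ ∈ M4 → x * μ ∈ O x → μ = 1 := by
    intro x μ hx hμ h
    simp only [hOdef, mem_insert, mem_singleton] at h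
    have hsq : (x * μ) ^ 2 = x ^ 2 := by rw [mul_pow, hM4.1 hμ, mul_one]
    rcases h with h | h | h
    · exact mul_eq_left.1 h
    · refine absurd (hM4.2 (hsx_free _ ?_)) (hLmem.1 hx)
      rw [sq, hsx_mul, ← sq, ← h, hsq, sq]
    · refine absurd (hM4.2 (hsx_free2 _ ?_)) (hLmem.1 hx)
      rw [sq, hsx_mul, hsx_mul, ← sq, ← h, hsq, sq]
  set M3 := M4.erase 1 with hM3def
  have hM3card : M3.card = 3 := by rw [hM3def, card_erase_of_mem hM4one, hM4card]
  -- sums over orbits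
  have hOsub : ∀ {x}, x ∈ L → O x ⊆ L := fun {x} hx y hy => by
    simp only [hOdef, mem_insert, mem_singleton] at hy
    rcases hy with rfl | rfl | rfl
    exacts [hx, hLsx hx, hLsx (hLsx hx)]
  have hmemO : ∀ x, x ∈ O x := fun x => by simp [hOdef]
  have hO3 : ∀ {x}, x ∈ L → ∀ f : (X →* ℂˣ) → ℤ, (∀ y, f (sx y) = f y) →
      ∑ y ∈ O x, f y = 3 * f x := by
    intro x hx f hf
    have h : ∀ y ∈ O x, f y = f x := fun y hy => by
      simp only [hOdef, mem_insert, mem_singleton] at hy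
      rcases hy with rfl | rfl | rfl
      · rfl
      · exact hf x
      · rw [hf, hf]
    rw [sum_congr rfl h, sum_const, hOcard x (hL1 hx), nsmul_eq_mul, Nat.cast_ofNat]
  have hLam3 : ∀ {x}, x ∈ L → ∀ u, Lam x u = (x u : ℂ) + (sx x u : ℂ) + (sx (sx x) u : ℂ) := by
    intro x hx u
    have h1 : x ∉ ({sx x, sx (sx x)} : Finset (X →* ℂˣ)) := by
      simp only [mem_insert, mem_singleton, not_or]
      exact ⟨fun e => hL1 hx (hsx_free x e.symm), fun e => hL1 hx (hsx_free2 x e.symm)⟩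
    simp only [hLamdef, hOdef]
    rw [sum_insert h1, sum_pair fun e => hL1 hx (hsx_free x (hsx_inj e).symm), add_assoc]
  have hvan : ∀ {x μ}, x ∈ L → μ ∈ M4 → ∀ u, u ∉ top → Lam x u - Lam (x * μ) u = 0 := by
    intro x μ hx hμ u hu
    have h1 : ∀ ν ∈ M4, ν u = 1 := fun ν hν => by
      by_contra h; exact hu (mem_filter.2 ⟨mem_univ _, ν, hν, h⟩)
    rw [sub_eq_zero, hLam3 hx, hLam3 (hLmul hx hμ), hsx_mul, hsx_mul]
    simp only [MonoidHom.mul_apply, h1 μ hμ, h1 _ (hM4sx hμ), h1 _ (hM4sx (hM4sx hμ)), mul_one]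
  have hLamsum : ∀ {x}, x ∈ L → ∑ u : X, Lam x u = 0 := by
    intro x hx
    simp only [hLamdef]
    rw [sum_comm]
    exact sum_eq_zero fun y hy => by
      rw [CfsgLib.BlockSections.Exceptional.sum_apply_hom, if_neg (hL1 (hOsub hx hy))]
  set ind : (X →* ℂˣ) → (X →* ℂˣ) → ℤ := fun a b => if b ∈ O a then 1 else 0 with hinddef
  have hLamip : ∀ {a b}, a ∈ L → b ∈ L →
      ∑ u : X, Lam a u * conj (Lam b u) = 3 * (N : ℂ) * (ind a b : ℂ) := by
    intro a b ha hb
    have e : ∀ y z : X →* ℂˣ, ∑ u : X, (y u : ℂ) * conj (z u : ℂ) = if y = z then (N : ℂ) else 0 := by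
      intro y z
      rw [sum_congr rfl (g := fun u => ((y * z⁻¹) u : ℂ)) fun u _ => by
        rw [CfsgLib.BlockSections.Exceptional.conj_unit, MonoidHom.mul_apply, Units.val_mul],
        CfsgLib.BlockSections.Exceptional.sum_apply_hom]
      simp only [mul_inv_eq_one, ← hN]
    simp only [hLamdef, map_sum, sum_mul_sum]
    rw [sum_comm, sum_congr rfl (g := fun y => if y ∈ O b then (N : ℂ) else 0) fun y _ => by
      rw [sum_comm, sum_congr rfl fun z _ => e y z, sum_ite_eq]]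
    simp only [hinddef]
    split_ifs with h
    · rw [hOeq a b h, sum_ite_mem, inter_self, sum_const, hOcard a (hL1 ha)]
      simp
    · rw [sum_eq_zero fun y hy => by
        rw [if_neg fun hy' => h (by rw [← hOeq a y hy, hOeq b y hy']; exact hmemO b)]]
      simp
  -- the vectors
  set v : I → ℤ := fun ψ => Q χ0 ψ with hvdef
  set r : (X →* ℂˣ) → (X →* ℂˣ) → I → ℤ := fun x μ ψ => ρ x ψ - ρ (x * μ) ψ with hrdef
  set eps : (X →* ℂˣ) → (X →* ℂˣ) → (X →* ℂˣ) → ℤ :=
    fun x μ y => ind x y - ind (x * μ) y with hepsdef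
  let η0 : (X →* ℂˣ) → (X →* ℂˣ) → X → ℂ := fun x μ => Lam x - Lam (x * μ)
  have hη0F : ∀ x μ ψ, pairF S (η0 x μ) χ0 ψ = (r x μ ψ : ℂ) := fun x μ ψ => by
    simp only [η0, pairF_sub, hρ, hrdef, Int.cast_sub]
  have hη0gen : ∀ x μ, IsGeneralizedCharacter X (η0 x μ) := fun x μ =>
    CfsgLib.Brauer.isGeneralizedCharacter_sub (hsumgen (O x)) (hsumgen (O (x * μ)))
  have hη0inv : ∀ x μ u, η0 x μ (σ u) = η0 x μ u := fun x μ u => by
    simp only [η0, Pi.sub_apply, hLinv]
  have hη0top : ∀ {x μ}, x ∈ L → μ ∈ M4 → ∀ u, u ∉ top → η0 x μ u = 0 := fun {x μ} hx hμ u hu => by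
    simp only [η0, Pi.sub_apply]; exact hvan hx hμ u hu
  have h3N : (3 * (N : ℂ)) ≠ 0 := mul_ne_zero (by norm_num) hN0
  have hrr : ∀ {x μ x' μ'}, x ∈ L → μ ∈ M4 → x' ∈ L → μ' ∈ M4 →
      ∑ ψ, r x μ ψ * r x' μ' ψ = eps x μ x' - eps x μ (x' * μ') := by
    intro x μ x' μ' hx hμ hx' hμ'
    have h := hinner (η0 x μ) (η0 x' μ') (hη0gen x μ) (hη0inv x μ) (hη0inv x' μ') (hη0top hx hμ)
    simp only [hη0F, map_intCast] at h
    simp only [η0, Pi.sub_apply, map_sub, sub_mul, mul_sub, sum_sub_distrib, hLamip hx hx',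
      hLamip hx (hLmul hx' hμ'), hLamip (hLmul hx hμ) hx', hLamip (hLmul hx hμ) (hLmul hx' hμ')] at h
    have h' : ((∑ ψ, r x μ ψ * r x' μ' ψ : ℤ) : ℂ) = ((eps x μ x' - eps x μ (x' * μ') : ℤ) : ℂ) := by
      push_cast
      rw [h]
      simp only [hepsdef]
      push_cast
      field_simp
    exact_mod_cast h'
  have hvr : ∀ {x μ}, x ∈ L → μ ∈ M4 → ∑ ψ, r x μ ψ * v ψ = 0 := by
    intro x μ hx hμ
    have h := hinner (η0 x μ) ηT (hη0gen x μ) (hη0inv x μ) hηTinv (hη0top hx hμ)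
    simp only [hη0F, hQ, map_intCast] at h
    rw [sum_congr rfl (g := fun u => 4 * η0 x μ u) (fun u _ => by
      by_cases hu : u ∈ top
      · rw [hηTval, if_pos hu, map_ofNat, mul_comm]
      · rw [hη0top hx hμ u hu, zero_mul, mul_zero]), ← mul_sum] at h
    simp only [η0, Pi.sub_apply, sum_sub_distrib, hLamsum hx, hLamsum (hLmul hx hμ), sub_zero,
      mul_zero] at h
    exact_mod_cast h
  have hvv : ∑ ψ, v ψ * v ψ = 4 := by
    simp only [hvdef]; rw [hQQ, hχ0]; norm_num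
  have hQv : ∀ φ, ∑ ψ, Q φ ψ * v ψ = 4 * v φ := fun φ => by
    simp only [hvdef]; rw [hQQ, hQsymm]
  have hQr : ∀ {x μ}, x ∈ L → μ ∈ M4 → ∀ φ, ∑ ψ, Q φ ψ * r x μ ψ = 4 * r x μ φ := by
    intro x μ hx hμ φ
    have h := D.mul (η0 x μ) ηT (hη0gen x μ) (hη0inv x μ) hηTinv χ0 φ
    rw [show (fun u => η0 x μ u * conj (ηT u)) = fun u => 4 * η0 x μ u from funext fun u => by
      by_cases hu : u ∈ top
      · rw [hηTval, if_pos hu, map_ofNat, mul_comm]
      · rw [hη0top hx hμ u hu, zero_mul, mul_zero], pairF_const_mul] at h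
    simp only [hη0F, hQ, map_intCast] at h
    rw [sum_congr rfl fun ψ _ => mul_comm (Q φ ψ) (r x μ ψ)]
    exact_mod_cast h
  -- the matrix spanned by the vectors
  set R : I → I → ℤ := fun φ ψ => 6 * (v φ * v ψ) + ∑ x ∈ L, ∑ μ ∈ M3, r x μ φ * r x μ ψ with hRdef
  have hM3mem : ∀ {μ}, μ ∈ M3 → μ ∈ M4 := fun h => mem_of_mem_erase h
  have hRapply : ∀ (w : I → ℤ) φ, ∑ ψ, R φ ψ * w ψ =
      6 * v φ * ∑ ψ, v ψ * w ψ + ∑ x ∈ L, ∑ μ ∈ M3, r x μ φ * ∑ ψ, r x μ ψ * w ψ := by
    intro w φ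
    simp only [hRdef, add_mul, sum_add_distrib, sum_mul, mul_sum]
    congr 1
    · exact sum_congr rfl fun ψ _ => by ring
    rw [sum_comm]
    refine sum_congr rfl fun x _ => ?_
    rw [sum_comm]
    exact sum_congr rfl fun μ _ => sum_congr rfl fun ψ _ => by ring
  have hRv : ∀ φ, ∑ ψ, R φ ψ * v ψ = 24 * v φ := fun φ => by
    rw [hRapply, hvv, sum_eq_zero fun x hx => sum_eq_zero fun μ hμ => by
      rw [hvr hx (hM3mem hμ), mul_zero]]
    ring
  have hM4sum : ∀ {ν}, ν ∈ M4 → ∀ f : (X →* ℂˣ) → ℤ, ∑ y ∈ L, f (y * ν) = ∑ y ∈ L, f y := by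
    intro ν hν f
    exact sum_nbij' (· * ν) (· * ν) (fun y hy => hLmul hy hν) (fun y hy => hLmul hy hν)
      (fun y _ => by simp only [mul_assoc, hM4self hν, mul_one])
      (fun y _ => by simp only [mul_assoc, hM4self hν, mul_one]) (fun _ _ => rfl)
  have heps : ∀ {x μ}, x ∈ L → μ ∈ M4 → ∀ f : (X →* ℂˣ) → ℤ, (∀ y, f (sx y) = f y) →
      ∑ y ∈ L, eps x μ y * f y = 3 * f x - 3 * f (x * μ) := by
    intro x μ hx hμ f hf
    simp only [hepsdef, hinddef, sub_mul, sum_sub_distrib, ite_mul, one_mul, zero_mul, sum_ite_mem]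
    rw [inter_eq_right.2 (hOsub hx), inter_eq_right.2 (hOsub (hLmul hx hμ)), hO3 hx f hf,
      hO3 (hLmul hx hμ) f hf]
  have hRr : ∀ {x μ}, x ∈ L → μ ∈ M3 → ∀ φ, ∑ ψ, R φ ψ * r x μ ψ = 24 * r x μ φ := by
    intro x μ hx hμ3 φ
    have hμ := hM3mem hμ3
    have hv0 : ∑ ψ, v ψ * r x μ ψ = 0 := by
      rw [sum_congr rfl fun ψ _ => mul_comm (v ψ) (r x μ ψ), hvr hx hμ]
    rw [hRapply, hv0, mul_zero, zero_add]
    set f : (X →* ℂˣ) → ℤ := fun y => ρ y φ with hfdef
    set Sf : (X →* ℂˣ) → ℤ := fun y => ∑ ν ∈ M4, f (y * ν) with hSfdef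
    have hfsx : ∀ y, f (sx y) = f y := fun y => hρsx y φ
    have hSsx : ∀ y, Sf (sx y) = Sf y := fun y => by
      refine (sum_nbij' sx (fun ν => sx (sx ν)) (fun ν hν => hM4sx hν)
        (fun ν hν => hM4sx (hM4sx hν)) (fun ν _ => hsx3 ν) (fun ν _ => hsx3 ν) (fun ν _ => ?_)).symm
      rw [← hsx_mul, hfsx]
    have hScos : Sf (x * μ) = Sf x := by
      refine sum_nbij' (μ * ·) (μ * ·) (fun ν hν => hM4mul hμ hν) (fun ν hν => hM4mul hμ hν)
        (fun ν _ => by simp only [← mul_assoc, hM4self hμ, one_mul])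
        (fun ν _ => by simp only [← mul_assoc, hM4self hμ, one_mul])
        (fun ν _ => by rw [mul_assoc])
    have hterm : ∀ y ∈ L, ∑ ν ∈ M3, r y ν φ * ∑ ψ, r y ν ψ * r x μ ψ =
        ∑ ν ∈ M4, (eps x μ y - eps x μ (y * ν)) * (f y - f (y * ν)) := by
      intro y hy
      rw [sum_congr rfl (g := fun ν => (eps x μ y - eps x μ (y * ν)) * (f y - f (y * ν)))
        fun ν hν => by
          rw [sum_congr rfl fun ψ _ => mul_comm (r y ν ψ) (r x μ ψ), hrr hx hμ hy (hM3mem hν),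
            mul_comm]]
      exact sum_erase _ (by simp)
    rw [sum_congr rfl hterm]
    have e1 : ∀ ν ∈ M4, ∑ y ∈ L, eps x μ (y * ν) * f y = ∑ y ∈ L, eps x μ y * f (y * ν) := by
      intro ν hν
      rw [← hM4sum hν fun y => eps x μ y * f (y * ν)]
      exact sum_congr rfl fun y _ => by rw [mul_assoc y ν ν, hM4self hν, mul_one]
    have e2 : ∀ ν ∈ M4, ∑ y ∈ L, eps x μ (y * ν) * f (y * ν) = ∑ y ∈ L, eps x μ y * f y :=
      fun ν hν => hM4sum hν fun y => eps x μ y * f y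
    have e3 : ∑ ν ∈ M4, ∑ y ∈ L, eps x μ y * f (y * ν) = ∑ y ∈ L, eps x μ y * Sf y := by
      rw [sum_comm]; simp only [hSfdef, mul_sum]
    rw [sum_comm, sum_congr rfl (g := fun ν => 2 * (∑ y ∈ L, eps x μ y * f y) -
      2 * ∑ y ∈ L, eps x μ y * f (y * ν)) fun ν hν => by
        simp only [sub_mul, mul_sub, sum_sub_distrib, e1 ν hν, e2 ν hν]
        ring, sum_sub_distrib, ← mul_sum, ← mul_sum, e3, sum_const, hM4card, heps hx hμ f hfsx,
      heps hx hμ Sf hSsx, hScos]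
    simp only [hfdef, hrdef, nsmul_eq_mul, Nat.cast_ofNat]
    ring
  have hRsymm : ∀ φ ψ, R φ ψ = R ψ φ := fun φ ψ => by
    simp only [hRdef]
    rw [mul_comm (v φ) (v ψ)]
    congr 1
    exact sum_congr rfl fun x _ => sum_congr rfl fun μ _ => mul_comm _ _
  have hlinR : ∀ (A : I → I → ℤ) (c : ℤ), (∀ φ, ∑ χ, A φ χ * v χ = c * v φ) →
      (∀ {x μ}, x ∈ L → μ ∈ M3 → ∀ φ, ∑ χ, A φ χ * r x μ χ = c * r x μ φ) →
      ∀ φ ψ, ∑ χ, A φ χ * R χ ψ = c * R φ ψ := by
    intro A c hv hr φ ψ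
    simp only [hRdef, mul_add, sum_add_distrib, mul_sum]
    congr 1
    · rw [show c * (6 * (v φ * v ψ)) = c * v φ * (6 * v ψ) by ring, ← hv, sum_mul]
      exact sum_congr rfl fun χ _ => by ring
    rw [sum_comm]
    refine sum_congr rfl fun x hx => ?_
    rw [sum_comm]
    refine sum_congr rfl fun μ hμ => ?_
    rw [show c * (r x μ φ * r x μ ψ) = c * r x μ φ * r x μ ψ by ring, ← hr hx hμ, sum_mul]
    exact sum_congr rfl fun χ _ => by ring
  have hQR := hlinR Q 4 hQv fun hx hμ φ => hQr hx (hM3mem hμ) φ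
  have hRR := hlinR R 24 hRv hRr
  have hind0 : ∀ {x μ}, x ∈ L → μ ∈ M3 → ind (x * μ) x = 0 := fun {x μ} hx hμ => by
    simp only [hinddef]
    rw [if_neg fun h => ne_of_mem_erase hμ (hnotO (hLmul hx (hM3mem hμ)) (hM3mem hμ)
      (by rwa [mul_assoc, hM4self (hM3mem hμ), mul_one]))]
  have hind0' : ∀ {x μ}, x ∈ L → μ ∈ M3 → ind x (x * μ) = 0 := fun {x μ} hx hμ => by
    simp only [hinddef]
    rw [if_neg fun h => ne_of_mem_erase hμ (hnotO hx (hM3mem hμ) h)]
  have hind1 : ∀ x, ind x x = 1 := fun x => by simp only [hinddef, if_pos (hmemO x)]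
  have htrR : ∑ φ, R φ φ = 6 * (N : ℤ) := by
    simp only [hRdef, sum_add_distrib, ← mul_sum]
    rw [hvv, sum_comm, sum_congr rfl (g := fun _ => (6 : ℤ)) fun x hx => by
      rw [sum_comm, sum_congr rfl (g := fun _ => (2 : ℤ)) fun μ hμ => by
        rw [hrr hx (hM3mem hμ) hx (hM3mem hμ)]
        simp only [hepsdef, hind0 hx hμ, hind0' hx hμ, hind1]
        norm_num, sum_const, hM3card]
      norm_num, sum_const, nsmul_eq_mul, hLcard]
    ring
  have hkey : ∀ φ ψ, 6 * Q φ ψ = R φ ψ := by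
    have hsq : ∑ φ, ∑ ψ, (6 * Q φ ψ - R φ ψ) ^ 2 = 0 := by
      have hexp : ∀ φ, ∑ ψ, (6 * Q φ ψ - R φ ψ) ^ 2 = 144 * Q φ φ - 24 * R φ φ := by
        intro φ
        have h1 : ∑ ψ, Q φ ψ * R φ ψ = 4 * R φ φ := by
          rw [← hQR φ φ]; exact sum_congr rfl fun ψ _ => by rw [hRsymm φ ψ]
        have h2 : ∑ ψ, R φ ψ * R φ ψ = 24 * R φ φ := by
          rw [← hRR φ φ]; exact sum_congr rfl fun ψ _ => by rw [hRsymm ψ φ]
        have h3 := hQQ φ φ
        rw [sum_congr rfl (g := fun ψ => 36 * (Q φ ψ * Q φ ψ) - 12 * (Q φ ψ * R φ ψ) +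
          R φ ψ * R φ ψ) fun ψ _ => by ring, sum_add_distrib, sum_sub_distrib, ← mul_sum,
          ← mul_sum, h1, h2, h3]
        ring
      rw [sum_congr rfl fun φ _ => hexp φ, sum_sub_distrib, ← mul_sum, ← mul_sum, htr, htrR]
      ring
    intro φ ψ
    have h := (sum_eq_zero_iff_of_nonneg fun φ _ => sum_nonneg fun ψ _ => sq_nonneg _).1 hsq φ
      (mem_univ _)
    have h' := (sum_eq_zero_iff_of_nonneg fun ψ _ => sq_nonneg _).1 h ψ (mem_univ _)
    exact sub_eq_zero.1 (pow_eq_zero_iff two_ne_zero |>.1 h')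
  -- the diagonal
  have hdiag : ∀ ψ, Q ψ ψ + 2 * (v ψ * v ψ) = 3 := by
    intro ψ
    set w : (X →* ℂˣ) → ℤ := fun y => ∑ ν ∈ M4, (ρ y ψ - ρ (y * ν) ψ) ^ 2 with hwdef
    have hwnn : ∀ y, 0 ≤ w y := fun y => sum_nonneg fun ν _ => sq_nonneg _
    have h6 : 6 * Q ψ ψ = 6 * (v ψ * v ψ) + ∑ y ∈ L, w y := by
      rw [hkey]
      simp only [hRdef]
      congr 1
      refine sum_congr rfl fun y _ => ?_
      simp only [hrdef, hwdef, sq]
      exact sum_erase _ (by simp)
    have h1 := hQpos ψ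
    have h3 := hub ψ
    by_cases hall : ∀ y ∈ L, w y = 0
    · rw [sum_eq_zero hall] at h6
      have h4 : v ψ * v ψ ≤ 3 := by omega
      have hv1 : -1 ≤ v ψ ∧ v ψ ≤ 1 := ⟨by nlinarith, by nlinarith⟩
      rcases (show v ψ = -1 ∨ v ψ = 0 ∨ v ψ = 1 by omega) with hv | hv | hv <;>
        (rw [hv] at h6 ⊢; omega)
    push Not at hall
    obtain ⟨x, hx, hwx⟩ := hall
    have hwsx : ∀ y, w (sx y) = w y := fun y => by
      refine (sum_nbij' sx (fun ν => sx (sx ν)) (fun ν hν => hM4sx hν)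
        (fun ν hν => hM4sx (hM4sx hν)) (fun ν _ => hsx3 ν) (fun ν _ => hsx3 ν) (fun ν _ => ?_)).symm
      rw [← hsx_mul, hρsx, hρsx]
    obtain ⟨μ, hμ, hμ0⟩ := exists_ne_zero_of_sum_ne_zero hwx
    have hW := six_le_sum_sq_sub M4 hM4card (fun ν => ρ (x * ν) ψ) hM4one hμ
      (fun e => hμ0 (by simp only [mul_one] at e; simp [e]))
    have hW' : ∑ ν ∈ M4, ∑ ν' ∈ M4, (ρ (x * ν) ψ - ρ (x * ν') ψ) ^ 2 = ∑ ν ∈ M4, w (x * ν) := by
      refine sum_congr rfl fun ν hν => ?_
      refine sum_nbij' (ν * ·) (ν * ·) (fun t ht => hM4mul hν ht) (fun t ht => hM4mul hν ht)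
        (fun t _ => by simp only [← mul_assoc, hM4self hν, one_mul])
        (fun t _ => by simp only [← mul_assoc, hM4self hν, one_mul]) (fun t _ => ?_)
      rw [← mul_assoc (x * ν) ν t, mul_assoc x ν ν, hM4self hν, mul_one]
    have hdisj : (M4 : Set (X →* ℂˣ)).PairwiseDisjoint fun ν => O (x * ν) := by
      intro a ha b hb hne
      rw [Function.onFun, disjoint_left]
      intro y hya hyb
      have hb' : x * b ∈ O (x * a) := by
        rw [← hOeq _ _ hya, hOeq _ _ hyb]; exact hmemO _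
      refine hne ?_
      have h := hnotO (hLmul hx ha) (hM4mul ha hb) (by
        rwa [mul_assoc x a, ← mul_assoc a a b, hM4self ha, one_mul])
      rw [← one_mul b, ← hM4self ha, mul_assoc, h, mul_one]
    have hge : 18 ≤ ∑ y ∈ L, w y := by
      have hsub : M4.biUnion (fun ν => O (x * ν)) ⊆ L :=
        biUnion_subset.2 fun ν hν => hOsub (hLmul hx hν)
      refine le_trans ?_ (sum_le_sum_of_subset_of_nonneg hsub fun y _ _ => hwnn y)
      rw [sum_biUnion hdisj, sum_congr rfl fun ν hν => hO3 (hLmul hx hν) w hwsx, ← mul_sum, ← hW']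
      linarith
    have hv0 : v ψ = 0 := by
      by_contra hne
      have : 0 < v ψ * v ψ := mul_self_pos.2 hne
      omega
    rw [hv0] at h6 ⊢
    omega
  have hfin := sum_congr (s₁ := (univ : Finset I)) rfl fun ψ _ => hdiag ψ
  rw [sum_add_distrib, ← mul_sum, htr, hvv, sum_const, card_univ, nsmul_eq_mul] at hfin
  omega

end Count

end CfsgLib.ZerosCodegree
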