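import Cfsg.Agent.Lib.ZerosCodegree.CharsOver
import Cfsg.Agent.Lib.ZerosCodegree.PowerTwist
import Cfsg.Agent.Lib.RealChar.Extension

/-!
Characters fixed by a power map inverting an odd quotient: there is exactly one over a fixed
character of the normal subgroup, and it extends an invariant one.
-/

set_option autoImplicit false
set_option linter.style.haveILetI false

namespace CfsgLib.ZerosCodegree

open Cfsg CfsgLib.CharTheory
open scoped ComplexConjugate

universe u

theorem eq_one_of_isConj_inv {Q : Type*} [Group Q] [Finite Q] (hodd : Odd (Nat.card Q)) {q : Q}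
    (h : IsConj q⁻¹ q) : q = 1 := by
  obtain ⟨c, hc⟩ := isConj_iff.1 h
  have hc' : c * q * c⁻¹ = q⁻¹ := by
    have := congrArg (fun x => x⁻¹) hc
    simpa [mul_assoc] using this
  have h2 : Commute (c ^ 2) q := by
    show c ^ 2 * q = q * c ^ 2
    calc c ^ 2 * q = c * (c * q * c⁻¹) * c := by rw [pow_two]; group
      _ = (c * q⁻¹ * c⁻¹) * (c * c) := by rw [hc']; group
      _ = q * c ^ 2 := by rw [hc, pow_two]
  have ho : Odd (orderOf c) := hodd.of_dvd_nat (orderOf_dvd_natCard c)
  have hcq : Commute c q := by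
    obtain ⟨j, hj⟩ := ho
    have h3 : (c ^ 2) ^ (j + 1) = c := by
      rw [← pow_mul, show 2 * (j + 1) = orderOf c + 1 by omega, pow_succ, pow_orderOf_eq_one, one_mul]
    rw [← h3]
    exact h2.pow_left _
  rw [hcq.eq, mul_inv_cancel_right] at hc'
  have hsq : q ^ 2 = 1 := by rw [pow_two]; nth_rewrite 2 [hc']; exact mul_inv_cancel q
  have := Nat.dvd_gcd (orderOf_dvd_natCard q) (orderOf_dvd_of_pow_eq_one hsq)
  rw [hodd.coprime_two_right.gcd_eq_one, Nat.dvd_one, orderOf_eq_one_iff] at this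
  exact this

section

variable {G : Type u} [Group G] [Fintype G] (N : Subgroup G) [N.Normal] [Fintype N]

/-- Exactly one character over a fixed `θ` is fixed. -/
theorem existsUnique_fixed_over (hidx : Odd N.index) {k e : ℕ} (hk : k.Coprime (Nat.card G))
    (hinv : ∀ g : G, g ^ k * g ∈ N) (θ : IrrCharacter N) (hθ : powTwist k (θ : N → ℂ) = θ)
    (_ : k ^ (2 ^ e) ≡ 1 [MOD Nat.card G]) :
    ∃! χ : IrrCharacter G, classInner (fun n : N => (χ : G → ℂ) n) (θ : N → ℂ) ≠ 0 ∧
      powTwist k (χ : G → ℂ) = χ := by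
  classical
  haveI : Fintype (IrrCharacter G) := Fintype.ofFinite _
  haveI : Fintype (IrrCharacter N) := Fintype.ofFinite _
  let S := Finset.univ.filter fun χ : IrrCharacter G =>
    classInner (fun n : N => (χ : G → ℂ) n) (θ : N → ℂ) ≠ 0
  let O := CfsgLib.Clifford.conjOrbit N (θ : N → ℂ)
  choose m hm using fun χ : IrrCharacter G => IsCharacter.exists_classInner_eq_nat
    (CfsgLib.Coherence.isCharacter_comp (IsIrrCharacter.isCharacter χ.2) N.subtype) θ
  have hmS : ∀ χ : IrrCharacter G, classInner (fun n : N => (χ : G → ℂ) n) (θ : N → ℂ) = m χ := hm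
  have hres : ∀ χ ∈ S, (fun n : N => (χ : G → ℂ) n) = (m χ : ℂ) • ∑ η ∈ O, η := by
    intro χ hχ
    rw [← hmS χ]
    exact CfsgLib.Clifford.res_eq N χ.2 θ.2 (Finset.mem_filter.1 hχ).2
  have hpow : ∀ χ ∈ S, ∀ n : N, (χ : G → ℂ) ((n : G) ^ k) = (χ : G → ℂ) n := by
    intro χ hχ n
    have h1 := congrFun (hres χ hχ) (n ^ k)
    have h2 := congrFun (hres χ hχ) n
    rw [Pi.smul_apply, Finset.sum_apply] at h1 h2
    rw [← SubgroupClass.coe_pow, h1, h2]
    congr 1
    refine Finset.sum_congr rfl fun η hη => ?_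
    obtain ⟨g, rfl⟩ := (CfsgLib.Clifford.mem_conjOrbit N).1 hη
    have := congrFun (conjChar_powTwist N k (θ : N → ℂ) g) n
    rw [hθ] at this
    exact this.symm
  -- the fixed characters over θ, counted by a trace
  have hsum : ∑ χ ∈ S, classInner (powTwist k (χ : G → ℂ)) χ = 1 := by
    have hsplit : ∀ g : G, ∑ χ ∈ S, (χ : G → ℂ) (g ^ k) * conj ((χ : G → ℂ) g) =
        if g ∈ N then ∑ χ ∈ S, (χ : G → ℂ) g * conj ((χ : G → ℂ) g) else 0 := by
      intro g
      split_ifs with hg
      · exact Finset.sum_congr rfl fun χ hχ => by rw [hpow χ hχ ⟨g, hg⟩]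
      · refine sum_over_mul_conj_eq_zero N θ _ _ fun hcon => hg ?_
        have hq : ((g ^ k : G) : G ⧸ N) = (g : G ⧸ N)⁻¹ := eq_inv_of_mul_eq_one_left (by
          rw [← QuotientGroup.mk_mul]; exact (QuotientGroup.eq_one_iff _).2 (hinv g))
        rw [hq] at hcon
        exact (QuotientGroup.eq_one_iff g).1
          (eq_one_of_isConj_inv (by rwa [← Subgroup.index_eq_card]) hcon)
    have horbit : ∀ χ ∈ S, ∑ n : N, (χ : G → ℂ) n * conj ((χ : G → ℂ) n) =
        (Nat.card N : ℂ) * ((m χ : ℂ) * ((m χ : ℂ) * (O.card : ℂ))) := by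
      intro χ hχ
      have hself : classInner (fun n : N => (χ : G → ℂ) n) (fun n : N => (χ : G → ℂ) n) =
          (m χ : ℂ) * ((m χ : ℂ) * (O.card : ℂ)) := by
        nth_rewrite 2 [hres χ hχ]
        rw [classInner_smul_right, Complex.conj_natCast, classInner_sum_right,
          Finset.sum_congr rfl (g := fun _ => (m χ : ℂ)) fun η hη => by
            obtain ⟨g, rfl⟩ := (CfsgLib.Clifford.mem_conjOrbit N).1 hη
            rw [CfsgLib.Clifford.classInner_conjChar N (IsIrrCharacter.isClassFunction χ.2), hmS],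
          Finset.sum_const, nsmul_eq_mul]
        ring
      rw [← hself, classInner, mul_inv_cancel_left₀ (Nat.cast_ne_zero.2 (Nat.card_pos (α := N)).ne')]
    have hdeg : ∑ χ ∈ S, (m χ : ℂ) * ((m χ : ℂ) * (O.card : ℂ)) = (N.index : ℂ) := by
      have hf := CfsgLib.Frobenius.indFun_isClassFunction N (θ : N → ℂ)
      have h := congrFun (eq_sum_classInner hf) 1
      rw [CfsgLib.Frobenius.indFun_one, Finset.sum_apply] at h
      have hval : ∀ χ : IrrCharacter G,
          classInner (indFun N (θ : N → ℂ)) (χ : G → ℂ) = (m χ : ℂ) := fun χ => by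
        rw [CfsgLib.Frobenius.classInner_indFun N _ _ (IsIrrCharacter.isClassFunction χ.2),
          classInner_conj_symm, hmS, Complex.conj_natCast]
      simp only [Pi.smul_apply, smul_eq_mul, hval] at h
      rw [← Finset.sum_subset (Finset.subset_univ S) fun χ _ hχ => mul_eq_zero_of_left (by
        have := not_not.1 fun hne => hχ (Finset.mem_filter.2 ⟨Finset.mem_univ χ, hne⟩)
        rwa [hmS] at this) _] at h
      refine mul_right_cancel₀ (apply_one_ne_zero_of_isIrr θ.2) ?_
      rw [Finset.sum_mul, h]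
      refine Finset.sum_congr rfl fun χ hχ => ?_
      rw [CfsgLib.Clifford.apply_one_eq N χ.2 θ.2 (Finset.mem_filter.1 hχ).2, hmS]
      ring
    simp only [classInner, powTwist]
    rw [← Finset.mul_sum, Finset.sum_comm]
    simp only [hsplit]
    rw [← Finset.sum_filter, Finset.sum_subtype (Finset.univ.filter fun g : G => g ∈ N)
      (p := fun g => g ∈ N) (by simp), Finset.sum_comm, Finset.sum_congr rfl horbit, ← Finset.mul_sum,
      hdeg, ← Nat.cast_mul, Subgroup.card_mul_index,
      inv_mul_cancel₀ (Nat.cast_ne_zero.2 (Nat.card_pos (α := G)).ne')]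
  have hcount : (S.filter fun χ : IrrCharacter G => powTwist k (χ : G → ℂ) = χ).card = 1 := by
    have h : ∀ χ : IrrCharacter G, classInner (powTwist k (χ : G → ℂ)) χ =
        if powTwist k (χ : G → ℂ) = χ then 1 else 0 := fun χ =>
      classInner_irr (isIrrCharacter_powTwist hk χ.2) χ.2
    simp only [h, Finset.sum_boole] at hsum
    exact_mod_cast hsum
  obtain ⟨χ, hχ⟩ := Finset.card_eq_one.1 hcount
  have hmem : ∀ χ' : IrrCharacter G, χ' ∈ (S.filter fun χ : IrrCharacter G =>
      powTwist k (χ : G → ℂ) = χ) ↔ classInner (fun n : N => (χ' : G → ℂ) n) (θ : N → ℂ) ≠ 0 ∧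
        powTwist k (χ' : G → ℂ) = χ' := fun χ' => by simp [S]
  refine ⟨χ, (hmem χ).1 (hχ ▸ Finset.mem_singleton_self χ), fun χ' hχ' => ?_⟩
  have := (hmem χ').2 hχ'
  rwa [hχ, Finset.mem_singleton] at this

/-- An extendible fixed character has a fixed extension. -/
theorem exists_fixed_extension_of_extension (hidx : Odd N.index) {k : ℕ}
    (hk : k.Coprime (Nat.card G)) (hinv : ∀ g : G, g ^ k * g ∈ N) {θ : N → ℂ}
    (hθi : IsIrrCharacter N θ) (hθ : powTwist k θ = θ) {φ : G → ℂ} (hφ : IsIrrCharacter G φ)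
    (hφθ : ∀ n : N, φ n = θ n) :
    ∃ χ : G → ℂ, IsIrrCharacter G χ ∧ powTwist k χ = χ ∧ ∀ n : N, χ n = θ n := by
  have h1 : classInner (fun n : N => powTwist k φ n) θ = 1 := by
    rw [show (fun n : N => powTwist k φ n) = θ from funext fun n => by
      rw [powTwist_apply, ← SubgroupClass.coe_pow, hφθ]; exact congrFun hθ n]
    exact classInner_self_of_isIrr hθi
  obtain ⟨μ, hμN, hμ⟩ := exists_eq_mul_hom_of_extension N hφ (isIrrCharacter_powTwist hk hφ) hθi
    hφθ h1
  obtain ⟨j, hj⟩ := hidx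
  let ν : G →* ℂˣ := μ ^ (j + 1)
  have hνN : ∀ g ∈ N, ν g = 1 := fun g hg => by
    show μ g ^ (j + 1) = 1
    rw [hμN ⟨g, hg⟩, one_pow]
  have hνk : ∀ g : G, ν (g ^ k) = (ν g)⁻¹ := fun g =>
    eq_inv_of_mul_eq_one_left (by rw [← map_mul]; exact hνN _ (hinv g))
  have hν2 : ∀ g : G, ν g * ν g = μ g := fun g => by
    have hm : μ g ^ N.index = 1 := by
      rw [← map_pow]
      exact hμN ⟨_, Subgroup.pow_index_mem N g⟩
    show μ g ^ (j + 1) * μ g ^ (j + 1) = μ g
    rw [← pow_add, show j + 1 + (j + 1) = N.index + 1 by omega, pow_succ, hm, one_mul]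
  refine ⟨(fun g => (ν g : ℂ)) * φ, isIrrCharacter_mul_of_norm hφ
    (IsIrrCharacter.isCharacter (isIrrCharacter_linear ν)) (norm_hom_eq_one ν), funext fun g => ?_,
    fun n => ?_⟩
  · rw [powTwist_apply, Pi.mul_apply, Pi.mul_apply, hνk, show φ (g ^ k) = (μ g : ℂ) * φ g from
      congrFun hμ g, ← hν2 g, Units.val_mul, ← mul_assoc, ← mul_assoc, Units.inv_mul, one_mul]
  · rw [Pi.mul_apply, hνN _ n.2, Units.val_one, one_mul, hφθ]

end

/-- The case of a quotient of prime power order. -/
theorem exists_fixed_extension_primePow (q : ℕ) [Fact q.Prime] (n : ℕ) :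
    ∀ {U : Type u} [Group U] [Fintype U] (N : Subgroup U) [N.Normal] [Fintype N],
      N.index = q ^ n → Odd N.index → ∀ {k e : ℕ}, k.Coprime (Nat.card U) →
        k ^ (2 ^ e) ≡ 1 [MOD Nat.card U] → (∀ g : U, g ^ k * g ∈ N) →
        ∀ θ : IrrCharacter N, powTwist k (θ : N → ℂ) = θ →
          (∀ g : U, CfsgLib.Clifford.conjChar N (θ : N → ℂ) g = θ) →
            ∃ χ : U → ℂ, IsIrrCharacter U χ ∧ powTwist k χ = χ ∧ ∀ x : N, χ x = (θ : N → ℂ) x := by
  induction n with
  | zero =>
    intro U _ _ N _ _ hidx hodd k e hk _ hinv θ hθ _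
    have htop : N = ⊤ := Subgroup.index_eq_one.1 (by simpa using hidx)
    have hmem : ∀ g : U, g ∈ N := fun g => htop ▸ Subgroup.mem_top g
    let ι : U ≃* N :=
      { toFun := fun g => ⟨g, hmem g⟩, invFun := Subtype.val, left_inv := fun _ => rfl,
        right_inv := fun _ => rfl, map_mul' := fun _ _ => rfl }
    exact ⟨fun g => (θ : N → ℂ) (ι g), isIrrCharacter_comp_mulEquiv θ.2 ι,
      funext fun g => by rw [powTwist_apply, map_pow]; exact congrFun hθ (ι g), fun x => rfl⟩
  | succ n ih =>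
    intro U _ _ N _ _ hidx hodd k e hk hke hinv θ hθ hθinv
    classical
    have hq : q.Prime := Fact.out
    have hQ : IsPGroup q (U ⧸ N) := IsPGroup.of_card (by rw [← Subgroup.index_eq_card, hidx])
    haveI : Nontrivial (U ⧸ N) := Finite.one_lt_card_iff_nontrivial.1 (by
      rw [← Subgroup.index_eq_card, hidx]; exact Nat.one_lt_pow (Nat.succ_ne_zero n) hq.one_lt)
    obtain ⟨M, hM⟩ := Sylow.exists_subgroup_card_pow_prime (G := U ⧸ N) q (n := n) (by
      rw [← Subgroup.index_eq_card, hidx]; exact pow_dvd_pow q n.le_succ)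
    have hMidx : M.index = q := by
      refine Nat.eq_of_mul_eq_mul_left (pow_pos hq.pos n) ?_
      rw [← hM, Subgroup.card_mul_index, ← Subgroup.index_eq_card, hidx, hM, pow_succ]
    haveI : M.Normal := Subgroup.normal_of_index_eq_minFac_card (by
      rw [hMidx, ← Subgroup.index_eq_card, hidx, Nat.Prime.pow_minFac hq n.succ_ne_zero])
    let V : Subgroup U := M.comap (QuotientGroup.mk' N)
    haveI : Fintype V := Fintype.ofFinite V
    have hVidx : V.index = q := by
      rw [Subgroup.index_comap_of_surjective _ (QuotientGroup.mk'_surjective N), hMidx]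
    have hNV : N ≤ V := fun g hg => by
      show QuotientGroup.mk' N g ∈ M
      rw [QuotientGroup.mk'_apply, (QuotientGroup.eq_one_iff g).2 hg]; exact M.one_mem
    let N' : Subgroup V := N.subgroupOf V
    haveI : Fintype N' := Fintype.ofFinite _
    have hN'idx : N'.index = q ^ n := by
      have h := Subgroup.relIndex_mul_index hNV
      rw [hVidx, hidx, pow_succ] at h
      exact Nat.eq_of_mul_eq_mul_right hq.pos h
    have hqodd : Odd q := hodd.of_dvd_nat (by rw [hidx, pow_succ]; exact dvd_mul_left q _)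
    let ι : N' ≃* N := Subgroup.subgroupOfEquivOfLe hNV
    have hcard : Nat.card V ∣ Nat.card U := Subgroup.card_subgroup_dvd_card V
    have hθ' : powTwist k (fun x => (θ : N → ℂ) (ι x)) = fun x => (θ : N → ℂ) (ι x) :=
      funext fun x => by rw [powTwist_apply, map_pow]; exact congrFun hθ (ι x)
    have hinv' : ∀ g : V, g ^ k * g ∈ N' := fun g => hinv (g : U)
    obtain ⟨φ, hφi, hφk, hφθ⟩ := ih N' hN'idx (by rw [hN'idx]; exact hqodd.pow) (hk.coprime_dvd_right hcard)
      (hke.of_dvd hcard) hinv' ⟨_, isIrrCharacter_comp_mulEquiv θ.2 ι⟩ hθ'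
      (fun g => funext fun x => congrFun (hθinv (g : U)) (ι x))
    have hφinv : ∀ g : U, CfsgLib.Clifford.conjChar V φ g = φ := by
      intro g
      obtain ⟨ψ, -, huniq⟩ := existsUnique_fixed_over N' (by rw [hN'idx]; exact hqodd.pow)
        (hk.coprime_dvd_right hcard) hinv' ⟨_, isIrrCharacter_comp_mulEquiv θ.2 ι⟩ hθ'
        (hke.of_dvd hcard)
      have hone : ∀ f : V → ℂ, (∀ x : N', f x = (θ : N → ℂ) (ι x)) →
          classInner (fun x : N' => f x) (fun x => (θ : N → ℂ) (ι x)) ≠ 0 := fun f hf => by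
        rw [show (fun x : N' => f x) = fun x => (θ : N → ℂ) (ι x) from funext hf,
          classInner_self_of_isIrr (isIrrCharacter_comp_mulEquiv θ.2 ι)]
        exact one_ne_zero
      have h1 := huniq ⟨_, CfsgLib.Clifford.isIrrCharacter_conjChar V hφi g⟩
        ⟨hone _ fun x => by
          exact (hφθ ⟨⟨g * ((x : V) : U) * g⁻¹, _⟩, (inferInstance : N.Normal).conj_mem _ x.2 g⟩).trans
            (congrFun (hθinv g) (ι x)),
        by rw [← conjChar_powTwist, hφk]⟩
      have h2 := huniq ⟨φ, hφi⟩ ⟨hone _ hφθ, hφk⟩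
      exact congrArg Subtype.val (h1.trans h2.symm)
    haveI : Fact (Nat.Prime q) := ⟨hq⟩
    have hcyc : IsCyclic (U ⧸ V) :=
      isCyclic_of_prime_card (p := q) (by rw [← Subgroup.index_eq_card, hVidx])
    obtain ⟨χ₀, hχ₀, hχ₀V⟩ := CfsgLib.RealChar.exists_extension_character_of_cyclic V hcyc φ hφi
      (fun g x => by
        have := congrFun (hφinv g) x
        rwa [CfsgLib.Clifford.conjChar_eq_comp] at this)
    exact exists_fixed_extension_of_extension N hodd hk hinv θ.2 hθ hχ₀ fun x =>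
      (hχ₀V ⟨x, hNV x.2⟩).trans (hφθ ⟨⟨x, hNV x.2⟩, x.2⟩)

/-- An invariant fixed character has a fixed extension. -/
theorem exists_fixed_extension {G : Type u} [Group G] [Fintype G] (N : Subgroup G) [N.Normal]
    [Fintype N] (hidx : Odd N.index) {k e : ℕ} (hk : k.Coprime (Nat.card G))
    (hke : k ^ (2 ^ e) ≡ 1 [MOD Nat.card G]) (hinv : ∀ g : G, g ^ k * g ∈ N) (θ : IrrCharacter N)
    (hθ : powTwist k (θ : N → ℂ) = θ)
    (hθinv : ∀ g : G, CfsgLib.Clifford.conjChar N (θ : N → ℂ) g = θ) :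
    ∃ χ : G → ℂ, IsIrrCharacter G χ ∧ powTwist k χ = χ ∧ ∀ x : N, χ x = (θ : N → ℂ) x := by
  classical
  have hinv'' : ∀ (g : G) (n : N), (θ : N → ℂ) (MulAut.conjNormal g n) = (θ : N → ℂ) n := fun g n => by
    have := congrFun (hθinv g) n
    rwa [CfsgLib.Clifford.conjChar_eq_comp] at this
  obtain ⟨φ, hφ, hφθ⟩ := CfsgLib.RealChar.exists_extension_character_of_forall_prime N
    (θ : N → ℂ) θ.2 hinv'' fun q hq => by
      haveI : Fact q.Prime := ⟨hq⟩
      obtain ⟨Q⟩ : Nonempty (Sylow q (G ⧸ N)) := inferInstance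
      obtain ⟨n, hn⟩ := IsPGroup.iff_card.1 Q.isPGroup'
      let P : Subgroup G := (Q : Subgroup (G ⧸ N)).comap (QuotientGroup.mk' N)
      haveI : Fintype P := Fintype.ofFinite P
      have hNP : N ≤ P := fun g hg => by
        show QuotientGroup.mk' N g ∈ (Q : Subgroup (G ⧸ N))
        rw [QuotientGroup.mk'_apply, (QuotientGroup.eq_one_iff g).2 hg]; exact one_mem _
      have hPidx : P.index = (Q : Subgroup (G ⧸ N)).index :=
        Subgroup.index_comap_of_surjective _ (QuotientGroup.mk'_surjective N)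
      let N' : Subgroup P := N.subgroupOf P
      haveI : Fintype N' := Fintype.ofFinite _
      have hN'idx : N'.index = q ^ n := by
        have h := Subgroup.relIndex_mul_index hNP
        rw [hPidx, Subgroup.index_eq_card N, ← (Q : Subgroup (G ⧸ N)).card_mul_index, hn] at h
        exact Nat.eq_of_mul_eq_mul_right (Nat.pos_of_ne_zero Subgroup.index_ne_zero_of_finite) h
      have hodd' : Odd N'.index := hidx.of_dvd_nat (Subgroup.relIndex_dvd_index_of_normal N P)
      let ι : N' ≃* N := Subgroup.subgroupOfEquivOfLe hNP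
      have hcard : Nat.card P ∣ Nat.card G := Subgroup.card_subgroup_dvd_card P
      obtain ⟨χ, hχ, -, hχθ⟩ := exists_fixed_extension_primePow q n N' hN'idx hodd'
        (hk.coprime_dvd_right hcard) (hke.of_dvd hcard) (fun g => hinv (g : G))
        ⟨_, isIrrCharacter_comp_mulEquiv θ.2 ι⟩
        (funext fun x => by
          show (θ : N → ℂ) (ι (x ^ k)) = (θ : N → ℂ) (ι x)
          rw [map_pow]; exact congrFun hθ (ι x))
        (fun g => funext fun x => congrFun (hθinv (g : G)) (ι x))
      exact ⟨P, hNP, χ, by rw [hPidx]; exact Q.not_dvd_index, IsIrrCharacter.isCharacter hχ,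
        fun x => hχθ ⟨⟨x, hNP x.2⟩, x.2⟩⟩
  exact exists_fixed_extension_of_extension N hidx hk hinv θ.2 hθ hφ hφθ

end CfsgLib.ZerosCodegree
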