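import Cfsg.Agent.Lib.SolvableStructure.MinimalNormal
import Cfsg.Agent.Lib.Cores.FPF

/-!
# A non-abelian quotient all of whose proper quotients are abelian

A finite solvable non-abelian group has either a non-abelian quotient of prime power order or a
Frobenius quotient whose kernel is the derived subgroup, elementary abelian, with cyclic complement.
-/

set_option autoImplicit false
set_option linter.style.haveILetI false
set_option linter.unusedSectionVars false

open scoped commutatorElement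

namespace CfsgLib.ZerosCodegree

universe u

variable {G : Type u} [Group G]

/-- A non-abelian quotient of prime power order. -/
structure PQuot (K : Subgroup G) (p : ℕ) : Prop where
  normal : K.Normal
  prime : p.Prime
  pow : ∀ x : G, ∃ k : ℕ, x ^ p ^ k ∈ K
  nonab : ¬ commutator G ≤ K

/-- A Frobenius quotient with kernel `L`, elementary abelian, and cyclic complement. -/
structure FrobQuot (K L : Subgroup G) (r : ℕ) : Prop where
  normalK : K.Normal
  normalL : L.Normal
  le : K ≤ L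
  prime : r.Prime
  comm : commutator G ≤ L
  derived : L ≤ commutator G ⊔ K
  Lcomm : ⁅L, L⁆ ≤ K
  pow : ∀ x ∈ L, x ^ r ∈ K
  notLE : ¬ L ≤ K
  cop : ¬ r ∣ L.index
  one_lt : 1 < L.index
  cyc : ∃ g : G, ∀ x : G, ∃ n : ℕ, (g ^ n)⁻¹ * x ∈ L
  fpf : ∀ g, g ∉ L → ∀ x ∈ L, ⁅g, x⁆ ∈ K → x ∈ K

variable [Finite G]

/-- A group all of whose proper quotients are abelian. -/
theorem dichotomy_aux (hsolv : Group.IsSolvable G) (hne : commutator G ≠ ⊥)
    (hu : ∀ N : Subgroup G, N.Normal → N ≠ ⊥ → commutator G ≤ N) :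
    (∃ p, p.Prime ∧ IsPGroup p G) ∨ ∃ r : ℕ, r.Prime ∧
      (∀ x ∈ commutator G, x ^ r = 1) ∧ ¬ r ∣ (commutator G).index ∧
      IsMulCommutative ↥(commutator G) ∧ 1 < (commutator G).index ∧
      (∃ g : G, ∀ x : G, ∃ n : ℕ, (g ^ n)⁻¹ * x ∈ commutator G) ∧
      ∀ g, g ∉ commutator G → ∀ x ∈ commutator G, ⁅g, x⁆ = 1 → x = 1 := by
  classical
  haveI := hsolv
  set M := commutator G with hM
  have hmin : ∀ K : Subgroup G, K.Normal → K ≤ M → K = ⊥ ∨ K = M := fun K hK hle =>
    or_iff_not_imp_left.2 fun h => le_antisymm hle (hu K hK h)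
  obtain ⟨r, d, hr, hd, hcard, hexp, habM⟩ :=
    CfsgLib.SolvableStructure.minimal_normal_prime hne hmin
  haveI := Fact.mk hr
  haveI := habM
  have hab : ∀ a ∈ M, ∀ b ∈ M, a * b = b * a := fun a ha b hb =>
    CfsgLib.SolvableStructure.commute_of_isMulCommutative ha hb
  have hMp : IsPGroup r M := IsPGroup.of_card hcard
  set C := Subgroup.centralizer (M : Set G) with hC
  haveI : C.Normal := inferInstance
  have hMC : M ≤ C := fun x hx => Subgroup.mem_centralizer_iff.2 fun y hy => hab y hy x hx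
  -- the nilpotent groups
  have hnilp : ∀ X : Subgroup G, X ≤ C → M ≤ X → Group.IsNilpotent X := by
    intro X hXC hMX
    set N := M.subgroupOf X
    letI : CommGroup (X ⧸ N) :=
      { (inferInstance : Group (X ⧸ N)) with
        mul_comm := fun a b => by
          obtain ⟨a, rfl⟩ := QuotientGroup.mk_surjective a
          obtain ⟨b, rfl⟩ := QuotientGroup.mk_surjective b
          rw [← QuotientGroup.mk_mul, ← QuotientGroup.mk_mul]
          refine QuotientGroup.eq.2 (Subgroup.mem_subgroupOf.2 ?_)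
          rw [show (a * b)⁻¹ * (b * a) = ⁅b⁻¹, a⁻¹⁆ by simp [commutatorElement_def, mul_assoc]]
          exact Subgroup.commutator_mem_commutator (Subgroup.mem_top _) (Subgroup.mem_top _) }
    exact Subgroup.isNilpotent_of_ker_le_center (QuotientGroup.mk' N) (by
      rw [QuotientGroup.ker_mk']
      exact fun n hn => Subgroup.mem_center_iff.2 fun x => Subtype.ext
        ((Subgroup.mem_centralizer_iff.1 (hXC x.2) n hn).symm))
  have hrgroup : ∀ X : Subgroup G, X.Normal → X ≤ C → M ≤ X → IsPGroup r X := by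
    intro X hXn hXC hMX
    haveI := hnilp X hXC hMX
    haveI := hXn
    refine IsPGroup.of_card (n := (Nat.card X).primeFactorsList.length)
      (Nat.eq_prime_pow_of_unique_prime_dvd Nat.card_pos.ne' fun {q} hq hqd => ?_)
    haveI := Fact.mk hq
    by_contra hqr
    obtain ⟨Q⟩ : Nonempty (Sylow q X) := inferInstance
    haveI : (Q : Subgroup X).Normal := inferInstance
    haveI := Sylow.characteristic_of_normal Q inferInstance
    have hn : ((Q : Subgroup X).map X.subtype).Normal :=
      ConjAct.normal_of_characteristic_of_normal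
    have hQne : (Q : Subgroup X).map X.subtype ≠ ⊥ := by
      rw [Ne, Subgroup.map_eq_bot_iff_of_injective _ X.subtype_injective]
      exact fun h => (Q.ne_bot_of_dvd_card hqd) h
    have h1 := IsPGroup.disjoint_of_ne q r hqr _ M (Q.2.map X.subtype) hMp
    exact hne (le_bot_iff.1 (le_trans (le_inf (hu _ hn hQne) le_rfl) (disjoint_iff.1 h1).le))
  by_cases hcen : C = ⊤
  · left
    refine ⟨r, hr, ?_⟩
    have h := hrgroup ⊤ inferInstance hcen.ge le_top
    exact h.of_surjective (Subgroup.topEquiv (G := G)).toMonoidHom (MulEquiv.surjective _)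
  right
  have hS : ∀ {X : Subgroup G}, M ≤ X → X.Normal := fun {X} h => ⟨fun a ha g => by
    rw [show g * a * g⁻¹ = ⁅g, a⁆ * a by rw [commutatorElement_def]; group]
    exact X.mul_mem (h (Subgroup.commutator_mem_commutator (Subgroup.mem_top _)
      (Subgroup.mem_top _))) ha⟩
  have hCr : ¬ r ∣ C.index := by
    intro hdvd
    obtain ⟨P⟩ : Nonempty (Sylow r G) := inferInstance
    have hPC : ¬ (P : Subgroup G) ≤ C := fun h => P.not_dvd_index
      (hdvd.trans (Subgroup.index_dvd_of_le h))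
    set Y := M ⊓ Subgroup.centralizer (((P : Subgroup G) ⊔ C : Subgroup G) : Set G) with hY
    haveI : ((P : Subgroup G) ⊔ C).Normal := hS (hMC.trans le_sup_right)
    let φ : (P : Subgroup G) →* MulAut M :=
      (MulAut.conjNormal : G →* MulAut M).comp (P : Subgroup G).subtype
    letI : MulAction (P : Subgroup G) M := MulAction.compHom M φ
    have h1 : (1 : M) ∈ MulAction.fixedPoints (P : Subgroup G) M := fun x => map_one (φ x)
    obtain ⟨m, hm, hne'⟩ := P.2.exists_fixed_point_of_prime_dvd_card_of_fixed_point M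
      (hcard ▸ dvd_pow_self r hd.ne') h1
    have hmY : (m : G) ∈ Y := by
      refine ⟨m.2, Subgroup.mem_centralizer_iff.2 fun x hx => ?_⟩
      have hle : (P : Subgroup G) ⊔ C ≤ Subgroup.centralizer {(m : G)} := by
        refine sup_le (fun y hy => Subgroup.mem_centralizer_singleton_iff.2 ?_)
          fun y hy => Subgroup.mem_centralizer_singleton_iff.2
            (Subgroup.mem_centralizer_iff.1 hy m m.2).symm
        have h2 := congrArg Subtype.val (hm ⟨y, hy⟩)
        change y * m * y⁻¹ = (m : G) at h2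
        calc y * m = y * m * y⁻¹ * y := by group
          _ = m * y := by rw [h2]
      exact Subgroup.mem_centralizer_singleton_iff.1 (hle hx)
    rcases hmin Y inferInstance inf_le_left with h | h
    · rw [h, Subgroup.mem_bot] at hmY
      exact hne' (Subtype.ext hmY).symm
    · exact hPC fun y hy => Subgroup.mem_centralizer_iff.2 fun z hz =>
        (Subgroup.mem_centralizer_iff.1 (h.ge hz).2 y (Subgroup.mem_sup_left hy)).symm
  have hfix : ∀ g, g ∉ C → ∀ x ∈ M, ⁅g, x⁆ = 1 → x = 1 := by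
    intro g hg x hx hgx
    set Y := M ⊓ Subgroup.centralizer {g} with hY
    have hYn : Y.Normal := ⟨fun y hy a => by
      refine ⟨Subgroup.Normal.conj_mem inferInstance y hy.1 a,
        Subgroup.mem_centralizer_singleton_iff.2 ?_⟩
      have h1 := Subgroup.mem_centralizer_singleton_iff.1 hy.2
      set z := a * y * a⁻¹ with hz
      have hzM : z ∈ M := Subgroup.Normal.conj_mem inferInstance y hy.1 a
      have hcM : ⁅a, g⁆ ∈ M :=
        Subgroup.commutator_mem_commutator (Subgroup.mem_top _) (Subgroup.mem_top _)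
      have h2 : z * (a * g * a⁻¹) = a * g * a⁻¹ * z := by
        rw [hz, show a * y * a⁻¹ * (a * g * a⁻¹) = a * (y * g) * a⁻¹ by group, h1]
        group
      rw [show a * g * a⁻¹ = ⁅a, g⁆ * g by rw [commutatorElement_def]; group] at h2
      have e : z * ⁅a, g⁆ = ⁅a, g⁆ * z := hab z hzM _ hcM
      exact mul_left_cancel (calc ⁅a, g⁆ * (z * g) = ⁅a, g⁆ * z * g := (mul_assoc _ _ _).symm
        _ = z * ⁅a, g⁆ * g := by rw [e]
        _ = z * (⁅a, g⁆ * g) := mul_assoc _ _ _
        _ = ⁅a, g⁆ * g * z := h2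
        _ = ⁅a, g⁆ * (g * z) := mul_assoc _ _ _)⟩
    rcases hmin Y hYn inf_le_left with h | h
    · exact Subgroup.mem_bot.1 (h ▸ ⟨hx, Subgroup.mem_centralizer_singleton_iff.2
        (commutatorElement_eq_one_iff_mul_comm.1 hgx).symm⟩)
    · exact absurd (Subgroup.mem_centralizer_iff.2 fun z hz =>
        Subgroup.mem_centralizer_singleton_iff.1 (h.ge hz).2) hg
  -- the complement
  have hCp : IsPGroup r C := hrgroup C inferInstance le_rfl hMC
  obtain ⟨A, hA⟩ := Subgroup.exists_right_complement'_of_coprime (N := C) (by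
    obtain ⟨n, hn⟩ := IsPGroup.iff_card.1 hCp
    rw [hn]
    exact Nat.Coprime.pow_left n (hr.coprime_iff_not_dvd.2 hCr))
  have hAdis : ∀ a ∈ A, a ≠ 1 → a ∉ C := fun a ha h1 hc =>
    h1 (Subgroup.disjoint_def.1 hA.disjoint hc ha)
  have hAne : A ≠ ⊥ := fun h => hcen (by
    have := hA.sup_eq_top
    rwa [h, sup_bot_eq] at this)
  obtain ⟨⟨a, ha⟩, ha1'⟩ := Subgroup.ne_bot_iff_exists_ne_one.1 hAne
  have ha1 : a ≠ 1 := fun h => ha1' (Subtype.ext h)
  -- the centraliser is the derived subgroup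
  have hCM : C = M := by
    refine le_antisymm (fun x hx => ?_) hMC
    set D := C ⊓ Subgroup.centralizer {a} with hD
    have hDn : D.Normal := ⟨fun y hy g => by
      refine ⟨Subgroup.Normal.conj_mem inferInstance y hy.1 g,
        Subgroup.mem_centralizer_singleton_iff.2 ?_⟩
      have h1 := Subgroup.mem_centralizer_singleton_iff.1 hy.2
      set z := g * y * g⁻¹ with hz
      have hzC : z ∈ C := Subgroup.Normal.conj_mem inferInstance y hy.1 g
      have hcM : ⁅g, a⁆ ∈ M :=
        Subgroup.commutator_mem_commutator (Subgroup.mem_top _) (Subgroup.mem_top _)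
      have h2 : z * (g * a * g⁻¹) = g * a * g⁻¹ * z := by
        rw [hz, show g * y * g⁻¹ * (g * a * g⁻¹) = g * (y * a) * g⁻¹ by group, h1]
        group
      rw [show g * a * g⁻¹ = ⁅g, a⁆ * a by rw [commutatorElement_def]; group] at h2
      have e : z * ⁅g, a⁆ = ⁅g, a⁆ * z := (Subgroup.mem_centralizer_iff.1 hzC _ hcM).symm
      exact mul_left_cancel (calc ⁅g, a⁆ * (z * a) = ⁅g, a⁆ * z * a := (mul_assoc _ _ _).symm
        _ = z * ⁅g, a⁆ * a := by rw [e]
        _ = z * (⁅g, a⁆ * a) := mul_assoc _ _ _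
        _ = ⁅g, a⁆ * a * z := h2
        _ = ⁅g, a⁆ * (a * z) := mul_assoc _ _ _)⟩
    have hDbot : D = ⊥ := by
      by_contra h
      obtain ⟨m, hm, hm1⟩ := Subgroup.ne_bot_iff_exists_ne_one.1 hne |>.elim fun m hm =>
        (⟨m.1, m.2, fun h => hm (Subtype.ext h)⟩ : ∃ m, m ∈ M ∧ m ≠ 1)
      exact hm1 (hfix a (hAdis a ha ha1) m hm (commutatorElement_eq_one_iff_mul_comm.2
        (Subgroup.mem_centralizer_singleton_iff.1 (hu D hDn h hm).2).symm))
    let f : M → M := fun m => ⟨⁅a, (m : G)⁆, Subgroup.commutator_mem_commutator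
      (Subgroup.mem_top _) (Subgroup.mem_top _)⟩
    have hf : Function.Injective f := by
      intro m m' h
      have h' : ⁅a, (m : G)⁆ = ⁅a, (m' : G)⁆ := congrArg Subtype.val h
      have h1 : ⁅a, (m : G)⁻¹ * m'⁆ = 1 := by
        rw [show ⁅a, (m : G)⁻¹ * m'⁆ = (m : G)⁻¹ * (⁅a, (m : G)⁆⁻¹ * ⁅a, (m' : G)⁆) * m by
          simp only [commutatorElement_def]; group, h', inv_mul_cancel]
        group
      exact Subtype.ext (inv_mul_eq_one.1 (hfix a (hAdis a ha ha1) _
        (M.mul_mem (M.inv_mem m.2) m'.2) h1))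
    obtain ⟨m, hm⟩ := (Finite.injective_iff_surjective.1 hf) ⟨⁅a, x⁆,
      Subgroup.commutator_mem_commutator (Subgroup.mem_top _) (Subgroup.mem_top _)⟩
    have hm' : ⁅a, (m : G)⁆ = ⁅a, x⁆ := congrArg Subtype.val hm
    have hmem : (m : G)⁻¹ * x ∈ D := by
      refine ⟨C.mul_mem (C.inv_mem (hMC m.2)) hx, Subgroup.mem_centralizer_singleton_iff.2 ?_⟩
      refine (commutatorElement_eq_one_iff_mul_comm.1 ?_).symm
      rw [show ⁅a, (m : G)⁻¹ * x⁆ = (m : G)⁻¹ * (⁅a, (m : G)⁆⁻¹ * ⁅a, x⁆) * m by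
        simp only [commutatorElement_def]; group, hm', inv_mul_cancel]
      group
    rw [hDbot, Subgroup.mem_bot, inv_mul_eq_one] at hmem
    exact hmem ▸ m.2
  haveI hAab : IsMulCommutative A := ⟨⟨fun x y => Subtype.ext (by
    refine commutatorElement_eq_one_iff_mul_comm.1 (Subgroup.disjoint_def.1 hA.disjoint
      (hMC (Subgroup.commutator_mem_commutator (Subgroup.mem_top _) (Subgroup.mem_top _))) ?_)
    rw [commutatorElement_def]
    exact A.mul_mem (A.mul_mem (A.mul_mem x.2 y.2) (A.inv_mem x.2)) (A.inv_mem y.2))⟩⟩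
  haveI : IsCyclic A := CfsgLib.Cores.isCyclic_of_fpf hne
    (le_top.trans (Subgroup.normalizer_eq_top_iff.2 inferInstance).ge) fun b hb hb1 => by
      rw [eq_bot_iff]
      exact fun x hx => Subgroup.mem_bot.2 (hfix b (hAdis b hb hb1) x hx.1
        (commutatorElement_eq_one_iff_mul_comm.2
          (Subgroup.mem_centralizer_singleton_iff.1 hx.2).symm))
  obtain ⟨g, hg⟩ := IsCyclic.exists_generator (α := A)
  refine ⟨r, hr, hexp, hCM ▸ hCr, habM, ?_, ⟨g, fun x => ?_⟩,
    fun b hb x hx h => hfix b (hCM.symm ▸ hb) x hx h⟩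
  · exact Subgroup.one_lt_index_of_ne_top fun h => hcen (hCM.trans h)
  · obtain ⟨c, hc, b, hb, rfl⟩ := Subgroup.mem_sup_of_normal_left.1
      (show x ∈ C ⊔ A from hA.sup_eq_top ▸ Subgroup.mem_top x)
    obtain ⟨n, hn⟩ := (mem_powers_iff_mem_zpowers (x := g) (y := ⟨b, hb⟩)).2 (hg _)
    refine ⟨n, ?_⟩
    have hgn : (g : G) ^ n = b := congrArg Subtype.val hn
    rw [hgn]
    exact hCM ▸ (by simpa [mul_assoc] using Subgroup.Normal.conj_mem inferInstance c hc b⁻¹)

/-- The dichotomy. -/
theorem exists_pQuot_or_frobQuot (hsolv : Group.IsSolvable G) (hne : commutator G ≠ ⊥) :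
    (∃ K p, PQuot (G := G) K p) ∨ ∃ K L r, FrobQuot (G := G) K L r := by
  classical
  haveI : Finite (Subgroup G) := Finite.of_injective _ SetLike.coe_injective
  haveI : Nonempty {K : Subgroup G // K.Normal ∧ ¬ commutator G ≤ K} :=
    ⟨⟨⊥, inferInstance, fun h => hne (le_bot_iff.1 h)⟩⟩
  obtain ⟨⟨K, hKn, hKne⟩, hmax⟩ := Finite.exists_max
    (fun K : {K : Subgroup G // K.Normal ∧ ¬ commutator G ≤ K} => Nat.card K.1)
  haveI := hKn
  haveI := hsolv
  set f := QuotientGroup.mk' K with hf
  have hfs : Function.Surjective f := QuotientGroup.mk'_surjective K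
  have hker : f.ker = K := QuotientGroup.ker_mk' K
  have hcomm : (commutator G).map f = commutator (G ⧸ K) := by
    rw [commutator_def, Subgroup.map_commutator, Subgroup.map_top_of_surjective f hfs, commutator_def]
  have hne' : commutator (G ⧸ K) ≠ ⊥ := fun h => hKne (by
    rw [← hker, ← Subgroup.map_eq_bot_iff, hcomm, h])
  have hu : ∀ N : Subgroup (G ⧸ K), N.Normal → N ≠ ⊥ → commutator (G ⧸ K) ≤ N := by
    intro N hN hNne
    by_contra hcon
    have h1 : ¬ commutator G ≤ N.comap f := fun h => hcon (by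
      rw [← hcomm, Subgroup.map_le_iff_le_comap]; exact h)
    have hle : K ≤ N.comap f := hker.ge.trans (Subgroup.ker_le_comap _ _)
    have h2 : N.comap f = K :=
      (Subgroup.eq_of_le_of_card_ge hle (hmax ⟨_, hN.comap f, h1⟩)).symm
    refine hNne ?_
    rw [← Subgroup.map_comap_eq_self_of_surjective hfs N, h2]
    exact (Subgroup.map_eq_bot_iff _).2 hker.ge
  rcases dichotomy_aux (Group.isSolvable_of_surjective hfs) hne' hu with
    ⟨p, hp, hpG⟩ | ⟨r, hr, hexp, hcop, hab, hone, ⟨g, hg⟩, hfpf⟩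
  · left
    refine ⟨K, p, hKn, hp, fun x => ?_, hKne⟩
    obtain ⟨k, hk⟩ := hpG (f x)
    exact ⟨k, (QuotientGroup.eq_one_iff _).1 (by rw [QuotientGroup.mk_pow]; exact hk)⟩
  right
  set L := (commutator (G ⧸ K)).comap f with hL
  have hmem : ∀ {x : G}, x ∈ L ↔ f x ∈ commutator (G ⧸ K) := Iff.rfl
  have hmk : ∀ {x : G}, x ∈ K ↔ f x = 1 := fun {x} => (QuotientGroup.eq_one_iff x).symm
  obtain ⟨g, rfl⟩ := hfs g
  have hLeq : L = commutator G ⊔ K := by
    rw [hL, ← hcomm, Subgroup.comap_map_eq, hker]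
  refine ⟨K, L, r, hKn, inferInstance, hLeq ▸ le_sup_right, hr, hLeq ▸ le_sup_left, hLeq.le,
    Subgroup.commutator_le.2 fun a ha b hb => hmk.2 ?_, fun x hx => hmk.2 ?_,
    fun h => hKne (le_sup_left.trans (hLeq.ge.trans h)), ?_, ?_, ⟨g, fun x => ?_⟩,
    fun b hb x hx hbx => hmk.2 (hfpf (f b) hb (f x) hx ?_)⟩
  · rw [map_commutatorElement, commutatorElement_eq_one_iff_mul_comm]
    haveI := hab
    exact CfsgLib.SolvableStructure.commute_of_isMulCommutative (hmem.1 ha) (hmem.1 hb)
  · rw [map_pow]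
    exact hexp _ (hmem.1 hx)
  · rw [hL, Subgroup.index_comap_of_surjective _ hfs]
    exact hcop
  · rw [hL, Subgroup.index_comap_of_surjective _ hfs]
    exact hone
  · obtain ⟨n, hn⟩ := hg (f x)
    exact ⟨n, hmem.2 (by rwa [map_mul, map_inv, map_pow])⟩
  · rw [← map_commutatorElement]
    exact hmk.1 hbx

end CfsgLib.ZerosCodegree
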