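import Cfsg.Agent.Lib.ZerosCodegree.NondivisibilitySemilinear
import Mathlib.FieldTheory.Fixed
import Mathlib.RingTheory.IntegralDomain
import Mathlib.Algebra.Ring.Action.Subobjects
import Mathlib.Algebra.Ring.Action.Group

/-!
# The orbit lengths cannot form an antichain

In the configuration of the previous file the semiregular group generates a finite field over which
the module is one-dimensional, the cyclic quotient acts by field automorphisms, and Galois theory
gives a contradiction with the composite order of the quotient.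
-/

set_option autoImplicit false
set_option linter.style.haveILetI false
set_option linter.unusedSectionVars false
set_option linter.deprecated false

open scoped commutatorElement

namespace CfsgLib.ZerosCodegree.Semilinear

variable {G W : Type*} [Group G] [AddCommGroup W] {L F : Subgroup G} {g : G}
  {ρ : G →* AddMonoid.End W} [L.Normal] [Finite G] [Finite W]

/-- A power of the generator of exact order `m`. -/
theorem Semi.exists_power_lift (_s : Semi L F g ρ) {m : ℕ} (hm : m ∣ L.index)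
    (hcop : m.Coprime (Nat.card (image L ρ))) :
    ∃ i : ℕ, Lift L g m (g ^ i) ∧ ρ (g ^ i) ^ m = 1 := by
  haveI : NeZero (Nat.card (image L ρ)) := ⟨(image_pos (L := L) (ρ := ρ)).ne'⟩
  set b := Nat.card (image L ρ) with hb
  obtain ⟨d, hd⟩ := hm
  have hm0 : 0 < m := Nat.pos_of_ne_zero fun h0 =>
    Subgroup.index_ne_zero_of_finite (by rw [hd, h0, zero_mul])
  set j := (-((m : ZMod b)⁻¹)).val with hj
  obtain ⟨c, hc⟩ : b ∣ 1 + m * j := (ZMod.natCast_eq_zero_iff _ b).1 (by
    rw [Nat.cast_add, Nat.cast_one, Nat.cast_mul, hj, ZMod.natCast_zmod_val, mul_neg,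
      ZMod.coe_mul_inv_eq_one m hcop, add_neg_cancel])
  have hdiv : L.index / m = d := by rw [hd, Nat.mul_div_cancel_left _ hm0]
  refine ⟨d + L.index * j, ?_, ?_⟩
  · show (g ^ (L.index / m))⁻¹ * g ^ (d + L.index * j) ∈ L
    rw [hdiv, pow_add, inv_mul_cancel_left, pow_mul]
    exact L.pow_mem (L.pow_index_mem g) j
  · rw [← map_pow, ← pow_mul,
      show (d + L.index * j) * m = L.index * (1 + m * j) by rw [hd]; ring, hc, pow_mul, map_pow,
      pow_mul, image_pow (L.pow_index_mem g), one_pow]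

/-- Exactly one prime occurs in the stabilisers. -/
theorem Semi.exists_prime (s : Semi L F g ρ) : ∃ l : ℕ, l.Prime ∧ l ∣ L.index ∧
    ¬ l ∣ Nat.card (image L ρ) ∧ ¬ l ∣ L.index / l ∧
    ∀ w : W, w ≠ 0 → L.relIndex (stab ρ w) = l := by
  haveI := s.nontriv
  have hlift : ∀ m, m ∣ L.index → m.Coprime (Nat.card (image L ρ)) → m ≠ 1 → m.Prime := by
    intro m hm hcop hm1
    obtain ⟨i, hl, hpow⟩ := s.exists_power_lift hm hcop
    have h := s.card_fix hm hl hpow
    obtain ⟨w, hw, hw0⟩ : ∃ w ∈ FreeFix.fixed (ρ (g ^ i) : W →+ W), w ≠ 0 := by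
      by_contra hcon
      push Not at hcon
      rw [(AddSubgroup.eq_bot_iff_forall _).2 hcon, AddSubgroup.card_bot, one_pow] at h
      have := Finite.one_lt_card (α := W)
      omega
    rcases (Nat.dvd_prime (s.relIndex_prime hw0)).1
      (s.dvd_relIndex hm hl (FreeFix.mem_fixed.1 hw)) with h1 | h1
    · exact absurd h1 hm1
    · exact h1 ▸ s.relIndex_prime hw0
  obtain ⟨w₀, hw₀⟩ := exists_ne (0 : W)
  set l := L.relIndex (stab ρ w₀) with hl
  have hlp : l.Prime := s.relIndex_prime hw₀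
  have hlf : l ∣ L.index := s.relIndex_dvd w₀
  have hlb : ¬ l ∣ Nat.card (image L ρ) := s.relIndex_ndvd hw₀
  have hlcop := hlp.coprime_iff_not_dvd.2 hlb
  refine ⟨l, hlp, hlf, hlb, fun h => ?_, fun w hw => ?_⟩
  · have hll : l * l ∣ L.index := by
      obtain ⟨c, hc⟩ := h
      exact ⟨c, by rw [mul_assoc, ← hc, Nat.mul_div_cancel' hlf]⟩
    exact Nat.not_prime_mul hlp.ne_one hlp.ne_one
      (hlift _ hll (hlcop.mul_left hlcop) (by nlinarith [hlp.two_le]))
  · have hwp := s.relIndex_prime hw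
    by_contra hne
    exact Nat.not_prime_mul hlp.ne_one hwp.ne_one (hlift _
      (((Nat.coprime_primes hlp hwp).2 (Ne.symm hne)).mul_dvd_of_dvd_of_dvd hlf (s.relIndex_dvd w))
      (hlcop.mul_left (hwp.coprime_iff_not_dvd.2 (s.relIndex_ndvd hw)))
      (by nlinarith [hlp.two_le, hwp.two_le]))

/-- Every point is conjugate to one fixed by the element of order `l`. -/
theorem Semi.exists_conj (s : Semi L F g ρ) {l : ℕ} (hl : l.Prime) (hlf : l ∣ L.index)
    (hlb : ¬ l ∣ Nat.card (image L ρ)) (hall : ∀ w : W, w ≠ 0 → L.relIndex (stab ρ w) = l)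
    {h : G} (hh : Lift L g l h) (hρ : ρ h ^ l = 1) :
    ∀ w : W, w ≠ 0 → ∃ c ∈ L, ρ (c * h * c⁻¹) w = w := by
  classical
  haveI : Finite (AddMonoid.End W) := Finite.of_injective _ DFunLike.coe_injective
  have hhL : h ∉ L := s.lift_not_mem hlf hl.ne_one hh
  have hconjL : ∀ c ∈ L, h⁻¹ * (c * h * c⁻¹) ∈ L := fun c hc => by
    rw [show h⁻¹ * (c * h * c⁻¹) = (h⁻¹ * c * h⁻¹⁻¹) * c⁻¹ by group]
    exact L.mul_mem (Subgroup.Normal.conj_mem inferInstance _ hc _) (L.inv_mem hc)
  let Q := ↥L ⧸ F.subgroupOf L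
  let Cand := {e : AddMonoid.End W // ∃ a ∈ L, ρ (h * a) = e ∧ e ^ l = 1}
  have hCq : ∀ c : L, ρ ((c : G) * h * (c : G)⁻¹) ^ l = 1 := fun c => by
    rw [← map_pow, conj_pow, map_mul, map_mul, map_pow, hρ, mul_one, ← map_mul, mul_inv_cancel,
      map_one]
  let fwd : Q → Cand := fun q => ⟨ρ ((q.out : G) * h * (q.out : G)⁻¹),
    h⁻¹ * ((q.out : G) * h * (q.out : G)⁻¹), hconjL _ q.out.2, by rw [mul_inv_cancel_left], hCq _⟩
  let back : Cand → Q := fun e => ((⟨e.2.choose, e.2.choose_spec.1⟩ : L) : Q)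
  have hback : Function.Injective back := fun e e' he => by
    have h1 := QuotientGroup.eq.1 he
    obtain ⟨ha, hρa, hal⟩ := e.2.choose_spec
    obtain ⟨-, hρa', hal'⟩ := e'.2.choose_spec
    set a := e.2.choose
    set a' := e'.2.choose
    have hk : a⁻¹ * a' ∈ F := h1
    set k := a⁻¹ * a' with hkdef
    have hha : h * a ∉ L := fun hm => hhL ((L.mul_mem_cancel_right ha).1 hm)
    have hcom : Commute (ρ (h * a)) (ρ k) :=
      (comm_iff ρ _ k).1 ((s.fixed _ hha k (s.fix_le hk)).2 hk)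
    have he' : ρ (h * a') = ρ (h * a) * ρ k := by
      rw [← map_mul, hkdef]; congr 1; group
    have hkl : ρ k ^ l = 1 := by
      have h2 : (ρ (h * a) * ρ k) ^ l = 1 := by rw [← he', hρa']; exact hal'
      rwa [hcom.mul_pow, hρa, hal, one_mul] at h2
    have hk1 : ρ k = 1 := by
      have h3 := pow_gcd_eq_one.2 ⟨hkl, image_pow (s.fix_le hk)⟩
      rwa [(hl.coprime_iff_not_dvd.2 hlb).gcd_eq_one, pow_one] at h3
    apply Subtype.ext
    rw [← hρa, ← hρa', he', hk1, mul_one]
  have hto : Function.Injective fwd := fun q q' hq => by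
    have h1 : ρ ((q.out : G) * h * (q.out : G)⁻¹) = ρ ((q'.out : G) * h * (q'.out : G)⁻¹) :=
      congrArg Subtype.val hq
    set c : G := (q.out : G)
    set c' : G := (q'.out : G)
    have h2 : ρ ⁅h, c⁻¹ * c'⁆ = 1 := by
      rw [show ⁅h, c⁻¹ * c'⁆ = c⁻¹ * ((c * h * c⁻¹) * (c' * h * c'⁻¹)⁻¹) * c by
        rw [commutatorElement_def]; group, map_mul, map_mul, map_mul, h1, ← map_mul ρ (c' * h * c'⁻¹),
        mul_inv_cancel, map_one, mul_one, ← map_mul, inv_mul_cancel, map_one]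
    have h3 : c⁻¹ * c' ∈ F :=
      (s.fixed h hhL _ (L.mul_mem (L.inv_mem q.out.2) q'.out.2)).1 h2
    rw [← QuotientGroup.out_eq' q, ← QuotientGroup.out_eq' q']
    exact QuotientGroup.eq.2 h3
  intro w hw
  obtain ⟨a, ha, hla⟩ := s.exists_lift (w := w) (d := l) (hall w hw ▸ dvd_rfl)
  have hal : h⁻¹ * a ∈ L := by
    rw [show h⁻¹ * a = ((g ^ (L.index / l))⁻¹ * h)⁻¹ * ((g ^ (L.index / l))⁻¹ * a) by group]
    exact L.mul_mem (L.inv_mem hh) hla
  let e : Cand := ⟨ρ a, h⁻¹ * a, hal, by rw [mul_inv_cancel_left], by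
    rw [← map_pow]
    exact s.semi _ ((s.lift_pow_mem_iff hlf hla).2 dvd_rfl) w hw ((stab ρ w).pow_mem ha l)⟩
  obtain ⟨q, hq⟩ := (Finite.injective_iff_surjective.1 (hback.comp hto)) (back e)
  have h4 : ρ ((q.out : G) * h * (q.out : G)⁻¹) = ρ a := congrArg Subtype.val (hback hq)
  exact ⟨q.out, q.out.2, by rw [h4]; exact ha⟩

/-- The configuration does not exist. -/
theorem Semi.false (s : Semi L F g ρ) : False := by
  classical
  haveI := s.nontriv
  haveI := Fintype.ofFinite W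
  obtain ⟨l, hl, hlf, hlb, hll, hall⟩ := s.exists_prime
  set b := Nat.card (image L ρ) with hb
  obtain ⟨i, hih, hiρ⟩ := s.exists_power_lift hlf (hl.coprime_iff_not_dvd.2 hlb)
  set h := g ^ i with hh
  have hhL : h ∉ L := s.lift_not_mem hlf hl.ne_one hih
  have hQ := s.card_fix hlf hih hiρ
  set Fx := FreeFix.fixed (ρ h : W →+ W) with hFx
  set Q := Nat.card Fx with hQdef
  have hconj := s.exists_conj hl hlf hlb hall hih hiρ
  -- conjugates of fixed points
  have hcov : ∀ w : W, w ≠ 0 → ∃ c ∈ L, ∃ v ∈ Fx, v ≠ 0 ∧ w = ρ c v := by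
    intro w hw
    obtain ⟨c, hc, hcw⟩ := hconj w hw
    refine ⟨c, hc, ρ c⁻¹ w, FreeFix.mem_fixed.2 ?_, fun h0 => hw ?_, ?_⟩
    · rw [map_mul_apply, map_mul_apply] at hcw
      exact ((congrArg (ρ c⁻¹) hcw).symm.trans (map_inv_apply ρ c _)).symm
    · have h1 := congrArg (ρ c) h0
      rwa [map_zero, ← map_mul_apply, mul_inv_cancel, map_one_apply] at h1
    · rw [← map_mul_apply, mul_inv_cancel, map_one_apply]
  have hFinv : ∀ a ∈ F, ∀ v ∈ Fx, ρ a v ∈ Fx := fun a ha v hv => FreeFix.mem_fixed.2 (by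
    refine (map_mul_apply ρ h a v).symm.trans ?_
    rw [map_mul, (comm_iff ρ h a).1 ((s.fixed h hhL a (s.fix_le ha)).2 ha), ← map_mul]
    exact (map_mul_apply ρ a h v).trans (congrArg (ρ a) (FreeFix.mem_fixed.1 hv)))
  have hcount : Nat.card W - 1 ≤ b * (Q - 1) := by
    have hne0 : ∀ (x : G) (v : W), v ≠ 0 → ρ x v ≠ 0 := fun x v hv h0 => hv (by
      rw [← map_inv_apply ρ x v, h0, map_zero])
    let f : (↥L ⧸ F.subgroupOf L) × {v : Fx // v ≠ 0} → {w : W // w ≠ 0} := fun z =>
      ⟨ρ (z.1.out : G) (z.2.1 : W), hne0 _ _ fun h0 => z.2.2 (Subtype.ext h0)⟩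
    have hf : Function.Surjective f := by
      rintro ⟨w, hw⟩
      obtain ⟨c, hc, v, hv, hv0, rfl⟩ := hcov w hw
      set q : ↥L ⧸ F.subgroupOf L := ((⟨c, hc⟩ : L) : ↥L ⧸ F.subgroupOf L)
      have hk : (q.out : G)⁻¹ * c ∈ F := (QuotientGroup.eq (s := F.subgroupOf L)).1 (QuotientGroup.out_eq' q)
      refine ⟨(q, ⟨⟨ρ ((q.out : G)⁻¹ * c) v, hFinv _ hk v hv⟩,
        fun h0 => hne0 _ v hv0 (congrArg Subtype.val h0)⟩), Subtype.ext ?_⟩
      show ρ (q.out : G) (ρ ((q.out : G)⁻¹ * c) v) = ρ c v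
      rw [← map_mul_apply, mul_inv_cancel_left]
    have h1 := Nat.card_le_card_of_surjective f hf
    have hQne : ∀ (α : Type _) [Finite α] [Zero α], Nat.card {x : α // x ≠ 0} = Nat.card α - 1 := by
      intro α _ _
      haveI := Fintype.ofFinite α
      rw [Nat.card_eq_fintype_card, Fintype.card_subtype_compl, Fintype.card_subtype_eq,
        Nat.card_eq_fintype_card]
    rw [Nat.card_prod, hQne, hQne] at h1
    refine h1.trans (Nat.mul_le_mul_right _ ?_)
    rw [hb, card_image]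
    refine Nat.le_of_dvd (Nat.pos_of_ne_zero Subgroup.index_ne_zero_of_finite)
      (Subgroup.relIndex_dvd_of_le_left L fun x hx => ?_)
    refine (s.fixed h hhL x hx.2).1 ((comm_iff ρ h x).2 ?_)
    rw [show ρ x = 1 from hx.1, mul_one, one_mul]
  have hQ1 : 1 < Q := by
    by_contra hle
    have := Finite.one_lt_card (α := W)
    rw [← hQ] at this
    exact absurd (Nat.pow_le_pow_left (not_lt.1 hle) l) (by rw [one_pow]; omega)
  have hW1 : 1 < Nat.card W := Finite.one_lt_card
  -- irreducibility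
  let T : Set (AddMonoid.End W) := ρ '' L
  have hT : ∀ a ∈ T, ∀ c ∈ T, a * c = c * a := by
    rintro _ ⟨a, ha, rfl⟩ _ ⟨c, hc, rfl⟩
    exact s.commL a ha c hc
  have hirr : ∀ W₀ : AddSubgroup W, Invariant T W₀ → W₀ = ⊥ ∨ W₀ = ⊤ := by
    intro W₀ hW₀
    by_contra hcon
    push Not at hcon
    have hBd : ∀ U : AddSubgroup W, Invariant T U → b ∣ Nat.card U - 1 := fun U hU =>
      card_dvd_sub_one (image L ρ) U
        (fun u hu w hw => by
          obtain ⟨x, hx, rfl⟩ := hu
          exact hU _ ⟨x, hx, rfl⟩ w hw)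
        (fun u hu w _ hw0 hfix => by
          obtain ⟨x, hx, rfl⟩ := hu
          exact Units.ext (s.semi x hx w hw0 hfix))
    have h1 := hBd W₀ hW₀
    have h2 := hBd ⊤ fun _ _ w _ => AddSubgroup.mem_top _
    rw [AddSubgroup.card_top] at h2
    obtain ⟨q, hq⟩ := W₀.card_addSubgroup_dvd_card
    have hn : 1 < Nat.card W₀ := by
      rw [Nat.lt_iff_le_and_ne]
      exact ⟨Nat.card_pos, fun h1 => hcon.1 (AddSubgroup.card_eq_one.1 h1.symm)⟩
    have hq1 : 1 < q := by
      rcases Nat.lt_or_ge 1 q with h' | h'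
      · exact h'
      · exfalso
        refine hcon.2 (AddSubgroup.eq_top_of_le_card W₀ ?_)
        rw [hq]
        exact (Nat.mul_le_mul_left _ h').trans_eq (mul_one _)
    have h3 : b ∣ q - 1 := by
      have hcop : Nat.Coprime b (Nat.card W₀) := by
        obtain ⟨c, hc⟩ := h1
        refine Nat.Coprime.coprime_dvd_left ⟨c, hc⟩ ?_
        refine Nat.coprime_of_dvd' fun d hd h1 h2 => ?_
        have h3 := Nat.dvd_sub h2 h1
        rwa [Nat.sub_sub_self hn.le] at h3
      refine hcop.dvd_of_dvd_mul_left ?_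
      rw [Nat.mul_sub_one, ← hq]
      rw [show Nat.card W - Nat.card W₀ = (Nat.card W - 1) - (Nat.card W₀ - 1) by omega]
      exact Nat.dvd_sub h2 h1
    have hb1 : b ≤ Nat.card W₀ - 1 := Nat.le_of_dvd (by omega) h1
    have hb2 : b ≤ q - 1 := Nat.le_of_dvd (by omega) h3
    have hb3 : b * b < Q ^ l := by
      rw [hQ, hq]
      exact Nat.mul_lt_mul_of_lt_of_lt (by omega) (by omega)
    have hb4 : Q ^ (l - 1) < b := by
      by_contra hle
      have h5 := (hQ ▸ hcount).trans (Nat.mul_le_mul_right _ (not_lt.1 hle))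
      rw [Nat.mul_sub_one, ← pow_succ, Nat.sub_add_cancel hl.one_le] at h5
      have h6 : Q ≤ Q ^ (l - 1) := Nat.le_self_pow (by have := hl.two_le; omega) Q
      have h7 : Q ^ (l - 1) ≤ Q ^ l := Nat.pow_le_pow_right (by omega) (Nat.sub_le _ _)
      omega
    have h8 : Q ^ l ≤ Q ^ (l - 1) * Q ^ (l - 1) := by
      rw [← pow_add]
      exact Nat.pow_le_pow_right (by omega) (by have := hl.two_le; omega)
    have h9 := Nat.mul_le_mul hb4.le hb4.le
    omega
  -- the field
  letI := Subring.closureCommRingOfComm hT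
  haveI := isDomain_closure hT hirr
  haveI : Finite (AddMonoid.End W) := Finite.of_injective _ DFunLike.coe_injective
  haveI : Finite (Subring.closure T) := inferInstance
  letI : Field (Subring.closure T) := (Finite.isField_of_domain _).toField
  have hconjmem : ∀ (x : G), ∀ a ∈ Subring.closure T, ρ x * a * ρ x⁻¹ ∈ Subring.closure T := by
    intro x a ha
    induction ha using Subring.closure_induction with
    | mem y hy =>
      obtain ⟨y, hy, rfl⟩ := hy
      refine Subring.subset_closure ⟨x * y * x⁻¹, Subgroup.Normal.conj_mem inferInstance _ hy x, ?_⟩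
      rw [map_mul, map_mul]
    | zero => rw [mul_zero, zero_mul]; exact zero_mem _
    | one => rw [mul_one, ← map_mul, mul_inv_cancel, map_one]; exact one_mem _
    | add a c _ _ ha hc => rw [mul_add, add_mul]; exact add_mem ha hc
    | neg a _ ha => rw [mul_neg, neg_mul]; exact neg_mem ha
    | mul a c _ _ ha hc =>
      rw [show ρ x * (a * c) * ρ x⁻¹ = (ρ x * a * ρ x⁻¹) * (ρ x * c * ρ x⁻¹) by
        simp only [mul_assoc]
        rw [← mul_assoc (ρ x⁻¹) (ρ x), ← map_mul, inv_mul_cancel, map_one, one_mul]]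
      exact mul_mem ha hc
  let Φ : G → Subring.closure T → Subring.closure T := fun x a => ⟨_, hconjmem x a a.2⟩
  have hΦmul : ∀ x y a, Φ (x * y) a = Φ x (Φ y a) := fun x y a => Subtype.ext (by
    show ρ (x * y) * a * ρ (x * y)⁻¹ = ρ x * (ρ y * a * ρ y⁻¹) * ρ x⁻¹
    simp only [mul_inv_rev, map_mul, mul_assoc])
  have hΦ1 : ∀ a, Φ 1 a = a := fun a => Subtype.ext (by
    show ρ 1 * (a : AddMonoid.End W) * ρ 1⁻¹ = a
    rw [inv_one, map_one, one_mul, mul_one])
  letI : MulSemiringAction G (Subring.closure T) :=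
    { smul := Φ
      one_smul := hΦ1
      mul_smul := hΦmul
      smul_zero := fun x => Subtype.ext (by show ρ x * 0 * ρ x⁻¹ = 0; rw [mul_zero, zero_mul])
      smul_add := fun x a c => Subtype.ext (by
        show ρ x * (a + c) * ρ x⁻¹ = ρ x * a * ρ x⁻¹ + ρ x * c * ρ x⁻¹
        rw [mul_add, add_mul])
      smul_one := fun x => Subtype.ext (by
        show ρ x * 1 * ρ x⁻¹ = 1
        rw [mul_one, ← map_mul, mul_inv_cancel, map_one])
      smul_mul := fun x a c => Subtype.ext (by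
        show ρ x * ((a : AddMonoid.End W) * c) * ρ x⁻¹ = (ρ x * a * ρ x⁻¹) * (ρ x * c * ρ x⁻¹)
        simp only [mul_assoc]
        rw [← mul_assoc (ρ x⁻¹) (ρ x), ← map_mul, inv_mul_cancel, map_one, one_mul]) }
  have hsm : ∀ (x : G) (a : Subring.closure T),
      ((x • a : Subring.closure T) : AddMonoid.End W) = ρ x * a * ρ x⁻¹ := fun _ _ => rfl
  let R : G → (Subring.closure T) := fun x =>
    if hx : x ∈ L then ⟨ρ x, Subring.subset_closure ⟨x, hx, rfl⟩⟩ else 1
  have hR : ∀ x ∈ L, (R x : AddMonoid.End W) = ρ x := fun x hx => by simp [R, dif_pos hx]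
  have hLfix : ∀ x ∈ L, ∀ a : Subring.closure T, x • a = a := fun x hx a => Subtype.ext (by
    rw [hsm, show ρ x * (a : AddMonoid.End W) = a * ρ x from
      commute_closure hT (Subring.subset_closure ⟨x, hx, rfl⟩) a.2, mul_assoc, ← map_mul,
      mul_inv_cancel, map_one, mul_one])
  have hfaith : ∀ x : G, (∀ a : Subring.closure T, x • a = a) → x ∈ L := by
    intro x hx
    by_contra hxL
    obtain ⟨y, hy, hyF⟩ := s.exists_moved
    refine hyF ((s.fixed x hxL y hy).1 ((comm_iff ρ x y).2 ?_))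
    have h1 := congrArg Subtype.val (hx (R y))
    rw [hsm, hR y hy] at h1
    calc ρ x * ρ y = ρ x * ρ y * ρ x⁻¹ * ρ x := by
          rw [mul_assoc (ρ x * ρ y), ← map_mul ρ x⁻¹ x, inv_mul_cancel, map_one, mul_one]
      _ = ρ y * ρ x := by rw [h1]
  -- the one dimensional space
  obtain ⟨v₀, hv₀, hv00⟩ : ∃ v ∈ Fx, v ≠ 0 := by
    by_contra hcon
    push Not at hcon
    rw [hQdef, (AddSubgroup.eq_bot_iff_forall _).2 hcon, AddSubgroup.card_bot] at hQ1
    omega
  have hinj : ∀ a c : Subring.closure T, ∀ w : W, w ≠ 0 →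
      (a : AddMonoid.End W) w = (c : AddMonoid.End W) w → a = c := fun a c w hw hac => by
    refine sub_eq_zero.1 (Subtype.ext (eq_zero_of_apply hT hirr (a - c).2 hw ?_))
    show (a : AddMonoid.End W) w - (c : AddMonoid.End W) w = 0
    rw [hac, sub_self]
  have hone : ∀ w : W, ∃ a : Subring.closure T, (a : AddMonoid.End W) v₀ = w := by
    intro w
    let U : AddSubgroup W :=
      { carrier := Set.range fun a : Subring.closure T => (a : AddMonoid.End W) v₀
        zero_mem' := ⟨0, rfl⟩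
        add_mem' := fun {x y} ⟨a, ha⟩ ⟨c, hc⟩ => ⟨a + c, by rw [← ha, ← hc]; rfl⟩
        neg_mem' := fun {x} ⟨a, ha⟩ => ⟨-a, by rw [← ha]; rfl⟩ }
    have hUinv : Invariant T U := by
      rintro t ht x ⟨a, ha⟩
      exact ⟨⟨t, Subring.subset_closure ht⟩ * a, by rw [← ha]; rfl⟩
    rcases hirr U hUinv with hU | hU
    · exact absurd ((AddSubgroup.eq_bot_iff_forall _).1 hU v₀ ⟨1, rfl⟩) hv00
    · exact hU.ge (AddSubgroup.mem_top w)
  have hfac : ∀ y : Subring.closure T, y ≠ 0 → ∃ c ∈ L, ∃ y₁ : Subring.closure T,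
      h • y₁ = y₁ ∧ y = R c * y₁ := by
    intro y hy
    obtain ⟨c, hc, v, hv, -, he⟩ := hcov ((y : AddMonoid.End W) v₀) fun h0 => hy
      (hinj y 0 v₀ hv00 h0)
    obtain ⟨y₁, rfl⟩ := hone v
    refine ⟨c, hc, y₁, hinj _ _ v₀ hv00 ?_, hinj _ _ v₀ hv00 ?_⟩
    · rw [hsm]
      show ρ h ((y₁ : AddMonoid.End W) (ρ h⁻¹ v₀)) = _
      conv_lhs => rw [show ρ h⁻¹ v₀ = v₀ by
        conv_lhs => rw [← FreeFix.mem_fixed.1 hv₀]
        exact map_inv_apply ρ h v₀]
      exact FreeFix.mem_fixed.1 hv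
    · show _ = (R c : AddMonoid.End W) ((y₁ : AddMonoid.End W) v₀)
      rw [hR c hc, he]
  -- a prime besides `l`
  obtain ⟨u, hu, huf⟩ := Nat.exists_prime_and_dvd (n := L.index / l) fun h1 => s.notPrime (by
    rw [← Nat.mul_div_cancel' hlf, h1, mul_one]; exact hl)
  have hul : u ∣ L.index := huf.trans (Nat.div_dvd_of_dvd hlf)
  have hlu : l ∣ L.index / u := by
    obtain ⟨c, hc⟩ := huf
    exact ⟨c, by rw [← Nat.mul_div_cancel' hlf, hc, mul_left_comm, Nat.mul_div_cancel_left _ hu.pos]⟩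
  set k := g ^ (L.index / u) with hk
  have hkL : k ∉ L := by
    rw [hk, s.pow_mem_iff]
    intro hd
    have hpos := Nat.pos_of_ne_zero (Subgroup.index_ne_zero_of_finite (H := L))
    exact absurd (Nat.le_of_dvd (Nat.div_pos (Nat.le_of_dvd hpos hul) hu.pos) hd)
      (not_le.2 (Nat.div_lt_self hpos hu.one_lt))
  have hkh : Commute k h := (Commute.refl g).pow_pow _ _
  have hfix : ∀ y : Subring.closure T, k • y = y → h • y = y := by
    intro y hy
    by_cases hy0 : y = 0
    · rw [hy0, smul_zero]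
    obtain ⟨c, hc, y₁, hy₁, hye⟩ := hfac y hy0
    have hkc : k * c * k⁻¹ ∈ L := Subgroup.Normal.conj_mem inferInstance _ hc k
    set z := ⁅k, c⁆ with hz
    have hzL : z ∈ L := s.comm (Subgroup.commutator_mem_commutator (Subgroup.mem_top _) (Subgroup.mem_top _))
    have hRc0 : R c ≠ 0 := fun h0 => hy0 (by rw [hye, h0, zero_mul])
    have hkR : k • R c = R z * R c := Subtype.ext (by
      rw [hsm, Subring.coe_mul, hR z hzL, hR c hc, ← map_mul, ← map_mul, ← map_mul, hz,
        commutatorElement_def, inv_mul_cancel_right])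
    have h1 : R z * (k • y₁) = y₁ := by
      have h2 : k • y = y := hy
      rw [hye, smul_mul', hkR, mul_comm (R z), mul_assoc] at h2
      exact mul_left_cancel₀ hRc0 h2
    have h3 : h • (k • y₁) = k • y₁ := by rw [← mul_smul, ← hkh.eq, mul_smul, hy₁]
    have hy10 : y₁ ≠ 0 := fun h0 => hy0 (by rw [hye, h0, mul_zero])
    have h4 : h • R z = R z := by
      have h5 := congrArg (h • ·) h1
      simp only [smul_mul', h3, hy₁] at h5
      refine mul_right_cancel₀ (fun h0 => hy10 ?_) (h5.trans h1.symm)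
      rw [← h1, h0, mul_zero]
    have h6 : z ∈ F := (s.fixed h hhL z hzL).1 ((comm_iff ρ h z).2 (by
      have h7 := congrArg Subtype.val h4
      rw [hsm, hR z hzL] at h7
      calc ρ h * ρ z = ρ h * ρ z * ρ h⁻¹ * ρ h := by
            rw [mul_assoc (ρ h * ρ z), ← map_mul ρ h⁻¹ h, inv_mul_cancel, map_one, mul_one]
        _ = ρ z * ρ h := by rw [h7]))
    have h8 : ρ z = 1 := s.inter z h6
      (Subgroup.commutator_mem_commutator (Subgroup.mem_top _) (Subgroup.mem_top _))
    have hcF : c ∈ F := (s.fixed k hkL c hc).1 h8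
    rw [hye, smul_mul', hy₁]
    congr 1
    refine Subtype.ext ?_
    rw [hsm, hR c hc, (comm_iff ρ h c).1 ((s.fixed h hhL c hc).2 hcF), mul_assoc, ← map_mul,
      mul_inv_cancel, map_one, mul_one]
  -- Galois theory
  let Z := Subgroup.zpowers k
  let σ : Subring.closure T ≃ₐ[FixedPoints.subfield Z (Subring.closure T)] Subring.closure T :=
    AlgEquiv.ofRingEquiv (f := MulSemiringAction.toRingEquiv G (Subring.closure T) h) fun x => by
      show h • (x : Subring.closure T) = _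
      exact hfix _ (x.2 ⟨k, Subgroup.mem_zpowers k⟩)
  obtain ⟨⟨z, hzk⟩, hz⟩ := FixedPoints.toAlgAut_surjective Z (Subring.closure T) σ
  obtain ⟨j, rfl⟩ := hzk
  have hagree : ∀ a : Subring.closure T, (k ^ j) • a = h • a := fun a => DFunLike.congr_fun hz a
  have hmemL : (k ^ j)⁻¹ * h ∈ L := hfaith _ fun a => by
    rw [mul_smul, ← hagree, ← mul_smul, inv_mul_cancel, one_smul]
  have hordg : orderOf (g : G ⧸ L) = L.index := Nat.dvd_antisymm
    (orderOf_dvd_iff_pow_eq_one.2 (by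
      rw [← QuotientGroup.mk_pow, QuotientGroup.eq_one_iff]; exact L.pow_index_mem g))
    (s.pow_mem_iff.1 (by
      rw [← QuotientGroup.eq_one_iff, QuotientGroup.mk_pow]; exact pow_orderOf_eq_one _))
  have hz2 : (g : G ⧸ L) ^ ((i : ℤ) - (L.index / u : ℕ) * j) = 1 := by
    rw [zpow_sub, zpow_natCast, zpow_mul, zpow_natCast, ← QuotientGroup.mk_pow,
      ← QuotientGroup.mk_pow, ← QuotientGroup.mk_zpow]
    rw [mul_inv_eq_one]
    exact (QuotientGroup.eq.2 hmemL).symm
  have hdvd := orderOf_dvd_iff_zpow_eq_one.2 hz2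
  rw [hordg] at hdvd
  have h1 : (l : ℤ) ∣ (i : ℤ) := by
    have h2 : (l : ℤ) ∣ ((L.index / u : ℕ) : ℤ) * j := (Int.natCast_dvd_natCast.2 hlu).mul_right j
    have h3 : (l : ℤ) ∣ (i : ℤ) - (L.index / u : ℕ) * j :=
      (Int.natCast_dvd_natCast.2 hlf).trans hdvd
    simpa using dvd_add h3 h2
  have h2 : l ∣ i := Int.natCast_dvd_natCast.1 h1
  obtain ⟨c, hc⟩ := h2
  have h3 : (g : G ⧸ L) ^ i = (g : G ⧸ L) ^ (L.index / l) := by
    rw [← QuotientGroup.mk_pow, ← QuotientGroup.mk_pow]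
    exact (QuotientGroup.eq.2 hih).symm
  rw [pow_eq_pow_iff_modEq, hordg] at h3
  exact hll ((Nat.ModEq.dvd_iff h3 hlf).1 ⟨c, hc⟩)

end CfsgLib.ZerosCodegree.Semilinear
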