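import Cfsg.Agent.Lib.ZerosCodegree.NondivisibilityGraph
import Cfsg.Agent.S4458
import Cfsg.Agent.S4460

/-!
# Degree sets without divisibility: a Frobenius quotient of prime index

When the Frobenius kernel has prime index every non-linear character of it is invariant and all
have the same degree, so there are at most three degrees.
-/

set_option autoImplicit false
set_option linter.style.haveILetI false
set_option linter.unusedSectionVars false
set_option maxSynthPendingDepth 4

open scoped commutatorElement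

namespace CfsgLib.ZerosCodegree.Nondiv

open Cfsg CfsgLib.CharTheory CfsgLib.Clifford CfsgLib.ZerosCodegree.RelGraph
open CfsgLib.ZerosCodegree.CyclicClifford

universe u

variable {G : Type u} [Group G] [Finite G]

/-- The conclusion of the theorem. -/
def Bounded (G : Type u) [Group G] : Prop :=
  Nat.card (charDegrees G) ≤ 4 ∧ derivedSeries G 3 = ⊥

theorem one_mem_degrees : 1 ∈ charDegrees G :=
  ⟨trivIrr G, degree_eq (by rw [trivIrr_apply, Nat.cast_one])⟩

theorem derived_three_eq_bot (h : ∀ a ∈ commutator G, ∀ b ∈ commutator G, a * b = b * a) :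
    derivedSeries G 3 = ⊥ := by
  have h2 : derivedSeries G 2 = ⊥ := by
    rw [derivedSeries_succ, derivedSeries_one, Subgroup.commutator_eq_bot_iff_le_centralizer]
    exact fun a ha => Subgroup.mem_centralizer_iff.2 fun b hb => h b hb a ha
  rw [derivedSeries_succ, h2, Subgroup.commutator_bot_left]

/-- Two degrees. -/
theorem bounded_of_pair {m : ℕ} (hm : m ∈ charDegrees G) (hm1 : m ≠ 1)
    (h : ∀ d ∈ charDegrees G, d = 1 ∨ d = m) : Bounded G := by
  refine ⟨?_, derived_three_eq_bot (Cfsg.Agent.S4458.result m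
    (fun χ => h _ (mem_degrees χ)) hm hm1)⟩
  have h1 : Set.ncard (charDegrees G) ≤ Set.ncard ({1, m} : Set ℕ) :=
    Set.ncard_le_ncard (fun d hd => h d hd) (by simp)
  rw [Set.ncard_pair (Ne.symm hm1)] at h1
  rw [Nat.card_coe_set_eq]
  omega

variable [Fintype G] {K L : Subgroup G} {r : ℕ} [L.Normal] [Fintype L]

/-- Prime index. -/
theorem bounded_of_prime (hsolv : Group.IsSolvable G) (hA : Antichain G) (hF : FrobQuot K L r) (hp : L.index.Prime) :
    Bounded G := by
  classical
  haveI := hF.normalK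
  have hcyc := frob_cyclic hF
  obtain ⟨β, -, hβd, -⟩ := exists_frob_char hF
  have hdeg : L.index ∈ charDegrees G := ⟨β, hβd⟩
  have hr : r ≠ L.index := fun h => hF.cop (h ▸ dvd_rfl)
  have hinv : ∀ θ : IrrCharacter L, charDegree (θ : L → ℂ) ≠ 1 →
      inertia L (θ : L → ℂ) = ⊤ ∧ charDegree (θ : L → ℂ) ∈ charDegrees G := by
    intro θ hθ
    obtain ⟨χ, hχ⟩ := exists_over L θ
    have hd := degree_over hcyc hχ
    have hle := le_inertia L (IsIrrCharacter.isClassFunction θ.2)
    have h2 : (inertia L (θ : L → ℂ)).index = 1 := by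
      rcases (Nat.dvd_prime hp).1 (Subgroup.index_dvd_of_le hle) with h | h
      · exact h
      · refine absurd (Subgroup.eq_of_le_of_card_ge hle (le_of_eq ?_)).symm
          (frob_inertia_ne hA hF hdeg θ hθ)
        have h3 := (inertia L (θ : L → ℂ)).index_mul_card
        rw [h, ← L.index_mul_card] at h3
        exact mul_left_cancel₀ Subgroup.index_ne_zero_of_finite h3
    rw [h2, one_mul] at hd
    exact ⟨Subgroup.index_eq_one.1 h2, χ, hd⟩
  have hcop : ∀ θ : IrrCharacter L, charDegree (θ : L → ℂ) ≠ 1 →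
      ¬ L.index ∣ charDegree (θ : L → ℂ) := fun θ hθ h => by
    have h1 := hA.eq_of_dvd hdeg (hinv θ hθ).2 hp.one_lt h
    exact hr ((Nat.prime_dvd_prime_iff_eq hF.prime hp).1 (h1 ▸ frob_dvd hA hF hdeg θ hθ))
  -- an element of prime power order outside `L`
  obtain ⟨l, k, hl, y, -, hyL, hyk⟩ := exists_ppart_not_mem (T := (⊤ : Subgroup G)) (S := L)
    fun h => hF.one_lt.ne' (Subgroup.index_eq_one.2 (top_le_iff.1 h))
  have hlp : l = L.index := by
    by_contra hne
    refine hyL (Palfy.mem_of_pow_coprime (a := l ^ k) (b := L.index) ?_ (L.pow_index_mem y)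
      (((Nat.coprime_primes hl hp).2 hne).pow_left _))
    rw [hyk]
    exact one_mem _
  have hsetup : Setup (MulAut.conjNormal y : MulAut L) l := by
    refine ⟨hl, ⟨k, ?_⟩, fun θ hθ x => ?_, fun θ hθ => hlp ▸ hcop θ hθ,
      fun a ha b hb h1 hab => ?_, ?_⟩
    · rw [← map_pow, hyk, map_one]
    · have h1 := congrFun ((mem_inertia L (θ : L → ℂ) y).1 ((hinv θ hθ).1.ge (Subgroup.mem_top y))) x
      rw [conjChar_eq_comp] at h1
      exact h1
    · obtain ⟨θ, rfl⟩ := ha
      obtain ⟨θ', rfl⟩ := hb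
      exact hA _ (hinv θ h1.ne').2 _ (hinv θ' (h1.trans hab).ne').2 h1 hab
    · obtain ⟨x, hxL, hxK⟩ := SetLike.not_le_iff_exists.1 hF.notLE
      refine ⟨⟨x, hxL⟩, fun hc => hxK (hF.fpf y hyL x hxL (hF.Lcomm ?_))⟩
      rw [← Subgroup.map_subtype_commutator]
      exact ⟨_, hc, by
        rw [Subgroup.coe_subtype, Subgroup.coe_mul, Subgroup.coe_inv, MulAut.conjNormal_apply,
          commutatorElement_def]⟩
  have hclass : ∀ χ : IrrCharacter G, charDegree (χ : G → ℂ) = 1 ∨
      charDegree (χ : G → ℂ) = L.index ∨ ∃ θ : IrrCharacter L, charDegree (θ : L → ℂ) ≠ 1 ∧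
        charDegree (χ : G → ℂ) = charDegree (θ : L → ℂ) := by
    intro χ
    obtain ⟨η, hη⟩ := CfsgLib.CharTheory.exists_constituent L (IsIrrCharacter.isCharacter χ.2)
      (apply_one_ne_zero_of_isIrr χ.2)
    by_cases hη1 : charDegree (η : L → ℂ) = 1
    · exact (frob_linear hA hF hdeg hη hη1).imp_right Or.inl
    · refine Or.inr (Or.inr ⟨η, hη1, ?_⟩)
      have h2 := degree_over hcyc (show Over L χ η from hη)
      rwa [(hinv η hη1).1, Subgroup.index_top, one_mul] at h2
  by_cases hex : ∃ θ : IrrCharacter L, charDegree (θ : L → ℂ) ≠ 1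
  swap
  · push Not at hex
    refine bounded_of_pair hdeg hp.ne_one ?_
    rintro _ ⟨χ, rfl⟩
    rcases hclass χ with h | h | ⟨θ, hθ, -⟩
    exacts [Or.inl h, Or.inr h, absurd (hex θ) hθ]
  obtain ⟨θ₀, hθ₀⟩ := hex
  obtain ⟨χ₀, hχ₀⟩ := (hinv θ₀ hθ₀).2
  have hd0 : charDegree (θ₀ : L → ℂ) ≠ L.index := fun h =>
    hcop θ₀ hθ₀ (dvd_of_eq h.symm)
  have hset : charDegrees G = {1, L.index, charDegree (θ₀ : L → ℂ)} := by
    refine Set.Subset.antisymm ?_ ?_
    · rintro _ ⟨χ, rfl⟩
      rcases hclass χ with h | h | ⟨θ, hθ, he⟩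
      · exact Or.inl h
      · exact Or.inr (Or.inl h)
      · refine Or.inr (Or.inr ?_)
        rw [Set.mem_singleton_iff, he]
        exact hsetup.degrees_eq inferInstance θ θ₀ hθ hθ₀
    · rintro _ (rfl | rfl | rfl)
      · exact one_mem_degrees
      · exact hdeg
      · exact (hinv θ₀ hθ₀).2
  have hcard : Nat.card (charDegrees G) = 3 := by
    rw [hset, Nat.card_coe_set_eq, Set.ncard_eq_three]
    exact ⟨1, L.index, _, hp.ne_one.symm, Ne.symm hθ₀, Ne.symm hd0, rfl⟩
  exact ⟨by omega, Cfsg.Agent.S4460.result hcard⟩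

end CfsgLib.ZerosCodegree.Nondiv
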