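import Cfsg.Agent.Lib.ZerosCodegree.NondivisibilityBase
import Cfsg.Agent.Lib.ZerosCodegree.NondivisibilityField
import Cfsg.Agent.Lib.ZerosCodegree.NondivisibilityPrime

/-!
# Degree sets without divisibility: the prime does not divide the derived subgroup of the kernel

When the Frobenius prime does not divide the order of the derived subgroup of the kernel, no prime
of a moved element does, and the derived subgroup of the kernel must be trivial: otherwise a chief
factor below it would give a semilinear configuration with an antichain of orbit lengths.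
-/

set_option autoImplicit false
set_option linter.style.haveILetI false
set_option linter.unusedSectionVars false
set_option maxSynthPendingDepth 4

open scoped commutatorElement

namespace CfsgLib.ZerosCodegree.Nondiv

open Cfsg CfsgLib.CharTheory CfsgLib.Clifford CfsgLib.ZerosCodegree.RelGraph
open CfsgLib.ZerosCodegree.CyclicClifford

universe u

variable {G : Type u} [Group G] [Fintype G]

/-- The linear characters of a normal subgroup trivial on a smaller one. -/
def linTriv (N M : Subgroup G) : Subgroup (N →* ℂˣ) where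
  carrier := {v | ∀ n : N, (n : G) ∈ M → v n = 1}
  one_mem' _ _ := rfl
  mul_mem' {a b} ha hb n hn := by rw [MonoidHom.mul_apply, ha n hn, hb n hn, one_mul]
  inv_mem' {a} ha n hn := by rw [MonoidHom.inv_apply, ha n hn, inv_one]

variable {N M : Subgroup G} [N.Normal] [M.Normal] [Fintype N]

theorem conjLin_mem_linTriv (a : G) {v : N →* ℂˣ} (hv : v ∈ linTriv N M) :
    conjLin a v ∈ linTriv N M := fun n hn => hv _ (by
  show ((MulAut.conjNormal a n : N) : G) ∈ M
  rw [MulAut.conjNormal_apply]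
  exact Subgroup.Normal.conj_mem inferInstance _ hn a)

theorem separates_linTriv (hcomm : ⁅N, N⁆ ≤ M) {x : N} (hx : (x : G) ∉ M) :
    ∃ v ∈ linTriv N M, v x ≠ 1 := by
  have h : commutator N ≤ M.subgroupOf N :=
    Subgroup.map_le_iff_le_comap.1 (by rw [Subgroup.map_subtype_commutator]; exact hcomm)
  obtain ⟨μ, hμ, hμx⟩ := Palfy.exists_linear_sep (X := N) h (x := x) hx
  exact ⟨μ, fun n hn => hμ hn, hμx⟩

/-- The action on the linear characters. -/
noncomputable def linAct (N M : Subgroup G) [N.Normal] [M.Normal] [Fintype N] :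
    G →* AddMonoid.End (Additive (linTriv N M)) where
  toFun a :=
    { toFun := fun v => Additive.ofMul ⟨conjLin a⁻¹ v.toMul.1, conjLin_mem_linTriv _ v.toMul.2⟩
      map_zero' := Additive.toMul.injective (Subtype.ext (map_one (conjLin a⁻¹)))
      map_add' := fun v w => Additive.toMul.injective (Subtype.ext (map_mul (conjLin a⁻¹) _ _)) }
  map_one' := AddMonoidHom.ext fun v => Additive.toMul.injective (Subtype.ext (by
    show conjLin (1 : G)⁻¹ v.toMul.1 = v.toMul.1
    rw [inv_one, conjLin_one]))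
  map_mul' a b := AddMonoidHom.ext fun v => Additive.toMul.injective (Subtype.ext (by
    show conjLin (a * b)⁻¹ v.toMul.1 = conjLin a⁻¹ (conjLin b⁻¹ v.toMul.1)
    rw [conjLin_conjLin, mul_inv_rev]))

theorem conjLin_inv_eq {a : G} {v : N →* ℂˣ} : conjLin a⁻¹ v = v ↔ conjLin a v = v := by
  rw [conjLin_eq_self_iff, conjLin_eq_self_iff]
  exact inv_mem_iff

theorem mem_stab_linAct {v : Additive (linTriv N M)} {a : G} :
    a ∈ Semilinear.stab (linAct N M) v ↔ conjLin a v.toMul.1 = v.toMul.1 := by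
  rw [Semilinear.mem_stab, ← conjLin_inv_eq]
  exact ⟨fun h => congrArg (fun z => (Additive.toMul z).1) h,
    fun h => Additive.toMul.injective (Subtype.ext h)⟩

theorem linAct_eq_one {a : G} :
    linAct N M a = 1 ↔ ∀ v ∈ linTriv N M, conjLin a v = v := by
  refine ⟨fun h v hv => ?_, fun h => AddMonoidHom.ext fun v => ?_⟩
  · exact mem_stab_linAct (v := Additive.ofMul ⟨v, hv⟩).1 (by
      show linAct N M a _ = _
      rw [h]
      rfl)
  · exact mem_stab_linAct.2 (h _ v.toMul.2)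

theorem apply_conjLin_div {a : G} {v : N →* ℂˣ} (h : conjLin a v = v) (n : N)
    (hmem : ⁅a, (n : G)⁆ ∈ N) : v ⟨⁅a, (n : G)⁆, hmem⟩ = 1 := by
  have h1 : (⟨⁅a, (n : G)⁆, hmem⟩ : N) = MulAut.conjNormal a n * n⁻¹ := Subtype.ext (by
    rw [Subgroup.coe_mul, Subgroup.coe_inv, MulAut.conjNormal_apply]
    exact commutatorElement_def a (n : G))
  rw [h1, map_mul, map_inv, mul_inv_eq_one]
  exact DFunLike.congr_fun h n

theorem linAct_eq_one_of_forall (hcomm : ∀ n ∈ N, ∀ v ∈ linTriv N M, conjLin n v = v) {a : G}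
    (ha : a ∈ N) : linAct N M a = 1 := linAct_eq_one.2 (hcomm a ha)

/-- A linear character extends to a normal subgroup that is a product with a normal subgroup on
which it is trivial, with the same stabiliser. -/
theorem exists_extension_stab {C Z : Subgroup G} [C.Normal] [Z.Normal] [Fintype C] (hNC : N ≤ C)
    (hsurj : ∀ y ∈ C, ∃ n ∈ N, n⁻¹ * y ∈ Z) (v : N →* ℂˣ)
    (hv : ∀ n : N, (n : G) ∈ Z → v n = 1) :
    ∃ lam : C →* ℂˣ, ∀ a : G, conjLin a lam = lam ↔ conjLin a v = v := by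
  let ι : N →* C ⧸ Z.subgroupOf C :=
    (QuotientGroup.mk' (Z.subgroupOf C)).comp (Subgroup.inclusion hNC)
  have hιs : Function.Surjective ι := fun y => by
    obtain ⟨⟨y, hy⟩, rfl⟩ := QuotientGroup.mk_surjective y
    obtain ⟨n, hn, hny⟩ := hsurj y hy
    exact ⟨⟨n, hn⟩, (QuotientGroup.eq (s := Z.subgroupOf C)).2 hny⟩
  have hιk : ι.ker ≤ v.ker := fun n hn =>
    hv n ((QuotientGroup.eq_one_iff (Subgroup.inclusion hNC n)).1 hn)
  obtain ⟨lam₀, hlam₀⟩ : ∃ l : C ⧸ Z.subgroupOf C →* ℂˣ, ∀ n, l (ι n) = v n :=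
    ⟨MonoidHom.liftOfSurjective ι hιs ⟨v, hιk⟩, fun n =>
      MonoidHom.liftOfRightInverse_comp_apply ι (Function.surjInv hιs)
        (Function.rightInverse_surjInv hιs) ⟨v, hιk⟩ n⟩
  let lam : C →* ℂˣ := lam₀.comp (QuotientGroup.mk' (Z.subgroupOf C))
  have hlamN : ∀ n : N, lam (Subgroup.inclusion hNC n) = v n := hlam₀
  have hlamZ : ∀ e : C, (e : G) ∈ Z → lam e = 1 := fun e he => by
    show lam₀ (e : C ⧸ Z.subgroupOf C) = 1
    rw [(QuotientGroup.eq_one_iff e).2 he, map_one]
  refine ⟨lam, fun a => ?_⟩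
  have hN : ∀ n : N, conjLin a lam (Subgroup.inclusion hNC n) = conjLin a v n := fun n => by
    show lam (MulAut.conjNormal a (Subgroup.inclusion hNC n)) = v (MulAut.conjNormal a n)
    rw [← hlamN (MulAut.conjNormal a n)]
    refine congrArg lam (Subtype.ext ?_)
    rw [MulAut.conjNormal_apply, Subgroup.coe_inclusion, Subgroup.coe_inclusion,
      MulAut.conjNormal_apply]
  refine ⟨fun h => MonoidHom.ext fun n => ?_, fun h => MonoidHom.ext fun y => ?_⟩
  · rw [← hN, h, hlamN]
  · obtain ⟨n, hn, hny⟩ := hsurj y y.2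
    have hy : y = Subgroup.inclusion hNC ⟨n, hn⟩ * ((Subgroup.inclusion hNC ⟨n, hn⟩)⁻¹ * y) :=
      (mul_inv_cancel_left _ _).symm
    rw [hy, map_mul (conjLin a lam), map_mul lam, hN, h, hlamN]
    congr 1
    refine Eq.trans (hlamZ _ ?_) (hlamZ _ hny).symm
    show ((MulAut.conjNormal a ((Subgroup.inclusion hNC ⟨n, hn⟩)⁻¹ * y) : C) : G) ∈ Z
    rw [MulAut.conjNormal_apply]
    exact Subgroup.Normal.conj_mem inferInstance _ hny a

variable {K L : Subgroup G} {r : ℕ} [L.Normal] [Fintype L]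

/-- The index of the stabiliser of a linear character is a degree if it is cyclic over the
subgroup. -/
theorem index_mem_degrees {C : Subgroup G} [C.Normal] [Fintype C] (hcyc : IsCyclic (G ⧸ L))
    (hCL : C ≤ L) (lam : C →* ℂˣ) {U : Subgroup G} (hU : ∀ a, a ∈ U ↔ conjLin a lam = lam)
    (hUL : ∀ a ∈ U, a ∈ L → a ∈ C) : U.index ∈ charDegrees G := by
  classical
  haveI := hcyc
  set T := inertia C (linFun lam) with hT
  have hTU : T = U := Subgroup.ext fun a => conjLin_eq_self_iff.symm.trans (hU a).symm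
  have hCT : C ≤ T := le_inertia C (IsIrrCharacter.isClassFunction (isIrrCharacter_linear lam))
  haveI : Fintype T := Fintype.ofFinite _
  let C' := C.subgroupOf T
  haveI : Fintype C' := Fintype.ofFinite _
  let f : T ⧸ C' →* G ⧸ L := QuotientGroup.map C' L T.subtype fun a ha => hCL ha
  have hf : Function.Injective f := by
    rw [← MonoidHom.ker_eq_bot_iff, eq_bot_iff]
    intro y hy
    obtain ⟨y, rfl⟩ := QuotientGroup.mk_surjective y
    have hyL : (y : G) ∈ L := (QuotientGroup.eq_one_iff (y : G)).1 (MonoidHom.mem_ker.1 hy)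
    exact Subgroup.mem_bot.2 ((QuotientGroup.eq_one_iff y).2 (hUL _ (hTU.le y.2) hyL))
  have hcyc' : IsCyclic (T ⧸ C') :=
    isCyclic_of_surjective (MonoidHom.ofInjective hf).symm.toMonoidHom (MulEquiv.surjective _)
  let e : C' ≃* C := Subgroup.subgroupOfEquivOfLe hCT
  obtain ⟨ψ, hψ, hψres⟩ := CfsgLib.RealChar.exists_extension_character_of_cyclic C' hcyc'
    (fun y => linFun lam (e y)) (isIrrCharacter_comp_mulEquiv (isIrrCharacter_linear lam) e)
    fun t y => by
      have h1 := congrFun ((mem_inertia C (linFun lam) _).1 t.2) (e y)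
      rw [conjChar_apply] at h1
      refine (congrArg (linFun lam) (Subtype.ext ?_)).trans h1
      show (((MulAut.conjNormal t y : C') : T) : G) = _
      rw [MulAut.conjNormal_apply]
      rfl
  have hres : (fun n : C => ψ ⟨(n : G), hCT n.2⟩) = linFun lam := funext fun n =>
    (hψres (e.symm n)).trans (congrArg (linFun lam) (e.apply_symm_apply n))
  obtain ⟨hirr, -⟩ := isIrrCharacter_indFun_inertia (isIrrCharacter_linear lam)
    (mem_inertia C _) hCT hψ fun h => one_ne_zero
      ((classInner_self_of_isIrr (isIrrCharacter_linear lam)).symm.trans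
        ((congrArg (fun φ => classInner φ (linFun lam)) hres.symm).trans h))
  refine ⟨⟨_, hirr⟩, degree_eq ?_⟩
  show indFun T ψ 1 = _
  rw [CfsgLib.Frobenius.indFun_one, show ψ 1 = linFun lam 1 from congrFun hres 1, linFun_apply,
    map_one, Units.val_one, mul_one, hTU]

namespace Comp

theorem prime_of_moved (c : Comp K L r) (hr : ¬ r ∣ Nat.card (⁅L, L⁆ : Subgroup G)) {s k : ℕ}
    (hs : s.Prime) {x : G} (hx : x ∈ L) (hxF : x ∉ c.fix0) (hxk : x ^ s ^ k = 1) :
    ¬ s ∣ Nat.card (⁅L, L⁆ : Subgroup G) := by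
  intro hd
  obtain ⟨y, j, hy, hyF, hyj⟩ := c.exists_moved
  refine hyF (c.mem_fix0_of_coprime hs hx hxF hxk hd hy ?_)
  exact Nat.Coprime.coprime_dvd_left (orderOf_dvd_of_pow_eq_one hyj)
    (((Nat.coprime_primes c.frob.prime hs).2 fun h => hr (h ▸ hd)).pow_left _)

/-- The chief factor configuration. -/
theorem not_lt_derived (c : Comp K L r) (hr : ¬ r ∣ Nat.card (⁅L, L⁆ : Subgroup G))
    (hsolv : Group.IsSolvable G) : (⁅L, L⁆ : Subgroup G) = ⊥ := by
  classical
  by_contra hne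
  haveI := hsolv
  set N : Subgroup G := ⁅L, L⁆ with hN
  haveI : Fintype N := Fintype.ofFinite _
  have hNL : N ≤ L := Subgroup.commutator_le_self L
  haveI : Finite (Subgroup G) := Finite.of_injective _ SetLike.coe_injective
  haveI : Nonempty {M : Subgroup G // M.Normal ∧ M < N} :=
    ⟨⟨⊥, inferInstance, bot_lt_iff_ne_bot.2 hne⟩⟩
  obtain ⟨⟨M, hMn, hMN⟩, hmax⟩ := Finite.exists_max
    (fun M : {M : Subgroup G // M.Normal ∧ M < N} => Nat.card M.1)
  haveI := hMn
  have hbig : ∀ M' : Subgroup G, M'.Normal → M ≤ M' → M' ≤ N → M' = M ∨ M' = N := by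
    intro M' hn h1 h2
    rcases h2.lt_or_eq with h3 | h3
    · exact Or.inl (Subgroup.eq_of_le_of_card_ge h1 (hmax ⟨M', hn, h3⟩)).symm
    · exact Or.inr h3
  -- the chief factor is elementary abelian
  have hcomm : ⁅N, N⁆ ≤ M := by
    rcases hbig (⁅N, N⁆ ⊔ M) inferInstance le_sup_right
      (sup_le (Subgroup.commutator_le_self N) hMN.le) with h | h
    · exact le_sup_left.trans h.le
    exfalso
    set q := QuotientGroup.mk' M
    haveI : Group.IsSolvable (G ⧸ M) :=
      Group.isSolvable_of_surjective (f := q) (QuotientGroup.mk'_surjective M)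
    refine hMN.not_ge ?_
    by_contra hcon
    have h1 : N.map q ≠ ⊥ := fun h0 => hcon (by
      rw [Subgroup.map_eq_bot_iff, QuotientGroup.ker_mk'] at h0
      exact h0)
    refine (Group.IsSolvable.commutator_lt_of_ne_bot h1).ne ?_
    rw [← Subgroup.map_commutator]
    conv_rhs => rw [← h]
    rw [Subgroup.map_sup, show M.map q = ⊥ from (Subgroup.map_eq_bot_iff _).2
      (QuotientGroup.ker_mk' M).ge, sup_bot_eq]
  obtain ⟨p, k, hp, z, hzN, hzM, hzk⟩ := exists_ppart_not_mem (T := N) (S := M) hMN.not_ge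
  haveI := Fact.mk hp
  have hpN : p ∣ Nat.card N := by
    obtain ⟨i, -, hi⟩ := (Nat.dvd_prime_pow hp).1 (orderOf_dvd_of_pow_eq_one hzk)
    have h2 : p ∣ orderOf z := hi ▸ dvd_pow_self p fun h0 => hzM (by
      rw [h0, pow_zero, orderOf_eq_one_iff] at hi
      rw [hi]; exact one_mem _)
    exact h2.trans (N.orderOf_mk z hzN ▸ orderOf_dvd_natCard (⟨z, hzN⟩ : N))
  have hnp : ∀ {x : G} {j : ℕ}, x ∈ L → x ^ p ^ j = 1 → x ∈ c.fix0 := fun {x j} hx hxj =>
    Classical.byContradiction fun hxF => c.prime_of_moved hr hp hx hxF hxj hpN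
  let q := QuotientGroup.mk' M
  have hqab : ∀ a ∈ N, ∀ b ∈ N, Commute (q a) (q b) := fun a ha b hb => by
    rw [Commute, SemiconjBy, ← commutatorElement_eq_one_iff_mul_comm, ← map_commutatorElement]
    exact (QuotientGroup.eq_one_iff _).2 (hcomm (Subgroup.commutator_mem_commutator ha hb))
  let P : Subgroup G :=
    { carrier := {x | x ∈ N ∧ x ^ p ∈ M}
      one_mem' := ⟨N.one_mem, by rw [one_pow]; exact M.one_mem⟩
      mul_mem' := fun {a b} ha hb => ⟨N.mul_mem ha.1 hb.1, (QuotientGroup.eq_one_iff _).1 (by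
        show q ((a * b) ^ p) = 1
        rw [map_pow, map_mul, (hqab a ha.1 b hb.1).mul_pow, ← map_pow, ← map_pow,
          show q (a ^ p) = 1 from (QuotientGroup.eq_one_iff _).2 ha.2,
          show q (b ^ p) = 1 from (QuotientGroup.eq_one_iff _).2 hb.2, one_mul])⟩
      inv_mem' := fun {a} ha => ⟨N.inv_mem ha.1, by rw [inv_pow]; exact M.inv_mem ha.2⟩ }
  haveI : P.Normal := ⟨fun x hx a => ⟨Subgroup.Normal.conj_mem inferInstance _ hx.1 a, by
    rw [conj_pow]; exact hMn.conj_mem _ hx.2 a⟩⟩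
  have hexp : ∀ x ∈ N, x ^ p ∈ M := by
    obtain ⟨i, hi, hi'⟩ : ∃ i, z ^ p ^ i ∉ M ∧ z ^ p ^ (i + 1) ∈ M := by
      by_contra hcon
      push Not at hcon
      have h : ∀ i, z ^ p ^ i ∉ M := fun i => by
        induction i with
        | zero => rwa [pow_zero, pow_one]
        | succ i ih => exact hcon i ih
      exact h k (hzk ▸ M.one_mem)
    rcases hbig P inferInstance (fun x hx => ⟨hMN.le hx, M.pow_mem hx p⟩) fun x hx => hx.1 with h | h
    · exact absurd (h.le (show z ^ p ^ i ∈ P from ⟨N.pow_mem hzN _, by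
        rw [← pow_mul, ← pow_succ]; exact hi'⟩)) hi
    · exact fun x hx => (h.ge hx).2
  -- the action
  set X := linTriv N M with hX
  haveI := finite_lin N
  haveI : Finite X := inferInstance
  set ρ := linAct N M with hρ
  have hNfix : ∀ n ∈ N, ρ n = 1 := fun n hn =>
    linAct_eq_one.2 fun v _ => conjLin_of_mem hn v
  have hXne : ∃ v ∈ X, v ≠ 1 := by
    obtain ⟨v, hv, hvz⟩ := separates_linTriv hcomm (x := ⟨z, hzN⟩) hzM
    exact ⟨v, hv, fun h => hvz (by rw [h]; rfl)⟩
  have hXexp : ∀ v ∈ X, v ^ p = 1 := fun v hv => MonoidHom.ext fun n => by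
    rw [MonoidHom.pow_apply, ← map_pow, MonoidHom.one_apply]
    exact hv _ (hexp n n.2)
  have hmovedfix : ∀ {x : G} {s j : ℕ}, s.Prime → x ∈ L → x ∉ c.fix0 → x ^ s ^ j = 1 →
      ∀ v ∈ X, conjLin x v = v → v = 1 := by
    intro x s j hs hx hxF hxj v hv hfix
    have hcop : (s ^ j).Coprime p := ((Nat.coprime_primes hs hp).2
      fun h => c.prime_of_moved hr hs hx hxF hxj (h ▸ hpN)).pow_left _
    let Q := N ⧸ M.subgroupOf N
    let f : Q → Q := Quotient.map'
      (fun n : N => (⟨⁅x, (n : G)⁆, Subgroup.commutator_mem_commutator hx (hNL n.2)⟩ : N)) (by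
        intro a b hab
        rw [QuotientGroup.leftRel_apply] at hab ⊢
        show ⁅x, (a : G)⁆⁻¹ * ⁅x, (b : G)⁆ ∈ M
        obtain ⟨m, hm, hb⟩ : ∃ m ∈ M, (b : G) = a * m := ⟨_, hab, by
          show (b : G) = a * ((a : G)⁻¹ * b)
          rw [mul_inv_cancel_left]⟩
        rw [hb, show ⁅x, (a : G) * m⁆ = ⁅x, (a : G)⁆ * ((a : G) * ⁅x, m⁆ * (a : G)⁻¹) by
          simp only [commutatorElement_def]; group, inv_mul_cancel_left]
        refine hMn.conj_mem _ ?_ _
        rw [commutatorElement_def]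
        exact M.mul_mem (hMn.conj_mem _ hm x) (M.inv_mem hm))
    have hf : Function.Injective f := fun a b hab => by
      obtain ⟨a, rfl⟩ := QuotientGroup.mk_surjective a
      obtain ⟨b, rfl⟩ := QuotientGroup.mk_surjective b
      have h1 : ⁅x, (a : G)⁆⁻¹ * ⁅x, (b : G)⁆ ∈ M :=
        (QuotientGroup.eq (s := M.subgroupOf N)).1 hab
      refine QuotientGroup.eq.2 ?_
      show (a : G)⁻¹ * b ∈ M
      have h2 : ⁅x, (a : G)⁻¹ * b⁆ ∈ M := by
        rw [show ⁅x, (a : G)⁻¹ * b⁆ = (a : G)⁻¹ * (⁅x, (a : G)⁆⁻¹ * ⁅x, (b : G)⁆) * (a : G)⁻¹⁻¹ by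
          simp only [commutatorElement_def]; group]
        exact hMn.conj_mem _ h1 _
      have hmem : (a : G)⁻¹ * b ∈ N := N.mul_mem (N.inv_mem a.2) b.2
      exact Palfy.mem_of_pow_coprime (c.pow_mem_of_fixed hx hxF hxj hmem h2) (hexp _ hmem) hcop
    refine MonoidHom.ext fun n => ?_
    obtain ⟨a, ha⟩ := Finite.injective_iff_surjective.1 hf (n : Q)
    obtain ⟨a, rfl⟩ := QuotientGroup.mk_surjective a
    have h1 : v ((⟨⁅x, (a : G)⁆, Subgroup.commutator_mem_commutator hx (hNL a.2)⟩ : N)⁻¹ * n) = 1 :=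
      hv _ ((QuotientGroup.eq (s := M.subgroupOf N)).1 ha)
    rw [map_mul, map_inv, apply_conjLin_div hfix, inv_one, one_mul] at h1
    rw [h1, MonoidHom.one_apply]
  have hfixedfix : ∀ {x : G}, x ∈ c.fix0 → ∀ v ∈ X, v ≠ 1 → conjLin x v = v → ρ x = 1 := by
    intro x hx v hv hv1 hfix
    let Xx : Subgroup (N →* ℂˣ) :=
      { carrier := {w | w ∈ X ∧ conjLin x w = w}
        one_mem' := ⟨X.one_mem, map_one _⟩
        mul_mem' := fun {a b} ha hb => ⟨X.mul_mem ha.1 hb.1, by rw [map_mul, ha.2, hb.2]⟩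
        inv_mem' := fun {a} ha => ⟨X.inv_mem ha.1, by rw [map_inv, ha.2]⟩ }
    have hst : ∀ a : G, ∀ w ∈ Xx, conjLin a w ∈ Xx := fun a w hw => by
      refine ⟨conjLin_mem_linTriv a hw.1, ?_⟩
      have h1 : ⁅a, x⁆ ∈ N := c.comm_mem_derived hx a
      rw [conjLin_conjLin, show a * x = ⁅a, x⁆ * (x * a) by rw [commutatorElement_def]; group,
        ← conjLin_conjLin, conjLin_of_mem h1, ← conjLin_conjLin, hw.2]
    let A : Subgroup G :=
      { carrier := {n | ∃ hn : n ∈ N, ∀ w ∈ Xx, w ⟨n, hn⟩ = 1}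
        one_mem' := ⟨N.one_mem, fun w _ => map_one w⟩
        mul_mem' := fun {a b} ⟨ha, ha'⟩ ⟨hb, hb'⟩ => ⟨N.mul_mem ha hb, fun w hw => by
          rw [show (⟨a * b, _⟩ : N) = ⟨a, ha⟩ * ⟨b, hb⟩ from rfl, map_mul, ha' w hw, hb' w hw,
            one_mul]⟩
        inv_mem' := fun {a} ⟨ha, ha'⟩ => ⟨N.inv_mem ha, fun w hw => by
          rw [show (⟨a⁻¹, _⟩ : N) = (⟨a, ha⟩ : N)⁻¹ from rfl, map_inv, ha' w hw, inv_one]⟩ }
    haveI : A.Normal := ⟨fun n ⟨hn, hn'⟩ a => ⟨Subgroup.Normal.conj_mem inferInstance _ hn a,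
      fun w hw => by
        have h0 := hn' _ (hst a w hw)
        change w (MulAut.conjNormal a (⟨n, hn⟩ : N)) = 1 at h0
        refine Eq.trans (congrArg w (Subtype.ext ?_)) h0
        exact (MulAut.conjNormal_apply a (⟨n, hn⟩ : N)).symm⟩⟩
    rcases hbig A inferInstance (fun m hm => ⟨hMN.le hm, fun w hw => hw.1 _ hm⟩)
      (fun n hn => hn.1) with h | h
    · refine linAct_eq_one.2 fun w hw => MonoidHom.ext fun n => ?_
      have hmem : ⁅x, (n : G)⁆ ∈ N := Subgroup.commutator_mem_commutator hx.1 (hNL n.2)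
      have h1 : ⁅x, (n : G)⁆ ∈ A := ⟨hmem, fun u hu => apply_conjLin_div hu.2 n hmem⟩
      have h2 := hw ⟨_, hmem⟩ (h.le h1)
      have h3 : (⟨⁅x, (n : G)⁆, hmem⟩ : N) = MulAut.conjNormal x n * n⁻¹ := Subtype.ext (by
        rw [Subgroup.coe_mul, Subgroup.coe_inv, MulAut.conjNormal_apply]
        exact commutatorElement_def x (n : G))
      rw [h3, map_mul, map_inv, mul_inv_eq_one] at h2
      exact h2
    · exact absurd (MonoidHom.ext fun n => (h.ge n.2).2 v ⟨hv, hfix⟩) hv1
  have hXp : IsPGroup p X := fun v => ⟨1, Subtype.ext (by rw [pow_one]; exact hXexp v.1 v.2)⟩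
  have hpfix : ∀ {x : G} {j : ℕ}, x ∈ L → x ^ p ^ j = 1 → ρ x = 1 := by
    intro x j hx hxj
    haveI : Fintype X := Fintype.ofFinite _
    let σ : Equiv.Perm X :=
      { toFun := fun v => ⟨conjLin x v.1, conjLin_mem_linTriv _ v.2⟩
        invFun := fun v => ⟨conjLin x⁻¹ v.1, conjLin_mem_linTriv _ v.2⟩
        left_inv := fun v => Subtype.ext (by
          show conjLin x⁻¹ (conjLin x v.1) = v.1
          rw [conjLin_conjLin, mul_inv_cancel, conjLin_one])
        right_inv := fun v => Subtype.ext (by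
          show conjLin x (conjLin x⁻¹ v.1) = v.1
          rw [conjLin_conjLin, inv_mul_cancel, conjLin_one]) }
    have hσk : ∀ i, ∀ v : X, ((σ ^ i) v).1 = conjLin (x ^ i) v.1 := by
      intro i
      induction i with
      | zero => intro v; rw [pow_zero, pow_zero, conjLin_one]; rfl
      | succ i ih =>
        intro v
        rw [pow_succ', Equiv.Perm.mul_apply]
        show conjLin x ((σ ^ i) v).1 = _
        rw [ih, conjLin_conjLin, pow_succ]
    have h1 := Equiv.Perm.card_compl_support_modEq (p := p) (n := j) (σ := σ)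
      (Equiv.ext fun v => Subtype.ext (by rw [hσk, hxj, conjLin_one]; rfl))
    obtain ⟨v, hv, hv1⟩ : ∃ v ∈ σ.supportᶜ, v ≠ (1 : X) := by
      by_contra hcon
      push Not at hcon
      have hone : (1 : X) ∈ σ.supportᶜ := by
        rw [Finset.mem_compl, Equiv.Perm.mem_support, not_not]
        exact Subtype.ext (map_one (conjLin x))
      have h2 : σ.supportᶜ = {1} := Finset.eq_singleton_iff_unique_mem.2 ⟨hone, hcon⟩
      obtain ⟨w, hw, hw1⟩ := hXne
      haveI : Nontrivial X := ⟨⟨⟨w, hw⟩, 1, fun h => hw1 (congrArg Subtype.val h)⟩⟩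
      obtain ⟨i, hi, hci⟩ := (IsPGroup.nontrivial_iff_card hXp).1 inferInstance
      rw [h2, Finset.card_singleton, ← Nat.card_eq_fintype_card, hci, Nat.ModEq,
        Nat.mod_eq_zero_of_dvd (dvd_pow_self p hi.ne'), Nat.mod_eq_of_lt hp.one_lt] at h1
      exact one_ne_zero h1
    rw [Finset.mem_compl, Equiv.Perm.mem_support, not_not] at hv
    exact hfixedfix (hnp hx hxj) v.1 v.2 (fun h => hv1 (Subtype.ext h)) (congrArg Subtype.val hv)
  haveI : Finite (Additive X) := inferInstanceAs (Finite X)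
  have hne0 : ∀ {w : Additive X}, w ≠ 0 → w.toMul.1 ≠ 1 := fun {w} hw h =>
    hw (Additive.toMul.injective (Subtype.ext h))
  have hker : ρ.ker ⊓ L ≤ c.fix0 := by
    intro x hx
    by_contra hxF
    obtain ⟨s, j, hs, y, hy, hyF, hyj⟩ :=
      exists_ppart_not_mem (T := ρ.ker ⊓ L) (S := c.fix0) fun h => hxF (h hx)
    obtain ⟨v, hv, hv1⟩ := hXne
    exact hv1 (hmovedfix hs hy.2 hyF hyj v hv (linAct_eq_one.1 hy.1 v hv))
  have hsemi : ∀ x ∈ L, ∀ w : Additive X, w ≠ 0 → ρ x w = w → ρ x = 1 := by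
    intro x hx w hw hfix
    by_contra hne'
    obtain ⟨s, j, hs, y, hy, hyK, hyj⟩ := exists_ppart_not_mem
      (T := Semilinear.stab ρ w ⊓ L) (S := ρ.ker) fun h => hne' (h ⟨hfix, hx⟩)
    have hy1 := mem_stab_linAct.1 hy.1
    by_cases hyF : y ∈ c.fix0
    · exact hyK (hfixedfix hyF _ w.toMul.2 (hne0 hw) hy1)
    · exact hne0 hw (hmovedfix hs hy.2 hyF hyj _ w.toMul.2 hy1)
  -- orbit lengths are degrees
  have hdegree : ∀ w : Additive X, w ≠ 0 → (Semilinear.stab ρ w).index ∈ charDegrees G := by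
    intro w hw
    set v := w.toMul.1 with hvdef
    set U := Semilinear.stab ρ w with hU
    let C : Subgroup G := ρ.ker ⊓ L
    haveI : Fintype C := Fintype.ofFinite _
    have hNC : N ≤ C := fun n hn => ⟨hNfix n hn, hNL hn⟩
    have hCN : ∀ x ∈ C, ∀ n ∈ N, ⁅x, n⁆ ∈ M := fun x hx n hn => by
      have hmem : ⁅x, n⁆ ∈ N := Subgroup.commutator_mem_commutator hx.2 (hNL hn)
      by_contra hcon
      obtain ⟨u, hu, hun⟩ := separates_linTriv hcomm (x := ⟨⁅x, n⁆, hmem⟩) hcon
      exact hun (apply_conjLin_div (linAct_eq_one.1 hx.1 u hu) ⟨n, hn⟩ hmem)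
    obtain ⟨x, j, hxL, hxF, hxj⟩ := c.exists_moved
    have hxcop : (r ^ j).Coprime p := ((Nat.coprime_primes c.frob.prime hp).2
      fun h => hr (h ▸ hpN)).pow_left _
    -- the part fixed by a moved element is central
    let Z : Subgroup G :=
      { carrier := {d | d ∈ C ∧ ∀ a : G, q ⁅a, d⁆ = 1}
        one_mem' := ⟨C.one_mem, fun a => by rw [commutatorElement_one_right, map_one]⟩
        mul_mem' := fun {a b} ha hb => ⟨C.mul_mem ha.1 hb.1, fun t => by
          rw [show ⁅t, a * b⁆ = ⁅t, a⁆ * (a * ⁅t, b⁆ * a⁻¹) by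
            simp only [commutatorElement_def]; group, map_mul, ha.2, map_mul, map_mul, hb.2,
            mul_one, one_mul, ← map_mul, mul_inv_cancel, map_one]⟩
        inv_mem' := fun {a} ha => ⟨C.inv_mem ha.1, fun t => by
          rw [show ⁅t, a⁻¹⁆ = a⁻¹ * ⁅t, a⁆⁻¹ * a by simp only [commutatorElement_def]; group,
            map_mul, map_mul, map_inv q ⁅t, a⁆, ha.2, inv_one, mul_one, ← map_mul, inv_mul_cancel,
            map_one]⟩ }
    haveI : Z.Normal := ⟨fun d hd a => by
      rw [show a * d * a⁻¹ = ⁅a, d⁆ * d by rw [commutatorElement_def, inv_mul_cancel_right]]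
      have hmem : ⁅a, d⁆ ∈ M := (QuotientGroup.eq_one_iff _).1 (hd.2 a)
      refine Z.mul_mem ⟨hNC (hMN.le hmem), fun t => (QuotientGroup.eq_one_iff _).2 ?_⟩ hd
      rw [commutatorElement_def t]
      exact M.mul_mem (hMn.conj_mem _ hmem t) (M.inv_mem hmem)⟩
    have hcentral : ∀ d ∈ C, Commute (q x) (q d) → d ∈ Z := by
      intro d hd hxd
      have hw : ∀ a : G, ⁅a, d⁆ ∈ N := fun a => c.comm_mem_derived (hker hd) a
      have step : ∀ a : G, Commute (q (a * x * a⁻¹)) (q d) → q ⁅a, d⁆ = 1 := by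
        intro a ha
        have h1 : Commute (q (a * x * a⁻¹)) (q (a * d * a⁻¹)) := by
          rw [Commute, SemiconjBy, map_mul, map_mul, map_mul, map_mul, map_inv]
          simp only [mul_assoc, inv_mul_cancel_left]
          rw [← mul_assoc (q x), hxd.eq, mul_assoc]
        have h2 : Commute (q (a * x * a⁻¹)) (q ⁅a, d⁆) := by
          rw [commutatorElement_def, map_mul q (a * d * a⁻¹) d⁻¹, map_inv q d]
          exact h1.mul_right ha.inv_right
        refine (QuotientGroup.eq_one_iff _).2 (Palfy.mem_of_pow_coprime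
          (c.pow_mem_of_fixed (x := a * x * a⁻¹) (n := r ^ j)
            (Subgroup.Normal.conj_mem inferInstance _ hxL a) (fun h => hxF ?_) ?_ (hw a) ?_)
          (hexp _ (hw a)) hxcop)
        · simpa [mul_assoc] using Subgroup.Normal.conj_mem inferInstance _ h a⁻¹
        · rw [conj_pow, hxj, mul_one, mul_inv_cancel]
        · refine (QuotientGroup.eq_one_iff _).1 ?_
          show q _ = 1
          rw [map_commutatorElement, commutatorElement_eq_one_iff_mul_comm]
          exact h2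
      have hL' : ∀ a ∈ L, Commute (q (a * x * a⁻¹)) (q d) := fun a ha => by
        rw [show a * x * a⁻¹ = ⁅a, x⁆ * x by rw [commutatorElement_def, inv_mul_cancel_right],
          map_mul]
        refine Commute.mul_left ?_ hxd
        refine Commute.symm ?_
        rw [Commute, SemiconjBy, ← commutatorElement_eq_one_iff_mul_comm, ← map_commutatorElement]
        exact (QuotientGroup.eq_one_iff _).2
          (hCN d hd _ (Subgroup.commutator_mem_commutator ha hxL))
      refine ⟨hd, fun a => step a ?_⟩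
      have h3 := step _ (hL' (a * x * a⁻¹) (Subgroup.Normal.conj_mem inferInstance _ hxL a))
      rw [map_commutatorElement, commutatorElement_eq_one_iff_mul_comm] at h3
      exact h3
    -- the extension
    let Q := N ⧸ M.subgroupOf N
    have hsurj : ∀ d ∈ C, ∃ n ∈ N, n⁻¹ * d ∈ Z := by
      intro d hd
      let f : Q → Q := Quotient.map'
        (fun n : N => (⟨⁅x, (n : G)⁆, Subgroup.commutator_mem_commutator hxL (hNL n.2)⟩ : N)) (by
          intro a b hab
          rw [QuotientGroup.leftRel_apply] at hab ⊢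
          show ⁅x, (a : G)⁆⁻¹ * ⁅x, (b : G)⁆ ∈ M
          rw [show ⁅x, (b : G)⁆ = ⁅x, (a : G)⁆ * ((a : G) * ⁅x, (a : G)⁻¹ * b⁆ * (a : G)⁻¹) by
            simp only [commutatorElement_def]; group, inv_mul_cancel_left]
          refine hMn.conj_mem _ ?_ _
          rw [commutatorElement_def]
          exact M.mul_mem (hMn.conj_mem _ hab x) (M.inv_mem hab))
      have hf : Function.Injective f := fun a b hab => by
        obtain ⟨a, rfl⟩ := QuotientGroup.mk_surjective a
        obtain ⟨b, rfl⟩ := QuotientGroup.mk_surjective b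
        have h1 : ⁅x, (a : G)⁆⁻¹ * ⁅x, (b : G)⁆ ∈ M :=
          (QuotientGroup.eq (s := M.subgroupOf N)).1 hab
        refine QuotientGroup.eq.2 ?_
        show (a : G)⁻¹ * b ∈ M
        have h2 : ⁅x, (a : G)⁻¹ * b⁆ ∈ M := by
          rw [show ⁅x, (a : G)⁻¹ * b⁆ = (a : G)⁻¹ * (⁅x, (a : G)⁆⁻¹ * ⁅x, (b : G)⁆) * (a : G)⁻¹⁻¹ by
            simp only [commutatorElement_def]; group]
          exact hMn.conj_mem _ h1 _
        have hmem : (a : G)⁻¹ * b ∈ N := N.mul_mem (N.inv_mem a.2) b.2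
        exact Palfy.mem_of_pow_coprime (c.pow_mem_of_fixed hxL hxF hxj hmem h2) (hexp _ hmem) hxcop
      have hxd : ⁅x, d⁆ ∈ N := Subgroup.commutator_mem_commutator hxL hd.2
      obtain ⟨a, ha⟩ := Finite.injective_iff_surjective.1 hf ((⟨_, hxd⟩ : N) : Q)
      obtain ⟨a, rfl⟩ := QuotientGroup.mk_surjective a
      have h1 : ⁅x, (a : G)⁆⁻¹ * ⁅x, d⁆ ∈ M := (QuotientGroup.eq (s := M.subgroupOf N)).1 ha
      refine ⟨a, a.2, hcentral _ (C.mul_mem (C.inv_mem (hNC a.2)) hd) ?_⟩
      rw [Commute, SemiconjBy, ← commutatorElement_eq_one_iff_mul_comm, ← map_commutatorElement]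
      refine (QuotientGroup.eq_one_iff _).2 ?_
      rw [show ⁅x, (a : G)⁻¹ * d⁆ = (a : G)⁻¹ * (⁅x, (a : G)⁆⁻¹ * ⁅x, d⁆) * (a : G)⁻¹⁻¹ by
        simp only [commutatorElement_def]; group]
      exact hMn.conj_mem _ h1 _
    obtain ⟨lam, hlam⟩ := exists_extension_stab hNC hsurj v fun n hn =>
      w.toMul.2 n (Palfy.mem_of_pow_coprime (c.pow_mem_of_fixed hxL hxF hxj n.2
        ((QuotientGroup.eq_one_iff _).1 (hn.2 x))) (hexp _ n.2) hxcop)
    exact index_mem_degrees (C := C) c.cyclic inf_le_right lam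
      (fun a => by rw [hU, mem_stab_linAct, ← hvdef]; exact (hlam a).symm)
      fun a ha haL => ⟨hsemi a haL w hw ha, haL⟩
  obtain ⟨y, j, hyL, hyF, hyj⟩ := c.exists_moved
  have hyρ : ρ y ≠ 1 := fun h => hyF (hker ⟨h, hyL⟩)
  have hrb : r ∣ Nat.card (Semilinear.image L ρ) := by
    by_contra hnd
    refine hyρ ?_
    have h1 : ρ y ^ r ^ j = 1 := by rw [← map_pow, hyj, map_one]
    have h2 := pow_gcd_eq_one.2 ⟨h1, Semilinear.image_pow (ρ := ρ) hyL⟩
    rwa [((c.frob.prime.coprime_iff_not_dvd.2 hnd).pow_left j).gcd_eq_one, pow_one] at h2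
  have hlt : ∀ w : Additive X, w ≠ 0 → 1 < (Semilinear.stab ρ w).index := fun w hw =>
    Subgroup.one_lt_index_of_ne_top fun h => hyρ
      (hsemi y hyL w hw (h.ge (Subgroup.mem_top y)))
  obtain ⟨v₁, hv₁, hv₁1⟩ := hXne
  have hfixed : ∀ a, a ∉ L → ∀ x ∈ L, (ρ ⁅a, x⁆ = 1 ↔ x ∈ c.fix0) := by
    intro a ha x hx
    refine ⟨fun h => ?_, fun h => hNfix _ (c.comm_mem_derived h a)⟩
    exact (c.mem_fix0_iff ha hx).2 (c.mem_derived_of_fix0 (hker ⟨h, c.comm_mem a x⟩)
      (Subgroup.commutator_mem_commutator (Subgroup.mem_top a) (Subgroup.mem_top x)))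
  refine Semilinear.Semi.false (L := L) (F := c.fix0) (g := c.gen) (ρ := ρ)
    ⟨c.comm_le, c.gen_spec, c.notPrime, c.frob.one_lt, c.fix0_le,
      fun h => hyF (h hyL), hsemi, fun a ha b hb => ?_, hfixed, fun x hx hG => hNfix x
        (c.mem_derived_of_fix0 hx hG), ?_, ?_, fun w w' hw hw' h =>
        c.antichain.eq_of_dvd (hdegree w hw) (hdegree w' hw') (hlt w hw) h, fun w hw h => ?_⟩
  · exact (Semilinear.comm_iff ρ a b).1 (hNfix _ (Subgroup.commutator_mem_commutator ha hb))
  · exact ⟨⟨Additive.ofMul ⟨v₁, hv₁⟩, 0, fun h => hv₁1 (congrArg (fun z => (Additive.toMul z).1) h)⟩⟩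
  · obtain ⟨e, he⟩ := IsPGroup.iff_card.1 hXp
    exact ⟨p, e, hp, (Nat.card_congr Additive.toMul).trans he⟩
  · -- the index itself is not an orbit length
    have h1 := c.antichain.eq_of_dvd c.index_mem (hdegree w hw) c.frob.one_lt h
    have h2 : Semilinear.image L ρ ≤ Semilinear.image L ρ := le_rfl
    have hs : L.relIndex (Semilinear.stab ρ w) ∣ L.index := Subgroup.relIndex_dvd_index_of_normal L _
    have h3 := Subgroup.relIndex_mul_index (inf_le_left : Semilinear.stab ρ w ⊓ L ≤ Semilinear.stab ρ w)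
    have h4 := Subgroup.relIndex_mul_index (inf_le_right : Semilinear.stab ρ w ⊓ L ≤ L)
    have h5 : Semilinear.stab ρ w ⊓ L = ρ.ker ⊓ L := Subgroup.ext fun x =>
      ⟨fun h => ⟨hsemi x h.2 w hw h.1, h.2⟩, fun h => ⟨by
        show ρ x w = w
        rw [show ρ x = 1 from h.1]
        rfl, h.2⟩⟩
    rw [Subgroup.inf_relIndex_left, ← h1, ← h4, h5, ← Semilinear.card_image] at h3
    have h6 := Nat.eq_of_mul_eq_mul_right (Nat.pos_of_ne_zero Subgroup.index_ne_zero_of_finite) h3
    exact c.prime_not_dvd ((h6 ▸ hrb).trans hs)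

/-- The prime does not divide the derived subgroup of the kernel. -/
theorem bounded_of_not_dvd (c : Comp K L r) (hr : ¬ r ∣ Nat.card (⁅L, L⁆ : Subgroup G))
    (hsolv : Group.IsSolvable G) : Bounded G := by
  have hab : (⁅L, L⁆ : Subgroup G) = ⊥ := c.not_lt_derived hr hsolv
  refine bounded_of_pair c.index_mem c.frob.one_lt.ne' ?_
  rintro _ ⟨χ, rfl⟩
  obtain ⟨η, hη⟩ := CfsgLib.CharTheory.exists_constituent L (IsIrrCharacter.isCharacter χ.2)
    (apply_one_ne_zero_of_isIrr χ.2)
  refine frob_linear c.antichain c.frob c.index_mem hη (degree_eq ?_)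
  rw [apply_one_eq_one_of_comm (fun a b : L => Subtype.ext (commutatorElement_eq_one_iff_mul_comm.1
    (Subgroup.mem_bot.1 (hab ▸ Subgroup.commutator_mem_commutator a.2 b.2)))) η.2, Nat.cast_one]

end Comp

end CfsgLib.ZerosCodegree.Nondiv
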