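import Cfsg.Agent.Lib.ZerosCodegree.NondivisibilityGraph

/-!
# Degree sets without divisibility: a Frobenius quotient of composite index

The linear characters of the Frobenius kernel moved by the quotient form a group on which the
quotient acts semiregularly. An element whose commutator with a generator leaves the derived
subgroup of the kernel is annihilated by every non-linear character of the kernel, so its class
there is a whole coset of the derived subgroup.
-/

set_option autoImplicit false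
set_option linter.style.haveILetI false
set_option linter.unusedSectionVars false
set_option maxSynthPendingDepth 4

open scoped commutatorElement

namespace CfsgLib.ZerosCodegree.Nondiv

open Cfsg CfsgLib.CharTheory CfsgLib.Clifford CfsgLib.ZerosCodegree.RelGraph
open CfsgLib.ZerosCodegree.CyclicClifford

universe u

variable {G : Type u} [Group G] [Fintype G]

/-- The configuration. -/
structure Comp (K L : Subgroup G) (r : ℕ) : Prop where
  antichain : Antichain G
  frob : FrobQuot K L r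
  notPrime : ¬ L.index.Prime

variable {K L : Subgroup G} {r : ℕ} [L.Normal] [Fintype L]

namespace Comp

theorem cyclic (c : Comp K L r) : IsCyclic (G ⧸ L) := frob_cyclic c.frob

theorem index_mem (c : Comp K L r) : L.index ∈ charDegrees G :=
  haveI := c.frob.normalK
  let ⟨β, _, h, _⟩ := exists_frob_char c.frob; ⟨β, h⟩

theorem comm_le (c : Comp K L r) : commutator G ≤ L := c.frob.comm

/-- A generator of the quotient. -/
noncomputable def gen (c : Comp K L r) : G := c.frob.cyc.choose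

theorem gen_spec (c : Comp K L r) (x : G) : ∃ n : ℕ, (c.gen ^ n)⁻¹ * x ∈ L :=
  c.frob.cyc.choose_spec x

theorem gen_not_mem (c : Comp K L r) : c.gen ∉ L := fun h => by
  have h1 : L = ⊤ := eq_top_iff.2 fun x _ => by
    obtain ⟨n, hn⟩ := c.gen_spec x
    exact (L.mul_mem_cancel_left (L.inv_mem (L.pow_mem h n))).1 hn
  exact c.frob.one_lt.ne' (Subgroup.index_eq_one.2 h1)

theorem gen_pow_mem_iff (c : Comp K L r) {i : ℕ} : c.gen ^ i ∈ L ↔ L.index ∣ i := by
  have hz : ∀ x : G ⧸ L, x ∈ Subgroup.zpowers (c.gen : G ⧸ L) := fun y => by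
    obtain ⟨y, rfl⟩ := QuotientGroup.mk_surjective y
    obtain ⟨n, hn⟩ := c.gen_spec y
    exact ⟨(n : ℤ), by
      show (c.gen : G ⧸ L) ^ (n : ℤ) = _
      rw [zpow_natCast, ← QuotientGroup.mk_pow]
      exact QuotientGroup.eq.2 hn⟩
  rw [show L.index = orderOf (c.gen : G ⧸ L) from (orderOf_eq_card_of_forall_mem_zpowers hz).symm,
    orderOf_dvd_iff_pow_eq_one, ← QuotientGroup.mk_pow, QuotientGroup.eq_one_iff]

theorem gen_div_not_mem (c : Comp K L r) {l : ℕ} (hl : l.Prime) (hd : l ∣ L.index) :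
    c.gen ^ (L.index / l) ∉ L := fun h => by
  have hpos := Nat.pos_of_ne_zero (Subgroup.index_ne_zero_of_finite (H := L))
  exact absurd (Nat.le_of_dvd (Nat.div_pos (Nat.le_of_dvd hpos hd) hl.pos) (c.gen_pow_mem_iff.1 h))
    (not_le.2 (Nat.div_lt_self hpos hl.one_lt))

theorem inertia_lin (c : Comp K L r) (v : L →* ℂˣ) :
    inertia L (linFun v) = L ∨ inertia L (linFun v) = ⊤ :=
  inertia_linear c.antichain c.cyclic c.index_mem v

theorem eq_gen (c : Comp K L r) {a : G} (ha : a ∉ L) {v : L →* ℂˣ} (h : conjLin a v = v) :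
    inertia L (linFun v) = ⊤ :=
  (c.inertia_lin v).resolve_left fun h1 => ha (h1.le (conjLin_eq_self_iff.1 h))

theorem range_inter_ker (c : Comp K L r) {η v : L →* ℂˣ} (hv : delta c.gen v = η)
    (hη : delta c.gen η = 1) : η = 1 := by
  have hfix := delta_eq_one_iff.1 hη
  by_contra hne
  have hpow : η ^ L.index = 1 := by
    have h := conjLin_pow hv hfix L.index
    rw [conjLin_of_mem (L.pow_index_mem c.gen)] at h
    exact (@mul_eq_right (L →* ℂˣ) _ _ _ _).1 h.symm
  haveI := finite_lin L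
  obtain ⟨q, hq, hqd⟩ := Nat.exists_prime_and_dvd (n := orderOf η) fun h =>
    hne (orderOf_eq_one_iff.1 h)
  obtain ⟨k, hk⟩ := hqd
  have hpos : 0 < orderOf η := orderOf_pos η
  have hk0 : 0 < k := Nat.pos_of_ne_zero fun h0 => by rw [hk, h0, mul_zero] at hpos; omega
  have hw : delta c.gen (v ^ k) = η ^ k := by rw [map_pow, hv]
  have hfix' : conjLin c.gen (η ^ k) = η ^ k := by rw [map_pow, hfix]
  have hk1 : η ^ k ≠ 1 := fun h => by
    have h1 := Nat.le_of_dvd hk0 (orderOf_dvd_of_pow_eq_one h)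
    rw [hk] at h1
    have := Nat.mul_le_mul_right k hq.two_le
    omega
  have hq1 : conjLin (c.gen ^ q) (v ^ k) = v ^ k := by
    rw [conjLin_pow hw hfix', ← pow_mul, mul_comm k, ← hk, pow_orderOf_eq_one, one_mul]
  rcases c.inertia_lin (v ^ k) with h1 | h1
  · have h2 := c.gen_pow_mem_iff.1 (h1.le (conjLin_eq_self_iff.1 hq1))
    exact c.notPrime (((Nat.dvd_prime hq).1 h2).resolve_left c.frob.one_lt.ne' ▸ hq)
  · refine hk1 ?_
    rw [← hw, delta_eq_one_iff, conjLin_eq_self_iff, h1]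
    exact Subgroup.mem_top _

theorem conjLin_comm (c : Comp K L r) (a b : G) (v : L →* ℂˣ) :
    conjLin a (conjLin b v) = conjLin b (conjLin a v) := by
  rw [conjLin_conjLin, conjLin_conjLin]
  refine conjLin_congr ?_ v
  rw [show (a * b)⁻¹ * (b * a) = ⁅b⁻¹, a⁻¹⁆ by rw [commutatorElement_def]; group]
  exact c.comm_le (Subgroup.commutator_mem_commutator (Subgroup.mem_top _) (Subgroup.mem_top _))

/-- The moved linear characters. -/
noncomputable def movedLin (c : Comp K L r) : Subgroup (L →* ℂˣ) := (delta c.gen).range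

theorem finite_movedLin (c : Comp K L r) : Finite c.movedLin :=
  haveI := finite_lin L
  inferInstance

theorem movedLin_stable (c : Comp K L r) (a : G) : ∀ v ∈ c.movedLin, conjLin a v ∈ c.movedLin := by
  rintro _ ⟨v, rfl⟩
  exact ⟨conjLin a v, by rw [delta_apply, delta_apply, map_div, c.conjLin_comm]⟩

theorem movedLin_fpf (c : Comp K L r) (a : G) (ha : a ∉ L) :
    ∀ v ∈ c.movedLin, conjLin a v = v → v = 1 := by
  rintro _ ⟨v, rfl⟩ hfix
  exact c.range_inter_ker rfl (delta_eq_one_iff.2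
    (conjLin_eq_self_iff.2 ((c.eq_gen ha hfix).ge (Subgroup.mem_top _))))

/-- The image of the derivation of any element outside the kernel. -/
theorem exists_delta (c : Comp K L r) {a : G} (ha : a ∉ L) {η : L →* ℂˣ} (hη : η ∈ c.movedLin) :
    ∃ v, delta a v = η := by
  haveI := c.finite_movedLin
  let f : c.movedLin → c.movedLin := fun v =>
    ⟨delta a v.1, c.movedLin.div_mem (c.movedLin_stable a _ v.2) v.2⟩
  have hf : Function.Injective f := fun v w h => by
    have h1 : delta a (v.1 / w.1) = 1 := by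
      rw [map_div, show delta a v.1 = delta a w.1 from congrArg Subtype.val h, div_self']
    exact Subtype.ext (div_eq_one.1
      (c.movedLin_fpf a ha _ (c.movedLin.div_mem v.2 w.2) (delta_eq_one_iff.1 h1)))
  obtain ⟨v, hv⟩ := Finite.injective_iff_surjective.1 hf ⟨η, hη⟩
  exact ⟨v.1, congrArg Subtype.val hv⟩

/-- A moved character plus an invariant one. -/
theorem exists_decomp_lin (c : Comp K L r) (μ : L →* ℂˣ) :
    ∃ η ∈ c.movedLin, inertia L (linFun (μ / η)) = ⊤ := by
  haveI := c.finite_movedLin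
  let f : c.movedLin → c.movedLin := fun v => ⟨delta c.gen v.1, ⟨v.1, rfl⟩⟩
  have hf : Function.Injective f := fun v w h => by
    have h1 : delta c.gen (v.1 / w.1) = 1 := by
      rw [map_div, show delta c.gen v.1 = delta c.gen w.1 from congrArg Subtype.val h, div_self']
    exact Subtype.ext (div_eq_one.1 (c.movedLin_fpf _ c.gen_not_mem _
      (c.movedLin.div_mem v.2 w.2) (delta_eq_one_iff.1 h1)))
  obtain ⟨η, hη⟩ := Finite.injective_iff_surjective.1 hf ⟨delta c.gen μ, ⟨μ, rfl⟩⟩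
  refine ⟨η.1, η.2, c.eq_gen c.gen_not_mem (delta_eq_one_iff.1 ?_)⟩
  rw [map_div, show delta c.gen η.1 = delta c.gen μ from congrArg Subtype.val hη, div_self']

theorem comm_mem (c : Comp K L r) (a b : G) : ⁅a, b⁆ ∈ L :=
  c.comm_le (Subgroup.commutator_mem_commutator (Subgroup.mem_top _) (Subgroup.mem_top _))

theorem delta_eval (c : Comp K L r) (a : G) (v : L →* ℂˣ) (x : L) :
    delta a v x = v ⟨⁅a, (x : G)⁆, c.comm_mem a x⟩ := by
  rw [delta_apply, MonoidHom.div_apply]
  show v (MulAut.conjNormal a x) / v x = _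
  rw [← map_div]
  refine congrArg v (Subtype.ext ?_)
  rw [Subgroup.coe_div, MulAut.conjNormal_apply, div_eq_mul_inv]
  exact (commutatorElement_def a (x : G)).symm

theorem mem_derived_iff {x : L} : (x : G) ∈ ⁅L, L⁆ ↔ x ∈ commutator L := by
  rw [← Subgroup.map_subtype_commutator]
  exact Subgroup.mem_map_iff_mem L.subtype_injective

theorem mem_derived_iff_forall {x : L} : (x : G) ∈ ⁅L, L⁆ ↔ ∀ μ : L →* ℂˣ, μ x = 1 := by
  rw [mem_derived_iff]
  refine ⟨fun h μ => Abelianization.commutator_subset_ker μ h, fun h => ?_⟩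
  by_contra hx
  obtain ⟨μ, -, hμ⟩ := Palfy.exists_linear_sep (X := L) (A := commutator L) le_rfl hx
  exact hμ (h μ)

/-- The part of `L` that no moved character sees. -/
theorem comm_mem_derived_iff (c : Comp K L r) {a : G} (ha : a ∉ L) (x : L) :
    ⁅a, (x : G)⁆ ∈ ⁅L, L⁆ ↔ ∀ η ∈ c.movedLin, η x = 1 := by
  rw [show ⁅a, (x : G)⁆ = ((⟨⁅a, (x : G)⁆, c.comm_mem a x⟩ : L) : G) from rfl,
    mem_derived_iff_forall]
  refine ⟨fun h η hη => ?_, fun h μ => ?_⟩
  · obtain ⟨v, rfl⟩ := c.exists_delta ha hη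
    rw [c.delta_eval]
    exact h v
  · rw [← c.delta_eval]
    obtain ⟨η, hη, hinv⟩ := c.exists_decomp_lin μ
    have h2 : delta a (μ / η) = 1 :=
      delta_eq_one_iff.2 (conjLin_eq_self_iff.2 (hinv.ge (Subgroup.mem_top a)))
    rw [map_div, div_eq_one] at h2
    rw [h2]
    exact h _ (c.movedLin.div_mem (c.movedLin_stable a η hη) hη)

/-- The elements of `L` commuting with the generator modulo the derived subgroup of `L`. -/
def fix0 (c : Comp K L r) : Subgroup G where
  carrier := {x | x ∈ L ∧ ⁅c.gen, x⁆ ∈ ⁅L, L⁆}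
  one_mem' := ⟨L.one_mem, by rw [commutatorElement_one_right]; exact one_mem _⟩
  mul_mem' := fun {a b} ha hb => ⟨L.mul_mem ha.1 hb.1, by
    rw [show ⁅c.gen, a * b⁆ = ⁅c.gen, a⁆ * (a * ⁅c.gen, b⁆ * a⁻¹) by
      simp only [commutatorElement_def]; group]
    exact mul_mem ha.2 (Subgroup.Normal.conj_mem inferInstance _ hb.2 a)⟩
  inv_mem' := fun {a} ha => ⟨L.inv_mem ha.1, by
    rw [show ⁅c.gen, a⁻¹⁆ = a⁻¹ * ⁅c.gen, a⁆⁻¹ * a⁻¹⁻¹ by simp only [commutatorElement_def]; group]
    exact Subgroup.Normal.conj_mem inferInstance _ (inv_mem ha.2) _⟩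

theorem fix0_le (c : Comp K L r) : c.fix0 ≤ L := fun _ h => h.1

theorem derived_le_fix0 (c : Comp K L r) : ⁅L, L⁆ ≤ c.fix0 := fun x hx =>
  ⟨Subgroup.commutator_le_self L hx, by
    rw [commutatorElement_def]
    exact mul_mem (Subgroup.Normal.conj_mem inferInstance _ hx _) (inv_mem hx)⟩

theorem mem_fix0_iff (c : Comp K L r) {a : G} (ha : a ∉ L) {x : G} (hx : x ∈ L) :
    x ∈ c.fix0 ↔ ⁅a, x⁆ ∈ ⁅L, L⁆ :=
  ⟨fun h => (c.comm_mem_derived_iff ha ⟨x, hx⟩).2
      ((c.comm_mem_derived_iff c.gen_not_mem ⟨x, hx⟩).1 h.2),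
    fun h => ⟨hx, (c.comm_mem_derived_iff c.gen_not_mem ⟨x, hx⟩).2
      ((c.comm_mem_derived_iff ha ⟨x, hx⟩).1 h)⟩⟩

theorem comm_mem_derived (c : Comp K L r) {x : G} (hx : x ∈ c.fix0) (a : G) :
    ⁅a, x⁆ ∈ ⁅L, L⁆ := by
  by_cases ha : a ∈ L
  · exact Subgroup.commutator_mem_commutator ha hx.1
  · exact (c.mem_fix0_iff ha hx.1).1 hx

instance normal_fix0 (c : Comp K L r) : c.fix0.Normal := ⟨fun x hx a => by
  rw [show a * x * a⁻¹ = ⁅a, x⁆ * x by rw [commutatorElement_def, inv_mul_cancel_right]]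
  exact c.fix0.mul_mem (c.derived_le_fix0 (c.comm_mem_derived hx a)) hx⟩

/-- The derived subgroup meets the fixed part in the derived subgroup of the kernel. -/
theorem mem_derived_of_fix0 (c : Comp K L r) {x : G} (hx : x ∈ c.fix0) (hG : x ∈ commutator G) :
    x ∈ ⁅L, L⁆ := by
  show ((⟨x, hx.1⟩ : L) : G) ∈ ⁅L, L⁆
  refine mem_derived_iff_forall.2 fun μ => ?_
  obtain ⟨η, hη, hinv⟩ := c.exists_decomp_lin μ
  have h1 := apply_commutator_of_invariant c.cyclic _ hinv (x := ⟨x, hx.1⟩) hG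
  rw [MonoidHom.div_apply, (c.comm_mem_derived_iff c.gen_not_mem ⟨x, hx.1⟩).1 hx.2 η hη,
    div_one] at h1
  exact h1

theorem exists_sep (c : Comp K L r) {x : L} (hx : (x : G) ∉ c.fix0) :
    ∃ η ∈ c.movedLin, η x ≠ 1 := by
  by_contra h
  push Not at h
  exact hx ⟨x.2, (c.comm_mem_derived_iff c.gen_not_mem x).2 h⟩

theorem twist (c : Comp K L r) (θ : IrrCharacter L) (hθ : charDegree (θ : L → ℂ) ≠ 1) :
    ∀ v ∈ c.movedLin, linFun v * (θ : L → ℂ) = (θ : L → ℂ) := by
  haveI := c.finite_movedLin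
  refine mul_eq_self_of_fixed c.cyclic (IsIrrCharacter.isClassFunction θ.2) c.movedLin
    c.movedLin_stable c.movedLin_fpf fun v _ => ?_
  have hne := frob_inertia_ne c.antichain c.frob c.index_mem
    ⟨_, isIrrCharacter_linFun_mul v θ.2⟩ (by
      rw [show charDegree ((⟨_, isIrrCharacter_linFun_mul v θ.2⟩ : IrrCharacter L) : L → ℂ) =
        charDegree (θ : L → ℂ) from nonlinear_twist v θ]
      exact hθ)
  by_contra hcon
  push Not at hcon
  exact hne (le_antisymm (fun a ha => Classical.byContradiction fun haL => hcon a haL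
    ((mem_inertia L _ a).1 ha)) (le_inertia L (IsIrrCharacter.isClassFunction
      (isIrrCharacter_linFun_mul v θ.2))))

/-- Non-linear characters vanish outside the fixed part. -/
theorem vanish (c : Comp K L r) (θ : IrrCharacter L) (hθ : charDegree (θ : L → ℂ) ≠ 1) {x : L}
    (hx : (x : G) ∉ c.fix0) : (θ : L → ℂ) x = 0 := by
  obtain ⟨η, hη, hηx⟩ := c.exists_sep hx
  have h := congrFun (c.twist θ hθ η hη) x
  rw [Pi.mul_apply, linFun_apply] at h
  by_contra h0
  exact hηx (Units.ext ((mul_eq_right₀ h0).1 h))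

/-- The class of a moved element is its coset of the derived subgroup. -/
theorem exists_comm (c : Comp K L r) {x z : G} (hx : x ∈ L) (hxF : x ∉ c.fix0)
    (hz : z ∈ ⁅L, L⁆) : ∃ y ∈ L, ⁅x, y⁆ = z := by
  obtain ⟨z, rfl⟩ : ∃ z' : L, (z' : G) = z := ⟨⟨z, Subgroup.commutator_le_self L hz⟩, rfl⟩
  have hxz : (z : G)⁻¹ * x ∉ c.fix0 := fun h => hxF (by
    simpa using c.fix0.mul_mem (c.derived_le_fix0 hz) h)
  obtain ⟨y, hy⟩ := isConj_iff.1 (isConj_of_forall_irr (g := (⟨x, hx⟩ : L))
    (h := z⁻¹ * ⟨x, hx⟩) fun θ => by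
      by_cases hθ : charDegree (θ : L → ℂ) = 1
      · obtain ⟨μ, hμ⟩ := exists_linFun_of_isCharacter (IsIrrCharacter.isCharacter θ.2)
          (by rw [apply_one, hθ, Nat.cast_one])
        rw [hμ, linFun_apply, linFun_apply, map_mul, map_inv,
          mem_derived_iff_forall.1 hz μ, inv_one, one_mul]
      · rw [c.vanish θ hθ (x := ⟨x, hx⟩) hxF, c.vanish θ hθ hxz])
  refine ⟨y, y.2, ?_⟩
  have h1 : (y : G) * x * (y : G)⁻¹ = (z : G)⁻¹ * x := congrArg Subtype.val hy
  have h2 : (z : G) = x * ((y : G) * x * (y : G)⁻¹)⁻¹ := by rw [h1]; group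
  rw [h2, commutatorElement_def]
  group

/-- A moved element fixes only elements killed by its order. -/
theorem pow_mem_of_fixed (c : Comp K L r) {x z : G} {n : ℕ} (hx : x ∈ L) (hxF : x ∉ c.fix0)
    (hn : x ^ n = 1) {M : Subgroup G} [M.Normal] (hz : z ∈ ⁅L, L⁆) (hxz : ⁅x, z⁆ ∈ M) :
    z ^ n ∈ M := by
  obtain ⟨y, -, rfl⟩ := c.exists_comm hx hxF hz
  set q := QuotientGroup.mk' M
  have hc : Commute (q x) (q ⁅x, y⁆) := by
    rw [Commute, SemiconjBy, ← commutatorElement_eq_one_iff_mul_comm, ← map_commutatorElement]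
    exact (QuotientGroup.eq_one_iff _).2 hxz
  have h1 : q y * (q x)⁻¹ * (q y)⁻¹ = (q x)⁻¹ * q ⁅x, y⁆ := by
    simp only [commutatorElement_def, map_mul, map_inv]
    group
  have h2 := congrArg (· ^ n) h1
  simp only [conj_pow, inv_pow, ← map_pow, hn, map_one, inv_one, mul_one, mul_inv_cancel] at h2
  rw [Commute.mul_pow hc.inv_left, inv_pow, ← map_pow, hn, map_one, inv_one, one_mul, ← map_pow]
    at h2
  exact (QuotientGroup.eq_one_iff _).1 h2.symm

theorem eq_of_pow_mem {M : Subgroup G} {z : G} {a b : ℕ} (ha : z ^ a ∈ M) (hb : z ^ b ∈ M)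
    (h : a.Coprime b) : z ∈ M := Palfy.mem_of_pow_coprime ha hb h

/-- No element of order a power of a prime divisor of the index is moved. -/
theorem mem_fix0_of_dvd_index (c : Comp K L r) {l : ℕ} (hl : l.Prime) (hlf : l ∣ L.index)
    {x : G} (hx : x ∈ L) {k : ℕ} (hk : x ^ l ^ k = 1) : x ∈ c.fix0 := by
  classical
  haveI := Fact.mk hl
  haveI := c.finite_movedLin
  haveI : Fintype c.movedLin := Fintype.ofFinite _
  by_contra hxF
  obtain ⟨η, hη, hηx⟩ := c.exists_sep (x := ⟨x, hx⟩) hxF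
  have hlX : l ∣ Fintype.card c.movedLin := by
    have h1 : orderOf (η ⟨x, hx⟩) ∣ l ^ k := orderOf_dvd_of_pow_eq_one (by
      rw [← map_pow, show (⟨x, hx⟩ : L) ^ l ^ k = 1 from Subtype.ext hk, map_one])
    obtain ⟨i, -, hi⟩ := (Nat.dvd_prime_pow hl).1 h1
    have h2 : orderOf (η ⟨x, hx⟩) ∣ orderOf (⟨η, hη⟩ : c.movedLin) := orderOf_dvd_of_pow_eq_one (by
      rw [← MonoidHom.pow_apply, show η ^ orderOf (⟨η, hη⟩ : c.movedLin) = 1 from
        congrArg Subtype.val (pow_orderOf_eq_one (⟨η, hη⟩ : c.movedLin)), MonoidHom.one_apply])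
    refine dvd_trans ?_ (h2.trans orderOf_dvd_card)
    rw [hi]
    exact dvd_pow_self l (fun h0 => hηx (orderOf_eq_one_iff.1 (by rw [hi, h0, pow_zero])))
  set a := c.gen ^ (L.index / l) with ha
  have hal : a ^ l ∈ L := by
    rw [ha, ← pow_mul, c.gen_pow_mem_iff, Nat.div_mul_cancel hlf]
  let p : Equiv.Perm c.movedLin :=
    { toFun := fun v => ⟨conjLin a v.1, c.movedLin_stable a _ v.2⟩
      invFun := fun v => ⟨conjLin a⁻¹ v.1, c.movedLin_stable _ _ v.2⟩
      left_inv := fun v => Subtype.ext (by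
        show conjLin a⁻¹ (conjLin a v.1) = v.1
        rw [conjLin_conjLin, mul_inv_cancel, conjLin_one])
      right_inv := fun v => Subtype.ext (by
        show conjLin a (conjLin a⁻¹ v.1) = v.1
        rw [conjLin_conjLin, inv_mul_cancel, conjLin_one]) }
  have hpk : ∀ k, ∀ v : c.movedLin, ((p ^ k) v).1 = conjLin (a ^ k) v.1 := by
    intro k
    induction k with
    | zero => intro v; rw [pow_zero, pow_zero, conjLin_one]; rfl
    | succ k ih =>
      intro v
      rw [pow_succ', Equiv.Perm.mul_apply]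
      show conjLin a ((p ^ k) v).1 = _
      rw [ih, conjLin_conjLin, pow_succ]
  have hps : p ^ l ^ 1 = 1 := Equiv.ext fun v => Subtype.ext (by
    rw [pow_one, hpk, conjLin_of_mem hal]
    rfl)
  have h1 := Equiv.Perm.card_compl_support_modEq hps
  have h2 : p.supportᶜ = {1} := by
    ext v
    rw [Finset.mem_compl, Equiv.Perm.mem_support, not_not, Finset.mem_singleton]
    constructor
    · intro hv
      exact Subtype.ext (c.movedLin_fpf a (c.gen_div_not_mem hl hlf) _ v.2 (congrArg Subtype.val hv))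
    · rintro rfl
      exact Subtype.ext (map_one (conjLin a))
  rw [h2, Finset.card_singleton] at h1
  have h3 := Nat.mod_eq_zero_of_dvd hlX
  rw [Nat.ModEq, h3, Nat.mod_eq_of_lt hl.one_lt] at h1
  exact one_ne_zero h1

/-- The prime of a moved element divides every non-linear degree. -/
theorem dvd_degree (c : Comp K L r) {s k : ℕ} (hs : s.Prime) {x : G} (hx : x ∈ L)
    (hxF : x ∉ c.fix0) (hxk : x ^ s ^ k = 1) (θ : IrrCharacter L)
    (hθ : charDegree (θ : L → ℂ) ≠ 1) : s ∣ charDegree (θ : L → ℂ) := by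
  by_contra h
  exact CfsgLib.Clifford.apply_ne_zero_of_pow_prime_pow (IsIrrCharacter.isCharacter θ.2) hs
    (k := k) (g := (⟨x, hx⟩ : L)) (Subtype.ext hxk) (apply_one θ) h (c.vanish θ hθ hxF)

/-- The normal complement belonging to the prime of a moved element. -/
theorem exists_complement (c : Comp K L r) {s k : ℕ} (hs : s.Prime) {x : G} (hx : x ∈ L)
    (hxF : x ∉ c.fix0) (hxk : x ^ s ^ k = 1) :
    ∃ N : Subgroup G, N.Normal ∧ N ≤ L ∧ (Nat.card N).Coprime s ∧
      (∀ y ∈ L, ∃ j : ℕ, y ^ s ^ j ∈ N) ∧ ∀ y ∈ L, (orderOf y).Coprime s → y ∈ N := by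
  haveI := Fact.mk hs
  obtain ⟨N, hN, hcop, j, hj⟩ := Cfsg.Agent.S4456.result s hs (c.dvd_degree hs hx hxF hxk)
  haveI := hN
  have hpow : ∀ y : L, y ^ s ^ j ∈ N := fun y => hj ▸ N.pow_index_mem y
  have hout : ∀ y : L, (orderOf (y : G)).Coprime s → y ∈ N := fun y hy =>
    Palfy.mem_of_pow_coprime (hpow y) (b := orderOf (y : G)) (by
      rw [show y ^ orderOf (y : G) = 1 from Subtype.ext (pow_orderOf_eq_one (y : G))]
      exact one_mem _) (Nat.Coprime.pow_left _ hy.symm)
  have hin : ∀ y ∈ N, (orderOf ((y : L) : G)).Coprime s := fun y hy => by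
    refine Nat.Coprime.coprime_dvd_left ?_ hcop
    rw [Subgroup.orderOf_coe, ← N.orderOf_mk y hy]
    exact orderOf_dvd_natCard _
  refine ⟨N.map L.subtype, ⟨fun y hy a => ?_⟩, Subgroup.map_subtype_le N, ?_, fun y hy => ?_,
    fun y hy h => ⟨⟨y, hy⟩, hout _ h, rfl⟩⟩
  · obtain ⟨y, hy, rfl⟩ := hy
    refine ⟨MulAut.conjNormal a y, hout _ ?_, MulAut.conjNormal_apply a y⟩
    rw [show ((MulAut.conjNormal a y : L) : G) = MulAut.conj a (y : G) from
      MulAut.conjNormal_apply a y, MulEquiv.orderOf_eq]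
    exact hin y hy
  · rwa [Subgroup.card_map_of_injective L.subtype_injective]
  · exact ⟨j, ⟨_, hpow ⟨y, hy⟩, rfl⟩⟩

/-- If the prime of a moved element divides the order of the derived subgroup it is the only one. -/
theorem mem_fix0_of_coprime (c : Comp K L r) {s k : ℕ} (hs : s.Prime) {x : G} (hx : x ∈ L)
    (hxF : x ∉ c.fix0) (hxk : x ^ s ^ k = 1) (hdvd : s ∣ Nat.card (⁅L, L⁆ : Subgroup G))
    {y : G} (hy : y ∈ L) (hys : (orderOf y).Coprime s) : y ∈ c.fix0 := by
  classical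
  obtain ⟨N, hN, hNL, hcop, -, hmem⟩ := c.exists_complement hs hx hxF hxk
  have hnot : ¬ commutator L ≤ N.subgroupOf L := fun h => by
    have h1 : (⁅L, L⁆ : Subgroup G) ≤ N := by
      rw [← Subgroup.map_subtype_commutator]
      exact Subgroup.map_le_iff_le_comap.2 h
    exact hs.ne_one (Nat.eq_one_of_dvd_coprimes hcop
      (hdvd.trans (Subgroup.card_dvd_of_le h1)) dvd_rfl)
  obtain ⟨θ, hθN, hθ⟩ := exists_nonlinear_of_not_le (N.subgroupOf L) hnot
  by_contra hyF
  have h := c.vanish θ hθ.ne' (x := ⟨y, hy⟩) hyF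
  rw [hθN ⟨y, hy⟩ (hmem y hy hys)] at h
  exact apply_one_ne_zero_of_isIrr θ.2 h

/-- The kernel has a moved element of `r`-power order. -/
theorem exists_moved (c : Comp K L r) :
    ∃ (x : G) (k : ℕ), x ∈ L ∧ x ∉ c.fix0 ∧ x ^ r ^ k = 1 := by
  haveI := c.frob.normalK
  obtain ⟨r', k, hr', y, hyL, hyK, hyk⟩ := exists_ppart_not_mem c.frob.notLE
  have hrr : r' = r := by
    by_contra hne
    refine hyK (Palfy.mem_of_pow_coprime (a := r' ^ k) (b := r) ?_ (c.frob.pow y hyL)
      (((Nat.coprime_primes hr' c.frob.prime).2 hne).pow_left _))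
    rw [hyk]
    exact one_mem _
  exact ⟨y, k, hyL, fun h => hyK (c.frob.fpf _ c.gen_not_mem y hyL (c.frob.Lcomm h.2)), hrr ▸ hyk⟩

theorem prime_not_dvd (c : Comp K L r) : ¬ r ∣ L.index := c.frob.cop

end Comp

end CfsgLib.ZerosCodegree.Nondiv
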