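import Cfsg.Agent.Lib.ZerosCodegree.NondivisibilityBase
import Cfsg.Agent.Lib.ZerosCodegree.CaminaClassFour
import Cfsg.Agent.Lib.CoprimeAction.Abelian
import Cfsg.Agent.Lib.PGroups.Frattini

/-!
# Degree sets without divisibility: a central complement

When the Frobenius prime divides the order of the derived subgroup of the kernel and the elements
of prime-to-`r` order of the kernel are central, the derived subgroup of the group is a Camina
group, the kernel is its product with a centralised subgroup fixed by an element generating the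
quotient.
-/

set_option autoImplicit false
set_option linter.style.haveILetI false
set_option linter.unusedSectionVars false
set_option maxSynthPendingDepth 4

open scoped commutatorElement

namespace CfsgLib.ZerosCodegree.Nondiv

open Cfsg CfsgLib.CharTheory CfsgLib.Clifford CfsgLib.ZerosCodegree.RelGraph
open CfsgLib.ZerosCodegree.CyclicClifford

universe u

variable {G : Type u} [Group G] [Fintype G]

/-- The structure of the group. -/
structure CaminaData (L : Subgroup G) (r : ℕ) (a : G) (D C : Subgroup G) : Prop where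
  gen : ∀ x : G, ∃ n : ℕ, (a ^ n)⁻¹ * x ∈ L
  cop : (orderOf a).Coprime r
  isPGroup : IsPGroup r D
  eq_derived : commutator G = D
  derived : ⁅D, D⁆ = ⁅L, L⁆
  le : C ≤ L
  fix : ∀ x ∈ C, a * x = x * a
  comm : ∀ d ∈ D, ∀ x ∈ C, d * x = x * d
  decomp : ∀ l ∈ L, ∃ d ∈ D, ∃ x ∈ C, l = d * x
  camina : Camina.IsCamina ↥D

theorem mem_commutator_subtype {D : Subgroup G} {x : D} :
    x ∈ commutator D ↔ (x : G) ∈ ⁅D, D⁆ := by
  rw [← Subgroup.map_subtype_commutator]
  exact (Subgroup.mem_map_iff_mem D.subtype_injective).symm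

variable {K L : Subgroup G} {r : ℕ} [L.Normal] [Fintype L]

namespace Comp

/-- The central case. -/
theorem exists_caminaData (c : Comp K L r) (hr : r ∣ Nat.card (⁅L, L⁆ : Subgroup G))
    (hcen : ∀ x ∈ L, (orderOf x).Coprime r → x ∈ Subgroup.center G) :
    ∃ (a : G) (D C : Subgroup G), CaminaData L r a D C := by
  classical
  have hr' := c.frob.prime
  haveI := Fact.mk hr'
  -- the generator of order prime to `r`
  obtain ⟨e, m, hm, hord⟩ := Nat.exists_eq_pow_mul_and_not_dvd (orderOf_pos c.gen).ne' r hr'.ne_one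
  set a := c.gen ^ r ^ e with ha
  have ham : a ^ m = 1 := by rw [ha, ← pow_mul, ← hord, pow_orderOf_eq_one]
  have hacop : (orderOf a).Coprime r :=
    Nat.Coprime.coprime_dvd_left (orderOf_dvd_of_pow_eq_one ham)
      (hr'.coprime_iff_not_dvd.2 hm).symm
  have hgen : ∀ x : G, ∃ n : ℕ, (a ^ n)⁻¹ * x ∈ L := fun x => by
    obtain ⟨i, hi⟩ := c.gen_spec x
    haveI : NeZero L.index := ⟨Subgroup.index_ne_zero_of_finite⟩
    set u := (r : ZMod L.index)⁻¹ ^ e * (i : ZMod L.index) with hu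
    refine ⟨u.val, ?_⟩
    have h1 : (c.gen : G ⧸ L) ^ (r ^ e * u.val) = (c.gen : G ⧸ L) ^ i := by
      have hmod : r ^ e * u.val ≡ i [MOD L.index] := by
        refine (ZMod.natCast_eq_natCast_iff _ _ _).1 ?_
        rw [Nat.cast_mul, Nat.cast_pow, ZMod.natCast_zmod_val, hu, ← mul_assoc, ← mul_pow,
          ZMod.coe_mul_inv_eq_one r (hr'.coprime_iff_not_dvd.2 c.prime_not_dvd), one_pow, one_mul]
      refine pow_eq_pow_iff_modEq.2 (hmod.of_dvd ?_)
      rw [orderOf_dvd_iff_pow_eq_one, ← QuotientGroup.mk_pow, QuotientGroup.eq_one_iff]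
      exact L.pow_index_mem _
    rw [show (c.gen ^ i)⁻¹ * x = (c.gen ^ i)⁻¹ * (a ^ u.val) * ((a ^ u.val)⁻¹ * x) by group] at hi
    refine (L.mul_mem_cancel_left ?_).1 hi
    refine (QuotientGroup.eq (s := L)).1 ?_
    rw [QuotientGroup.mk_pow, QuotientGroup.mk_pow, ha, QuotientGroup.mk_pow, ← pow_mul]
    exact h1.symm
  have hanL : a ∉ L := fun h => by
    have htop : L = ⊤ := eq_top_iff.2 fun x _ => by
      obtain ⟨n, hn⟩ := hgen x
      exact (L.mul_mem_cancel_left (L.inv_mem (L.pow_mem h n))).1 hn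
    exact c.frob.one_lt.ne' (Subgroup.index_eq_one.2 htop)
  obtain ⟨x₁, k₁, hx₁, hx₁F, hx₁k⟩ := c.exists_moved
  obtain ⟨N, hN, hNL, hNcop, hNpow, hNmem⟩ := c.exists_complement hr' hx₁ hx₁F hx₁k
  have hNcen : N ≤ Subgroup.center G := fun y hy => hcen y (hNL hy)
    (Nat.Coprime.coprime_dvd_left (N.orderOf_mk y hy ▸ orderOf_dvd_natCard (⟨y, hy⟩ : N)) hNcop)
  haveI := hN
  -- the Sylow subgroup of the kernel
  haveI hnil : Group.IsNilpotent L := by
    let q := QuotientGroup.mk' (N.subgroupOf L)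
    have hq : IsPGroup r (L ⧸ N.subgroupOf L) := fun y => by
      obtain ⟨y, rfl⟩ := QuotientGroup.mk_surjective y
      obtain ⟨j, hj⟩ := hNpow y y.2
      exact ⟨j, by rw [← QuotientGroup.mk_pow, QuotientGroup.eq_one_iff]; exact hj⟩
    haveI := hq.isNilpotent
    refine Subgroup.isNilpotent_of_ker_le_center q ?_
    rw [QuotientGroup.ker_mk']
    exact fun n hn => Subgroup.mem_center_iff.2 fun y => Subtype.ext
      (Subgroup.mem_center_iff.1 (hNcen hn) y)
  obtain ⟨P⟩ : Nonempty (Sylow r L) := inferInstance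
  haveI : (P : Subgroup L).Normal := inferInstance
  haveI := Sylow.characteristic_of_normal P inferInstance
  set R : Subgroup G := (P : Subgroup L).map L.subtype with hR
  haveI hRn : R.Normal := ConjAct.normal_of_characteristic_of_normal
  have hRL : R ≤ L := Subgroup.map_subtype_le _
  have hRp : IsPGroup r R := P.2.map _
  have hRmem : ∀ y ∈ L, ∀ j : ℕ, y ^ r ^ j = 1 → y ∈ R := by
    intro y hy j hj
    have hY : IsPGroup r (Subgroup.zpowers (⟨y, hy⟩ : L)) := fun z => ⟨j, Subtype.ext (by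
      obtain ⟨z, k, rfl⟩ := z
      show ((⟨y, hy⟩ : L) ^ k) ^ r ^ j = 1
      rw [← zpow_natCast, ← zpow_mul, mul_comm, zpow_mul, zpow_natCast,
        show (⟨y, hy⟩ : L) ^ r ^ j = 1 from Subtype.ext hj, one_zpow])⟩
    obtain ⟨Q, hQ⟩ := hY.exists_le_sylow
    letI := Sylow.unique_of_normal P inferInstance
    exact ⟨⟨y, hy⟩, Subsingleton.elim Q P ▸ hQ (Subgroup.mem_zpowers _), rfl⟩
  have hsplit : ∀ l ∈ L, ∃ u ∈ R, ∃ n ∈ N, l = u * n := by
    intro l hl
    obtain ⟨e', m', hm', hord'⟩ := Nat.exists_eq_pow_mul_and_not_dvd (orderOf_pos l).ne' r hr'.ne_one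
    have hcop : (m').Coprime (r ^ e') := (hr'.coprime_iff_not_dvd.2 hm').symm.pow_right _
    have h1 : (l ^ m') ^ r ^ e' = 1 := by rw [← pow_mul, mul_comm, ← hord', pow_orderOf_eq_one]
    have h2 : (orderOf (l ^ r ^ e')).Coprime r := Nat.Coprime.coprime_dvd_left
      (orderOf_dvd_of_pow_eq_one (n := m') (by rw [← pow_mul, ← hord', pow_orderOf_eq_one]))
      (hr'.coprime_iff_not_dvd.2 hm').symm
    refine ⟨(l ^ m') ^ Nat.gcdA m' (r ^ e'), R.zpow_mem (hRmem _ (L.pow_mem hl _) e' h1) _,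
      (l ^ r ^ e') ^ Nat.gcdB m' (r ^ e'), N.zpow_mem (hNmem _ (L.pow_mem hl _) h2) _, ?_⟩
    rw [← zpow_natCast l m', ← zpow_natCast l (r ^ e'), ← zpow_mul, ← zpow_mul, ← zpow_add,
      ← Nat.gcd_eq_gcd_ab, hcop.gcd_eq_one, Nat.cast_one, zpow_one]
  have hLR : (⁅L, L⁆ : Subgroup G) = ⁅R, R⁆ := by
    refine le_antisymm (Subgroup.commutator_le.2 fun x hx y hy => ?_)
      (Subgroup.commutator_mono hRL hRL)
    obtain ⟨u, hu, n, hn, rfl⟩ := hsplit x hx
    obtain ⟨v, hv, n', hn', rfl⟩ := hsplit y hy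
    have hz := Subgroup.mem_center_iff.1 (hNcen hn)
    have hz' := Subgroup.mem_center_iff.1 (hNcen hn')
    rw [show ⁅u * n, v * n'⁆ = ⁅u, v⁆ by
      rw [commutatorElement_def, commutatorElement_def]
      calc u * n * (v * n') * (u * n)⁻¹ * (v * n')⁻¹
          = u * (n * v) * (n' * n⁻¹) * u⁻¹ * (n'⁻¹ * v⁻¹) := by group
        _ = u * (v * n) * (n⁻¹ * n') * u⁻¹ * (n'⁻¹ * v⁻¹) := by rw [hz v, hz' n⁻¹]
        _ = u * v * (n' * u⁻¹) * (n'⁻¹ * v⁻¹) := by group
        _ = u * v * (u⁻¹ * n') * (n'⁻¹ * v⁻¹) := by rw [hz' u⁻¹]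
        _ = u * v * u⁻¹ * v⁻¹ := by group]
    exact Subgroup.commutator_mem_commutator hu hv
  -- coprime action
  set A := Subgroup.zpowers a with hA
  have hAR : A ≤ Subgroup.normalizer (R : Set G) :=
    le_top.trans (Subgroup.normalizer_eq_top_iff.2 hRn).ge
  obtain ⟨nR, hnR⟩ := IsPGroup.iff_card.1 hRp
  have hcopA : ∀ {A' : Subgroup G}, A' ≤ A → (Nat.card A').Coprime (Nat.card R) := fun {A'} hle => by
    rw [hnR]
    refine Nat.Coprime.pow_right _ (Nat.Coprime.coprime_dvd_left (Subgroup.card_dvd_of_le hle) ?_)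
    rwa [hA, Nat.card_zpowers]
  haveI : Group.IsNilpotent R := hRp.isNilpotent
  haveI hRs : Group.IsSolvable R := inferInstance
  set D := ⁅R, A⁆ with hD
  set C₁ := R ⊓ Subgroup.centralizer (A : Set G) with hC₁
  set C := L ⊓ Subgroup.centralizer (A : Set G) with hC
  have hDR : D ≤ R := CfsgLib.CoprimeAction.commutator_le_left hAR
  have hRDC : D ⊔ C₁ = R :=
    CfsgLib.CoprimeAction.commutator_sup_centralizer hAR (hcopA le_rfl) (Or.inr hRs)
  have hDA : ⁅D, A⁆ = D :=
    CfsgLib.CoprimeAction.commutator_commutator_eq hAR (hcopA le_rfl) (Or.inr hRs)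
  have hCcomm : ∀ x ∈ C, ∀ b ∈ A, b * x = x * b := fun x hx b hb =>
    Subgroup.mem_centralizer_iff.1 hx.2 b hb
  have hNC : ∀ n ∈ N, n ∈ C := fun n hn => ⟨hNL hn, Subgroup.mem_centralizer_iff.2 fun b _ =>
    Subgroup.mem_center_iff.1 (hNcen hn) b⟩
  have hnorm : R ⊔ A ≤ Subgroup.normalizer (D : Set G) :=
    CfsgLib.CoprimeAction.sup_le_normalizer_commutator A R
  have hGD : ∀ x : G, x ∈ Subgroup.normalizer (D : Set G) := fun x => by
    obtain ⟨i, hi⟩ := hgen x
    obtain ⟨u, hu, n, hn, he⟩ := hsplit _ hi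
    rw [show x = a ^ i * (u * n) by rw [← he, mul_inv_cancel_left]]
    refine mul_mem (hnorm (Subgroup.mem_sup_right (A.pow_mem (Subgroup.mem_zpowers a) i))) (mul_mem
      (hnorm (Subgroup.mem_sup_left hu)) ?_)
    refine CfsgLib.CoprimeAction.mem_normalizer_of_conj_mem fun d hd => ?_
    rw [← Subgroup.mem_center_iff.1 (hNcen hn) d, mul_inv_cancel_right]
    exact hd
  haveI hDn : D.Normal := ⟨fun d hd x => (Subgroup.mem_normalizer_iff.1 (hGD x) d).1 hd⟩
  have hDG : D ≤ commutator G := Subgroup.commutator_mono le_top le_top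
  have hLfix : ∀ x ∈ C, x ∈ c.fix0 := fun x hx => (c.mem_fix0_iff hanL hx.1).2 (by
    rw [show ⁅a, x⁆ = 1 from commutatorElement_eq_one_iff_mul_comm.2
      (hCcomm x hx a (Subgroup.mem_zpowers a))]
    exact one_mem _)
  have hfix0R : ∀ x ∈ R, x ∈ c.fix0 → x ∈ C₁ ⊔ ⁅R, R⁆ := by
    intro x hx hxF
    obtain ⟨y, hy, hxy⟩ := CfsgLib.CoprimeAction.exists_centralizer_mem_coset_of_commutator
      (A := A) (K := R) (N := ⁅R, R⁆) (hcopA le_rfl) (Or.inr hRs) (Subgroup.commutator_le_self R)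
      (le_top.trans (Subgroup.normalizer_eq_top_iff.2 inferInstance).ge)
      (le_top.trans (Subgroup.normalizer_eq_top_iff.2 inferInstance).ge) hx fun b hb => by
        rw [← commutatorElement_def, ← hLR]
        exact c.comm_mem_derived hxF b
    rw [show x = y * (x⁻¹ * y)⁻¹ by group]
    exact mul_mem (Subgroup.mem_sup_left hy) (Subgroup.mem_sup_right (inv_mem hxy))
  -- every element outside the kernel generates the commutator
  have hDh : ∀ b ∈ A, b ∉ L → D ≤ ⁅R, Subgroup.zpowers b⁆ := by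
    intro b hbA hbL
    set B := Subgroup.zpowers b with hB
    have hBA : B ≤ A := Subgroup.zpowers_le.2 hbA
    have hBR : B ≤ Subgroup.normalizer (R : Set G) := hBA.trans hAR
    set D' := ⁅R, B⁆ with hD'
    have hD'R : D' ≤ R := CfsgLib.CoprimeAction.commutator_le_left hBR
    have hsup := CfsgLib.CoprimeAction.commutator_sup_centralizer hBR (hcopA hBA) (Or.inr hRs)
    have htot : (D' ⊔ C₁) ⊔ ⁅R, R⁆ = R := by
      refine le_antisymm (sup_le (sup_le hD'R inf_le_left) (Subgroup.commutator_le_self R)) ?_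
      conv_lhs => rw [← hsup]
      refine sup_le (le_sup_left.trans le_sup_left) fun x hx => ?_
      have h1 : x ∈ C₁ ⊔ ⁅R, R⁆ := hfix0R x hx.1 ((c.mem_fix0_iff hbL (hRL hx.1)).2 (by
        rw [show ⁅b, x⁆ = 1 from commutatorElement_eq_one_iff_mul_comm.2
          (Subgroup.mem_centralizer_iff.1 hx.2 b (Subgroup.mem_zpowers b))]
        exact one_mem _))
      exact (sup_le (le_sup_right.trans le_sup_left) le_sup_right :
        C₁ ⊔ ⁅R, R⁆ ≤ (D' ⊔ C₁) ⊔ ⁅R, R⁆) h1
    have hS : ((D' ⊔ C₁).subgroupOf R) = ⊤ := by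
      refine frattini_nongenerating (eq_top_iff.2 fun y _ => ?_)
      have hmap : ((D' ⊔ C₁).subgroupOf R ⊔ commutator R).map R.subtype = R := by
        rw [Subgroup.map_sup, Subgroup.map_subtype_commutator, Subgroup.subgroupOf_map_subtype,
          inf_eq_left.2 (sup_le hD'R inf_le_left), htot]
      obtain ⟨z, hz, hzy⟩ := hmap.ge y.2
      rw [show y = z from Subtype.ext hzy.symm]
      exact (sup_le le_sup_left ((CfsgLib.PGroups.commutator_le_frattini hRp).trans le_sup_right)) hz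
    rw [Subgroup.subgroupOf_eq_top] at hS
    have hnorm' : ∀ t ∈ R ⊔ A, t ∈ Subgroup.normalizer (D' : Set G) := by
      intro t ht
      refine (sup_le ((le_sup_left).trans (CfsgLib.CoprimeAction.sup_le_normalizer_commutator B R))
        ?_ : R ⊔ A ≤ Subgroup.normalizer (D' : Set G)) ht
      intro s hs
      refine CfsgLib.CoprimeAction.mem_normalizer_of_conj_mem fun y hy => ?_
      have hle : D' ≤ D'.comap (MulAut.conj s).toMonoidHom :=
        Subgroup.commutator_le.2 fun u hu v hv => by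
          show s * ⁅u, v⁆ * s⁻¹ ∈ D'
          rw [conjugate_commutatorElement]
          refine Subgroup.commutator_mem_commutator (hRn.conj_mem _ hu s) ?_
          obtain ⟨i, rfl⟩ := hs
          obtain ⟨j, rfl⟩ := hBA hv
          rw [← zpow_add, add_comm, zpow_add, mul_inv_cancel_right]
          exact hv
      exact hle hy
    refine Subgroup.commutator_le.2 fun k hk t ht => ?_
    have hn : C₁ ≤ Subgroup.normalizer (D' : Set G) := fun y hy =>
      hnorm' y (Subgroup.mem_sup_left hy.1)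
    rcases (Subgroup.coe_mul_of_right_le_normalizer_left D' C₁ hn).le (hS hk) with ⟨d, hd, y, hy, rfl⟩
    simp only
    rw [show ⁅d * y, t⁆ = d * ⁅y, t⁆ * d⁻¹ * (d * (t * d⁻¹ * t⁻¹)) by
      simp only [commutatorElement_def]; group,
      show ⁅y, t⁆ = 1 from commutatorElement_eq_one_iff_mul_comm.2
        (Subgroup.mem_centralizer_iff.1 hy.2 t ht).symm, mul_one, mul_inv_cancel, one_mul]
    exact D'.mul_mem hd ((Subgroup.mem_normalizer_iff.1 (hnorm' t (Subgroup.mem_sup_right ht)) _).1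
      (D'.inv_mem hd))
  -- the two parts commute
  have hDC : ∀ n : ℕ, ∀ d ∈ D, ∀ x ∈ C₁, ⁅d, x⁆ ∈ R.lowerCentralSeries (n + 1) := by
    intro n
    induction n with
    | zero =>
      intro d hd x hx
      exact Subgroup.commutator_mem_commutator (hDR hd) hx.1
    | succ n ih =>
      intro d₀ hd₀ x hx
      set Y := R.lowerCentralSeries (n + 1) with hY
      haveI : Y.Normal := by
        have hall : ∀ j, (R.lowerCentralSeries j).Normal := fun j => by
          induction j with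
          | zero => exact hRn
          | succ j ihj => haveI := ihj; exact inferInstanceAs (⁅R.lowerCentralSeries j, R⁆).Normal
        exact hall _
      set M := ⁅Y, R⁆ with hM
      show ⁅d₀, x⁆ ∈ M
      have hYR : Y ≤ R := R.lowerCentralSeries_antitone (Nat.zero_le _)
      have hYd : Y ≤ ⁅L, L⁆ := hLR ▸ R.lowerCentralSeries_antitone (Nat.le_add_left 1 n)
      haveI : Fintype Y := Fintype.ofFinite _
      by_contra hout
      have hcom : commutator Y ≤ M.subgroupOf Y := Subgroup.map_le_iff_le_comap.1 (by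
        rw [Subgroup.map_subtype_commutator]
        exact Subgroup.commutator_mono le_rfl hYR)
      obtain ⟨μ, hμ, hμx⟩ := Palfy.exists_linear_sep (X := Y) hcom
        (x := ⟨⁅d₀, x⁆, ih d₀ hd₀ x hx⟩) hout
      have hμM : ∀ y : Y, (y : G) ∈ M → μ y = 1 := fun y hy => hμ hy
      have hμL : ∀ l ∈ L, ∀ y : Y, μ (MulAut.conjNormal l y) = μ y := by
        intro l hl y
        obtain ⟨u, hu, nn, hnn, rfl⟩ := hsplit l hl
        rw [← mul_inv_eq_one, ← map_inv, ← map_mul]
        refine hμM _ ?_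
        rw [Subgroup.coe_mul, Subgroup.coe_inv, MulAut.conjNormal_apply,
          show u * nn * (y : G) * (u * nn)⁻¹ = u * (y : G) * u⁻¹ by
            rw [mul_assoc u nn, ← Subgroup.mem_center_iff.1 (hNcen hnn) (y : G)]
            group,
          ← commutatorElement_def, ← commutatorElement_inv]
        exact M.inv_mem (Subgroup.commutator_mem_commutator y.2 hu)
      -- a character of the kernel over it
      let Y' : Subgroup L := Y.subgroupOf L
      haveI : Fintype Y' := Fintype.ofFinite _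
      have hYL : Y ≤ L := hYR.trans hRL
      let e : Y' ≃* Y := Subgroup.subgroupOfEquivOfLe hYL
      let μ' : Y' →* ℂˣ := μ.comp e.toMonoidHom
      obtain ⟨θ, hθ⟩ := exists_over Y' (linIrr Y' μ')
      have hinv : ∀ l : L, conjChar Y' (linFun μ') l = linFun μ' := fun l => funext fun y => by
        rw [conjChar_apply]
        refine congrArg (fun z : ℂˣ => (z : ℂ)) ?_
        refine Eq.trans (congrArg μ (Subtype.ext ?_)) (hμL l l.2 (e y))
        rw [MulAut.conjNormal_apply]
        rfl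
      have hres : ∀ y : Y, (θ : L → ℂ) ⟨y, hYL y.2⟩ = (θ : L → ℂ) 1 * (μ y : ℂ) := by
        have h := res_eq_of_invariant Y' (θ := linFun μ') θ.2 (isIrrCharacter_linear μ') hinv hθ
        have h1 := congrFun h 1
        rw [Pi.smul_apply, smul_eq_mul, linFun_apply, map_one, Units.val_one, mul_one,
          OneMemClass.coe_one] at h1
        intro y
        have h2 := congrFun h (e.symm y)
        rw [Pi.smul_apply, smul_eq_mul, ← h1] at h2
        refine Eq.trans h2 ?_
        rw [linFun_apply, show μ' (e.symm y) = μ y from congrArg μ (e.apply_symm_apply y)]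
      have hθ1 : charDegree (θ : L → ℂ) ≠ 1 := fun h1 => by
        obtain ⟨ν, hν⟩ := exists_linFun_of_isCharacter (IsIrrCharacter.isCharacter θ.2)
          (by rw [apply_one, h1, Nat.cast_one])
        set z : Y := ⟨⁅d₀, x⁆, ih d₀ hd₀ x hx⟩
        have h2 := hres z
        rw [hν, linFun_apply, linFun_apply, map_one, Units.val_one, one_mul,
          mem_derived_iff_forall.1 (hYd z.2) ν, Units.val_one] at h2
        exact hμx (Units.ext h2.symm)
      obtain ⟨b, hb, hbL⟩ : ∃ b ∈ inertia L (θ : L → ℂ), b ∉ L := by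
        by_contra hcon
        push Not at hcon
        exact frob_inertia_ne c.antichain c.frob c.index_mem θ hθ1
          (le_antisymm hcon (le_inertia L (IsIrrCharacter.isClassFunction θ.2)))
      obtain ⟨i, hi⟩ := hgen b
      set h := a ^ i with hhdef
      have hhA : h ∈ A := A.pow_mem (Subgroup.mem_zpowers a) i
      have hhL : h ∉ L := fun hh => hbL ((L.mul_mem_cancel_left (L.inv_mem hh)).1 hi)
      have hhI : h ∈ inertia L (θ : L → ℂ) := by
        rw [show h = b * (h⁻¹ * b)⁻¹ by group]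
        exact mul_mem hb (le_inertia L (IsIrrCharacter.isClassFunction θ.2) (L.inv_mem hi))
      have hμh : ∀ y : Y, μ (MulAut.conjNormal h y) = μ y := fun y => by
        have h1 := congrFun ((mem_inertia L (θ : L → ℂ) h).1 hhI) ⟨y, hYL y.2⟩
        rw [conjChar_apply, hres y] at h1
        have h2 := hres (MulAut.conjNormal h y)
        rw [show (⟨((MulAut.conjNormal h y : Y) : G), hYL (MulAut.conjNormal h y).2⟩ : L) =
          ⟨h * (y : G) * h⁻¹, Subgroup.Normal.conj_mem inferInstance _ (hYL y.2) h⟩ from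
          Subtype.ext (MulAut.conjNormal_apply h y), h1] at h2
        exact (Units.ext (mul_left_cancel₀ (apply_one_ne_zero_of_isIrr θ.2) h2)).symm
      let ψ : D →* ℂˣ := MonoidHom.mk' (fun d => μ ⟨⁅(d : G), x⁆, ih d d.2 x hx⟩) fun d d' => by
        have hconj : (⟨⁅((d * d' : D) : G), x⁆, ih _ (d * d').2 x hx⟩ : Y) =
            MulAut.conjNormal (d : G) ⟨⁅(d' : G), x⁆, ih d' d'.2 x hx⟩ *
              ⟨⁅(d : G), x⁆, ih d d.2 x hx⟩ := Subtype.ext (by
          show ⁅((d * d' : D) : G), x⁆ = _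
          rw [Subgroup.coe_mul, Subgroup.coe_mul, MulAut.conjNormal_apply]
          simp only [commutatorElement_def]
          group)
        rw [hconj, map_mul, hμL (d : G) (hRL (hDR d.2)), mul_comm]
      have hψh : ∀ d : D, ψ (MulAut.conjNormal h d) = ψ d := fun d => by
        show μ _ = μ _
        rw [← hμh ⟨⁅(d : G), x⁆, ih d d.2 x hx⟩]
        refine congrArg μ (Subtype.ext ?_)
        show ⁅((MulAut.conjNormal h d : D) : G), x⁆ =
          ((MulAut.conjNormal h (⟨⁅(d : G), x⁆, ih d d.2 x hx⟩ : Y) : Y) : G)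
        rw [MulAut.conjNormal_apply, MulAut.conjNormal_apply, conjugate_commutatorElement,
          show h * x * h⁻¹ = x by
            rw [Subgroup.mem_centralizer_iff.1 hx.2 h hhA, mul_inv_cancel_right]]
      have hBA : Subgroup.zpowers h ≤ A := Subgroup.zpowers_le.2 hhA
      have hD2 : D ≤ ⁅D, Subgroup.zpowers h⁆ := by
        refine (hDh h hhA hhL).trans ?_
        rw [← CfsgLib.CoprimeAction.commutator_commutator_eq (hBA.trans hAR) (hcopA hBA) (Or.inr hRs)]
        exact Subgroup.commutator_mono (Subgroup.commutator_mono le_rfl hBA) le_rfl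
      let Sg : Subgroup G :=
        { carrier := {d | ∃ hd : d ∈ D, ψ ⟨d, hd⟩ = 1}
          one_mem' := ⟨D.one_mem, map_one ψ⟩
          mul_mem' := fun {u v} ⟨hu, hu'⟩ ⟨hv, hv'⟩ => ⟨D.mul_mem hu hv, by
            rw [show (⟨u * v, _⟩ : D) = ⟨u, hu⟩ * ⟨v, hv⟩ from rfl, map_mul, hu', hv', one_mul]⟩
          inv_mem' := fun {u} ⟨hu, hu'⟩ => ⟨D.inv_mem hu, by
            rw [show (⟨u⁻¹, _⟩ : D) = (⟨u, hu⟩ : D)⁻¹ from rfl, map_inv, hu', inv_one]⟩ }
      have hSg : ⁅D, Subgroup.zpowers h⁆ ≤ Sg := Subgroup.commutator_le.2 fun d hd t ht => by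
        obtain ⟨j, rfl⟩ := ht
        have hψj : ∀ d : D, ψ (MulAut.conjNormal (h ^ j) d) = ψ d := by
          induction j using Int.induction_on with
          | zero => intro d; simp
          | succ j ihj => intro d; rw [zpow_add, map_mul, MulAut.mul_apply, ihj, zpow_one, hψh]
          | pred j ihj =>
            intro d
            rw [zpow_sub, map_mul, MulAut.mul_apply, ihj, zpow_one, map_inv]
            have h4 := hψh ((MulAut.conjNormal h)⁻¹ d)
            rw [← MulAut.mul_apply, mul_inv_cancel, MulAut.one_apply] at h4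
            exact h4.symm
        have hmem : d * (h ^ j * d⁻¹ * (h ^ j)⁻¹) ∈ D := D.mul_mem hd (hDn.conj_mem _ (D.inv_mem hd) _)
        have he : ⁅d, h ^ j⁆ = d * (h ^ j * d⁻¹ * (h ^ j)⁻¹) := by
          rw [commutatorElement_def]; group
        rw [he]
        refine ⟨hmem, ?_⟩
        rw [show (⟨_, hmem⟩ : D) = ⟨d, hd⟩ * MulAut.conjNormal (h ^ j) (⟨d, hd⟩ : D)⁻¹ from
          Subtype.ext (by rw [Subgroup.coe_mul, MulAut.conjNormal_apply]; rfl), map_mul, hψj,
          map_inv, mul_inv_cancel]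
      obtain ⟨hd', hd''⟩ := hSg (hD2 hd₀)
      exact hμx hd''
  obtain ⟨nz, hnz⟩ := Subgroup.isNilpotent_iff_lowerCentralSeries R |>.1 inferInstance
  have hDC₁ : ∀ d ∈ D, ∀ x ∈ C₁, d * x = x * d := fun d hd x hx => by
    have h1 := R.lowerCentralSeries_antitone (Nat.le_succ nz) (hDC nz d hd x hx)
    rw [hnz, Subgroup.mem_bot] at h1
    exact commutatorElement_eq_one_iff_mul_comm.1 h1
  have hdecR : ∀ u ∈ R, ∃ d ∈ D, ∃ x ∈ C₁, u = d * x := fun u hu => by
    rw [← hRDC] at hu
    obtain ⟨d, hd, x, hx, rfl⟩ := Subgroup.mem_sup_of_normal_left.1 hu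
    exact ⟨d, hd, x, hx, rfl⟩
  have hCsplit : ∀ l ∈ L, ∃ d ∈ D, ∃ x ∈ C₁, ∃ n ∈ N, l = d * (x * n) := fun l hl => by
    obtain ⟨u, hu, n, hn, rfl⟩ := hsplit l hl
    obtain ⟨d, hd, x, hx, rfl⟩ := hdecR u hu
    exact ⟨d, hd, x, hx, n, hn, mul_assoc _ _ _⟩
  have hC₁C : ∀ x ∈ C₁, x ∈ C := fun x hx => ⟨hRL hx.1, hx.2⟩
  have hDCall : ∀ d ∈ D, ∀ x ∈ C, d * x = x * d := by
    intro d hd x hx
    obtain ⟨u, hu, n, hn, rfl⟩ := hsplit x hx.1
    have hu' : u ∈ C₁ := ⟨hu, by
      have := mul_mem (show u * n ∈ Subgroup.centralizer (A : Set G) from hx.2)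
        (inv_mem (show n ∈ Subgroup.centralizer (A : Set G) from (hNC n hn).2))
      rwa [mul_inv_cancel_right] at this⟩
    calc d * (u * n) = u * d * n := by rw [← mul_assoc, hDC₁ d hd u hu']
      _ = u * n * d := by rw [mul_assoc, Subgroup.mem_center_iff.1 (hNcen hn) d, ← mul_assoc]
  -- moved elements of the commutator
  have hDnot : ¬ D ≤ c.fix0 := by
    intro hle
    have h1 : D ≤ ⁅R, R⁆ := fun d hd => hLR ▸ c.mem_derived_of_fix0 (hle hd) (hDG hd)
    have hS : C₁.subgroupOf R = ⊤ := by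
      refine frattini_nongenerating (eq_top_iff.2 fun y _ => ?_)
      have hmap : (C₁.subgroupOf R ⊔ commutator R).map R.subtype = R := by
        rw [Subgroup.map_sup, Subgroup.map_subtype_commutator, Subgroup.subgroupOf_map_subtype,
          inf_eq_left.2 (inf_le_left : C₁ ≤ R)]
        refine le_antisymm (sup_le inf_le_left (Subgroup.commutator_le_self R)) ?_
        conv_lhs => rw [← hRDC]
        exact sup_le (h1.trans le_sup_right) le_sup_left
      obtain ⟨z, hz, hzy⟩ := hmap.ge y.2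
      rw [show y = z from Subtype.ext hzy.symm]
      exact (sup_le le_sup_left ((CfsgLib.PGroups.commutator_le_frattini hRp).trans le_sup_right)) hz
    exact hx₁F (hLfix _ (hC₁C _ (Subgroup.subgroupOf_eq_top.1 hS (hRmem x₁ hx₁ k₁ hx₁k))))
  have hL'D : (⁅L, L⁆ : Subgroup G) ≤ D := by
    by_contra hcon
    have h1 : ¬ commutator L ≤ D.subgroupOf L := fun h => hcon (by
      rw [← Subgroup.map_subtype_commutator]
      exact Subgroup.map_le_iff_le_comap.2 h)
    obtain ⟨θ, hθD, hθ⟩ := exists_nonlinear_of_not_le (D.subgroupOf L) h1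
    obtain ⟨d, hd, hdF⟩ := SetLike.not_le_iff_exists.1 hDnot
    have h := c.vanish θ hθ.ne' (x := ⟨d, hRL (hDR hd)⟩) hdF
    rw [hθD ⟨d, hRL (hDR hd)⟩ hd] at h
    exact apply_one_ne_zero_of_isIrr θ.2 h
  -- no fixed points modulo the derived subgroup
  have hfixD : ∀ x ∈ D, x ∈ C₁ → x ∈ ⁅D, D⁆ := by
    intro x hx hxC
    set q := QuotientGroup.mk' (⁅D, D⁆ : Subgroup G) with hq
    haveI : IsMulCommutative (D.map q) := ⟨⟨fun u v => Subtype.ext (by
      obtain ⟨u, u', hu, rfl⟩ := u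
      obtain ⟨v, v', hv, rfl⟩ := v
      refine commutatorElement_eq_one_iff_mul_comm.1 ?_
      rw [← map_commutatorElement]
      exact (QuotientGroup.eq_one_iff _).2 (Subgroup.commutator_mem_commutator hu hv))⟩⟩
    have hbot := CfsgLib.CoprimeAction.inf_commutator_eq_bot (A := A.map q) (V := D.map q)
      (le_top.trans (Subgroup.normalizer_eq_top_iff.2
        (Subgroup.Normal.map hDn q (QuotientGroup.mk'_surjective _))).ge)
      (((hcopA le_rfl).coprime_dvd_left (Subgroup.card_map_dvd _ _)).coprime_dvd_right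
        ((Subgroup.card_map_dvd _ _).trans (Subgroup.card_dvd_of_le hDR)))
    rw [← Subgroup.map_commutator, hDA] at hbot
    have hxmem : q x ∈ (D.map q ⊓ Subgroup.centralizer (A.map q : Set _)) ⊓ D.map q := by
      refine ⟨⟨⟨x, hx, rfl⟩, Subgroup.mem_centralizer_iff.2 ?_⟩, ⟨x, hx, rfl⟩⟩
      rintro _ ⟨t, ht, rfl⟩
      rw [← map_mul, ← map_mul, Subgroup.mem_centralizer_iff.1 hxC.2 t ht]
    rw [hbot, Subgroup.mem_bot] at hxmem
    exact (QuotientGroup.eq_one_iff _).1 hxmem
  have hder : (⁅D, D⁆ : Subgroup G) = ⁅L, L⁆ := by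
    refine le_antisymm (Subgroup.commutator_mono (hDR.trans hRL) (hDR.trans hRL)) ?_
    rw [hLR]
    refine Subgroup.commutator_le.2 fun u hu v hv => ?_
    obtain ⟨d, hd, x, hx, rfl⟩ := hdecR u hu
    obtain ⟨d', hd', x', hx', rfl⟩ := hdecR v hv
    have hxx : ⁅x, x'⁆ ∈ ⁅D, D⁆ := hfixD _
      (hL'D (hLR ▸ Subgroup.commutator_mem_commutator hx.1 hx'.1))
      (by
        rw [commutatorElement_def]
        exact mul_mem (mul_mem (mul_mem hx hx') (inv_mem hx)) (inv_mem hx'))
    have h1 : ⁅d * x, d' * x'⁆ = ⁅d, d'⁆ * ⁅x, x'⁆ := by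
      simp only [commutatorElement_def]
      have e1 : x * d' = d' * x := (hDC₁ d' hd' x hx).symm
      have e2 : x' * d⁻¹ = d⁻¹ * x' := (hDC₁ _ (D.inv_mem hd) x' hx').symm
      have e3 : (x * x' * x⁻¹) * d⁻¹ = d⁻¹ * (x * x' * x⁻¹) :=
        (hDC₁ _ (D.inv_mem hd) _ (mul_mem (mul_mem hx hx') (inv_mem hx))).symm
      have e4 : (x * x' * x⁻¹ * x'⁻¹) * d'⁻¹ = d'⁻¹ * (x * x' * x⁻¹ * x'⁻¹) :=
        (hDC₁ _ (D.inv_mem hd') _ (mul_mem (mul_mem (mul_mem hx hx') (inv_mem hx)) (inv_mem hx'))).symm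
      calc d * x * (d' * x') * (d * x)⁻¹ * (d' * x')⁻¹
          = d * (x * d') * (x' * x⁻¹ * d⁻¹) * (x'⁻¹ * d'⁻¹) := by group
        _ = d * (d' * x) * (x' * x⁻¹ * d⁻¹) * (x'⁻¹ * d'⁻¹) := by rw [e1]
        _ = d * d' * ((x * x' * x⁻¹) * d⁻¹) * (x'⁻¹ * d'⁻¹) := by group
        _ = d * d' * (d⁻¹ * (x * x' * x⁻¹)) * (x'⁻¹ * d'⁻¹) := by rw [e3]
        _ = d * d' * d⁻¹ * ((x * x' * x⁻¹ * x'⁻¹) * d'⁻¹) := by group
        _ = d * d' * d⁻¹ * (d'⁻¹ * (x * x' * x⁻¹ * x'⁻¹)) := by rw [e4]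
        _ = d * d' * d⁻¹ * d'⁻¹ * (x * x' * x⁻¹ * x'⁻¹) := by group
    rw [h1]
    exact mul_mem (Subgroup.commutator_mem_commutator hd hd') hxx
  have hGeq : commutator G = D := by
    refine le_antisymm ?_ hDG
    let q := QuotientGroup.mk' D
    have hkey : ∀ x : G, ∃ t ∈ A, ∃ y ∈ C, q x = q (t * y) := fun x => by
      obtain ⟨i, hi⟩ := hgen x
      obtain ⟨d, hd, y, hy, n, hn, he⟩ := hCsplit _ hi
      refine ⟨a ^ i, A.pow_mem (Subgroup.mem_zpowers a) i, y * n, mul_mem (hC₁C y hy) (hNC n hn), ?_⟩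
      rw [show x = a ^ i * (d * (y * n)) by rw [← he, mul_inv_cancel_left], map_mul, map_mul q d,
        show q d = 1 from (QuotientGroup.eq_one_iff _).2 hd, one_mul, ← map_mul]
    refine Subgroup.commutator_le.2 fun u _ v _ => (QuotientGroup.eq_one_iff _).1 ?_
    show q ⁅u, v⁆ = 1
    obtain ⟨t, ht, y, hy, hu⟩ := hkey u
    obtain ⟨t', ht', y', hy', hv⟩ := hkey v
    rw [map_commutatorElement, hu, hv, commutatorElement_eq_one_iff_mul_comm, map_mul, map_mul]
    have htt : Commute (q t) (q t') := by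
      obtain ⟨i, rfl⟩ := ht
      obtain ⟨j, rfl⟩ := ht'
      exact Commute.map ((Commute.refl a).zpow_zpow i j) q
    have hyy : Commute (q y) (q y') := by
      rw [Commute, SemiconjBy, ← commutatorElement_eq_one_iff_mul_comm, ← map_commutatorElement]
      exact (QuotientGroup.eq_one_iff _).2 (hL'D (Subgroup.commutator_mem_commutator hy.1 hy'.1))
    have hty : Commute (q t) (q y') := Commute.map (hCcomm y' hy' t ht) q
    have hty' : Commute (q t') (q y) := Commute.map (hCcomm y hy t' ht') q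
    exact ((htt.mul_right hty).mul_left (hty'.symm.mul_right hyy)).eq
  refine ⟨a, D, C, hgen, hacop, hRp.to_le hDR, hGeq, hder, inf_le_left,
    fun x hx => hCcomm x hx a (Subgroup.mem_zpowers a), hDCall, fun l hl => ?_, ?_⟩
  · obtain ⟨d, hd, x, hx, n, hn, he⟩ := hCsplit l hl
    exact ⟨d, hd, x * n, mul_mem (hC₁C x hx) (hNC n hn), he⟩
  · intro x hx w hw
    rw [mem_commutator_subtype] at hx hw
    rw [hder] at hx hw
    have hxF : (x : G) ∉ c.fix0 := fun h => hx (c.mem_derived_of_fix0 h (hDG x.2))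
    obtain ⟨y, hy, hxy⟩ := c.exists_comm (hRL (hDR x.2)) hxF hw
    obtain ⟨d, hd, z, hz, n, hn, rfl⟩ := hCsplit y hy
    refine ⟨⟨d, hd⟩, Subtype.ext ?_⟩
    rw [← hxy]
    show ⁅(x : G), d⁆ = _
    have e1 := hDCall (x : G) x.2 (z * n) (mul_mem (hC₁C z hz) (hNC n hn))
    rw [show ⁅(x : G), d * (z * n)⁆ = ⁅(x : G), d⁆ * (d * ⁅(x : G), z * n⁆ * d⁻¹) by
      simp only [commutatorElement_def]; group,
      show ⁅(x : G), z * n⁆ = 1 from commutatorElement_eq_one_iff_mul_comm.2 e1, mul_one,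
      mul_inv_cancel, mul_one]

end Comp

end CfsgLib.ZerosCodegree.Nondiv
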