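import Cfsg.Agent.Lib.ZerosCodegree.NondivisibilityLinear
import Cfsg.Agent.Lib.Cores.FPF

/-!
# The critical configuration: the derived subgroup centralises the minimal normal subgroup

`Z = [B,B]` is an elementary abelian group centralised by the derived subgroup `D`; otherwise `D/Z`
would be cyclic and every element of `H` would be fixed modulo the derived subgroup.
-/

set_option autoImplicit false
set_option linter.style.haveILetI false
set_option linter.unusedSectionVars false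
set_option maxSynthPendingDepth 4

open scoped commutatorElement

namespace CfsgLib.ZerosCodegree.Nondiv

open Cfsg CfsgLib.CharTheory CfsgLib.Clifford CfsgLib.ZerosCodegree.RelGraph
open CfsgLib.ZerosCodegree.CyclicClifford

universe u

variable {H : Type u} [Group H]

theorem Stable.map_eq [Finite H] {σ : MulAut H} {A : Subgroup H} (h : Stable σ A) :
    A.map σ.toMonoidHom = A :=
  Subgroup.eq_of_le_of_card_ge (Subgroup.map_le_iff_le_comap.2 h)
    (le_of_eq (Nat.card_congr (A.equivMapOfInjective σ.toMonoidHom σ.injective).toEquiv))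

theorem Stable.exists_preimage [Finite H] {σ : MulAut H} {A : Subgroup H} (h : Stable σ A) {y : H}
    (hy : y ∈ A) : ∃ x ∈ A, σ x = y := h.map_eq.ge hy

theorem Stable.centralizer [Finite H] {σ : MulAut H} {A : Subgroup H} (h : Stable σ A) :
    Stable σ (Subgroup.centralizer (A : Set H)) := fun x hx =>
  Subgroup.mem_centralizer_iff.2 fun y hy => by
    obtain ⟨z, hz, rfl⟩ := h.exists_preimage hy
    rw [← map_mul, ← map_mul, Subgroup.mem_centralizer_iff.1 hx z hz]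

theorem Stable.inf {σ : MulAut H} {A A' : Subgroup H} (h : Stable σ A) (h' : Stable σ A') :
    Stable σ (A ⊓ A') := fun x hx => ⟨h x hx.1, h' x hx.2⟩

theorem stable_commutator (σ : MulAut H) {A A' : Subgroup H} (h : Stable σ A) (h' : Stable σ A') :
    Stable σ ⁅A, A'⁆ := fun x hx => by
  have h1 : ⁅A, A'⁆ ≤ (⁅A, A'⁆).comap σ.toMonoidHom := Subgroup.commutator_le.2 fun a ha b hb => by
    show σ ⁅a, b⁆ ∈ ⁅A, A'⁆
    rw [map_commutatorElement]
    exact Subgroup.commutator_mem_commutator (h a ha) (h' b hb)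
  exact h1 hx

theorem pow_mul_congr {A M : Subgroup H} [M.Normal] (hAM : ⁅A, A⁆ ≤ M) {x y : H} (hx : x ∈ A)
    (hy : y ∈ A) (n : ℕ) : ((x * y : H) : H ⧸ M) ^ n = (x : H ⧸ M) ^ n * (y : H ⧸ M) ^ n := by
  rw [QuotientGroup.mk_mul]
  refine Commute.mul_pow (commutatorElement_eq_one_iff_commute.1 ?_) n
  show ⁅QuotientGroup.mk' M x, QuotientGroup.mk' M y⁆ = 1
  rw [← map_commutatorElement]
  exact (QuotientGroup.eq_one_iff _).2 (hAM (Subgroup.commutator_mem_commutator hx hy))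

/-- The elements of `A` of `p`-power order modulo `M`, when `A` is abelian modulo `M`. -/
def pPart (A M : Subgroup H) [M.Normal] (hAM : ⁅A, A⁆ ≤ M) (p : ℕ) : Subgroup H where
  carrier := {x | x ∈ A ∧ ∃ k : ℕ, x ^ p ^ k ∈ M}
  one_mem' := ⟨A.one_mem, 0, by simp⟩
  mul_mem' := fun {x y} ⟨hx, i, hi⟩ ⟨hy, j, hj⟩ => by
    refine ⟨A.mul_mem hx hy, i + j, ?_⟩
    rw [← QuotientGroup.eq_one_iff, QuotientGroup.mk_pow, pow_mul_congr hAM hx hy, pow_add]
    rw [← QuotientGroup.eq_one_iff, QuotientGroup.mk_pow] at hi hj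
    rw [pow_mul, hi, mul_comm (p ^ i) (p ^ j), pow_mul, hj, one_pow, one_pow, one_mul]
  inv_mem' := fun {x} ⟨hx, i, hi⟩ => ⟨A.inv_mem hx, i, by rw [inv_pow]; exact M.inv_mem hi⟩

theorem pPart_le {A M : Subgroup H} [M.Normal] {hAM : ⁅A, A⁆ ≤ M} {p : ℕ} :
    pPart A M hAM p ≤ A := fun _ h => h.1

theorem le_pPart {A M : Subgroup H} [M.Normal] {hAM : ⁅A, A⁆ ≤ M} {p : ℕ} (h : M ≤ A) :
    M ≤ pPart A M hAM p := fun x hx => ⟨h hx, 0, by simpa using hx⟩

instance normal_pPart {A M : Subgroup H} [hA : A.Normal] [hM : M.Normal] {hAM : ⁅A, A⁆ ≤ M}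
    {p : ℕ} : (pPart A M hAM p).Normal :=
  ⟨fun x ⟨hx, k, hk⟩ g => ⟨hA.conj_mem x hx g, k, by rw [conj_pow]; exact hM.conj_mem _ hk g⟩⟩

theorem stable_pPart {σ : MulAut H} {A M : Subgroup H} [M.Normal] {hAM : ⁅A, A⁆ ≤ M} {p : ℕ}
    (hA : Stable σ A) (hM : Stable σ M) : Stable σ (pPart A M hAM p) :=
  fun x ⟨hx, k, hk⟩ => ⟨hA x hx, k, by rw [← map_pow]; exact hM _ hk⟩

variable [Fintype H] {σ : MulAut H} {l : ℕ} {B : Subgroup H} [B.Normal] [Fintype B]

namespace Crit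

theorem derived_le_B (_c : Crit σ l B) : ⁅B, B⁆ ≤ B := Subgroup.commutator_le_self B

theorem stable_derived (c : Crit σ l B) : Stable σ ⁅B, B⁆ := stable_commutator σ c.stable c.stable

theorem stable_D (_c : Crit σ l B) : Stable σ (commutator H) :=
  fun _ hx => mem_commutator_of_aut σ hx

theorem comm_D (c : Crit σ l B) : ⁅commutator H, commutator H⁆ ≤ ⁅B, B⁆ :=
  Subgroup.commutator_mono c.comm c.comm

theorem stable_C (c : Crit σ l B) : Stable σ (Subgroup.centralizer ((⁅B, B⁆ : Subgroup H) : Set H)) :=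
  c.stable_derived.centralizer

theorem derived_comm (c : Crit σ l B) (hsolv : Group.IsSolvable H) :
    ∀ a ∈ ⁅B, B⁆, ∀ b ∈ ⁅B, B⁆, a * b = b * a := by
  haveI := hsolv
  have h1 : ⁅⁅B, B⁆, ⁅B, B⁆⁆ = ⊥ := by
    refine (c.min _ inferInstance (stable_commutator σ c.stable_derived c.stable_derived)
      (Subgroup.commutator_le_self _)).resolve_right ?_
    exact (Group.IsSolvable.commutator_lt_of_ne_bot c.nonab).ne
  exact fun a ha b hb => commutatorElement_eq_one_iff_mul_comm.1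
    (Subgroup.mem_bot.1 (h1 ▸ Subgroup.commutator_mem_commutator ha hb))

theorem le_C (c : Crit σ l B) (hsolv : Group.IsSolvable H) :
    ⁅B, B⁆ ≤ Subgroup.centralizer ((⁅B, B⁆ : Subgroup H) : Set H) := fun x hx =>
  Subgroup.mem_centralizer_iff.2 fun y hy => c.derived_comm hsolv y hy x hx

theorem exists_prime (c : Crit σ l B) (hsolv : Group.IsSolvable H) :
    ∃ s : ℕ, s.Prime ∧ ∀ z ∈ ⁅B, B⁆, z ^ s = 1 := by
  have hcard : Nat.card (⁅B, B⁆ : Subgroup H) ≠ 1 := fun h => c.nonab (Subgroup.card_eq_one.1 h)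
  obtain ⟨s, hs, hsd⟩ := Nat.exists_prime_and_dvd hcard
  haveI := Fact.mk hs
  refine ⟨s, hs, ?_⟩
  let S : Subgroup H :=
    { carrier := {x | x ∈ ⁅B, B⁆ ∧ x ^ s = 1}
      one_mem' := ⟨one_mem _, one_pow s⟩
      mul_mem' := fun {a b} ⟨ha, ha'⟩ ⟨hb, hb'⟩ => ⟨mul_mem ha hb, by
        rw [Commute.mul_pow (c.derived_comm hsolv a ha b hb), ha', hb', one_mul]⟩
      inv_mem' := fun {a} ⟨ha, ha'⟩ => ⟨inv_mem ha, by rw [inv_pow, ha', inv_one]⟩ }
  have hSn : S.Normal := ⟨fun a ⟨ha, ha'⟩ g =>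
    ⟨Subgroup.Normal.conj_mem inferInstance a ha g, by rw [conj_pow, ha', mul_one, mul_inv_cancel]⟩⟩
  have hSs : Stable σ S := fun a ⟨ha, ha'⟩ => ⟨c.stable_derived a ha, by rw [← map_pow, ha', map_one]⟩
  rcases c.min S hSn hSs (fun x hx => hx.1) with h | h
  · obtain ⟨x, hx⟩ := exists_prime_orderOf_dvd_card' s hsd
    have hx' : (x : H) ∈ S := ⟨x.2, by
      rw [← hx]; exact_mod_cast congrArg Subtype.val (pow_orderOf_eq_one x)⟩
    rw [h, Subgroup.mem_bot] at hx'
    rw [show x = 1 from Subtype.ext hx', orderOf_one] at hx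
    exact absurd hx.symm hs.ne_one
  · exact fun z hz => (h.ge hz).2

theorem isPGroup_derived (_c : Crit σ l B) {s : ℕ} (hexp : ∀ z ∈ ⁅B, B⁆, z ^ s = 1) :
    IsPGroup s (⁅B, B⁆ : Subgroup H) := fun z =>
  ⟨1, Subtype.ext (by rw [pow_one]; exact hexp z z.2)⟩

/-- A stable normal subgroup acting as an `s`-group centralises `Z`. -/
theorem le_C_of_pgroup (c : Crit σ l B) {s : ℕ} (hs : s.Prime) (hexp : ∀ z ∈ ⁅B, B⁆, z ^ s = 1)
    (S : Subgroup H) [S.Normal] (hS : Stable σ S)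
    (hpow : ∀ x ∈ S, ∃ k : ℕ, x ^ s ^ k ∈ Subgroup.centralizer ((⁅B, B⁆ : Subgroup H) : Set H)) :
    S ≤ Subgroup.centralizer ((⁅B, B⁆ : Subgroup H) : Set H) := by
  haveI := Fact.mk hs
  set Z : Subgroup H := ⁅B, B⁆ with hZ
  let φ : H →* MulAut Z := MulAut.conjNormal
  have hP : IsPGroup s (S.map φ) := by
    rintro ⟨_, x, hx, rfl⟩
    obtain ⟨k, hk⟩ := hpow x hx
    refine ⟨k, Subtype.ext ?_⟩
    show φ x ^ s ^ k = 1
    rw [← map_pow]
    refine MulEquiv.ext fun z => Subtype.ext ?_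
    show (MulAut.conjNormal (x ^ s ^ k) z : H) = (z : H)
    rw [MulAut.conjNormal_apply, mul_inv_eq_iff_eq_mul]
    exact (Subgroup.mem_centralizer_iff.1 hk z z.2).symm
  letI : MulAction (S.map φ) Z := MulAction.compHom Z (S.map φ).subtype
  have h1 : (1 : Z) ∈ MulAction.fixedPoints (S.map φ) Z := fun a => map_one a.1
  obtain ⟨n, hn⟩ := IsPGroup.iff_card.1 (c.isPGroup_derived hexp)
  have hn0 : n ≠ 0 := by
    rintro rfl
    exact c.nonab (Subgroup.card_eq_one.1 (by rw [← hZ, hn, pow_zero]))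
  obtain ⟨m, hm, hm1⟩ := hP.exists_fixed_point_of_prime_dvd_card_of_fixed_point Z
    (hn ▸ dvd_pow_self s hn0) h1
  have hmS : ∀ x ∈ S, x * (m : H) = m * x := fun x hx => by
    have h2 : φ x m = m := hm ⟨φ x, x, hx, rfl⟩
    have h3 := congrArg Subtype.val h2
    change x * (m : H) * x⁻¹ = m at h3
    exact mul_inv_eq_iff_eq_mul.1 h3
  rcases c.min (Z ⊓ Subgroup.centralizer (S : Set H)) inferInstance
    (c.stable_derived.inf hS.centralizer) inf_le_left with h | h
  · have h4 : (m : H) ∈ Z ⊓ Subgroup.centralizer (S : Set H) :=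
      ⟨m.2, Subgroup.mem_centralizer_iff.2 hmS⟩
    rw [h, Subgroup.mem_bot] at h4
    exact absurd (Subtype.ext h4.symm) hm1
  · exact fun x hx => Subgroup.mem_centralizer_iff.2 fun z hz =>
      (Subgroup.mem_centralizer_iff.1 (h.ge hz).2 x hx).symm

/-- Some prime other than `s` contributes an element outside the centraliser. -/
theorem exists_other_prime (c : Crit σ l B) {s : ℕ} (hs : s.Prime)
    (hexp : ∀ z ∈ ⁅B, B⁆, z ^ s = 1) (hsolv : Group.IsSolvable H)
    (hD : ¬ commutator H ≤ Subgroup.centralizer ((⁅B, B⁆ : Subgroup H) : Set H)) :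
    ∃ q : ℕ, q.Prime ∧ q ≠ s ∧
      ¬ pPart (commutator H) ⁅B, B⁆ c.comm_D q ≤ Subgroup.centralizer ((⁅B, B⁆ : Subgroup H) : Set H) := by
  by_contra hcon
  push Not at hcon
  refine hD fun x hx => ?_
  set C : Subgroup H := Subgroup.centralizer ((⁅B, B⁆ : Subgroup H) : Set H) with hC
  have key : ∀ n : ℕ, ∀ y ∈ commutator H, y ^ n = 1 → 0 < n → y ∈ C := by
    intro n
    induction n using Nat.recOnPrimeCoprime with
    | zero => exact fun y _ _ h => absurd h (lt_irrefl 0)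
    | prime_pow p k hp =>
      intro y hy hyk _
      by_cases hps : p = s
      · subst hps
        refine c.le_C_of_pgroup hp hexp (pPart (commutator H) ⁅B, B⁆ c.comm_D p)
          (stable_pPart c.stable_D c.stable_derived) (fun w ⟨_, j, hj⟩ => ⟨j, c.le_C hsolv hj⟩)
          ⟨hy, k, by rw [hyk]; exact one_mem _⟩
      · exact hcon p hp hps ⟨hy, k, by rw [hyk]; exact one_mem _⟩
    | coprime a b ha hb hab iha ihb =>
      intro y hy hyab hpos
      refine Palfy.mem_of_pow_coprime (iha _ ((commutator H).pow_mem hy b) ?_ (by omega))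
        (ihb _ ((commutator H).pow_mem hy a) ?_ (by omega)) hab.symm
      · rw [← pow_mul, mul_comm, hyab]
      · rw [← pow_mul, hyab]
  exact key _ x hx (pow_orderOf_eq_one x) (orderOf_pos x)

/-- The Frattini complement of `Z` when `D` does not centralise it. -/
theorem exists_complement (c : Crit σ l B) {s : ℕ} (hs : s.Prime)
    (hexp : ∀ z ∈ ⁅B, B⁆, z ^ s = 1) (hsolv : Group.IsSolvable H)
    (hD : ¬ commutator H ≤ Subgroup.centralizer ((⁅B, B⁆ : Subgroup H) : Set H)) :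
    ∃ N : Subgroup H, N ≤ B ∧ (∀ b ∈ B, ∃ z ∈ ⁅B, B⁆, ∃ n ∈ N, b = z * n) ∧
      ∀ z ∈ ⁅B, B⁆, z ∈ N → z = 1 := by
  obtain ⟨q, hq, hqs, hA⟩ := c.exists_other_prime hs hexp hsolv hD
  haveI := Fact.mk hq
  set Z : Subgroup H := ⁅B, B⁆ with hZ
  set A := pPart (commutator H) Z c.comm_D q with hAdef
  have hAB : A ≤ B := pPart_le.trans c.comm
  have hZA : Z ≤ A := le_pPart c.derived_le
  obtain ⟨P⟩ : Nonempty (Sylow q A) := inferInstance
  set Q : Subgroup H := (P : Subgroup A).map A.subtype with hQ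
  have hQA : Q ≤ A := Subgroup.map_subtype_le _
  have hZnorm : ((P : Subgroup A) ⊔ Z.subgroupOf A) = ⊤ := by
    rw [← Subgroup.index_eq_one]
    by_contra hne
    obtain ⟨r, hr, hrd⟩ := Nat.exists_prime_and_dvd hne
    have h1 : r ∣ (P : Subgroup A).index := hrd.trans (Subgroup.index_dvd_of_le le_sup_left)
    have h2 : r ∣ (Z.subgroupOf A).index := hrd.trans (Subgroup.index_dvd_of_le le_sup_right)
    have h3 : IsPGroup q (A ⧸ Z.subgroupOf A) := fun x => by
      obtain ⟨x, rfl⟩ := QuotientGroup.mk_surjective x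
      obtain ⟨-, k, hk⟩ := x.2
      exact ⟨k, by rw [← QuotientGroup.mk_pow, QuotientGroup.eq_one_iff]; exact hk⟩
    obtain ⟨n, hn⟩ := IsPGroup.iff_card.1 h3
    rw [← Subgroup.index_eq_card] at hn
    rw [hn] at h2
    rw [(Nat.prime_dvd_prime_iff_eq hr hq).1 (hr.dvd_of_dvd_pow h2)] at h1
    exact P.not_dvd_index h1
  have hAQ : ∀ a ∈ A, ∃ z ∈ Z, ∃ x ∈ Q, a = z * x := by
    intro a ha
    have h1 : (⟨a, ha⟩ : A) ∈ Z.subgroupOf A ⊔ (P : Subgroup A) := by
      rw [sup_comm, hZnorm]; exact Subgroup.mem_top _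
    obtain ⟨z, hz, x, hx, e⟩ := Subgroup.mem_sup_of_normal_left.1 h1
    exact ⟨z, hz, x, ⟨x, hx, rfl⟩, (congrArg Subtype.val e).symm⟩
  have hQC : ¬ Q ≤ Subgroup.centralizer (Z : Set H) := fun h => hA fun a ha => by
    obtain ⟨z, hz, x, hx, rfl⟩ := hAQ a ha
    exact mul_mem (c.le_C hsolv hz) (h hx)
  have hfix : ∀ z ∈ Z, (∀ x ∈ Q, x * z = z * x) → z = 1 := by
    intro z hz hzQ
    have hzA : z ∈ Z ⊓ Subgroup.centralizer (A : Set H) := by
      refine ⟨hz, Subgroup.mem_centralizer_iff.2 fun a ha => ?_⟩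
      obtain ⟨w, hw, x, hx, rfl⟩ := hAQ a ha
      rw [mul_assoc, hzQ x hx, ← mul_assoc, c.derived_comm hsolv w hw z hz, mul_assoc]
    rcases c.min (Z ⊓ Subgroup.centralizer (A : Set H)) inferInstance
      (c.stable_derived.inf (stable_pPart c.stable_D c.stable_derived).centralizer) inf_le_left
      with h | h
    · rw [h, Subgroup.mem_bot] at hzA
      exact hzA
    · exact absurd (fun x hx => Subgroup.mem_centralizer_iff.2 fun w hw =>
        (Subgroup.mem_centralizer_iff.1 (h.ge hw).2 x (hQA hx)).symm) hQC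
  refine ⟨B ⊓ Subgroup.normalizer (Q : Set H), inf_le_left, fun b hb => ?_, fun z hz hzN => ?_⟩
  · have h1 : b ∈ A ⊔ Subgroup.normalizer (Q : Set H) := by
      rw [sup_comm, hQ, Sylow.normalizer_sup_eq_top P]
      exact Subgroup.mem_top b
    obtain ⟨a, ha, n, hn, rfl⟩ := Subgroup.mem_sup_of_normal_left.1 h1
    obtain ⟨z, hz, x, hx, rfl⟩ := hAQ a ha
    have hnB : n ∈ B := (B.mul_mem_cancel_left (hAB ha)).1 hb
    exact ⟨z, hz, x * n, ⟨mul_mem (hAB (hQA hx)) hnB,
      mul_mem (Subgroup.le_normalizer hx) hn⟩, mul_assoc _ _ _⟩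
  · refine hfix z hz fun x hx => ?_
    refine commutatorElement_eq_one_iff_mul_comm.1 ?_
    have h1 : ⁅x, z⁆ ∈ Z := by
      rw [commutatorElement_def]
      exact mul_mem (Subgroup.Normal.conj_mem inferInstance z hz x) (inv_mem hz)
    have h2 : ⁅x, z⁆ ∈ Q := by
      rw [commutatorElement_def, show x * z * x⁻¹ * z⁻¹ = x * (z * x⁻¹ * z⁻¹) by group]
      exact mul_mem hx ((Subgroup.mem_normalizer_iff.1 hzN.2 x⁻¹).1 (inv_mem hx))
    have h3 := IsPGroup.disjoint_of_ne (hp₁ := Fact.mk hs) s q hqs.symm Z Q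
      (c.isPGroup_derived hexp) (P.2.map A.subtype)
    exact Subgroup.disjoint_def.1 h3 h1 h2

/-- The derived subgroup centralises `Z`. -/
theorem D_le_C (c : Crit σ l B) {s : ℕ} (hs : s.Prime) (hexp : ∀ z ∈ ⁅B, B⁆, z ^ s = 1)
    (hsolv : Group.IsSolvable H) :
    commutator H ≤ Subgroup.centralizer ((⁅B, B⁆ : Subgroup H) : Set H) := by
  by_contra hD
  obtain ⟨N, hNB, hBN, hdis⟩ := c.exists_complement hs hexp hsolv hD
  set Z : Subgroup H := ⁅B, B⁆ with hZ
  have habN : ∀ a ∈ N, ∀ b ∈ N, a * b = b * a := fun a ha b hb =>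
    commutatorElement_eq_one_iff_mul_comm.1 (hdis _
      (Subgroup.commutator_mem_commutator (hNB ha) (hNB hb)) (by
        rw [commutatorElement_def]
        exact mul_mem (mul_mem (mul_mem ha hb) (inv_mem ha)) (inv_mem hb)))
  set A := commutator H ⊓ N with hA
  haveI : IsMulCommutative A := ⟨⟨fun a b => Subtype.ext (habN a a.2.2 b b.2.2)⟩⟩
  have hfpf : ∀ a ∈ A, a ≠ 1 →
      Z ⊓ Subgroup.centralizer ({a} : Set H) = ⊥ := by
    intro a ha ha1
    have haZ : a ∉ Z := fun h => ha1 (hdis a h ha.2)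
    have hcZ : ∀ z ∈ Z, ⁅a, z⁆ ∈ Z := fun z hz => by
      rw [commutatorElement_def]
      exact mul_mem (Subgroup.Normal.conj_mem inferInstance z hz a) (inv_mem hz)
    let f : Z →* Z :=
      { toFun := fun z => ⟨⁅a, (z : H)⁆, hcZ z z.2⟩
        map_one' := Subtype.ext (commutatorElement_one_right a)
        map_mul' := fun z w => Subtype.ext (by
          show ⁅a, (z : H) * w⁆ = ⁅a, (z : H)⁆ * ⁅a, (w : H)⁆
          rw [show ⁅a, (z : H) * w⁆ = ⁅a, (z : H)⁆ * ((z : H) * ⁅a, (w : H)⁆ * (z : H)⁻¹) by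
            simp only [commutatorElement_def]; group,
            c.derived_comm hsolv z z.2 _ (hcZ w w.2), mul_inv_cancel_right]) }
    set R : Subgroup H := f.range.map Z.subtype with hR
    have hRmem : ∀ z ∈ Z, ⁅a, z⁆ ∈ R := fun z hz => ⟨f ⟨z, hz⟩, ⟨_, rfl⟩, rfl⟩
    have hnR : ∀ b ∈ B, ∀ r ∈ R, b * r * b⁻¹ ∈ R := by
      rintro b hb _ ⟨_, ⟨z, rfl⟩, rfl⟩
      obtain ⟨w, hw, n, hn, rfl⟩ := hBN b hb
      show w * n * ⁅a, (z : H)⁆ * (w * n)⁻¹ ∈ R
      have hz' : n * (z : H) * n⁻¹ ∈ Z := Subgroup.Normal.conj_mem inferInstance _ z.2 n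
      have e1 : n * ⁅a, (z : H)⁆ * n⁻¹ = ⁅a, n * (z : H) * n⁻¹⁆ := by
        have e0 : n * a * n⁻¹ = a := by rw [habN n hn a ha.2, mul_inv_cancel_right]
        conv_rhs => rw [← e0]
        simp only [commutatorElement_def]; group
      rw [show w * n * ⁅a, (z : H)⁆ * (w * n)⁻¹ = w * (n * ⁅a, (z : H)⁆ * n⁻¹) * w⁻¹ by group, e1,
        c.derived_comm hsolv w hw _ (hcZ _ hz'), mul_inv_cancel_right]
      exact hRmem _ hz'
    have hall : ∀ y ∈ B, ⁅a, y⁆ ∈ R := by
      intro y hy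
      obtain ⟨z, hz, n, hn, rfl⟩ := hBN y hy
      rw [show ⁅a, z * n⁆ = ⁅a, z⁆ * (z * ⁅a, n⁆ * z⁻¹) by
        simp only [commutatorElement_def]; group,
        commutatorElement_eq_one_iff_mul_comm.2 (habN a ha.2 n hn), mul_one, mul_inv_cancel, mul_one]
      exact hRmem z hz
    have hle := c.derived_le_of_commutators ha.1 haZ R hnR hall
    have hsurj : Function.Surjective f := fun z => by
      obtain ⟨w, ⟨v, hv⟩, hw⟩ := hle z.2
      exact ⟨v, hv.trans (Subtype.ext hw)⟩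
    rw [eq_bot_iff]
    intro z hz
    have h1 : f ⟨z, hz.1⟩ = f 1 := by
      rw [map_one]
      exact Subtype.ext (commutatorElement_eq_one_iff_mul_comm.2
        (Subgroup.mem_centralizer_singleton_iff.1 hz.2).symm)
    exact Subgroup.mem_bot.2 (congrArg Subtype.val
      (Finite.injective_iff_surjective.2 hsurj h1))
  haveI : IsCyclic A := CfsgLib.Cores.isCyclic_of_fpf c.nonab
    (le_top.trans (Subgroup.normalizer_eq_top_iff.2 inferInstance).ge) hfpf
  obtain ⟨a₀, ha₀⟩ := IsCyclic.exists_generator (α := A)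
  let q : H →* H ⧸ Z := QuotientGroup.mk' Z
  have hgenD : ∀ d ∈ commutator H, ∃ i : ℤ, q d = q a₀ ^ i := by
    intro d hd
    obtain ⟨z, hz, n, hn, rfl⟩ := hBN d (c.comm hd)
    have hnD : n ∈ commutator H := ((commutator H).mul_mem_cancel_left (c.derived_le hz)).1 hd
    obtain ⟨i, hi⟩ := ha₀ ⟨n, hnD, hn⟩
    refine ⟨i, ?_⟩
    rw [map_mul, show q z = 1 from (QuotientGroup.eq_one_iff z).2 hz, one_mul, ← map_zpow]
    exact (congrArg (fun a : A => q (a : H)) hi).symm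
  -- every element is fixed modulo the derived subgroup
  obtain ⟨x, hx⟩ := c.moved
  refine hx ?_
  have hxn : x ^ B.index ∈ fixMod σ := c.le (B.pow_index_mem x)
  refine mem_fixMod.1 (c.mem_fixMod_of_coprime (c.le ?_) hxn c.copl)
  obtain ⟨d₁, hd₁, hd₁Z⟩ : ∃ d ∈ commutator H, d ∉ Z := by
    by_contra hcon
    push Not at hcon
    exact c.commutator_not_le hcon
  obtain ⟨v, hv, hv1⟩ := c.separates (x := ⟨d₁, c.comm hd₁⟩) hd₁ hd₁Z
  obtain ⟨i, hi⟩ := hgenD (x * (a₀ : H) * x⁻¹) (Subgroup.Normal.conj_mem inferInstance _ a₀.2.1 x)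
  have hpow : ∀ d ∈ commutator H, q (x * d * x⁻¹) = q d ^ i := by
    intro d hd
    obtain ⟨j, hj⟩ := hgenD d hd
    rw [map_mul, map_mul, map_inv, hj, ← conj_zpow, ← map_inv, ← map_mul, ← map_mul, hi,
      zpow_comm]
  have hvq : ∀ (a b : B), q (a : H) = q (b : H) → ∀ w : B →* ℂˣ, w a = w b := by
    intro a b hab w
    have h1 : a⁻¹ * b ∈ commutator B := by
      have h1 : ((a⁻¹ * b : B) : H) ∈ Z := QuotientGroup.eq.1 hab
      rw [hZ, ← Subgroup.map_subtype_commutator] at h1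
      obtain ⟨y, hy, hye⟩ := h1
      exact (Subtype.ext hye : y = a⁻¹ * b) ▸ hy
    have h2 := Abelianization.commutator_subset_ker w h1
    rw [MonoidHom.mem_ker, map_mul, map_inv, inv_mul_eq_one] at h2
    exact h2
  have hconj : conjLin (σ x) v = conjLin x v := by
    refine c.moved'_eq_of_res (c.moved'_stable _ v hv) (c.moved'_stable _ v hv) fun d hd => ?_
    refine hvq _ _ ?_ v
    show q ((MulAut.conjNormal (σ x) d : B) : H) = q ((MulAut.conjNormal x d : B) : H)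
    rw [MulAut.conjNormal_apply, MulAut.conjNormal_apply, hpow _ hd]
    obtain ⟨e, he, hed⟩ := c.stable_D.exists_preimage hd
    let σq : H ⧸ Z →* H ⧸ Z := QuotientGroup.map Z Z σ.toMonoidHom fun z hz => c.stable_derived z hz
    rw [← hed, ← map_inv σ, ← map_mul, ← map_mul]
    show σq (q (x * e * x⁻¹)) = σq (q e) ^ i
    rw [hpow e he, map_zpow]
  have hmem : x⁻¹ * σ x ∈ B := by
    by_contra hne
    have h1 : conjLin x⁻¹ (conjLin (σ x) v) = conjLin x⁻¹ (conjLin x v) := by rw [hconj]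
    rw [c.conjLin_comm x⁻¹ (σ x), conjLin_conjLin x x⁻¹, mul_inv_cancel, conjLin_one,
      conjLin_conjLin] at h1
    rw [c.moved'_fpf _ hne v hv h1, MonoidHom.one_apply] at hv1
    exact hv1 rfl
  rw [show σ x * x⁻¹ = x * (x⁻¹ * σ x) * x⁻¹ by group]
  exact Subgroup.Normal.conj_mem inferInstance _ hmem x

end Crit

end CfsgLib.ZerosCodegree.Nondiv
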