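import Cfsg.Agent.Lib.ZerosCodegree.NondivisibilityCenter

/-!
# The critical configuration: the minimal normal subgroup is central

An element outside `B` centralises `Z`; it acts fixed-point-freely on `D/Z`, which gives
`B = D E` with `E` centralising `D` and `Z` central in `B`.
-/

set_option autoImplicit false
set_option linter.style.haveILetI false
set_option linter.unusedSectionVars false
set_option maxSynthPendingDepth 4

open scoped commutatorElement

namespace CfsgLib.ZerosCodegree.Nondiv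

open Cfsg CfsgLib.CharTheory CfsgLib.Clifford CfsgLib.ZerosCodegree.RelGraph
open CfsgLib.ZerosCodegree.CyclicClifford

universe u

variable {H : Type u} [Group H] [Fintype H] {σ : MulAut H} {l : ℕ} {B : Subgroup H} [B.Normal]
  [Fintype B]

namespace Crit

/-- The image of the group in the automorphisms of `Z` has no element of order `s`. -/
theorem mem_C_of_pow (c : Crit σ l B) {s : ℕ} (hs : s.Prime) (hexp : ∀ z ∈ ⁅B, B⁆, z ^ s = 1)
    (hDC : commutator H ≤ Subgroup.centralizer ((⁅B, B⁆ : Subgroup H) : Set H)) {x : H} {k : ℕ}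
    (hx : x ^ s ^ k ∈ Subgroup.centralizer ((⁅B, B⁆ : Subgroup H) : Set H)) :
    x ∈ Subgroup.centralizer ((⁅B, B⁆ : Subgroup H) : Set H) := by
  set C : Subgroup H := Subgroup.centralizer ((⁅B, B⁆ : Subgroup H) : Set H) with hC
  have hAM : ⁅(⊤ : Subgroup H), (⊤ : Subgroup H)⁆ ≤ C := hDC
  refine c.le_C_of_pgroup hs hexp (pPart ⊤ C hAM s)
    (stable_pPart (fun _ _ => Subgroup.mem_top _) c.stable_C) (fun w ⟨_, j, hj⟩ => ⟨j, hj⟩) ?_
  exact ⟨Subgroup.mem_top _, k, hx⟩

/-- A linear character of `Z` whose stabiliser is the centraliser of `Z`. -/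
theorem exists_regular (c : Crit σ l B) {s : ℕ} (hs : s.Prime) (hexp : ∀ z ∈ ⁅B, B⁆, z ^ s = 1)
    (hsolv : Group.IsSolvable H) :
    ∃ v : (⁅B, B⁆ : Subgroup H) →* ℂˣ,
      ∀ a, conjLin a v = v → a ∈ Subgroup.centralizer ((⁅B, B⁆ : Subgroup H) : Set H) := by
  classical
  set Z : Subgroup H := ⁅B, B⁆ with hZ
  haveI : Fintype Z := Fintype.ofFinite _
  have hDC := c.D_le_C hs hexp hsolv
  haveI := finite_lin Z
  obtain ⟨v, hv⟩ := Finite.exists_min
    (fun v : Z →* ℂˣ => Nat.card (inertia Z (linFun v)))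
  refine ⟨v, fun a hav => ?_⟩
  by_contra haC
  have hZcomm := c.derived_comm hsolv
  have hCfix : ∀ b, b ∈ Subgroup.centralizer (Z : Set H) → ∀ w : Z →* ℂˣ, conjLin b w = w :=
    fun b hb w => MonoidHom.ext fun z => congrArg w (Subtype.ext (by
      show ((MulAut.conjNormal b z : Z) : H) = (z : H)
      rw [MulAut.conjNormal_apply, mul_inv_eq_iff_eq_mul]
      exact (Subgroup.mem_centralizer_iff.1 hb z z.2).symm))
  have hcommute : ∀ (b : H) (w : Z →* ℂˣ), conjLin a (conjLin b w) = conjLin b (conjLin a w) := by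
    intro b w
    rw [conjLin_conjLin, conjLin_conjLin, show b * a = (b * a * (a * b)⁻¹) * (a * b) by group,
      ← conjLin_conjLin]
    rw [hCfix _ ?_ w]
    rw [show b * a * (a * b)⁻¹ = ⁅b, a⁆ by rw [commutatorElement_def]; group]
    exact hDC (Subgroup.commutator_mem_commutator (Subgroup.mem_top _) (Subgroup.mem_top _))
  have hker : ∀ u η : Z →* ℂˣ, delta a u = η → conjLin a η = η → η = 1 := by
    intro u η hu hη
    obtain ⟨m, hm0, hm, hms⟩ : ∃ m, 0 < m ∧ a ^ m ∈ Subgroup.centralizer (Z : Set H) ∧ ¬ s ∣ m := by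
      let q := QuotientGroup.mk' (Subgroup.centralizer (Z : Set H))
      refine ⟨orderOf (q a), orderOf_pos _, (QuotientGroup.eq_one_iff _).1 ?_, fun hd => ?_⟩
      · rw [QuotientGroup.mk_pow]
        exact pow_orderOf_eq_one (q a)
      · obtain ⟨k, hk⟩ := hd
        have h1 : a ^ k ∈ Subgroup.centralizer (Z : Set H) := by
          refine c.mem_C_of_pow hs hexp hDC (k := 1) ((QuotientGroup.eq_one_iff _).1 ?_)
          rw [QuotientGroup.mk_pow, QuotientGroup.mk_pow, pow_one, ← pow_mul, mul_comm, ← hk]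
          exact pow_orderOf_eq_one (q a)
        have h2 : orderOf (q a) ∣ k := orderOf_dvd_of_pow_eq_one (by
          rw [← map_pow]; exact (QuotientGroup.eq_one_iff _).2 h1)
        have hk0 : 0 < k := Nat.pos_of_ne_zero fun h => by
          rw [h, mul_zero] at hk; exact (orderOf_pos (q a)).ne' hk
        have h3 := Nat.le_of_dvd hk0 h2
        have h4 : 2 * k ≤ s * k := Nat.mul_le_mul_right k hs.two_le
        omega
    have h1 := conjLin_pow hu hη m
    rw [hCfix _ hm] at h1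
    have hηm : η ^ m = 1 := mul_eq_right.1 h1.symm
    have hηs : η ^ s = 1 := MonoidHom.ext fun z => by
      rw [MonoidHom.pow_apply, ← map_pow, MonoidHom.one_apply,
        show z ^ s = 1 from Subtype.ext (hexp z z.2), map_one]
    exact Subgroup.mem_bot.1 (Palfy.mem_of_pow_coprime (T := ⊥) (Subgroup.mem_bot.2 hηm)
      (Subgroup.mem_bot.2 hηs) ((hs.coprime_iff_not_dvd.2 hms).symm))
  obtain ⟨u, hu⟩ : ∃ u : Z →* ℂˣ, delta a u ≠ 1 := by
    by_contra hcon
    push Not at hcon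
    refine haC (Subgroup.mem_centralizer_iff.2 fun z hz => ?_)
    have hab : commutator Z ≤ ⊥ := by
      rw [commutator_def, Subgroup.commutator_le]
      exact fun x _ y _ => Subgroup.mem_bot.2
        (commutatorElement_eq_one_iff_mul_comm.2 (Subtype.ext (hZcomm x x.2 y y.2)))
    by_contra hne
    obtain ⟨μ, -, hμ⟩ := Palfy.exists_linear_sep (X := Z) hab
      (x := MulAut.conjNormal a ⟨z, hz⟩ * (⟨z, hz⟩ : Z)⁻¹) fun h => hne (by
        rw [Subgroup.mem_bot, mul_inv_eq_one] at h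
        have h1 := congrArg Subtype.val h
        rw [MulAut.conjNormal_apply, mul_inv_eq_iff_eq_mul] at h1
        exact h1.symm)
    refine hμ ?_
    rw [map_mul, map_inv, mul_inv_eq_one]
    exact DFunLike.congr_fun (delta_eq_one_iff.1 (hcon μ)) _
  set w := delta a u with hw
  have hsub : ∀ b, conjLin b (v * w) = v * w → conjLin b v = v := by
    intro b hb
    refine delta_eq_one_iff.1 (hker (delta b u)⁻¹ _ ?_ ?_)
    · have h1 : delta b (v * w) = 1 := delta_eq_one_iff.2 hb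
      rw [map_mul, mul_eq_one_iff_eq_inv] at h1
      rw [h1, map_inv, hw, delta_apply, delta_apply, delta_apply, delta_apply, map_div, map_div,
        hcommute, div_div_div_comm]
    · rw [delta_apply, map_div, hcommute, hav]
  have hle : inertia Z (linFun (v * w)) ≤ inertia Z (linFun v) := fun b hb =>
    conjLin_eq_self_iff.1 (hsub b (conjLin_eq_self_iff.2 hb))
  have heq := Subgroup.eq_of_le_of_card_ge hle (hv (v * w))
  have hfix : conjLin a (v * w) = v * w :=
    conjLin_eq_self_iff.2 (heq.ge (conjLin_eq_self_iff.1 hav))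
  rw [map_mul, hav, mul_right_inj] at hfix
  exact hu (hker u w rfl hfix)

/-- An element outside `B` centralises `Z`. -/
theorem exists_mem_C (c : Crit σ l B) {s : ℕ} (hs : s.Prime) (hexp : ∀ z ∈ ⁅B, B⁆, z ^ s = 1)
    (hsolv : Group.IsSolvable H) :
    ∃ a, a ∈ Subgroup.centralizer ((⁅B, B⁆ : Subgroup H) : Set H) ∧ a ∉ B := by
  classical
  set Z : Subgroup H := ⁅B, B⁆ with hZ
  haveI : Fintype Z := Fintype.ofFinite _
  by_contra hcon
  push Not at hcon
  obtain ⟨v, hv⟩ := c.exists_regular hs hexp hsolv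
  let Z' : Subgroup B := Z.subgroupOf B
  haveI : Fintype Z' := Fintype.ofFinite _
  let e : Z' ≃* Z := Subgroup.subgroupOfEquivOfLe c.derived_le_B
  let v' : Z' →* ℂˣ := v.comp e.toMonoidHom
  obtain ⟨φ, hφ⟩ := exists_over Z' (linIrr Z' v')
  have hv1 : v ≠ 1 := fun h => by
    obtain ⟨g, hg⟩ : ∃ g : H, g ∉ B := ⟨c.gen, c.gen_not_mem⟩
    exact hg (hcon g (hv g (by rw [h, map_one])))
  have hφ1 : charDegree (φ : B → ℂ) ≠ 1 := fun h1 => by
    obtain ⟨μ, hμ⟩ := exists_linFun_of_isCharacter (IsIrrCharacter.isCharacter φ.2)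
      (by rw [apply_one, h1, Nat.cast_one])
    have hres : (fun z : Z' => (φ : B → ℂ) z) = linFun (1 : Z' →* ℂˣ) := funext fun z => by
      have h2 : ((z : B)) ∈ commutator B := by
        have h3 : ((z : B) : H) ∈ (commutator B).map B.subtype := by
          rw [Subgroup.map_subtype_commutator]; exact z.2
        obtain ⟨y, hy, hye⟩ := h3
        exact (Subtype.ext hye : y = (z : B)) ▸ hy
      rw [hμ, linFun_apply, MonoidHom.mem_ker.1 (Abelianization.commutator_subset_ker μ h2)]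
      rfl
    refine hφ ?_
    show classInner (fun z : Z' => (φ : B → ℂ) z) (linFun v') = 0
    rw [hres]
    exact classInner_eq_zero_of_ne (isIrrCharacter_linear (1 : Z' →* ℂˣ)) (isIrrCharacter_linear v') fun h => hv1
      (MonoidHom.ext fun z => by
        have h2 := DFunLike.congr_fun (linFun_injective h) (e.symm z)
        simpa [v'] using h2.symm)
  obtain ⟨a, ha, hfix⟩ := c.exists_fixer φ hφ1
  let w' : Z' →* ℂˣ := (conjLin a v).comp e.toMonoidHom
  have hφw : classInner (fun z : Z' => (φ : B → ℂ) z) (linFun w') ≠ 0 := by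
    have h0 : ∀ u : Z →* ℂˣ, classInner (fun z : Z' => (φ : B → ℂ) z) (linFun (u.comp e.toMonoidHom))
        = classInner (fun z : Z => (φ : B → ℂ) ⟨z, c.derived_le_B z.2⟩) (linFun u) := fun u =>
      classInner_comp_mulEquiv e (fun z : Z => (φ : B → ℂ) ⟨z, c.derived_le_B z.2⟩) (linFun u)
    have h1 : classInner (fun z : Z => (φ : B → ℂ) ⟨z, c.derived_le_B z.2⟩) (linFun (conjLin a v))
        = classInner (fun z : Z => (φ : B → ℂ) ⟨z, c.derived_le_B z.2⟩) (linFun v) := by
      simp only [classInner]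
      congr 1
      refine Fintype.sum_equiv (MulAut.conjNormal a : MulAut Z).toEquiv _ _ fun z => ?_
      congr 1
      refine ((congrFun hfix ⟨z, c.derived_le_B z.2⟩).symm.trans ?_)
      rw [conjChar_eq_comp]
      exact congrArg (φ : B → ℂ) (Subtype.ext (by
        show ((MulAut.conjNormal a (⟨z, c.derived_le_B z.2⟩ : B) : B) : H)
          = ((MulAut.conjNormal a z : Z) : H)
        rw [MulAut.conjNormal_apply, MulAut.conjNormal_apply]))
    rw [h0, h1, ← h0]
    exact hφ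
  obtain ⟨b, hb⟩ := exists_conj_of_constituents Z' φ.2 (isIrrCharacter_linear v')
    (isIrrCharacter_linear w') hφ hφw
  have hab : conjLin a v = conjLin (b : H) v := MonoidHom.ext fun z => Units.ext (by
    have h1 := congrFun hb (e.symm z)
    rw [conjChar_apply] at h1
    change (((conjLin a v) (e (e.symm z)) : ℂˣ) : ℂ) = _ at h1
    rw [e.apply_symm_apply] at h1
    exact h1.trans (congrArg (fun y : Z => ((v y : ℂˣ) : ℂ)) (Subtype.ext (by
      show (b : H) * (z : H) * (b : H)⁻¹ = ((MulAut.conjNormal (b : H) z : Z) : H)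
      rw [MulAut.conjNormal_apply]))))
  refine ha ((B.mul_mem_cancel_right (B.inv_mem b.2)).1 (hcon _ (hv _ ?_)))
  rw [← conjLin_conjLin, hab, conjLin_conjLin, mul_inv_cancel, conjLin_one]

/-- An element of the centraliser outside `B` acts without fixed points on `D/Z`. -/
theorem mem_derived_of_commutator (c : Crit σ l B) {a : H} (ha : a ∉ B) {x : H}
    (hx : x ∈ commutator H) (hax : ⁅a, x⁆ ∈ ⁅B, B⁆) : x ∈ ⁅B, B⁆ := by
  by_contra hxZ
  obtain ⟨v, hv, hvx⟩ := c.separates (x := ⟨x, c.comm hx⟩) hx hxZ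
  haveI := c.finite_moved'
  let f : c.moved' → c.moved' := fun w =>
    ⟨delta a w.1, c.moved'.div_mem (c.moved'_stable a _ w.2) w.2⟩
  have hf : Function.Injective f := fun p q h => by
    refine Subtype.ext (div_eq_one.1 (c.moved'_fpf a ha _ (c.moved'.div_mem p.2 q.2) ?_))
    rw [← delta_eq_one_iff, map_div, show delta a p.1 = delta a q.1 from congrArg Subtype.val h,
      div_self']
  obtain ⟨w, hw⟩ := Finite.injective_iff_surjective.1 hf ⟨v, hv⟩
  refine hvx ?_
  rw [← show delta a w.1 = v from congrArg Subtype.val hw, delta_apply, MonoidHom.div_apply,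
    div_eq_one]
  show w.1 (MulAut.conjNormal a ⟨x, c.comm hx⟩) = w.1 ⟨x, c.comm hx⟩
  rw [← mul_inv_eq_one, ← map_inv, ← map_mul]
  refine MonoidHom.mem_ker.1 (Abelianization.commutator_subset_ker w.1 ?_)
  have h1 : ((MulAut.conjNormal a ⟨x, c.comm hx⟩ * (⟨x, c.comm hx⟩ : B)⁻¹ : B) : H) ∈
      (commutator B).map B.subtype := by
    rw [Subgroup.map_subtype_commutator, Subgroup.coe_mul, Subgroup.coe_inv,
      MulAut.conjNormal_apply, ← commutatorElement_def]
    exact hax
  obtain ⟨y, hy, hye⟩ := h1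
  exact (Subtype.ext hye : y = _) ▸ hy

/-- Commutation with an element outside `B` is onto modulo `Z`. -/
theorem exists_adjust (c : Crit σ l B) {a : H} (ha : a ∉ B) {t : H} (ht : t ∈ commutator H) :
    ∃ d ∈ commutator H, ⁅a, d⁆⁻¹ * t ∈ ⁅B, B⁆ := by
  set D : Subgroup H := commutator H with hD
  let Z' : Subgroup D := (⁅B, B⁆ : Subgroup H).subgroupOf D
  let q : H →* H ⧸ (⁅B, B⁆ : Subgroup H) := QuotientGroup.mk' _
  have hc : ∀ d : D, ⁅a, (d : H)⁆ ∈ D := fun d =>
    Subgroup.commutator_mem_commutator (Subgroup.mem_top _) (Subgroup.mem_top _)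
  have hcomm : ∀ x ∈ D, ∀ y ∈ D, q x * q y = q y * q x := fun x hx y hy => by
    refine commutatorElement_eq_one_iff_mul_comm.1 ?_
    rw [← map_commutatorElement]
    exact (QuotientGroup.eq_one_iff _).2 (c.comm_D (Subgroup.commutator_mem_commutator hx hy))
  let f : D →* D ⧸ Z' :=
    { toFun := fun d => ((⟨_, hc d⟩ : D) : D ⧸ Z')
      map_one' := (QuotientGroup.eq_one_iff _).2 (by
        show ⁅a, ((1 : D) : H)⁆ ∈ (⁅B, B⁆ : Subgroup H)
        rw [OneMemClass.coe_one, commutatorElement_one_right]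
        exact one_mem _)
      map_mul' := fun d d' => by
        rw [← QuotientGroup.mk_mul]
        refine QuotientGroup.eq.2 ?_
        show ⁅a, (d : H) * d'⁆⁻¹ * (⁅a, (d : H)⁆ * ⁅a, (d' : H)⁆) ∈ (⁅B, B⁆ : Subgroup H)
        refine (QuotientGroup.eq_one_iff _).1 ?_
        show q _ = 1
        rw [show ⁅a, (d : H) * d'⁆ = ⁅a, (d : H)⁆ * ((d : H) * ⁅a, (d' : H)⁆ * (d : H)⁻¹) by
          simp only [commutatorElement_def]; group]
        simp only [map_mul, map_inv]
        rw [hcomm _ d.2 _ (hc d'), mul_inv_cancel_right, inv_mul_cancel] }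
  have hker : f.ker = Z' := by
    ext d
    rw [MonoidHom.mem_ker]
    show ((⟨_, hc d⟩ : D) : D ⧸ Z') = 1 ↔ _
    rw [QuotientGroup.eq_one_iff, Subgroup.mem_subgroupOf, Subgroup.mem_subgroupOf]
    refine ⟨fun h => c.mem_derived_of_commutator ha d.2 h, fun h => ?_⟩
    show ⁅a, (d : H)⁆ ∈ (⁅B, B⁆ : Subgroup H)
    rw [commutatorElement_def]
    exact mul_mem (Subgroup.Normal.conj_mem inferInstance _ h a) (inv_mem h)
  have hsurj : Function.Surjective f := by
    rw [← MonoidHom.range_eq_top]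
    refine Subgroup.eq_top_of_card_eq _ ?_
    rw [← Nat.card_congr (QuotientGroup.quotientKerEquivRange f).toEquiv, hker]
  obtain ⟨d, hd⟩ := hsurj ((⟨t, ht⟩ : D) : D ⧸ Z')
  have h1 : ((⟨_, hc d⟩ : D)⁻¹ * ⟨t, ht⟩ : D) ∈ Z' := QuotientGroup.eq.1 hd
  exact ⟨d, d.2, h1⟩

/-- `Z` is central in `B` and `B = D E` with `E` centralising `D`. -/
theorem exists_decomp (c : Crit σ l B) {s : ℕ} (hs : s.Prime) (hexp : ∀ z ∈ ⁅B, B⁆, z ^ s = 1)
    (hsolv : Group.IsSolvable H) :
    B ≤ Subgroup.centralizer ((⁅B, B⁆ : Subgroup H) : Set H) ∧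
      ∀ y ∈ B, ∃ d ∈ commutator H, ∀ x ∈ commutator H, ⁅x, y⁆ = ⁅x, d⁆ := by
  obtain ⟨a, haC, haB⟩ := c.exists_mem_C hs hexp hsolv
  set Z : Subgroup H := ⁅B, B⁆ with hZ
  have hDC := c.D_le_C hs hexp hsolv
  have hmemZ : ∀ x ∈ B, ∀ y ∈ B, ⁅x, y⁆ ∈ Z := fun x hx y hy =>
    Subgroup.commutator_mem_commutator hx hy
  have hzc : ∀ {x}, x ∈ Subgroup.centralizer (Z : Set H) → ∀ z ∈ Z, x * z = z * x :=
    fun hx z hz => (Subgroup.mem_centralizer_iff.1 hx z hz).symm
  have hmul : ∀ e ∈ B, ∀ d ∈ commutator H, ∀ d' ∈ commutator H,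
      ⁅e, d * d'⁆ = ⁅e, d⁆ * ⁅e, d'⁆ := fun e he d hd d' hd' => by
    rw [show ⁅e, d * d'⁆ = ⁅e, d⁆ * (d * ⁅e, d'⁆ * d⁻¹) by simp only [commutatorElement_def]; group,
      hzc (hDC hd) _ (hmemZ e he d' (c.comm hd')), mul_inv_cancel_right]
  -- elements moved into `Z` by `a`
  have hkill : ∀ e ∈ B, ⁅a, e⁆ ∈ Z → ∀ d ∈ commutator H, ⁅e, ⁅a, d⁆⁆ = 1 := by
    intro e he hae d hd
    have hd' : a * d * a⁻¹ ∈ commutator H := Subgroup.Normal.conj_mem inferInstance d hd a
    have h1 : a⁻¹ * e * a * e⁻¹ ∈ Z := by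
      rw [show a⁻¹ * e * a * e⁻¹ = a⁻¹ * ⁅a, e⁆⁻¹ * a by simp only [commutatorElement_def]; group]
      simpa using Subgroup.Normal.conj_mem inferInstance _ (inv_mem hae) a⁻¹
    have h2 : ⁅e, a * d * a⁻¹⁆ = ⁅e, d⁆ := by
      have h3 : a * ⁅e, d⁆ = ⁅e, d⁆ * a := hzc haC _ (hmemZ e he d (c.comm hd))
      set z := a⁻¹ * e * a * e⁻¹ with hz
      have hze : ⁅z * e, d⁆ = ⁅e, d⁆ := by
        rw [show ⁅z * e, d⁆ = z * ⁅e, d⁆ * z⁻¹ * ⁅z, d⁆ by simp only [commutatorElement_def]; group,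
          commutatorElement_eq_one_iff_mul_comm.2 (hzc (hDC hd) z h1).symm, mul_one,
          c.derived_comm hsolv z h1 _ (hmemZ e he d (c.comm hd)), mul_inv_cancel_right]
      rw [show ⁅e, a * d * a⁻¹⁆ = a * ⁅z * e, d⁆ * a⁻¹ by
        simp only [hz, commutatorElement_def]; group, hze, h3, mul_inv_cancel_right]
    have hcd : ⁅a, d⁆ ∈ commutator H :=
      Subgroup.commutator_mem_commutator (Subgroup.mem_top _) (Subgroup.mem_top _)
    have h4 := hmul e he _ hcd d hd
    rw [show ⁅a, d⁆ * d = a * d * a⁻¹ by rw [commutatorElement_def]; group, h2] at h4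
    exact mul_eq_right.1 h4.symm
  have hE : ∀ e ∈ B, ⁅a, e⁆ ∈ Z → e ∈ Subgroup.centralizer (Z : Set H) := by
    intro e he hae
    obtain ⟨d₁, hd₁, hd₁Z⟩ : ∃ d ∈ commutator H, d ∉ Z := by
      by_contra hcon
      push Not at hcon
      exact c.commutator_not_le hcon
    set x := ⁅a, d₁⁆ with hx
    have hxD : x ∈ commutator H :=
      Subgroup.commutator_mem_commutator (Subgroup.mem_top _) (Subgroup.mem_top _)
    have hxZ : x ∉ Z := fun h => hd₁Z (c.mem_derived_of_commutator haB hd₁ h)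
    have hxe : x * e = e * x :=
      (commutatorElement_eq_one_iff_mul_comm.1 (hkill e he hae d₁ hd₁)).symm
    let R : Subgroup H := Z ⊓ Subgroup.centralizer ({e} : Set H)
    have hR : ∀ b ∈ B, ∀ z ∈ R, b * z * b⁻¹ ∈ R := by
      intro b hb z ⟨hz, hze⟩
      have hz' : b * z * b⁻¹ ∈ Z := Subgroup.Normal.conj_mem inferInstance z hz b
      refine ⟨hz', Subgroup.mem_centralizer_singleton_iff.2 ?_⟩
      have h1 := Subgroup.mem_centralizer_singleton_iff.1 hze
      have h2 : b * e * b⁻¹ = ⁅b, e⁆ * e := by rw [commutatorElement_def]; group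
      have h3 : b * z * b⁻¹ * (b * e * b⁻¹) = b * e * b⁻¹ * (b * z * b⁻¹) := by
        rw [show b * z * b⁻¹ * (b * e * b⁻¹) = b * (z * e) * b⁻¹ by group, h1]; group
      rw [h2] at h3
      have h4 := c.derived_comm hsolv _ hz' _ (hmemZ b hb e he)
      exact mul_left_cancel (calc ⁅b, e⁆ * (b * z * b⁻¹ * e)
          = b * z * b⁻¹ * (⁅b, e⁆ * e) := by rw [← mul_assoc, ← h4, mul_assoc]
        _ = ⁅b, e⁆ * e * (b * z * b⁻¹) := h3
        _ = ⁅b, e⁆ * (e * (b * z * b⁻¹)) := mul_assoc _ _ _)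
    have hall : ∀ y ∈ B, ⁅x, y⁆ ∈ R := by
      intro y hy
      refine ⟨hmemZ x (c.comm hxD) y hy, Subgroup.mem_centralizer_singleton_iff.2 ?_⟩
      have hz : y⁻¹ * e * y * e⁻¹ ∈ Z := by
        have := hmemZ y⁻¹ (B.inv_mem hy) e he
        rwa [commutatorElement_def, inv_inv] at this
      set z := y⁻¹ * e * y * e⁻¹ with hzd
      have h1 : e * ⁅x, y⁆ * e⁻¹ = ⁅x, y * z⁆ := by
        rw [show e * ⁅x, y⁆ * e⁻¹ = ⁅e * x * e⁻¹, e * y * e⁻¹⁆ by
          simp only [commutatorElement_def]; group,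
          show e * x * e⁻¹ = x by rw [← hxe, mul_inv_cancel_right],
          show e * y * e⁻¹ = y * z by rw [hzd]; group]
      rw [show ⁅x, y * z⁆ = ⁅x, y⁆ * (y * ⁅x, z⁆ * y⁻¹) by simp only [commutatorElement_def]; group,
        commutatorElement_eq_one_iff_mul_comm.2 (hzc (hDC hxD) z hz), mul_one, mul_inv_cancel,
        mul_one, mul_inv_eq_iff_eq_mul] at h1
      exact h1.symm
    have h5 := c.derived_le_of_commutators hxD hxZ R hR hall
    exact Subgroup.mem_centralizer_iff.2 fun z hz =>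
      Subgroup.mem_centralizer_singleton_iff.1 (h5 hz).2
  have hsplit : ∀ y ∈ B, ∃ d ∈ commutator H, d⁻¹ * y ∈ B ∧ ⁅a, d⁻¹ * y⁆ ∈ Z := by
    intro y hy
    obtain ⟨d, hd, hdz⟩ := c.exists_adjust haB (t := ⁅a, y⁆)
      (Subgroup.commutator_mem_commutator (Subgroup.mem_top _) (Subgroup.mem_top _))
    refine ⟨d, hd, B.mul_mem (B.inv_mem (c.comm hd)) hy, ?_⟩
    rw [show ⁅a, d⁻¹ * y⁆ = d⁻¹ * (⁅a, d⁆⁻¹ * ⁅a, y⁆) * d⁻¹⁻¹ by
      simp only [commutatorElement_def]; group]
    exact Subgroup.Normal.conj_mem inferInstance _ hdz d⁻¹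
  have hBC : B ≤ Subgroup.centralizer (Z : Set H) := fun y hy => by
    obtain ⟨d, hd, he, hae⟩ := hsplit y hy
    rw [show y = d * (d⁻¹ * y) by group]
    exact mul_mem (hDC hd) (hE _ he hae)
  refine ⟨hBC, fun y hy => ?_⟩
  obtain ⟨d, hd, he, hae⟩ := hsplit y hy
  refine ⟨d, hd, fun x hx => ?_⟩
  set e := d⁻¹ * y with hed
  have hye : y = d * e := by rw [hed]; group
  obtain ⟨d', hd', hz⟩ := c.exists_adjust haB hx
  have hex : ⁅e, x⁆ = 1 := by
    rw [show x = ⁅a, d'⁆ * (⁅a, d'⁆⁻¹ * x) by group, hmul e he _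
      (Subgroup.commutator_mem_commutator (Subgroup.mem_top _) (Subgroup.mem_top _)) _
      (c.derived_le hz), hkill e he hae d' hd', one_mul]
    exact commutatorElement_eq_one_iff_mul_comm.2 (hzc (hE e he hae) _ hz)
  rw [hye, show ⁅x, d * e⁆ = ⁅x, d⁆ * (d * ⁅x, e⁆ * d⁻¹) by
    simp only [commutatorElement_def]; group,
    commutatorElement_eq_one_iff_mul_comm.2 (commutatorElement_eq_one_iff_mul_comm.1 hex).symm,
    mul_one, mul_inv_cancel, mul_one]

end Crit

end CfsgLib.ZerosCodegree.Nondiv
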