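import Cfsg.Agent.Lib.ZerosCodegree.NondivisibilityLayers

/-!
# Degree sets without divisibility: the central case

With a central complement the derived subgroup has class at most three, so there are at most four
degrees and the third derived subgroup is trivial.
-/

set_option autoImplicit false
set_option linter.style.haveILetI false
set_option linter.unusedSectionVars false
set_option maxSynthPendingDepth 4

open scoped commutatorElement

namespace CfsgLib.ZerosCodegree.Nondiv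

open Cfsg CfsgLib.CharTheory CfsgLib.Clifford CfsgLib.ZerosCodegree.RelGraph
open CfsgLib.ZerosCodegree.CyclicClifford

universe u

variable {G : Type u} [Group G] [Fintype G] {K L : Subgroup G} {r : ℕ} [L.Normal] [Fintype L]
  {a : G} {D C Y Y₀ : Subgroup G}

namespace Comp

/-- A character trivial on the bottom of a layer lies over a linear character of the layer. -/
theorem exists_lin_of_above (hl : Layer L D C Y Y₀) (θ : IrrCharacter L)
    (h0 : ∀ w : L, (w : G) ∈ Y₀ → (θ : L → ℂ) w = (θ : L → ℂ) 1) :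
    ∃ v ∈ linTriv Y Y₀, Above Y (layer_le hl) θ v := by
  have hY := layer_le hl
  have hsc : ∀ w : Y, ∃ s : ℂ, ‖s‖ = 1 ∧
      ∀ g, (θ : L → ℂ) ((⟨w, hY w.2⟩ : L) * g) = s * (θ : L → ℂ) g := fun w =>
    exists_scalar_of_commutator fun y => h0 _ (hl.central _ w.2 _ y.2)
  choose s hs1 hs using hsc
  have hone := apply_one_ne_zero_of_isIrr θ.2
  have hne : ∀ w, s w ≠ 0 := fun w h => by simpa [h] using hs1 w
  have hmul : ∀ w w' : Y, s (w * w') = s w * s w' := fun w w' => by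
    refine mul_right_cancel₀ hone ?_
    rw [← hs, show (⟨((w * w' : Y) : G), hY (w * w').2⟩ : L) * 1 =
      (⟨w, hY w.2⟩ : L) * ((⟨w', hY w'.2⟩ : L) * 1) from
      Subtype.ext (by simp [Subgroup.coe_mul]), hs, hs, mul_assoc]
  refine ⟨MonoidHom.mk' (fun w => Units.mk0 (s w) (hne w)) fun w w' => Units.ext (hmul w w'),
    fun w hw => Units.ext (mul_right_cancel₀ hone ?_), fun w g => hs w g⟩
  show s w * _ = 1 * _
  rw [one_mul, ← hs, mul_one]
  exact h0 _ hw

theorem central_bounded (c : Comp K L r) (hr : r ∣ Nat.card (⁅L, L⁆ : Subgroup G))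
    (hcen : ∀ x ∈ L, (orderOf x).Coprime r → x ∈ Subgroup.center G) : Bounded G := by
  classical
  haveI := Fact.mk c.frob.prime
  obtain ⟨a, D, C, cd⟩ := c.exists_caminaData hr hcen
  have hp := cd.isPGroup
  have hcam := cd.camina
  have h4 := Camina.g4_eq_bot hp hcam
  haveI hDn : D.Normal := by rw [← cd.eq_derived]; infer_instance
  set E : Subgroup G := ⁅⁅D, D⁆, D⁆ with hE
  have hmap2 : (commutator ↥D).map D.subtype = ⁅D, D⁆ := Subgroup.map_subtype_commutator D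
  have hmap3 : (Camina.g3 ↥D).map D.subtype = E := by
    rw [Subgroup.map_commutator, hmap2, ← MonoidHom.range_eq_map, Subgroup.range_subtype]
  have hmap4 : ⁅E, D⁆ = (⊥ : Subgroup G) := by
    have h : (Camina.g4 ↥D).map D.subtype = ⁅E, D⁆ := by
      rw [Subgroup.map_commutator, hmap3, ← MonoidHom.range_eq_map, Subgroup.range_subtype]
    rw [← h, h4, Subgroup.map_bot]
  have hD''' : ⁅⁅D, D⁆, ⁅D, D⁆⁆ = (⊥ : Subgroup G) := by
    rw [← hmap2, ← Subgroup.map_commutator, show ⁅commutator ↥D, commutator ↥D⁆ = (⊥ : Subgroup ↥D)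
      from le_bot_iff.1 (Camina.comm_g2_g2.trans h4.le), Subgroup.map_bot]
  refine ⟨?_, ?_⟩
  swap
  · rw [derivedSeries_succ, derivedSeries_succ, derivedSeries_one, cd.eq_derived, hD''']
  have hEd : E ≤ ⁅L, L⁆ := by
    rw [← cd.derived]
    exact Subgroup.commutator_le_left _ _
  have hdD : ⁅L, L⁆ ≤ D := by rw [← cd.derived]; exact Subgroup.commutator_le_self D
  have hcommD : ∀ w ∈ D, ∀ l ∈ L, ∃ d ∈ D, ⁅w, l⁆ = ⁅w, d⁆ := by
    intro w hw l hl
    obtain ⟨d, hd, z, hz, rfl⟩ := cd.decomp l hl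
    refine ⟨d, hd, ?_⟩
    rw [show ⁅w, d * z⁆ = ⁅w, d⁆ * (d * ⁅w, z⁆ * d⁻¹) by simp only [commutatorElement_def]; group,
      show ⁅w, z⁆ = 1 from commutatorElement_eq_one_iff_mul_comm.2 (cd.comm w hw z hz), mul_one,
      mul_inv_cancel, mul_one]
  -- the layer below the derived subgroup
  have hl₁ : Layer L D C ⁅L, L⁆ E := by
    refine ⟨inferInstance, inferInstance, le_rfl, fun w hw l hl => ?_, fun x hx y hy =>
      Subgroup.commutator_mem_commutator (cd.le hx) (cd.le hy), fun v _ hv1 d hd hdY => ?_⟩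
    · obtain ⟨d, hd, e⟩ := hcommD w (hdD hw) l hl
      rw [e]
      exact Subgroup.commutator_mem_commutator (cd.derived.ge hw) hd
    · obtain ⟨w, hw⟩ : ∃ w, v w ≠ 1 := by
        by_contra hcon
        push Not at hcon
        exact hv1 (MonoidHom.ext hcon)
      have hwD : (w : G) ∈ D := hdD w.2
      obtain ⟨y, hy⟩ := hcam ⟨d, hd⟩ (fun h => hdY (cd.derived.le (mem_commutator_subtype.1 h)))
        ⟨w, hwD⟩ (mem_commutator_subtype.2 (cd.derived.ge w.2))
      have hy' : ⁅d, (y : G)⁆ = w := congrArg Subtype.val hy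
      refine ⟨y, y.2, hy' ▸ w.2, ?_⟩
      convert hw
  -- the bottom layer
  have hl₂ : E ≠ ⊥ → Layer L D C E ⊥ := fun hEne => by
    have hrad : ∀ v ∈ linTriv E (⊥ : Subgroup G), v ≠ 1 → ∀ d ∈ ⁅D, D⁆, d ∉ E →
        ∃ y ∈ D, ∃ h : ⁅d, y⁆ ∈ E, v ⟨⁅d, y⁆, h⟩ ≠ 1 := by
      intro v _ hv1 d hd hdE
      by_contra hcon
      push Not at hcon
      let M : Subgroup ↥D :=
        { carrier := {x | ∃ h : (x : G) ∈ E, v ⟨x, h⟩ = 1}
          one_mem' := ⟨E.one_mem, map_one v⟩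
          mul_mem' := fun {p q} ⟨hp, hp'⟩ ⟨hq, hq'⟩ => ⟨E.mul_mem hp hq, by
            rw [show (⟨((p * q : ↥D) : G), _⟩ : E) = ⟨p, hp⟩ * ⟨q, hq⟩ from rfl, map_mul, hp', hq',
              one_mul]⟩
          inv_mem' := fun {p} ⟨hp, hp'⟩ => ⟨E.inv_mem hp, by
            rw [show (⟨((p⁻¹ : ↥D) : G), _⟩ : E) = (⟨p, hp⟩ : E)⁻¹ from rfl, map_inv, hp', inv_one]⟩ }
      have hmem3 : ∀ {x : ↥D}, x ∈ Camina.g3 ↥D ↔ (x : G) ∈ E := fun {x} => by
        rw [← hmap3]; exact (Subgroup.mem_map_iff_mem D.subtype_injective).symm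
      have hle : M ≤ Camina.g3 ↥D := fun x ⟨h, _⟩ => hmem3.2 h
      have hne : ¬ Camina.g3 ↥D ≤ M := fun h => hv1 (MonoidHom.ext fun w => by
        obtain ⟨hx, hw⟩ := h ((hmem3 (x := ⟨w, hdD (hEd w.2)⟩)).2 w.2)
        exact hw)
      have hcm : ⁅Camina.g3 ↥D, (⊤ : Subgroup ↥D)⁆ ≤ M := h4.le.trans bot_le
      obtain ⟨χ, hχ⟩ := Camina.exists_fun (r := r) hp hle hne hcm
      have hχ' : Camina.Fun (Camina.g3 ↥D) (Camina.g4 ↥D) χ :=
        ⟨hχ.normal, le_rfl, hχ.add, fun x hx => hχ.ker x (hcm hx), hχ.ne⟩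
      have hdmem : (⟨d, hdD (cd.derived.le hd)⟩ : ↥D) ∈ commutator ↥D :=
        mem_commutator_subtype.2 hd
      refine hdE (hmem3.1 ((Camina.centralizerData hp hcam hχ').rad ⟨d, hdD (cd.derived.le hd)⟩
        hdmem fun t => ?_))
      have hmem : ⁅d, (t : G)⁆ ∈ E := Subgroup.commutator_mem_commutator hd t.2
      exact hχ.ker _ ⟨hmem, hcon t t.2 hmem⟩
    refine ⟨inferInstance, inferInstance, hEd, fun w hw l hl => ?_, fun x hx y hy => ?_,
      fun v hv hv1 d hd hdY => ?_⟩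
    · obtain ⟨d, hd, e⟩ := hcommD w (hdD (hEd hw)) l hl
      rw [e, ← hmap4]
      exact Subgroup.commutator_mem_commutator hw hd
    · have hxy : ⁅x, y⁆ ∈ ⁅D, D⁆ :=
        cd.derived.ge (Subgroup.commutator_mem_commutator (cd.le hx) (cd.le hy))
      haveI : Fintype E := Fintype.ofFinite _
      by_contra hout
      obtain ⟨⟨w, hwE⟩, hw1'⟩ := Subgroup.ne_bot_iff_exists_ne_one.1 hEne
      have hw1 : w ≠ 1 := fun h => hw1' (Subtype.ext h)
      obtain ⟨v, hv, hvw⟩ := separates_linTriv (N := E) (M := ⊥) (by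
        rw [← hmap4]
        exact Subgroup.commutator_mono le_rfl ((hEd.trans hdD))) (x := ⟨w, hwE⟩)
        (fun h => hw1 (Subgroup.mem_bot.1 h))
      obtain ⟨t, ht, hmem, hne⟩ := hrad v hv (fun h => hvw (by rw [h]; rfl)) _ hxy hout
      refine hne ?_
      have h1 : ⁅⁅x, y⁆, t⁆ = 1 := commutatorElement_eq_one_iff_mul_comm.2 (cd.comm t ht _ (by
        rw [commutatorElement_def]
        exact mul_mem (mul_mem (mul_mem hx hy) (inv_mem hx)) (inv_mem hy))).symm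
      rw [show (⟨⁅⁅x, y⁆, t⁆, hmem⟩ : E) = 1 from Subtype.ext h1, map_one]
    · by_cases hd2 : d ∈ ⁅D, D⁆
      · exact hrad v hv hv1 d hd2 hdY
      obtain ⟨w, hw⟩ : ∃ w, v w ≠ 1 := by
        by_contra hcon
        push Not at hcon
        exact hv1 (MonoidHom.ext hcon)
      obtain ⟨y, hy⟩ := hcam ⟨d, hd⟩ (fun h => hd2 (mem_commutator_subtype.1 h))
        ⟨w, hdD (hEd w.2)⟩ (mem_commutator_subtype.2 (cd.derived.ge (hEd w.2)))
      have hy' : ⁅d, (y : G)⁆ = w := congrArg Subtype.val hy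
      refine ⟨y, y.2, hy' ▸ w.2, ?_⟩
      convert hw
  -- classification
  haveI : Fintype (⁅L, L⁆ : Subgroup G) := Fintype.ofFinite _
  haveI : Fintype E := Fintype.ofFinite _
  let T₁ : Set ℕ := {d | ∃ (χ : IrrCharacter G) (θ : IrrCharacter L) (v : (⁅L, L⁆ : Subgroup G) →* ℂˣ),
    charDegree (χ : G → ℂ) = d ∧ Over L χ θ ∧ v ∈ linTriv ⁅L, L⁆ E ∧ v ≠ 1 ∧
      Above ⁅L, L⁆ (layer_le hl₁) θ v}
  let T₂ : Set ℕ := {d | ∃ (h : E ≠ ⊥) (χ : IrrCharacter G) (θ : IrrCharacter L) (v : E →* ℂˣ),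
    charDegree (χ : G → ℂ) = d ∧ Over L χ θ ∧ v ∈ linTriv E ⊥ ∧ v ≠ 1 ∧
      Above E (layer_le (hl₂ h)) θ v}
  have hT₁ : T₁.Subsingleton := by
    rintro d ⟨χ, θ, v, rfl, hχ, hv, hv1, hθ⟩ d' ⟨χ', θ', v', rfl, hχ', hv', hv1', hθ'⟩
    exact layer_degrees_eq c hcen hl₁ cd hv hv1 hθ hχ hv' hv1' hθ' hχ'
  have hT₂ : T₂.Subsingleton := by
    rintro d ⟨h, χ, θ, v, rfl, hχ, hv, hv1, hθ⟩ d' ⟨_, χ', θ', v', rfl, hχ', hv', hv1', hθ'⟩
    exact layer_degrees_eq c hcen (hl₂ h) cd hv hv1 hθ hχ hv' hv1' hθ' hχ'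
  have hsub : charDegrees G ⊆ ({1, L.index} : Set ℕ) ∪ (T₁ ∪ T₂) := by
    rintro _ ⟨χ, rfl⟩
    obtain ⟨θ, hθ⟩ := CfsgLib.CharTheory.exists_constituent L (IsIrrCharacter.isCharacter χ.2)
      (apply_one_ne_zero_of_isIrr χ.2)
    by_cases hθ1 : charDegree (θ : L → ℂ) = 1
    · exact Or.inl (frob_linear c.antichain c.frob c.index_mem hθ hθ1)
    right
    by_cases hEθ : ∀ w : L, (w : G) ∈ E → (θ : L → ℂ) w = (θ : L → ℂ) 1
    · left
      obtain ⟨v, hv, hθv⟩ := exists_lin_of_above hl₁ θ hEθ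
      refine ⟨χ, θ, v, rfl, hθ, hv, fun hv1 => hθ1 ?_, hθv⟩
      refine degree_eq ?_
      rw [CfsgLib.CyclicTI.apply_one_eq_one_of_commutator θ.2 fun x hx => ?_, Nat.cast_one]
      have h := above_apply _ hθv ⟨x, mem_derived_iff.2 hx⟩
      rw [hv1, MonoidHom.one_apply, Units.val_one, one_mul] at h
      exact h
    · right
      push Not at hEθ
      obtain ⟨w, hwE, hwne⟩ := hEθ
      have hEne : E ≠ ⊥ := fun h => hwne (by
        rw [show w = 1 from Subtype.ext (Subgroup.mem_bot.1 (h ▸ hwE))])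
      obtain ⟨v, hv, hθv⟩ := exists_lin_of_above (hl₂ hEne) θ fun x hx => by
        rw [show x = 1 from Subtype.ext (Subgroup.mem_bot.1 hx)]
      refine ⟨hEne, χ, θ, v, rfl, hθ, hv, fun hv1 => hwne ?_, hθv⟩
      have h := above_apply _ hθv ⟨w, hwE⟩
      rw [hv1, MonoidHom.one_apply, Units.val_one, one_mul] at h
      exact h
  have hf₁ : T₁.Finite := hT₁.finite
  have hf₂ : T₂.Finite := hT₂.finite
  have h1 : ({1, L.index} : Set ℕ).ncard ≤ 2 :=
    (Set.ncard_insert_le _ _).trans (by rw [Set.ncard_singleton])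
  haveI := hf₁.to_subtype
  haveI := hf₂.to_subtype
  have h2 := (Set.ncard_le_one_iff_subsingleton (s := T₁)).2 hT₁
  have h3 := (Set.ncard_le_one_iff_subsingleton (s := T₂)).2 hT₂
  have h4' := Set.ncard_le_ncard hsub (((Set.toFinite _).union (hf₁.union hf₂)))
  have h5 := Set.ncard_union_le ({1, L.index} : Set ℕ) (T₁ ∪ T₂)
  have h6 := Set.ncard_union_le T₁ T₂
  rw [Nat.card_coe_set_eq]
  omega

end Comp

end CfsgLib.ZerosCodegree.Nondiv
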