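import Cfsg.Agent.Lib.ZerosCodegree.NondivisibilityCount

/-!
# All non-linear degrees are equal

If an automorphism of `l`-power order fixes all non-linear irreducible characters of a solvable
group, moves some element modulo the derived subgroup, and the non-linear degrees are prime to `l`
and form an antichain for divisibility, then these degrees are all equal.
-/

set_option autoImplicit false
set_option linter.style.haveILetI false
set_option linter.unusedSectionVars false
set_option maxSynthPendingDepth 4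

open scoped commutatorElement

namespace CfsgLib.ZerosCodegree.Nondiv

open Cfsg CfsgLib.CharTheory CfsgLib.Clifford CfsgLib.ZerosCodegree.RelGraph
open CfsgLib.ZerosCodegree.CyclicClifford

universe u

variable {H : Type u} [Group H] [Fintype H]

/-- Characters induced from a normal subgroup vanish off it. -/
theorem indFun_eq_zero (N : Subgroup H) [N.Normal] (ψ : N → ℂ) {x : H} (hx : x ∉ N) :
    indFun N ψ x = 0 := by
  rw [indFun]
  convert mul_zero _
  refine Finset.sum_eq_zero fun y _ => CfsgLib.Frobenius.extendByZero_of_not_mem N ψ fun h => hx ?_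
  have h1 := Subgroup.Normal.conj_mem inferInstance _ h y
  rwa [show y * (y⁻¹ * x * y) * y⁻¹ = x by group] at h1

/-- A Frobenius quotient has a character of degree its complement, vanishing off the kernel. -/
theorem exists_frob_char {K L : Subgroup H} {r : ℕ} (hF : FrobQuot K L r) :
    ∃ β : IrrCharacter H, (∀ k ∈ K, (β : H → ℂ) k = (β : H → ℂ) 1) ∧
      charDegree (β : H → ℂ) = L.index ∧ ∀ x, x ∉ L → (β : H → ℂ) x = 0 := by
  classical
  haveI := hF.normalK
  haveI := hF.normalL
  let q := QuotientGroup.mk' K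
  have hq : Function.Surjective q := QuotientGroup.mk'_surjective K
  haveI : Fintype (H ⧸ K) := Fintype.ofFinite _
  set N : Subgroup (H ⧸ K) := L.map q with hN
  haveI : N.Normal := Subgroup.Normal.map hF.normalL q hq
  haveI : Fintype N := Fintype.ofFinite _
  have hmem : ∀ x, q x ∈ N ↔ x ∈ L := fun x => by
    rw [hN, ← Subgroup.mem_comap, Subgroup.comap_map_eq, QuotientGroup.ker_mk',
      sup_eq_left.2 hF.le]
  have hab : ∀ a b : N, a * b = b * a := by
    rintro ⟨_, a, ha, rfl⟩ ⟨_, b, hb, rfl⟩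
    refine Subtype.ext (commutatorElement_eq_one_iff_mul_comm.1 ?_)
    rw [← map_commutatorElement]
    exact (QuotientGroup.eq_one_iff _).2 (hF.Lcomm (Subgroup.commutator_mem_commutator ha hb))
  have hcyc : IsCyclic ((H ⧸ K) ⧸ N) := by
    obtain ⟨g, hg⟩ := hF.cyc
    refine isCyclic_quotient ⟨q g, fun x => ?_⟩
    obtain ⟨x, rfl⟩ := hq x
    obtain ⟨n, hn⟩ := hg x
    exact ⟨n, by rw [← map_pow, ← map_inv, ← map_mul]; exact (hmem _).2 hn⟩
  have hne : ¬ commutator H ≤ K := fun h => hF.notLE (hF.derived.trans (sup_le h le_rfl))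
  obtain ⟨β, hβK, hβ1⟩ := exists_nonlinear_of_not_le K hne
  obtain ⟨γ, hγ, hγe⟩ := exists_descend β.2 K hβK
  have hγ1 : charDegree γ = charDegree (β : H → ℂ) := (degree_eq (χ := β) (d := charDegree γ) (by
    rw [hγe]
    exact apply_one (⟨γ, hγ⟩ : IrrCharacter (H ⧸ K)))).symm
  obtain ⟨θ, hθ⟩ := CfsgLib.CharTheory.exists_constituent N (IsIrrCharacter.isCharacter hγ)
    (apply_one_ne_zero_of_isIrr hγ)
  have hθ1 := apply_one_eq_one_of_comm hab θ.2
  obtain ⟨v, hv⟩ := exists_linFun_of_isCharacter (IsIrrCharacter.isCharacter θ.2) hθ1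
  rw [hv] at hθ
  have hover : Over N (⟨γ, hγ⟩ : IrrCharacter (H ⧸ K)) (linIrr N v) := hθ
  have hd := degree_over hcyc hover
  rw [charDegree_linIrr, mul_one] at hd
  change charDegree γ = (inertia N (linFun v)).index at hd
  -- the inertia group is `N`
  have hT : inertia N (linFun v) = N := by
    refine le_antisymm (fun a ha => ?_)
      (le_inertia N (IsIrrCharacter.isClassFunction (isIrrCharacter_linear v)))
    by_contra haN
    obtain ⟨a, rfl⟩ := hq a
    let δ : N →* N :=
      { toFun := fun n => MulAut.conjNormal (q a) n * n⁻¹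
        map_one' := by rw [map_one, inv_one, mul_one]
        map_mul' := fun m n => by
          rw [map_mul, mul_inv_rev, hab n⁻¹ m⁻¹]
          rw [mul_assoc, ← mul_assoc (MulAut.conjNormal (q a) n), hab _ m⁻¹, mul_assoc, ← mul_assoc] }
    have hδ : Function.Injective δ := by
      rw [← MonoidHom.ker_eq_bot_iff, eq_bot_iff]
      rintro ⟨_, x, hx, rfl⟩ hn
      refine Subgroup.mem_bot.2 (Subtype.ext ((QuotientGroup.eq_one_iff x).2 ?_))
      refine hF.fpf a (fun h => haN ((hmem a).2 h)) x hx ((QuotientGroup.eq_one_iff _).1 ?_)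
      have h := congrArg Subtype.val (MonoidHom.mem_ker.1 hn)
      change ((MulAut.conjNormal (q a) (⟨q x, x, hx, rfl⟩ : N) : N) : H ⧸ K) * (q x)⁻¹ = 1 at h
      rw [MulAut.conjNormal_apply, ← commutatorElement_def, ← map_commutatorElement] at h
      exact h
    have hv1 : v = 1 := MonoidHom.ext fun n => by
      obtain ⟨m, rfl⟩ := Finite.injective_iff_surjective.1 hδ n
      show v (MulAut.conjNormal (q a) m * m⁻¹) = 1
      rw [map_mul, map_inv, mul_inv_eq_one]
      exact DFunLike.congr_fun (conjLin_eq_self_iff.2 ha : conjLin (q a) v = v) m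
    have htop : inertia N (linFun v) = ⊤ := eq_top_iff.2 fun b _ =>
      conjLin_eq_self_iff.1 (by rw [hv1, map_one])
    rw [htop, Subgroup.index_top, hγ1] at hd
    omega
  rw [hT, hN, Subgroup.index_map_eq _ hq ((QuotientGroup.ker_mk' K).le.trans hF.le), hγ1] at hd
  refine ⟨β, hβK, hd, fun x hx => ?_⟩
  haveI : Fintype (inertia N (linFun v)) := Fintype.ofFinite _
  haveI : (inertia N (linFun v)).Normal := by rw [hT]; infer_instance
  obtain ⟨ψ, -, hind, -⟩ :=
    exists_extension_inertia (θ := linFun v) hcyc hγ (isIrrCharacter_linear v) hθ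
  rw [hγe]
  show γ (q x) = 0
  exact (congrFun hind (q x)).symm.trans
    (indFun_eq_zero _ _ fun h => hx ((hmem x).1 (hT.le h)))

/-- A setup passes to quotients by stable normal subgroups inside the derived subgroup. -/
theorem Setup.quotient {σ : MulAut H} {l : ℕ} (h : Setup σ l) (Y : Subgroup H) [Y.Normal]
    (hY : Y.map σ.toMonoidHom = Y) (hYD : Y ≤ commutator H) :
    Setup (QuotientGroup.congr Y Y σ hY) l := by
  set τ : MulAut (H ⧸ Y) := QuotientGroup.congr Y Y σ hY with hτ
  let q := QuotientGroup.mk' Y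
  have hq : Function.Surjective q := QuotientGroup.mk'_surjective Y
  have hτq : ∀ x, τ (q x) = q (σ x) := fun x => rfl
  have hpow : ∀ k x, (τ ^ k) (q x) = q ((σ ^ k) x) := by
    intro k
    induction k with
    | zero => intro x; rfl
    | succ k ih => intro x; rw [pow_succ', pow_succ', MulAut.mul_apply, MulAut.mul_apply, ih, hτq]
  have hinfl : ∀ θ : IrrCharacter (H ⧸ Y), ∃ χ : IrrCharacter H,
      (∀ x, (χ : H → ℂ) x = (θ : H ⧸ Y → ℂ) (q x)) ∧
      charDegree (χ : H → ℂ) = charDegree (θ : H ⧸ Y → ℂ) := fun θ => by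
    refine ⟨⟨_, isIrrCharacter_comp θ.2 hq⟩, fun x => rfl, degree_eq ?_⟩
    show (θ : H ⧸ Y → ℂ) (q 1) = _
    rw [map_one, apply_one]
  refine ⟨h.prime, ?_, fun θ hθ y => ?_, fun θ hθ => ?_, fun a ha b hb => ?_, ?_⟩
  · obtain ⟨k, hk⟩ := h.pow
    refine ⟨k, MulEquiv.ext fun y => ?_⟩
    obtain ⟨x, rfl⟩ := hq y
    rw [hpow, hk, MulAut.one_apply, MulAut.one_apply]
  · obtain ⟨χ, hχ, hd⟩ := hinfl θ
    obtain ⟨x, rfl⟩ := hq y
    rw [hτq, ← hχ, ← hχ]
    exact h.inv χ (hd ▸ hθ) x
  · obtain ⟨χ, hχ, hd⟩ := hinfl θ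
    exact hd ▸ h.cop χ (hd ▸ hθ)
  · obtain ⟨θ, rfl⟩ := ha
    obtain ⟨θ', rfl⟩ := hb
    obtain ⟨χ, -, hd⟩ := hinfl θ
    obtain ⟨χ', -, hd'⟩ := hinfl θ'
    rw [← hd, ← hd']
    exact h.antichain _ (mem_degrees χ) _ (mem_degrees χ')
  · obtain ⟨x, hx⟩ := h.moved
    refine ⟨q x, fun hc => hx ?_⟩
    rw [hτq, ← map_inv, ← map_mul, commutator_def, ← Subgroup.map_top_of_surjective q hq,
      ← Subgroup.map_commutator, ← Subgroup.mem_comap, Subgroup.comap_map_eq,
      QuotientGroup.ker_mk', ← commutator_def, sup_eq_left.2 hYD] at hc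
    exact hc

/-- All non-linear degrees are equal. -/
theorem Setup.degrees_eq {σ : MulAut H} {l : ℕ} (h : Setup σ l) (hsolv : Group.IsSolvable H)
    (θ θ' : IrrCharacter H) (hθ : charDegree (θ : H → ℂ) ≠ 1)
    (hθ' : charDegree (θ' : H → ℂ) ≠ 1) :
    charDegree (θ : H → ℂ) = charDegree (θ' : H → ℂ) := by
  classical
  have hne : commutator H ≠ ⊥ := fun h0 => hθ (degree_eq (by
    rw [CfsgLib.CyclicTI.apply_one_eq_one_of_commutator θ.2 fun a ha => by
      rw [h0, Subgroup.mem_bot] at ha; rw [ha], Nat.cast_one]))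
  rcases exists_pQuot_or_frobQuot hsolv hne with ⟨K, p, hP⟩ | ⟨K, L, r, hF⟩
  · exact eq_of_pQuot h.antichain hP θ θ' hθ hθ'
  haveI := hF.normalK
  haveI := hF.normalL
  haveI : Fintype L := Fintype.ofFinite _
  obtain ⟨β, hβK, hβd, hβ0⟩ := exists_frob_char hF
  have hβ1 : charDegree (β : H → ℂ) ≠ 1 := by rw [hβd]; exact hF.one_lt.ne'
  obtain ⟨K₀, hK₀n, hK₀, -⟩ := exists_kernel (IsIrrCharacter.isCharacter β.2)
  have hK₀0 : ∀ x ∈ K₀, (β : H → ℂ) x ≠ 0 := fun x hx => by
    rw [(hK₀ x).1 hx]; exact apply_one_ne_zero_of_isIrr β.2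
  have hL : L = commutator H ⊔ K₀ := le_antisymm
    (hF.derived.trans (sup_le le_sup_left fun k hk => Subgroup.mem_sup_right ((hK₀ k).2 (hβK k hk))))
    (sup_le hF.comm fun x hx => Classical.byContradiction fun hxL => hK₀0 x hx (hβ0 x hxL))
  have hLs : Stable σ L := by
    rw [hL]
    exact Stable.sup (fun x hx => mem_commutator_of_aut σ hx) fun x hx => by
      rw [hK₀, h.inv β hβ1]
      exact (hK₀ x).1 hx
  have hLW : L ≤ fixMod σ := by
    rw [hL]
    exact sup_le (commutator_le_fixMod σ) fun x hx =>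
      Classical.byContradiction fun hxW => hK₀0 x hx (h.vanish β hβ1 hxW)
  have hcopL : ¬ l ∣ L.index := hβd ▸ h.cop β hβ1
  have hdeg : L.index ∈ charDegrees H := ⟨β, hβd⟩
  have hcyc : IsCyclic (H ⧸ L) := isCyclic_quotient hF.cyc
  by_cases hab : ⁅L, L⁆ = ⊥
  · have key : ∀ χ : IrrCharacter H, charDegree (χ : H → ℂ) ≠ 1 →
        charDegree (χ : H → ℂ) = L.index := by
      intro χ hχ
      obtain ⟨η, hη⟩ := CfsgLib.CharTheory.exists_constituent L (IsIrrCharacter.isCharacter χ.2)
        (apply_one_ne_zero_of_isIrr χ.2)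
      have hη1 := apply_one_eq_one_of_comm (fun a b : L => Subtype.ext
        (commutatorElement_eq_one_iff_mul_comm.1 (Subgroup.mem_bot.1
          (hab ▸ Subgroup.commutator_mem_commutator a.2 b.2)))) η.2
      obtain ⟨v, hv⟩ := exists_linFun_of_isCharacter (IsIrrCharacter.isCharacter η.2) hη1
      rw [hv] at hη
      have hd := degree_over hcyc (show Over L χ (linIrr L v) from hη)
      rw [charDegree_linIrr, mul_one] at hd
      change charDegree (χ : H → ℂ) = (inertia L (linFun v)).index at hd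
      rcases inertia_linear h.antichain hcyc hdeg v with h1 | h1
      · rw [hd, h1]
      · exact absurd (by rw [hd, h1, Subgroup.index_top]) hχ
    rw [key θ hθ, key θ' hθ']
  exfalso
  -- pass to a quotient with a minimal derived subgroup of `L`
  set Z : Subgroup H := ⁅L, L⁆ with hZ
  have hZs : Stable σ Z := stable_commutator σ hLs hLs
  haveI : Finite (Subgroup H) := Finite.of_injective _ SetLike.coe_injective
  haveI : Nonempty {Y : Subgroup H // Y.Normal ∧ Stable σ Y ∧ Y ≤ Z ∧ Y ≠ Z} :=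
    ⟨⟨⊥, inferInstance, fun x hx => by rw [Subgroup.mem_bot] at hx ⊢; rw [hx, map_one],
      bot_le, Ne.symm hab⟩⟩
  obtain ⟨⟨Y, hYn, hYs, hYZ, hYne⟩, hmax⟩ := Finite.exists_max
    (fun Y : {Y : Subgroup H // Y.Normal ∧ Stable σ Y ∧ Y ≤ Z ∧ Y ≠ Z} => Nat.card Y.1)
  haveI := hYn
  let q := QuotientGroup.mk' Y
  have hq : Function.Surjective q := QuotientGroup.mk'_surjective Y
  have hYK : Y ≤ K := hYZ.trans hF.Lcomm
  have hYL : Y ≤ L := hYK.trans hF.le
  set τ : MulAut (H ⧸ Y) := QuotientGroup.congr Y Y σ hYs.map_eq with hτ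
  haveI : Fintype (H ⧸ Y) := Fintype.ofFinite _
  set L' : Subgroup (H ⧸ Y) := L.map q with hL'
  haveI hL'n : L'.Normal := Subgroup.Normal.map hF.normalL q hq
  haveI : Fintype L' := Fintype.ofFinite _
  have hidx : L'.index = L.index :=
    Subgroup.index_map_eq _ hq ((QuotientGroup.ker_mk' Y).le.trans hYL)
  have hD : commutator (H ⧸ Y) = (commutator H).map q := by
    rw [commutator_def, ← Subgroup.map_top_of_surjective q hq, ← Subgroup.map_commutator,
      commutator_def]
  have hZ' : ⁅L', L'⁆ = Z.map q := by rw [hL', hZ, Subgroup.map_commutator]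
  have hcrit : Crit τ l L' := by
    refine ⟨h.quotient Y hYs.map_eq (hYZ.trans (Subgroup.commutator_mono le_top le_top)), hL'n,
      ?_, ?_, ?_, ?_, hidx ▸ hF.one_lt, hidx ▸ hcopL, ?_, ?_, ?_⟩
    · rintro _ ⟨x, hx, rfl⟩
      exact ⟨σ x, hLs x hx, rfl⟩
    · rintro _ ⟨x, hx, rfl⟩
      rw [mem_fixMod, hD]
      exact ⟨σ x * x⁻¹, hLW hx, by rw [map_mul, map_inv]; rfl⟩
    · rw [hD]
      exact Subgroup.map_mono hF.comm
    · obtain ⟨g, hg⟩ := hF.cyc
      refine ⟨q g, fun x => ?_⟩
      obtain ⟨x, rfl⟩ := hq x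
      obtain ⟨n, hn⟩ := hg x
      exact ⟨n, ⟨(g ^ n)⁻¹ * x, hn, by rw [map_mul, map_inv, map_pow]⟩⟩
    · obtain ⟨γ, hγ, hγe⟩ := exists_descend β.2 Y fun g hg => hβK g (hYK hg)
      refine ⟨⟨γ, hγ⟩, ?_, ?_⟩
      · rw [hidx, ← hβd]
        exact (degree_eq (χ := β) (by
          rw [hγe]
          exact apply_one (⟨γ, hγ⟩ : IrrCharacter (H ⧸ Y)))).symm
      · rw [hZ']
        rintro _ ⟨z, hz, rfl⟩
        show γ (q z) = γ 1
        rw [show q z = ((z : H) : H ⧸ Y) from rfl, ← hγe, hβK z (hF.Lcomm hz), hγe]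
        rfl
    · rw [hZ', Ne, Subgroup.map_eq_bot_iff, QuotientGroup.ker_mk']
      exact fun h0 => hYne (le_antisymm hYZ h0)
    · intro W hWn hWs hWle
      rw [hZ'] at hWle ⊢
      have hWZ : W.comap q ≤ Z := by
        refine (Subgroup.comap_mono hWle).trans ?_
        rw [Subgroup.comap_map_eq, QuotientGroup.ker_mk', sup_eq_left.2 hYZ]
      by_cases hWeq : W.comap q = Z
      · right
        rw [← hWeq, Subgroup.map_comap_eq_self_of_surjective hq]
      · left
        have hle : Y ≤ W.comap q := fun y hy => by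
          rw [Subgroup.mem_comap, show q y = 1 from (QuotientGroup.eq_one_iff y).2 hy]
          exact W.one_mem
        have h1 : W.comap q = Y := (Subgroup.eq_of_le_of_card_ge hle
          (hmax ⟨W.comap q, hWn.comap q, fun x hx => hWs (q x) hx, hWZ, hWeq⟩)).symm
        rw [← Subgroup.map_comap_eq_self_of_surjective hq W, h1,
          Subgroup.map_eq_bot_iff, QuotientGroup.ker_mk']
  exact hcrit.false (Group.isSolvable_of_surjective (hf := hq))

end CfsgLib.ZerosCodegree.Nondiv
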