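import Cfsg.Agent.Lib.ZerosCodegree.NondivisibilityStabilizer
import Cfsg.Agent.Lib.ZerosCodegree.PalfyClassTwo

/-!
# The critical configuration does not exist

Every non-trivial linear character of `Z`, and every moved one of `B`, is conjugate to one fixed by
`σ`, which gives `|Z| = [D : Z]`, against `|D| > |Z|^2`.
-/

set_option autoImplicit false
set_option linter.style.haveILetI false
set_option linter.unusedSectionVars false
set_option maxSynthPendingDepth 4

open scoped commutatorElement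

namespace CfsgLib.ZerosCodegree.Nondiv

open Cfsg CfsgLib.CharTheory CfsgLib.Clifford CfsgLib.ZerosCodegree.RelGraph
open CfsgLib.ZerosCodegree.CyclicClifford

universe u

variable {H : Type u} [Group H] [Fintype H]

/-- The action of an automorphism on the linear characters of a stable subgroup. -/
noncomputable def autLin {σ : MulAut H} {N : Subgroup H} (hN : Stable σ N) :
    (N →* ℂˣ) →* (N →* ℂˣ) where
  toFun v := v.comp
    { toFun := fun n : N => (⟨σ n, hN n n.2⟩ : N)
      map_one' := Subtype.ext (map_one σ)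
      map_mul' := fun a b => Subtype.ext (map_mul σ (a : H) (b : H)) }
  map_one' := rfl
  map_mul' _ _ := rfl

theorem autLin_apply {σ : MulAut H} {N : Subgroup H} (hN : Stable σ N) (v : N →* ℂˣ) (n : N) :
    autLin hN v n = v ⟨σ n, hN n n.2⟩ := rfl

theorem autLin_conjLin {σ : MulAut H} {N : Subgroup H} [N.Normal] [Fintype N] (hN : Stable σ N)
    (a : H) (v : N →* ℂˣ) :
    autLin hN (conjLin a v) = conjLin (σ.symm a) (autLin hN v) := MonoidHom.ext fun n => by
  refine congrArg v (Subtype.ext ?_)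
  show ((MulAut.conjNormal a (⟨σ n, hN n n.2⟩ : N) : N) : H)
    = σ ((MulAut.conjNormal (σ.symm a) n : N) : H)
  rw [MulAut.conjNormal_apply, MulAut.conjNormal_apply]
  simp only [map_mul, map_inv, MulEquiv.apply_symm_apply]

/-- An `l`-power automorphism fixing a character fixes a conjugate of each constituent whose orbit
has length prime to `l`. -/
theorem exists_fixed_conj {σ : MulAut H} {l : ℕ} (hS : Setup σ l) {N : Subgroup H} [N.Normal]
    [Fintype N] (hN : Stable σ N) {θ : IrrCharacter H} (hθ : charDegree (θ : H → ℂ) ≠ 1)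
    {v : N →* ℂˣ} (hv : Over N θ (linIrr N v)) :
    ∃ a : H, autLin hN (conjLin a v) = conjLin a v := by
  classical
  haveI := Fact.mk hS.prime
  obtain ⟨k, hk⟩ := hS.pow
  set O := conjOrbit N (linFun v) with hO
  obtain ⟨e, -, hd⟩ := exists_mult N hv
  have hl : ¬ l ∣ O.card := fun h => hS.cop θ hθ (by
    rw [hd]
    exact (h.mul_left e).trans (dvd_mul_right _ _))
  -- the orbit is closed
  have hmem : ∀ η ∈ O, ∀ η' : N → ℂ, (∀ n : N, η' n = η ⟨σ n, hN n n.2⟩) → η' ∈ O := by
    intro η hη η' he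
    obtain ⟨a, rfl⟩ := (mem_conjOrbit N).1 hη
    have e1 : η' = linFun (autLin hN (conjLin a v)) := funext fun n => by
      rw [he, conjChar_linFun]
      rfl
    have h1 : classInner (fun n : N => (θ : H → ℂ) n) (linFun (autLin hN (conjLin a v)))
        = classInner (fun n : N => (θ : H → ℂ) n) (linFun (conjLin a v)) := by
      let σN : N → N := fun n => ⟨σ n, hN n n.2⟩
      have hbij : Function.Bijective σN := Finite.injective_iff_bijective.1 fun x y h =>
        Subtype.ext (σ.injective (congrArg Subtype.val h))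
      simp only [classInner]
      congr 1
      refine Fintype.sum_bijective σN hbij _ _ fun n => ?_
      rw [← hS.inv θ hθ n]
      rfl
    have h2 : classInner (fun n : N => (θ : H → ℂ) n) (linFun (conjLin a v)) ≠ 0 := by
      rw [← conjChar_linFun, classInner_conjChar N (IsIrrCharacter.isClassFunction θ.2)]
      exact hv
    obtain ⟨b, hb⟩ := exists_conj_of_constituents N θ.2 (isIrrCharacter_linear v)
      (isIrrCharacter_linear (autLin hN (conjLin a v))) hv (h1 ▸ h2)
    exact (mem_conjOrbit N).2 ⟨b, (e1.trans hb).symm⟩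
  let f : O → O := fun η => ⟨fun n => η.1 ⟨σ n, hN n n.2⟩, hmem η.1 η.2 _ fun n => rfl⟩
  have hfk : ∀ (i : ℕ) (η : O) (n : N),
      (f^[i] η).1 n = η.1 ⟨(σ ^ i) n, hN.pow_mem n.2 i⟩ := by
    intro i
    induction i with
    | zero => intro η n; rfl
    | succ i ih =>
      intro η n
      rw [Function.iterate_succ']
      show (f^[i] η).1 ⟨σ n, hN n n.2⟩ = _
      rw [ih]
      exact congrArg η.1 (Subtype.ext (show (σ ^ i) (σ (n : H)) = (σ ^ (i + 1)) (n : H) by
        rw [pow_succ, MulAut.mul_apply]))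
  have hf : ∀ η, f^[l ^ k] η = η := fun η => Subtype.ext (funext fun n => by
    rw [hfk]
    exact congrArg η.1 (Subtype.ext (show (σ ^ l ^ k) (n : H) = (n : H) by rw [hk, MulAut.one_apply])))
  have hfi : Function.Injective f := fun x y h => by
    rw [← hf x, ← hf y]
    have h0 : l ^ k = (l ^ k - 1) + 1 := (Nat.succ_pred_eq_of_pos (pow_pos hS.prime.pos k)).symm
    rw [h0, Function.iterate_succ_apply, Function.iterate_succ_apply, h]
  let p : Equiv.Perm O := Equiv.ofBijective f (Finite.injective_iff_bijective.1 hfi)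
  have hpk : p ^ l ^ k = 1 := Equiv.ext fun η => by
    rw [Equiv.Perm.coe_pow]
    exact hf η
  have h1 := Equiv.Perm.card_compl_support_modEq hpk
  obtain ⟨η, hη⟩ : p.supportᶜ.Nonempty := Finset.nonempty_iff_ne_empty.2 fun h0 => hl (by
    rw [h0, Finset.card_empty, Fintype.card_coe] at h1
    exact Nat.modEq_zero_iff_dvd.1 h1.symm)
  rw [Finset.mem_compl, Equiv.Perm.mem_support, not_not] at hη
  obtain ⟨a, ha⟩ := (mem_conjOrbit N).1 η.2
  refine ⟨a, linFun_injective ?_⟩
  rw [← conjChar_linFun, ha]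
  refine funext fun n => ?_
  rw [← congrFun (congrArg Subtype.val hη) n]
  show linFun (autLin hN (conjLin a v)) n = η.1 ⟨σ n, hN n n.2⟩
  rw [← ha, conjChar_linFun]
  rfl

variable {σ : MulAut H} {l : ℕ} {B : Subgroup H} [B.Normal] [Fintype B]

/-- The fixed subgroup is stable. -/
theorem stable_fixMod (σ : MulAut H) : Stable σ (fixMod σ) := fun x hx => by
  have h := mem_commutator_of_aut σ hx
  rw [map_mul, map_inv] at h
  exact h

namespace Crit

/-- The count. -/
theorem count (c : Crit σ l B) {N : Subgroup H} [N.Normal] [Fintype N] (hN : Stable σ N)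
    (hD : ∀ a ∈ commutator H, ∀ v : N →* ℂˣ, conjLin a v = v) (X : Subgroup (N →* ℂˣ))
    (hst : ∀ a : H, ∀ v ∈ X, conjLin a v ∈ X)
    (hsemi : ∀ v ∈ X, v ≠ 1 → ∀ a, conjLin a v = v → a ∈ fixMod σ)
    (hover : ∀ v ∈ X, v ≠ 1 →
      ∃ θ : IrrCharacter H, charDegree (θ : H → ℂ) ≠ 1 ∧ Over N θ (linIrr N v)) :
    ∃ F : Subgroup (N →* ℂˣ), F ≤ X ∧
      Nat.card X - 1 = (fixMod σ).index * (Nat.card F - 1) := by
  classical
  haveI := finite_lin N
  let F : Subgroup (N →* ℂˣ) :=
    { carrier := {v | v ∈ X ∧ autLin hN v = v}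
      one_mem' := ⟨X.one_mem, map_one _⟩
      mul_mem' := fun {a b} ⟨ha, ha'⟩ ⟨hb, hb'⟩ => ⟨X.mul_mem ha hb, by rw [map_mul, ha', hb']⟩
      inv_mem' := fun {a} ⟨ha, ha'⟩ => ⟨X.inv_mem ha, by rw [map_inv, ha']⟩ }
  refine ⟨F, fun v hv => hv.1, ?_⟩
  have hsymm : ∀ w ∈ fixMod σ, ∀ v : N →* ℂˣ, conjLin (σ.symm w) v = conjLin w v := by
    intro w hw v
    obtain ⟨d, hd, hwd⟩ : ∃ d ∈ commutator H, w = d * σ.symm w := by
      refine ⟨w * (σ.symm w)⁻¹, ?_, by group⟩
      have h := mem_commutator_of_aut σ.symm hw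
      rwa [map_mul, map_inv, MulEquiv.symm_apply_apply] at h
    conv_rhs => rw [hwd, ← conjLin_conjLin, hD d hd]
  have hmapW : ∀ w ∈ fixMod σ, ∀ u ∈ F, conjLin w u ∈ F := fun w hw u hu =>
    ⟨hst w u hu.1, by rw [autLin_conjLin, hu.2, hsymm w hw]⟩
  let P : Type u := {v : N →* ℂˣ // v ∈ F ∧ v ≠ 1}
  let V : Type u := {v : N →* ℂˣ // v ∈ X ∧ v ≠ 1}
  have hne : ∀ (a : H) (v : N →* ℂˣ), v ≠ 1 → conjLin a v ≠ 1 := fun a v hv h => hv (by
    have h1 := congrArg (conjLin a⁻¹) h
    rwa [conjLin_conjLin, mul_inv_cancel, conjLin_one, map_one] at h1)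
  let f : (H ⧸ fixMod σ) × P → V := fun p =>
    ⟨conjLin p.1.out p.2.1, hst _ _ p.2.2.1.1, hne _ _ p.2.2.2⟩
  have hsurj : Function.Surjective f := by
    rintro ⟨v, hvX, hv1⟩
    obtain ⟨θ, hθ, hover'⟩ := hover v hvX hv1
    obtain ⟨a, ha⟩ := exists_fixed_conj c.toSetup hN hθ hover'
    set q : H ⧸ fixMod σ := ((a⁻¹ : H) : H ⧸ fixMod σ) with hq
    have hw : a⁻¹ * q.out⁻¹ ∈ fixMod σ := by
      have h0 : q.out⁻¹ * a⁻¹ ∈ fixMod σ := QuotientGroup.eq.1 (by rw [QuotientGroup.out_eq'])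
      have h2 := (normal_fixMod σ).conj_mem _ h0 q.out
      rwa [show q.out * (q.out⁻¹ * a⁻¹) * q.out⁻¹ = a⁻¹ * q.out⁻¹ by group] at h2
    refine ⟨⟨q, ⟨conjLin (a⁻¹ * q.out⁻¹) (conjLin a v),
      hmapW _ hw _ ⟨hst a v hvX, ha⟩, hne _ _ (hne _ _ hv1)⟩⟩, Subtype.ext ?_⟩
    show conjLin q.out (conjLin (a⁻¹ * q.out⁻¹) (conjLin a v)) = v
    rw [conjLin_conjLin, conjLin_conjLin,
      show a * (a⁻¹ * q.out⁻¹ * q.out) = 1 by group, conjLin_one]
  have hinj : Function.Injective f := by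
    rintro ⟨q, v, hv, hv1⟩ ⟨q', v', hv', hv1'⟩ h
    have h0 : conjLin q.out v = conjLin q'.out v' := congrArg Subtype.val h
    set g := q'.out * q.out⁻¹ with hg
    have h1 : v = conjLin g v' := by
      have := congrArg (conjLin q.out⁻¹) h0
      rwa [conjLin_conjLin, mul_inv_cancel, conjLin_one, conjLin_conjLin] at this
    have h2 : conjLin (σ.symm g * g⁻¹) v' = v' := by
      rw [← conjLin_conjLin]
      have h3 : conjLin (σ.symm g) v' = conjLin g v' := by
        have := autLin_conjLin hN g v'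
        rw [hv'.2, ← h1, hv.2] at this
        rw [← this, h1]
      rw [h3, conjLin_conjLin, mul_inv_cancel, conjLin_one]
    have h4 := stable_fixMod σ _ (hsemi v' hv'.1 hv1' _ h2)
    rw [map_mul, map_inv, MulEquiv.apply_symm_apply] at h4
    have h5 : σ g * g⁻¹ ∈ fixMod σ := by
      have := (fixMod σ).inv_mem h4
      rwa [mul_inv_rev, inv_inv] at this
    have h6 : g ∈ fixMod σ :=
      c.mem_fixMod_of_coprime h5 (c.le (B.pow_index_mem g)) c.copl
    have hqq : q = q' := by
      have h7 := (normal_fixMod σ).conj_mem _ h6 q.out⁻¹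
      rw [inv_inv, hg, show q.out⁻¹ * (q'.out * q.out⁻¹) * q.out = q.out⁻¹ * q'.out by group] at h7
      rw [← QuotientGroup.out_eq' q, ← QuotientGroup.out_eq' q']
      exact QuotientGroup.eq.2 h7
    subst hqq
    rw [hg, mul_inv_cancel, conjLin_one] at h1
    subst h1
    rfl
  have hcard := Nat.card_congr (Equiv.ofBijective f ⟨hinj, hsurj⟩)
  rw [Nat.card_prod, ← Subgroup.index_eq_card] at hcard
  have hsub : ∀ Y : Subgroup (N →* ℂˣ),
      Nat.card {v : N →* ℂˣ // v ∈ Y ∧ v ≠ 1} = Nat.card Y - 1 := fun Y => by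
    show Nat.card ((Y : Set (N →* ℂˣ)) \ {1} : Set (N →* ℂˣ)) = _
    rw [Nat.card_coe_set_eq, Set.ncard_sdiff_singleton_of_mem Y.one_mem, ← Nat.card_coe_set_eq]
    rfl
  rw [← hsub X, ← hsub F]
  exact hcard.symm

/-- There is no critical configuration. -/
theorem false (c : Crit σ l B) (hsolv : Group.IsSolvable H) : False := by
  classical
  obtain ⟨s, hs, hexp⟩ := c.exists_prime hsolv
  haveI := Fact.mk hs
  obtain ⟨hBC, -⟩ := c.exists_decomp hs hexp hsolv
  haveI : Fintype (⁅B, B⁆ : Subgroup H) := Fintype.ofFinite _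
  haveI := finite_lin (⁅B, B⁆ : Subgroup H)
  haveI := c.finite_moved'
  obtain ⟨F₁, -, h1⟩ := c.count (N := (⁅B, B⁆ : Subgroup H)) c.stable_derived
    (fun a ha v => MonoidHom.ext fun z => congrArg v (Subtype.ext (by
      show ((MulAut.conjNormal a z : (⁅B, B⁆ : Subgroup H)) : H) = (z : H)
      rw [MulAut.conjNormal_apply, mul_inv_eq_iff_eq_mul]
      exact (Subgroup.mem_centralizer_iff.1 (hBC (c.comm ha)) z z.2).symm)))
    ⊤ (fun _ _ _ => Subgroup.mem_top _)
    (fun v _ hv a ha => c.inertia_le_fixMod hs hexp hsolv hv ha)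
    (fun v _ hv => by
      obtain ⟨θ, hθ⟩ := exists_over (⁅B, B⁆ : Subgroup H) (linIrr _ v)
      exact ⟨θ, degree_ne_one_of_over c.derived_le hv hθ, hθ⟩)
  obtain ⟨F₂, hF₂, h2⟩ := c.count (N := B) c.stable
    (fun a ha v => conjLin_of_mem (c.comm ha) v) c.moved' c.moved'_stable
    (fun v hv hv1 a ha => c.le (Classical.byContradiction fun haB => hv1 (c.moved'_fpf a haB v hv ha)))
    (fun v hv hv1 => by
      obtain ⟨θ, hθ⟩ := exists_over B (linIrr B v)
      refine ⟨θ, fun h1 => ?_, hθ⟩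
      rcases c.inertia_lin v with h | h
      · have h2 := degree_over c.isCyclic hθ
        rw [h1, charDegree_linIrr, mul_one] at h2
        change 1 = (inertia B (linFun v)).index at h2
        rw [h] at h2
        exact c.one_lt.ne h2
      · exact hv1 (c.moved'_fpf _ c.gen_not_mem v hv
          (conjLin_eq_self_iff.2 (h.ge (Subgroup.mem_top _)))))
  -- the two moduli are powers of `s`
  haveI : IsMulCommutative (⁅B, B⁆ : Subgroup H) :=
    ⟨⟨fun a b => Subtype.ext (c.derived_comm hsolv a a.2 b b.2)⟩⟩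
  rw [Subgroup.card_top, CfsgLib.SmallGroups.SelfCentral.card_hom_of_commutative] at h1
  rw [c.card_moved'] at h2
  obtain ⟨m, hm⟩ := IsPGroup.iff_card.1 (c.isPGroup_derived hexp)
  obtain ⟨n, hn⟩ : ∃ n, (⁅B, B⁆ : Subgroup H).relIndex (commutator H) = s ^ n :=
    IsPGroup.iff_card.1 ((c.isPGroup_D hs hexp hsolv).to_quotient
      ((⁅B, B⁆ : Subgroup H).subgroupOf (commutator H)))
  obtain ⟨i, him, hi⟩ : ∃ i ≤ m, Nat.card F₁ = s ^ i := by
    refine (Nat.dvd_prime_pow hs).1 ?_
    rw [← hm, ← CfsgLib.SmallGroups.SelfCentral.card_hom_of_commutative (⁅B, B⁆ : Subgroup H)]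
    exact Subgroup.card_subgroup_dvd_card F₁
  obtain ⟨j, hjn, hj⟩ : ∃ j ≤ n, Nat.card F₂ = s ^ j := by
    refine (Nat.dvd_prime_pow hs).1 ?_
    rw [← hn, ← c.card_moved']
    exact Subgroup.card_dvd_of_le hF₂
  rw [hm, hi] at h1
  rw [hn, hj] at h2
  have hW : 1 < (fixMod σ).index := by
    refine Subgroup.one_lt_index_of_ne_top fun h => ?_
    obtain ⟨x, hx⟩ := c.moved
    exact hx (mem_fixMod.1 (h.ge (Subgroup.mem_top x)))
  have hlt := c.sq_lt_card hs hexp hsolv
  rw [hm, hn] at hlt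
  have hm0 : 0 < m := Nat.pos_of_ne_zero fun h => c.nonab (Subgroup.card_eq_one.1 (by
    rw [hm, h, pow_zero]))
  have hmn : m < n := (Nat.pow_lt_pow_iff_right hs.one_lt).1 hlt
  have pos : ∀ {e e' : ℕ}, 0 < e → s ^ e - 1 = (fixMod σ).index * (s ^ e' - 1) → 0 < e' ∧ e' ≠ e := by
    intro e e' he h
    have h3 := Nat.one_lt_pow he.ne' hs.one_lt
    refine ⟨Nat.pos_of_ne_zero fun h0 => ?_, fun h0 => ?_⟩
    · subst h0
      rw [pow_zero, Nat.sub_self, mul_zero] at h
      omega
    · subst h0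
      have h4 : 2 * (s ^ e' - 1) ≤ (fixMod σ).index * (s ^ e' - 1) := Nat.mul_le_mul_right _ hW
      omega
  obtain ⟨hi0, him'⟩ := pos hm0 h1
  obtain ⟨hj0, hjn'⟩ := pos (by omega) h2
  have := Palfy.eq_of_repunit hs hi0 hj0 (by omega) (by omega) h1 h2
  omega

end Crit

end CfsgLib.ZerosCodegree.Nondiv
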