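import Cfsg.Agent.Lib.ZerosCodegree.NondivisibilityCore
import Cfsg.Prelude.Def_DegreeGraph
import Mathlib.Combinatorics.SimpleGraph.Connectivity.Connected

/-!
# Degree sets without divisibility and with a disconnected degree graph

A solvable group whose degrees form an antichain for divisibility and whose degree graph has two
components has exactly three degrees.
-/

set_option autoImplicit false
set_option linter.style.haveILetI false
set_option linter.unusedSectionVars false
set_option maxSynthPendingDepth 4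

open scoped commutatorElement

namespace CfsgLib.ZerosCodegree.Nondiv

open Cfsg CfsgLib.CharTheory CfsgLib.Clifford CfsgLib.ZerosCodegree.RelGraph
open CfsgLib.ZerosCodegree.CyclicClifford

universe u

variable {G : Type u} [Group G] [Finite G]

/-- Primes dividing one degree are connected. -/
theorem reach_of_dvd {p q : degreePrimes G} {d : ℕ} (hd : d ∈ charDegrees G)
    (hp : (p : ℕ) ∣ d) (hq : (q : ℕ) ∣ d) :
    ((degreeGraph G).induce (degreePrimes G)).Reachable p q := by
  by_cases h : p = q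
  · subst h
    exact SimpleGraph.Reachable.refl p
  · have hne : (p : ℕ) ≠ q := fun e => h (Subtype.ext e)
    refine SimpleGraph.Adj.reachable ?_
    exact ⟨hne, p.2.1, q.2.1, d, hd,
      ((Nat.coprime_primes p.2.1 q.2.1).2 hne).mul_dvd_of_dvd_of_dvd hp hq⟩

/-- A hub leaves one component. -/
theorem not_two_of_hub {p : ℕ} (hp : p ∈ degreePrimes G)
    (h : ∀ q : degreePrimes G,
      ((degreeGraph G).induce (degreePrimes G)).Reachable q ⟨p, hp⟩) :
    Nat.card ((degreeGraph G).induce (degreePrimes G)).ConnectedComponent ≠ 2 := by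
  haveI : Subsingleton ((degreeGraph G).induce (degreePrimes G)).ConnectedComponent :=
    ⟨fun a b => by
      obtain ⟨a, rfl⟩ := a.exists_rep
      obtain ⟨b, rfl⟩ := b.exists_rep
      exact SimpleGraph.ConnectedComponent.sound ((h a).trans (h b).symm)⟩
  exact fun h2 => by
    have h3 := (Finite.card_le_one_iff_subsingleton
      (α := ((degreeGraph G).induce (degreePrimes G)).ConnectedComponent)).2 inferInstance
    omega

variable [Fintype G]

section Frob

variable {K L : Subgroup G} {r : ℕ} [L.Normal] [Fintype L]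

theorem frob_cyclic (hF : FrobQuot K L r) : IsCyclic (G ⧸ L) := isCyclic_quotient hF.cyc

/-- Commutation with an element outside `L` is onto modulo `K`. -/
theorem frob_surj (hF : FrobQuot K L r) {a : G} (ha : a ∉ L) {x : G} (hx : x ∈ L) :
    ∃ y ∈ L, ⁅a, y⁆⁻¹ * x ∈ K := by
  haveI := hF.normalK
  let q : G →* G ⧸ K := QuotientGroup.mk' K
  have hmem : ∀ y : L, ⁅a, (y : G)⁆ ∈ L := fun y =>
    hF.comm (Subgroup.commutator_mem_commutator (Subgroup.mem_top _) (Subgroup.mem_top _))
  have hcomm : ∀ u ∈ L, ∀ v ∈ L, q u * q v = q v * q u := fun u hu v hv => by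
    refine commutatorElement_eq_one_iff_mul_comm.1 ?_
    rw [← map_commutatorElement]
    exact (QuotientGroup.eq_one_iff _).2 (hF.Lcomm (Subgroup.commutator_mem_commutator hu hv))
  let K' : Subgroup L := K.subgroupOf L
  let f : L →* L ⧸ K' :=
    { toFun := fun y => ((⟨_, hmem y⟩ : L) : L ⧸ K')
      map_one' := (QuotientGroup.eq_one_iff _).2 (by
        show ⁅a, ((1 : L) : G)⁆ ∈ K
        rw [OneMemClass.coe_one, commutatorElement_one_right]
        exact one_mem _)
      map_mul' := fun y z => by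
        rw [← QuotientGroup.mk_mul]
        refine QuotientGroup.eq.2 ?_
        show ⁅a, (y : G) * z⁆⁻¹ * (⁅a, (y : G)⁆ * ⁅a, (z : G)⁆) ∈ K
        refine (QuotientGroup.eq_one_iff _).1 ?_
        show q _ = 1
        rw [show ⁅a, (y : G) * z⁆ = ⁅a, (y : G)⁆ * ((y : G) * ⁅a, (z : G)⁆ * (y : G)⁻¹) by
          simp only [commutatorElement_def]; group]
        simp only [map_mul, map_inv]
        rw [hcomm _ y.2 _ (hmem z), mul_inv_cancel_right, inv_mul_cancel] }
  have hker : f.ker = K' := by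
    ext y
    rw [MonoidHom.mem_ker]
    show ((⟨_, hmem y⟩ : L) : L ⧸ K') = 1 ↔ _
    rw [QuotientGroup.eq_one_iff, Subgroup.mem_subgroupOf, Subgroup.mem_subgroupOf]
    refine ⟨fun h => hF.fpf a ha y y.2 h, fun h => ?_⟩
    show ⁅a, (y : G)⁆ ∈ K
    rw [commutatorElement_def]
    exact mul_mem (hF.normalK.conj_mem _ h a) (inv_mem h)
  have hsurj : Function.Surjective f := by
    rw [← MonoidHom.range_eq_top]
    refine Subgroup.eq_top_of_card_eq _ ?_
    rw [← Nat.card_congr (QuotientGroup.quotientKerEquivRange f).toEquiv, hker]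
  obtain ⟨y, hy⟩ := hsurj ((⟨x, hx⟩ : L) : L ⧸ K')
  have h1 : ((⟨_, hmem y⟩ : L)⁻¹ * ⟨x, hx⟩ : L) ∈ K' := QuotientGroup.eq.1 hy
  exact ⟨y, y.2, h1⟩

/-- Non-linear characters of the kernel have inertia group bigger than the kernel. -/
theorem frob_inertia_ne (hA : Antichain G) (hF : FrobQuot K L r) (hdeg : L.index ∈ charDegrees G)
    (θ : IrrCharacter L) (hθ : charDegree (θ : L → ℂ) ≠ 1) : inertia L (θ : L → ℂ) ≠ L :=
  fun h => by
    obtain ⟨χ, hχ⟩ := exists_over L θ
    have hd := degree_over (frob_cyclic hF) hχ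
    rw [h, mul_comm] at hd
    exact hA.not_mul hdeg hF.one_lt (one_lt_degree hθ) ⟨χ, hd⟩

/-- Non-linear characters of the kernel have degree divisible by `r`. -/
theorem frob_dvd (hA : Antichain G) (hF : FrobQuot K L r) (hdeg : L.index ∈ charDegrees G)
    (θ : IrrCharacter L) (hθ : charDegree (θ : L → ℂ) ≠ 1) : r ∣ charDegree (θ : L → ℂ) := by
  classical
  haveI := hF.normalK
  have hcyc := frob_cyclic hF
  haveI := finite_lin L
  let X : Subgroup (L →* ℂˣ) :=
    { carrier := {v | ∀ x : L, (x : G) ∈ K → v x = 1}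
      one_mem' := fun x _ => rfl
      mul_mem' := fun {a b} ha hb x hx => by rw [MonoidHom.mul_apply, ha x hx, hb x hx, one_mul]
      inv_mem' := fun {a} ha x hx => by rw [MonoidHom.inv_apply, ha x hx, inv_one] }
  have hst : ∀ g : G, ∀ v ∈ X, conjLin g v ∈ X := fun g v hv x hx => hv _ (by
    show ((MulAut.conjNormal g x : L) : G) ∈ K
    rw [MulAut.conjNormal_apply]
    exact hF.normalK.conj_mem _ hx g)
  have hfpf : ∀ g, g ∉ L → ∀ v ∈ X, conjLin g v = v → v = 1 := fun g hg v hv hfix =>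
    MonoidHom.ext fun x => by
      obtain ⟨y, hy, hyx⟩ := frob_surj hF hg x.2
      set u : L := MulAut.conjNormal g ⟨y, hy⟩ * (⟨y, hy⟩ : L)⁻¹ with hu
      have h1 : v (u⁻¹ * x) = 1 := hv _ (by
        rw [hu, Subgroup.coe_mul, Subgroup.coe_inv, Subgroup.coe_mul, Subgroup.coe_inv,
          MulAut.conjNormal_apply, ← commutatorElement_def]
        exact hyx)
      have h2 : v u = 1 := by
        rw [hu, map_mul, map_inv, mul_inv_eq_one]
        exact DFunLike.congr_fun hfix ⟨y, hy⟩
      rw [map_mul, map_inv, h2, inv_one, one_mul] at h1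
      rw [h1, MonoidHom.one_apply]
  have htw := mul_eq_self_of_fixed hcyc (IsIrrCharacter.isClassFunction θ.2) X hst hfpf fun v _ => by
    have hne := frob_inertia_ne hA hF hdeg ⟨_, isIrrCharacter_linFun_mul v θ.2⟩ (by
      rw [show charDegree ((⟨_, isIrrCharacter_linFun_mul v θ.2⟩ : IrrCharacter L) : L → ℂ) =
        charDegree (θ : L → ℂ) from nonlinear_twist v θ]
      exact hθ)
    by_contra hcon
    push Not at hcon
    refine hne (le_antisymm (fun a ha => Classical.byContradiction fun haL => hcon a haL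
      ((mem_inertia L _ a).1 ha)) (le_inertia L (IsIrrCharacter.isClassFunction
        (isIrrCharacter_linFun_mul v θ.2))))
  by_contra hr
  obtain ⟨r', k, hr', y, hyL, hyK, hyk⟩ := exists_ppart_not_mem hF.notLE
  have hrr : r' = r := by
    by_contra hne
    refine hyK (Palfy.mem_of_pow_coprime (a := r' ^ k) (b := r) ?_ (hF.pow y hyL)
      (((Nat.coprime_primes hr' hF.prime).2 hne).pow_left _))
    rw [hyk]
    exact one_mem _
  rw [hrr] at hyk
  have hθy : (θ : L → ℂ) ⟨y, hyL⟩ ≠ 0 := CfsgLib.Clifford.apply_ne_zero_of_pow_prime_pow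
    (IsIrrCharacter.isCharacter θ.2) hF.prime (k := k) (Subtype.ext hyk) (apply_one θ) hr
  have hK' : commutator L ≤ K.subgroupOf L :=
    Subgroup.map_le_iff_le_comap.1 (by rw [Subgroup.map_subtype_commutator]; exact hF.Lcomm)
  obtain ⟨μ, hμ, hμy⟩ := Palfy.exists_linear_sep (X := L) hK' (x := ⟨y, hyL⟩) hyK
  have h := congrFun (htw μ fun x hx => hμ hx) ⟨y, hyL⟩
  rw [Pi.mul_apply, linFun_apply] at h
  exact hμy (Units.ext ((mul_eq_right₀ hθy).1 h))

/-- The degree of a character over a linear character of the kernel. -/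
theorem frob_linear (hA : Antichain G) (hF : FrobQuot K L r) (hdeg : L.index ∈ charDegrees G)
    {χ : IrrCharacter G} {η : IrrCharacter L} (h : Over L χ η)
    (hη : charDegree (η : L → ℂ) = 1) :
    charDegree (χ : G → ℂ) = 1 ∨ charDegree (χ : G → ℂ) = L.index := by
  have hcyc := frob_cyclic hF
  obtain ⟨v, hv⟩ := exists_linFun_of_isCharacter (IsIrrCharacter.isCharacter η.2)
    (by rw [apply_one, hη, Nat.cast_one])
  have hd := degree_over hcyc h
  rw [hη, mul_one, hv] at hd
  rcases inertia_linear hA hcyc hdeg v with h1 | h1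
  · right
    rw [hd, h1]
  · left
    rw [hd, h1, Subgroup.index_top]

end Frob

/-- Two components force three degrees. -/
theorem card_degrees_eq_three (hsolv : Group.IsSolvable G) (hA : Antichain G)
    (htwo : Nat.card ((degreeGraph G).induce (degreePrimes G)).ConnectedComponent = 2) :
    Nat.card (charDegrees G) = 3 := by
  classical
  have hne : commutator G ≠ ⊥ := by
    intro h0
    haveI : IsEmpty (degreePrimes G) := ⟨fun ⟨p, hp, d, ⟨χ, hd⟩, hpd⟩ => by
      have h1 : charDegree (χ : G → ℂ) = 1 := degree_eq (by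
        rw [CfsgLib.CyclicTI.apply_one_eq_one_of_commutator χ.2 fun a ha => by
          rw [h0, Subgroup.mem_bot] at ha; rw [ha], Nat.cast_one])
      rw [← hd, h1, Nat.dvd_one] at hpd
      exact hp.ne_one hpd⟩
    haveI : IsEmpty ((degreeGraph G).induce (degreePrimes G)).ConnectedComponent :=
      ⟨fun c => isEmptyElim c.exists_rep.choose⟩
    rw [Nat.card_of_isEmpty] at htwo
    exact absurd htwo (by norm_num)
  rcases exists_pQuot_or_frobQuot hsolv hne with ⟨K, p, hP⟩ | ⟨K, L, r, hF⟩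
  · exfalso
    obtain ⟨χ, hχ⟩ := CfsgLib.Correspondences.exists_nonlinear hne
    have hp : p ∈ degreePrimes G := ⟨hP.prime, _, mem_degrees χ, dvd_of_pQuot hA hP χ hχ⟩
    refine not_two_of_hub hp (fun q => ?_) htwo
    obtain ⟨d, ⟨ψ, rfl⟩, hqd⟩ := q.2.2
    refine reach_of_dvd (mem_degrees ψ) hqd (dvd_of_pQuot hA hP ψ fun h1 => ?_)
    rw [h1, Nat.dvd_one] at hqd
    exact q.2.1.ne_one hqd
  haveI := hF.normalK
  haveI := hF.normalL
  haveI : Fintype L := Fintype.ofFinite _
  have hcyc := frob_cyclic hF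
  obtain ⟨β, -, hβd, -⟩ := exists_frob_char hF
  have hdeg : L.index ∈ charDegrees G := ⟨β, hβd⟩
  have hclass : ∀ χ : IrrCharacter G, charDegree (χ : G → ℂ) = 1 ∨
      charDegree (χ : G → ℂ) = L.index ∨ r ∣ charDegree (χ : G → ℂ) := fun χ => by
    obtain ⟨η, hη⟩ := CfsgLib.CharTheory.exists_constituent L (IsIrrCharacter.isCharacter χ.2)
      (apply_one_ne_zero_of_isIrr χ.2)
    by_cases hη1 : charDegree (η : L → ℂ) = 1
    · exact (frob_linear hA hF hdeg hη hη1).imp_right Or.inl
    · exact Or.inr (Or.inr ((frob_dvd hA hF hdeg η hη1).trans (degree_dvd L hη)))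
  -- a degree divisible by `r` is prime to the index
  have hcop : ∀ d ∈ charDegrees G, r ∣ d → d.Coprime L.index := by
    intro s hs hrs
    by_contra hcon
    obtain ⟨t, ht, hts, htf⟩ := Nat.Prime.not_coprime_iff_dvd.1 hcon
    have ht' : t ∈ degreePrimes G := ⟨ht, _, hdeg, htf⟩
    have hr' : r ∈ degreePrimes G := ⟨hF.prime, _, hs, hrs⟩
    refine not_two_of_hub ht' (fun q => ?_) htwo
    obtain ⟨d, ⟨χ, rfl⟩, hqd⟩ := q.2.2
    rcases hclass χ with h | h | h
    · rw [h, Nat.dvd_one] at hqd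
      exact absurd hqd q.2.1.ne_one
    · exact reach_of_dvd (p := q) (q := ⟨t, ht'⟩) hdeg (h ▸ hqd) htf
    · exact (reach_of_dvd (q := ⟨r, hr'⟩) (mem_degrees χ) hqd h).trans
        (reach_of_dvd (p := ⟨r, hr'⟩) (q := ⟨t, ht'⟩) hs hrs hts)
  have hr1 : ¬ r ∣ 1 := fun h => hF.prime.ne_one (Nat.dvd_one.1 h)
  have hinv : ∀ θ : IrrCharacter L, charDegree (θ : L → ℂ) ≠ 1 →
      inertia L (θ : L → ℂ) = ⊤ ∧ charDegree (θ : L → ℂ) ∈ charDegrees G := by
    intro θ hθ
    obtain ⟨χ, hχ⟩ := exists_over L θ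
    have hd := degree_over hcyc hχ
    have hr := frob_dvd hA hF hdeg θ hθ
    have h1 := hcop _ (mem_degrees χ) (hd ▸ hr.mul_left _)
    have hle := le_inertia L (IsIrrCharacter.isClassFunction θ.2)
    have h2 : (inertia L (θ : L → ℂ)).index = 1 := Nat.eq_one_of_dvd_coprimes h1
      (hd ▸ dvd_mul_right _ _) (Subgroup.index_dvd_of_le hle)
    rw [h2, one_mul] at hd
    exact ⟨Subgroup.index_eq_one.1 h2, χ, hd⟩
  -- some degree is divisible by `r`
  obtain ⟨d, hd, hrd⟩ : ∃ d ∈ charDegrees G, r ∣ d := by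
    by_contra hcon
    push Not at hcon
    obtain ⟨t, ht, htf⟩ := Nat.exists_prime_and_dvd hF.one_lt.ne'
    refine not_two_of_hub (p := t) ⟨ht, _, hdeg, htf⟩ (fun q => ?_) htwo
    obtain ⟨d, ⟨χ, rfl⟩, hqd⟩ := q.2.2
    rcases hclass χ with h | h | h
    · rw [h, Nat.dvd_one] at hqd
      exact absurd hqd q.2.1.ne_one
    · exact reach_of_dvd (p := q) (q := ⟨t, _⟩) hdeg (h ▸ hqd) htf
    · exact absurd h (hcon _ (mem_degrees χ))
  -- an element of prime power order outside `L`
  obtain ⟨l, k, hl, y, -, hyL, hyk⟩ := exists_ppart_not_mem (T := (⊤ : Subgroup G)) (S := L)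
    fun h => hF.one_lt.ne' (Subgroup.index_eq_one.2 (top_le_iff.1 h))
  have hlf : l ∣ L.index := by
    by_contra hcon
    refine hyL (Palfy.mem_of_pow_coprime (a := l ^ k) (b := L.index) ?_ (L.pow_index_mem y)
      (Nat.Coprime.pow_left _ (hl.coprime_iff_not_dvd.2 hcon)))
    rw [hyk]
    exact one_mem _
  have hsetup : Setup (MulAut.conjNormal y : MulAut L) l := by
    refine ⟨hl, ⟨k, ?_⟩, fun θ hθ x => ?_, fun θ hθ h => ?_, fun a ha b hb h1 hab => ?_, ?_⟩
    · rw [← map_pow, hyk, map_one]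
    · have h1 := congrFun ((mem_inertia L (θ : L → ℂ) y).1 ((hinv θ hθ).1.ge (Subgroup.mem_top y))) x
      rw [conjChar_eq_comp] at h1
      exact h1
    · obtain ⟨-, hmem⟩ := hinv θ hθ
      exact hl.ne_one (Nat.eq_one_of_dvd_coprimes
        (hcop _ hmem (frob_dvd hA hF hdeg θ hθ)) h hlf)
    · obtain ⟨θ, rfl⟩ := ha
      obtain ⟨θ', rfl⟩ := hb
      exact hA _ (hinv θ h1.ne').2 _ (hinv θ' (h1.trans hab).ne').2 h1 hab
    · obtain ⟨x, hxL, hxK⟩ := SetLike.not_le_iff_exists.1 hF.notLE
      refine ⟨⟨x, hxL⟩, fun hc => hxK (hF.fpf y hyL x hxL (hF.Lcomm ?_))⟩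
      rw [← Subgroup.map_subtype_commutator]
      exact ⟨_, hc, by
        rw [Subgroup.coe_subtype, Subgroup.coe_mul, Subgroup.coe_inv, MulAut.conjNormal_apply,
          commutatorElement_def]⟩
  have hsame : ∀ χ : IrrCharacter G, r ∣ charDegree (χ : G → ℂ) →
      ∃ θ : IrrCharacter L, charDegree (θ : L → ℂ) ≠ 1 ∧
        charDegree (χ : G → ℂ) = charDegree (θ : L → ℂ) := by
    intro χ hrχ
    obtain ⟨η, hη⟩ := CfsgLib.CharTheory.exists_constituent L (IsIrrCharacter.isCharacter χ.2)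
      (apply_one_ne_zero_of_isIrr χ.2)
    have hη1 : charDegree (η : L → ℂ) ≠ 1 := fun h => by
      rcases frob_linear hA hF hdeg hη h with h1 | h1
      · exact hr1 (h1 ▸ hrχ)
      · exact hF.cop (h1 ▸ hrχ)
    refine ⟨η, hη1, ?_⟩
    have h2 := degree_over hcyc (show Over L χ η from hη)
    rwa [(hinv η hη1).1, Subgroup.index_top, one_mul] at h2
  obtain ⟨χ₀, rfl⟩ := hd
  obtain ⟨θ₀, hθ₀, he₀⟩ := hsame χ₀ hrd
  have hset : charDegrees G = {1, L.index, charDegree (χ₀ : G → ℂ)} := by
    refine Set.Subset.antisymm ?_ ?_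
    · rintro _ ⟨χ, rfl⟩
      rcases hclass χ with h | h | h
      · exact Or.inl h
      · exact Or.inr (Or.inl h)
      · obtain ⟨θ, hθ, he⟩ := hsame χ h
        refine Or.inr (Or.inr ?_)
        rw [Set.mem_singleton_iff, he, he₀]
        exact hsetup.degrees_eq inferInstance θ θ₀ hθ hθ₀
    · rintro _ (rfl | rfl | rfl)
      · exact ⟨trivIrr G, degree_eq (by rw [trivIrr_apply, Nat.cast_one])⟩
      · exact hdeg
      · exact mem_degrees χ₀
  rw [hset, Nat.card_coe_set_eq, Set.ncard_eq_three]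
  refine ⟨1, L.index, charDegree (χ₀ : G → ℂ), hF.one_lt.ne, fun h => hr1 (h ▸ hrd), fun h => ?_, rfl⟩
  exact hF.cop (h ▸ hrd)

end CfsgLib.ZerosCodegree.Nondiv
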