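import Cfsg.Agent.Lib.ZerosCodegree.NondivisibilityCamina
import Cfsg.Agent.Lib.ZerosCodegree.NondivisibilityPrime
import Cfsg.Agent.Lib.ZerosCodegree.NondivisibilityAbelian
import Cfsg.Agent.Lib.ZerosCodegree.CharBasics

/-!
# Degree sets without divisibility: at most four degrees in the Camina case

Above each layer of the lower central series of the Camina derived subgroup all degrees are equal.
-/

set_option autoImplicit false
set_option linter.style.haveILetI false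
set_option linter.unusedSectionVars false
set_option maxSynthPendingDepth 4

open scoped commutatorElement

namespace CfsgLib.ZerosCodegree.Nondiv

open Cfsg CfsgLib.CharTheory CfsgLib.Clifford CfsgLib.ZerosCodegree.RelGraph
open CfsgLib.ZerosCodegree.CyclicClifford

universe u

/-- An element commuting modulo the kernel of an irreducible character acts by a scalar. -/
theorem exists_scalar_of_commutator {X : Type*} [Group X] [Finite X] {θ : IrrCharacter X} {x : X}
    (h : ∀ y, (θ : X → ℂ) ⁅x, y⁆ = (θ : X → ℂ) 1) :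
    ∃ c : ℂ, ‖c‖ = 1 ∧ ∀ g, (θ : X → ℂ) (x * g) = c * (θ : X → ℂ) g := by
  let N := kerSubgroup ({θ} : Set (IrrCharacter X))
  haveI : N.Normal := kerSubgroup_normal _
  have hmem : ∀ g ∈ N, (θ : X → ℂ) g = (θ : X → ℂ) 1 := fun g hg => hg θ rfl
  obtain ⟨ψ, hψ, hθψ⟩ := exists_descend θ.2 N hmem
  obtain ⟨c, hc, hcg⟩ := CfsgLib.Correspondences.exists_scalar_center hψ (z := (x : X ⧸ N))
    (Subgroup.mem_center_iff.2 fun q => by
      obtain ⟨y, rfl⟩ := QuotientGroup.mk_surjective q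
      rw [← QuotientGroup.mk_mul, ← QuotientGroup.mk_mul]
      refine QuotientGroup.eq.2 (mem_kerSubgroup.2 fun φ hφ => ?_)
      rw [Set.mem_singleton_iff.1 hφ, show (y * x)⁻¹ * (x * y) = (y * x)⁻¹ * ⁅x, y⁆ * (y * x) by
        rw [commutatorElement_def]; group]
      have h1 := IsIrrCharacter.isClassFunction θ.2 ⁅x, y⁆ (y * x)⁻¹
      rw [inv_inv] at h1
      rw [h1, h y])
  refine ⟨c, hc, fun g => ?_⟩
  rw [hθψ, hθψ g, QuotientGroup.mk_mul, hcg]

variable {G : Type u} [Group G] [Fintype G] {K L : Subgroup G} {r : ℕ} [L.Normal] [Fintype L]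
  {a : G} {D C : Subgroup G}

/-- A layer of the kernel. -/
structure Layer (L D C Y Y₀ : Subgroup G) : Prop where
  normal : Y.Normal
  normal₀ : Y₀.Normal
  le_derived : Y ≤ ⁅L, L⁆
  central : ∀ w ∈ Y, ∀ l ∈ L, ⁅w, l⁆ ∈ Y₀
  comm_mem : ∀ x ∈ C, ∀ y ∈ C, ⁅x, y⁆ ∈ Y
  fill : ∀ v ∈ linTriv Y Y₀, v ≠ 1 → ∀ d ∈ D, d ∉ Y →
    ∃ y ∈ D, ∃ h : ⁅d, y⁆ ∈ Y, v ⟨⁅d, y⁆, h⟩ ≠ 1

/-- A character of `L` lies over a linear character of the layer. -/
def Above (Y : Subgroup G) (hY : Y ≤ L) (θ : IrrCharacter L) (v : Y →* ℂˣ) : Prop :=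
  ∀ (w : Y) (g : L), (θ : L → ℂ) ((⟨w, hY w.2⟩ : L) * g) = (v w : ℂ) * (θ : L → ℂ) g

namespace Comp

variable {Y Y₀ : Subgroup G}

theorem layer_le (hl : Layer L D C Y Y₀) : Y ≤ L :=
  hl.le_derived.trans (Subgroup.commutator_le_self L)

theorem exists_above (c : Comp K L r) (hl : Layer L D C Y Y₀) [Fintype Y] [Y.Normal]
    {v : Y →* ℂˣ} (hv : v ∈ linTriv Y Y₀) :
    ∃ θ : IrrCharacter L, Above Y (layer_le hl) θ v := by
  let Y' : Subgroup L := Y.subgroupOf L
  haveI : Fintype Y' := Fintype.ofFinite _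
  let e : Y' ≃* Y := Subgroup.subgroupOfEquivOfLe (layer_le hl)
  let v' : Y' →* ℂˣ := v.comp e.toMonoidHom
  obtain ⟨θ, hθ⟩ := exists_over Y' (linIrr Y' v')
  have hinv : ∀ l : L, conjChar Y' (linFun v') l = linFun v' := fun l => funext fun y => by
    rw [conjChar_apply]
    refine congrArg (fun z : ℂˣ => (z : ℂ)) ?_
    rw [← mul_inv_eq_one, ← map_inv, ← map_mul]
    refine hv _ ?_
    show ((l : G) * (y : L) * (l : G)⁻¹) * ((y : L) : G)⁻¹ ∈ Y₀
    rw [← commutatorElement_def, ← commutatorElement_inv]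
    exact Y₀.inv_mem (hl.central _ y.2 _ l.2)
  have hres := res_eq_of_invariant Y' (θ := linFun v') θ.2 (isIrrCharacter_linear v') hinv hθ
  have h1 := congrFun hres 1
  rw [Pi.smul_apply, smul_eq_mul, linFun_apply, map_one, Units.val_one, mul_one,
    OneMemClass.coe_one] at h1
  refine ⟨θ, fun w g => ?_⟩
  have h2 : (θ : L → ℂ) (⟨w, layer_le hl w.2⟩ : L) = (θ : L → ℂ) 1 * (v w : ℂ) := by
    have h3 := congrFun hres (e.symm w)
    rw [Pi.smul_apply, smul_eq_mul, ← h1] at h3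
    refine h3.trans ?_
    rw [linFun_apply, show v' (e.symm w) = v w from congrArg v (e.apply_symm_apply w)]
  obtain ⟨s, -, hs⟩ := exists_scalar_of_commutator (θ := θ) (x := (⟨w, layer_le hl w.2⟩ : L))
    fun y => by
      have hmem : ⁅(w : G), (y : G)⁆ ∈ Y₀ := hl.central _ w.2 _ y.2
      have hY : ⁅(w : G), (y : G)⁆ ∈ Y := by
        rw [commutatorElement_def, show (w : G) * y * (w : G)⁻¹ * (y : G)⁻¹ =
          (w : G) * ((y : G) * (w : G)⁻¹ * (y : G)⁻¹) by group]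
        exact Y.mul_mem w.2 (hl.normal.conj_mem _ (Y.inv_mem w.2) _)
      have h4 := congrFun hres (e.symm ⟨_, hY⟩)
      rw [Pi.smul_apply, smul_eq_mul, ← h1] at h4
      refine Eq.trans (congrArg (θ : L → ℂ) (Subtype.ext ?_)) (h4.trans ?_)
      · rfl
      · rw [linFun_apply, show v' (e.symm ⟨_, hY⟩) = v ⟨_, hY⟩ from
          congrArg v (e.apply_symm_apply _), hv _ hmem, Units.val_one, mul_one]
  have h5 := hs 1
  rw [mul_one, h2, mul_comm] at h5
  rw [hs g, ← mul_right_cancel₀ (apply_one_ne_zero_of_isIrr θ.2) h5]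

variable {θ : IrrCharacter L} {v : Y →* ℂˣ}

theorem above_apply (hY : Y ≤ L) (hθ : Above Y hY θ v) (w : Y) :
    (θ : L → ℂ) ⟨w, hY w.2⟩ = (v w : ℂ) * (θ : L → ℂ) 1 := by
  have h := hθ w 1
  rwa [mul_one] at h

theorem above_nonlinear (c : Comp K L r) (hl : Layer L D C Y Y₀)
    (hθ : Above Y (layer_le hl) θ v) (hv1 : v ≠ 1) : charDegree (θ : L → ℂ) ≠ 1 := fun h1 => by
  obtain ⟨μ, hμ⟩ := exists_linFun_of_isCharacter (IsIrrCharacter.isCharacter θ.2)
    (by rw [apply_one, h1, Nat.cast_one])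
  refine hv1 (MonoidHom.ext fun w => Units.ext ?_)
  have h := above_apply _ hθ w
  rw [hμ, linFun_apply, linFun_apply, map_one, Units.val_one, mul_one,
    mem_derived_iff_forall.1 (hl.le_derived w.2) μ, Units.val_one] at h
  rw [← h, MonoidHom.one_apply, Units.val_one]

/-- The kernel of the layer character in the centralised part. -/
def Killed (Y : Subgroup G) (C : Subgroup G) (v : Y →* ℂˣ) (z : G) : Prop :=
  z ∈ C ∧ ∀ y ∈ C, ∀ h : ⁅z, y⁆ ∈ Y, v ⟨⁅z, y⁆, h⟩ = 1

theorem killed_commutator (hl : Layer L D C Y Y₀) (cd : CaminaData L r a D C)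
    (hθ : Above Y (layer_le hl) θ v) {z : G} (hz : Killed Y C v z) (l : L) :
    (θ : L → ℂ) ⁅(⟨z, cd.le hz.1⟩ : L), l⁆ = (θ : L → ℂ) 1 := by
  obtain ⟨d, hd, x, hx, he⟩ := cd.decomp _ l.2
  have hzx := hl.comm_mem z hz.1 x hx
  have hcomm : d * ⁅z, x⁆ = ⁅z, x⁆ * d := cd.comm d hd _ (by
    rw [commutatorElement_def]
    exact mul_mem (mul_mem (mul_mem hz.1 hx) (inv_mem hz.1)) (inv_mem hx))
  have e : ⁅(⟨z, cd.le hz.1⟩ : L), l⁆ = ⟨⁅z, x⁆, layer_le hl hzx⟩ := Subtype.ext (by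
    show ⁅z, (l : G)⁆ = ⁅z, x⁆
    rw [he, show ⁅z, d * x⁆ = ⁅z, d⁆ * (d * ⁅z, x⁆ * d⁻¹) by
      simp only [commutatorElement_def]; group, show ⁅z, d⁆ = 1 from
      commutatorElement_eq_one_iff_mul_comm.2 (cd.comm d hd z hz.1).symm, one_mul, hcomm,
      mul_inv_cancel_right])
  rw [e, above_apply _ hθ ⟨_, hzx⟩, hz.2 x hx hzx, Units.val_one, one_mul]

/-- Where the character does not vanish. -/
theorem norm_apply (hl : Layer L D C Y Y₀) (cd : CaminaData L r a D C)
    (hθ : Above Y (layer_le hl) θ v) {x : L} {w : Y} {z : G} (hz : Killed Y C v z)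
    (he : (x : G) = w * z) : ∃ s : ℂ, ‖s‖ = 1 ∧ (θ : L → ℂ) x = s * (θ : L → ℂ) 1 := by
  obtain ⟨s, hs, hsz⟩ := exists_scalar_of_commutator (θ := θ) (killed_commutator hl cd hθ hz)
  refine ⟨(v w : ℂ) * s, ?_, ?_⟩
  · rw [norm_mul, hs, mul_one]
    refine norm_eq_one_of_pow_eq_one' (Nat.card_pos (α := Y)).ne' ?_
    rw [← Units.val_pow_eq_pow_val, ← map_pow, pow_card_eq_one', map_one, Units.val_one]
  · rw [show x = (⟨w, layer_le hl w.2⟩ : L) * (⟨z, cd.le hz.1⟩ * 1) from Subtype.ext (by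
      rw [mul_one]; exact he), hθ, hsz, mul_assoc]

theorem vanish_layer (hDL : commutator G ≤ L) (hl : Layer L D C Y Y₀) (cd : CaminaData L r a D C) (hv : v ∈ linTriv Y Y₀)
    (hv1 : v ≠ 1) (hθ : Above Y (layer_le hl) θ v) {x : L}
    (hx : ¬ ∃ w : Y, ∃ z : G, Killed Y C v z ∧ (x : G) = w * z) : (θ : L → ℂ) x = 0 := by
  obtain ⟨d, hd, z, hz, he⟩ := cd.decomp _ x.2
  obtain ⟨t, htL, hmem, hne⟩ : ∃ t ∈ L, ∃ h : ⁅(x : G), t⁆ ∈ Y, v ⟨⁅(x : G), t⁆, h⟩ ≠ 1 := by
    by_cases hdY : d ∈ Y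
    · have hzK : ¬ Killed Y C v z := fun hK => hx ⟨⟨d, hdY⟩, z, hK, he⟩
      obtain ⟨y, hy, hyY, hne⟩ : ∃ y ∈ C, ∃ h : ⁅z, y⁆ ∈ Y, v ⟨⁅z, y⁆, h⟩ ≠ 1 := by
        by_contra hcon
        push Not at hcon
        exact hzK ⟨hz, hcon⟩
      have e : ⁅(x : G), y⁆ = ⁅z, y⁆ := by
        rw [he, show ⁅d * z, y⁆ = d * ⁅z, y⁆ * d⁻¹ * ⁅d, y⁆ by
          simp only [commutatorElement_def]; group, show ⁅d, y⁆ = 1 from
          commutatorElement_eq_one_iff_mul_comm.2 (cd.comm d hd y hy), mul_one,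
          cd.comm d hd ⁅z, y⁆ (by
            rw [commutatorElement_def]
            exact mul_mem (mul_mem (mul_mem hz hy) (inv_mem hz)) (inv_mem hy)),
          mul_inv_cancel_right]
      refine ⟨y, cd.le hy, e ▸ hyY, ?_⟩
      convert hne
    · obtain ⟨y, hy, hyY, hne⟩ := hl.fill v hv hv1 d hd hdY
      have e : ⁅(x : G), y⁆ = ⁅d, y⁆ := by
        rw [he, show ⁅d * z, y⁆ = d * ⁅z, y⁆ * d⁻¹ * ⁅d, y⁆ by
          simp only [commutatorElement_def]; group, show ⁅z, y⁆ = 1 from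
          commutatorElement_eq_one_iff_mul_comm.2 (cd.comm y hy z hz).symm, mul_one, mul_inv_cancel,
          one_mul]
      refine ⟨y, hDL (cd.eq_derived.ge hy), e ▸ hyY, ?_⟩
      convert hne
  set w : Y := ⟨⁅(x : G), t⁆, hmem⟩
  have h1 : (⟨t, htL⟩ : L) * x * (⟨t, htL⟩ : L)⁻¹ = (⟨(w⁻¹ : Y), layer_le hl (w⁻¹).2⟩ : L) * x :=
    Subtype.ext (by
      show t * (x : G) * t⁻¹ = (⁅(x : G), t⁆)⁻¹ * x
      rw [commutatorElement_def]; group)
  have h2 : (θ : L → ℂ) x = (v w⁻¹ : ℂ) * (θ : L → ℂ) x := by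
    rw [← hθ, ← h1, IsIrrCharacter.isClassFunction θ.2 x ⟨t, htL⟩]
  by_contra h0
  refine hne (inv_eq_one.1 (Units.ext ?_))
  rw [← map_inv]
  exact (mul_eq_right₀ h0).1 h2.symm

/-- The scalar part of a character. -/
def scalarPart (θ : IrrCharacter L) : Subgroup L :=
  haveI : (kerSubgroup ({θ} : Set (IrrCharacter L))).Normal := kerSubgroup_normal _
  (Subgroup.center (L ⧸ kerSubgroup ({θ} : Set (IrrCharacter L)))).comap
    (QuotientGroup.mk' (kerSubgroup ({θ} : Set (IrrCharacter L))))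

theorem normal_scalarPart (θ : IrrCharacter L) : (scalarPart θ).Normal :=
  haveI : (kerSubgroup ({θ} : Set (IrrCharacter L))).Normal := kerSubgroup_normal _
  Subgroup.normal_comap _

theorem mem_scalarPart {θ : IrrCharacter L} {x : L} :
    x ∈ scalarPart θ ↔ ∀ y, (θ : L → ℂ) ⁅x, y⁆ = (θ : L → ℂ) 1 := by
  haveI : (kerSubgroup ({θ} : Set (IrrCharacter L))).Normal := kerSubgroup_normal _
  rw [scalarPart, Subgroup.mem_comap, Subgroup.mem_center_iff]
  refine ⟨fun h y => ?_, fun h q => ?_⟩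
  · have h1 := h (y : L ⧸ kerSubgroup ({θ} : Set (IrrCharacter L)))
    rw [eq_comm, ← commutatorElement_eq_one_iff_mul_comm] at h1
    exact (QuotientGroup.eq_one_iff ⁅x, y⁆).1 h1 θ rfl
  · obtain ⟨y, rfl⟩ := QuotientGroup.mk_surjective q
    symm
    rw [← commutatorElement_eq_one_iff_mul_comm]
    refine (QuotientGroup.eq_one_iff ⁅x, y⁆).2 (mem_kerSubgroup.2 fun φ hφ => ?_)
    rw [Set.mem_singleton_iff.1 hφ]
    exact h y

theorem mem_scalarPart_iff (hDL : commutator G ≤ L) (hl : Layer L D C Y Y₀)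
    (cd : CaminaData L r a D C) (hv : v ∈ linTriv Y Y₀) (hv1 : v ≠ 1)
    (hθ : Above Y (layer_le hl) θ v) (x : L) :
    x ∈ scalarPart θ ↔ ∃ w : Y, ∃ z : G, Killed Y C v z ∧ (x : G) = w * z := by
  refine ⟨fun h => Classical.byContradiction fun hx => ?_, ?_⟩
  · exact Palfy.apply_ne_zero_of_commutator θ.2 x (mem_scalarPart.1 h)
      (vanish_layer hDL hl cd hv hv1 hθ hx)
  · rintro ⟨w, z, hz, he⟩
    rw [show x = (⟨w, layer_le hl w.2⟩ : L) * ⟨z, cd.le hz.1⟩ from Subtype.ext he]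
    refine mul_mem (mem_scalarPart.2 fun y => ?_) (mem_scalarPart.2 (killed_commutator hl cd hθ hz))
    have hmem : ⁅(w : G), (y : G)⁆ ∈ Y₀ := hl.central _ w.2 _ y.2
    have hY : ⁅(w : G), (y : G)⁆ ∈ Y := by
      rw [commutatorElement_def, show (w : G) * y * (w : G)⁻¹ * (y : G)⁻¹ =
        (w : G) * ((y : G) * (w : G)⁻¹ * (y : G)⁻¹) by group]
      exact Y.mul_mem w.2 (hl.normal.conj_mem _ (Y.inv_mem w.2) _)
    rw [show ⁅(⟨w, layer_le hl w.2⟩ : L), y⁆ = ⟨⁅(w : G), (y : G)⁆, layer_le hl hY⟩ from rfl,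
      above_apply _ hθ ⟨_, hY⟩, hv _ hmem, Units.val_one, one_mul]

theorem degree_sq (hDL : commutator G ≤ L) (hl : Layer L D C Y Y₀) (cd : CaminaData L r a D C)
    (hv : v ∈ linTriv Y Y₀) (hv1 : v ≠ 1) (hθ : Above Y (layer_le hl) θ v) :
    charDegree (θ : L → ℂ) * charDegree (θ : L → ℂ) = (scalarPart θ).index := by
  classical
  haveI : Fintype (scalarPart θ) := Fintype.ofFinite _
  have h := classInner_self_of_isIrr θ.2
  rw [classInner, inv_mul_eq_one₀ (Nat.cast_ne_zero.2 (Nat.card_pos (α := L)).ne')] at h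
  replace h := h.symm
  have hon : ∀ x ∈ scalarPart θ, (θ : L → ℂ) x * (starRingEnd ℂ) ((θ : L → ℂ) x) =
      (charDegree (θ : L → ℂ) : ℂ) * (charDegree (θ : L → ℂ) : ℂ) := by
    intro x hx
    obtain ⟨w, z, hz, he⟩ := (mem_scalarPart_iff hDL hl cd hv hv1 hθ x).1 hx
    obtain ⟨s, hs, hsx⟩ := norm_apply hl cd hθ hz he
    rw [hsx, apply_one, map_mul, Complex.conj_natCast, mul_mul_mul_comm, Complex.mul_conj', hs]
    norm_num
  rw [← Finset.sum_subset (Finset.filter_subset (fun x : L => x ∈ scalarPart θ) Finset.univ)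
    (fun x _ hx => by
      rw [vanish_layer hDL hl cd hv hv1 hθ fun h => hx (Finset.mem_filter.2 ⟨Finset.mem_univ _,
        (mem_scalarPart_iff hDL hl cd hv hv1 hθ x).2 h⟩), zero_mul]),
    Finset.sum_congr rfl (fun x hx => hon x (Finset.mem_filter.1 hx).2), Finset.sum_const,
    nsmul_eq_mul] at h
  have h2 : (Finset.univ.filter fun x : L => x ∈ scalarPart θ).card = Nat.card (scalarPart θ) :=
    (Nat.subtype_card _ fun x => by simp).symm
  rw [h2, ← (scalarPart θ).index_mul_card, Nat.cast_mul,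
    mul_comm ((scalarPart θ).index : ℂ)] at h
  exact_mod_cast mul_left_cancel₀ (Nat.cast_ne_zero.2 Nat.card_pos.ne') h

theorem degree_eq_pow [Fact r.Prime] (hcen : ∀ x ∈ L, (orderOf x).Coprime r → x ∈ Subgroup.center G)
    (hDL : commutator G ≤ L) (hl : Layer L D C Y Y₀) (cd : CaminaData L r a D C)
    (hv : v ∈ linTriv Y Y₀) (hv1 : v ≠ 1) (hθ : Above Y (layer_le hl) θ v) :
    ∃ i, charDegree (θ : L → ℂ) = r ^ i := by
  haveI := normal_scalarPart θ
  have hr : r.Prime := Fact.out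
  obtain ⟨n, hn⟩ := IsPGroup.iff_card.1 (show IsPGroup r (L ⧸ scalarPart θ) from fun q => by
    obtain ⟨x, rfl⟩ := QuotientGroup.mk_surjective q
    obtain ⟨e, m, hm, hord⟩ :=
      Nat.exists_eq_pow_mul_and_not_dvd (orderOf_pos (x : G)).ne' r hr.ne_one
    refine ⟨e, ?_⟩
    rw [← QuotientGroup.mk_pow, QuotientGroup.eq_one_iff]
    have hc : ((x ^ r ^ e : L) : G) ∈ Subgroup.center G := by
      refine hcen _ (x ^ r ^ e).2 (Nat.Coprime.coprime_dvd_left ?_
        (hr.coprime_iff_not_dvd.2 hm).symm)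
      refine orderOf_dvd_of_pow_eq_one ?_
      rw [SubmonoidClass.coe_pow, ← pow_mul, ← hord, pow_orderOf_eq_one]
    refine mem_scalarPart.2 fun y => ?_
    rw [show ⁅x ^ r ^ e, y⁆ = 1 from commutatorElement_eq_one_iff_mul_comm.2
      (Subtype.ext (Subgroup.mem_center_iff.1 hc (y : G)).symm)])
  have h := degree_sq hDL hl cd hv hv1 hθ
  rw [Subgroup.index_eq_card, hn] at h
  obtain ⟨i, -, hi⟩ := (Nat.dvd_prime_pow hr).1 (h ▸ dvd_mul_right _ _)
  exact ⟨i, hi⟩

theorem degree_congr (hDL : commutator G ≤ L) (hl : Layer L D C Y Y₀) (cd : CaminaData L r a D C)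
    {θ' : IrrCharacter L} {v' : Y →* ℂˣ}
    (hv : v ∈ linTriv Y Y₀) (hv1 : v ≠ 1) (hθ : Above Y (layer_le hl) θ v)
    (hv' : v' ∈ linTriv Y Y₀) (hv1' : v' ≠ 1) (hθ' : Above Y (layer_le hl) θ' v')
    (hagree : ∀ x ∈ C, ∀ y ∈ C, ∀ h : ⁅x, y⁆ ∈ Y, v ⟨⁅x, y⁆, h⟩ = v' ⟨⁅x, y⁆, h⟩) :
    charDegree (θ : L → ℂ) = charDegree (θ' : L → ℂ) := by
  have hK : ∀ z, Killed Y C v z ↔ Killed Y C v' z := fun z =>
    ⟨fun h => ⟨h.1, fun y hy hm => (hagree z h.1 y hy hm).symm.trans (h.2 y hy hm)⟩,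
      fun h => ⟨h.1, fun y hy hm => (hagree z h.1 y hy hm).trans (h.2 y hy hm)⟩⟩
  have hS : scalarPart θ = scalarPart θ' := Subgroup.ext fun x => by
    rw [mem_scalarPart_iff hDL hl cd hv hv1 hθ, mem_scalarPart_iff hDL hl cd hv' hv1' hθ']
    simp only [hK]
  have h1 := degree_sq hDL hl cd hv hv1 hθ
  rw [hS, ← degree_sq hDL hl cd hv' hv1' hθ'] at h1
  exact Nat.mul_self_inj.1 h1

theorem inertia_eq (hDL : commutator G ≤ L) (hl : Layer L D C Y Y₀) [Y.Normal] [Fintype Y]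
    (cd : CaminaData L r a D C) (hv : v ∈ linTriv Y Y₀) (hv1 : v ≠ 1)
    (hθ : Above Y (layer_le hl) θ v) :
    inertia L (θ : L → ℂ) = inertia Y (linFun v) := by
  have hYL := layer_le hl
  have hLv : ∀ l ∈ L, conjLin l v = v := fun l hl' => MonoidHom.ext fun w => by
    show v (MulAut.conjNormal l w) = v w
    rw [← mul_inv_eq_one, ← map_inv, ← map_mul]
    refine hv _ ?_
    rw [Subgroup.coe_mul, Subgroup.coe_inv, MulAut.conjNormal_apply, ← commutatorElement_def,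
      ← commutatorElement_inv]
    exact Y₀.inv_mem (hl.central _ w.2 _ hl')
  have hiff : ∀ i : ℕ, a ^ i ∈ inertia L (θ : L → ℂ) ↔ conjLin (a ^ i) v = v := by
    intro i
    set h := a ^ i with hh
    refine ⟨fun hI => MonoidHom.ext fun w => Units.ext ?_, fun hfix => ?_⟩
    · have h1 := congrFun ((mem_inertia L (θ : L → ℂ) h).1 hI) ⟨w, hYL w.2⟩
      rw [conjChar_apply, above_apply hYL hθ w] at h1
      have h2 := above_apply hYL hθ (MulAut.conjNormal h w)
      rw [show (⟨((MulAut.conjNormal h w : Y) : G), hYL (MulAut.conjNormal h w).2⟩ : L) =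
        ⟨h * (w : G) * h⁻¹, Subgroup.Normal.conj_mem inferInstance _ (hYL w.2) h⟩ from
        Subtype.ext (MulAut.conjNormal_apply h w), h1] at h2
      exact (mul_right_cancel₀ (apply_one_ne_zero_of_isIrr θ.2) h2).symm
    · rw [mem_inertia]
      funext x
      rw [conjChar_apply]
      have hz' : ∀ {z : G}, z ∈ C → h * z = z * h := fun {z} hz =>
        ((show Commute a z from cd.fix z hz).pow_left i).eq
      by_cases hx : ∃ w : Y, ∃ z : G, Killed Y C v z ∧ (x : G) = w * z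
      · obtain ⟨w, z, hz, he⟩ := hx
        have e1 : x = (⟨w, hYL w.2⟩ : L) * ⟨z, cd.le hz.1⟩ := Subtype.ext he
        have e2 : (⟨h * (x : G) * h⁻¹, Subgroup.Normal.conj_mem inferInstance _ x.2 h⟩ : L) =
            (⟨(MulAut.conjNormal h w : Y), hYL (MulAut.conjNormal h w).2⟩ : L) *
              ⟨z, cd.le hz.1⟩ := Subtype.ext (by
          show h * (x : G) * h⁻¹ = ((MulAut.conjNormal h w : Y) : G) * z
          rw [MulAut.conjNormal_apply, he, ← mul_assoc, mul_assoc _ z h⁻¹,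
            show z * h⁻¹ = h⁻¹ * z from
              ((show Commute h z from hz' hz.1).inv_left.eq).symm, mul_assoc (h * (w : G))])
        rw [e2, hθ]
        conv_rhs => rw [e1, hθ]
        rw [show v (MulAut.conjNormal h w) = v w from DFunLike.congr_fun hfix w]
      · rw [vanish_layer hDL hl cd hv hv1 hθ hx, vanish_layer hDL hl cd hv hv1 hθ]
        rintro ⟨w, z, hz, he⟩
        change h * (x : G) * h⁻¹ = w * z at he
        refine hx ⟨MulAut.conjNormal h⁻¹ w, z, hz, ?_⟩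
        rw [MulAut.conjNormal_apply, inv_inv, show (x : G) = h⁻¹ * (h * x * h⁻¹) * h by group, he,
          mul_assoc _ h z, hz' hz.1]
        group
  ext b
  obtain ⟨i, hi⟩ := cd.gen b
  have hb : b = a ^ i * ((a ^ i)⁻¹ * b) := (mul_inv_cancel_left _ _).symm
  have hl1 : (a ^ i)⁻¹ * b ∈ inertia L (θ : L → ℂ) :=
    le_inertia L (IsIrrCharacter.isClassFunction θ.2) hi
  have hl2 : (a ^ i)⁻¹ * b ∈ inertia Y (linFun v) := conjLin_eq_self_iff.1 (hLv _ hi)
  rw [hb, Subgroup.mul_mem_cancel_right _ hl1, Subgroup.mul_mem_cancel_right _ hl2, hiff,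
    conjLin_eq_self_iff]

theorem layer_degrees_eq [Fact r.Prime] (c : Comp K L r)
    (hcen : ∀ x ∈ L, (orderOf x).Coprime r → x ∈ Subgroup.center G) (hl : Layer L D C Y Y₀)
    [Y.Normal] [Y₀.Normal] [Fintype Y] (cd : CaminaData L r a D C)
    {θ θ' : IrrCharacter L} {v v' : Y →* ℂˣ} {χ χ' : IrrCharacter G}
    (hv : v ∈ linTriv Y Y₀) (hv1 : v ≠ 1) (hθ : Above Y (layer_le hl) θ v) (hχ : Over L χ θ)
    (hv' : v' ∈ linTriv Y Y₀) (hv1' : v' ≠ 1) (hθ' : Above Y (layer_le hl) θ' v')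
    (hχ' : Over L χ' θ') : charDegree (χ : G → ℂ) = charDegree (χ' : G → ℂ) := by
  classical
  have hr : r.Prime := Fact.out
  have hDL := c.comm_le
  have hYL := layer_le hl
  haveI := finite_lin Y
  set X := linTriv Y Y₀ with hX
  have hYp : ∀ w : Y, ∃ k, w ^ r ^ k = 1 := fun w => by
    have hwD : (w : G) ∈ D := by
      rw [← cd.eq_derived]
      exact Subgroup.commutator_mono le_top le_top (hl.le_derived w.2)
    obtain ⟨k, hk⟩ := cd.isPGroup ⟨_, hwD⟩
    exact ⟨k, Subtype.ext (by simpa using congrArg Subtype.val hk)⟩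
  have hLv : ∀ l ∈ L, ∀ u ∈ X, conjLin l u = u := fun l hl' u hu => MonoidHom.ext fun w => by
    show u (MulAut.conjNormal l w) = u w
    rw [← mul_inv_eq_one, ← map_inv, ← map_mul]
    refine hu _ ?_
    rw [Subgroup.coe_mul, Subgroup.coe_inv, MulAut.conjNormal_apply, ← commutatorElement_def,
      ← commutatorElement_inv]
    exact Y₀.inv_mem (hl.central _ w.2 _ hl')
  have hstab : ∀ (b : G) (u : Y →* ℂˣ), u ∈ X → conjLin b u ∈ X := fun b u hu =>
    conjLin_mem_linTriv b hu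
  have hdeltaX : ∀ (b : G), ∀ u ∈ X, delta b u ∈ X := fun b u hu => X.div_mem (hstab b u hu) hu
  have hcomm : ∀ (b b' : G), ∀ u ∈ X, conjLin b (conjLin b' u) = conjLin b' (conjLin b u) := by
    intro b b' u hu
    rw [conjLin_conjLin, conjLin_conjLin,
      show b' * b = (b' * b) * (b * b')⁻¹ * (b * b') by group, ← conjLin_conjLin,
      hLv _ (hDL ?_) u hu]
    rw [show (b' * b) * (b * b')⁻¹ = ⁅b', b⁆ by rw [commutatorElement_def]; group]
    exact Subgroup.commutator_mem_commutator (Subgroup.mem_top _) (Subgroup.mem_top _)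
  -- coprime action
  have hcop : ∀ (b : G), ∀ u ∈ X, conjLin b (delta b u) = delta b u → delta b u = 1 := by
    intro b u hu hfix
    refine MonoidHom.ext fun w => ?_
    obtain ⟨k, hk⟩ := hYp w
    have h1 : (delta b u w) ^ r ^ k = 1 := by rw [← map_pow, hk, map_one]
    have h2 : (delta b u) ^ L.index = 1 := by
      have h := conjLin_pow rfl hfix L.index
      rw [hLv _ (L.pow_index_mem b) u hu] at h
      exact (@mul_eq_right (Y →* ℂˣ) _ _ _ _).1 h.symm
    exact Subgroup.mem_bot.1 (Palfy.mem_of_pow_coprime (T := ⊥) (Subgroup.mem_bot.2 h1)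
      (Subgroup.mem_bot.2 (show (delta b u w) ^ L.index = 1 by
        rw [← MonoidHom.pow_apply, h2, MonoidHom.one_apply]))
      ((hr.coprime_iff_not_dvd.2 c.prime_not_dvd).pow_left k))
  have hinvtop : ∀ u ∈ X, conjLin a u = u → inertia Y (linFun u) = ⊤ := fun u hu h =>
    eq_top_iff.2 fun b _ => by
      obtain ⟨i, hi⟩ := cd.gen b
      rw [← mul_inv_cancel_left (a ^ i) b]
      exact mul_mem (pow_mem (conjLin_eq_self_iff.1 h) i)
        (conjLin_eq_self_iff.1 (hLv _ hi u hu))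
  have hCtriv : ∀ u ∈ X, ∀ x ∈ C, ∀ y ∈ C, ∀ h : ⁅x, y⁆ ∈ Y,
      delta a u ⟨⁅x, y⁆, h⟩ = 1 := fun u hu x hx y hy h => by
    rw [delta_apply, MonoidHom.div_apply, div_eq_one]
    refine congrArg u (Subtype.ext ?_)
    show ((MulAut.conjNormal a (⟨⁅x, y⁆, h⟩ : Y) : Y) : G) = ⁅x, y⁆
    rw [MulAut.conjNormal_apply, conjugate_commutatorElement, cd.fix x hx, cd.fix y hy,
      mul_inv_cancel_right, mul_inv_cancel_right]
  -- the degrees
  have hdeg : ∀ {u : Y →* ℂˣ} {φ : IrrCharacter L} {ψ : IrrCharacter G}, u ∈ X → u ≠ 1 →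
      Above Y hYL φ u → Over L ψ φ →
      charDegree (ψ : G → ℂ) = (inertia Y (linFun u)).index * charDegree (φ : L → ℂ) :=
    fun {u φ ψ} hu hu1 hφ hψ => by
      rw [degree_over c.cyclic hψ, inertia_eq hDL hl cd hu hu1 hφ]
  have hone : ∀ {u : Y →* ℂˣ} {φ : IrrCharacter L}, u ≠ 1 → Above Y hYL φ u →
      1 < charDegree (φ : L → ℂ) := fun {u φ} hu1 hφ => one_lt_degree (above_nonlinear c hl hφ hu1)
  have hdvd : L.index ≠ 0 := Subgroup.index_ne_zero_of_finite
  have e0 := hdeg hv hv1 hθ hχ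
  have e0' := hdeg hv' hv1' hθ' hχ'
  by_cases hA : ∃ u ∈ X, u ≠ 1 ∧ conjLin a u = u
  · obtain ⟨u₀, hu₀, hu₀1, hu₀a⟩ := hA
    have hallfix : ∀ u ∈ X, inertia Y (linFun u) = ⊤ := by
      intro u hu
      refine hinvtop u hu (Classical.byContradiction fun hmv => ?_)
      set μ := delta a u with hμ
      have hμ1 : μ ≠ 1 := fun h => hmv (delta_eq_one_iff.1 h)
      have hμa : conjLin a μ ≠ μ := fun h => hμ1 (hcop a u hu h)
      have hμX : μ ∈ X := hdeltaX a u hu
      have hw : u₀ * μ ∈ X := X.mul_mem hu₀ hμX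
      have hwa : conjLin a (u₀ * μ) ≠ u₀ * μ := fun h => hμa (by
        rw [map_mul, hu₀a] at h; exact mul_left_cancel h)
      have hw1 : u₀ * μ ≠ 1 := fun h => hwa (by rw [h, map_one])
      obtain ⟨φ₀, hφ₀⟩ := exists_above c hl hu₀
      obtain ⟨φ, hφ⟩ := exists_above c hl hw
      have hsame : charDegree (φ : L → ℂ) = charDegree (φ₀ : L → ℂ) :=
        degree_congr hDL hl cd hw hw1 hφ hu₀ hu₀1 hφ₀ fun x hx y hy h => by
          rw [MonoidHom.mul_apply, hCtriv u hu x hx y hy h, mul_one]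
      obtain ⟨ψ₀, hψ₀⟩ := exists_over L φ₀
      obtain ⟨ψ, hψ⟩ := exists_over L φ
      have e1 := hdeg hu₀ hu₀1 hφ₀ hψ₀
      rw [hinvtop u₀ hu₀ hu₀a, Subgroup.index_top, one_mul] at e1
      have e2 := hdeg hw hw1 hφ hψ
      have hidx : 1 < (inertia Y (linFun (u₀ * μ))).index :=
        Subgroup.one_lt_index_of_ne_top fun h => hwa
          (conjLin_eq_self_iff.2 (h.ge (Subgroup.mem_top a)))
      exact c.antichain.not_mul ⟨ψ₀, e1⟩ (hone hu₀1 hφ₀) hidx ⟨ψ, e2.trans (by rw [hsame])⟩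
    rw [hallfix v hv, Subgroup.index_top, one_mul] at e0
    rw [hallfix v' hv', Subgroup.index_top, one_mul] at e0'
    obtain ⟨i, hi⟩ := degree_eq_pow hcen hDL hl cd hv hv1 hθ
    obtain ⟨j, hj⟩ := degree_eq_pow hcen hDL hl cd hv' hv1' hθ'
    rcases le_total i j with h | h
    · exact c.antichain.eq_of_dvd (mem_degrees χ) (mem_degrees χ') (e0 ▸ hone hv1 hθ)
        (by rw [e0, e0', hi, hj]; exact pow_dvd_pow r h)
    · exact (c.antichain.eq_of_dvd (mem_degrees χ') (mem_degrees χ) (e0' ▸ hone hv1' hθ')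
        (by rw [e0, e0', hi, hj]; exact pow_dvd_pow r h)).symm
  -- no fixed characters
  push Not at hA
  have hsurj : ∀ u ∈ X, ∃ u' ∈ X, delta a u' = u := by
    let fX : X → X := fun u => ⟨delta a u.1, hdeltaX a u.1 u.2⟩
    have hfi : Function.Injective fX := fun p q hpq => by
      by_contra hne
      have h1 : delta a (p.1 / q.1) = 1 := by
        rw [map_div, show delta a p.1 = delta a q.1 from congrArg Subtype.val hpq, div_self']
      exact hA _ (X.div_mem p.2 q.2) (fun h => hne (Subtype.ext (div_eq_one.1 h)))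
        (delta_eq_one_iff.1 h1)
    intro u hu
    obtain ⟨p, hp⟩ := Finite.injective_iff_surjective.1 hfi ⟨u, hu⟩
    exact ⟨p.1, p.2, congrArg Subtype.val hp⟩
  have htriv : ∀ u ∈ X, ∀ x ∈ C, ∀ y ∈ C, ∀ h : ⁅x, y⁆ ∈ Y, u ⟨⁅x, y⁆, h⟩ = 1 := by
    intro u hu x hx y hy h
    obtain ⟨u', hu', rfl⟩ := hsurj u hu
    exact hCtriv u' hu' x hx y hy h
  -- the kernel of the action
  let Kk : Subgroup G :=
    { carrier := {b | ∀ u ∈ X, conjLin b u = u}
      one_mem' := fun u _ => conjLin_one u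
      mul_mem' := fun {p q} hp hq u hu => by rw [← conjLin_conjLin, hp u hu, hq u hu]
      inv_mem' := fun {p} hp u hu => by
        conv_lhs => rw [← hp u hu]
        rw [conjLin_conjLin, mul_inv_cancel, conjLin_one] }
  have hLK : L ≤ Kk := fun l hl' u hu => hLv l hl' u hu
  have hnormal : ∀ S : Subgroup G, L ≤ S → S.Normal := fun S hS => ⟨fun x hx b => by
    rw [show b * x * b⁻¹ = ⁅b, x⁆ * x by rw [commutatorElement_def, inv_mul_cancel_right]]
    exact S.mul_mem (hS (hDL (Subgroup.commutator_mem_commutator (Subgroup.mem_top _)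
      (Subgroup.mem_top _)))) hx⟩
  haveI := hnormal Kk hLK
  set n := Kk.index with hn
  have hn0 : n ≠ 0 := Subgroup.index_ne_zero_of_finite
  have hpowK : ∀ j, a ^ j ∈ Kk → n ∣ j := fun j hj => by
    have hz : ∀ x : G ⧸ Kk, x ∈ Subgroup.zpowers (a : G ⧸ Kk) := fun y => by
      obtain ⟨y, rfl⟩ := QuotientGroup.mk_surjective y
      obtain ⟨i, hi⟩ := cd.gen y
      exact ⟨(i : ℤ), by
        show (a : G ⧸ Kk) ^ (i : ℤ) = _
        rw [zpow_natCast, ← QuotientGroup.mk_pow]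
        exact QuotientGroup.eq.2 (hLK hi)⟩
    rw [hn, Subgroup.index_eq_card, ← orderOf_eq_card_of_forall_mem_zpowers hz,
      orderOf_dvd_iff_pow_eq_one, ← QuotientGroup.mk_pow, QuotientGroup.eq_one_iff]
    exact hj
  have hgen : ∀ S : Finset ℕ, S ⊆ n.primeFactors →
      ∃ u ∈ X, u ≠ 1 ∧ ∀ q ∈ S, conjLin (a ^ (n / q)) u ≠ u := by
    intro S
    induction S using Finset.induction with
    | empty => exact fun _ => ⟨v, hv, hv1, by simp⟩
    | insert q S hq ih =>
      intro hsub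
      obtain ⟨u, hu, hu1, hmv⟩ := ih fun p hp => hsub (Finset.mem_insert_of_mem hp)
      by_cases hqu : conjLin (a ^ (n / q)) u ≠ u
      · exact ⟨u, hu, hu1, fun p hp => (Finset.mem_insert.1 hp).elim (fun h => h ▸ hqu) (hmv p)⟩
      rw [ne_eq, not_not] at hqu
      have hqp : q.Prime := Nat.prime_of_mem_primeFactors (hsub (Finset.mem_insert_self _ _))
      have hqn : q ∣ n := Nat.dvd_of_mem_primeFactors (hsub (Finset.mem_insert_self _ _))
      set b := a ^ (n / q) with hb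
      obtain ⟨ν, hν, hνb⟩ : ∃ ν ∈ X, conjLin b ν ≠ ν := by
        by_contra hcon
        push Not at hcon
        exact absurd (Nat.le_of_dvd (Nat.div_pos (Nat.le_of_dvd (Nat.pos_of_ne_zero hn0) hqn)
          hqp.pos) (hpowK _ hcon))
          (not_le.2 (Nat.div_lt_self (Nat.pos_of_ne_zero hn0) hqp.one_lt))
      set μ := delta b ν with hμ
      have hμ1 : μ ≠ 1 := fun h => hνb (delta_eq_one_iff.1 h)
      have hμb : conjLin b μ ≠ μ := fun h => hμ1 (hcop b ν hν h)
      have hμX : μ ∈ X := hdeltaX b ν hν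
      have hb' : conjLin b (u * μ) ≠ u * μ := fun h => hμb (by
        rw [map_mul, hqu] at h; exact mul_left_cancel h)
      refine ⟨u * μ, X.mul_mem hu hμX, fun h => hb' (by rw [h, map_one]), fun p hp => ?_⟩
      rcases Finset.mem_insert.1 hp with rfl | hp
      · exact hb'
      intro hfix
      set b' := a ^ (n / p) with hb'd
      refine hmv p hp (delta_eq_one_iff.1 ?_)
      have h1 : delta b' u * delta b' μ = 1 := by
        rw [← map_mul]; exact delta_eq_one_iff.2 hfix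
      have h2 : delta b' μ = delta b (delta b' ν) := by
        rw [hμ, delta_apply b ν, delta_apply b' ν, map_div, map_div, delta_apply, delta_apply,
          delta_apply, delta_apply, hcomm b' b ν hν, div_div_div_comm]
      have h3 : conjLin b (delta b (delta b' ν)) = delta b (delta b' ν) := by
        rw [← h2, show delta b' μ = (delta b' u)⁻¹ from eq_inv_of_mul_eq_one_right h1, map_inv,
          delta_apply, map_div, hcomm b b' u hu, hqu]
      rw [h2, hcop b _ (hdeltaX b' ν hν) h3, mul_one] at h1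
      exact h1
  obtain ⟨u, hu, hu1, hmv⟩ := hgen n.primeFactors le_rfl
  set T := inertia Y (linFun u) with hT
  have hKT : Kk ≤ T := fun b hb => conjLin_eq_self_iff.1 (hb u hu)
  haveI := hnormal T (hLK.trans hKT)
  have hTn : T.index = n := by
    by_contra hne
    obtain ⟨k, hk⟩ := Subgroup.index_dvd_of_le hKT
    obtain ⟨q, hq, k', hk'⟩ := Nat.exists_prime_and_dvd (n := k) fun h => hne (by
      rw [hn, hk, h, mul_one])
    have hqn : q ∣ n := ⟨T.index * k', by rw [hn, hk, hk']; ring⟩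
    refine hmv q (Nat.mem_primeFactors.2 ⟨hq, hqn, hn0⟩) (conjLin_eq_self_iff.2 ?_)
    show a ^ (n / q) ∈ T
    rw [hn, hk, hk', show T.index * (q * k') = q * (T.index * k') by ring,
      Nat.mul_div_cancel_left _ hq.pos, pow_mul]
    exact T.pow_mem (T.pow_index_mem a) k'
  obtain ⟨φ, hφ⟩ := exists_above c hl hu
  obtain ⟨ψ, hψ⟩ := exists_over L φ
  have e := hdeg hu hu1 hφ hψ
  have key : ∀ {w : Y →* ℂˣ} {φ' : IrrCharacter L} {ψ' : IrrCharacter G}, w ∈ X → w ≠ 1 →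
      Above Y hYL φ' w → Over L ψ' φ' → charDegree (ψ' : G → ℂ) = charDegree (ψ : G → ℂ) := by
    intro w φ' ψ' hw hw1 hφ' hψ'
    have e' := hdeg hw hw1 hφ' hψ'
    have hsame := degree_congr hDL hl cd hw hw1 hφ' hu hu1 hφ fun x hx y hy h =>
      (htriv w hw x hx y hy h).trans (htriv u hu x hx y hy h).symm
    refine c.antichain.eq_of_dvd (mem_degrees ψ') (mem_degrees ψ) ?_ ?_
    · rw [e']
      exact lt_of_lt_of_le (hone hw1 hφ') (Nat.le_mul_of_pos_left _
        (Nat.pos_of_ne_zero Subgroup.index_ne_zero_of_finite))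
    · rw [e', e, hTn, hsame]
      exact Nat.mul_dvd_mul_right (Subgroup.index_dvd_of_le
        (show Kk ≤ inertia Y (linFun w) from fun b hb => conjLin_eq_self_iff.1 (hb w hw))) _
  rw [key hv hv1 hθ hχ, key hv' hv1' hθ' hχ']

end Comp

end CfsgLib.ZerosCodegree.Nondiv
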