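import Cfsg.Agent.Lib.ZerosCodegree.NondivisibilitySetup
import Cfsg.Agent.Lib.ZerosCodegree.PalfyCentral
import Cfsg.Agent.Lib.SmallGroups.DegreeVectors

/-!
# The critical configuration: linear characters of the subgroup

The linear characters moved by the cyclic quotient form a complement to the extendible ones on
which the quotient acts semiregularly, and twisting by them fixes every non-linear character.
-/

set_option autoImplicit false
set_option linter.style.haveILetI false
set_option linter.unusedSectionVars false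
set_option maxSynthPendingDepth 4

open scoped commutatorElement

namespace CfsgLib.ZerosCodegree.Nondiv

open Cfsg CfsgLib.CharTheory CfsgLib.Clifford CfsgLib.ZerosCodegree.RelGraph
open CfsgLib.ZerosCodegree.CyclicClifford

universe u

variable {H : Type u} [Group H] [Fintype H]

theorem finite_lin (A : Type*) [Group A] [Finite A] : Finite (A →* ℂˣ) := by
  haveI := Fintype.ofFinite A
  exact CfsgLib.SmallGroups.SelfCentral.finite_hom A

/-- Some character lies over a given one. -/
theorem exists_over (N : Subgroup H) [N.Normal] [Fintype N] (θ : IrrCharacter N) :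
    ∃ χ : IrrCharacter H, Over N χ θ := by
  obtain ⟨χ, hχ⟩ := CfsgLib.CharDegreesTheory.exists_constituent N θ
  refine ⟨χ, ?_⟩
  have h := CfsgLib.CharDegreesTheory.classInner_eq_mult N.subtype
    (IsIrrCharacter.isCharacter χ.2) θ
  show classInner (fun n : N => (χ : H → ℂ) n) (θ : N → ℂ) ≠ 0
  exact fun h0 => hχ (by exact_mod_cast h.symm.trans h0)

variable {N : Subgroup H} [N.Normal] [Fintype N]

/-- With cyclic quotient of order a degree, the stabiliser of a linear character is extremal. -/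
theorem inertia_linear (hA : Antichain H) (hcyc : IsCyclic (H ⧸ N))
    (hdeg : N.index ∈ charDegrees H) (v : N →* ℂˣ) :
    inertia N (linFun v) = N ∨ inertia N (linFun v) = ⊤ := by
  obtain ⟨χ, hχ⟩ := exists_over N (linIrr N v)
  have hd := degree_over hcyc hχ
  rw [charDegree_linIrr, mul_one] at hd
  have hle : N ≤ inertia N (linFun v) :=
    le_inertia N (IsIrrCharacter.isClassFunction (isIrrCharacter_linear v))
  rcases Nat.lt_or_ge 1 (inertia N (linFun v)).index with h | h
  · left
    refine le_antisymm (fun x hx => ?_) hle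
    have h1 : (inertia N (linFun v)).index = N.index :=
      hA.eq_of_dvd ⟨χ, hd⟩ hdeg h (Subgroup.index_dvd_of_le hle)
    have h2 : N = inertia N (linFun v) := Subgroup.eq_of_le_of_card_ge hle (le_of_eq (by
      have h3 := (inertia N (linFun v)).index_mul_card
      rw [h1, ← N.index_mul_card] at h3
      exact mul_left_cancel₀ Subgroup.index_ne_zero_of_finite h3))
    rw [h2]
    exact hx
  · right
    have h1 := Nat.pos_of_ne_zero (Subgroup.index_ne_zero_of_finite (H := inertia N (linFun v)))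
    exact Subgroup.index_eq_one.1 (by omega)

/-- An invariant linear character of a normal subgroup with cyclic quotient kills the derived
subgroup of the group. -/
theorem apply_commutator_of_invariant (hcyc : IsCyclic (H ⧸ N)) (v : N →* ℂˣ)
    (hv : inertia N (linFun v) = ⊤) {x : N} (hx : (x : H) ∈ commutator H) : v x = 1 := by
  obtain ⟨χ, hχ, hres⟩ := CfsgLib.RealChar.exists_extension_character_of_cyclic N hcyc _
    (isIrrCharacter_linear v) fun g n => by
      have h := congrFun ((mem_inertia N (linFun v) g).1 (hv.ge (Subgroup.mem_top g))) n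
      rw [conjChar_eq_comp] at h
      exact h
  have h1 : χ 1 = 1 := (hres 1).trans (by simp)
  obtain ⟨μ, hμ⟩ := exists_linFun_of_isCharacter (IsIrrCharacter.isCharacter hχ) h1
  refine Units.ext ((hres x).symm.trans ?_)
  rw [hμ, linFun_apply, MonoidHom.mem_ker.1 (Abelianization.commutator_subset_ker μ hx)]

/-- Elements of the normal subgroup fix its linear characters. -/
theorem conjLin_of_mem {a : H} (ha : a ∈ N) (v : N →* ℂˣ) : conjLin a v = v :=
  conjLin_eq_self_iff.2 (le_inertia N (IsIrrCharacter.isClassFunction (isIrrCharacter_linear v)) ha)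

theorem conjLin_conjLin (a b : H) (v : N →* ℂˣ) : conjLin b (conjLin a v) = conjLin (a * b) v :=
  MonoidHom.ext fun n => congrArg v (DFunLike.congr_fun (map_mul MulAut.conjNormal a b) n).symm

theorem conjLin_one (v : N →* ℂˣ) : conjLin (1 : H) v = v :=
  conjLin_of_mem N.one_mem v

/-- Elements congruent modulo the normal subgroup act alike. -/
theorem conjLin_congr {a b : H} (h : a⁻¹ * b ∈ N) (v : N →* ℂˣ) : conjLin b v = conjLin a v := by
  rw [show b = (a * (a⁻¹ * b) * a⁻¹) * a by group, ← conjLin_conjLin,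
    conjLin_of_mem (Subgroup.Normal.conj_mem inferInstance _ h a)]

/-- The derivation attached to an element. -/
noncomputable def delta (a : H) : (N →* ℂˣ) →* (N →* ℂˣ) where
  toFun v := conjLin a v / v
  map_one' := by rw [map_one, div_one]
  map_mul' v w := by rw [map_mul, mul_div_mul_comm]

theorem delta_apply (a : H) (v : N →* ℂˣ) : delta a v = conjLin a v / v := rfl

theorem delta_eq_one_iff {a : H} {v : N →* ℂˣ} : delta a v = 1 ↔ conjLin a v = v :=
  @div_eq_one (N →* ℂˣ) _ _ _

/-- If `a` fixes `η = delta a v`, its powers move `v` by powers of `η`. -/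
theorem conjLin_pow {a : H} {v η : N →* ℂˣ} (hη : delta a v = η) (hfix : conjLin a η = η) :
    ∀ i : ℕ, conjLin (a ^ i) v = η ^ i * v := by
  have h0 : conjLin a v = η * v := by rw [← hη, delta_apply, div_mul_cancel]
  intro i
  induction i with
  | zero => rw [pow_zero, conjLin_one, pow_zero, one_mul]
  | succ i ih =>
    rw [pow_succ, ← conjLin_conjLin, ih, map_mul, map_pow, hfix, h0, pow_succ, mul_assoc]

variable {σ : MulAut H} {l : ℕ} {B : Subgroup H} [B.Normal] [Fintype B]

namespace Crit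

theorem isCyclic (c : Crit σ l B) : IsCyclic (H ⧸ B) := isCyclic_quotient c.cyc

theorem index_mem (c : Crit σ l B) : B.index ∈ charDegrees H :=
  let ⟨β, h, _⟩ := c.witness; ⟨β, h⟩

theorem inertia_lin (c : Crit σ l B) (v : B →* ℂˣ) :
    inertia B (linFun v) = B ∨ inertia B (linFun v) = ⊤ :=
  inertia_linear c.antichain c.isCyclic c.index_mem v

theorem inertia_ne (c : Crit σ l B) (φ : IrrCharacter B) (hφ : charDegree (φ : B → ℂ) ≠ 1) :
    inertia B (φ : B → ℂ) ≠ B := fun h => by
  obtain ⟨χ, hχ⟩ := exists_over B φ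
  have hd := degree_over c.isCyclic hχ
  rw [h, mul_comm] at hd
  exact c.antichain.not_mul c.index_mem c.one_lt (one_lt_degree hφ) ⟨χ, hd⟩

theorem exists_fixer (c : Crit σ l B) (φ : IrrCharacter B) (hφ : charDegree (φ : B → ℂ) ≠ 1) :
    ∃ a, a ∉ B ∧ conjChar B (φ : B → ℂ) a = (φ : B → ℂ) := by
  by_contra hcon
  push Not at hcon
  refine c.inertia_ne φ hφ (le_antisymm (fun a ha => ?_)
    (le_inertia B (IsIrrCharacter.isClassFunction φ.2)))
  by_contra haB
  exact hcon a haB ((mem_inertia B _ a).1 ha)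

theorem inertia_le (c : Crit σ l B) (φ : IrrCharacter B) (hφ : charDegree (φ : B → ℂ) ≠ 1) :
    inertia B (φ : B → ℂ) ≤ fixMod σ := by
  obtain ⟨χ, hχ⟩ := exists_over B φ
  have hχ1 : charDegree (χ : H → ℂ) ≠ 1 := fun h => hφ (Nat.dvd_one.1 (h ▸ degree_dvd B hχ))
  intro a ha
  by_contra haW
  obtain ⟨μ, hμ, hμa⟩ := Palfy.exists_linear_sep (X := H) (commutator_le_fixMod σ) haW
  exact hμa (le_ker_of_twist c.isCyclic χ.2 φ.2 hχ μ (c.le.trans hμ)
    (c.twist χ hχ1 μ hμ) ha)

theorem commutator_ne (c : Crit σ l B) : commutator B ≠ ⊥ := fun h => c.nonab (by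
  rw [← Subgroup.map_subtype_commutator, h, Subgroup.map_bot])

theorem fixMod_ne (c : Crit σ l B) : fixMod σ ≠ B := fun h => by
  obtain ⟨φ, hφ⟩ := CfsgLib.Correspondences.exists_nonlinear c.commutator_ne
  obtain ⟨a, ha, hfix⟩ := c.exists_fixer φ hφ
  exact ha (h ▸ c.inertia_le φ hφ ((mem_inertia B _ a).2 hfix))

theorem not_prime_index (c : Crit σ l B) : ¬ B.index.Prime := fun hp => by
  rcases (Nat.dvd_prime hp).1 (Subgroup.index_dvd_of_le c.le) with h | h
  · obtain ⟨x, hx⟩ := c.moved
    exact hx (mem_fixMod.1 ((Subgroup.index_eq_one.1 h).ge (Subgroup.mem_top x)))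
  · refine c.fixMod_ne (Subgroup.eq_of_le_of_card_ge c.le (le_of_eq ?_)).symm
    have h3 := (fixMod σ).index_mul_card
    rw [h, ← B.index_mul_card] at h3
    exact mul_left_cancel₀ Subgroup.index_ne_zero_of_finite h3

theorem commutator_not_le (c : Crit σ l B) : ¬ commutator H ≤ ⁅B, B⁆ := fun h => by
  obtain ⟨β, hβ, hker⟩ := c.witness
  have h1 := CfsgLib.CyclicTI.apply_one_eq_one_of_commutator β.2 fun a ha => hker a (h ha)
  have h2 : charDegree (β : H → ℂ) = 1 := degree_eq (by rw [h1, Nat.cast_one])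
  have := c.one_lt
  omega

theorem derived_le (c : Crit σ l B) : ⁅B, B⁆ ≤ commutator H :=
  Subgroup.commutator_mono le_top le_top

theorem conjLin_comm (c : Crit σ l B) (a b : H) (v : B →* ℂˣ) :
    conjLin a (conjLin b v) = conjLin b (conjLin a v) := by
  rw [conjLin_conjLin, conjLin_conjLin]
  refine conjLin_congr ?_ v
  rw [show (a * b)⁻¹ * (b * a) = ⁅b⁻¹, a⁻¹⁆ by rw [commutatorElement_def]; group]
  exact c.comm (Subgroup.commutator_mem_commutator (Subgroup.mem_top _) (Subgroup.mem_top _))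

/-- A generator of the quotient. -/
noncomputable def gen (c : Crit σ l B) : H := c.cyc.choose

theorem gen_spec (c : Crit σ l B) (x : H) : ∃ n : ℕ, (c.gen ^ n)⁻¹ * x ∈ B :=
  c.cyc.choose_spec x

theorem gen_not_mem (c : Crit σ l B) : c.gen ∉ B := fun h => by
  have h1 : B = ⊤ := eq_top_iff.2 fun x _ => by
    obtain ⟨n, hn⟩ := c.gen_spec x
    exact (B.mul_mem_cancel_left (B.inv_mem (B.pow_mem h n))).1 hn
  exact c.one_lt.ne' (Subgroup.index_eq_one.2 h1)

theorem index_dvd_of_gen_pow (c : Crit σ l B) {i : ℕ} (h : c.gen ^ i ∈ B) : B.index ∣ i := by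
  have hz : ∀ x : H ⧸ B, x ∈ Subgroup.zpowers (c.gen : H ⧸ B) := fun y => by
    obtain ⟨y, rfl⟩ := QuotientGroup.mk_surjective y
    obtain ⟨n, hn⟩ := c.gen_spec y
    exact ⟨(n : ℤ), by
      show (c.gen : H ⧸ B) ^ (n : ℤ) = _
      rw [zpow_natCast, ← QuotientGroup.mk_pow]
      exact QuotientGroup.eq.2 hn⟩
  rw [show B.index = orderOf (c.gen : H ⧸ B) from (orderOf_eq_card_of_forall_mem_zpowers hz).symm,
    orderOf_dvd_iff_pow_eq_one, ← QuotientGroup.mk_pow, QuotientGroup.eq_one_iff]
  exact h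

theorem conjLin_of_ker (c : Crit σ l B) (v : B →* ℂˣ)
    (h : ∀ x : B, (x : H) ∈ commutator H → v x = 1) (a : H) : conjLin a v = v := by
  refine MonoidHom.ext fun x => ?_
  show v (MulAut.conjNormal a x) = v x
  rw [← mul_inv_eq_one, ← map_inv, ← map_mul]
  refine h _ ?_
  rw [Subgroup.coe_mul, Subgroup.coe_inv, MulAut.conjNormal_apply, ← commutatorElement_def]
  exact Subgroup.commutator_mem_commutator (Subgroup.mem_top _) (Subgroup.mem_top _)

theorem ker_delta (c : Crit σ l B) {v : B →* ℂˣ} (h : delta c.gen v = 1) {x : B}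
    (hx : (x : H) ∈ commutator H) : v x = 1 := by
  refine apply_commutator_of_invariant c.isCyclic v ?_ hx
  rcases c.inertia_lin v with h1 | h1
  · exact absurd (h1.le (conjLin_eq_self_iff.1 (delta_eq_one_iff.1 h))) c.gen_not_mem
  · exact h1

theorem range_inter_ker (c : Crit σ l B) {η v : B →* ℂˣ} (hv : delta c.gen v = η)
    (hη : delta c.gen η = 1) : η = 1 := by
  have hfix := delta_eq_one_iff.1 hη
  by_contra hne
  have hpow : η ^ B.index = 1 := by
    have h := conjLin_pow hv hfix B.index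
    rw [conjLin_of_mem (B.pow_index_mem c.gen)] at h
    exact (@mul_eq_right (B →* ℂˣ) _ _ _ _).1 h.symm
  have hq : (orderOf η).minFac.Prime := Nat.minFac_prime fun h => hne (orderOf_eq_one_iff.1 h)
  set q := (orderOf η).minFac with hqd
  obtain ⟨k, hk⟩ : q ∣ orderOf η := hqd ▸ Nat.minFac_dvd _
  have hw : delta c.gen (v ^ k) = η ^ k := by rw [map_pow, hv]
  have hfix' : conjLin c.gen (η ^ k) = η ^ k := by rw [map_pow, hfix]
  have hk1 : η ^ k ≠ 1 := fun h => by
    have h1 := Nat.le_of_dvd (Nat.pos_of_ne_zero fun h0 => by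
      rw [h0, mul_zero] at hk; exact (orderOf_pos_iff.2 (isOfFinOrder_iff_pow_eq_one.2
        ⟨B.index, Nat.pos_of_ne_zero Subgroup.index_ne_zero_of_finite, hpow⟩)).ne' hk)
      (orderOf_dvd_of_pow_eq_one h)
    rw [hk] at h1
    have h2 := hq.two_le
    rcases Nat.eq_zero_or_pos k with rfl | hk0
    · exact (orderOf_pos_iff.2 (isOfFinOrder_iff_pow_eq_one.2 ⟨B.index,
        Nat.pos_of_ne_zero Subgroup.index_ne_zero_of_finite, hpow⟩)).ne' (by rw [hk, mul_zero])
    · nlinarith
  have hq1 : conjLin (c.gen ^ q) (v ^ k) = v ^ k := by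
    rw [conjLin_pow hw hfix', ← pow_mul, mul_comm k, ← hk, pow_orderOf_eq_one, one_mul]
  rcases c.inertia_lin (v ^ k) with h1 | h1
  · have h2 := c.index_dvd_of_gen_pow (h1.le (conjLin_eq_self_iff.1 hq1))
    exact c.not_prime_index (((Nat.dvd_prime hq).1 h2).resolve_left c.one_lt.ne' ▸ hq)
  · refine hk1 ?_
    rw [← hw, delta_eq_one_iff, conjLin_eq_self_iff, h1]
    exact Subgroup.mem_top _

/-- The moved linear characters. -/
noncomputable def moved' (c : Crit σ l B) : Subgroup (B →* ℂˣ) := (delta c.gen).range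

theorem moved'_stable (c : Crit σ l B) (a : H) : ∀ v ∈ c.moved', conjLin a v ∈ c.moved' := by
  rintro _ ⟨v, rfl⟩
  exact ⟨conjLin a v, by rw [delta_apply, delta_apply, map_div, c.conjLin_comm]⟩

theorem moved'_fpf (c : Crit σ l B) (a : H) (ha : a ∉ B) :
    ∀ v ∈ c.moved', conjLin a v = v → v = 1 := by
  rintro _ ⟨v, rfl⟩ hfix
  refine c.range_inter_ker rfl (delta_eq_one_iff.2 ?_)
  rcases c.inertia_lin (delta c.gen v) with h | h
  · exact absurd (h.le (conjLin_eq_self_iff.1 hfix)) ha
  · exact conjLin_eq_self_iff.2 (h.ge (Subgroup.mem_top _))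

theorem moved'_eq_of_res (c : Crit σ l B) {v w : B →* ℂˣ} (hv : v ∈ c.moved') (hw : w ∈ c.moved')
    (h : ∀ x : B, (x : H) ∈ commutator H → v x = w x) : v = w := by
  obtain ⟨u, hu⟩ := c.moved'.div_mem hv hw
  refine div_eq_one.1 (c.range_inter_ker hu (delta_eq_one_iff.2 (c.conjLin_of_ker _ (fun x hx => ?_) _)))
  rw [MonoidHom.div_apply, h x hx, div_self']

theorem finite_moved' (c : Crit σ l B) : Finite c.moved' :=
  haveI := finite_lin B
  inferInstance

theorem separates (c : Crit σ l B) {x : B} (hx : (x : H) ∈ commutator H)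
    (hxZ : (x : H) ∉ ⁅B, B⁆) : ∃ v ∈ c.moved', v x ≠ 1 := by
  haveI := c.finite_moved'
  obtain ⟨μ, -, hμ⟩ := Palfy.exists_linear_sep (X := B) (A := commutator B) le_rfl (x := x) fun h =>
    hxZ (by rw [← Subgroup.map_subtype_commutator]; exact ⟨x, h, rfl⟩)
  let f : c.moved' → c.moved' := fun v => ⟨delta c.gen v.1, ⟨v.1, rfl⟩⟩
  have hf : Function.Injective f := fun a b h => by
    have h1 : delta c.gen (a.1 / b.1) = 1 := by
      rw [map_div, show delta c.gen a.1 = delta c.gen b.1 from congrArg Subtype.val h, div_self']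
    obtain ⟨u, hu⟩ := c.moved'.div_mem a.2 b.2
    exact Subtype.ext (div_eq_one.1 (c.range_inter_ker hu h1))
  obtain ⟨η, hη⟩ := Finite.injective_iff_surjective.1 hf ⟨delta c.gen μ, ⟨μ, rfl⟩⟩
  refine ⟨η.1, η.2, fun h => hμ ?_⟩
  have h1 : delta c.gen (μ / η.1) = 1 := by
    rw [map_div, show delta c.gen η.1 = delta c.gen μ from congrArg Subtype.val hη, div_self']
  have h2 := c.ker_delta h1 hx
  rwa [MonoidHom.div_apply, div_eq_one, h] at h2

theorem twist_moved' (c : Crit σ l B) (φ : IrrCharacter B) (hφ : charDegree (φ : B → ℂ) ≠ 1) :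
    ∀ v ∈ c.moved', linFun v * (φ : B → ℂ) = (φ : B → ℂ) := by
  haveI := c.finite_moved'
  refine mul_eq_self_of_fixed c.isCyclic (IsIrrCharacter.isClassFunction φ.2) c.moved'
    c.moved'_stable c.moved'_fpf fun v _ => ?_
  exact c.exists_fixer ⟨_, isIrrCharacter_linFun_mul v φ.2⟩ (by
    rwa [show charDegree ((⟨_, isIrrCharacter_linFun_mul v φ.2⟩ : IrrCharacter B) : B → ℂ) =
      charDegree (φ : B → ℂ) from nonlinear_twist v φ])

/-- A subgroup containing the commutators of an element of `D ∖ Z` with `B` contains `Z`. -/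
theorem derived_le_of_commutators (c : Crit σ l B) {x : H} (hx : x ∈ commutator H)
    (hxZ : x ∉ ⁅B, B⁆) (R : Subgroup H) (hR : ∀ b ∈ B, ∀ z ∈ R, b * z * b⁻¹ ∈ R)
    (h : ∀ y ∈ B, ⁅x, y⁆ ∈ R) : ⁅B, B⁆ ≤ R := by
  haveI : (R.subgroupOf B).Normal := ⟨fun z hz b => hR b b.2 z hz⟩
  by_contra hcon
  have h1 : ¬ commutator B ≤ R.subgroupOf B := fun h1 => hcon (by
    rw [← Subgroup.map_subtype_commutator]
    exact Subgroup.map_le_iff_le_comap.2 h1)
  obtain ⟨φ, hφR, hφ⟩ := exists_nonlinear_of_not_le (R.subgroupOf B) h1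
  obtain ⟨v, hv, hvx⟩ := c.separates (x := ⟨x, c.comm hx⟩) hx hxZ
  have h2 := congrFun (c.twist_moved' φ hφ.ne' v hv) ⟨x, c.comm hx⟩
  have h3 : (φ : B → ℂ) ⟨x, c.comm hx⟩ ≠ 0 :=
    Palfy.apply_ne_zero_of_commutator φ.2 _ fun y => hφR _ (h y y.2)
  rw [Pi.mul_apply, linFun_apply] at h2
  exact hvx (Units.ext ((mul_eq_right₀ h3).1 h2))

end Crit

end CfsgLib.ZerosCodegree.Nondiv
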