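import Cfsg.Agent.Lib.ZerosCodegree.NondivisibilityCentralCase
import Cfsg.Agent.Lib.ZerosCodegree.CaminaFPF
import Cfsg.Agent.Lib.ZerosCodegree.NondivisibilityAbelian

/-!
# Degree sets without divisibility: the complement is central

The quotient by the normal complement is a group of the central case, and a Sylow subgroup of the
preimage of its derived subgroup is a Camina group acting without fixed points on the meet of the
complement with the derived subgroup of the kernel, which is therefore trivial.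
-/

set_option autoImplicit false
set_option linter.style.haveILetI false
set_option linter.unusedSectionVars false
set_option maxSynthPendingDepth 4

open scoped commutatorElement

namespace CfsgLib.ZerosCodegree.Nondiv

open Cfsg CfsgLib.CharTheory CfsgLib.Clifford CfsgLib.ZerosCodegree.RelGraph
open CfsgLib.ZerosCodegree.CyclicClifford

universe u

variable {G : Type u} [Group G] [Fintype G]

theorem antichain_quotient (hA : Antichain G) (N : Subgroup G) [N.Normal] :
    Antichain (G ⧸ N) := by
  have hsub : ∀ d ∈ charDegrees (G ⧸ N), d ∈ charDegrees G := by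
    rintro _ ⟨β, rfl⟩
    exact ⟨⟨_, isIrrCharacter_comp β.2 (f := QuotientGroup.mk' N)
      (QuotientGroup.mk'_surjective N)⟩, degree_eq (apply_one β)⟩
  exact fun a ha b hb => hA a (hsub a ha) b (hsub b hb)

theorem frobQuot_map {K L : Subgroup G} {r : ℕ} (hF : FrobQuot K L r) (N : Subgroup G) [N.Normal]
    (hNK : N ≤ K) : FrobQuot (K.map (QuotientGroup.mk' N)) (L.map (QuotientGroup.mk' N)) r := by
  haveI := hF.normalK
  haveI := hF.normalL
  set q := QuotientGroup.mk' N
  have hs : Function.Surjective q := QuotientGroup.mk'_surjective N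
  have hker : q.ker = N := QuotientGroup.ker_mk' N
  have hK : (K.map q).comap q = K := by rw [Subgroup.comap_map_eq, hker, sup_eq_left.2 hNK]
  have hidx : (L.map q).index = L.index :=
    Subgroup.index_map_eq _ hs (hker.le.trans (hNK.trans hF.le))
  refine ⟨inferInstance, inferInstance, Subgroup.map_mono hF.le, hF.prime, ?_, ?_, ?_, ?_, ?_,
    hidx ▸ hF.cop, hidx ▸ hF.one_lt, ?_, ?_⟩
  · rw [commutator_def, ← Subgroup.map_top_of_surjective q hs, ← Subgroup.map_commutator]
    exact Subgroup.map_mono hF.comm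
  · rw [commutator_def, ← Subgroup.map_top_of_surjective q hs, ← Subgroup.map_commutator,
      ← Subgroup.map_sup]
    exact Subgroup.map_mono hF.derived
  · rw [← Subgroup.map_commutator]
    exact Subgroup.map_mono hF.Lcomm
  · rintro _ ⟨x, hx, rfl⟩
    exact ⟨x ^ r, hF.pow x hx, map_pow q x r⟩
  · exact fun h => hF.notLE ((Subgroup.map_le_iff_le_comap.1 h).trans hK.le)
  · obtain ⟨g, hg⟩ := hF.cyc
    refine ⟨q g, fun y => ?_⟩
    obtain ⟨x, rfl⟩ := hs y
    obtain ⟨n, hn⟩ := hg x
    exact ⟨n, _, hn, by rw [map_mul, map_inv, map_pow]⟩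
  · intro g hg x hx hgx
    obtain ⟨g, rfl⟩ := hs g
    obtain ⟨x, hx', rfl⟩ := hx
    rw [← map_commutatorElement] at hgx
    exact ⟨x, hF.fpf g (fun h => hg ⟨g, h, rfl⟩) x hx' (hK.le hgx), rfl⟩

variable {K L : Subgroup G} {r : ℕ} [L.Normal] [Fintype L]

namespace Comp

/-- The Frobenius prime divides the derived subgroup of the kernel. -/
theorem bounded_of_dvd (c : Comp K L r) (hr : r ∣ Nat.card (⁅L, L⁆ : Subgroup G))
    (hsolv : Group.IsSolvable G) : Bounded G := by
  classical
  haveI := hsolv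
  have hr' := c.frob.prime
  haveI := Fact.mk hr'
  obtain ⟨x₁, k₁, hx₁, hx₁F, hx₁k⟩ := c.exists_moved
  obtain ⟨N, hN, hNL, hNcop, hNpow, hNmem⟩ := c.exists_complement hr' hx₁ hx₁F hx₁k
  haveI := hN
  haveI := c.frob.normalK
  have hNord : ∀ y ∈ N, (orderOf y).Coprime r := fun y hy =>
    Nat.Coprime.coprime_dvd_left (N.orderOf_mk y hy ▸ orderOf_dvd_natCard (⟨y, hy⟩ : N)) hNcop
  have hN0 : ∀ y ∈ N, y ∈ c.fix0 := fun y hy =>
    c.mem_fix0_of_coprime hr' hx₁ hx₁F hx₁k hr (hNL hy) (hNord y hy)
  have hNK : N ≤ K := fun y hy => Palfy.mem_of_pow_coprime (b := r) (by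
    rw [pow_orderOf_eq_one]; exact K.one_mem) (c.frob.pow y (hNL hy)) (hNord y hy)
  set q := QuotientGroup.mk' N with hq
  haveI : Fintype (G ⧸ N) := Fintype.ofFinite _
  haveI : Fintype (L.map q) := Fintype.ofFinite _
  have hidx : (L.map q).index = L.index :=
    Subgroup.index_map_eq _ (QuotientGroup.mk'_surjective N) (by rw [QuotientGroup.ker_mk']; exact hNL)
  have c' : Comp (K.map q) (L.map q) r :=
    ⟨antichain_quotient c.antichain N, frobQuot_map c.frob N hNK, hidx ▸ c.notPrime⟩
  have hr2 : r ∣ Nat.card (⁅L.map q, L.map q⁆ : Subgroup (G ⧸ N)) := by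
    rw [← Subgroup.map_commutator]
    have h1 : Nat.card ((⁅L, L⁆ : Subgroup G).map q) = N.relIndex ⁅L, L⁆ := by
      rw [← Subgroup.relIndex_ker, QuotientGroup.ker_mk']
    have h2 := (N.subgroupOf (⁅L, L⁆ : Subgroup G)).index_mul_card
    rw [show (N.subgroupOf (⁅L, L⁆ : Subgroup G)).index = N.relIndex ⁅L, L⁆ from rfl, ← h1] at h2
    have h3 : Nat.card (N.subgroupOf (⁅L, L⁆ : Subgroup G)) ∣ Nat.card N :=
      Subgroup.card_comap_dvd_of_injective N _ Subtype.coe_injective
    exact (Nat.Coprime.dvd_of_dvd_mul_right (Nat.Coprime.coprime_dvd_right h3 hNcop.symm)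
      (h2 ▸ hr))
  have hcen' : ∀ y ∈ L.map q, (orderOf y).Coprime r → y ∈ Subgroup.center (G ⧸ N) := by
    rintro _ ⟨x, hx, rfl⟩ hy
    obtain ⟨j, hj⟩ := hNpow x hx
    have h1 : q x = 1 := Subgroup.mem_bot.1 (Palfy.mem_of_pow_coprime (T := ⊥) (b := r ^ j)
      (Subgroup.mem_bot.2 (pow_orderOf_eq_one _))
      (Subgroup.mem_bot.2 (by rw [← map_pow]; exact (QuotientGroup.eq_one_iff _).2 hj))
      (hy.pow_right j))
    rw [h1]
    exact one_mem _
  obtain ⟨a, D, C, cd⟩ := c'.exists_caminaData hr2 hcen'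
  haveI hDn : D.Normal := by rw [← cd.eq_derived]; infer_instance
  have hDL : D ≤ L.map q := cd.eq_derived ▸ c'.comm_le
  -- a Sylow subgroup of the preimage
  set S := D.comap q with hS
  have hSL : S ≤ L := fun x hx => by
    obtain ⟨y, hy, hyx⟩ := hDL hx
    have h1 : y⁻¹ * x ∈ N := QuotientGroup.eq.1 hyx
    exact (L.mul_mem_cancel_left (L.inv_mem hy)).1 (hNL h1)
  have hfs : Function.Surjective (q.subgroupComap D) :=
    q.subgroupComap_surjective_of_surjective D (QuotientGroup.mk'_surjective N)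
  obtain ⟨Q⟩ : Nonempty (Sylow r S) := inferInstance
  set P : Subgroup G := (Q : Subgroup S).map S.subtype with hP
  have hPp : IsPGroup r P := Q.2.map _
  have hQtop : ((Q.mapSurjective hfs : Sylow r D) : Subgroup D) = ⊤ :=
    ((Q.mapSurjective hfs).3 (cd.isPGroup.of_equiv Subgroup.topEquiv.symm) le_top).symm
  have hPD : ∀ x ∈ P, q x ∈ D := by
    rintro _ ⟨x, -, rfl⟩
    exact x.2
  let f : P →* D := (q.comp P.subtype).codRestrict D fun x => hPD x x.2
  have hfinj : Function.Injective f := by
    rw [← MonoidHom.ker_eq_bot_iff, eq_bot_iff]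
    intro x hx
    have h1 : (x : G) ∈ N := (QuotientGroup.eq_one_iff (x : G)).1
      (show q (x : G) = 1 from congrArg Subtype.val hx)
    obtain ⟨k, hk⟩ := hPp x
    exact Subgroup.mem_bot.2 (orderOf_eq_one_iff.1 (Nat.eq_one_of_dvd_coprimes
      (((Nat.Coprime.pow_left k (hNord _ h1).symm))) (orderOf_dvd_of_pow_eq_one hk)
      (Subgroup.orderOf_coe x ▸ dvd_rfl)))
  have hfsurj : Function.Surjective f := fun y => by
    obtain ⟨x, hx, hxy⟩ := (show y ∈ ((Q.mapSurjective hfs : Sylow r D) : Subgroup D) from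
      hQtop ▸ Subgroup.mem_top y)
    exact ⟨⟨x, x, hx, rfl⟩, Subtype.ext (congrArg Subtype.val hxy)⟩
  have hfder : (commutator P).map f = commutator D := by
    rw [commutator_def, Subgroup.map_commutator, Subgroup.map_top_of_surjective _ hfsurj,
      commutator_def]
  have hmemP : ∀ {x : P}, x ∈ commutator P ↔ f x ∈ commutator D := fun {x} => by
    rw [← hfder]; exact (Subgroup.mem_map_iff_mem hfinj).symm
  have hCam : Camina.IsCamina P := fun x hx w hw => by
    obtain ⟨y, hy⟩ := cd.camina (f x) (fun h => hx (hmemP.2 h)) (f w) (hmemP.1 hw)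
    obtain ⟨y, rfl⟩ := hfsurj y
    exact ⟨y, hfinj (by rw [map_commutatorElement, hy])⟩
  have hDne : commutator D ≠ ⊥ := fun h => by
    have h1 : (⁅D, D⁆ : Subgroup (G ⧸ N)) = ⊥ := by
      rw [← Subgroup.map_subtype_commutator, h, Subgroup.map_bot]
    rw [cd.derived] at h1
    rw [h1, Subgroup.card_bot, Nat.dvd_one] at hr2
    exact hr'.ne_one hr2
  have hPne : commutator P ≠ ⊥ := fun h => hDne (by rw [← hfder, h, Subgroup.map_bot])
  have haL : a ∉ L.map q := fun h => c'.gen_not_mem (by
    obtain ⟨n, hn⟩ := cd.gen c'.gen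
    exact ((L.map q).mul_mem_cancel_left ((L.map q).inv_mem ((L.map q).pow_mem h n))).1 hn)
  have hmoved : ∀ y : D, y ∉ commutator D → ∀ b : G ⧸ N, b ∉ L.map q →
      ⁅b, (y : G ⧸ N)⁆ ∉ ⁅L.map q, L.map q⁆ := fun y hy b hb h =>
    hy (mem_commutator_subtype.2 (cd.derived.ge (c'.mem_derived_of_fix0
      ((c'.mem_fix0_iff hb (hDL y.2)).2 h) (cd.eq_derived.ge y.2))))
  have hsize : r = 2 → 4 < (commutator P).index := fun _ => by
    have hidxP : (commutator P).index = (commutator D).index := by
      rw [← hfder, Subgroup.index_map_eq _ hfsurj]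
      rw [(MonoidHom.ker_eq_bot_iff f).2 hfinj]
      exact bot_le
    obtain ⟨y, -, hy⟩ := SetLike.exists_of_lt (lt_of_le_of_ne (le_top : commutator D ≤ ⊤)
      (haveI : Nontrivial D := by
        by_contra hsub
        rw [not_nontrivial_iff_subsingleton] at hsub
        exact hDne (Subsingleton.elim _ _)
       Camina.derived_ne_top cd.isPGroup))
    let φ : Fin L.index → {z : D ⧸ commutator D // z ≠ 1} := fun i =>
      ⟨((MulAut.conjNormal (a ^ (i : ℕ)) y : D) : D ⧸ commutator D), fun h => hy (by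
        have h1 := mem_commutator_subtype.1 ((QuotientGroup.eq_one_iff _).1 h)
        rw [MulAut.conjNormal_apply] at h1
        refine mem_commutator_subtype.2 ?_
        have h2 := Subgroup.Normal.conj_mem inferInstance _ h1 (a ^ (i : ℕ))⁻¹
        simpa [mul_assoc] using h2)⟩
    have hind : ∀ d : ℕ, a ^ d ∈ L.map q → (L.map q).index ∣ d := fun d hd => by
      have hz : ∀ x : (G ⧸ N) ⧸ L.map q, x ∈ Subgroup.zpowers (a : (G ⧸ N) ⧸ L.map q) := fun z => by
        obtain ⟨z, rfl⟩ := QuotientGroup.mk_surjective z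
        obtain ⟨n, hn⟩ := cd.gen z
        exact ⟨(n : ℤ), by
          show (a : (G ⧸ N) ⧸ L.map q) ^ (n : ℤ) = _
          rw [zpow_natCast, ← QuotientGroup.mk_pow]
          exact QuotientGroup.eq.2 hn⟩
      rw [Subgroup.index_eq_card, ← orderOf_eq_card_of_forall_mem_zpowers hz,
        orderOf_dvd_iff_pow_eq_one, ← QuotientGroup.mk_pow, QuotientGroup.eq_one_iff]
      exact hd
    have hφ : Function.Injective φ := by
      suffices hlt : ∀ i j : Fin L.index, (i : ℕ) < j → φ i ≠ φ j by
        intro i j h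
        rcases lt_trichotomy (i : ℕ) j with h1 | h1 | h1
        exacts [absurd h (hlt i j h1), Fin.ext h1, absurd h.symm (hlt j i h1)]
      intro i j hij h
      obtain ⟨d, hd⟩ := Nat.exists_eq_add_of_le hij.le
      have h1 := mem_commutator_subtype.1 ((QuotientGroup.eq (s := commutator D)).1 (congrArg Subtype.val h))
      rw [Subgroup.coe_mul, Subgroup.coe_inv, MulAut.conjNormal_apply, MulAut.conjNormal_apply,
        hd, pow_add] at h1
      have h2 := Subgroup.Normal.conj_mem inferInstance _ h1 (a ^ (i : ℕ))⁻¹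
      have h3 : ⁅a ^ d, (y : G ⧸ N)⁆ ∈ ⁅D, D⁆ := by
        have h4 := Subgroup.Normal.conj_mem inferInstance _ h2 (y : G ⧸ N)
        convert h4 using 1
        simp only [commutatorElement_def]
        group
      refine hmoved y hy (a ^ d) (fun hm => ?_) (cd.derived.le h3)
      have h4 := Nat.le_of_dvd (by omega) (hidx ▸ hind d hm)
      have := j.2
      omega
    have hcard := Nat.card_le_card_of_injective φ hφ
    haveI : Fintype (D ⧸ commutator D) := Fintype.ofFinite _
    rw [Nat.card_fin, Nat.card_eq_fintype_card, Fintype.card_subtype_compl,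
      Fintype.card_subtype_eq, ← Nat.card_eq_fintype_card, ← Subgroup.index_eq_card] at hcard
    have hf4 : 4 ≤ L.index := by
      have h1 := c.frob.one_lt
      have h2 := c.notPrime
      by_contra hlt
      interval_cases L.index <;> first | omega | exact h2 (by norm_num)
    omega
  -- the fixed point free action
  set W : Subgroup G := N ⊓ ⁅L, L⁆ with hW
  have hWbot : W = ⊥ := by
    refine Camina.eq_bot_of_fpf hPp (le_top.trans (Subgroup.normalizer_eq_top_iff.2 inferInstance).ge)
      (hNcop.coprime_dvd_left (Subgroup.card_dvd_of_le inf_le_left))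
      (inferInstance) hCam hPne hsize ?_
    intro x hx z hz hxz
    have hxS : (x : G) ∈ S := hPD x x.2
    have hxL : (x : G) ∈ L := hSL hxS
    have hxF : (x : G) ∉ c.fix0 := fun h => hmoved (f x) (fun h' => hx (hmemP.2 h'))
      (q c.gen) (fun h' => by
        obtain ⟨l, hl, hle⟩ := h'
        exact c.gen_not_mem ((L.mul_mem_cancel_left (L.inv_mem hl)).1 (hNL (QuotientGroup.eq.1 hle))))
      (by
        show ⁅q c.gen, q (x : G)⁆ ∈ _
        rw [← map_commutatorElement, ← Subgroup.map_commutator]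
        exact ⟨_, h.2, rfl⟩)
    obtain ⟨k, hk⟩ := hPp x
    have h1 : z ^ r ^ k ∈ (⊥ : Subgroup G) := c.pow_mem_of_fixed hxL hxF
      (by simpa using congrArg Subtype.val hk) hz.2 (Subgroup.mem_bot.2
        (commutatorElement_eq_one_iff_mul_comm.2 hxz))
    exact Subgroup.mem_bot.1 (Palfy.mem_of_pow_coprime h1 (Subgroup.mem_bot.2 (pow_orderOf_eq_one z))
      ((hNord z hz.1).symm.pow_left k))
  -- the complement is central
  refine c.central_bounded hr fun x hx hxr => ?_
  have hxN := hNmem x hx hxr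
  have hcomm : ∀ b : G, ⁅b, x⁆ ∈ ⁅L, L⁆ → b * x = x * b := fun b hb => by
    refine commutatorElement_eq_one_iff_mul_comm.1 (Subgroup.mem_bot.1 (hWbot ▸ ⟨?_, hb⟩))
    rw [commutatorElement_def]
    exact N.mul_mem (hN.conj_mem _ hxN b) (N.inv_mem hxN)
  exact Subgroup.mem_center_iff.2 fun b => hcomm b (c.comm_mem_derived (hN0 x hxN) b)

end Comp

end CfsgLib.ZerosCodegree.Nondiv
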