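import Cfsg.Agent.Lib.ZerosCodegree.SemilinearDomain
import Cfsg.Agent.Lib.ZerosCodegree.FreeFixedPoints
import Mathlib.GroupTheory.Index
import Mathlib.GroupTheory.Commutator.Basic
import Mathlib.GroupTheory.OrderOfElement
import Mathlib.Data.ZMod.Units
import Mathlib.Data.Nat.Prime.Basic

/-!
# Orbit lengths of a semiregular normal subgroup with cyclic quotient

A group acts on a finite abelian `p`-group; a normal subgroup with cyclic quotient of order `f`
acts as a commutative semiregular group. If the lengths of the orbits of non-zero elements form an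
antichain for divisibility and none is divisible by `f`, then the stabilisers cut out one prime `l`
not dividing the order of that group, and some element of order `l` has, up to conjugation, fixed
every element.
-/

set_option autoImplicit false
set_option linter.style.haveILetI false
set_option linter.unusedSectionVars false
set_option linter.deprecated false

open scoped commutatorElement

namespace CfsgLib.ZerosCodegree.Semilinear

variable {G W : Type*} [Group G] [AddCommGroup W]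

theorem map_mul_apply (ρ : G →* AddMonoid.End W) (a b : G) (w : W) :
    ρ (a * b) w = ρ a (ρ b w) := by rw [map_mul]; rfl

theorem map_one_apply (ρ : G →* AddMonoid.End W) (w : W) : ρ 1 w = w := by rw [map_one]; rfl

theorem map_inv_apply (ρ : G →* AddMonoid.End W) (a : G) (w : W) : ρ a⁻¹ (ρ a w) = w := by
  rw [← map_mul_apply, inv_mul_cancel, map_one_apply]

/-- The stabiliser of a point. -/
def stab (ρ : G →* AddMonoid.End W) (w : W) : Subgroup G where
  carrier := {a | ρ a w = w}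
  one_mem' := map_one_apply ρ w
  mul_mem' {a b} ha hb := by show ρ (a * b) w = w; rw [map_mul_apply, hb, ha]
  inv_mem' {a} ha := by
    show ρ a⁻¹ w = w
    conv_lhs => rw [← show ρ a w = w from ha]
    exact map_inv_apply ρ a w

theorem mem_stab {ρ : G →* AddMonoid.End W} {w : W} {a : G} : a ∈ stab ρ w ↔ ρ a w = w := Iff.rfl

theorem comm_iff (ρ : G →* AddMonoid.End W) (a x : G) :
    ρ ⁅a, x⁆ = 1 ↔ ρ a * ρ x = ρ x * ρ a := by
  rw [← map_mul, ← map_mul]
  refine ⟨fun h => ?_, fun h => ?_⟩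
  · rw [show a * x = ⁅a, x⁆ * (x * a) by rw [commutatorElement_def]; group, map_mul, h, one_mul]
  · rw [show ⁅a, x⁆ = a * x * (x * a)⁻¹ by rw [commutatorElement_def]; group, map_mul, h,
      ← map_mul, mul_inv_cancel, map_one]

/-- The numerical part of the covering argument. -/
theorem cover_arith {p e S : ℕ} (hp : 2 ≤ p) (he : 2 ≤ e) (hS : S ≤ e)
    (h : p ^ e - 1 ≤ S * (p ^ (e / 2) - 1)) : False := by
  obtain ⟨k, hk⟩ : ∃ k, k = e / 2 := ⟨_, rfl⟩
  rw [← hk] at h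
  obtain ⟨T, hT⟩ : ∃ T, T = p ^ k := ⟨_, rfl⟩
  rw [← hT] at h
  have hk1 : 1 ≤ k := by omega
  have hTk : k + 1 ≤ T := hT ▸ Nat.succ_le_of_lt (Nat.lt_pow_self hp)
  have hT2 : 2 ^ k ≤ T := hT ▸ Nat.pow_le_pow_left hp k
  have hsq : T * T ≤ p ^ e := by
    rw [hT, ← pow_add]
    exact Nat.pow_le_pow_right (by omega) (by omega)
  have h1 : T * T - 1 ≤ e * (T - 1) :=
    (Nat.sub_le_sub_right hsq 1).trans (h.trans (Nat.mul_le_mul_right _ hS))
  obtain ⟨t, rfl⟩ : ∃ t, T = t + 1 := ⟨T - 1, by omega⟩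
  rw [Nat.add_sub_cancel, show (t + 1) * (t + 1) - 1 = (t + 2) * t by
    rw [show (t + 1) * (t + 1) = (t + 2) * t + 1 by ring, Nat.add_sub_cancel]] at h1
  have h2 := Nat.le_of_mul_le_mul_right h1 (by omega : 0 < t)
  have h3 : 2 ^ k ≤ 2 * k := by omega
  have hk2 : k ≤ 2 := by
    by_contra hk3
    obtain ⟨j, rfl⟩ : ∃ j, k = j + 3 := ⟨k - 3, by omega⟩
    have h4 := Nat.lt_two_pow_self (n := j)
    rw [pow_add] at h3
    omega
  have hp2 : p = 2 := by
    by_contra hne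
    have h5 : 3 ^ k ≤ t + 1 := hT ▸ Nat.pow_le_pow_left (by omega) k
    interval_cases k <;> omega
  subst hp2
  have he5 : e ≤ 5 := by omega
  subst hk
  interval_cases e <;> simp_all <;> omega

/-- A sum of numbers at least two is at most their product. -/
theorem sum_le_prod {s : Finset ℕ} (h : ∀ u ∈ s, 2 ≤ u) : ∑ u ∈ s, u ≤ ∏ u ∈ s, u := by
  induction s using Finset.induction with
  | empty => simp
  | insert a t ha ih =>
    rw [Finset.sum_insert ha, Finset.prod_insert ha]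
    rcases t.eq_empty_or_nonempty with rfl | ⟨b, hb⟩
    · simp
    have h1 := ih fun u hu => h u (Finset.mem_insert_of_mem hu)
    have h2 : 2 ≤ ∏ u ∈ t, u := (h b (Finset.mem_insert_of_mem hb)).trans
      (Nat.le_of_dvd (Finset.prod_pos fun u hu => by
        have := h u (Finset.mem_insert_of_mem hu); omega) (Finset.dvd_prod_of_mem _ hb))
    have h3 := Nat.mul_le_mul (h a (Finset.mem_insert_self _ _)) h2
    have h4 := h a (Finset.mem_insert_self _ _)
    have h5 : a * (∏ u ∈ t, u) ≥ a + ∏ u ∈ t, u := by nlinarith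
    omega

/-- The hypotheses. -/
structure Semi (L F : Subgroup G) (g : G) (ρ : G →* AddMonoid.End W) : Prop where
  comm : commutator G ≤ L
  gen : ∀ x : G, ∃ n : ℕ, (g ^ n)⁻¹ * x ∈ L
  notPrime : ¬ L.index.Prime
  one_lt : 1 < L.index
  fix_le : F ≤ L
  moved : ¬ L ≤ F
  semi : ∀ x ∈ L, ∀ w : W, w ≠ 0 → ρ x w = w → ρ x = 1
  commL : ∀ x ∈ L, ∀ y ∈ L, ρ x * ρ y = ρ y * ρ x
  fixed : ∀ a, a ∉ L → ∀ x ∈ L, (ρ ⁅a, x⁆ = 1 ↔ x ∈ F)
  inter : ∀ x ∈ F, x ∈ commutator G → ρ x = 1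
  nontriv : Nontrivial W
  pgroup : ∃ p e : ℕ, p.Prime ∧ Nat.card W = p ^ e
  anti : ∀ w w' : W, w ≠ 0 → w' ≠ 0 → (stab ρ w).index ∣ (stab ρ w').index →
    (stab ρ w).index = (stab ρ w').index
  ndvd : ∀ w : W, w ≠ 0 → ¬ L.index ∣ (stab ρ w).index

variable {L F : Subgroup G} {g : G} {ρ : G →* AddMonoid.End W} [L.Normal] [Finite G] [Finite W]

/-- The image of `L`. -/
def image (L : Subgroup G) (ρ : G →* AddMonoid.End W) : Subgroup (AddMonoid.End W)ˣ :=
  L.map ρ.toHomUnits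

theorem card_image (L : Subgroup G) (ρ : G →* AddMonoid.End W) :
    Nat.card (image L ρ) = (ρ.ker ⊓ L).relIndex L := by
  have h : ρ.toHomUnits.ker = ρ.ker := Subgroup.ext fun x => by
    rw [MonoidHom.mem_ker, MonoidHom.mem_ker, Units.ext_iff, MonoidHom.coe_toHomUnits,
      Units.val_one]
  rw [image, ← Subgroup.relIndex_ker, h, Subgroup.inf_relIndex_right]

theorem image_pow {x : G} (hx : x ∈ L) : ρ x ^ Nat.card (image L ρ) = 1 := by
  have h := congrArg Subtype.val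
    (pow_card_eq_one' (x := (⟨_, x, hx, rfl⟩ : image L ρ)))
  have h2 := congrArg Units.val h
  rw [Subgroup.coe_pow, Units.val_pow_eq_pow_val, MonoidHom.coe_toHomUnits] at h2
  exact h2

theorem image_pos : 0 < Nat.card (image L ρ) :=
  haveI : Finite (image L ρ) := Finite.of_surjective (fun x : L => (⟨_, x.1, x.2, rfl⟩ : image L ρ))
    fun ⟨_, x, hx, he⟩ => ⟨⟨x, hx⟩, Subtype.ext he⟩
  Nat.card_pos

/-- A preimage of the element of order `m` of the quotient. -/
def Lift (L : Subgroup G) (g : G) (m : ℕ) (h : G) : Prop := (g ^ (L.index / m))⁻¹ * h ∈ L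

namespace Semi

theorem pow_mem_iff (s : Semi L F g ρ) {i : ℕ} : g ^ i ∈ L ↔ L.index ∣ i := by
  have hz : ∀ x : G ⧸ L, x ∈ Subgroup.zpowers (g : G ⧸ L) := fun y => by
    obtain ⟨y, rfl⟩ := QuotientGroup.mk_surjective y
    obtain ⟨n, hn⟩ := s.gen y
    exact ⟨(n : ℤ), by
      show (g : G ⧸ L) ^ (n : ℤ) = _
      rw [zpow_natCast, ← QuotientGroup.mk_pow]
      exact QuotientGroup.eq.2 hn⟩
  rw [show L.index = orderOf (g : G ⧸ L) from (orderOf_eq_card_of_forall_mem_zpowers hz).symm,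
    orderOf_dvd_iff_pow_eq_one, ← QuotientGroup.mk_pow, QuotientGroup.eq_one_iff]

theorem lift_pow_mem_iff (s : Semi L F g ρ) {m : ℕ} (hm : m ∣ L.index) {h : G}
    (hh : Lift L g m h) {i : ℕ} : h ^ i ∈ L ↔ m ∣ i := by
  have hq : (h : G ⧸ L) = (g : G ⧸ L) ^ (L.index / m) := by
    rw [← QuotientGroup.mk_pow]
    exact (QuotientGroup.eq.2 hh).symm
  rw [← QuotientGroup.eq_one_iff, QuotientGroup.mk_pow, hq, ← pow_mul, ← QuotientGroup.mk_pow,
    QuotientGroup.eq_one_iff, s.pow_mem_iff]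
  obtain ⟨d, hd⟩ := hm
  have hpos : 0 < m * d := hd ▸ Nat.pos_of_ne_zero Subgroup.index_ne_zero_of_finite
  rw [hd, Nat.mul_div_cancel_left d (Nat.pos_of_mul_pos_right hpos), mul_comm m d,
    Nat.mul_dvd_mul_iff_left (Nat.pos_of_mul_pos_left hpos)]

theorem lift_not_mem (s : Semi L F g ρ) {m : ℕ} (hm : m ∣ L.index) (hm1 : m ≠ 1) {h : G}
    (hh : Lift L g m h) : h ∉ L := fun hL => hm1 (Nat.dvd_one.1 ((s.lift_pow_mem_iff hm hh).1 (by
      rwa [pow_one])))

theorem pow_eq_one_of_stab (s : Semi L F g ρ) {w : W} (hw : w ≠ 0) {x : G} (hx : x ∈ L)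
    (hxw : x ∈ stab ρ w) : ρ x = 1 := s.semi x hx w hw hxw

theorem stab_inf (s : Semi L F g ρ) {w : W} (hw : w ≠ 0) : stab ρ w ⊓ L = ρ.ker ⊓ L :=
  Subgroup.ext fun x => ⟨fun h => ⟨s.semi x h.2 w hw h.1, h.2⟩, fun h => ⟨by
    show ρ x w = w
    rw [show ρ x = 1 from h.1]
    rfl, h.2⟩⟩

theorem index_mul (s : Semi L F g ρ) {w : W} (hw : w ≠ 0) :
    (stab ρ w).index * L.relIndex (stab ρ w) = L.index * Nat.card (image L ρ) := by
  have h1 := Subgroup.relIndex_mul_index (inf_le_left : stab ρ w ⊓ L ≤ stab ρ w)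
  have h2 := Subgroup.relIndex_mul_index (inf_le_right : stab ρ w ⊓ L ≤ L)
  rw [Subgroup.inf_relIndex_left] at h1
  rw [card_image, ← s.stab_inf hw, mul_comm, h1, mul_comm, h2]

theorem relIndex_pos (_s : Semi L F g ρ) (w : W) : 0 < L.relIndex (stab ρ w) :=
  Nat.pos_of_ne_zero Subgroup.index_ne_zero_of_finite

theorem relIndex_anti (s : Semi L F g ρ) {w w' : W} (hw : w ≠ 0) (hw' : w' ≠ 0)
    (h : L.relIndex (stab ρ w) ∣ L.relIndex (stab ρ w')) :
    L.relIndex (stab ρ w) = L.relIndex (stab ρ w') := by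
  obtain ⟨k, hk⟩ := h
  have h1 := (s.index_mul hw').trans (s.index_mul hw).symm
  rw [hk, mul_left_comm, mul_comm (stab ρ w).index] at h1
  have h2 := Nat.eq_of_mul_eq_mul_left (s.relIndex_pos w) h1
  have h3 := s.anti w' w hw' hw ⟨k, h2.symm⟩
  have h4 := (s.index_mul hw').trans (s.index_mul hw).symm
  rw [h3] at h4
  exact (Nat.eq_of_mul_eq_mul_left
    (Nat.pos_of_ne_zero Subgroup.index_ne_zero_of_finite) h4).symm

theorem relIndex_ndvd (s : Semi L F g ρ) {w : W} (hw : w ≠ 0) :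
    ¬ L.relIndex (stab ρ w) ∣ Nat.card (image L ρ) := by
  rintro ⟨k, hk⟩
  have h1 := s.index_mul hw
  rw [hk, mul_left_comm, mul_comm (stab ρ w).index] at h1
  exact s.ndvd w hw ⟨k, Nat.eq_of_mul_eq_mul_left (s.relIndex_pos w) h1⟩

theorem relIndex_ne_one (s : Semi L F g ρ) {w : W} (hw : w ≠ 0) : L.relIndex (stab ρ w) ≠ 1 :=
  fun h => s.relIndex_ndvd hw (h ▸ one_dvd _)

theorem relIndex_dvd (_s : Semi L F g ρ) (w : W) : L.relIndex (stab ρ w) ∣ L.index :=
  Subgroup.relIndex_dvd_index_of_normal L _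

theorem exists_lift (s : Semi L F g ρ) {w : W} {d : ℕ} (hd : d ∣ L.relIndex (stab ρ w)) :
    ∃ h ∈ stab ρ w, Lift L g d h := by
  set M := stab ρ w ⊔ L with hM
  haveI : M.Normal := ⟨fun x hx a => by
    rw [show a * x * a⁻¹ = ⁅a, x⁆ * x by rw [commutatorElement_def, inv_mul_cancel_right]]
    exact M.mul_mem (Subgroup.mem_sup_right (s.comm (Subgroup.commutator_mem_commutator
      (Subgroup.mem_top _) (Subgroup.mem_top _)))) hx⟩
  obtain ⟨k, hk⟩ := hd
  have hidx : L.index = d * (k * M.index) := by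
    rw [← Subgroup.relIndex_mul_index (le_sup_right : L ≤ M), Subgroup.relIndex_sup_right, hk]
    ring
  have hd0 : 0 < d := Nat.pos_of_ne_zero fun h0 => (s.relIndex_pos w).ne' (by rw [hk, h0, zero_mul])
  have hg : g ^ (L.index / d) ∈ M := by
    rw [hidx, Nat.mul_div_cancel_left _ hd0, mul_comm, pow_mul]
    exact M.pow_mem (M.pow_index_mem g) k
  obtain ⟨h, hh, l, hl, he⟩ := Subgroup.mem_sup_of_normal_right.1 hg
  refine ⟨h, hh, ?_⟩
  show (g ^ (L.index / d))⁻¹ * h ∈ L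
  rw [← he, mul_inv_rev, mul_assoc, inv_mul_cancel, mul_one]
  exact L.inv_mem hl

theorem dvd_relIndex (s : Semi L F g ρ) {w : W} {m : ℕ} (hm : m ∣ L.index) {h : G}
    (hh : Lift L g m h) (hhw : h ∈ stab ρ w) : m ∣ L.relIndex (stab ρ w) := by
  rw [← s.lift_pow_mem_iff hm hh]
  exact (L.subgroupOf (stab ρ w)).pow_index_mem ⟨h, hhw⟩

theorem exists_moved (s : Semi L F g ρ) : ∃ x ∈ L, x ∉ F := SetLike.not_le_iff_exists.1 s.moved

theorem card_fix (s : Semi L F g ρ) {m : ℕ} (hm : m ∣ L.index) {h : G} (hh : Lift L g m h)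
    (hρ : ρ h ^ m = 1) : Nat.card (FreeFix.fixed (ρ h : W →+ W)) ^ m = Nat.card W := by
  obtain ⟨x₀, hx₀, hxF⟩ := s.exists_moved
  let T : Set (AddMonoid.End W) := ρ '' L
  have hT : ∀ a ∈ T, ∀ b ∈ T, a * b = b * a := by
    rintro _ ⟨a, ha, rfl⟩ _ ⟨b, hb, rfl⟩
    exact s.commL a ha b hb
  letI := Subring.closureCommRingOfComm hT
  have hconj : ∀ a : AddMonoid.End W, a ∈ Subring.closure T →
      ρ h * a * ρ h⁻¹ ∈ Subring.closure T := by
    intro a ha
    induction ha using Subring.closure_induction with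
    | mem y hy =>
      obtain ⟨y, hy, rfl⟩ := hy
      refine Subring.subset_closure ⟨h * y * h⁻¹, Subgroup.Normal.conj_mem inferInstance _ hy h, ?_⟩
      rw [map_mul, map_mul]
    | zero => rw [mul_zero, zero_mul]; exact zero_mem _
    | one => rw [mul_one, ← map_mul, mul_inv_cancel, map_one]; exact one_mem _
    | add a b _ _ ha hb => rw [mul_add, add_mul]; exact add_mem ha hb
    | neg a _ ha => rw [mul_neg, neg_mul]; exact neg_mem ha
    | mul a b _ _ ha hb =>
      rw [show ρ h * (a * b) * ρ h⁻¹ = (ρ h * a * ρ h⁻¹) * (ρ h * b * ρ h⁻¹) by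
        simp only [mul_assoc]
        rw [← mul_assoc (ρ h⁻¹) (ρ h), ← map_mul, inv_mul_cancel, map_one, one_mul]]
      exact mul_mem ha hb
  let σ : Subring.closure T → Subring.closure T := fun a => ⟨_, hconj a a.2⟩
  let x : Subring.closure T := ⟨ρ x₀, Subring.subset_closure ⟨x₀, hx₀, rfl⟩⟩
  have hiter : ∀ i, ((σ^[i] x : Subring.closure T) : AddMonoid.End W) =
      ρ (h ^ i * x₀ * (h ^ i)⁻¹) := by
    intro i
    induction i with
    | zero => simp [x]
    | succ i ih =>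
      rw [Function.iterate_succ_apply']
      show ρ h * ((σ^[i] x : Subring.closure T) : AddMonoid.End W) * ρ h⁻¹ = _
      rw [ih, ← map_mul, ← map_mul, pow_succ']
      congr 1
      group
  refine FreeFix.card_fixed_pow (ρ h : W →+ W) σ (fun a w => ?_) (fun a n => ?_)
    (Nat.pos_of_ne_zero fun h0 => Subgroup.index_ne_zero_of_finite (Nat.eq_zero_of_zero_dvd (h0 ▸ hm)))
    (fun w => ?_) x ?_ fun i hi k hk hik w hw => ?_
  · show ρ h ((a : AddMonoid.End W) w) = (ρ h * a * ρ h⁻¹ : AddMonoid.End W) (ρ h w)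
    show _ = ρ h ((a : AddMonoid.End W) (ρ h⁻¹ (ρ h w)))
    rw [map_inv_apply]
  · have hmul : ∀ a b, σ (a * b) = σ a * σ b := fun a b => Subtype.ext (by
      show ρ h * ((a : AddMonoid.End W) * b) * ρ h⁻¹ = (ρ h * a * ρ h⁻¹) * (ρ h * b * ρ h⁻¹)
      simp only [mul_assoc]
      rw [← mul_assoc (ρ h⁻¹) (ρ h), ← map_mul, inv_mul_cancel, map_one, one_mul])
    induction n with
    | zero =>
      rw [pow_zero, pow_zero]
      exact Subtype.ext (by show ρ h * 1 * ρ h⁻¹ = 1; rw [mul_one, ← map_mul, mul_inv_cancel, map_one])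
    | succ n ih => rw [pow_succ, hmul, ih, pow_succ]
  · exact (congrFun (AddMonoid.End.coe_pow _ (ρ h) m) w).symm.trans (DFunLike.congr_fun hρ w)
  · refine Subtype.ext ((hiter m).trans ?_)
    rw [map_mul, map_mul, map_pow, hρ, one_mul, ← inv_pow, map_pow]
    have h2 : ρ h⁻¹ ^ m = 1 := by
      have h3 : (ρ h * ρ h⁻¹) ^ m = 1 := by rw [← map_mul, mul_inv_cancel, map_one, one_pow]
      rwa [Commute.mul_pow (show Commute (ρ h) (ρ h⁻¹) by
        rw [Commute, SemiconjBy, ← map_mul, ← map_mul, mul_inv_cancel, inv_mul_cancel]), hρ,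
        one_mul] at h3
    rw [h2, mul_one]
  · change ((σ^[k] x : Subring.closure T) : AddMonoid.End W) w -
      ((σ^[i] x : Subring.closure T) : AddMonoid.End W) w = 0 at hw
    rw [hiter, hiter, sub_eq_zero] at hw
    by_contra hw0
    set yi := h ^ i * x₀ * (h ^ i)⁻¹ with hyi
    set yk := h ^ k * x₀ * (h ^ k)⁻¹ with hyk
    have hmem : ∀ n : ℕ, h ^ n * x₀ * (h ^ n)⁻¹ ∈ L := fun n =>
      Subgroup.Normal.conj_mem inferInstance _ hx₀ _
    have h1 : ρ (yi⁻¹ * yk) = 1 := s.semi _ (L.mul_mem (L.inv_mem (hmem i)) (hmem k)) w hw0 (by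
      rw [map_mul_apply, hw, map_inv_apply])
    have h2 : ρ ⁅h ^ (k - i), x₀⁆ = 1 := by
      have h3 : ⁅h ^ (k - i), x₀⁆ = (h ^ i)⁻¹ * (yk * yi⁻¹) * h ^ i := by
        obtain ⟨d, rfl⟩ := Nat.exists_eq_add_of_le hik.le
        rw [hyi, hyk, Nat.add_sub_cancel_left, pow_add, commutatorElement_def]
        group
      rw [h3, map_mul, map_mul, show yk * yi⁻¹ = yi * (yi⁻¹ * yk) * yi⁻¹ by group, map_mul, map_mul,
        h1, mul_one, ← map_mul ρ yi, mul_inv_cancel, map_one, mul_one, ← map_mul, inv_mul_cancel,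
        map_one]
    have h4 : h ^ (k - i) ∉ L := fun hL => by
      have h5 := Nat.le_of_dvd (by omega) ((s.lift_pow_mem_iff hm hh).1 hL)
      omega
    exact hxF ((s.fixed _ h4 _ hx₀).1 h2)

theorem card_roots (s : Semi L F g ρ) {u : ℕ} (hu : 0 < u) :
    Nat.card {e : AddMonoid.End W // (∃ a ∈ F, ρ a = e) ∧ e ^ u = 1} ≤ u := by
  haveI := s.nontriv
  haveI : Finite (AddMonoid.End W) := Finite.of_injective _ DFunLike.coe_injective
  refine le_trans ?_ (card_roots_le (ρ.comp L.subtype) (fun a b => s.commL a a.2 b b.2)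
    (fun a w hw h => s.semi a a.2 w hw h) u hu)
  refine Nat.card_le_card_of_injective (fun e => ⟨e.1, ?_, e.2.2⟩) fun a b h =>
    Subtype.ext (congrArg (fun x => x.1) h)
  obtain ⟨a, ha, he⟩ := e.2.1
  exact ⟨⟨a, s.fix_le ha⟩, he⟩

theorem relIndex_prime (s : Semi L F g ρ) {w₀ : W} (hw₀ : w₀ ≠ 0) :
    (L.relIndex (stab ρ w₀)).Prime := by
  classical
  haveI := Fintype.ofFinite W
  haveI : Finite (AddMonoid.End W) := Finite.of_injective _ DFunLike.coe_injective
  haveI := Fintype.ofFinite (AddMonoid.End W)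
  obtain ⟨l, hl, hld⟩ := Nat.exists_prime_and_dvd (s.relIndex_ne_one hw₀)
  by_contra hnp
  obtain ⟨h, hh₀, hhl⟩ := s.exists_lift hld
  have hlf : l ∣ L.index := hld.trans (s.relIndex_dvd w₀)
  have hstabpow : ∀ {w : W} {m : ℕ} {a : G}, w ≠ 0 → m ∣ L.index → Lift L g m a → a ∈ stab ρ w →
      ρ a ^ m = 1 := fun {w m a} hw hm ha haw => by
    rw [← map_pow]
    exact s.semi _ ((s.lift_pow_mem_iff hm ha).2 dvd_rfl) w hw ((stab ρ w).pow_mem haw m)
  have hY := s.card_fix hlf hhl (hstabpow hw₀ hlf hhl hh₀)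
  obtain ⟨p, eW, hp, hW⟩ := s.pgroup
  obtain ⟨e, -, he⟩ := (Nat.dvd_prime_pow hp).1
    (hW ▸ (FreeFix.fixed (ρ h : W →+ W)).card_addSubgroup_dvd_card)
  have he0 : e ≠ 0 := fun h0 => hw₀ (by
    rw [h0, pow_zero] at he
    exact (AddSubgroup.eq_bot_iff_forall _).1 (AddSubgroup.card_eq_one.1 he) _
      (FreeFix.mem_fixed.2 hh₀))
  have hext : ∀ w : W, w ≠ 0 → ρ h w = w → ∃ u, u.Prime ∧ l * u ∣ L.relIndex (stab ρ w) := by
    intro w hw hhw
    obtain ⟨c, hc⟩ := s.dvd_relIndex hlf hhl hhw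
    obtain ⟨u, hu, hud⟩ := Nat.exists_prime_and_dvd (n := c) fun h1 => hnp (by
      rw [h1, mul_one] at hc
      rw [← s.relIndex_anti hw hw₀ (hc ▸ hld), hc]
      exact hl)
    exact ⟨u, hu, hc ▸ Nat.mul_dvd_mul_left l hud⟩
  -- lifts of order `l * u` meet the lift of order `l`
  have hpowu : ∀ {w : W} {u : ℕ} {a : G}, w ≠ 0 → ρ h w = w → l * u ∣ L.index →
      Lift L g (l * u) a → a ∈ stab ρ w → ρ a ^ u = ρ h := by
    intro w u a hw hhw hlu ha haw
    have hmem : h⁻¹ * a ^ u ∈ L := by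
      have h1 : (h : G ⧸ L) = (g : G ⧸ L) ^ (L.index / l) := by
        rw [← QuotientGroup.mk_pow]
        exact (QuotientGroup.eq.2 hhl).symm
      have h2 : (a : G ⧸ L) = (g : G ⧸ L) ^ (L.index / (l * u)) := by
        rw [← QuotientGroup.mk_pow]
        exact (QuotientGroup.eq.2 ha).symm
      refine (QuotientGroup.eq (s := L)).1 ?_
      rw [QuotientGroup.mk_pow, h1, h2, ← pow_mul]
      congr 1
      obtain ⟨d, hd⟩ := hlu
      have hpos : 0 < l * u * d := hd ▸ Nat.pos_of_ne_zero Subgroup.index_ne_zero_of_finite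
      rw [hd, Nat.mul_div_cancel_left _ (Nat.pos_of_mul_pos_right hpos), mul_assoc l u d,
        Nat.mul_div_cancel_left _ hl.pos, mul_comm]
    have h3 : ρ (h⁻¹ * a ^ u) = 1 :=
      s.semi _ hmem w hw ((stab ρ w).mul_mem ((stab ρ w).inv_mem hhw) ((stab ρ w).pow_mem haw u))
    rw [← map_pow, show a ^ u = h * (h⁻¹ * a ^ u) by group, map_mul, h3, mul_one]
  let Pr := L.index.primeFactors.filter fun u =>
    ∃ w : W, w ≠ 0 ∧ ρ h w = w ∧ l * u ∣ L.relIndex (stab ρ w)
  have hPr : ∀ u ∈ Pr, u.Prime := fun u hu =>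
    Nat.prime_of_mem_primeFactors (Finset.mem_filter.1 hu).1
  have hdvd : ∀ {w : W} {u : ℕ} {a : G}, w ≠ 0 → ρ h w = w → u.Prime → l * u ∣ L.index →
      Lift L g (l * u) a → a ∈ stab ρ w →
      u ∣ e ∧ Nat.card (FreeFix.fixed (ρ a : W →+ W)) ≤ p ^ (e / 2) := by
    intro w u a hw hhw hu hlu ha haw
    have hF := s.card_fix hlu ha (hstabpow hw hlu ha haw)
    rw [mul_comm l u, pow_mul, ← hY] at hF
    have h1 := Nat.pow_left_injective hl.ne_zero hF
    obtain ⟨i, -, hi⟩ := (Nat.dvd_prime_pow hp).1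
      (hW ▸ (FreeFix.fixed (ρ a : W →+ W)).card_addSubgroup_dvd_card)
    rw [hi, he, ← pow_mul] at h1
    have h2 := Nat.pow_right_injective hp.two_le h1
    refine ⟨⟨i, by rw [← h2, mul_comm]⟩, hi ▸ Nat.pow_le_pow_right hp.pos ?_⟩
    rw [Nat.le_div_iff_mul_le two_pos, ← h2]
    exact Nat.mul_le_mul_left i hu.two_le
  have hwit : ∀ u ∈ Pr, ∃ w : W, ∃ a : G, w ≠ 0 ∧ ρ h w = w ∧ l * u ∣ L.index ∧
      Lift L g (l * u) a ∧ a ∈ stab ρ w := fun u hu => by
    obtain ⟨-, w, hw, hhw, hd⟩ := Finset.mem_filter.1 hu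
    obtain ⟨a, ha, hla⟩ := s.exists_lift hd
    exact ⟨w, a, hw, hhw, hd.trans (s.relIndex_dvd w), hla, ha⟩
  choose! wu au hwu hhwu hluu hlau hau using hwit
  have hde : ∀ u ∈ Pr, u ∣ e := fun u hu =>
    (hdvd (hwu u hu) (hhwu u hu) (hPr u hu) (hluu u hu) (hlau u hu) (hau u hu)).1
  obtain ⟨u₀, hu₀, hud₀⟩ := hext w₀ hw₀ hh₀
  have hu₀P : u₀ ∈ Pr := Finset.mem_filter.2 ⟨Nat.mem_primeFactors.2 ⟨hu₀,
    (dvd_mul_left u₀ l).trans (hud₀.trans (s.relIndex_dvd w₀)), Subgroup.index_ne_zero_of_finite⟩,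
    w₀, hw₀, hh₀, hud₀⟩
  have he2 : 2 ≤ e := hu₀.two_le.trans (Nat.le_of_dvd (Nat.pos_of_ne_zero he0) (hde _ hu₀P))
  -- the covering
  let roots : ℕ → Finset (AddMonoid.End W) := fun u =>
    Finset.univ.filter fun x => (∃ a ∈ F, ρ a = x) ∧ x ^ u = 1
  let piece : ℕ → AddMonoid.End W → Finset W := fun u x =>
    Finset.univ.filter fun w => w ≠ 0 ∧ ρ h w = w ∧ (ρ (au u) * x) w = w
  have hcover : Finset.univ.filter (fun w : W => w ≠ 0 ∧ ρ h w = w) ⊆
      Pr.biUnion fun u => (roots u).biUnion (piece u) := by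
    intro w hw
    obtain ⟨-, hw, hhw⟩ := Finset.mem_filter.1 hw
    obtain ⟨u, hu, hud⟩ := hext w hw hhw
    have hlu : l * u ∣ L.index := hud.trans (s.relIndex_dvd w)
    have huP : u ∈ Pr := Finset.mem_filter.2 ⟨Nat.mem_primeFactors.2
      ⟨hu, (dvd_mul_left u l).trans hlu, Subgroup.index_ne_zero_of_finite⟩, w, hw, hhw, hud⟩
    obtain ⟨a, ha, hla⟩ := s.exists_lift hud
    set a' := au u with ha'
    set k := a'⁻¹ * a with hk
    have hkL : k ∈ L := by
      rw [hk, show a'⁻¹ * a = ((g ^ (L.index / (l * u)))⁻¹ * a')⁻¹ *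
        ((g ^ (L.index / (l * u)))⁻¹ * a) by group]
      exact L.mul_mem (L.inv_mem (hlau u huP)) hla
    have e1 : ρ a ^ u = ρ h := hpowu hw hhw hlu hla ha
    have e2 : ρ a' ^ u = ρ h := hpowu (hwu u huP) (hhwu u huP) hlu (hlau u huP) (hau u huP)
    have hkF : k ∈ F := by
      refine (s.fixed h (s.lift_not_mem hlf hl.ne_one hhl) k hkL).1 ((comm_iff ρ h k).2 ?_)
      have c1 : Commute (ρ h) (ρ a) := e1 ▸ (Commute.refl (ρ a)).pow_left u
      have c2 : Commute (ρ h) (ρ a'⁻¹) := by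
        rw [← e2, ← map_pow]
        exact Commute.map ((Commute.refl a').inv_right.pow_left u) ρ
      rw [hk, map_mul]
      exact c2.mul_right c1
    have hcom : Commute (ρ a') (ρ k) := (comm_iff ρ a' k).1 ((s.fixed a' (s.lift_not_mem hlu
      (fun h1 => hl.ne_one (Nat.eq_one_of_mul_eq_one_right h1)) (hlau u huP)) k hkL).2 hkF)
    have hku : ρ k ^ u = 1 := by
      have h5 : ρ a' ^ u * ρ k ^ u = ρ h := by
        rw [← hcom.mul_pow, ← map_mul, hk, mul_inv_cancel_left, e1]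
      rw [e2] at h5
      calc ρ k ^ u = ρ h⁻¹ * (ρ h * ρ k ^ u) := by
            rw [← mul_assoc, ← map_mul, inv_mul_cancel, map_one, one_mul]
        _ = 1 := by rw [h5, ← map_mul, inv_mul_cancel, map_one]
    refine Finset.mem_biUnion.2 ⟨u, huP, Finset.mem_biUnion.2 ⟨ρ k,
      Finset.mem_filter.2 ⟨Finset.mem_univ _, ⟨k, hkF, rfl⟩, hku⟩,
      Finset.mem_filter.2 ⟨Finset.mem_univ _, hw, hhw, ?_⟩⟩⟩
    rw [← map_mul, hk, mul_inv_cancel_left]
    exact ha
  have hpiece : ∀ u ∈ Pr, ∀ x ∈ roots u, (piece u x).card ≤ p ^ (e / 2) - 1 := by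
    intro u hu x hx
    obtain ⟨-, ⟨k, hk, rfl⟩, -⟩ := Finset.mem_filter.1 hx
    rcases (piece u (ρ k)).eq_empty_or_nonempty with h0 | ⟨w, hw⟩
    · rw [h0, Finset.card_empty]; exact Nat.zero_le _
    obtain ⟨-, hw, hhw, haw⟩ := Finset.mem_filter.1 hw
    rw [← map_mul] at haw
    have hla : Lift L g (l * u) (au u * k) := by
      show (g ^ (L.index / (l * u)))⁻¹ * (au u * k) ∈ L
      rw [← mul_assoc]
      exact L.mul_mem (hlau u hu) (s.fix_le hk)
    refine le_trans ?_ (Nat.sub_le_sub_right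
      (hdvd hw hhw (hPr u hu) (hluu u hu) hla haw).2 1)
    rw [Nat.card_eq_fintype_card, Fintype.card_subtype]
    refine Nat.le_sub_one_of_lt (Finset.card_lt_card (Finset.ssubset_iff_of_subset ?_ |>.2
      ⟨0, ?_, fun h0 => (Finset.mem_filter.1 h0).2.1 rfl⟩))
    · intro v hv
      refine Finset.mem_filter.2 ⟨Finset.mem_univ _, FreeFix.mem_fixed.2 ?_⟩
      rw [map_mul]
      exact (Finset.mem_filter.1 hv).2.2.2
    · exact Finset.mem_filter.2 ⟨Finset.mem_univ _, zero_mem _⟩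
  have hroots : ∀ u ∈ Pr, (roots u).card ≤ u := fun u hu => by
    refine le_trans (le_of_eq ?_) (s.card_roots (hPr u hu).pos)
    rw [Nat.card_eq_fintype_card, Fintype.card_subtype]
  have hcount := (Finset.card_le_card hcover).trans (Finset.card_biUnion_le.trans
    (Finset.sum_le_sum fun u hu => Finset.card_biUnion_le.trans ((Finset.sum_le_card_nsmul _ _ _
      (hpiece u hu)).trans (Nat.mul_le_mul_right _ (hroots u hu)))))
  rw [← Finset.sum_mul] at hcount
  have hleft : (Finset.univ.filter fun w : W => w ≠ 0 ∧ ρ h w = w).card = p ^ e - 1 := by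
    rw [← he, Nat.card_eq_fintype_card, Fintype.card_subtype,
      show (Finset.univ.filter fun w : W => w ≠ 0 ∧ ρ h w = w) =
        (Finset.univ.filter fun w : W => w ∈ FreeFix.fixed (ρ h : W →+ W)).erase 0 from
        Finset.ext fun w => by simp only [Finset.mem_filter, Finset.mem_univ, true_and, Finset.mem_erase, ne_eq]; exact and_congr_right fun _ => FreeFix.mem_fixed.symm,
      Finset.card_erase_of_mem (by simp)]
  rw [hleft] at hcount
  refine cover_arith hp.two_le he2 (le_trans (sum_le_prod fun u hu => (hPr u hu).two_le)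
    (Nat.le_of_dvd (Nat.pos_of_ne_zero he0) ?_)) hcount
  exact Finset.prod_primes_dvd _ (fun u hu => (hPr u hu).prime) hde

end Semi

end CfsgLib.ZerosCodegree.Semilinear
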