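import Cfsg.Agent.Lib.ZerosCodegree.NondivisibilityTools

/-!
# An automorphism fixing all non-linear characters

`H` has an automorphism `σ` of `l`-power order fixing every non-linear irreducible character, their
degrees are prime to `l` and none divides a larger one. The non-linear characters vanish off the
subgroup `fixMod σ` of the elements fixed modulo the derived subgroup.
-/

set_option autoImplicit false
set_option linter.style.haveILetI false
set_option linter.unusedSectionVars false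

open scoped commutatorElement

namespace CfsgLib.ZerosCodegree.Nondiv

open Cfsg CfsgLib.CharTheory CfsgLib.Clifford CfsgLib.ZerosCodegree.RelGraph

universe u

variable {H : Type u} [Group H]

/-- The hypotheses. -/
structure Setup (σ : MulAut H) (l : ℕ) : Prop where
  prime : l.Prime
  pow : ∃ k : ℕ, σ ^ l ^ k = 1
  inv : ∀ θ : IrrCharacter H, charDegree (θ : H → ℂ) ≠ 1 → ∀ x, (θ : H → ℂ) (σ x) = (θ : H → ℂ) x
  cop : ∀ θ : IrrCharacter H, charDegree (θ : H → ℂ) ≠ 1 → ¬ l ∣ charDegree (θ : H → ℂ)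
  antichain : Antichain H
  moved : ∃ x, σ x * x⁻¹ ∉ commutator H

theorem mem_commutator_of_aut (σ : MulAut H) {x : H} (hx : x ∈ commutator H) :
    σ x ∈ commutator H := by
  have h : (commutator H).map σ.toMonoidHom = commutator H := by
    rw [commutator_def, Subgroup.map_commutator, Subgroup.map_top_of_surjective _ σ.surjective]
  exact h.le ⟨x, hx, rfl⟩

/-- The elements fixed by `σ` modulo the derived subgroup. -/
def fixMod (σ : MulAut H) : Subgroup H where
  carrier := {x | σ x * x⁻¹ ∈ commutator H}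
  one_mem' := by simp
  mul_mem' := fun {a b} ha hb => by
    show σ (a * b) * (a * b)⁻¹ ∈ commutator H
    rw [show σ (a * b) * (a * b)⁻¹ = (σ a * a⁻¹) * (a * (σ b * b⁻¹) * a⁻¹) by
      rw [map_mul]; group]
    exact (commutator H).mul_mem ha (Subgroup.Normal.conj_mem inferInstance _ hb a)
  inv_mem' := fun {a} ha => by
    show σ a⁻¹ * a⁻¹⁻¹ ∈ commutator H
    rw [show σ a⁻¹ * a⁻¹⁻¹ = a⁻¹ * (σ a * a⁻¹)⁻¹ * a⁻¹⁻¹ by rw [map_inv]; group]
    exact Subgroup.Normal.conj_mem inferInstance _ ((commutator H).inv_mem ha) _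

theorem mem_fixMod {σ : MulAut H} {x : H} : x ∈ fixMod σ ↔ σ x * x⁻¹ ∈ commutator H := Iff.rfl

theorem commutator_le_fixMod (σ : MulAut H) : commutator H ≤ fixMod σ := fun x hx =>
  (commutator H).mul_mem (mem_commutator_of_aut σ hx) ((commutator H).inv_mem hx)

instance normal_fixMod (σ : MulAut H) : (fixMod σ).Normal := ⟨fun a ha g => by
  rw [show g * a * g⁻¹ = ⁅g, a⁆ * a by rw [commutatorElement_def]; group]
  exact (fixMod σ).mul_mem (commutator_le_fixMod σ (Subgroup.commutator_mem_commutator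
    (Subgroup.mem_top g) (Subgroup.mem_top a))) ha⟩

/-- A subgroup mapped into itself. -/
def Stable (σ : MulAut H) (A : Subgroup H) : Prop := ∀ x ∈ A, σ x ∈ A

theorem Stable.pow_mem {σ : MulAut H} {A : Subgroup H} (h : Stable σ A) {x : H} (hx : x ∈ A) :
    ∀ k : ℕ, (σ ^ k) x ∈ A := by
  intro k
  induction k with
  | zero => simpa using hx
  | succ k ih => rw [pow_succ', MulAut.mul_apply]; exact h _ ih

theorem Stable.sup {σ : MulAut H} {A B : Subgroup H} (hA : Stable σ A) (hB : Stable σ B) :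
    Stable σ (A ⊔ B) := fun x hx => by
  have h : A ⊔ B ≤ (A ⊔ B).comap σ.toMonoidHom :=
    sup_le (fun y hy => Subgroup.mem_sup_left (hA y hy)) fun y hy => Subgroup.mem_sup_right (hB y hy)
  exact h hx

variable [Finite H]

theorem nonlinear_twist (μ : H →* ℂˣ) (θ : IrrCharacter H) :
    charDegree ((⟨_, isIrrCharacter_linFun_mul μ θ.2⟩ : IrrCharacter H) : H → ℂ) =
      charDegree (θ : H → ℂ) := degree_eq (by
  show linFun μ 1 * (θ : H → ℂ) 1 = _
  rw [linFun_apply, map_one, Units.val_one, one_mul, apply_one])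

/-- Non-linear characters vanish off the elements fixed modulo the derived subgroup. -/
theorem Setup.vanish {σ : MulAut H} {l : ℕ} (h : Setup σ l) (θ : IrrCharacter H)
    (hθ : charDegree (θ : H → ℂ) ≠ 1) {x : H} (hx : x ∉ fixMod σ) : (θ : H → ℂ) x = 0 := by
  obtain ⟨μ, hμ, hμx⟩ := Palfy.exists_linear_sep (X := H) le_rfl hx
  have h1 := h.inv ⟨_, isIrrCharacter_linFun_mul μ θ.2⟩ (by rwa [nonlinear_twist]) x
  change linFun μ (σ x) * (θ : H → ℂ) (σ x) = linFun μ x * (θ : H → ℂ) x at h1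
  rw [h.inv θ hθ x, linFun_apply, linFun_apply] at h1
  by_contra h0
  refine hμx ?_
  rw [map_mul, map_inv, mul_inv_eq_one]
  exact Units.ext (mul_right_cancel₀ h0 h1)

/-- Twisting a non-linear character by a linear character trivial on the fixed subgroup. -/
theorem Setup.twist {σ : MulAut H} {l : ℕ} (h : Setup σ l) (θ : IrrCharacter H)
    (hθ : charDegree (θ : H → ℂ) ≠ 1) (μ : H →* ℂˣ) (hμ : fixMod σ ≤ μ.ker) :
    linFun μ * (θ : H → ℂ) = (θ : H → ℂ) := funext fun x => by
  by_cases hx : x ∈ fixMod σ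
  · rw [Pi.mul_apply, linFun_apply, MonoidHom.mem_ker.1 (hμ hx), Units.val_one, one_mul]
  · rw [Pi.mul_apply, h.vanish θ hθ hx, mul_zero]

/-- Coprime action: an element fixed modulo the fixed subgroup is fixed. -/
theorem Setup.mem_fixMod_of_coprime {σ : MulAut H} {l : ℕ} (h : Setup σ l) {x : H} {n : ℕ}
    (h1 : σ x * x⁻¹ ∈ fixMod σ) (h2 : x ^ n ∈ fixMod σ) (hn : ¬ l ∣ n) : x ∈ fixMod σ := by
  obtain ⟨k, hk⟩ := h.pow
  obtain ⟨u, hu⟩ : ∃ u, u = σ x * x⁻¹ := ⟨_, rfl⟩
  rw [← hu] at h1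
  let C := H ⧸ commutator H
  let q : H →* C := QuotientGroup.mk' _
  have hcomm : ∀ a b : H, q a * q b = q b * q a := fun a b => by
    rw [← map_mul, ← map_mul]
    refine QuotientGroup.eq.2 ?_
    rw [show (a * b)⁻¹ * (b * a) = ⁅b⁻¹, a⁻¹⁆ by rw [commutatorElement_def]; group]
    exact Subgroup.commutator_mem_commutator (Subgroup.mem_top _) (Subgroup.mem_top _)
  have hfix : ∀ a, a ∈ fixMod σ → q (σ a) = q a := fun a ha => by
    rw [← mul_inv_eq_one, ← map_inv, ← map_mul]
    exact (QuotientGroup.eq_one_iff _).2 ha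
  have hiter : ∀ i, q ((σ ^ i) x) = q u ^ i * q x := by
    intro i
    induction i with
    | zero => simp
    | succ i ih =>
      have hd : (σ ^ i) x * (u ^ i * x)⁻¹ ∈ commutator H := by
        refine (QuotientGroup.eq_one_iff _).1 ?_
        show q _ = 1
        rw [map_mul, map_inv, ih, map_mul, map_pow, mul_inv_cancel]
      have hd' : q (σ ((σ ^ i) x)) = q (σ (u ^ i * x)) := by
        have h4 := mem_commutator_of_aut σ hd
        rw [map_mul, map_inv] at h4
        rw [← mul_inv_eq_one, ← map_inv, ← map_mul]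
        exact (QuotientGroup.eq_one_iff _).2 h4
      rw [pow_succ', MulAut.mul_apply, hd', map_mul, map_mul, map_pow, map_pow, hfix u h1,
        show σ x = u * x by rw [hu, inv_mul_cancel_right], map_mul, pow_succ, mul_assoc]
  have hl : q u ^ l ^ k = 1 := by
    have h3 := hiter (l ^ k)
    rw [hk, MulAut.one_apply] at h3
    exact (mul_eq_right.1 h3.symm)
  have hn' : q u ^ n = 1 := by
    have h3 := hfix _ h2
    rw [map_pow, map_pow, show σ x = u * x by rw [hu, inv_mul_cancel_right], map_pow, map_mul,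
      Commute.mul_pow (hcomm u x : Commute (q u) (q x))] at h3
    exact mul_eq_right.1 h3
  have h4 : q u = 1 := Subgroup.mem_bot.1 (Palfy.mem_of_pow_coprime (T := ⊥)
    (Subgroup.mem_bot.2 hl) (Subgroup.mem_bot.2 hn')
    (Nat.Coprime.pow_left _ (h.prime.coprime_iff_not_dvd.2 hn)))
  rw [mem_fixMod, ← hu]
  exact (QuotientGroup.eq_one_iff u).1 h4

/-- The critical configuration. -/
structure Crit (σ : MulAut H) (l : ℕ) (B : Subgroup H) : Prop extends Setup σ l where
  normal : B.Normal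
  stable : Stable σ B
  le : B ≤ fixMod σ
  comm : commutator H ≤ B
  cyc : ∃ g : H, ∀ x, ∃ n : ℕ, (g ^ n)⁻¹ * x ∈ B
  one_lt : 1 < B.index
  copl : ¬ l ∣ B.index
  witness : ∃ β : IrrCharacter H, charDegree (β : H → ℂ) = B.index ∧
    ∀ z ∈ ⁅B, B⁆, (β : H → ℂ) z = (β : H → ℂ) 1
  nonab : ⁅B, B⁆ ≠ ⊥
  min : ∀ Y : Subgroup H, Y.Normal → Stable σ Y → Y ≤ ⁅B, B⁆ → Y = ⊥ ∨ Y = ⁅B, B⁆

theorem isCyclic_quotient {B : Subgroup H} [B.Normal]
    (h : ∃ g : H, ∀ x, ∃ n : ℕ, (g ^ n)⁻¹ * x ∈ B) : IsCyclic (H ⧸ B) := by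
  obtain ⟨g, hg⟩ := h
  refine ⟨⟨(g : H ⧸ B), fun y => ?_⟩⟩
  obtain ⟨y, rfl⟩ := QuotientGroup.mk_surjective y
  obtain ⟨n, hn⟩ := hg y
  exact ⟨n, by
    show (g : H ⧸ B) ^ (n : ℤ) = _
    rw [zpow_natCast, ← QuotientGroup.mk_pow]
    exact QuotientGroup.eq.2 hn⟩

end CfsgLib.ZerosCodegree.Nondiv
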