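import Cfsg.Agent.Lib.ZerosCodegree.NondivisibilityCentral
import Cfsg.Agent.Lib.Clifford.NonVanish

/-!
# The critical configuration: stabilisers

`D` is an `s`-group of class two with centre `Z` and `|D| > |Z|^2`; the stabiliser of a non-trivial
linear character of `Z` lies in the subgroup of elements fixed modulo the derived subgroup.
-/

set_option autoImplicit false
set_option linter.style.haveILetI false
set_option linter.unusedSectionVars false
set_option maxSynthPendingDepth 4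

open scoped commutatorElement

namespace CfsgLib.ZerosCodegree.Nondiv

open Cfsg CfsgLib.CharTheory CfsgLib.Clifford CfsgLib.ZerosCodegree.RelGraph
open CfsgLib.ZerosCodegree.CyclicClifford

universe u

variable {H : Type u} [Group H] [Fintype H] {σ : MulAut H} {l : ℕ} {B : Subgroup H} [B.Normal]
  [Fintype B]

/-- An element that is not in a subgroup has a prime power part that is not in it. -/
theorem exists_ppart_not_mem {T S : Subgroup H} (h : ¬ T ≤ S) :
    ∃ r k : ℕ, r.Prime ∧ ∃ y ∈ T, y ∉ S ∧ y ^ r ^ k = 1 := by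
  by_contra hcon
  refine h fun x hx => ?_
  have key : ∀ n : ℕ, ∀ y ∈ T, y ^ n = 1 → 0 < n → y ∈ S := by
    intro n
    induction n using Nat.recOnPrimeCoprime with
    | zero => exact fun y _ _ h => absurd h (lt_irrefl 0)
    | prime_pow p k hp => exact fun y hy hyk _ =>
        Classical.byContradiction fun hyS => hcon ⟨p, k, hp, y, hy, hyS, hyk⟩
    | coprime a b ha hb hab iha ihb =>
      intro y hy hyab hpos
      refine Palfy.mem_of_pow_coprime (iha _ (T.pow_mem hy b) ?_ (by omega))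
        (ihb _ (T.pow_mem hy a) ?_ (by omega)) hab.symm
      · rw [← pow_mul, mul_comm, hyab]
      · rw [← pow_mul, hyab]
  exact key _ x hx (pow_orderOf_eq_one x) (orderOf_pos x)

/-- Characters over a non-trivial linear character of a subgroup of the derived subgroup are
non-linear. -/
theorem degree_ne_one_of_over {N : Subgroup H} [N.Normal] [Fintype N] (hN : N ≤ commutator H)
    {θ : IrrCharacter H} {v : N →* ℂˣ} (hv : v ≠ 1) (h : Over N θ (linIrr N v)) :
    charDegree (θ : H → ℂ) ≠ 1 := fun h1 => by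
  obtain ⟨μ, hμ⟩ := exists_linFun_of_isCharacter (IsIrrCharacter.isCharacter θ.2)
    (by rw [apply_one, h1, Nat.cast_one])
  refine h ?_
  show classInner (fun n : N => (θ : H → ℂ) n) (linFun v) = 0
  rw [show (fun n : N => (θ : H → ℂ) n) = linFun (1 : N →* ℂˣ) from funext fun n => by
    rw [hμ, linFun_apply, MonoidHom.mem_ker.1 (Abelianization.commutator_subset_ker μ (hN n.2))]
    rfl]
  exact classInner_eq_zero_of_ne (isIrrCharacter_linear (1 : N →* ℂˣ)) (isIrrCharacter_linear v)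
    fun e => hv (linFun_injective e).symm

namespace Crit

/-- Commutation with an element of `D ∖ Z` maps `D` onto `Z`. -/
theorem exists_hom (c : Crit σ l B) {s : ℕ} (hs : s.Prime) (hexp : ∀ z ∈ ⁅B, B⁆, z ^ s = 1)
    (hsolv : Group.IsSolvable H) {x : H} (hx : x ∈ commutator H) (hxZ : x ∉ ⁅B, B⁆) :
    ∃ f : ↥(commutator H) →* ↥(⁅B, B⁆ : Subgroup H),
      Function.Surjective f ∧ ∀ d, (f d : H) = ⁅x, (d : H)⁆ := by
  obtain ⟨hBC, hdec⟩ := c.exists_decomp hs hexp hsolv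
  have hmem : ∀ d : ↥(commutator H), ⁅x, (d : H)⁆ ∈ (⁅B, B⁆ : Subgroup H) := fun d =>
    c.comm_D (Subgroup.commutator_mem_commutator hx d.2)
  have hcen : ∀ y ∈ B, ∀ z ∈ ⁅B, B⁆, y * z = z * y := fun y hy z hz =>
    (Subgroup.mem_centralizer_iff.1 (hBC hy) z hz).symm
  let f : ↥(commutator H) →* ↥(⁅B, B⁆ : Subgroup H) :=
    { toFun := fun d => ⟨_, hmem d⟩
      map_one' := Subtype.ext (commutatorElement_one_right x)
      map_mul' := fun d d' => Subtype.ext (by
        show ⁅x, (d : H) * d'⁆ = ⁅x, (d : H)⁆ * ⁅x, (d' : H)⁆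
        rw [show ⁅x, (d : H) * d'⁆ = ⁅x, (d : H)⁆ * ((d : H) * ⁅x, (d' : H)⁆ * (d : H)⁻¹) by
          simp only [commutatorElement_def]; group,
          hcen _ (c.comm d.2) _ (hmem d'), mul_inv_cancel_right]) }
  refine ⟨f, fun z => ?_, fun d => rfl⟩
  have h := c.derived_le_of_commutators hx hxZ (f.range.map (⁅B, B⁆ : Subgroup H).subtype) ?_ ?_ z.2
  · obtain ⟨w, ⟨d, hd⟩, hw⟩ := h
    exact ⟨d, hd.trans (Subtype.ext hw)⟩
  · rintro b hb _ ⟨w, hw, rfl⟩
    refine ⟨w, hw, ?_⟩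
    rw [Subgroup.coe_subtype, hcen b hb _ w.2, mul_inv_cancel_right]
  · intro y hy
    obtain ⟨d, hd, he⟩ := hdec y hy
    exact ⟨f ⟨d, hd⟩, ⟨_, rfl⟩, (he x hx).symm⟩

theorem sq_lt_card (c : Crit σ l B) {s : ℕ} (hs : s.Prime) (hexp : ∀ z ∈ ⁅B, B⁆, z ^ s = 1)
    (hsolv : Group.IsSolvable H) :
    Nat.card (⁅B, B⁆ : Subgroup H) < (⁅B, B⁆ : Subgroup H).relIndex (commutator H) := by
  obtain ⟨x, hx, hxZ⟩ : ∃ d ∈ commutator H, d ∉ ⁅B, B⁆ := by
    by_contra hcon
    push Not at hcon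
    exact c.commutator_not_le hcon
  obtain ⟨f, hf, hfd⟩ := c.exists_hom hs hexp hsolv hx hxZ
  set Z' := (⁅B, B⁆ : Subgroup H).subgroupOf (commutator H) with hZ'
  obtain ⟨hBC, -⟩ := c.exists_decomp hs hexp hsolv
  have hle : Z' ≤ f.ker := fun d hd => MonoidHom.mem_ker.2 (Subtype.ext (by
    rw [hfd]
    exact commutatorElement_eq_one_iff_mul_comm.2
      (Subgroup.mem_centralizer_iff.1 (hBC (c.comm hx)) _ hd).symm))
  have hlt : Z' < f.ker := lt_of_le_of_ne hle fun h => hxZ (by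
    have h1 : (⟨x, hx⟩ : ↥(commutator H)) ∈ f.ker := MonoidHom.mem_ker.2 (Subtype.ext (by
      rw [hfd]; exact commutatorElement_self x))
    rw [← h] at h1
    exact h1)
  have h1 : Nat.card Z' < Nat.card f.ker := by
    refine lt_of_le_of_ne (Subgroup.card_le_of_le hle) fun h => hlt.ne ?_
    exact Subgroup.eq_of_le_of_card_ge hle h.ge
  have h2 : f.ker.index = Nat.card (⁅B, B⁆ : Subgroup H) := by
    rw [Subgroup.index_ker, MonoidHom.range_eq_top.2 hf, Subgroup.card_top]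
  have h3 := Z'.index_mul_card
  have h4 := f.ker.index_mul_card
  rw [h2, ← h3] at h4
  show _ < Z'.index
  by_contra hcon
  push Not at hcon
  have h5 : Z'.index * Nat.card Z' ≤ Nat.card (⁅B, B⁆ : Subgroup H) * Nat.card Z' :=
    Nat.mul_le_mul_right _ hcon
  have h6 := (Nat.mul_lt_mul_left (Nat.card_pos (α := (⁅B, B⁆ : Subgroup H)))).2 h1
  omega

theorem pow_mem_derived (c : Crit σ l B) {s : ℕ} (hs : s.Prime) (hexp : ∀ z ∈ ⁅B, B⁆, z ^ s = 1)
    (hsolv : Group.IsSolvable H) {x : H} (hx : x ∈ commutator H) : x ^ s ∈ ⁅B, B⁆ := by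
  by_contra hxs
  have hxZ : x ∉ ⁅B, B⁆ := fun h => hxs (pow_mem h s)
  obtain ⟨f, hf, hfd⟩ := c.exists_hom hs hexp hsolv ((commutator H).pow_mem hx s) hxs
  obtain ⟨hBC, -⟩ := c.exists_decomp hs hexp hsolv
  refine c.nonab ((Subgroup.eq_bot_iff_forall _).2 fun z hz => ?_)
  obtain ⟨d, hd⟩ := hf ⟨z, hz⟩
  have h1 : z = ⁅x ^ s, (d : H)⁆ := by rw [← hfd, hd]
  have hc : ⁅x, (d : H)⁆ ∈ (⁅B, B⁆ : Subgroup H) := c.comm_D (Subgroup.commutator_mem_commutator hx d.2)
  have h2 := Palfy.pow_conj_eq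
    (Subgroup.mem_centralizer_iff.1 (hBC (c.comm hx)) _ hc).symm s (x := (d : H))
  rw [hexp _ hc, one_mul] at h2
  rw [h1, commutatorElement_eq_one_iff_mul_comm]
  exact mul_inv_eq_iff_eq_mul.1 h2

theorem isPGroup_D (c : Crit σ l B) {s : ℕ} (hs : s.Prime) (hexp : ∀ z ∈ ⁅B, B⁆, z ^ s = 1)
    (hsolv : Group.IsSolvable H) : IsPGroup s ↥(commutator H) := fun x =>
  ⟨2, Subtype.ext (by
    show (x : H) ^ s ^ 2 = 1
    rw [pow_two, pow_mul]
    exact hexp _ (c.pow_mem_derived hs hexp hsolv x.2))⟩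

theorem card_moved' (c : Crit σ l B) :
    Nat.card c.moved' = (⁅B, B⁆ : Subgroup H).relIndex (commutator H) := by
  classical
  haveI := c.finite_moved'
  set D : Subgroup H := commutator H with hD
  set Z' : Subgroup D := (⁅B, B⁆ : Subgroup H).subgroupOf D with hZ'
  show _ = Nat.card (D ⧸ Z')
  haveI : IsMulCommutative (D ⧸ Z') := ⟨⟨fun a b => by
    obtain ⟨a, rfl⟩ := QuotientGroup.mk_surjective a
    obtain ⟨b, rfl⟩ := QuotientGroup.mk_surjective b
    rw [← QuotientGroup.mk_mul, ← QuotientGroup.mk_mul]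
    refine QuotientGroup.eq.2 ?_
    rw [show (a * b)⁻¹ * (b * a) = ⁅b⁻¹, a⁻¹⁆ by rw [commutatorElement_def]; group]
    show ((⁅b⁻¹, a⁻¹⁆ : D) : H) ∈ (⁅B, B⁆ : Subgroup H)
    exact c.comm_D (Subgroup.commutator_mem_commutator (inv_mem b.2) (inv_mem a.2))⟩⟩
  let ι : D →* B := Subgroup.inclusion c.comm
  have hkill : ∀ v : B →* ℂˣ, Z' ≤ (v.comp ι).ker := fun v d hd => by
    have h1 : ((ι d : B) : H) ∈ (commutator B).map B.subtype := by
      rw [Subgroup.map_subtype_commutator]; exact hd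
    obtain ⟨y, hy, hye⟩ := h1
    have h2 : y = ι d := Subtype.ext hye
    exact MonoidHom.mem_ker.2 (MonoidHom.mem_ker.1
      (Abelianization.commutator_subset_ker v (h2 ▸ hy)))
  haveI := finite_lin (D ⧸ Z')
  have h1 : Nat.card c.moved' ≤ Nat.card (D ⧸ Z') := by
    rw [← CfsgLib.SmallGroups.SelfCentral.card_hom_of_commutative (D ⧸ Z')]
    refine Nat.card_le_card_of_injective
      (fun v : c.moved' => QuotientGroup.lift Z' (v.1.comp ι) (hkill v.1)) fun v w h => ?_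
    refine Subtype.ext (c.moved'_eq_of_res v.2 w.2 fun x hx => ?_)
    exact DFunLike.congr_fun h ((⟨x, hx⟩ : D) : D ⧸ Z')
  refine le_antisymm h1 ?_
  haveI := finite_lin c.moved'
  rw [← CfsgLib.SmallGroups.SelfCentral.card_hom_of_commutative c.moved']
  let ev : D →* (c.moved' →* ℂˣ) :=
    { toFun := fun d =>
        { toFun := fun v => v.1 (ι d)
          map_one' := rfl
          map_mul' := fun _ _ => rfl }
      map_one' := MonoidHom.ext fun v => (congrArg v.1 ι.map_one).trans v.1.map_one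
      map_mul' := fun d d' => MonoidHom.ext fun v => (congrArg v.1 (ι.map_mul d d')).trans (v.1.map_mul _ _) }
  have hev : Z' ≤ ev.ker := fun d hd =>
    MonoidHom.mem_ker.2 (MonoidHom.ext fun v => MonoidHom.mem_ker.1 (hkill v.1 hd))
  refine Nat.card_le_card_of_injective (QuotientGroup.lift Z' ev hev) ?_
  rw [← MonoidHom.ker_eq_bot_iff, eq_bot_iff]
  intro q hq
  obtain ⟨d, rfl⟩ := QuotientGroup.mk_surjective q
  refine Subgroup.mem_bot.2 ((QuotientGroup.eq_one_iff d).2 ?_)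
  by_contra hdZ
  obtain ⟨v, hv, hvd⟩ := c.separates (x := ι d) d.2 hdZ
  exact hvd (DFunLike.congr_fun (MonoidHom.mem_ker.1 hq) (⟨v, hv⟩ : c.moved'))

/-- `s` does not divide the index of `B`. -/
theorem not_dvd_index (c : Crit σ l B) {s : ℕ} (hs : s.Prime) (hexp : ∀ z ∈ ⁅B, B⁆, z ^ s = 1)
    (hsolv : Group.IsSolvable H) : ¬ s ∣ B.index := by
  classical
  intro hsd
  haveI := Fact.mk hs
  haveI := c.finite_moved'
  haveI : Fintype c.moved' := Fintype.ofFinite _
  set a := c.gen ^ (B.index / s) with ha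
  have haB : a ∉ B := fun h => by
    have h1 := c.index_dvd_of_gen_pow h
    have h2 := Nat.div_lt_self (Nat.lt_of_lt_of_le Nat.zero_lt_one c.one_lt.le) hs.one_lt
    have h3 : 0 < B.index / s := Nat.div_pos (Nat.le_of_dvd (by have := c.one_lt; omega) hsd) hs.pos
    exact absurd (Nat.le_of_dvd h3 h1) (not_le.2 h2)
  have has : a ^ s ∈ B := by
    rw [ha, ← pow_mul, Nat.div_mul_cancel hsd]
    exact B.pow_index_mem c.gen
  let f : c.moved' → c.moved' := fun v => ⟨conjLin a v.1, c.moved'_stable a _ v.2⟩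
  have hf : Function.Injective f := fun v w h => by
    have h1 := congrArg (fun u : c.moved' => conjLin a⁻¹ u.1) h
    simp only [f, conjLin_conjLin, mul_inv_cancel, conjLin_one] at h1
    exact Subtype.ext h1
  let p : Equiv.Perm c.moved' := Equiv.ofBijective f (Finite.injective_iff_bijective.1 hf)
  have hpk : ∀ k, ∀ v : c.moved', ((p ^ k) v).1 = conjLin (a ^ k) v.1 := by
    intro k
    induction k with
    | zero => intro v; rw [pow_zero, pow_zero, conjLin_one]; rfl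
    | succ k ih =>
      intro v
      rw [pow_succ', Equiv.Perm.mul_apply]
      show conjLin a ((p ^ k) v).1 = _
      rw [ih, conjLin_conjLin, pow_succ]
  have hps : p ^ s ^ 1 = 1 := Equiv.ext fun v => Subtype.ext (by
    rw [pow_one, hpk, conjLin_of_mem has]
    rfl)
  have h1 := Equiv.Perm.card_compl_support_modEq hps
  have h2 : p.supportᶜ = {1} := by
    ext v
    rw [Finset.mem_compl, Equiv.Perm.mem_support, not_not, Finset.mem_singleton]
    constructor
    · intro hv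
      exact Subtype.ext (c.moved'_fpf a haB _ v.2 (congrArg Subtype.val hv))
    · rintro rfl
      exact Subtype.ext (map_one (conjLin a))
  rw [h2, Finset.card_singleton, ← Nat.card_eq_fintype_card, c.card_moved'] at h1
  obtain ⟨n, hn⟩ := IsPGroup.iff_card.1 ((c.isPGroup_D hs hexp hsolv).to_quotient
    ((⁅B, B⁆ : Subgroup H).subgroupOf (commutator H)))
  change 1 ≡ Nat.card _ [MOD s] at h1
  rw [hn] at h1
  have h3 := c.sq_lt_card hs hexp hsolv
  change _ < Nat.card _ at h3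
  rw [hn] at h3
  rcases Nat.eq_zero_or_pos n with rfl | hn0
  · rw [pow_zero] at h3
    have := Nat.card_pos (α := (⁅B, B⁆ : Subgroup H))
    omega
  · have h4 : s ^ n % s = 0 := Nat.mod_eq_zero_of_dvd (dvd_pow_self s hn0.ne')
    rw [Nat.ModEq, h4, Nat.mod_eq_of_lt hs.one_lt] at h1
    exact one_ne_zero h1

/-- The unique character of `D` over a character of `Z` vanishes off `Z`. -/
theorem exists_star (c : Crit σ l B) {s : ℕ} (hs : s.Prime) (hexp : ∀ z ∈ ⁅B, B⁆, z ^ s = 1)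
    (hsolv : Group.IsSolvable H) [Fintype ↥(commutator H)] {v : ↥(⁅B, B⁆ : Subgroup H) →* ℂˣ}
    (hv : v ≠ 1) :
    ∃ φ : IrrCharacter ↥(commutator H), charDegree (φ : ↥(commutator H) → ℂ) ≠ 1 ∧
      (∀ d : ↥(commutator H), ∀ h : (d : H) ∈ (⁅B, B⁆ : Subgroup H),
        (φ : ↥(commutator H) → ℂ) d = (φ : ↥(commutator H) → ℂ) 1 * (v ⟨d, h⟩ : ℂ)) ∧
      ∀ d : ↥(commutator H), (d : H) ∉ (⁅B, B⁆ : Subgroup H) →
        (φ : ↥(commutator H) → ℂ) d = 0 := by
  classical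
  obtain ⟨hBC, -⟩ := c.exists_decomp hs hexp hsolv
  let D : Subgroup H := commutator H
  let Z : Subgroup H := ⁅B, B⁆
  let Z' : Subgroup D := Z.subgroupOf D
  haveI : Fintype Z' := Fintype.ofFinite _
  have hZD : Z ≤ D := c.derived_le
  let e : Z' ≃* Z := Subgroup.subgroupOfEquivOfLe hZD
  let v' : Z' →* ℂˣ := v.comp e.toMonoidHom
  obtain ⟨φ, hφ⟩ := exists_over Z' (linIrr Z' v')
  have hcen : ∀ z : Z', (z : D) ∈ Subgroup.center D := fun z => Subgroup.mem_center_iff.2 fun d =>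
    Subtype.ext (Subgroup.mem_centralizer_iff.1 (hBC (c.comm d.2)) _ z.2).symm
  have hinv : ∀ d : D, conjChar Z' (linFun v') d = linFun v' := fun d => funext fun z => by
    rw [conjChar_apply]
    refine congrArg (linFun v') (Subtype.ext ?_)
    show d * (z : D) * d⁻¹ = z
    rw [Subgroup.mem_center_iff.1 (hcen z) d, mul_inv_cancel_right]
  have hres := res_eq_of_invariant Z' (θ := linFun v') φ.2 (isIrrCharacter_linear v') hinv hφ
  have hmul : classInner (fun z : Z' => (φ : D → ℂ) z) (linFun v') = (φ : D → ℂ) 1 := by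
    have h := congrFun hres 1
    rw [Pi.smul_apply, smul_eq_mul, linFun_apply, map_one, Units.val_one, mul_one,
      OneMemClass.coe_one] at h
    exact h.symm
  rw [hmul] at hres
  have hon : ∀ d : D, ∀ h : (d : H) ∈ Z, (φ : D → ℂ) d = (φ : D → ℂ) 1 * (v ⟨d, h⟩ : ℂ) := by
    intro d h
    exact congrFun hres (⟨d, h⟩ : Z')
  have hoff : ∀ d : D, (d : H) ∉ Z → (φ : D → ℂ) d = 0 := by
    intro d hd
    obtain ⟨f, hf, hfd⟩ := c.exists_hom hs hexp hsolv d.2 hd
    obtain ⟨z, hz⟩ : ∃ z, v z ≠ 1 := by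
      by_contra h
      push Not at h
      exact hv (MonoidHom.ext h)
    obtain ⟨y, rfl⟩ := hf z
    have hyd : ((⁅d, y⁆ : D) : H) ∈ Z := by
      have := (f y).2
      rwa [hfd] at this
    obtain ⟨α, -, hα⟩ := CfsgLib.Correspondences.exists_scalar_center φ.2 (hcen ⟨⁅d, y⁆, hyd⟩)
    have h1 := hα (y * d * y⁻¹)
    rw [show ((⟨⁅d, y⁆, hyd⟩ : Z') : D) * (y * d * y⁻¹) = d by
      show ⁅d, y⁆ * (y * d * y⁻¹) = d
      rw [commutatorElement_def]; group,
      IsIrrCharacter.isClassFunction φ.2 d y] at h1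
    by_contra h0
    have hα1 : α = 1 := (mul_eq_right₀ h0).1 h1.symm
    have h2 := hα 1
    rw [mul_one, hα1, one_mul] at h2
    change (φ : D → ℂ) ⁅d, y⁆ = _ at h2
    rw [hon _ hyd] at h2
    have h3 := (mul_eq_left₀ (apply_one_ne_zero_of_isIrr φ.2)).1 h2
    exact hz (Units.ext (by
      rw [show f y = ⟨((⁅d, y⁆ : D) : H), hyd⟩ from Subtype.ext (hfd y)]
      exact h3))
  refine ⟨φ, fun h1 => ?_, hon, hoff⟩
  obtain ⟨μ, hμ⟩ := exists_linFun_of_isCharacter (IsIrrCharacter.isCharacter φ.2)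
    (by rw [apply_one, h1, Nat.cast_one])
  obtain ⟨x, hx, hxZ⟩ : ∃ d ∈ D, d ∉ Z := by
    by_contra hcon
    push Not at hcon
    exact c.commutator_not_le hcon
  have h2 := hoff ⟨x, hx⟩ hxZ
  rw [hμ] at h2
  exact (μ ⟨x, hx⟩).ne_zero h2

/-- The stabiliser of a non-trivial linear character of `Z` lies in the fixed subgroup. -/
theorem inertia_le_fixMod (c : Crit σ l B) {s : ℕ} (hs : s.Prime) (hexp : ∀ z ∈ ⁅B, B⁆, z ^ s = 1)
    (hsolv : Group.IsSolvable H) {v : ↥(⁅B, B⁆ : Subgroup H) →* ℂˣ} (hv : v ≠ 1) {t : H}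
    (ht : conjLin t v = v) : t ∈ fixMod σ := by
  classical
  obtain ⟨hBC, -⟩ := c.exists_decomp hs hexp hsolv
  let Z : Subgroup H := ⁅B, B⁆
  let D : Subgroup H := commutator H
  haveI : Fintype Z := Fintype.ofFinite _
  haveI : Fintype D := Fintype.ofFinite _
  by_contra htW
  set T := inertia Z (linFun v) with hT
  obtain ⟨r, k, hr, y, hyT, hyW, hyk⟩ := exists_ppart_not_mem (T := T) (S := fixMod σ)
    fun h => htW (h (conjLin_eq_self_iff.1 ht))
  have hrf : r ∣ B.index := by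
    by_contra hcon
    refine hyW (Palfy.mem_of_pow_coprime (a := r ^ k) (b := B.index) ?_
      (c.le (B.pow_index_mem y)) (Nat.Coprime.pow_left _ (hr.coprime_iff_not_dvd.2 hcon)))
    rw [hyk]
    exact one_mem _
  have hrs : r ≠ s := fun h => c.not_dvd_index hs hexp hsolv (h ▸ hrf)
  haveI := Fact.mk hr
  haveI := Fact.mk hs
  obtain ⟨φ, hφ1, hφZ, hφoff⟩ := c.exists_star hs hexp hsolv hv
  have hcyD : ∀ z : ℤ, y ^ z ∈ D → y ^ z = 1 := fun z hz => by
    obtain ⟨j, hj⟩ := c.isPGroup_D hs hexp hsolv ⟨_, hz⟩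
    refine Subgroup.mem_bot.1 (Palfy.mem_of_pow_coprime (T := ⊥) (a := s ^ j) (b := r ^ k)
      (Subgroup.mem_bot.2 (congrArg Subtype.val hj)) (Subgroup.mem_bot.2 ?_)
      (((Nat.coprime_primes hs hr).2 hrs.symm).pow _ _))
    rw [← zpow_natCast (y ^ z), ← zpow_mul, mul_comm, zpow_mul, zpow_natCast, hyk, one_zpow]
  set Y : Subgroup H := Subgroup.zpowers y ⊔ D with hY
  have hDY : D ≤ Y := le_sup_right
  haveI hYn : Y.Normal := ⟨fun a ha g => by
    rw [show g * a * g⁻¹ = ⁅g, a⁆ * a by rw [commutatorElement_def]; group]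
    exact Y.mul_mem (hDY (Subgroup.commutator_mem_commutator (Subgroup.mem_top g)
      (Subgroup.mem_top a))) ha⟩
  haveI : Fintype Y := Fintype.ofFinite _
  let D' : Subgroup Y := D.subgroupOf Y
  haveI : Fintype D' := Fintype.ofFinite _
  let e : D' ≃* D := Subgroup.subgroupOfEquivOfLe hDY
  have hyY : y ∈ Y := Subgroup.mem_sup_left (Subgroup.mem_zpowers y)
  have hYdec : ∀ a ∈ Y, ∃ i : ℤ, ∃ d ∈ D, a = y ^ i * d := fun a ha => by
    obtain ⟨b, hb, d, hd, rfl⟩ := Subgroup.mem_sup_of_normal_right.1 ha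
    obtain ⟨i, rfl⟩ := hb
    exact ⟨i, d, hd, rfl⟩
  have hcyc : IsCyclic (Y ⧸ D') := ⟨⟨((⟨y, hyY⟩ : Y) : Y ⧸ D'), fun q => by
    obtain ⟨a, rfl⟩ := QuotientGroup.mk_surjective q
    obtain ⟨i, d, hd, he⟩ := hYdec a a.2
    refine ⟨i, ?_⟩
    show ((⟨y, hyY⟩ : Y) : Y ⧸ D') ^ i = _
    rw [← QuotientGroup.mk_zpow]
    refine QuotientGroup.eq.2 ?_
    show (((⟨y, hyY⟩ : Y) ^ i)⁻¹ * a : Y).1 ∈ D
    simp only [Subgroup.coe_mul, Subgroup.coe_inv, Subgroup.coe_zpow, he, inv_mul_cancel_left]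
    exact hd⟩⟩
  have hDT : D ≤ T := fun d hd => by
    refine conjLin_eq_self_iff.1 (MonoidHom.ext fun z => congrArg v (Subtype.ext ?_))
    show ((MulAut.conjNormal d z : Z) : H) = (z : H)
    rw [MulAut.conjNormal_apply, mul_inv_eq_iff_eq_mul]
    exact (Subgroup.mem_centralizer_iff.1 (c.D_le_C hs hexp hsolv hd) z z.2).symm
  have hYT : Y ≤ T := sup_le (Subgroup.zpowers_le.2 hyT) hDT
  have hφinv : ∀ g ∈ T, ∀ d : D,
      (φ : D → ℂ) ⟨g * d * g⁻¹, Subgroup.Normal.conj_mem inferInstance _ d.2 g⟩ = (φ : D → ℂ) d := by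
    intro g hg d
    by_cases hd : (d : H) ∈ Z
    · rw [hφZ _ (Subgroup.Normal.conj_mem inferInstance _ hd g), hφZ d hd]
      congr 2
      refine Eq.trans ?_ (DFunLike.congr_fun (conjLin_eq_self_iff.2 hg) ⟨d, hd⟩)
      exact congrArg v (Subtype.ext (MulAut.conjNormal_apply g (⟨d, hd⟩ : Z)).symm)
    · rw [hφoff d hd, hφoff]
      intro h
      refine hd ?_
      simpa [mul_assoc] using Subgroup.Normal.conj_mem inferInstance _ h g⁻¹
  obtain ⟨ψ, hψ, hψres⟩ := CfsgLib.RealChar.exists_extension_character_of_cyclic D' hcyc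
    (fun n => (φ : D → ℂ) (e n)) (isIrrCharacter_comp_mulEquiv φ.2 e) fun g n => by
      refine Eq.trans (congrArg (φ : D → ℂ) (Subtype.ext ?_)) (hφinv g (hYT g.2) (e n))
      show (((MulAut.conjNormal g n : D') : Y) : H) = _
      rw [MulAut.conjNormal_apply]
      rfl
  have hψZ : ∀ z : Z, ψ ⟨z, hDY (c.derived_le z.2)⟩ = (φ : D → ℂ) 1 * (v z : ℂ) := fun z => by
    have h := hψres ⟨⟨z, hDY (c.derived_le z.2)⟩, c.derived_le z.2⟩
    rw [h]
    exact hφZ _ z.2
  have hψ1 : ψ 1 = (φ : D → ℂ) 1 := by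
    have h := hψres 1
    rw [map_one] at h
    exact h
  have hdr : ¬ r ∣ charDegree (φ : D → ℂ) := fun h => by
    obtain ⟨d, -, hdD, hd⟩ := IsIrrCharacter.exists_degree_dvd φ.2
    rw [degree_eq hd] at h
    obtain ⟨n, hn⟩ := IsPGroup.iff_card.1 (c.isPGroup_D hs hexp hsolv)
    exact hrs ((Nat.prime_dvd_prime_iff_eq hr hs).1 (hr.dvd_of_dvd_pow (hn ▸ h.trans hdD)))
  have hψy : ψ ⟨y, hyY⟩ ≠ 0 := CfsgLib.Clifford.apply_ne_zero_of_pow_prime_pow
    (IsIrrCharacter.isCharacter hψ) hr (k := k) (Subtype.ext hyk) (hψ1.trans (apply_one φ)) hdr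
  obtain ⟨θ, hθ⟩ := exists_over Y ⟨ψ, hψ⟩
  have hθ1 : charDegree (θ : H → ℂ) ≠ 1 := fun h1 => hφ1 (by
    have h := degree_dvd Y hθ
    rw [h1, Nat.dvd_one] at h
    rw [← h]
    exact (degree_eq (χ := (⟨ψ, hψ⟩ : IrrCharacter Y)) (hψ1.trans (apply_one φ))).symm)
  obtain ⟨μ, hμ, hμy⟩ := Palfy.exists_linear_sep (X := H) (commutator_le_fixMod σ) hyW
  have htw := c.twist θ hθ1 μ hμ
  let ν : Y →* ℂˣ := μ.comp Y.subtype
  have hψ' : IsIrrCharacter Y (linFun ν * ψ) := isIrrCharacter_linFun_mul ν hψ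
  have hθ' : classInner (fun n : Y => (θ : H → ℂ) n) (linFun ν * ψ) ≠ 0 := by
    have hnorm : ∀ n : Y, (linFun ν n) * starRingEnd ℂ (linFun ν n) = 1 := fun n => by
      rw [linFun_apply, Complex.mul_conj']
      rw [norm_eq_one_of_pow_eq_one' (Nat.card_pos (α := Y)).ne' (by
        rw [← Units.val_pow_eq_pow_val, ← map_pow, pow_card_eq_one', map_one, Units.val_one])]
      norm_num
    have h1 : classInner (fun n : Y => (θ : H → ℂ) n) (linFun ν * ψ)
        = classInner (fun n : Y => (θ : H → ℂ) n) ψ := by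
      have e1 : (fun n : Y => (θ : H → ℂ) n) = linFun ν * fun n : Y => (θ : H → ℂ) n :=
        funext fun n => (congrFun htw n).symm
      conv_lhs => rw [e1]
      simp only [classInner, Pi.mul_apply, map_mul]
      congr 1
      refine Finset.sum_congr rfl fun n _ => ?_
      linear_combination ((θ : H → ℂ) n * starRingEnd ℂ (ψ n)) * hnorm n
    rw [h1]
    exact hθ
  obtain ⟨g, hg⟩ := exists_conj_of_constituents Y θ.2 hψ hψ' hθ hθ'
  have hgT : g ∈ T := by
    refine conjLin_eq_self_iff.1 (MonoidHom.ext fun z => Units.ext ?_)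
    have h := congrFun hg ⟨z, hDY (c.derived_le z.2)⟩
    rw [Pi.mul_apply, conjChar_apply, hψZ, linFun_apply,
      show ν ⟨z, hDY (c.derived_le z.2)⟩ = 1 from
        hμ (commutator_le_fixMod σ (c.derived_le z.2)), Units.val_one, one_mul] at h
    have h2 := hψZ ⟨g * z * g⁻¹, Subgroup.Normal.conj_mem inferInstance _ z.2 g⟩
    rw [h2] at h
    refine Eq.trans ?_ (mul_left_cancel₀ (apply_one_ne_zero_of_isIrr φ.2) h).symm
    exact congrArg (fun x : Z => ((v x : ℂˣ) : ℂ)) (Subtype.ext (MulAut.conjNormal_apply g z))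
  have hy' : g * y * g⁻¹ ∈ Y := hYn.conj_mem y hyY g
  -- `g y g⁻¹` is conjugate to `y` in `Y`
  have hP : IsPGroup r (Subgroup.zpowers (⟨y, hyY⟩ : Y)) := fun x => ⟨k, by
    obtain ⟨z, hz⟩ := x.2
    refine Subtype.ext ?_
    show (x : Y) ^ r ^ k = 1
    rw [← hz]
    show ((⟨y, hyY⟩ : Y) ^ z) ^ r ^ k = 1
    rw [← zpow_natCast, ← zpow_mul, mul_comm, zpow_mul, zpow_natCast,
      show (⟨y, hyY⟩ : Y) ^ r ^ k = 1 from Subtype.ext hyk, one_zpow]⟩
  have hidx : ¬ r ∣ (Subgroup.zpowers (⟨y, hyY⟩ : Y)).index := by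
    intro hd
    have hsup : D' ⊔ Subgroup.zpowers (⟨y, hyY⟩ : Y) = ⊤ := eq_top_iff.2 fun a _ => by
      obtain ⟨i, d, hd, he⟩ := hYdec a a.2
      rw [show a = (⟨y, hyY⟩ : Y) ^ i * ⟨d, hDY hd⟩ from Subtype.ext (by simpa using he)]
      exact mul_mem (Subgroup.mem_sup_right (Subgroup.zpow_mem_zpowers _ i)) (Subgroup.mem_sup_left hd)
    have h1 : D'.relIndex (Subgroup.zpowers (⟨y, hyY⟩ : Y)) = D'.index := by
      rw [← Subgroup.relIndex_sup_right, sup_comm, hsup, Subgroup.relIndex_top_right]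
    have h2 : D' ⊓ Subgroup.zpowers (⟨y, hyY⟩ : Y) = ⊥ := eq_bot_iff.2 fun a ⟨ha, z, hz⟩ => by
      subst hz
      refine Subgroup.mem_bot.2 (Subtype.ext ?_)
      have hcoe : ((((⟨y, hyY⟩ : Y) ^ z : Y)) : H) = y ^ z := Subgroup.coe_zpow _ _ _
      exact hcoe.trans (hcyD z (hcoe ▸ ha))
    rw [← Subgroup.inf_relIndex_right, h2, Subgroup.relIndex_bot_left] at h1
    have h3 := (Subgroup.zpowers (⟨y, hyY⟩ : Y)).index_mul_card
    rw [h1, ← D'.index_mul_card, mul_comm D'.index] at h3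
    have h4 := Nat.eq_of_mul_eq_mul_right (Nat.pos_of_ne_zero Subgroup.index_ne_zero_of_finite) h3
    rw [h4] at hd
    obtain ⟨n, hn⟩ := IsPGroup.iff_card.1 (c.isPGroup_D hs hexp hsolv)
    rw [Nat.card_congr e.toEquiv, hn] at hd
    exact hrs ((Nat.prime_dvd_prime_iff_eq hr hs).1 (hr.dvd_of_dvd_pow hd))
  let P : Sylow r Y := hP.toSylow hidx
  obtain ⟨Q, hQ⟩ : ∃ Q : Sylow r Y, Subgroup.zpowers (⟨g * y * g⁻¹, hy'⟩ : Y) ≤ Q := by
    refine IsPGroup.exists_le_sylow fun x => ⟨k, ?_⟩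
    obtain ⟨z, hz⟩ := x.2
    refine Subtype.ext ?_
    show (x : Y) ^ r ^ k = 1
    rw [← hz]
    show ((⟨g * y * g⁻¹, hy'⟩ : Y) ^ z) ^ r ^ k = 1
    rw [← zpow_natCast, ← zpow_mul, mul_comm, zpow_mul, zpow_natCast,
      show (⟨g * y * g⁻¹, hy'⟩ : Y) ^ r ^ k = 1 from Subtype.ext (by
        show (g * y * g⁻¹) ^ r ^ k = 1
        rw [conj_pow, hyk, mul_one, mul_inv_cancel]), one_zpow]
  obtain ⟨b, hb⟩ := MulAction.exists_smul_eq Y Q P
  have hb' : b * ⟨g * y * g⁻¹, hy'⟩ * b⁻¹ ∈ Subgroup.zpowers (⟨y, hyY⟩ : Y) := by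
    have h1 : b * ⟨g * y * g⁻¹, hy'⟩ * b⁻¹ ∈ ((b • Q : Sylow r Y) : Subgroup Y) := by
      rw [Sylow.smul_def, Sylow.pointwise_smul_def]
      exact ⟨_, hQ (Subgroup.mem_zpowers _), rfl⟩
    rw [hb] at h1
    exact h1
  obtain ⟨i, hi⟩ := hb'
  have hiy : y ^ i = y := by
    let q : H →* H ⧸ D := QuotientGroup.mk' D
    have hcom : ∀ a b : H, q a * q b = q b * q a := fun a b =>
      commutatorElement_eq_one_iff_mul_comm.1 (by
        rw [← map_commutatorElement]
        exact (QuotientGroup.eq_one_iff _).2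
          (Subgroup.commutator_mem_commutator (Subgroup.mem_top _) (Subgroup.mem_top _)))
    have h1 : y ^ i = (b : H) * (g * y * g⁻¹) * (b : H)⁻¹ := by
      have := congrArg Subtype.val hi
      simpa using this
    have h2 : q (y ^ i) = q y := by
      rw [h1]
      simp only [map_mul, map_inv]
      rw [hcom g y, mul_inv_cancel_right, hcom b y, mul_inv_cancel_right]
    have h3 : y ^ (i - 1) ∈ D := by
      rw [zpow_sub_one]
      exact (QuotientGroup.eq_one_iff _).1 (by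
        show q _ = 1
        rw [map_mul, map_inv, h2, mul_inv_cancel])
    have h4 := hcyD _ h3
    rw [zpow_sub_one, mul_inv_eq_one] at h4
    exact h4
  have hcy : ψ ⟨g * y * g⁻¹, hy'⟩ = ψ ⟨y, hyY⟩ := by
    rw [← IsIrrCharacter.isClassFunction hψ ⟨g * y * g⁻¹, hy'⟩ b, ← hi]
    exact congrArg ψ (Subtype.ext (by
      show (((⟨y, hyY⟩ : Y) ^ i : Y) : H) = y
      rw [Subgroup.coe_zpow, hiy]))
  have hfin := congrFun hg ⟨y, hyY⟩
  rw [Pi.mul_apply, conjChar_apply, hcy, linFun_apply] at hfin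
  exact hμy (Units.ext ((mul_eq_right₀ hψy).1 hfin))

end Crit

end CfsgLib.ZerosCodegree.Nondiv
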