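import Cfsg.Agent.Lib.ZerosCodegree.MinNonabelianQuotient
import Cfsg.Agent.Lib.ZerosCodegree.CyclicClifford
import Cfsg.Agent.Lib.ZerosCodegree.PalfyTools
import Cfsg.Agent.Lib.Correspondences.PGroupDegrees
import Cfsg.Agent.Lib.CharDegreesTheory.CoprimeExtension
import Cfsg.Agent.S4456

/-!
# Degree sets without divisibility: tools and the prime power quotient case

If no non-trivial degree divides a larger one and there is a non-abelian quotient of `p`-power
order, then `p` divides every non-trivial degree and in fact all non-trivial degrees are equal.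
-/

set_option autoImplicit false
set_option linter.style.haveILetI false
set_option linter.unusedSectionVars false

namespace CfsgLib.ZerosCodegree.Nondiv

open Cfsg CfsgLib.CharTheory CfsgLib.Clifford CfsgLib.ZerosCodegree.RelGraph

universe u

variable {G : Type u} [Group G] [Finite G]

/-- No non-trivial degree divides a larger one. -/
def Antichain (G : Type u) [Group G] : Prop :=
  ∀ a ∈ charDegrees G, ∀ b ∈ charDegrees G, 1 < a → a < b → ¬ a ∣ b

theorem mem_degrees (χ : IrrCharacter G) : charDegree (χ : G → ℂ) ∈ charDegrees G := ⟨χ, rfl⟩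

theorem apply_one (χ : IrrCharacter G) : (χ : G → ℂ) 1 = (charDegree (χ : G → ℂ) : ℂ) :=
  (BrauerCharacters.charDegree_spec χ).1

theorem degree_eq {χ : IrrCharacter G} {d : ℕ} (h : (χ : G → ℂ) 1 = (d : ℂ)) :
    charDegree (χ : G → ℂ) = d := by
  exact_mod_cast (apply_one χ).symm.trans h

theorem degree_pos (χ : IrrCharacter G) : 0 < charDegree (χ : G → ℂ) :=
  Nat.pos_of_ne_zero fun h => apply_one_ne_zero_of_isIrr χ.2 (by rw [apply_one, h, Nat.cast_zero])

theorem one_lt_degree {χ : IrrCharacter G} (h : charDegree (χ : G → ℂ) ≠ 1) :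
    1 < charDegree (χ : G → ℂ) :=
  lt_of_le_of_ne (degree_pos χ) (Ne.symm h)

theorem Antichain.eq_of_dvd (hA : Antichain G) {a b : ℕ} (ha : a ∈ charDegrees G)
    (hb : b ∈ charDegrees G) (h1 : 1 < a) (h : a ∣ b) : a = b := by
  obtain ⟨χ, rfl⟩ := hb
  rcases (Nat.le_of_dvd (degree_pos χ) h).lt_or_eq with h2 | h2
  · exact absurd h (hA a ha _ (mem_degrees χ) h1 h2)
  · exact h2

/-- A degree times a number bigger than one is not a degree. -/
theorem Antichain.not_mul (hA : Antichain G) {a b : ℕ} (ha : a ∈ charDegrees G) (h1 : 1 < a)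
    (hb : 1 < b) : b * a ∉ charDegrees G := fun h => by
  have h2 := hA.eq_of_dvd ha h h1 (dvd_mul_left a b)
  have h3 : 2 * a ≤ b * a := Nat.mul_le_mul_right a hb
  omega

/-- A non-linear character trivial on a normal subgroup with non-abelian quotient. -/
theorem exists_nonlinear_of_not_le (K : Subgroup G) [K.Normal] (hK : ¬ commutator G ≤ K) :
    ∃ β : IrrCharacter G, (∀ k ∈ K, (β : G → ℂ) k = (β : G → ℂ) 1) ∧
      1 < charDegree (β : G → ℂ) := by
  have hne : commutator (G ⧸ K) ≠ ⊥ := fun h => hK (by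
    rw [← QuotientGroup.ker_mk' K, ← Subgroup.map_eq_bot_iff, commutator_def,
      Subgroup.map_commutator, Subgroup.map_top_of_surjective _ (QuotientGroup.mk'_surjective K),
      ← commutator_def]
    exact h)
  obtain ⟨β, hβ⟩ := CfsgLib.Correspondences.exists_nonlinear hne
  refine ⟨⟨_, isIrrCharacter_comp β.2 (f := QuotientGroup.mk' K)
    (QuotientGroup.mk'_surjective K)⟩, fun k hk => ?_, ?_⟩
  · show (β : G ⧸ K → ℂ) (k : G ⧸ K) = (β : G ⧸ K → ℂ) ((1 : G) : G ⧸ K)
    rw [(QuotientGroup.eq_one_iff k).2 hk]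
    rfl
  · refine one_lt_degree fun h => hβ ?_
    rw [← h]
    exact (degree_eq (χ := β) (apply_one (G := G) ⟨_, isIrrCharacter_comp β.2
      (f := QuotientGroup.mk' K) (QuotientGroup.mk'_surjective K)⟩))

variable [Fintype G]

/-- Gallagher: multiply a character with irreducible restriction by a non-linear one of the
quotient. -/
theorem exists_mul (K : Subgroup G) [K.Normal] [Fintype K] (hK : ¬ commutator G ≤ K)
    {θ : K → ℂ} (hθ : IsIrrCharacter K θ) {χ : G → ℂ} (hχ : IsIrrCharacter G χ)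
    (hres : ∀ k : K, χ k = θ k) :
    ∃ (ψ : IrrCharacter G) (b : ℕ), 1 < b ∧ (ψ : G → ℂ) 1 = (b : ℂ) * χ 1 ∧
      ∀ k : K, (ψ : G → ℂ) k = (b : ℂ) * θ k := by
  obtain ⟨β, hβK, hβ1⟩ := exists_nonlinear_of_not_le K hK
  have hinv : ∀ g : G, conjChar K θ g = θ := fun g => funext fun n => by
    rw [conjChar_apply, ← hres, ← hres]
    exact IsIrrCharacter.isClassFunction hχ n g
  have hb := gallagher_bijOn (φ := fun _ : K => (1 : ℂ)) isIrrCharacter_one (fun g => rfl) hinv
    (by simpa [Pi.mul_def] using hθ) hχ hres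
  have hover : classInner (indFun K (fun _ => 1)) (β : G → ℂ) ≠ 0 := by
    rw [CfsgLib.Frobenius.classInner_indFun K _ _ (IsIrrCharacter.isClassFunction β.2),
      classInner_conj_symm,
      show (fun n : K => (β : G → ℂ) n) = (charDegree (β : G → ℂ) : ℂ) • fun _ => (1 : ℂ) from
        funext fun n => by rw [hβK n n.2, apply_one, Pi.smul_apply, smul_eq_mul, mul_one],
      classInner_smul_left, classInner_self_of_isIrr isIrrCharacter_one, mul_one,
      Complex.conj_natCast]
    exact Nat.cast_ne_zero.2 (degree_pos β).ne'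
  obtain ⟨hψ, -⟩ := hb.mapsTo ⟨β.2, hover⟩
  refine ⟨⟨_, hψ⟩, charDegree (β : G → ℂ), hβ1, ?_, fun k => ?_⟩
  · show (β : G → ℂ) 1 * χ 1 = _
    rw [apply_one]
  · show (β : G → ℂ) k * χ k = _
    rw [hβK k k.2, apply_one, hres]

/-- The index of a subgroup with `p`-power exponent quotient is a power of `p`. -/
theorem index_eq_pow {K : Subgroup G} {p : ℕ} (hK : PQuot K p) : ∃ k, K.index = p ^ k := by
  haveI := hK.normal
  haveI := Fact.mk hK.prime
  refine IsPGroup.iff_card.1 (fun x => ?_)
  obtain ⟨x, rfl⟩ := QuotientGroup.mk_surjective x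
  obtain ⟨k, hk⟩ := hK.pow x
  exact ⟨k, by rw [← QuotientGroup.mk_pow]; exact (QuotientGroup.eq_one_iff _).2 hk⟩

/-- Every non-trivial degree is divisible by the prime of a non-abelian quotient of prime power
order. -/
theorem dvd_of_pQuot (hA : Antichain G) {K : Subgroup G} {p : ℕ} (hK : PQuot K p)
    (χ : IrrCharacter G) (h1 : charDegree (χ : G → ℂ) ≠ 1) : p ∣ charDegree (χ : G → ℂ) := by
  classical
  by_contra hp
  haveI := hK.normal
  haveI : Fintype K := Fintype.ofFinite _
  obtain ⟨θ, hθ⟩ := CfsgLib.CharTheory.exists_constituent K (IsIrrCharacter.isCharacter χ.2)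
    (apply_one_ne_zero_of_isIrr χ.2)
  obtain ⟨r, hr, hr1⟩ := CfsgLib.RealChar.degree_div_dvd_index K χ.2 θ.2 hθ
  obtain ⟨k, hk⟩ := index_eq_pow hK
  rw [apply_one, apply_one] at hr1
  have hr1' : charDegree (χ : G → ℂ) = r * charDegree (θ : K → ℂ) := by exact_mod_cast hr1
  have hr0 : r = 1 := by
    rw [hk] at hr
    obtain ⟨i, -, rfl⟩ := (Nat.dvd_prime_pow hK.prime).1 hr
    rcases Nat.eq_zero_or_pos i with rfl | hi
    · exact pow_zero p
    · exact absurd (((dvd_pow_self p hi.ne').trans (dvd_mul_right _ _)).trans hr1'.symm.dvd) hp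
  obtain ⟨e, he, hd⟩ := exists_mult K (show Over K χ θ from hθ)
  rw [hr1', hr0, one_mul] at hd
  have he1 : e * (conjOrbit K (θ : K → ℂ)).card = 1 :=
    Nat.eq_of_mul_eq_mul_right (degree_pos θ) (by rw [one_mul]; exact hd.symm)
  obtain ⟨rfl, ho⟩ := mul_eq_one.1 he1
  obtain ⟨η, hη⟩ := Finset.card_eq_one.1 ho
  have hη' : η = (θ : K → ℂ) := by
    have h2 : (θ : K → ℂ) ∈ conjOrbit K (θ : K → ℂ) := (mem_conjOrbit K).2 ⟨1, conjChar_one K _⟩
    rw [hη, Finset.mem_singleton] at h2
    exact h2.symm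
  have hres := res_eq K χ.2 θ.2 hθ
  rw [he, hη, Finset.sum_singleton, hη', Nat.cast_one, one_smul] at hres
  obtain ⟨ψ, b, hb, hψ1, -⟩ := exists_mul K hK.nonab θ.2 χ.2 (fun k => congrFun hres k)
  refine hA.not_mul (mem_degrees χ) (one_lt_degree h1) hb ⟨ψ, degree_eq ?_⟩
  rw [hψ1, apply_one, Nat.cast_mul]

/-- A degree is at most the index of an abelian subgroup. -/
theorem degree_le_index (A : Subgroup G) (hab : ∀ a ∈ A, ∀ b ∈ A, a * b = b * a)
    (χ : IrrCharacter G) : charDegree (χ : G → ℂ) ≤ A.index := by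
  classical
  haveI : Fintype A := Fintype.ofFinite _
  haveI : Fintype (IrrCharacter G) := Fintype.ofFinite _
  obtain ⟨θ, hθ⟩ := CfsgLib.CharTheory.exists_constituent A (IsIrrCharacter.isCharacter χ.2)
    (apply_one_ne_zero_of_isIrr χ.2)
  have hθ1 := apply_one_eq_one_of_comm (fun a b : A => Subtype.ext (hab a a.2 b b.2)) θ.2
  obtain ⟨m, hm⟩ := IsCharacter.exists_sum
    (CfsgLib.Frobenius.isCharacter_indFun A _ (IsIrrCharacter.isCharacter θ.2))
  have hmχ : m χ ≠ 0 := fun h0 => hθ (by
    have e : classInner (indFun A (θ : A → ℂ)) (χ : G → ℂ) = (m χ : ℂ) := by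
      rw [hm]; exact classInner_sum_irr _ χ
    rw [CfsgLib.Frobenius.classInner_indFun A _ _ (IsIrrCharacter.isClassFunction χ.2), h0,
      Nat.cast_zero] at e
    rw [classInner_conj_symm, e, map_zero])
  have h := congrFun hm 1
  rw [CfsgLib.Frobenius.indFun_one, hθ1, mul_one] at h
  simp only [Finset.sum_apply, Pi.smul_apply, smul_eq_mul, apply_one] at h
  have h' : A.index = ∑ φ : IrrCharacter G, m φ * charDegree (φ : G → ℂ) := by exact_mod_cast h
  rw [h']
  exact (Nat.le_mul_of_pos_left _ (Nat.pos_of_ne_zero hmχ)).trans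
    (Finset.single_le_sum (f := fun φ : IrrCharacter G => m φ * charDegree (φ : G → ℂ))
      (fun _ _ => Nat.zero_le _) (Finset.mem_univ χ))

/-- With a non-abelian quotient of prime power order all non-trivial degrees are equal. -/
theorem eq_of_pQuot (hA : Antichain G) {K : Subgroup G} {p : ℕ} (hK : PQuot K p)
    (χ χ' : IrrCharacter G) (h1 : charDegree (χ : G → ℂ) ≠ 1)
    (h1' : charDegree (χ' : G → ℂ) ≠ 1) :
    charDegree (χ : G → ℂ) = charDegree (χ' : G → ℂ) := by
  classical
  have hp := hK.prime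
  haveI := hK.normal
  obtain ⟨N, hN, hcop, k, hk⟩ := Cfsg.Agent.S4456.result p hp (dvd_of_pQuot hA hK)
  haveI := hN
  haveI : Fintype N := Fintype.ofFinite _
  have hNK : N ≤ K := fun x hx => by
    obtain ⟨j, hj⟩ := hK.pow x
    exact Palfy.mem_of_pow_coprime hj (b := Nat.card N) (by
      rw [show x ^ Nat.card N = 1 from congrArg Subtype.val (pow_card_eq_one' (x := (⟨x, hx⟩ : N)))]
      exact K.one_mem) (Nat.Coprime.pow_left _ hcop.symm)
  have key : ∀ χ : IrrCharacter G, charDegree (χ : G → ℂ) ≠ 1 →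
      ∃ i, 0 < i ∧ charDegree (χ : G → ℂ) = p ^ i := by
    intro χ h1
    obtain ⟨η, hη⟩ := CfsgLib.CharTheory.exists_constituent N (IsIrrCharacter.isCharacter χ.2)
      (apply_one_ne_zero_of_isIrr χ.2)
    obtain ⟨r, hr, hr1⟩ := CfsgLib.RealChar.degree_div_dvd_index N χ.2 η.2 hη
    rw [apply_one, apply_one] at hr1
    have hr1' : charDegree (χ : G → ℂ) = r * charDegree (η : N → ℂ) := by exact_mod_cast hr1
    suffices hη1 : charDegree (η : N → ℂ) = 1 by
      rw [hk] at hr
      obtain ⟨i, -, rfl⟩ := (Nat.dvd_prime_pow hp).1 hr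
      refine ⟨i, Nat.pos_of_ne_zero ?_, by rw [hr1', hη1, mul_one]⟩
      rintro rfl
      exact h1 (by rw [hr1', hη1, pow_zero, one_mul])
    by_contra hne
    have hη1 := one_lt_degree hne
    set T := inertia N (η : N → ℂ) with hT
    have hNT : N ≤ T := le_inertia N (IsIrrCharacter.isClassFunction η.2)
    haveI : Fintype T := Fintype.ofFinite _
    let N' := N.subgroupOf T
    haveI : Fintype N' := Fintype.ofFinite _
    let e : N' ≃* N := Subgroup.subgroupOfEquivOfLe hNT
    have hη' : IsIrrCharacter N' (fun k => (η : N → ℂ) (e k)) := isIrrCharacter_comp_mulEquiv η.2 e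
    have hcop' : (Nat.card N').Coprime N'.index := by
      rw [Nat.card_congr e.toEquiv]
      refine Nat.Coprime.coprime_dvd_right ?_ (hk ▸ hcop.pow_right k)
      exact ⟨T.index, (Subgroup.relIndex_mul_index hNT).symm⟩
    obtain ⟨φ, hφ, hφη⟩ := CfsgLib.CharDegreesTheory.exists_extension_of_coprime N' hcop' _ hη'
      fun t k => by
        have h := congrFun ((mem_inertia N (η : N → ℂ) _).1 t.2) (e k)
        rw [conjChar_apply] at h
        refine (congrArg (η : N → ℂ) (Subtype.ext ?_)).trans h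
        show (((MulAut.conjNormal t k : N') : T) : G) = _
        rw [MulAut.conjNormal_apply]
        rfl
    have hindd : ∀ ψ : IrrCharacter T, ∀ b : ℕ, 0 < b →
        (∀ k : N', (ψ : T → ℂ) k = (b : ℂ) * (η : N → ℂ) (e k)) →
        T.index * charDegree (ψ : T → ℂ) ∈ charDegrees G := by
      intro ψ b hb hψ
      have hne0 : classInner (fun n : N => (ψ : T → ℂ) ⟨(n : G), hNT n.2⟩) (η : N → ℂ) ≠ 0 := by
        rw [show (fun n : N => (ψ : T → ℂ) ⟨(n : G), hNT n.2⟩) = (b : ℂ) • (η : N → ℂ) from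
          funext fun n => by
            have h := hψ (e.symm n)
            rw [e.apply_symm_apply] at h
            exact h, classInner_smul_left, classInner_self_of_isIrr η.2, mul_one]
        exact Nat.cast_ne_zero.2 hb.ne'
      obtain ⟨hirr, -⟩ := isIrrCharacter_indFun_inertia η.2 (mem_inertia N _) hNT ψ.2 hne0
      refine ⟨⟨_, hirr⟩, degree_eq ?_⟩
      show indFun T (ψ : T → ℂ) 1 = _
      rw [CfsgLib.Frobenius.indFun_one, apply_one, Nat.cast_mul]
    have ha : T.index * charDegree (η : N → ℂ) ∈ charDegrees G := by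
      have hd : charDegree ((⟨φ, hφ⟩ : IrrCharacter T) : T → ℂ) = charDegree (η : N → ℂ) := by
        refine degree_eq ?_
        show φ 1 = _
        rw [← apply_one, show φ 1 = (η : N → ℂ) (e 1) from hφη 1, map_one]
      rw [← hd]
      exact hindd _ 1 one_pos fun k => by rw [Nat.cast_one, one_mul]; exact hφη k
    have ha1 : 1 < T.index * charDegree (η : N → ℂ) :=
      lt_of_lt_of_le hη1 (Nat.le_mul_of_pos_left _
        (Nat.pos_of_ne_zero Subgroup.index_ne_zero_of_finite))
    by_cases hab : commutator T ≤ N'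
    · obtain ⟨β, hβK, hβ1⟩ := exists_nonlinear_of_not_le K hK.nonab
      obtain ⟨θ, hθ⟩ := CfsgLib.CharTheory.exists_constituent N (IsIrrCharacter.isCharacter β.2)
        (apply_one_ne_zero_of_isIrr β.2)
      obtain ⟨β', hβ', hβe⟩ := exists_descend β.2 N fun g hg => hβK g (hNK hg)
      haveI : Fintype (G ⧸ N) := Fintype.ofFinite _
      have hle := degree_le_index (T.map (QuotientGroup.mk' N)) ?_ ⟨β', hβ'⟩
      swap
      · rintro _ ⟨a, ha, rfl⟩ _ ⟨b, hb, rfl⟩
        rw [← map_mul, ← map_mul]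
        refine QuotientGroup.eq.2 ?_
        have h := hab (Subgroup.commutator_mem_commutator (Subgroup.mem_top ((⟨b, hb⟩ : T)⁻¹))
          (Subgroup.mem_top ((⟨a, ha⟩ : T)⁻¹)))
        have e1 : (a * b)⁻¹ * (b * a) = b⁻¹ * a⁻¹ * b * a := by group
        rw [e1]
        simpa [commutatorElement_def, N', Subgroup.mem_subgroupOf] using h
      rw [Subgroup.index_map_eq _ (QuotientGroup.mk'_surjective N)
        (by rw [QuotientGroup.ker_mk']; exact hNT)] at hle
      have hdeg : charDegree β' = charDegree (β : G → ℂ) :=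
        (degree_eq (χ := β) (d := charDegree β') (by
          rw [hβe]
          exact apply_one (⟨β', hβ'⟩ : IrrCharacter (G ⧸ N)))).symm
      change charDegree β' ≤ _ at hle
      rw [hdeg] at hle
      obtain ⟨r', hr', hr1''⟩ := CfsgLib.RealChar.degree_div_dvd_index K β.2
        (isIrrCharacter_one (G := K)) (by
          rw [show (fun n : K => (β : G → ℂ) n) = (charDegree (β : G → ℂ) : ℂ) • fun _ => (1 : ℂ)
            from funext fun n => by rw [hβK n n.2, apply_one, Pi.smul_apply, smul_eq_mul, mul_one],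
            classInner_smul_left, classInner_self_of_isIrr isIrrCharacter_one, mul_one]
          exact Nat.cast_ne_zero.2 (degree_pos β).ne')
      rw [apply_one, mul_one] at hr1''
      have hr1b : charDegree (β : G → ℂ) = r' := by exact_mod_cast hr1''
      obtain ⟨j, hj⟩ := index_eq_pow hK
      rw [hj] at hr'
      obtain ⟨i, -, hi⟩ := (Nat.dvd_prime_pow hp).1 hr'
      obtain ⟨i', -, hi'⟩ := (Nat.dvd_prime_pow hp).1 (hk ▸ Subgroup.index_dvd_of_le hNT)
      have hii : i ≤ i' := (Nat.pow_le_pow_iff_right hp.one_lt).1 (by rw [← hi, ← hi', ← hr1b]; exact hle)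
      have hdvd : charDegree (β : G → ℂ) ∣ T.index := by
        rw [hr1b, hi, hi']
        exact pow_dvd_pow p hii
      have h2 := hA.eq_of_dvd (mem_degrees β) ha hβ1 (hdvd.trans (dvd_mul_right _ _))
      have h3 : T.index * 2 ≤ T.index * charDegree (η : N → ℂ) := Nat.mul_le_mul_left _ hη1
      have h4 := Nat.pos_of_ne_zero (Subgroup.index_ne_zero_of_finite (H := T))
      omega
    · obtain ⟨ψ, b, hb, hψ1, hψN⟩ := exists_mul N' hab hη' hφ hφη
      have hb' := hindd ψ b (by omega) hψN
      have hd : charDegree (ψ : T → ℂ) = b * charDegree (η : N → ℂ) := by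
        refine degree_eq ?_
        rw [hψ1, show φ 1 = (η : N → ℂ) (e 1) from hφη 1, map_one, apply_one, Nat.cast_mul]
      rw [hd, show T.index * (b * charDegree (η : N → ℂ)) = b * (T.index * charDegree (η : N → ℂ))
        by ring] at hb'
      exact hA.not_mul ha ha1 hb hb'
  obtain ⟨i, hi, he⟩ := key χ h1
  obtain ⟨j, hj, he'⟩ := key χ' h1'
  rcases le_total i j with h | h
  · exact hA.eq_of_dvd (mem_degrees χ) (mem_degrees χ') (one_lt_degree h1)
      (by rw [he, he']; exact pow_dvd_pow p h)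
  · exact (hA.eq_of_dvd (mem_degrees χ') (mem_degrees χ) (one_lt_degree h1')
      (by rw [he, he']; exact pow_dvd_pow p h)).symm

end CfsgLib.ZerosCodegree.Nondiv
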