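import Cfsg.Agent.Lib.ZerosCodegree.BlockTools
import Cfsg.Agent.Lib.ZerosCodegree.CharsOver
import Cfsg.Agent.Lib.CharTheory.Degree
import Cfsg.Agent.Lib.Blocks.RootsOfUnity

/-!
The sums of the orbits of a normal subgroup acting by conjugation, in a representation whose
restriction is congruent to the principal block.
-/

set_option autoImplicit false
set_option linter.style.haveILetI false
set_option linter.unusedSectionVars false

namespace CfsgLib.ZerosCodegree

open Cfsg CfsgLib.CharTheory CfsgLib.Blocks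

universe u
variable {G : Type u} [Group G] [Fintype G] (N : Subgroup G) [N.Normal] [Fintype N]

open scoped Classical in
/-- The conjugates of `x` under `N`. -/
noncomputable def normalOrbit (x : G) : Finset G :=
  Finset.univ.image fun n : N => (n : G) * x * (n : G)⁻¹

theorem mem_normalOrbit {x y : G} : y ∈ normalOrbit N x ↔ ∃ n : N, (n : G) * x * (n : G)⁻¹ = y := by
  classical
  simp [normalOrbit]

theorem self_mem_normalOrbit (x : G) : x ∈ normalOrbit N x :=
  (mem_normalOrbit N).2 ⟨1, by simp⟩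

theorem card_normalOrbit_pos (x : G) : 0 < (normalOrbit N x).card :=
  Finset.card_pos.2 ⟨x, self_mem_normalOrbit N x⟩

theorem conj_mem_normalOrbit_iff {x : G} (n : N) (y : G) :
    (n : G) * y * (n : G)⁻¹ ∈ normalOrbit N x ↔ y ∈ normalOrbit N x := by
  simp only [mem_normalOrbit]
  constructor
  · rintro ⟨m, hm⟩
    exact ⟨n⁻¹ * m, by
      rw [Subgroup.coe_mul, InvMemClass.coe_inv,
        show y = (n : G)⁻¹ * ((n : G) * y * (n : G)⁻¹) * (n : G) by group, ← hm]
      group⟩
  · rintro ⟨m, rfl⟩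
    exact ⟨n * m, by rw [Subgroup.coe_mul]; group⟩

theorem mul_inv_mem_of_mem_normalOrbit {x u : G} (h : u ∈ normalOrbit N x) :
    x⁻¹ * u ∈ N := by
  obtain ⟨n, rfl⟩ := (mem_normalOrbit N).1 h
  rw [show x⁻¹ * ((n : G) * x * (n : G)⁻¹) = (x⁻¹ * n * x) * (n : G)⁻¹ by group]
  exact N.mul_mem (by simpa using (inferInstance : N.Normal).conj_mem _ n.2 x⁻¹) (N.inv_mem n.2)

/-- The size of the `N`-orbit is prime to `p` when a Sylow subgroup inside `N` centralises. -/
theorem not_dvd_card_normalOrbit {p : ℕ} [Fact p.Prime] (P : Sylow p G) (hPN : (P : Subgroup G) ≤ N)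
    {x : G} (hx : x ∈ Subgroup.centralizer ((P : Subgroup G) : Set G)) :
    ¬ p ∣ (normalOrbit N x).card := by
  classical
  let S : Subgroup N := (Subgroup.centralizer ({x} : Set G)).subgroupOf N
  have h1 : Nat.card N = (normalOrbit N x).card * Nat.card S := by
    have h2 : (Finset.univ : Finset N).card = ∑ y ∈ normalOrbit N x,
        (Finset.univ.filter fun n : N => (n : G) * x * (n : G)⁻¹ = y).card :=
      Finset.card_eq_sum_card_fiberwise fun n _ => (mem_normalOrbit N).2 ⟨n, rfl⟩
    rw [Nat.card_eq_fintype_card, ← Finset.card_univ, h2, ← smul_eq_mul, ← Finset.sum_const]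
    refine Finset.sum_congr rfl fun y hy => ?_
    obtain ⟨n₀, rfl⟩ := (mem_normalOrbit N).1 hy
    rw [Nat.card_eq_fintype_card]
    refine ((Finset.card_bij (fun (t : S) _ => n₀ * (t : N)) (fun t _ => ?_)
      (fun a _ b _ hab => Subtype.ext (mul_left_cancel hab)) (fun n hn => ?_)).symm.trans
      Finset.card_univ)
    · have h3 : ((t : N) : G) * x = x * ((t : N) : G) := Subgroup.mem_centralizer_singleton_iff.1 t.2
      refine Finset.mem_filter.2 ⟨Finset.mem_univ _, ?_⟩
      rw [Subgroup.coe_mul, mul_assoc (n₀ : G), h3]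
      simp [mul_assoc]
    · refine ⟨⟨n₀⁻¹ * n, Subgroup.mem_centralizer_singleton_iff.2 ?_⟩, Finset.mem_univ _, by simp⟩
      have h3 := (Finset.mem_filter.1 hn).2
      calc (n₀ : G)⁻¹ * n * x = (n₀ : G)⁻¹ * ((n : G) * x * (n : G)⁻¹) * n := by group
        _ = x * ((n₀ : G)⁻¹ * n) := by rw [h3]; group
  intro hdvd
  have hPS : Nat.card P ∣ Nat.card S := by
    refine Subgroup.card_dvd_of_injective
      (MonoidHom.codRestrict (Subgroup.inclusion hPN) S fun y => Subgroup.mem_centralizer_singleton_iff.2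
        (Subgroup.mem_centralizer_iff.1 hx (y : G) y.2)) fun a b h => Subtype.ext ?_
    exact congrArg (fun z : S => ((z : N) : G)) h
  have h4 : p * Nat.card P ∣ Nat.card G :=
    (Nat.mul_dvd_mul hdvd hPS).trans (h1 ▸ Subgroup.card_subgroup_dvd_card N)
  rw [← Subgroup.card_mul_index (P : Subgroup G), mul_comm p] at h4
  exact P.not_dvd_index (Nat.dvd_of_mul_dvd_mul_left Nat.card_pos h4)

/-- The conjugacy class is a union of orbits of `N` of one size. -/
theorem card_normalOrbit_dvd_index (x : G) :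
    (normalOrbit N x).card ∣ (Subgroup.centralizer ({x} : Set G)).index := by
  classical
  rw [← CfsgLib.Correspondences.natCard_carrier_eq_index, Nat.card_eq_fintype_card,
    Fintype.card_subtype]
  conv_rhs => rw [Finset.card_eq_sum_card_image (normalOrbit N)]
  refine Finset.dvd_sum (R := ℕ) ?_
  intro O hO
  obtain ⟨y, hy, rfl⟩ := Finset.mem_image.1 hO
  obtain ⟨c, rfl⟩ := isConj_iff.1 (Finset.mem_filter.1 hy).2
  have hfib : (Finset.univ.filter (fun z => IsConj x z)).filter
      (fun z => normalOrbit N z = normalOrbit N (c * x * c⁻¹)) = normalOrbit N (c * x * c⁻¹) := by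
    ext z
    simp only [Finset.mem_filter, Finset.mem_univ, true_and]
    refine ⟨fun h => h.2 ▸ self_mem_normalOrbit N z, fun h => ?_⟩
    obtain ⟨n, rfl⟩ := (mem_normalOrbit N).1 h
    refine ⟨isConj_iff.2 ⟨n * c, by group⟩, Finset.ext fun w => ?_⟩
    simp only [mem_normalOrbit]
    constructor
    · rintro ⟨m, rfl⟩; exact ⟨m * n, by rw [Subgroup.coe_mul]; group⟩
    · rintro ⟨m, rfl⟩; exact ⟨m * n⁻¹, by rw [Subgroup.coe_mul, InvMemClass.coe_inv]; group⟩
  rw [hfib]
  refine dvd_of_eq (Finset.card_bij (fun z _ => c * z * c⁻¹) (fun z hz => ?_)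
    (fun a _ b _ h => by simpa using h) (fun z hz => ?_))
  · obtain ⟨n, rfl⟩ := (mem_normalOrbit N).1 hz
    exact (mem_normalOrbit N).2 ⟨⟨c * n * c⁻¹, (inferInstance : N.Normal).conj_mem _ n.2 c⟩, by
      show (c * n * c⁻¹) * (c * x * c⁻¹) * (c * n * c⁻¹)⁻¹ = _
      group⟩
  · obtain ⟨n, rfl⟩ := (mem_normalOrbit N).1 hz
    refine ⟨c⁻¹ * ((n : G) * (c * x * c⁻¹) * (n : G)⁻¹) * c, (mem_normalOrbit N).2
      ⟨⟨c⁻¹ * n * c, by simpa using (inferInstance : N.Normal).conj_mem _ n.2 c⁻¹⟩, ?_⟩, by group⟩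
    show (c⁻¹ * n * c) * x * (c⁻¹ * n * c)⁻¹ = _
    group

/-- The restriction of a representation to `N`. -/
noncomputable def resRep {d : ℕ} (σ : Representation ℂ G (Fin d → ℂ)) :
    Representation ℂ N (Fin d → ℂ) :=
  σ.comp N.subtype

variable {M : Ideal AlgInt} [M.IsPrime]

/-- The restriction of `f` to `N` is congruent, after normalisation, to the principal block. -/
def IsPrincipalOn (M : Ideal AlgInt) (f : G → ℂ) : Prop :=
  ∀ a : N → ℂ, IsClassFunction N a → (∀ n, MemLocalRing M (a n)) →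
    MemLocalIdeal M ((∑ n : N, a n * f n) / f 1 - ∑ n : N, a n)

theorem isPrincipalOn_of_res_eq {θ : IrrCharacter N} (hθ : θ ∈ principalBlock M N) {f : G → ℂ}
    (hf : ∀ n : N, f n = (θ : N → ℂ) n) : IsPrincipalOn N M f := by
  intro a ha hloc
  have h := CfsgLib.BlockLocal.memLocalIdeal_sum_sub_of_sameBlock
    (IsIrrCharacter.isClassFunction (trivIrr N).2) (IsIrrCharacter.isClassFunction θ.2) hθ ha hloc
  simp only [trivIrr_apply, mul_one, div_one] at h
  have h1 : f 1 = (θ : N → ℂ) 1 := by rw [← OneMemClass.coe_one N, hf]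
  rw [memLocalIdeal_sub_comm]
  simpa only [hf, h1] using h

/-- The key identity: scalars of three orbit sums with product in `N`. -/
theorem memLocalIdeal_scalar_mul_sub {d : ℕ} (hd : d ≠ 0) (σ : Representation ℂ G (Fin d → ℂ))
    (hP : IsPrincipalOn N M σ.character) {x y z : G} (hxyz : x * y * z ∈ N) {sx sy sz : ℂ}
    (hx : ∑ u ∈ normalOrbit N x, σ u = sx • LinearMap.id)
    (hy : ∑ u ∈ normalOrbit N y, σ u = sy • LinearMap.id)
    (hz : ∑ u ∈ normalOrbit N z, σ u = sz • LinearMap.id) :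
    MemLocalIdeal M (sx * sy * sz -
      ((normalOrbit N x).card * (normalOrbit N y).card * (normalOrbit N z).card : ℕ)) := by
  classical
  let T : Finset (G × G × G) := normalOrbit N x ×ˢ (normalOrbit N y ×ˢ normalOrbit N z)
  have hTN : ∀ t ∈ T, t.1 * t.2.1 * t.2.2 ∈ N := by
    intro t ht
    simp only [T, Finset.mem_product] at ht
    rw [← QuotientGroup.eq_one_iff] at hxyz ⊢
    have e : ∀ {a b : G}, b ∈ normalOrbit N a → (b : G ⧸ N) = (a : G ⧸ N) := fun {a b} h =>
      (QuotientGroup.eq.2 (mul_inv_mem_of_mem_normalOrbit N h)).symm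
    rw [QuotientGroup.mk_mul, QuotientGroup.mk_mul, e ht.1, e ht.2.1, e ht.2.2,
      ← QuotientGroup.mk_mul, ← QuotientGroup.mk_mul, hxyz]
  let a : N → ℂ := fun n => ((T.filter fun t => t.1 * t.2.1 * t.2.2 = (n : G)).card : ℂ)
  have ha : IsClassFunction N a := by
    intro n m
    show ((_ : ℕ) : ℂ) = _
    congr 1
    refine Finset.card_bij
      (fun t _ => ((m : G)⁻¹ * t.1 * m, (m : G)⁻¹ * t.2.1 * m, (m : G)⁻¹ * t.2.2 * m))
      (fun t ht => ?_) (fun a _ b _ h => ?_) (fun t ht => ?_)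
    · simp only [Finset.mem_filter, T, Finset.mem_product, Subgroup.coe_mul, InvMemClass.coe_inv] at ht ⊢
      refine ⟨⟨?_, ?_, ?_⟩, ?_⟩
      · simpa using (conj_mem_normalOrbit_iff N m⁻¹ t.1).2 ht.1.1
      · simpa using (conj_mem_normalOrbit_iff N m⁻¹ t.2.1).2 ht.1.2.1
      · simpa using (conj_mem_normalOrbit_iff N m⁻¹ t.2.2).2 ht.1.2.2
      · calc _ = (m : G)⁻¹ * (t.1 * t.2.1 * t.2.2) * m := by group
          _ = n := by rw [ht.2]; group
    · simpa [Prod.ext_iff] using h
    · simp only [Finset.mem_filter, T, Finset.mem_product, Subgroup.coe_mul, InvMemClass.coe_inv] at ht ⊢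
      refine ⟨((m : G) * t.1 * (m : G)⁻¹, (m : G) * t.2.1 * (m : G)⁻¹, (m : G) * t.2.2 * (m : G)⁻¹),
        ⟨⟨(conj_mem_normalOrbit_iff N m t.1).2 ht.1.1, (conj_mem_normalOrbit_iff N m t.2.1).2 ht.1.2.1,
          (conj_mem_normalOrbit_iff N m t.2.2).2 ht.1.2.2⟩, ?_⟩, ?_⟩
      · rw [← ht.2]; group
      · simp [Prod.ext_iff, mul_assoc]
  have h := hP a ha fun n => memLocalRing_natCast _
  have hsum : ∀ F : G → ℂ, ∑ n : N, a n * F n = ∑ t ∈ T, F (t.1 * t.2.1 * t.2.2) := by
    intro F
    rw [← Finset.sum_fiberwise_of_maps_to (g := fun t : G × G × G => t.1 * t.2.1 * t.2.2)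
      (t := Finset.univ.image (fun n : N => (n : G)))
      (fun t ht => Finset.mem_image.2 ⟨⟨_, hTN t ht⟩, Finset.mem_univ _, rfl⟩),
      Finset.sum_image fun a _ b _ h => Subtype.ext h]
    refine Finset.sum_congr rfl fun n _ => ?_
    rw [Finset.sum_congr rfl (g := fun _ => F n) fun t ht => by rw [(Finset.mem_filter.1 ht).2],
      Finset.sum_const, nsmul_eq_mul]
  have hone : ∑ n : N, a n = (T.card : ℂ) := by simpa using hsum fun _ => 1
  have hprod : ∑ t ∈ T, σ (t.1 * t.2.1 * t.2.2) = (sx * sy * sz) • LinearMap.id := by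
    simp only [T, Finset.sum_product, map_mul, ← Finset.mul_sum, ← Finset.sum_mul, hz, hy, hx]
    apply LinearMap.ext
    intro v
    simp [Module.End.mul_apply, smul_smul, mul_assoc, mul_comm, mul_left_comm]
  have htr : ∑ t ∈ T, σ.character (t.1 * t.2.1 * t.2.2) = (sx * sy * sz) * d := by
    show ∑ t ∈ T, LinearMap.trace ℂ _ (σ (t.1 * t.2.1 * t.2.2)) = _
    rw [← map_sum, hprod, map_smul, smul_eq_mul, LinearMap.trace_id, Module.finrank_fin_fun]
  rw [hsum, htr, hone, Representation.char_one, Module.finrank_fin_fun,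
    mul_div_cancel_right₀ _ (Nat.cast_ne_zero.2 hd), Finset.card_product, Finset.card_product,
    ← mul_assoc] at h
  exact h

/-- In a representation restricting irreducibly, the orbit sums are scalars. -/
theorem sum_normalOrbit_eq_smul {d : ℕ} (σ : Representation ℂ G (Fin d → ℂ))
    (hirr : (resRep N σ).IsIrreducible) (x : G) :
    ∑ u ∈ normalOrbit N x, σ u =
      (((normalOrbit N x).card : ℂ) * σ.character x / σ.character 1) • LinearMap.id := by
  classical
  haveI := hirr
  haveI : Nontrivial (Fin d → ℂ) := nontrivial_of_isIrreducible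
    (resRep N σ)
  obtain ⟨c, hc⟩ := exists_smul_of_commute (resRep N σ)
    (∑ u ∈ normalOrbit N x, σ u) fun n => by
      show (∑ u ∈ normalOrbit N x, σ u) * σ (n : G) = σ (n : G) * ∑ u ∈ normalOrbit N x, σ u
      rw [Finset.sum_mul, Finset.mul_sum]
      refine Finset.sum_bij (fun u _ => (n : G)⁻¹ * u * n)
        (fun u hu => by simpa using (conj_mem_normalOrbit_iff N n⁻¹ u).2 hu)
        (fun a _ b _ h => by simpa using h)
        (fun u hu => ⟨(n : G) * u * (n : G)⁻¹, (conj_mem_normalOrbit_iff N n u).2 hu, by simp [mul_assoc]⟩)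
        fun u _ => ?_
      rw [← map_mul, ← map_mul]
      congr 1
      group
  have h1 : σ.character 1 ≠ 0 := by
    rw [Representation.char_one]
    exact Nat.cast_ne_zero.2 Module.finrank_pos.ne'
  rw [hc]
  congr 1
  have h2 := congrArg (LinearMap.trace ℂ (Fin d → ℂ)) hc
  rw [map_sum, map_smul, smul_eq_mul, LinearMap.trace_id] at h2
  have hconst : ∀ u ∈ normalOrbit N x, LinearMap.trace ℂ _ (σ u) = σ.character x := fun u hu => by
    obtain ⟨n, rfl⟩ := (mem_normalOrbit N).1 hu
    exact IsCharacter.isClassFunction (isCharacter_character σ) x n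
  rw [Finset.sum_congr rfl hconst, Finset.sum_const, nsmul_eq_mul, ← Representation.char_one σ] at h2
  rw [h2, mul_div_cancel_right₀ _ h1]

/-- A character restricting irreducibly is afforded by a representation that restricts irreducibly. -/
theorem exists_rep_irreducible_res {φ : G → ℂ} (hφ : IsIrrCharacter G φ) {θ : N → ℂ}
    (hθ : IsIrrCharacter N θ) (hres : ∀ n : N, φ n = θ n) :
    ∃ (d : ℕ) (σ : Representation ℂ G (Fin d → ℂ)), d ≠ 0 ∧ σ.character = φ ∧
      (resRep N σ).IsIrreducible := by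
  obtain ⟨d, σ, hσ, rfl⟩ := hφ
  haveI := hσ
  obtain ⟨e, τ, hτ, hτθ⟩ := hθ
  have h : τ.character = (resRep N σ).character :=
    hτθ.trans (funext fun n => (hres n).symm)
  obtain ⟨E⟩ := nonempty_equiv_of_character_eq τ _ h
  haveI := hτ
  refine ⟨d, σ, fun hd => ?_, rfl, isIrreducible_of_equiv E⟩
  haveI : Nontrivial (Fin d → ℂ) := nontrivial_of_isIrreducible σ
  subst hd
  exact not_subsingleton (Fin 0 → ℂ) inferInstance

end CfsgLib.ZerosCodegree
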