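import Cfsg.Agent.Lib.ZerosCodegree.TwoBlockReal
import Cfsg.Agent.Lib.ZerosCodegree.InvertingTwist

/-!
A character with inverse-symmetric odd part over the principal `2`-block of a normal subgroup of odd
index lies in the principal `2`-block.
-/

set_option autoImplicit false
set_option linter.style.haveILetI false

namespace CfsgLib.ZerosCodegree

open Cfsg CfsgLib.CharTheory CfsgLib.Blocks CfsgLib.BlockLocal

universe u
variable {G : Type u} [Group G]

/-- The `2`-regular sum of a symmetrical character, normalised by its degree, is congruent to `1`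
when it lies over the principal block of a normal subgroup of odd index. -/
theorem mem_principalBlock_of_symm_over [Fintype G] {M : Ideal AlgInt} [M.IsPrime]
    (hM : IsPModular 2 M) (N : Subgroup G) [N.Normal] [Fintype N] (hidx : Odd N.index)
    {χ : IrrCharacter G}
    (hsym : ∀ g : G, ¬ 2 ∣ orderOf g → (χ : G → ℂ) g⁻¹ = (χ : G → ℂ) g)
    {θ : IrrCharacter N} (hθ : θ ∈ principalBlock M N)
    (hover : classInner (fun n : N => (χ : G → ℂ) n) (θ : N → ℂ) ≠ 0) :
    χ ∈ principalBlock M G := by
  classical
  haveI : Fact (Nat.Prime 2) := ⟨Nat.prime_two⟩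
  haveI : Fintype (G ⧸ N) := Fintype.ofFinite _
  haveI : Fintype (ConjClasses G) := Fintype.ofFinite _
  haveI := charP_res hM
  let a : G → ℂ := fun g => if 2 ∣ orderOf g then 0 else if g ∈ N then 1 else 0
  let f : G → ℂ := fun g => if 2 ∣ orderOf g then 0 else
    if g ∈ N then 0 else (χ : G → ℂ) g / (χ : G → ℂ) 1
  have hordc : ∀ c g : G, orderOf (c * g * c⁻¹) = orderOf g := fun c g => by
    rw [← MulAut.conj_apply, MulEquiv.orderOf_eq]
  have hNc : ∀ c g : G, c * g * c⁻¹ ∈ N ↔ g ∈ N := fun c g =>
    ⟨fun h => by simpa [mul_assoc] using (inferInstance : N.Normal).conj_mem _ h c⁻¹,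
      fun h => (inferInstance : N.Normal).conj_mem _ h c⟩
  have ha : IsClassFunction G a := fun g c => by simp only [a, hordc, hNc]
  have ha0 : ∀ x ∉ N, a x = 0 := fun x hx => by simp [a, hx]
  have hf : ∀ g c : G, f (c * g * c⁻¹) = f g := fun g c => by
    simp only [f, hordc, hNc, IsIrrCharacter.isClassFunction χ.2 g c]
  have hfinv : ∀ g : G, f g⁻¹ = f g := fun g => by
    simp only [f, orderOf_inv, inv_mem_iff]
    split_ifs with h1 h2
    · rfl
    · rfl
    · rw [hsym g h1]
  -- the part outside N
  let F : ConjClasses G → ℂ := fun c => ∑ g ∈ Finset.univ.filter (fun g => ConjClasses.mk g = c), f g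
  have hFloc : ∀ c, MemLocalRing M (F c) := by
    intro c
    obtain ⟨g, rfl⟩ := ConjClasses.exists_rep c
    rw [show F (ConjClasses.mk g) = if 2 ∣ orderOf g then 0 else if g ∈ N then 0 else
        centralChar (χ : G → ℂ) g from ?_]
    · split_ifs
      · exact memLocalRing_of_memLocalIdeal memLocalIdeal_zero
      · exact memLocalRing_of_memLocalIdeal memLocalIdeal_zero
      · exact memLocalRing_centralChar χ g
    · rw [← sum_conj_eq_centralChar (IsIrrCharacter.isClassFunction χ.2) g]
      have hset : Finset.univ.filter (fun x => ConjClasses.mk x = ConjClasses.mk g) =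
          Finset.univ.filter (IsConj g) := by
        ext x
        simp only [Finset.mem_filter, Finset.mem_univ, true_and, ConjClasses.mk_eq_mk_iff_isConj]
        exact isConj_comm
      simp only [F, hset]
      have hconst : ∀ x ∈ Finset.univ.filter (IsConj g), f x = if 2 ∣ orderOf g then 0 else
          if g ∈ N then 0 else (χ : G → ℂ) x / (χ : G → ℂ) 1 := by
        intro x hx
        obtain ⟨c, rfl⟩ := isConj_iff.1 (Finset.mem_filter.1 hx).2
        simp only [f, hordc, hNc]
      rw [Finset.sum_congr rfl hconst]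
      split_ifs <;> simp
  let ι : ConjClasses G → ConjClasses G := fun c => ConjClasses.mk c.out⁻¹
  have hout : ∀ g : G, IsConj (ConjClasses.mk g).out g := fun g =>
    ConjClasses.mk_eq_mk_iff_isConj.1 (Quotient.out_eq (ConjClasses.mk g))
  have hι : ∀ g : G, ι (ConjClasses.mk g) = ConjClasses.mk g⁻¹ := fun g => by
    obtain ⟨c, hc⟩ := isConj_iff.1 (hout g)
    refine ConjClasses.mk_eq_mk_iff_isConj.2 (isConj_iff.2 ⟨c, ?_⟩)
    nth_rewrite 2 [← hc]
    simp [mul_assoc]
  have hFι : ∀ c, F (ι c) = F c := by
    intro c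
    obtain ⟨g, rfl⟩ := ConjClasses.exists_rep c
    rw [hι]
    refine Finset.sum_equiv (Equiv.inv G) (fun x => ?_) fun x _ => (hfinv x).symm
    simp only [Finset.mem_filter, Finset.mem_univ, true_and, Equiv.inv_apply,
      ConjClasses.mk_eq_mk_iff_isConj, isConj_iff]
    constructor <;> rintro ⟨c, hc⟩ <;> refine ⟨c, ?_⟩
    · rw [← inv_inv g, ← hc]; simp [mul_assoc]
    · rw [← hc]; simp [mul_assoc]
  have hzero : ∑ c, red M ⟨F c, hFloc c⟩ = 0 := by
    refine Finset.sum_involution (fun c _ => ι c) (fun c _ => ?_) (fun c _ hne he => hne ?_)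
      (fun c _ => Finset.mem_univ _) (fun c _ => ?_)
    · rw [show (⟨F (ι c), hFloc _⟩ : locRing M) = ⟨F c, hFloc c⟩ from Subtype.ext (hFι c)]
      exact CharTwo.add_self_eq_zero _
    · obtain ⟨g, rfl⟩ := ConjClasses.exists_rep c
      rw [hι] at he
      have hgN : g ∈ N := by
        refine (QuotientGroup.eq_one_iff g).1 (eq_one_of_isConj_inv
          (by rwa [← Subgroup.index_eq_card]) ?_)
        have h := (QuotientGroup.mk' N).map_isConj (ConjClasses.mk_eq_mk_iff_isConj.1 he)
        rwa [map_inv] at h
      refine (red_eq_zero_iff _).2 ?_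
      show MemLocalIdeal M (F (ConjClasses.mk g))
      rw [show F (ConjClasses.mk g) = 0 from Finset.sum_eq_zero fun x hx => by
        obtain ⟨c, rfl⟩ := isConj_iff.1
          (ConjClasses.mk_eq_mk_iff_isConj.1 (Finset.mem_filter.1 hx).2).symm
        simp [f, hNc, hgN]]
      exact memLocalIdeal_zero
    · obtain ⟨g, rfl⟩ := ConjClasses.exists_rep c
      simp only [hι, inv_inv]
  rw [← map_sum, red_eq_zero_iff, AddSubmonoidClass.coe_finsetSum] at hzero
  have hout0 : MemLocalIdeal M (∑ g, f g) := by
    rw [← Finset.sum_fiberwise Finset.univ ConjClasses.mk f]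
    exact hzero
  -- the part inside N
  have hin : MemLocalIdeal M ((∑ x, a x * (χ : G → ℂ) x) / (χ : G → ℂ) 1 - 1) := by
    have h1 := sum_mul_div_eq_of_constituent N hover ha ha0
    have h2 := memLocalIdeal_sum_sub_of_sameBlock (a := fun n : N => a n)
      (IsIrrCharacter.isClassFunction (trivIrr N).2) (IsIrrCharacter.isClassFunction θ.2) hθ
      (fun n c => by simpa using ha (n : G) (c : G))
      (fun n => by
        simp only [a]
        split_ifs
        exacts [memLocalRing_of_memLocalIdeal memLocalIdeal_zero, memLocalRing_natCast 1 |> fun h => by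
          simpa using h, memLocalRing_of_memLocalIdeal memLocalIdeal_zero])
    have h3 := CfsgLib.CharDegreesTheory.memLocalIdeal_sum_sub_one hM (fun n : N => a n)
      (fun n => by
        simp only [a]
        split_ifs
        exacts [memLocalRing_of_memLocalIdeal memLocalIdeal_zero, memLocalRing_natCast 1 |> fun h => by
          simpa using h, memLocalRing_of_memLocalIdeal memLocalIdeal_zero])
      (fun n => by simp [a]) (fun n hn => by
        simp only [a]
        rw [if_pos]
        rwa [Subgroup.orderOf_coe])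
    have ha1 : a ((1 : N) : G) = 1 := by simp [a]
    rw [ha1] at h3
    rw [← h1] at h2
    simp only [trivIrr_apply, mul_one, div_one] at h2
    have h4 := memLocalIdeal_sub h3 h2
    convert h4 using 1
    ring
  have hsum : pairReg 2 (χ : G → ℂ) (trivIrr G : G → ℂ) / (χ : G → ℂ) 1 =
      (∑ x, a x * (χ : G → ℂ) x) / (χ : G → ℂ) 1 + ∑ g, f g := by
    rw [pairReg, Finset.sum_div, Finset.sum_div, ← Finset.sum_add_distrib]
    refine Finset.sum_congr rfl fun g _ => ?_
    simp only [regInv, trivIrr_apply, a, f]
    split_ifs <;> simp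
  by_contra hcon
  have h0 : pairReg 2 (χ : G → ℂ) (trivIrr G : G → ℂ) = 0 :=
    pairReg_eq_zero' hM fun hs => hcon (sameBlock_symm hs)
  have h5 := memLocalIdeal_add hin hout0
  rw [sub_add_eq_add_sub, ← hsum, h0, zero_div, zero_sub] at h5
  exact not_memLocalIdeal_one (by simpa using memLocalIdeal_neg h5)

end CfsgLib.ZerosCodegree
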