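import Cfsg.Agent.Lib.ZerosCodegree.NormalOrbitSum
import Cfsg.Agent.Lib.ZerosCodegree.CosetNorm
import Cfsg.Agent.Lib.ZerosCodegree.ResidualRestriction

/-!
Extensions in the principal block across a quotient of order prime to `p` covered by the centraliser
of a subgroup of index prime to `p`: an extension can be normalised into the principal block in one
way, and every member of the principal block above is that one.
-/

set_option autoImplicit false
set_option linter.style.haveILetI false
set_option linter.unusedSectionVars false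

namespace CfsgLib.ZerosCodegree

open Cfsg CfsgLib.CharTheory CfsgLib.Blocks

universe u
variable {G : Type u} [Group G]

/-- `N` has index prime to `p`, contains `Q` of index prime to `p`, and the centraliser of `Q` meets
every coset of `N`. -/
structure CentralSetup (p : ℕ) (N Q : Subgroup G) : Prop where
  idx : ¬ p ∣ Q.index
  le : Q ≤ N
  exists_mem : ∀ g : G, ∃ c ∈ Subgroup.centralizer (Q : Set G), g⁻¹ * c ∈ N

variable {p : ℕ} {N Q : Subgroup G}

theorem CentralSetup.not_dvd_index (h : CentralSetup p N Q) : ¬ p ∣ N.index := fun hd =>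
  h.idx (hd.trans (Subgroup.index_dvd_of_le h.le))

theorem CentralSetup.not_dvd_index_centralizer (h : CentralSetup p N Q) {c : G}
    (hc : c ∈ Subgroup.centralizer (Q : Set G)) :
    ¬ p ∣ (Subgroup.centralizer ({c} : Set G)).index := fun hd =>
  h.idx (hd.trans (Subgroup.index_dvd_of_le fun x hx => Subgroup.mem_centralizer_singleton_iff.2
    (Subgroup.mem_centralizer_iff.1 hc x hx)))

theorem CentralSetup.subgroup (h : CentralSetup p N Q) {U : Subgroup G} (hU : N ≤ U) :
    CentralSetup p (N.subgroupOf U) (Q.subgroupOf U) where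
  idx := fun hd => h.idx (hd.trans (Dvd.intro _ (Subgroup.relIndex_mul_index (h.le.trans hU))))
  le := fun x hx => h.le hx
  exists_mem := fun g => by
    obtain ⟨c, hc, hgc⟩ := h.exists_mem g
    have hcU : c ∈ U := by
      rw [show c = (g : G) * ((g : G)⁻¹ * c) by group]
      exact U.mul_mem g.2 (hU hgc)
    exact ⟨⟨c, hcU⟩, Subgroup.mem_centralizer_iff.2 fun x hx =>
      Subtype.ext (Subgroup.mem_centralizer_iff.1 hc (x : G) hx), hgc⟩

variable [Fintype G] [N.Normal] [Fintype N] {M : Ideal AlgInt} [M.IsPrime]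

theorem CentralSetup.not_dvd_card_orbit (h : CentralSetup p N Q) {c : G}
    (hc : c ∈ Subgroup.centralizer (Q : Set G)) : ¬ p ∣ (normalOrbit N c).card := fun hd =>
  h.not_dvd_index_centralizer hc (hd.trans (card_normalOrbit_dvd_index N c))

variable (N) in
/-- The scalar of the orbit sum of `g`. -/
noncomputable def orbitScalar (φ : G → ℂ) (g : G) : ℂ :=
  ((normalOrbit N g).card : ℂ) * φ g / φ 1

theorem sum_orbit_eq_scalar {φ : G → ℂ} (hφ : IsIrrCharacter G φ) {θ : IrrCharacter N}
    (hres : ∀ n : N, φ n = (θ : N → ℂ) n) (hθ : θ ∈ principalBlock M N) {x y z : G}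
    (hxyz : x * y * z ∈ N) :
    MemLocalIdeal M (orbitScalar N φ x * orbitScalar N φ y * orbitScalar N φ z -
      ((normalOrbit N x).card * (normalOrbit N y).card * (normalOrbit N z).card : ℕ)) := by
  obtain ⟨d, σ, hd, rfl, hirr⟩ := exists_rep_irreducible_res N hφ θ.2 hres
  exact memLocalIdeal_scalar_mul_sub N hd σ (isPrincipalOn_of_res_eq N hθ hres) hxyz
    (sum_normalOrbit_eq_smul N σ hirr x) (sum_normalOrbit_eq_smul N σ hirr y)
    (sum_normalOrbit_eq_smul N σ hirr z)

/-- Roots of unity of order prime to `p` in the residue field lift. -/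
theorem exists_lift_root (hM : IsPModular p M) {m : ℕ} (hm : ¬ p ∣ m) {r : Res M} (hr : r ^ m = 1) :
    ∃ z : locRing M, (z : ℂ) ^ m = 1 ∧ red M z = r := by
  classical
  have hm0 : 0 < m := Nat.pos_of_ne_zero fun h => hm (h ▸ dvd_zero p)
  let S : Finset ℂ := Polynomial.nthRootsFinset m (1 : ℂ)
  have hS : ∀ z ∈ S, MemLocalRing M z := fun z hz => memLocalRing_of_isIntegral
    (CfsgLib.Blocks.isIntegral_of_pow_eq_one hm0.ne'
      ((Polynomial.mem_nthRootsFinset hm0 (1 : ℂ)).1 hz))
  let f : S → Res M := fun z => red M ⟨z.1, hS _ z.2⟩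
  have hinj : Function.Injective f := fun a b hab => Subtype.ext
    (eq_of_sub_mem_of_pow_eq_one hM hm hm ((Polynomial.mem_nthRootsFinset hm0 (1 : ℂ)).1 a.2)
      ((Polynomial.mem_nthRootsFinset hm0 (1 : ℂ)).1 b.2) ((red_eq_red_iff _ _).1 hab))
  have hsub : Finset.univ.image f ⊆ Polynomial.nthRootsFinset m (1 : Res M) := by
    intro x hx
    obtain ⟨z, -, rfl⟩ := Finset.mem_image.1 hx
    rw [Polynomial.mem_nthRootsFinset hm0, ← map_pow,
      show (⟨z.1, hS _ z.2⟩ : locRing M) ^ m = 1 from Subtype.ext (by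
        rw [SubmonoidClass.coe_pow]; exact (Polynomial.mem_nthRootsFinset hm0 (1 : ℂ)).1 z.2), map_one]
  have hle : (Polynomial.nthRootsFinset m (1 : Res M)).card ≤ (Finset.univ.image f).card := by
    rw [Finset.card_image_of_injective _ hinj, Finset.card_univ, Fintype.card_coe,
      (Complex.isPrimitiveRoot_exp m hm0.ne').card_nthRootsFinset, Polynomial.nthRootsFinset_def]
    exact (Multiset.toFinset_card_le _).trans (Polynomial.card_nthRoots _ _)
  have hmem : r ∈ Finset.univ.image f := by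
    rw [Finset.eq_of_subset_of_card_le hsub hle]
    exact (Polynomial.mem_nthRootsFinset hm0 (1 : Res M)).2 hr
  obtain ⟨z, -, hz⟩ := Finset.mem_image.1 hmem
  exact ⟨⟨z.1, hS _ z.2⟩, (Polynomial.mem_nthRootsFinset hm0 (1 : ℂ)).1 z.2, hz⟩

theorem memLocalRing_orbitScalar {φ : G → ℂ} (hφ : IsIrrCharacter G φ) {θ : IrrCharacter N}
    (hres : ∀ n : N, φ n = (θ : N → ℂ) n) (g : G) : MemLocalRing M (orbitScalar N φ g) := by
  classical
  obtain ⟨d, σ, hd, rfl, hirr⟩ := exists_rep_irreducible_res N hφ θ.2 hres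
  haveI := hirr
  haveI : Nontrivial (Fin d → ℂ) := nontrivial_of_isIrreducible (resRep N σ)
  obtain ⟨v, hv⟩ := exists_ne (0 : Fin d → ℂ)
  let S : MonoidAlgebra ℤ G := ∑ u ∈ normalOrbit N g, MonoidAlgebra.of ℤ G u
  let F : MonoidAlgebra ℤ G →ₐ[ℤ] Module.End ℂ (Fin d → ℂ) := MonoidAlgebra.lift ℤ (Module.End ℂ (Fin d → ℂ)) G σ
  have hS : F S = algebraMap ℂ (Module.End ℂ (Fin d → ℂ)) (orbitScalar N σ.character g) := by
    simp only [F, S, map_sum, MonoidAlgebra.lift_of]
    rw [sum_normalOrbit_eq_smul N σ hirr g, Algebra.algebraMap_eq_smul_one]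
    rfl
  have hint : IsIntegral ℤ (F S) := (IsIntegral.of_finite ℤ S).map F
  rw [hS] at hint
  exact memLocalRing_of_isIntegral
    ((isIntegral_algebraMap_iff (algebraMap ℂ (Module.End ℂ (Fin d → ℂ))).injective).1 hint)

/-- An extension of a principal block character can be normalised on every orbit sum. -/
theorem exists_normalised_extension [Fact p.Prime] (hM : IsPModular p M) (h : CentralSetup p N Q)
    {φ : G → ℂ} (hφ : IsIrrCharacter G φ) {θ : IrrCharacter N}
    (hres : ∀ n : N, φ n = (θ : N → ℂ) n) (hθ : θ ∈ principalBlock M N) :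
    ∃ χ : IrrCharacter G, (∀ n : N, (χ : G → ℂ) n = (θ : N → ℂ) n) ∧
      ∀ g : G, MemLocalIdeal M (orbitScalar N (χ : G → ℂ) g - ((normalOrbit N g).card : ℕ)) := by
  classical
  let s : G → Res M := fun g => red M ⟨_, memLocalRing_orbitScalar (M := M) hφ hres g⟩
  let e : G → Res M := fun g => red M ⟨_, memLocalRing_natCast (normalOrbit N g).card⟩
  have hkey : ∀ x y z : G, x * y * z ∈ N → s x * s y * s z = e x * e y * e z := fun x y z hxyz => by
    simp only [s, e, ← map_mul]
    refine (red_eq_red_iff _ _).2 ?_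
    push_cast
    simpa using sum_orbit_eq_scalar hφ hres hθ hxyz
  have hN1 : (normalOrbit N (1 : G)).card = 1 := by
    rw [Finset.card_eq_one]
    exact ⟨1, Finset.ext fun y => by simp [mem_normalOrbit, eq_comm]⟩
  have he1 : e 1 = 1 := by
    simp only [e, hN1]
    exact (congrArg (red M) (Subtype.ext Nat.cast_one)).trans (map_one _)
  have hs1 : s 1 = 1 := by
    refine Eq.trans ?_ (map_one (red M))
    refine congrArg (red M) (Subtype.ext ?_)
    show orbitScalar N φ 1 = (1 : ℂ)
    rw [orbitScalar, hN1, Nat.cast_one, one_mul, div_self (apply_one_ne_zero_of_isIrr hφ)]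
  choose c hc hgc using h.exists_mem
  have he : ∀ g, e (c g) ≠ 0 := fun g h0 => h.not_dvd_card_orbit (hc g)
    ((memLocalIdeal_natCast_iff hM _).1 ((red_eq_zero_iff _).1 h0))
  let r : G → Res M := fun g => s (c g) / e (c g)
  have hcoset : ∀ g : G, (c g : G ⧸ N) = (g : G ⧸ N) := fun g =>
    (QuotientGroup.eq.2 (hgc g)).symm
  have hr3 : ∀ a b d : G, a * b * d ∈ N → r a * r b * r d = 1 := by
    intro a b d habd
    have hmem : c a * c b * c d ∈ N := by
      rw [← QuotientGroup.eq_one_iff] at habd ⊢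
      rw [QuotientGroup.mk_mul, QuotientGroup.mk_mul, hcoset, hcoset, hcoset,
        ← QuotientGroup.mk_mul, ← QuotientGroup.mk_mul, habd]
    have := hkey _ _ _ hmem
    simp only [r, div_mul_div_comm, this]
    exact div_self (mul_ne_zero (mul_ne_zero (he a) (he b)) (he d))
  have hr1 : r 1 = 1 := by
    have hmem : c 1 * 1 * 1 ∈ N := by simpa using hgc 1
    have := hkey _ _ _ hmem
    rw [hs1, he1, mul_one, mul_one, mul_one, mul_one] at this
    simp only [r, this]
    exact div_self (he 1)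
  have hrinv : ∀ g, r g * r g⁻¹ = 1 := fun g => by
    have := hr3 g g⁻¹ 1 (by simp)
    rwa [hr1, mul_one] at this
  have hrmul : ∀ a b, r (a * b) = r a * r b := fun a b => by
    have h1 := hr3 a b (a * b)⁻¹ (by simp)
    have h2 := hrinv (a * b)
    exact mul_right_cancel₀ (right_ne_zero_of_mul_eq_one h2) (h2.trans h1.symm)
  have hrN : ∀ n : G, n ∈ N → r n = 1 := fun n hn => by
    have := hr3 n 1 1 (by simpa using hn)
    rwa [hr1, mul_one, mul_one] at this
  have hrm : ∀ g, r g ^ N.index = 1 := fun g => by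
    let R : G →* Res M := { toFun := r, map_one' := hr1, map_mul' := hrmul }
    show R g ^ N.index = 1
    rw [← map_pow]
    exact hrN _ (Subgroup.pow_index_mem N g)
  -- all orbit sums are governed by r
  have hall : ∀ g, s g = e g * r g := fun g => by
    have h1 := hkey g (c g⁻¹) 1 (by
      rw [← QuotientGroup.eq_one_iff, mul_one, QuotientGroup.mk_mul, hcoset, ← QuotientGroup.mk_mul,
        mul_inv_cancel, QuotientGroup.mk_one])
    rw [hs1, he1, mul_one, mul_one] at h1
    have h2 := hrinv g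
    have h3 : s (c g⁻¹) = e (c g⁻¹) * r g⁻¹ := by
      rw [mul_comm]; exact (div_mul_cancel₀ _ (he g⁻¹)).symm
    rw [h3] at h1
    refine mul_right_cancel₀ (mul_ne_zero (he g⁻¹) (right_ne_zero_of_mul_eq_one h2)) ?_
    rw [h1, mul_assoc (e g), ← mul_assoc (r g), mul_comm (r g), mul_assoc (e (c g⁻¹)), h2, mul_one]
  choose z hz hzr using fun g => exists_lift_root hM h.not_dvd_index (hrm g)
  let νC : G →* ℂ :=
    { toFun := fun g => (z g : ℂ)
      map_one' := by
        refine eq_one_of_sub_one_mem hM h.not_dvd_index (hz 1) ?_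
        have := (red_eq_red_iff (z 1) 1).1 (by rw [hzr, hr1, map_one])
        simpa using this
      map_mul' := fun a b => by
        refine eq_of_sub_mem_of_pow_eq_one hM h.not_dvd_index h.not_dvd_index (hz _)
          (by rw [mul_pow, hz, hz, one_mul]) ?_
        have := (red_eq_red_iff (z (a * b)) (z a * z b)).1 (by rw [map_mul, hzr, hzr, hzr, hrmul])
        simpa using this }
  let ν : G →* ℂˣ := νC.toHomUnits
  have hνN : ∀ n : N, ν⁻¹ n = 1 := fun n => by
    rw [MonoidHom.inv_apply, inv_eq_one]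
    refine Units.ext ?_
    show (z (n : G) : ℂ) = 1
    refine eq_one_of_sub_one_mem hM h.not_dvd_index (hz _) ?_
    have := (red_eq_red_iff (z (n : G)) 1).1 (by rw [hzr, hrN _ n.2, map_one])
    simpa using this
  refine ⟨⟨(fun g => (ν⁻¹ g : ℂ)) * φ, isIrrCharacter_mul_of_norm hφ
    (IsIrrCharacter.isCharacter (isIrrCharacter_linear ν⁻¹)) (norm_hom_eq_one ν⁻¹)⟩,
    fun n => by
      show ((ν⁻¹ (n : G) : ℂˣ) : ℂ) * φ n = _
      rw [hνN, Units.val_one, one_mul, hres], fun g => ?_⟩
  have hsc : orbitScalar N ((fun g => (ν⁻¹ g : ℂ)) * φ) g = (ν⁻¹ g : ℂ) * orbitScalar N φ g := by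
    simp only [orbitScalar, Pi.mul_apply, map_one, Units.val_one, one_mul]
    ring
  show MemLocalIdeal M (orbitScalar N ((fun g => (ν⁻¹ g : ℂ)) * φ) g - _)
  rw [hsc]
  have hloc : MemLocalRing M (ν⁻¹ g : ℂ) := by
    rw [show (ν⁻¹ g : ℂ) = (z g⁻¹ : ℂ) by rw [MonoidHom.inv_apply, ← map_inv]; rfl]
    exact (z g⁻¹).2
  refine (red_eq_red_iff ((⟨_, hloc⟩ : locRing M) * ⟨_, memLocalRing_orbitScalar (M := M) hφ hres g⟩)
    (⟨_, memLocalRing_natCast (normalOrbit N g).card⟩ : locRing M)).1 ?_
  rw [map_mul, show red M ⟨(ν⁻¹ g : ℂ), hloc⟩ = r g⁻¹ by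
    rw [← hzr]
    refine congrArg (red M) (Subtype.ext ?_)
    show (ν⁻¹ g : ℂ) = (z g⁻¹ : ℂ)
    rw [MonoidHom.inv_apply, ← map_inv]; rfl]
  show r g⁻¹ * s g = e g
  rw [hall, mul_left_comm, mul_comm (r g⁻¹), hrinv, mul_one]

/-- A normalised extension lies in the principal block. -/
theorem mem_principalBlock_of_normalised {χ : IrrCharacter G}
    (hχ : ∀ g : G, MemLocalIdeal M (orbitScalar N (χ : G → ℂ) g - ((normalOrbit N g).card : ℕ))) :
    χ ∈ principalBlock M G := by
  intro g
  obtain ⟨t, ht⟩ := card_normalOrbit_dvd_index N g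
  have h1 := memLocalIdeal_mul_left (memLocalRing_natCast t) (hχ g)
  rw [memLocalIdeal_sub_comm]
  rw [CfsgLib.Correspondences.centralChar_one_eq, centralChar, ht]
  convert h1 using 1
  rw [orbitScalar]
  push_cast
  ring

/-- Only one extension lies in the principal block, and every member of the principal block above
`θ` is it. -/
theorem eq_of_mem_principalBlock_over [Fact p.Prime] (hM : IsPModular p M) (h : CentralSetup p N Q)
    {θ : IrrCharacter N} {χ₀ χ : IrrCharacter G} (hres : ∀ n : N, (χ₀ : G → ℂ) n = (θ : N → ℂ) n)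
    (h₀ : χ₀ ∈ principalBlock M G) (hχ : χ ∈ principalBlock M G)
    (hover : classInner (fun n : N => (χ : G → ℂ) n) (θ : N → ℂ) ≠ 0) : χ = χ₀ := by
  classical
  haveI : Fintype (G ⧸ N) := Fintype.ofFinite _
  haveI : Fintype (IrrCharacter (G ⧸ N)) := Fintype.ofFinite _
  let F : IrrCharacter (G ⧸ N) → G → ℂ := fun β =>
    (fun g : G => (β : G ⧸ N → ℂ) (g : G ⧸ N)) * (χ₀ : G → ℂ)
  have hF : ∀ β, IsIrrCharacter G (F β) := fun β =>
    isIrrCharacter_mul_of_extension N χ₀.2 θ.2 hres β
  -- some twist is χ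
  obtain ⟨β, hβ⟩ : ∃ β, F β = (χ : G → ℂ) := by
    by_contra hcon
    push Not at hcon
    refine hover ?_
    have h1 : ∑ β : IrrCharacter (G ⧸ N), ((β : G ⧸ N → ℂ) 1) * classInner (F β) (χ : G → ℂ) = 0 :=
      Finset.sum_eq_zero fun β _ => by
        rw [classInner_eq_zero_of_ne (hF β) χ.2 (hcon β), mul_zero]
    have hsum : ∀ g : G, ∑ β : IrrCharacter (G ⧸ N), ((β : G ⧸ N → ℂ) 1) * F β g =
        if g ∈ N then (N.index : ℂ) * (χ₀ : G → ℂ) g else 0 := by
      intro g
      simp only [F, Pi.mul_apply, ← mul_assoc, ← Finset.sum_mul]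
      rw [sum_degree_mul (G := G ⧸ N) (g : G ⧸ N), ite_mul, zero_mul]
      simp only [QuotientGroup.eq_one_iff, Subgroup.index_eq_card]
    simp only [← classInner_smul_left, ← classInner_sum_left] at h1
    simp only [classInner, Finset.sum_apply, Pi.smul_apply, smul_eq_mul, hsum, ite_mul, zero_mul] at h1
    rw [← Finset.sum_filter, Finset.sum_subtype (Finset.univ.filter fun g : G => g ∈ N)
      (p := fun g => g ∈ N) (by simp)] at h1
    simp only [hres, mul_assoc, ← Finset.mul_sum, mul_eq_zero, inv_eq_zero, Nat.cast_eq_zero] at h1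
    rcases h1 with h1 | h1 | h1
    · exact absurd h1 (Nat.card_pos (α := G)).ne'
    · exact absurd h1 Subgroup.index_ne_zero_of_finite
    · rw [classInner_conj_symm, classInner, h1, mul_zero, map_zero]
  -- its normalised values are congruent to 1 on every coset
  set b := (β : G ⧸ N → ℂ) 1 with hb
  have hb0 : b ≠ 0 := apply_one_ne_zero_of_isIrr β.2
  have hbinv : MemLocalRing M b⁻¹ := by
    rw [hb, irr_apply_one_eq]
    refine memLocalRing_inv_natCast hM fun hd => h.not_dvd_index ?_
    rw [Subgroup.index_eq_card]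
    exact hd.trans (charDegree_dvd_card β)
  have hval : ∀ g : G, MemLocalIdeal M ((β : G ⧸ N → ℂ) (g : G ⧸ N) * b⁻¹ - 1) := by
    intro g
    obtain ⟨c, hc, hgc⟩ := h.exists_mem g
    rw [show (g : G ⧸ N) = (c : G ⧸ N) from QuotientGroup.eq.2 hgc]
    have e0 := h₀ c
    have e1 := hχ c
    rw [CfsgLib.Correspondences.centralChar_one_eq] at e0 e1
    set ι := ((Subgroup.centralizer ({c} : Set G)).index : ℂ)
    have hι : ¬ MemLocalIdeal M ι := fun hm =>
      h.not_dvd_index_centralizer hc ((memLocalIdeal_natCast_iff hM _).1 hm)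
    have hccv : centralChar (χ : G → ℂ) c =
        centralChar (χ₀ : G → ℂ) c * ((β : G ⧸ N → ℂ) (c : G ⧸ N) * b⁻¹) := by
      simp only [centralChar, ← hβ, F, Pi.mul_apply, QuotientGroup.mk_one, ← hb]
      field_simp
    have hloc : MemLocalRing M ((β : G ⧸ N → ℂ) (c : G ⧸ N) * b⁻¹) := memLocalRing_mul
      (memLocalRing_of_isIntegral (IsCharacter.isIntegral (IsIrrCharacter.isCharacter β.2) _)) hbinv
    have h3 := memLocalIdeal_sub (memLocalIdeal_mul_right e0 hloc) e1
    have h4 : MemLocalIdeal M (ι * ((β : G ⧸ N → ℂ) (c : G ⧸ N) * b⁻¹ - 1)) := by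
      convert h3 using 1
      rw [hccv]; ring
    have hint : MemLocalRing M (((β : G ⧸ N → ℂ) (c : G ⧸ N) * b⁻¹) - 1) :=
      sub_mem (show _ ∈ locRing M from hloc) (one_mem (locRing M))
    exact ((memLocalIdeal_mul_iff (memLocalRing_natCast _) hint).1 h4).resolve_left hι
  have htriv : ∀ q : G ⧸ N, (β : G ⧸ N → ℂ) q = 1 := by
    have hone : (β : G ⧸ N → ℂ) = (trivIrr (G ⧸ N) : G ⧸ N → ℂ) := by
      by_contra hne
      have h0 := classInner_eq_zero_of_ne β.2 (trivIrr (G ⧸ N)).2 hne
      simp only [classInner, trivIrr_apply, map_one, mul_one, mul_eq_zero, inv_eq_zero,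
        Nat.cast_eq_zero] at h0
      have hq0 : ∑ q : G ⧸ N, (β : G ⧸ N → ℂ) q = 0 :=
        h0.resolve_left (Nat.card_pos (α := G ⧸ N)).ne'
      have h5 : MemLocalIdeal M (∑ q : G ⧸ N, ((β : G ⧸ N → ℂ) q * b⁻¹ - 1)) :=
        memLocalIdeal_sum fun q _ => by
          obtain ⟨g, rfl⟩ := QuotientGroup.mk_surjective q
          exact hval g
      rw [Finset.sum_sub_distrib, ← Finset.sum_mul, hq0, zero_mul, zero_sub, Finset.sum_const,
        Finset.card_univ, nsmul_one] at h5
      have h6 := memLocalIdeal_neg h5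
      rw [neg_neg, memLocalIdeal_natCast_iff hM] at h6
      exact h.not_dvd_index (by rwa [Subgroup.index_eq_card, Nat.card_eq_fintype_card])
    exact fun q => by rw [hone, trivIrr_apply]
  refine Subtype.ext ?_
  rw [← hβ]
  funext g
  simp [F, htriv]

/-- The normalised extension, given any extension. -/
theorem exists_principal_extension_of_extension [Fact p.Prime] (hM : IsPModular p M)
    (h : CentralSetup p N Q) {φ : G → ℂ} (hφ : IsIrrCharacter G φ) {θ : IrrCharacter N}
    (hres : ∀ n : N, φ n = (θ : N → ℂ) n) (hθ : θ ∈ principalBlock M N) :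
    ∃ χ : IrrCharacter G, χ ∈ principalBlock M G ∧ ∀ n : N, (χ : G → ℂ) n = (θ : N → ℂ) n := by
  obtain ⟨χ, h1, h2⟩ := exists_normalised_extension hM h hφ hres hθ
  exact ⟨χ, mem_principalBlock_of_normalised h2, h1⟩

end CfsgLib.ZerosCodegree
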