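import Cfsg.Agent.Lib.ZerosCodegree.PrincipalExtension

/-!
Restriction is a bijection of principal blocks across a quotient of order prime to `p` covered by the
centraliser of a subgroup of index prime to `p`.
-/

set_option autoImplicit false
set_option linter.style.haveILetI false
set_option linter.unusedSectionVars false

namespace CfsgLib.ZerosCodegree

open Cfsg CfsgLib.CharTheory CfsgLib.Blocks

universe u

variable {M : Ideal AlgInt} [M.IsPrime] {p : ℕ}

/-- In the cyclic case a centralising generator fixes every member of the principal block. -/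
theorem conjChar_eq_self_of_generator [Fact p.Prime] (hM : IsPModular p M) {U : Type u} [Group U]
    [Fintype U] {N Q : Subgroup U} [N.Normal] [Fintype N] (h : CentralSetup p N Q) {c : U}
    (hc : c ∈ Subgroup.centralizer (Q : Set U))
    (hgen : ∀ u : U, ∃ i : ℤ, (c ^ i)⁻¹ * u ∈ N) {θ : IrrCharacter N}
    (hθ : θ ∈ principalBlock M N) : CfsgLib.Clifford.conjChar N (θ : N → ℂ) c = θ := by
  classical
  by_contra hne
  haveI : Fintype (IrrCharacter U) := Fintype.ofFinite _
  -- a character over θ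
  obtain ⟨χ, hover⟩ : ∃ χ : IrrCharacter U,
      classInner (fun n : N => (χ : U → ℂ) n) (θ : N → ℂ) ≠ 0 := by
    by_contra hcon
    push Not at hcon
    have hf := CfsgLib.Frobenius.indFun_isClassFunction N (θ : N → ℂ)
    have h1 := congrFun (eq_sum_classInner hf) 1
    rw [CfsgLib.Frobenius.indFun_one, Finset.sum_apply, Finset.sum_eq_zero fun χ _ => by
      rw [Pi.smul_apply, CfsgLib.Frobenius.classInner_indFun N _ _
        (IsIrrCharacter.isClassFunction χ.2), classInner_conj_symm, hcon χ, map_zero, zero_smul]] at h1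
    exact mul_ne_zero (Nat.cast_ne_zero.2 Subgroup.index_ne_zero_of_finite)
      (apply_one_ne_zero_of_isIrr θ.2) h1
  -- it vanishes at c
  let T := inertia N (θ : N → ℂ)
  have hNT : N ≤ T := le_inertia N (IsIrrCharacter.isClassFunction θ.2)
  have hTn : T.Normal := by
    refine ⟨fun t ht x => ?_⟩
    obtain ⟨i, hi⟩ := hgen x
    obtain ⟨j, hj⟩ := hgen t
    have hq : ((x * t * x⁻¹ : U) : U ⧸ N) = (t : U ⧸ N) := by
      rw [QuotientGroup.mk_mul, QuotientGroup.mk_mul, QuotientGroup.mk_inv,
        ← QuotientGroup.eq.2 hi, ← QuotientGroup.eq.2 hj, QuotientGroup.mk_zpow, QuotientGroup.mk_zpow,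
        ← zpow_add, ← zpow_neg, ← zpow_add]
      congr 1; ring
    rw [show x * t * x⁻¹ = t * (t⁻¹ * (x * t * x⁻¹)) by group]
    exact T.mul_mem ht (hNT (QuotientGroup.eq.1 hq.symm))
  haveI : Fintype T := Fintype.ofFinite T
  obtain ⟨ψ, -, hind, -⟩ := CfsgLib.Clifford.exists_indFun_inertia_eq θ.2
    (fun g => mem_inertia N _ g) hNT χ.2 hover
  have hχc : ∀ u ∈ normalOrbit N c, (χ : U → ℂ) u = 0 := by
    intro u hu
    have hu' : u ∉ T := fun huT => hne ((mem_inertia N _ c).1 (by
      obtain ⟨n, rfl⟩ := (mem_normalOrbit N).1 hu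
      simpa [mul_assoc] using hTn.conj_mem _ huT (n : U)⁻¹))
    rw [← hind]
    exact CfsgLib.Frobenius.indFun_eq_zero_of_not_mem T ψ hu'
  obtain ⟨d, σ, hσ, hσχ⟩ := χ.2
  haveI := hσ
  haveI : Nontrivial (Fin d → ℂ) := nontrivial_of_isIrreducible σ
  have hd : d ≠ 0 := fun hd => by subst hd; exact not_subsingleton (Fin 0 → ℂ) inferInstance
  -- the orbit sums of c and its inverse are central
  have hscal : ∀ x : U, Commute x c → ∃ s : ℂ, ∑ u ∈ normalOrbit N x, σ u = s • LinearMap.id := by
    intro x hxc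
    refine exists_smul_of_commute σ _ fun g => ?_
    show (∑ u ∈ normalOrbit N x, σ u) * σ g = σ g * ∑ u ∈ normalOrbit N x, σ u
    rw [Finset.sum_mul, Finset.mul_sum]
    have hstab : ∀ (g : U) (u : U), u ∈ normalOrbit N x → g * u * g⁻¹ ∈ normalOrbit N x := by
      intro g u hu
      obtain ⟨i, hi⟩ := hgen g
      obtain ⟨n, rfl⟩ := (mem_normalOrbit N).1 hu
      refine (mem_normalOrbit N).2 ⟨⟨g * (n : U) * (c ^ i)⁻¹, ?_⟩, ?_⟩
      · rw [show g * (n : U) * (c ^ i)⁻¹ =
          c ^ i * (((c ^ i)⁻¹ * g) * (n : U)) * (c ^ i)⁻¹ by group]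
        exact (inferInstance : N.Normal).conj_mem _ (N.mul_mem hi n.2) (c ^ i)
      · show g * (n : U) * (c ^ i)⁻¹ * x * (g * (n : U) * (c ^ i)⁻¹)⁻¹ = _
        calc _ = g * (n : U) * ((c ^ i)⁻¹ * x * c ^ i) * (n : U)⁻¹ * g⁻¹ := by group
          _ = g * ((n : U) * x * (n : U)⁻¹) * g⁻¹ := by
            rw [((hxc.zpow_right i).inv_right).symm.eq, inv_mul_cancel_right]; group
    refine Finset.sum_bij (fun u _ => g⁻¹ * u * g)
      (fun u hu => by simpa using hstab g⁻¹ u hu) (fun a _ b _ h => by simpa using h)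
      (fun u hu => ⟨g * u * g⁻¹, hstab g u hu, by simp [mul_assoc]⟩) fun u _ => ?_
    rw [← map_mul, ← map_mul]
    congr 1
    group
  obtain ⟨s, hs⟩ := hscal c (Commute.refl c)
  obtain ⟨s', hs'⟩ := hscal c⁻¹ (Commute.refl c).inv_left
  have hs0 : s = 0 := by
    have h2 := congrArg (LinearMap.trace ℂ (Fin d → ℂ)) hs
    rw [map_sum, map_smul, smul_eq_mul, LinearMap.trace_id, Finset.sum_eq_zero fun u hu =>
      show LinearMap.trace ℂ _ (σ u) = 0 from (congrFun hσχ u).trans (hχc u hu),
      Module.finrank_fin_fun] at h2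
    exact (mul_eq_zero.1 h2.symm).resolve_right (Nat.cast_ne_zero.2 hd)
  have hN1 : normalOrbit N (1 : U) = {1} := Finset.ext fun y => by simp [mem_normalOrbit, eq_comm]
  have h1 : ∑ u ∈ normalOrbit N (1 : U), σ u = (1 : ℂ) • LinearMap.id := by
    rw [hN1, Finset.sum_singleton, map_one, one_smul]; rfl
  -- the restriction is congruent to the principal block
  have hP : IsPrincipalOn N M σ.character := by
    intro a ha hloc
    rw [hσχ]
    set O := CfsgLib.Clifford.conjOrbit N (θ : N → ℂ) with hO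
    set m := classInner (fun n : N => (χ : U → ℂ) n) (θ : N → ℂ) with hm
    have hdeg : (χ : U → ℂ) 1 = m * (O.card : ℂ) * (θ : N → ℂ) 1 :=
      CfsgLib.Clifford.apply_one_eq N χ.2 θ.2 hover
    have hterm : ∀ η ∈ O, MemLocalIdeal M ((∑ n : N, a n * η n) / (θ : N → ℂ) 1 - ∑ n : N, a n) := by
      intro η hη
      obtain ⟨g, rfl⟩ := (CfsgLib.Clifford.mem_conjOrbit N).1 hη
      have hmem := conjIrr_mem_principalBlock N g⁻¹ hθ
      have h2 := CfsgLib.BlockLocal.memLocalIdeal_sum_sub_of_sameBlock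
        (IsIrrCharacter.isClassFunction (trivIrr N).2)
        (IsIrrCharacter.isClassFunction (CfsgLib.BlockLocal.conjIrr N g⁻¹ θ).2) hmem ha hloc
      simp only [trivIrr_apply, mul_one, div_one] at h2
      have e : (CfsgLib.BlockLocal.conjIrr N g⁻¹ θ : N → ℂ) = CfsgLib.Clifford.conjChar N (θ : N → ℂ) g :=
        funext fun n => by
          rw [CfsgLib.BlockLocal.conjIrr_apply, CfsgLib.Clifford.conjChar_eq_comp, inv_inv]
      rw [e, CfsgLib.Clifford.conjChar_apply_one] at h2
      rwa [memLocalIdeal_sub_comm]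
    have hO0 : ¬ p ∣ O.card := fun hd => by
      rw [hO, CfsgLib.Clifford.card_conjOrbit N _ T (fun g => mem_inertia N _ g)] at hd
      exact h.not_dvd_index (hd.trans (Subgroup.index_dvd_of_le hNT))
    have key : (∑ n : N, a n * (χ : U → ℂ) n) / (χ : U → ℂ) 1 - ∑ n : N, a n =
        (O.card : ℂ)⁻¹ * ∑ η ∈ O, ((∑ n : N, a n * η n) / (θ : N → ℂ) 1 - ∑ n : N, a n) := by
      have hres := CfsgLib.Clifford.res_eq N χ.2 θ.2 hover
      have e : ∑ n : N, a n * (χ : U → ℂ) n = m * ∑ η ∈ O, ∑ n : N, a n * η n := by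
        rw [Finset.sum_comm, Finset.mul_sum]
        refine Finset.sum_congr rfl fun n _ => ?_
        rw [show (χ : U → ℂ) n = m * ∑ η ∈ O, η n by
          have h2 := congrFun hres n
          rw [Pi.smul_apply, Finset.sum_apply] at h2
          exact h2, Finset.mul_sum, Finset.mul_sum, Finset.mul_sum]
        exact Finset.sum_congr rfl fun η _ => by ring
      have hc0 : (O.card : ℂ) ≠ 0 := Nat.cast_ne_zero.2 fun h0 => hO0 (h0 ▸ dvd_zero p)
      have ht0 := apply_one_ne_zero_of_isIrr θ.2
      rw [e, hdeg, Finset.sum_sub_distrib, ← Finset.sum_div, Finset.sum_const, nsmul_eq_mul]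
      have hm0 : m ≠ 0 := hover
      field_simp
    rw [key]
    exact memLocalIdeal_mul_left (memLocalRing_inv_natCast hM hO0) (memLocalIdeal_sum hterm)
  have h2 := memLocalIdeal_scalar_mul_sub N hd σ hP (x := c) (y := c⁻¹) (z := 1) (by simp) hs hs' h1
  rw [hs0, zero_mul, zero_mul, zero_sub, hN1, Finset.card_singleton, mul_one] at h2
  have h3 := memLocalIdeal_neg h2
  rw [neg_neg, memLocalIdeal_natCast_iff hM, (Fact.out : p.Prime).dvd_mul] at h3
  rcases h3 with h3 | h3
  · exact h.not_dvd_card_orbit hc h3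
  · exact h.not_dvd_card_orbit (inv_mem hc) h3

/-- Every member of the principal block of `N` is invariant. -/
theorem conjChar_eq_self_of_setup [Fact p.Prime] (hM : IsPModular p M) {G : Type u} [Group G]
    [Fintype G] {N Q : Subgroup G} [N.Normal] [Fintype N] (h : CentralSetup p N Q)
    {θ : IrrCharacter N} (hθ : θ ∈ principalBlock M N) (g : G) :
    CfsgLib.Clifford.conjChar N (θ : N → ℂ) g = θ := by
  classical
  obtain ⟨c, hc, hgc⟩ := h.exists_mem g
  have hn : CfsgLib.Clifford.conjChar N (θ : N → ℂ) g = CfsgLib.Clifford.conjChar N (θ : N → ℂ) c := by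
    have hm : c * (g⁻¹ * c)⁻¹ * c⁻¹ ∈ N := (inferInstance : N.Normal).conj_mem _ (N.inv_mem hgc) c
    have h1 : CfsgLib.Clifford.conjChar N (θ : N → ℂ) (c * (g⁻¹ * c)⁻¹ * c⁻¹) = θ :=
      (mem_inertia N _ _).1 (le_inertia N (IsIrrCharacter.isClassFunction θ.2) hm)
    rw [show g = (c * (g⁻¹ * c)⁻¹ * c⁻¹) * c by group, ← CfsgLib.Clifford.conjChar_conjChar, h1]
  rw [hn]
  let U : Subgroup G := (Subgroup.zpowers (c : G ⧸ N)).comap (QuotientGroup.mk' N)
  haveI : Fintype U := Fintype.ofFinite U
  have hNU : N ≤ U := fun x hx => by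
    show QuotientGroup.mk' N x ∈ Subgroup.zpowers (c : G ⧸ N)
    rw [QuotientGroup.mk'_apply, (QuotientGroup.eq_one_iff x).2 hx]; exact one_mem _
  haveI : Fintype (N.subgroupOf U) := Fintype.ofFinite _
  let ι : N.subgroupOf U ≃* N := Subgroup.subgroupOfEquivOfLe hNU
  let θ' : IrrCharacter (N.subgroupOf U) := ⟨_, isIrrCharacter_comp_mulEquiv θ.2 ι⟩
  have hθ' : θ' ∈ principalBlock M (N.subgroupOf U) := by
    intro x
    have h1 := hθ (ι x)
    have e := CfsgLib.BlockLocal.centralChar_comp_equiv ι (θ : N → ℂ) x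
    have e1 := CfsgLib.BlockLocal.centralChar_comp_equiv ι (fun _ : N => (1 : ℂ)) x
    rw [← e, ← e1] at h1
    exact h1
  have h2 := conjChar_eq_self_of_generator hM (h.subgroup hNU)
    (c := ⟨c, Subgroup.mem_zpowers _⟩)
    (Subgroup.mem_centralizer_iff.2 fun x hx => Subtype.ext (Subgroup.mem_centralizer_iff.1 hc (x : G) hx))
    (fun u => by
      obtain ⟨i, hi⟩ := Subgroup.mem_zpowers_iff.1 (show QuotientGroup.mk' N (u : G) ∈
        Subgroup.zpowers (c : G ⧸ N) from u.2)
      refine ⟨i, ?_⟩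
      rw [← QuotientGroup.mk_zpow, QuotientGroup.mk'_apply, QuotientGroup.eq] at hi
      exact hi) hθ'
  funext n
  exact congrFun h2 (ι.symm n)

/-- Extensions exist along quotients of prime power order. -/
theorem exists_principal_extension_primePow [Fact p.Prime] (hM : IsPModular p M) (q : ℕ)
    [Fact q.Prime] (n : ℕ) :
    ∀ {U : Type u} [Group U] [Fintype U] (N Q : Subgroup U) [N.Normal] [Fintype N],
      CentralSetup p N Q → N.index = q ^ n → ∀ θ : IrrCharacter N, θ ∈ principalBlock M N →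
        ∃ χ : IrrCharacter U, χ ∈ principalBlock M U ∧ ∀ x : N, (χ : U → ℂ) x = (θ : N → ℂ) x := by
  induction n with
  | zero =>
    intro U _ _ N Q _ _ h hidx θ hθ
    have htop : N = ⊤ := Subgroup.index_eq_one.1 (by simpa using hidx)
    have hmem : ∀ g : U, g ∈ N := fun g => htop ▸ Subgroup.mem_top g
    let ι : U ≃* N :=
      { toFun := fun g => ⟨g, hmem g⟩, invFun := Subtype.val, left_inv := fun _ => rfl,
        right_inv := fun _ => rfl, map_mul' := fun _ _ => rfl }
    exact exists_principal_extension_of_extension hM h (isIrrCharacter_comp_mulEquiv θ.2 ι)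
      (fun x => rfl) hθ
  | succ n ih =>
    intro U _ _ N Q _ _ h hidx θ hθ
    classical
    have hq : q.Prime := Fact.out
    obtain ⟨K, hK⟩ := Sylow.exists_subgroup_card_pow_prime (G := U ⧸ N) q (n := n) (by
      rw [← Subgroup.index_eq_card, hidx]; exact pow_dvd_pow q n.le_succ)
    have hKidx : K.index = q := by
      refine Nat.eq_of_mul_eq_mul_left (pow_pos hq.pos n) ?_
      rw [← hK, Subgroup.card_mul_index, ← Subgroup.index_eq_card, hidx, hK, pow_succ]
    haveI : K.Normal := Subgroup.normal_of_index_eq_minFac_card (by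
      rw [hKidx, ← Subgroup.index_eq_card, hidx, Nat.Prime.pow_minFac hq n.succ_ne_zero])
    let V : Subgroup U := K.comap (QuotientGroup.mk' N)
    haveI : Fintype V := Fintype.ofFinite V
    have hVidx : V.index = q := by
      rw [Subgroup.index_comap_of_surjective _ (QuotientGroup.mk'_surjective N), hKidx]
    have hNV : N ≤ V := fun g hg => by
      show QuotientGroup.mk' N g ∈ K
      rw [QuotientGroup.mk'_apply, (QuotientGroup.eq_one_iff g).2 hg]; exact K.one_mem
    let N' : Subgroup V := N.subgroupOf V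
    haveI : Fintype N' := Fintype.ofFinite _
    have hN'idx : N'.index = q ^ n := by
      have h1 := Subgroup.relIndex_mul_index hNV
      rw [hVidx, hidx, pow_succ] at h1
      exact Nat.eq_of_mul_eq_mul_right hq.pos h1
    let ι : N' ≃* N := Subgroup.subgroupOfEquivOfLe hNV
    let θ' : IrrCharacter N' := ⟨_, isIrrCharacter_comp_mulEquiv θ.2 ι⟩
    have hθ' : θ' ∈ principalBlock M N' := by
      intro x
      have h1 := hθ (ι x)
      have e := CfsgLib.BlockLocal.centralChar_comp_equiv ι (θ : N → ℂ) x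
      have e1 := CfsgLib.BlockLocal.centralChar_comp_equiv ι (fun _ : N => (1 : ℂ)) x
      rw [← e, ← e1] at h1
      exact h1
    obtain ⟨φ, hφB, hφθ⟩ := ih N' (Q.subgroupOf V) (h.subgroup hNV) hN'idx θ' hθ'
    have hφinv : ∀ g : U, CfsgLib.Clifford.conjChar V (φ : V → ℂ) g = φ := by
      intro g
      let φg : IrrCharacter V := ⟨_, CfsgLib.Clifford.isIrrCharacter_conjChar V φ.2 g⟩
      have hB : φg ∈ principalBlock M V := by
        have := conjIrr_mem_principalBlock V g⁻¹ hφB
        convert this using 1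
        apply Subtype.ext
        funext x
        show CfsgLib.Clifford.conjChar V (φ : V → ℂ) g x = _
        rw [CfsgLib.BlockLocal.conjIrr_apply, CfsgLib.Clifford.conjChar_eq_comp, inv_inv]
      have hres : ∀ x : N', (φg : V → ℂ) x = (θ' : N' → ℂ) x := fun x => by
        show CfsgLib.Clifford.conjChar V (φ : V → ℂ) g (x : V) = _
        exact (hφθ ⟨⟨g * ((x : V) : U) * g⁻¹, _⟩, (inferInstance : N.Normal).conj_mem _ x.2 g⟩).trans
          (congrFun (conjChar_eq_self_of_setup hM h hθ g) (ι x))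
      exact congrArg Subtype.val (eq_of_mem_principalBlock_over hM (h.subgroup hNV) hφθ hφB hB (by
        rw [show (fun x : N' => (φg : V → ℂ) x) = (θ' : N' → ℂ) from funext hres,
          classInner_self_of_isIrr θ'.2]
        exact one_ne_zero))
    haveI : Fact (Nat.Prime q) := ⟨hq⟩
    have hcyc : IsCyclic (U ⧸ V) :=
      isCyclic_of_prime_card (p := q) (by rw [← Subgroup.index_eq_card, hVidx])
    obtain ⟨χ₀, hχ₀, hχ₀V⟩ := CfsgLib.RealChar.exists_extension_character_of_cyclic V hcyc (φ : V → ℂ)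
      φ.2 (fun g x => by
        have := congrFun (hφinv g) x
        rwa [CfsgLib.Clifford.conjChar_eq_comp] at this)
    exact exists_principal_extension_of_extension hM h hχ₀
      (fun x => (hχ₀V ⟨x, hNV x.2⟩).trans (hφθ ⟨⟨x, hNV x.2⟩, x.2⟩)) hθ

/-- Every member of the principal block of `N` extends into the principal block. -/
theorem exists_principal_extension [Fact p.Prime] (hM : IsPModular p M) {G : Type u} [Group G]
    [Fintype G] {N Q : Subgroup G} [N.Normal] [Fintype N] (h : CentralSetup p N Q)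
    {θ : IrrCharacter N} (hθ : θ ∈ principalBlock M N) :
    ∃ χ : IrrCharacter G, χ ∈ principalBlock M G ∧ ∀ n : N, (χ : G → ℂ) n = (θ : N → ℂ) n := by
  classical
  have hinv : ∀ (g : G) (n : N), (θ : N → ℂ) (MulAut.conjNormal g n) = (θ : N → ℂ) n := fun g n => by
    have := congrFun (conjChar_eq_self_of_setup hM h hθ g) n
    rwa [CfsgLib.Clifford.conjChar_eq_comp] at this
  obtain ⟨φ, hφ, hφθ⟩ := CfsgLib.RealChar.exists_extension_character_of_forall_prime N
    (θ : N → ℂ) θ.2 hinv fun q hq => by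
      haveI : Fact q.Prime := ⟨hq⟩
      obtain ⟨S⟩ : Nonempty (Sylow q (G ⧸ N)) := inferInstance
      obtain ⟨n, hn⟩ := IsPGroup.iff_card.1 S.isPGroup'
      let P : Subgroup G := (S : Subgroup (G ⧸ N)).comap (QuotientGroup.mk' N)
      haveI : Fintype P := Fintype.ofFinite P
      have hNP : N ≤ P := fun g hg => by
        show QuotientGroup.mk' N g ∈ (S : Subgroup (G ⧸ N))
        rw [QuotientGroup.mk'_apply, (QuotientGroup.eq_one_iff g).2 hg]; exact one_mem _
      have hPidx : P.index = (S : Subgroup (G ⧸ N)).index :=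
        Subgroup.index_comap_of_surjective _ (QuotientGroup.mk'_surjective N)
      let N' : Subgroup P := N.subgroupOf P
      haveI : Fintype N' := Fintype.ofFinite _
      have hN'idx : N'.index = q ^ n := by
        have h1 := Subgroup.relIndex_mul_index hNP
        rw [hPidx, Subgroup.index_eq_card N, ← (S : Subgroup (G ⧸ N)).card_mul_index, hn] at h1
        exact Nat.eq_of_mul_eq_mul_right (Nat.pos_of_ne_zero Subgroup.index_ne_zero_of_finite) h1
      let ι : N' ≃* N := Subgroup.subgroupOfEquivOfLe hNP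
      let θ' : IrrCharacter N' := ⟨_, isIrrCharacter_comp_mulEquiv θ.2 ι⟩
      have hθ' : θ' ∈ principalBlock M N' := by
        intro x
        have h1 := hθ (ι x)
        have e := CfsgLib.BlockLocal.centralChar_comp_equiv ι (θ : N → ℂ) x
        have e1 := CfsgLib.BlockLocal.centralChar_comp_equiv ι (fun _ : N => (1 : ℂ)) x
        rw [← e, ← e1] at h1
        exact h1
      obtain ⟨χ, -, hχθ⟩ := exists_principal_extension_primePow hM q n N' (Q.subgroupOf P)
        (h.subgroup hNP) hN'idx θ' hθ'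
      exact ⟨P, hNP, χ, by rw [hPidx]; exact S.not_dvd_index, IsIrrCharacter.isCharacter χ.2,
        fun x => hχθ ⟨⟨x, hNP x.2⟩, x.2⟩⟩
  exact exists_principal_extension_of_extension hM h hφ hφθ hθ

end CfsgLib.ZerosCodegree
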