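import Cfsg.Agent.Lib.ZerosCodegree.FlatComplement
import Mathlib.GroupTheory.Complement

/-!
Complements to Sylow subgroups of quotients above a fully ramified character.
-/

set_option autoImplicit false
set_option linter.unusedSectionVars false
set_option linter.style.haveILetI false

open Cfsg

namespace CfsgLib.ZerosCodegree

open CfsgLib.CharTheory
open scoped ComplexConjugate

universe u
variable {H : Type u} [Group H] [Fintype H] {Z : Subgroup H} [Z.Normal] [Fintype Z]

/-- A fully ramified character is flat. -/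
theorem flatOver_of_ramified (χ : IrrCharacter H) (θ : IrrCharacter Z) {e : ℕ} (he : e ^ 2 = Z.index)
    (hres : ∀ z : Z, (χ : H → ℂ) z = (e : ℂ) * (θ : Z → ℂ) z) : FlatOver Z (χ : H → ℂ) θ e := by
  classical
  have he0 : e ≠ 0 := fun h => Subgroup.index_ne_zero_of_finite (H := Z) (by rw [← he, h]; rfl)
  refine ⟨IsIrrCharacter.isCharacter χ.2, he0, hres, ?_, fun g => funext fun z => ?_⟩
  · have h1 := sum_sq_irr χ.2
    rw [← Finset.sum_filter_add_sum_filter_not Finset.univ (fun g : H => g ∈ Z),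
      Finset.sum_subtype (Finset.univ.filter fun g : H => g ∈ Z) (p := fun g => g ∈ Z) (by simp)] at h1
    rw [show (∑ z : Z, (χ : H → ℂ) z * conj ((χ : H → ℂ) z)) = (Nat.card H : ℂ) by
      rw [← Subgroup.index_mul_card Z, ← he, Nat.cast_mul, ← sum_sq_irr θ.2, Finset.mul_sum]
      refine Finset.sum_congr rfl fun z _ => ?_
      rw [hres, map_mul, map_natCast]
      push_cast
      ring, add_eq_left] at h1
    simp only [Complex.mul_conj, ← Complex.ofReal_sum, Complex.ofReal_eq_zero] at h1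
    intro g hg
    exact Complex.normSq_eq_zero.1 ((Finset.sum_eq_zero_iff_of_nonneg
      fun x _ => Complex.normSq_nonneg _).1 h1 g (Finset.mem_filter.2 ⟨Finset.mem_univ _, hg⟩))
  · refine mul_left_cancel₀ (Nat.cast_ne_zero.2 he0 : (e : ℂ) ≠ 0) ?_
    rw [CfsgLib.Clifford.conjChar_apply, ← hres, ← hres]
    exact IsIrrCharacter.isClassFunction χ.2 _ g

/-- Constituents of a character inducing a flat one lie over `θ`. -/
theorem over_of_induced {χ : H → ℂ} {θ : IrrCharacter Z} {e : ℕ} (h : FlatOver Z χ θ e)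
    (K : Subgroup H) [K.Normal] [Fintype K] {φ : K → ℂ} (hφ : IsCharacter K φ)
    (hind : indFun K φ = χ) {A : Subgroup H} [Fintype A] (hZA : Z ≤ A) (hAK : A ≤ K)
    (β : IrrCharacter A) (hβ : classInner (fun a : A => φ ⟨a, hAK a.2⟩) (β : A → ℂ) ≠ 0) :
    classInner (fun z : Z => (β : A → ℂ) ⟨z, hZA z.2⟩) (θ : Z → ℂ) ≠ 0 := by
  classical
  intro h0
  have hn : ∀ x : H, ∃ n : ℕ, classInner (fun a : A => CfsgLib.Clifford.conjChar K φ x ⟨a, hAK a.2⟩)
      (β : A → ℂ) = n := fun x => by
    refine IsCharacter.exists_classInner_eq_nat ?_ β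
    rw [CfsgLib.Clifford.conjChar_eq_comp]
    exact CfsgLib.Coherence.isCharacter_comp
      (CfsgLib.Coherence.isCharacter_comp hφ (MulAut.conjNormal x).toMonoidHom)
      (Subgroup.inclusion hAK)
  choose n hn using hn
  have h1 : classInner (fun a : A => χ a) (β : A → ℂ) = 0 := by
    have := h.classInner_res hZA (α := (β : A → ℂ)) (n := 0) (by rw [h0, Nat.cast_zero])
    rw [Nat.cast_zero, mul_zero, mul_eq_zero, Nat.cast_eq_zero] at this
    exact this.resolve_left fun h => Subgroup.index_ne_zero_of_finite h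
  have h2 : classInner (fun a : A => χ a) (β : A → ℂ) =
      (Nat.card K : ℂ)⁻¹ * ((∑ x : H, n x⁻¹ : ℕ) : ℂ) := by
    rw [← hind]
    have e1 : (fun a : A => indFun K φ a) = (Nat.card K : ℂ)⁻¹ •
        ∑ x : H, fun a : A => CfsgLib.Clifford.conjChar K φ x⁻¹ ⟨a, hAK a.2⟩ := by
      funext a
      have := congrFun (CfsgLib.Clifford.indFun_res_eq K φ) ⟨a, hAK a.2⟩
      simp only [Pi.smul_apply, Finset.sum_apply] at this ⊢
      exact this
    simp only [e1, classInner_smul_left, classInner_sum_left, hn, Nat.cast_sum]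
  rw [h2, mul_eq_zero, inv_eq_zero, Nat.cast_eq_zero, Nat.cast_eq_zero] at h1
  have h3 := Finset.sum_eq_zero_iff.1 (h1.resolve_left (Nat.card_pos (α := K)).ne') 1
    (Finset.mem_univ _)
  rw [inv_one] at h3
  refine hβ ?_
  have h4 := hn 1
  rw [CfsgLib.Clifford.conjChar_one, h3, Nat.cast_zero] at h4
  exact h4

/-- Complements to Sylow subgroups of `H ⧸ K`. -/
theorem exists_complement_of_ramified {χ : H → ℂ} {θ : IrrCharacter Z} {e : ℕ}
    (h : FlatOver Z χ θ e) (he : e ^ 2 = Z.index) (K : Subgroup H) [K.Normal] [Fintype K]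
    (hZK : Z ≤ K) (p : ℕ) [Fact p.Prime] (P : Sylow p (H ⧸ K))
    (hcase : IsCyclic P ∨ ∃ φ : K → ℂ, IsCharacter K φ ∧ indFun K φ = χ) :
    ∃ M : Subgroup (H ⧸ K), M.IsComplement' (P : Subgroup (H ⧸ K)) := by
  classical
  have hp : p.Prime := Fact.out
  set π := QuotientGroup.mk' Z with hπ
  have hπs : Function.Surjective π := QuotientGroup.mk'_surjective Z
  set Kb : Subgroup (H ⧸ Z) := K.map π
  haveI : Kb.Normal := Subgroup.Normal.map inferInstance π hπs
  obtain ⟨Q⟩ := (inferInstance : Nonempty (Sylow p Kb))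
  set Qm : Subgroup (H ⧸ Z) := (Q : Subgroup Kb).map Kb.subtype
  obtain ⟨S, hQS⟩ := (Q.isPGroup'.map Kb.subtype).exists_le_sylow
  have hQK : Qm ≤ Kb := Subgroup.map_subtype_le _
  have hSK : (S : Subgroup (H ⧸ Z)) ⊓ Kb = Qm := by
    refine le_antisymm (fun x hx => ?_) (le_inf hQS hQK)
    have h1 : ((S : Subgroup (H ⧸ Z)).subgroupOf Kb) = (Q : Subgroup Kb) :=
      Q.is_maximal' (S.isPGroup'.comap_of_injective Kb.subtype Subtype.val_injective)
        fun y hy => hQS ⟨y, hy, rfl⟩
    exact ⟨⟨x, hx.2⟩, h1 ▸ hx.1, rfl⟩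
  set A : Subgroup H := Qm.comap π
  set L : Subgroup H := (S : Subgroup (H ⧸ Z)).comap π
  set N : Subgroup H := (Subgroup.normalizer (Qm : Set (H ⧸ Z))).comap π
  have hcK : Kb.comap π = K := by
    rw [Subgroup.comap_map_eq, sup_eq_left, QuotientGroup.ker_mk']; exact hZK
  have hZA : Z ≤ A := fun z hz => by
    show π z ∈ Qm
    rw [show π z = 1 from (QuotientGroup.eq_one_iff z).2 hz]; exact Qm.one_mem
  have hAL : A ≤ L := Subgroup.comap_mono hQS
  have hAK : A ≤ K := hcK ▸ Subgroup.comap_mono hQK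
  have hLK : L ⊓ K = A := by
    conv_lhs => rw [← hcK]
    rw [← Subgroup.comap_inf, hSK]
  have hAN : A ≤ N := Subgroup.comap_mono Subgroup.le_normalizer
  have hLN : L ≤ N := Subgroup.comap_mono fun s hs => by
    have key : ∀ s ∈ (S : Subgroup (H ⧸ Z)), ∀ x ∈ Qm, s * x * s⁻¹ ∈ Qm := fun s hs x hx => by
      rw [← hSK] at hx ⊢
      exact ⟨Subgroup.mul_mem _ (Subgroup.mul_mem _ hs hx.1) (Subgroup.inv_mem _ hs), (inferInstance : Kb.Normal).conj_mem _ hx.2 s⟩
    refine Subgroup.mem_normalizer_iff.2 fun x => ⟨key s hs x, fun hx => ?_⟩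
    have := key s⁻¹ (Subgroup.inv_mem _ hs) _ hx
    simpa [mul_assoc] using this
  have hNK : ∀ g : H, ∃ n ∈ N, ∃ k ∈ K, g = n * k := by
    intro g
    have h1 : π g ∈ Subgroup.normalizer (Qm : Set (H ⧸ Z)) ⊔ Kb := by
      rw [Sylow.normalizer_sup_eq_top Q]; trivial
    obtain ⟨a, ha, b, hb, hab⟩ := Subgroup.mem_sup_of_normal_right.1 h1
    obtain ⟨n, rfl⟩ := hπs a
    refine ⟨n, ha, n⁻¹ * g, ?_, by group⟩
    rw [← hcK, Subgroup.mem_comap, map_mul, map_inv, ← hab, inv_mul_cancel_left]
    exact hb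
  -- the numbers
  have hKA : ¬ p ∣ A.relIndex K := by
    rw [Subgroup.relIndex_comap]
    show ¬ p ∣ Qm.relIndex Kb
    rw [show Qm.relIndex Kb = (Q : Subgroup Kb).index by
      rw [Subgroup.relIndex, Subgroup.subgroupOf, Subgroup.comap_map_eq_self_of_injective
        Subtype.val_injective]]
    exact Q.not_dvd_index
  have hidxeq : ∀ B : Subgroup (H ⧸ Z), Z.relIndex (B.comap π) = Nat.card B := fun B => by
    have h1 : ((⊥ : Subgroup (H ⧸ Z)).comap π).relIndex (B.comap π) = Nat.card B := by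
      rw [Subgroup.relIndex_comap, Subgroup.map_comap_eq_self_of_surjective hπs, Subgroup.relIndex_bot_left]
    rwa [MonoidHom.comap_bot, QuotientGroup.ker_mk'] at h1
  have he0 : e ≠ 0 := h.pos
  set t := e.factorization p
  have hfac : e = p ^ t * (e / p ^ t) := (Nat.ordProj_mul_ordCompl_eq_self e p).symm
  have he' : ¬ p ∣ e / p ^ t := Nat.not_dvd_ordCompl hp he0
  have hcardZ : (Nat.card (H ⧸ Z)).factorization p = 2 * t := by
    rw [← Subgroup.index_eq_card, ← he, Nat.factorization_pow]; simp [t]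
  have hLZ : Z.relIndex L = p ^ (2 * t) := by
    rw [hidxeq, ← hcardZ]; exact S.card_eq_multiplicity
  have hAZ : Z.relIndex A = p ^ (Nat.card Kb).factorization p := by
    rw [hidxeq]
    rw [Nat.card_congr ((Q : Subgroup Kb).equivMapOfInjective Kb.subtype Subtype.val_injective).symm.toEquiv]
    exact Q.card_eq_multiplicity
  have hcardK : Nat.card (H ⧸ Z) = Nat.card Kb * Nat.card (H ⧸ K) := by
    rw [← Subgroup.index_eq_card K, ← hidxeq, hcK, Subgroup.relIndex_mul_index hZK,
      Subgroup.index_eq_card]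
  have hq : A.relIndex L = p ^ (Nat.card (H ⧸ K)).factorization p := by
    have h1 := Subgroup.relIndex_mul_relIndex Z A L hZA hAL
    rw [hAZ, hLZ, ← hcardZ, hcardK, Nat.factorization_mul Nat.card_pos.ne' Nat.card_pos.ne',
      Finsupp.add_apply, pow_add] at h1
    exact Nat.eq_of_mul_eq_mul_left (pow_pos hp.pos _) h1
  -- move into N
  haveI : Fintype N := Fintype.ofFinite N
  haveI : Fintype (A.subgroupOf N) := Fintype.ofFinite _
  haveI : Fintype (Z.subgroupOf N) := Fintype.ofFinite _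
  haveI : (A.subgroupOf N).Normal := ⟨fun a ha n => by
    show π ((n : H) * (a : H) * (n : H)⁻¹) ∈ Qm
    rw [map_mul, map_mul, map_inv]
    exact (Subgroup.mem_normalizer_iff.1 n.2 (π a)).1 ha⟩
  obtain ⟨θ', hθ', hN⟩ := h.restrict (hZA.trans hAN)
  have hrelN : ∀ (B C : Subgroup H), C ≤ N → (B.subgroupOf N).relIndex (C.subgroupOf N) = B.relIndex C :=
    fun B C hC => Subgroup.relIndex_subgroupOf hC
  have hKN : (A.subgroupOf N).relIndex (K.subgroupOf N) ∣ A.relIndex K := by
    rw [← Subgroup.inf_subgroupOf_right K N, hrelN A _ inf_le_right]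
    exact Dvd.intro _ (Subgroup.relIndex_mul_relIndex A (K ⊓ N) K (le_inf hAK hAN) inf_le_left)
  obtain ⟨T, hJT, hT⟩ := hN.exists_index (p := p) (A := A.subgroupOf N) (t := t)
    (L.subgroupOf N) (K.subgroupOf N) (fun x hx => hZA hx) (fun x hx => hAL hx) (fun x hx => hAK hx)
    (fun hd => hKA (hd.trans hKN)) (by rw [hrelN _ _ hLN, hLZ]) hfac he' (by
      rcases hcase with hcyc | ⟨φ, hφ, hind⟩
      · left
        have hS' : (Nat.card (L.map (QuotientGroup.mk' K))) = p ^ (Nat.card (H ⧸ K)).factorization p := by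
          rw [← hq, ← hLK, Subgroup.inf_relIndex_left]
          conv_rhs => rw [← QuotientGroup.ker_mk' K, ← MonoidHom.comap_bot, Subgroup.relIndex_comap,
            Subgroup.relIndex_bot_left]
        obtain ⟨g, hg⟩ := MulAction.exists_smul_eq (H ⧸ K) (Sylow.ofCard _ hS') P
        haveI := hcyc
        have hcyc' : IsCyclic (L.map (QuotientGroup.mk' K)) := by
          rw [← hg] at hcyc
          exact (MulEquiv.isCyclic (Subgroup.equivSMul (MulAut.conj g) (L.map (QuotientGroup.mk' K)))).2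
            hcyc
        let f : (L.subgroupOf N) →* L.map (QuotientGroup.mk' K) :=
          ((QuotientGroup.mk' K).comp (N.subtype.comp (L.subgroupOf N).subtype)).codRestrict _
            fun x => ⟨_, x.2, rfl⟩
        haveI := hcyc'
        refine isCyclic_of_injective ((QuotientGroup.kerLift f).comp
          (QuotientGroup.quotientMulEquivOfEq (show (A.subgroupOf N).subgroupOf (L.subgroupOf N) = f.ker from
            Subgroup.ext fun x => ?_)).toMonoidHom)
          ((QuotientGroup.kerLift_injective f).comp (MulEquiv.injective _))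
        rw [MonoidHom.mem_ker, Subtype.ext_iff]
        show (((x : N) : H) ∈ A) ↔ (((x : N) : H) : H ⧸ K) = 1
        rw [QuotientGroup.eq_one_iff, ← hLK]
        exact ⟨fun hx => hx.2, fun hx => ⟨x.2, hx⟩⟩
      · right
        obtain ⟨c, hc⟩ : A.relIndex L ∣ Nat.card (H ⧸ K) := hq ▸ Nat.ordProj_dvd _ p
        let ι : (A.subgroupOf N) ≃* A := Subgroup.subgroupOfEquivOfLe hAN
        refine ⟨fun x => φ ⟨ι x, hAK (ι x).2⟩, c, CfsgLib.Coherence.isCharacter_comp hφ
          ((Subgroup.inclusion hAK).comp ι.toMonoidHom), ?_, fun β hβ => ?_⟩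
        · rw [hrelN _ _ hLN, mul_assoc, ← Nat.cast_mul, ← hc, ← Subgroup.index_eq_card, hθ' 1]
          have h1 := h.on 1
          rw [← hind, OneMemClass.coe_one, CfsgLib.Frobenius.indFun_one] at h1
          rw [mul_comm]
          exact h1
        · let β' : IrrCharacter A := ⟨_, isIrrCharacter_comp_mulEquiv β.2 ι.symm⟩
          haveI : Fintype A := Fintype.ofFinite A
          have e1 : classInner (fun a : A => φ ⟨a, hAK a.2⟩) (β' : A → ℂ) ≠ 0 := by
            rw [← CfsgLib.Clifford.classInner_comp_mulEquiv ι]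
            simpa [β'] using hβ
          have e2 := over_of_induced h K hφ hind hZA hAK β' e1
          rw [← CfsgLib.Clifford.classInner_comp_mulEquiv
            (Subgroup.subgroupOfEquivOfLe (hZA.trans hAN))] at e2
          rw [show (θ' : Z.subgroupOf N → ℂ) =
            fun z => (θ : Z → ℂ) (Subgroup.subgroupOfEquivOfLe (hZA.trans hAN) z) from funext hθ']
          exact e2)
  rw [hrelN _ _ hLN] at hT
  let F : N →* H ⧸ K := (QuotientGroup.mk' K).comp N.subtype
  have hFs : Function.Surjective F := fun x => by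
    obtain ⟨g, rfl⟩ := QuotientGroup.mk'_surjective K x
    obtain ⟨n, hn, k, hk, rfl⟩ := hNK g
    exact ⟨⟨n, hn⟩, (QuotientGroup.eq.2 (by simpa using hk) : (n : H ⧸ K) = ((n * k : H) : H ⧸ K))⟩
  have hFk : F.ker ≤ T := fun x hx => hJT ((QuotientGroup.eq_one_iff (x : H)).1 hx)
  refine ⟨T.map F, ?_⟩
  have hM : (T.map F).index = Nat.card (P : Subgroup (H ⧸ K)) := by
    rw [Subgroup.index_map_eq T hFs hFk, hT, hq]; exact P.card_eq_multiplicity.symm
  have hcard := (T.map F).card_mul_index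
  rw [hM] at hcard
  refine Subgroup.isComplement'_of_coprime hcard ?_
  rw [P.card_eq_multiplicity]
  refine Nat.Coprime.pow_right _ (hp.coprime_iff_not_dvd.2 fun hd => ?_).symm
  have h1 : p ^ ((Nat.card (H ⧸ K)).factorization p + 1) ∣ Nat.card (H ⧸ K) := by
    conv_rhs => rw [← hcard, P.card_eq_multiplicity]
    rw [pow_succ']
    exact Nat.mul_dvd_mul_right hd _
  exact Nat.pow_succ_factorization_not_dvd Nat.card_pos.ne' hp h1

end CfsgLib.ZerosCodegree
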