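import Cfsg.Agent.Lib.ZerosCodegree.BlockTools
import Cfsg.Agent.Lib.BlockLocal.WeakOrth
import Cfsg.Agent.Lib.Frobenius.Induce

/-!
Sums over the regular elements, and characters of degree prime to `p` in the principal block over
a character that extends to a Sylow subgroup.
-/

set_option autoImplicit false
set_option linter.unusedSectionVars false
set_option linter.style.haveILetI false

open Cfsg

namespace CfsgLib.ZerosCodegree

open CfsgLib.CharTheory CfsgLib.Blocks CfsgLib.BlockLocal
open scoped ComplexConjugate

universe u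
variable {G : Type u} [Group G] [Fintype G]

/-- The indicator of the regular elements. -/
noncomputable def regInd (p : ℕ) (g : G) : ℂ := if p ∣ orderOf g then 0 else 1

/-- The sum over the regular elements. -/
noncomputable def regSum (p : ℕ) (f : G → ℂ) : ℂ := ∑ x : G, regInd p x * f x

theorem isClassFunction_regInd (p : ℕ) : IsClassFunction G (regInd (G := G) p) := fun g h => by
  rw [regInd, regInd, show orderOf (h * g * h⁻¹) = orderOf g from (MulAut.conj h).orderOf_eq g]

theorem regSum_eq_pairReg (p : ℕ) (f : G → ℂ) :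
    regSum p f = pairReg p f (trivIrr G : G → ℂ) := by
  unfold regSum pairReg regInv regInd
  exact Finset.sum_congr rfl fun x _ => by split_ifs <;> simp [trivIrr_apply]

variable {p : ℕ} {M : Ideal AlgInt} [M.IsPrime]

theorem memLocalRing_regInd (g : G) : MemLocalRing M (regInd p g) := by
  unfold regInd
  split_ifs
  · simpa using memLocalRing_natCast (M := M) 0
  · simpa using memLocalRing_natCast (M := M) 1

theorem regSum_eq_zero_of_not_mem (hM : IsPModular p M) {χ : IrrCharacter G}
    (h : χ ∉ principalBlock M G) : regSum p (χ : G → ℂ) = 0 := by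
  rw [regSum_eq_pairReg]
  exact pairReg_eq_zero' hM fun hs => h (sameBlock_symm hs)

theorem regSum_div_sub_mem (hM : IsPModular p M) {χ : IrrCharacter G}
    (h : χ ∈ principalBlock M G) :
    MemLocalIdeal M (regSum p (χ : G → ℂ) / (χ : G → ℂ) 1 - regSum p (fun _ : G => (1 : ℂ))) := by
  have h1 := memLocalIdeal_sum_sub_of_sameBlock (IsIrrCharacter.isClassFunction χ.2)
    (IsIrrCharacter.isClassFunction (trivIrr G).2) (sameBlock_symm h)
    (isClassFunction_regInd p) (fun g => memLocalRing_regInd g)
  simp only [trivIrr_apply, div_one] at h1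
  exact h1

theorem memLocalRing_regSum_one : MemLocalRing M (regSum p (fun _ : G => (1 : ℂ))) :=
  memLocalRing_sum fun x _ => by rw [mul_one]; exact memLocalRing_regInd x

theorem not_memLocalIdeal_regSum_one [Fact p.Prime] (hM : IsPModular p M) :
    ¬ MemLocalIdeal M (regSum p (fun _ : G => (1 : ℂ))) := by
  have h := not_memLocalIdeal_pairReg' hM (isPBlock_principalBlock (G := G))
    (trivIrr_mem_principalBlock (G := G)) (by
      rw [show (trivIrr G : G → ℂ) = fun _ => (1 : ℂ) from funext fun g => trivIrr_apply g]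
      exact blockHeight_trivIrr _)
  rw [← regSum_eq_pairReg, trivIrr_apply, div_one,
    show (trivIrr G : G → ℂ) = fun _ => (1 : ℂ) from funext fun g => trivIrr_apply g] at h
  exact h

/-- A `p'`-degree member of the principal block lies over a `p'`-degree member of the principal
block of a normal subgroup that extends to its product with a Sylow subgroup. -/
theorem exists_degree_principalBlock_over [Fact p.Prime] (hM : IsPModular p M) (N H : Subgroup G)
    [N.Normal] [Fintype N] [Fintype H] (hNH : N ≤ H) (hidx : ¬ p ∣ H.index)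
    (hreg : ∀ g ∈ H, ¬ p ∣ orderOf g → g ∈ N) {θ : IrrCharacter N} (hθ : θ ∈ principalBlock M N)
    (hdeg : ¬ p ∣ charDegree (θ : N → ℂ)) (η : IrrCharacter H)
    (hres : ∀ n : N, (η : H → ℂ) (Subgroup.inclusion hNH n) = (θ : N → ℂ) n) :
    ∃ χ : IrrCharacter G, χ ∈ principalBlock M G ∧ ¬ p ∣ charDegree (χ : G → ℂ) ∧
      classInner (fun n : N => (χ : G → ℂ) n) (θ : N → ℂ) ≠ 0 := by
  classical
  haveI : Fintype (IrrCharacter G) := Fintype.ofFinite _
  haveI : Fintype (IrrCharacter H) := Fintype.ofFinite _
  by_contra hcon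
  push Not at hcon
  set ψ := indFun H (η : H → ℂ) with hψ
  obtain ⟨m, hm⟩ := IsCharacter.exists_sum
    (CfsgLib.Frobenius.isCharacter_indFun H (η : H → ℂ) (IsIrrCharacter.isCharacter η.2))
  have hmem : MemLocalIdeal M (regSum p ψ) := by
    have e : regSum p ψ = ∑ χ : IrrCharacter G, (m χ : ℂ) * regSum p (χ : G → ℂ) := by
      simp only [regSum, hψ, hm, Finset.sum_apply, Pi.smul_apply, smul_eq_mul, Finset.mul_sum]
      rw [Finset.sum_comm]
      exact Finset.sum_congr rfl fun χ _ => Finset.sum_congr rfl fun x _ => by ring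
    rw [e]
    refine memLocalIdeal_sum fun χ _ => ?_
    by_cases hχ : χ ∈ principalBlock M G
    swap
    · rw [regSum_eq_zero_of_not_mem hM hχ, mul_zero]; exact memLocalIdeal_zero
    rcases Nat.eq_zero_or_pos (m χ) with h0 | h0
    · rw [h0, Nat.cast_zero, zero_mul]; exact memLocalIdeal_zero
    have hover : classInner (fun n : N => (χ : G → ℂ) n) (θ : N → ℂ) ≠ 0 := by
      obtain ⟨k, hk⟩ := IsCharacter.exists_sum
        (CfsgLib.Coherence.isCharacter_comp (IsIrrCharacter.isCharacter χ.2) H.subtype)
      have hk' : ∀ h : H, (χ : G → ℂ) h = ∑ φ : IrrCharacter H, (k φ : ℂ) * (φ : H → ℂ) h := fun h => by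
        have := congrFun hk h
        simpa [Finset.sum_apply] using this
      have hkη : k η ≠ 0 := fun h1 => by
        have e1 : classInner ψ (χ : G → ℂ) = (m χ : ℂ) := by
          rw [hψ, hm]; exact classInner_sum_irr (fun ξ => (m ξ : ℂ)) χ
        rw [hψ, CfsgLib.Frobenius.classInner_indFun H _ _ (IsIrrCharacter.isClassFunction χ.2),
          classInner_conj_symm, show (fun h : H => (χ : G → ℂ) h) =
            ∑ φ : IrrCharacter H, (k φ : ℂ) • (φ : H → ℂ) from funext fun h => by
              simp [hk' h, Finset.sum_apply],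
          classInner_sum_irr, h1] at e1
        simp [eq_comm, h0.ne'] at e1
      have hl : ∀ φ : IrrCharacter H, ∃ l : ℕ,
          classInner (fun n : N => (φ : H → ℂ) (Subgroup.inclusion hNH n)) (θ : N → ℂ) = l := fun φ =>
        IsCharacter.exists_classInner_eq_nat
          (CfsgLib.Coherence.isCharacter_comp (IsIrrCharacter.isCharacter φ.2)
            (Subgroup.inclusion hNH)) θ
      choose l hl using hl
      have e2 : classInner (fun n : N => (χ : G → ℂ) n) (θ : N → ℂ) =
          ((∑ φ : IrrCharacter H, k φ * l φ : ℕ) : ℂ) := by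
        rw [show (fun n : N => (χ : G → ℂ) n) = ∑ φ : IrrCharacter H,
            (k φ : ℂ) • fun n : N => (φ : H → ℂ) (Subgroup.inclusion hNH n) from funext fun n => by
              simp only [Finset.sum_apply, Pi.smul_apply, smul_eq_mul]
              exact hk' (Subgroup.inclusion hNH n)]
        simp only [classInner_sum_left, classInner_smul_left, hl, Nat.cast_sum, Nat.cast_mul]
      rw [e2, Nat.cast_ne_zero]
      intro h2
      have h3 := (Finset.sum_eq_zero_iff.1 h2) η (Finset.mem_univ _)
      have hlη : (l η : ℂ) = 1 := by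
        rw [← hl, show (fun n : N => (η : H → ℂ) (Subgroup.inclusion hNH n)) = (θ : N → ℂ) from
          funext hres]
        exact classInner_self_of_isIrr θ.2
      rw [Nat.cast_eq_one] at hlη
      rw [hlη, mul_one] at h3
      exact hkη h3
    have hd : p ∣ charDegree (χ : G → ℂ) := by
      by_contra hd
      exact hover (hcon χ hχ hd)
    refine memLocalIdeal_mul_left (memLocalRing_natCast (m χ)) ?_
    have hloc : MemLocalRing M (regSum p (χ : G → ℂ) / (χ : G → ℂ) 1) := by
      have := memLocalRing_add (memLocalRing_of_memLocalIdeal (regSum_div_sub_mem hM hχ))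
        (memLocalRing_regSum_one (G := G) (M := M) (p := p))
      simpa using this
    rw [← mul_div_cancel₀ (regSum p (χ : G → ℂ)) (apply_one_ne_zero_of_isIrr χ.2)]
    refine memLocalIdeal_mul_right ?_ hloc
    rw [irr_apply_one_eq, memLocalIdeal_natCast_iff hM]
    exact hd
  have hind : regSum p ψ = (H.index : ℂ) * ((θ : N → ℂ) 1 *
      (regSum p (θ : N → ℂ) / (θ : N → ℂ) 1)) := by
    rw [mul_div_cancel₀ _ (apply_one_ne_zero_of_isIrr θ.2)]
    have h1 := CfsgLib.Frobenius.classInner_indFun H (η : H → ℂ) (regInd (G := G) p)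
      (isClassFunction_regInd p)
    simp only [classInner] at h1
    have hreal : ∀ x : G, conj (regInd p x) = regInd p x := fun x => by
      unfold regInd; split_ifs <;> simp
    simp only [hreal] at h1
    have e1 : regSum p ψ = ∑ x : G, indFun H (η : H → ℂ) x * regInd p x :=
      Finset.sum_congr rfl fun x _ => mul_comm _ _
    have e2 : regSum p (θ : N → ℂ) = ∑ h : H, (η : H → ℂ) h * regInd p (h : G) := by
      rw [regSum]
      symm
      refine Eq.trans (Finset.sum_subset (Finset.filter_subset (fun h : H => (h : G) ∈ N) _) ?_).symm ?_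
      · intro h _ hh
        simp only [Finset.mem_filter, Finset.mem_univ, true_and] at hh
        rw [regInd, if_pos (not_not.1 fun hr => hh (hreg h h.2 hr)), mul_zero]
      · refine Finset.sum_bij' (fun h hh => (⟨(h : G), (Finset.mem_filter.1 hh).2⟩ : N))
          (fun n _ => Subgroup.inclusion hNH n) (fun _ _ => Finset.mem_univ _)
          (fun n _ => Finset.mem_filter.2 ⟨Finset.mem_univ _, n.2⟩) (fun _ _ => rfl) (fun _ _ => rfl)
          fun h hh => ?_
        rw [mul_comm, ← hres, regInd, regInd, Subgroup.orderOf_mk]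
        rfl
    rw [e1, e2]
    have hG : (Nat.card G : ℂ) ≠ 0 := Nat.cast_ne_zero.2 (Nat.card_pos (α := G)).ne'
    have hH : (Nat.card H : ℂ) ≠ 0 := Nat.cast_ne_zero.2 (Nat.card_pos (α := H)).ne'
    rw [inv_mul_eq_iff_eq_mul₀ hG] at h1
    rw [h1, ← H.index_mul_card]
    push_cast
    field_simp
  rw [hind] at hmem
  have hloc1 : MemLocalRing M (regSum p (θ : N → ℂ) / (θ : N → ℂ) 1) := by
    have := memLocalRing_add (memLocalRing_of_memLocalIdeal (regSum_div_sub_mem hM hθ))
      (memLocalRing_regSum_one (G := N) (M := M) (p := p))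
    simpa using this
  rcases (memLocalIdeal_mul_iff (memLocalRing_natCast _)
    (memLocalRing_mul (CfsgLib.Blocks.memLocalRing_irr θ 1) hloc1)).1 hmem with h | h
  · exact hidx ((memLocalIdeal_natCast_iff hM _).1 h)
  rcases (memLocalIdeal_mul_iff (CfsgLib.Blocks.memLocalRing_irr θ 1) hloc1).1 h with h | h
  · rw [irr_apply_one_eq, memLocalIdeal_natCast_iff hM] at h
    exact hdeg h
  · refine not_memLocalIdeal_regSum_one (G := N) (p := p) hM ?_
    have := memLocalIdeal_sub h (regSum_div_sub_mem hM hθ)
    simpa using this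

end CfsgLib.ZerosCodegree
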