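import Mathlib.Algebra.Ring.Subring.Basic
import Mathlib.RingTheory.IntegralDomain
import Mathlib.RingTheory.RootsOfUnity.Basic
import Mathlib.Algebra.Module.End
import Mathlib.Algebra.Group.Subgroup.Finite
import Mathlib.GroupTheory.GroupAction.Quotient
import Mathlib.Data.Nat.Prime.Basic
import Mathlib.Data.Finite.Card
import Mathlib.Data.Fintype.Lattice
import Mathlib.SetTheory.Cardinal.Finite

/-!
# Commutative groups of automorphisms of a finite abelian group acting irreducibly

The ring generated by a commutative irreducible group of automorphisms has no zero divisors; a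
semiregular such group has at most `n` elements of order dividing `n`, and its order divides the
number of non-zero elements of every invariant subgroup.
-/

set_option autoImplicit false
set_option linter.style.haveILetI false

namespace CfsgLib.ZerosCodegree.Semilinear

variable {W : Type*} [AddCommGroup W]

/-- An invariant subgroup. -/
def Invariant (T : Set (AddMonoid.End W)) (W₀ : AddSubgroup W) : Prop :=
  ∀ t ∈ T, ∀ w ∈ W₀, t w ∈ W₀

theorem Invariant.closure {T : Set (AddMonoid.End W)} {W₀ : AddSubgroup W} (h : Invariant T W₀) :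
    Invariant (Subring.closure T : Set (AddMonoid.End W)) W₀ := by
  intro t ht
  induction ht using Subring.closure_induction with
  | mem x hx => exact h x hx
  | zero => exact fun w _ => W₀.zero_mem
  | one => exact fun w hw => hw
  | add x y _ _ hx hy => exact fun w hw => W₀.add_mem (hx w hw) (hy w hw)
  | neg x _ hx => exact fun w hw => W₀.neg_mem (hx w hw)
  | mul x y _ _ hx hy => exact fun w hw => hx _ (hy w hw)

theorem commute_closure {T : Set (AddMonoid.End W)} (h : ∀ s ∈ T, ∀ t ∈ T, s * t = t * s)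
    {a b : AddMonoid.End W} (ha : a ∈ Subring.closure T) (hb : b ∈ Subring.closure T) :
    a * b = b * a := by
  letI := Subring.closureCommRingOfComm h
  exact congrArg Subtype.val (mul_comm (⟨a, ha⟩ : Subring.closure T) ⟨b, hb⟩)

/-- A non-zero element of the ring generated by an irreducible commutative set is injective. -/
theorem eq_zero_of_apply {T : Set (AddMonoid.End W)} (h : ∀ s ∈ T, ∀ t ∈ T, s * t = t * s)
    (hirr : ∀ W₀ : AddSubgroup W, Invariant T W₀ → W₀ = ⊥ ∨ W₀ = ⊤) {a : AddMonoid.End W}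
    (ha : a ∈ Subring.closure T) {w : W} (hw : w ≠ 0) (haw : a w = 0) : a = 0 := by
  have hinv : Invariant T (AddMonoidHom.ker (a : W →+ W)) := fun t ht v hv => by
    show a (t v) = 0
    rw [show a (t v) = (a * t) v from rfl, commute_closure h ha (Subring.subset_closure ht)]
    show t (a v) = 0
    rw [show a v = 0 from hv, map_zero]
  rcases hirr _ hinv with h1 | h1
  · exact absurd ((AddSubgroup.eq_bot_iff_forall _).1 h1 w haw) hw
  · exact AddMonoidHom.ext fun v => h1.ge (AddSubgroup.mem_top v)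

theorem isDomain_closure [Nontrivial W] {T : Set (AddMonoid.End W)}
    (h : ∀ s ∈ T, ∀ t ∈ T, s * t = t * s)
    (hirr : ∀ W₀ : AddSubgroup W, Invariant T W₀ → W₀ = ⊥ ∨ W₀ = ⊤) :
    IsDomain (Subring.closure T) := by
  haveI : Nontrivial (Subring.closure T) := ⟨⟨0, 1, fun h01 => by
    obtain ⟨w, hw⟩ := exists_ne (0 : W)
    exact hw (DFunLike.congr_fun (congrArg Subtype.val h01) w).symm⟩⟩
  haveI : NoZeroDivisors (Subring.closure T) := ⟨fun {a b} hab => by
    by_cases hb : b = 0
    · exact Or.inr hb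
    left
    obtain ⟨v, hv⟩ : ∃ v, (b : AddMonoid.End W) v ≠ 0 := by
      by_contra hc
      push Not at hc
      exact hb (Subtype.ext (AddMonoidHom.ext hc))
    exact Subtype.ext (eq_zero_of_apply h hirr a.2 hv
      (DFunLike.congr_fun (congrArg Subtype.val hab) v))⟩
  exact NoZeroDivisors.to_isDomain _

variable {L : Type*} [Group L]

/-- A commutative semiregular group has few roots of unity. -/
theorem card_roots_le [Finite W] [Nontrivial W] (ρ : L →* AddMonoid.End W)
    (hcomm : ∀ a b, ρ a * ρ b = ρ b * ρ a) (hsemi : ∀ a w, w ≠ 0 → ρ a w = w → ρ a = 1)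
    (n : ℕ) (hn : 0 < n) :
    Nat.card {e : AddMonoid.End W // (∃ a, ρ a = e) ∧ e ^ n = 1} ≤ n := by
  classical
  haveI : Finite (AddSubgroup W) := Finite.of_injective _ SetLike.coe_injective
  let T : Set (AddMonoid.End W) := Set.range ρ
  -- a minimal invariant subgroup
  haveI : Nonempty {W₀ : AddSubgroup W // W₀ ≠ ⊥ ∧ Invariant T W₀} :=
    ⟨⟨⊤, top_ne_bot, fun _ _ _ _ => AddSubgroup.mem_top _⟩⟩
  obtain ⟨⟨W₀, hne, hinv⟩, hmin⟩ := Finite.exists_min
    (fun W₀ : {W₀ : AddSubgroup W // W₀ ≠ ⊥ ∧ Invariant T W₀} => Nat.card W₀.1)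
  let res : L →* AddMonoid.End W₀ :=
    { toFun := fun a =>
        { toFun := fun w => ⟨ρ a w, hinv _ ⟨a, rfl⟩ _ w.2⟩
          map_zero' := Subtype.ext (map_zero (ρ a))
          map_add' := fun x y => Subtype.ext (map_add (ρ a) _ _) }
      map_one' := AddMonoidHom.ext fun w => Subtype.ext (by
        show ρ 1 (w : W) = (w : W)
        rw [map_one]
        rfl)
      map_mul' := fun a b => AddMonoidHom.ext fun w => Subtype.ext (by
        show ρ (a * b) (w : W) = ρ a (ρ b (w : W))
        rw [map_mul]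
        rfl) }
  have hcomm' : ∀ s ∈ Set.range res, ∀ t ∈ Set.range res, s * t = t * s := by
    rintro _ ⟨a, rfl⟩ _ ⟨b, rfl⟩
    exact AddMonoidHom.ext fun w => Subtype.ext (DFunLike.congr_fun (hcomm a b) (w : W))
  have hirr : ∀ U : AddSubgroup W₀, Invariant (Set.range res) U → U = ⊥ ∨ U = ⊤ := by
    intro U hU
    by_cases hU0 : U = ⊥
    · exact Or.inl hU0
    right
    have h1 := hmin ⟨U.map W₀.subtype, fun h => hU0
      ((AddSubgroup.map_eq_bot_iff_of_injective _ W₀.subtype_injective).1 h), ?_⟩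
    swap
    · rintro _ ⟨a, rfl⟩ _ ⟨w, hw, rfl⟩
      exact ⟨res a w, hU _ ⟨a, rfl⟩ w hw, rfl⟩
    change Nat.card W₀ ≤ Nat.card (U.map W₀.subtype) at h1
    rw [Nat.card_congr (U.equivMapOfInjective _ W₀.subtype_injective).toEquiv.symm] at h1
    exact AddSubgroup.eq_top_of_le_card U h1
  haveI : Nontrivial W₀ := (AddSubgroup.nontrivial_iff_ne_bot W₀).2 hne
  letI := Subring.closureCommRingOfComm hcomm'
  haveI := isDomain_closure hcomm' hirr
  have hlift : ∀ e : {e : AddMonoid.End W // (∃ a, ρ a = e) ∧ e ^ n = 1},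
      res e.2.1.choose ^ n = 1 := fun e => by
    refine AddMonoidHom.ext fun w => Subtype.ext ?_
    rw [← map_pow]
    show ρ (e.2.1.choose ^ n) (w : W) = (w : W)
    rw [map_pow, e.2.1.choose_spec, e.2.2]
    rfl
  let f : {e : AddMonoid.End W // (∃ a, ρ a = e) ∧ e ^ n = 1} →
      {x // x ∈ Polynomial.nthRoots n (1 : Subring.closure (Set.range res))} := fun e =>
    ⟨⟨res e.2.1.choose, Subring.subset_closure ⟨_, rfl⟩⟩,
      (Polynomial.mem_nthRoots hn).2 (Subtype.ext (hlift e))⟩
  have hf : Function.Injective f := fun e e' h => by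
    have h1 : res e.2.1.choose = res e'.2.1.choose := congrArg (fun x => ((x.1 : _) : AddMonoid.End W₀)) h
    obtain ⟨w, hw⟩ := exists_ne (0 : W₀)
    have h2 : ρ e.2.1.choose (w : W) = ρ e'.2.1.choose (w : W) :=
      congrArg Subtype.val (DFunLike.congr_fun h1 w)
    have h3 := hsemi (e.2.1.choose⁻¹ * e'.2.1.choose) w (fun h0 => hw (Subtype.ext h0)) (by
      rw [map_mul]
      show ρ e.2.1.choose⁻¹ (ρ e'.2.1.choose (w : W)) = (w : W)
      rw [← h2]
      show (ρ e.2.1.choose⁻¹ * ρ e.2.1.choose) (w : W) = (w : W)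
      rw [← map_mul, inv_mul_cancel, map_one]
      rfl)
    apply Subtype.ext
    rw [← e.2.1.choose_spec, ← e'.2.1.choose_spec,
      show e'.2.1.choose = e.2.1.choose * (e.2.1.choose⁻¹ * e'.2.1.choose) by group,
      map_mul ρ, h3, mul_one]
  refine (Nat.card_le_card_of_injective f hf).trans ?_
  calc Nat.card {x // x ∈ Polynomial.nthRoots n (1 : Subring.closure (Set.range res))}
      ≤ (Polynomial.nthRoots n (1 : Subring.closure (Set.range res))).card := by
        rw [Nat.subtype_card _ (fun x => Multiset.mem_toFinset)]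
        exact Multiset.toFinset_card_le _
    _ ≤ n := Polynomial.card_nthRoots n 1

/-- A semiregular group has order dividing the number of non-zero elements of an invariant
subgroup. -/
theorem card_dvd_sub_one [Finite W] (B : Subgroup (AddMonoid.End W)ˣ) (W₀ : AddSubgroup W)
    (hinv : ∀ b ∈ B, ∀ w ∈ W₀, (b : AddMonoid.End W) w ∈ W₀)
    (hsemi : ∀ b ∈ B, ∀ w ∈ W₀, w ≠ 0 → (b : AddMonoid.End W) w = w → b = 1) :
    Nat.card B ∣ Nat.card W₀ - 1 := by
  classical
  have hne : ∀ (b : B) (w : {w : W // w ∈ W₀ ∧ w ≠ 0}), (b.1 : AddMonoid.End W) w.1 ≠ 0 :=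
    fun b w h => w.2.2 (by
      have h1 := congrArg ((b.1⁻¹ : (AddMonoid.End W)ˣ) : AddMonoid.End W) h
      rw [map_zero] at h1
      change ((b.1⁻¹ : (AddMonoid.End W)ˣ) * b.1 : AddMonoid.End W) w.1 = 0 at h1
      rwa [Units.inv_mul] at h1)
  letI : MulAction B {w : W // w ∈ W₀ ∧ w ≠ 0} :=
    { smul := fun b w => ⟨(b.1 : AddMonoid.End W) w.1, hinv _ b.2 _ w.2.1, hne b w⟩
      one_smul := fun w => Subtype.ext rfl
      mul_smul := fun a b w => Subtype.ext rfl }
  have h := Nat.card_congr (MulAction.selfEquivOrbitsQuotientProd (G := B)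
    (X := {w : W // w ∈ W₀ ∧ w ≠ 0}) fun w => eq_bot_iff.2 fun b hb =>
      Subgroup.mem_bot.2 (Subtype.ext (hsemi _ b.2 _ w.2.1 w.2.2 (congrArg Subtype.val hb))))
  rw [Nat.card_prod] at h
  have h2 : Nat.card {w : W // w ∈ W₀ ∧ w ≠ 0} = Nat.card W₀ - 1 := by
    haveI := Fintype.ofFinite W
    rw [← Nat.card_congr (Equiv.subtypeSubtypeEquivSubtypeInter (· ∈ W₀) (· ≠ 0)),
      Nat.card_eq_fintype_card, Fintype.card_subtype_compl]
    rw [← Nat.card_eq_fintype_card, ← Nat.card_eq_fintype_card (α := {x : W₀ // (x : W) = 0})]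
    congr 1
    refine Nat.card_eq_one_iff_unique.2 ⟨⟨fun a b => ?_⟩, ⟨⟨0, rfl⟩⟩⟩
    exact Subtype.ext (Subtype.ext (a.2.trans b.2.symm))
  rw [← h2, h]
  exact dvd_mul_left _ _

end CfsgLib.ZerosCodegree.Semilinear
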