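import Mathlib.GroupTheory.PGroup
import Mathlib.GroupTheory.Nilpotent
import Mathlib.GroupTheory.SpecificGroups.Cyclic
import Mathlib.GroupTheory.Abelianization.Defs
import Mathlib.GroupTheory.Sylow

/-!
Elementary facts on commutators in finite p-groups with a two-generated quotient.
-/

set_option autoImplicit false

namespace CfsgLib.ZerosCodegree

open Subgroup
open scoped commutatorElement

variable {P : Type*} [Group P]

/-- If `a, b` generate `P` modulo a central subgroup `D` and `a ^ p` is central then the derived
subgroup is generated by `⁅a, b⁆`, which has order dividing `p`. -/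
theorem card_commutator_dvd {p : ℕ} (a b : P) (D : Subgroup P) (hD : D ≤ center P)
    (hgen : closure ({a, b} : Set P) ⊔ D = ⊤) (hc : ⁅a, b⁆ ∈ center P)
    (hap : a ^ p ∈ center P) : Nat.card (commutator P) ∣ p := by
  let C : Subgroup P := zpowers ⁅a, b⁆
  have hCz : C ≤ center P := zpowers_le.mpr hc
  haveI : C.Normal := ⟨fun n hn g => by
    rw [mem_center_iff.mp (hCz hn) g, mul_inv_cancel_right]; exact hn⟩
  let f := QuotientGroup.mk' C
  have hab : Commute (f a) (f b) := by
    rw [← commutatorElement_eq_one_iff_commute, ← map_commutatorElement]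
    exact (QuotientGroup.eq_one_iff _).mpr (mem_zpowers _)
  have hle : commutator P ≤ C := by
    rw [← QuotientGroup.ker_mk' C, _root_.commutator_def, commutator_le]
    have hz : ∀ z ∈ D, ∀ g, Commute (f z) (f g) := fun z hz g => by
      unfold Commute SemiconjBy
      rw [← map_mul, ← map_mul, mem_center_iff.mp (hD hz) g]
    have hall : ∀ g h, Commute (f g) (f h) := by
      have step : ∀ y : P, (∀ s ∈ ({a, b} : Set P), Commute (f y) (f s)) →
          ∀ h, Commute (f y) (f h) := by
        intro y hy h
        have hh : h ∈ (centralizer {f y}).comap f := by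
          have ht : (⊤ : Subgroup P) ≤ (centralizer {f y}).comap f := by
            rw [← hgen]
            refine sup_le ((closure_le _).mpr fun s hs => ?_) fun z hz' => ?_
            · exact mem_centralizer_singleton_iff.mpr (hy s hs).eq.symm
            · exact mem_centralizer_singleton_iff.mpr (hz z hz' y).eq
          exact ht trivial
        exact (show Commute (f h) (f y) from mem_centralizer_singleton_iff.mp hh).symm
      intro g h
      refine step g (fun s hs => (step s ?_ g).symm) h
      rintro t ht
      rcases hs with rfl | rfl <;> rcases ht with rfl | rfl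
      · exact Commute.refl _
      · exact hab
      · exact hab.symm
      · exact Commute.refl _
    intro g _ h _
    rw [MonoidHom.mem_ker, map_commutatorElement, commutatorElement_eq_one_iff_commute]
    exact hall g h
  refine (card_dvd_of_le hle).trans ?_
  rw [Nat.card_zpowers]
  have key : ∀ n : ℕ, ⁅a ^ n, b⁆ = ⁅a, b⁆ ^ n := by
    intro n
    induction n with
    | zero => simp
    | succ n ih =>
      have : ⁅a ^ (n + 1), b⁆ = a * ⁅a ^ n, b⁆ * a⁻¹ * ⁅a, b⁆ := by
        rw [pow_succ']; simp only [commutatorElement_def]; group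
      rw [this, ih, mem_center_iff.mp (pow_mem hc n) a, mul_inv_cancel_right, pow_succ]
  refine orderOf_dvd_of_pow_eq_one ?_
  rw [← key, commutatorElement_eq_one_iff_commute]
  exact (mem_center_iff.mp hap b).symm

/-- A group of order `p ^ 2` that is not cyclic has exponent `p` and is generated by two elements. -/
theorem exists_gen_pair {p : ℕ} [Fact p.Prime] (hP : Nat.card P = p ^ 2) (hnc : ¬ IsCyclic P) :
    (∀ x : P, x ^ p = 1) ∧ ∃ a b : P, closure ({a, b} : Set P) = ⊤ := by
  haveI : Finite P := Nat.finite_of_card_ne_zero (by rw [hP]; exact pow_ne_zero _ (Fact.out : p.Prime).ne_zero)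
  have hexp : ∀ x : P, x ^ p = 1 := fun x => by
    obtain ⟨i, hi, hix⟩ := (Nat.dvd_prime_pow (Fact.out : p.Prime)).mp (hP ▸ orderOf_dvd_natCard x)
    have : i ≠ 2 := fun h => hnc (isCyclic_of_orderOf_eq_card x (by rw [hix, h, hP]))
    exact orderOf_dvd_iff_pow_eq_one.mp (hix ▸ (pow_dvd_pow p (show i ≤ 1 by omega)).trans (by simp))
  refine ⟨hexp, ?_⟩
  haveI : Nontrivial P := Finite.one_lt_card_iff_nontrivial.mp
    (hP ▸ Nat.one_lt_pow two_ne_zero (Fact.out : p.Prime).one_lt)
  obtain ⟨a, ha⟩ := exists_ne (1 : P)
  have hta : zpowers a ≠ ⊤ := fun h => hnc ⟨⟨a, (eq_top_iff' _).mp h⟩⟩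
  obtain ⟨b, hb⟩ : ∃ b, b ∉ zpowers a := by
    by_contra h
    exact hta ((eq_top_iff' _).mpr (by push_neg at h; exact h))
  refine ⟨a, b, ?_⟩
  have hlt : zpowers a < closure ({a, b} : Set P) :=
    lt_of_le_of_ne (zpowers_le.mpr (subset_closure (Set.mem_insert _ _)))
      fun h => hb (h ▸ subset_closure (Set.mem_insert_of_mem _ rfl))
  apply eq_top_of_card_eq
  obtain ⟨i, hi, hic⟩ := (Nat.dvd_prime_pow (Fact.out : p.Prime)).mp
    (hP ▸ card_subgroup_dvd_card (closure ({a, b} : Set P)))
  have h1 : Nat.card (zpowers a) = p := by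
    rw [Nat.card_zpowers]
    exact orderOf_eq_prime (hexp a) ha
  have h2 : Nat.card (zpowers a) < Nat.card (closure ({a, b} : Set P)) :=
    Set.ncard_lt_ncard hlt (Set.toFinite _)
  rw [h1, hic] at h2
  have h3 : 1 < i := by
    by_contra h
    exact absurd (Nat.pow_le_pow_right (Fact.out : p.Prime).pos (show i ≤ 1 by omega)) (by simpa using h2)
  rw [hic, hP, show i = 2 by omega]

/-- In a noncommutative finite `p`-group neither the centre nor the derived subgroup has index
below `p ^ 2`, and their quotients are not cyclic. -/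
theorem not_isCyclic_quotient_center (hna : ¬ IsMulCommutative P) :
    ¬ IsCyclic (P ⧸ center P) := fun _ => hna (isMulCommutative_of_isCyclic_quotient_center_self P)

end CfsgLib.ZerosCodegree
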