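import Cfsg.Agent.Lib.CharTheory.PermChar
import Cfsg.Agent.Lib.Brauer.CharRing
import Mathlib.GroupTheory.GroupAction.MultipleTransitivity

/-!
The three smallest non-trivial characters of four times transitive groups, from the actions on points,
two-element subsets and ordered pairs.
-/

set_option autoImplicit false
set_option linter.unusedSectionVars false
set_option linter.style.haveILetI false

open Cfsg MulAction CfsgLib.CharTheory

namespace CfsgLib.ZerosCodegree

universe u v
variable {G : Type u} [Group G] {α : Type v} [MulAction G α] [DecidableEq α]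

/-- Ordered pairs of distinct points. -/
def DPair (α : Type v) : Type v := {v : α × α // v.1 ≠ v.2}

instance [Finite α] : Finite (DPair α) := inferInstanceAs (Finite {v : α × α // v.1 ≠ v.2})

instance : MulAction G (DPair α) where
  smul g v := ⟨(g • v.1.1, g • v.1.2), fun e => v.2 (smul_left_cancel g e)⟩
  one_smul v := Subtype.ext (Prod.ext (one_smul G v.1.1) (one_smul G v.1.2))
  mul_smul g h v := Subtype.ext (Prod.ext (mul_smul g h v.1.1) (mul_smul g h v.1.2))

/-- Two-element subsets. -/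
def UPair (α : Type v) : Type v := {s : Finset α // s.card = 2}

instance [Finite α] : Finite (UPair α) := by
  haveI := Fintype.ofFinite α
  exact inferInstanceAs (Finite {s : Finset α // s.card = 2})

instance : MulAction G (UPair α) where
  smul g s := ⟨s.1.image (g • ·), by rw [Finset.card_image_of_injective _ (MulAction.injective g)]; exact s.2⟩
  one_smul s := Subtype.ext (show s.1.image ((1 : G) • ·) = s.1 by simp)
  mul_smul g h s := Subtype.ext (show s.1.image ((g * h) • ·) = (s.1.image (h • ·)).image (g • ·) by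
    rw [Finset.image_image]; exact Finset.image_congr fun x _ => mul_smul g h x)

theorem mem_smul_upair_iff (g : G) (s : UPair α) (x : α) : g • x ∈ (g • s).1 ↔ x ∈ s.1 :=
  (MulAction.injective g).mem_finset_image

theorem inter_smul_upair (g : G) (s t : UPair α) :
    ((g • s).1 ∩ (g • t).1).card = (s.1 ∩ t.1).card := by
  show ((s.1.image (g • ·)) ∩ (t.1.image (g • ·))).card = _
  rw [← Finset.image_inter _ _ (MulAction.injective g),
    Finset.card_image_of_injective _ (MulAction.injective g)]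

/-- Four times transitive, on at least four points. -/
structure FourTrans (G : Type u) [Group G] (α : Type v) [MulAction G α] : Prop where
  trans : IsMultiplyPretransitive G α 4
  card : 4 ≤ Nat.card α

variable [Finite α]

/-- Tuples with the same equalities are conjugate. -/
theorem FourTrans.exists_smul (h : FourTrans G α) {k : ℕ} (hk : k ≤ 4) (x y : Fin k → α)
    (hxy : ∀ i j, x i = x j ↔ y i = y j) : ∃ g : G, ∀ i, g • x i = y i := by
  classical
  haveI := h.trans
  let S := Finset.univ.filter fun i : Fin k => ∀ j, x j = x i → i ≤ j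
  have hrep : ∀ i, ∃ s ∈ S, x s = x i := fun i => by
    obtain ⟨s, hs, hmin⟩ := (Finset.univ.filter fun j => x j = x i).exists_min_image id
      ⟨i, by simp⟩
    refine ⟨s, Finset.mem_filter.2 ⟨Finset.mem_univ _, fun j hj => hmin j ?_⟩, (Finset.mem_filter.1 hs).2⟩
    simp [hj.trans (Finset.mem_filter.1 hs).2]
  have hinj : ∀ s ∈ S, ∀ t ∈ S, x s = x t → s = t := fun s hs t ht e =>
    le_antisymm ((Finset.mem_filter.1 hs).2 t e.symm) ((Finset.mem_filter.1 ht).2 s e)
  let e := S.equivFin.symm
  have hS : S.card ≤ 4 := (Finset.card_le_univ S).trans (by simpa using hk)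
  haveI : IsMultiplyPretransitive G α S.card := isMultiplyPretransitive_of_le (n := 4) hS h.card
  let X : Fin S.card ↪ α := ⟨fun i => x (e i).1, fun i j hij =>
    e.injective (Subtype.ext (hinj _ (e i).2 _ (e j).2 hij))⟩
  let Y : Fin S.card ↪ α := ⟨fun i => y (e i).1, fun i j hij =>
    e.injective (Subtype.ext (hinj _ (e i).2 _ (e j).2 ((hxy _ _).2 hij)))⟩
  obtain ⟨g, hg⟩ := ((isMultiplyPretransitive_iff (G := G) (α := α) (n := S.card)).1 inferInstance) X Y
  refine ⟨g, fun i => ?_⟩
  obtain ⟨s, hs, hsi⟩ := hrep i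
  have h1 := congrArg (fun f : Fin S.card ↪ α => f (e.symm ⟨s, hs⟩)) hg
  replace h1 : g • x (e (e.symm ⟨s, hs⟩)).1 = y (e (e.symm ⟨s, hs⟩)).1 := h1
  rw [Equiv.apply_symm_apply] at h1
  rw [← hsi, h1]
  exact (hxy s i).1 hsi

theorem FourTrans.points (h : FourTrans G α) : ∃ a b c d : α,
    a ≠ b ∧ a ≠ c ∧ a ≠ d ∧ b ≠ c ∧ b ≠ d ∧ c ≠ d := by
  haveI := Fintype.ofFinite α
  obtain ⟨ι⟩ := Function.Embedding.nonempty_of_card_le (α := Fin 4) (β := α)
    (by rw [Fintype.card_fin, ← Nat.card_eq_fintype_card]; exact h.card)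
  refine ⟨ι 0, ι 1, ι 2, ι 3, ?_, ?_, ?_, ?_, ?_, ?_⟩ <;>
    exact fun e => absurd (ι.injective e) (by decide)

theorem exists_pair_eq (s : UPair α) : ∃ c d, c ≠ d ∧ s.1 = {c, d} := Finset.card_eq_two.1 s.2

/-- Order a two-element set against a given ordered pair. -/
theorem exists_order (s : UPair α) {a b : α} (hab : a ≠ b) :
    ∃ c d, c ≠ d ∧ s.1 = {c, d} ∧ (a = c ↔ a ∈ s.1) ∧ (b = d ↔ b ∈ s.1) ∧ a ≠ d ∧ b ≠ c := by
  obtain ⟨c, d, hcd, hs⟩ := exists_pair_eq s
  by_cases hsw : a = d ∨ b = c
  · refine ⟨d, c, hcd.symm, by rw [hs, Finset.pair_comm], ?_, ?_, ?_, ?_⟩ <;>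
      (rcases hsw with rfl | rfl <;> simp [hs] <;> grind)
  · push Not at hsw
    refine ⟨c, d, hcd, hs, ?_, ?_, hsw.1, hsw.2⟩ <;> simp [hs] <;> grind

/-- Orbit counting by a separating invariant. -/
theorem card_orbits_eq {X : Type*} [MulAction G X] {β : Type*} [DecidableEq β] (F : X → β)
    (hinv : ∀ (g : G) (z : X), F (g • z) = F z)
    (hsep : ∀ z w, F z = F w → ∃ g : G, g • z = w) (T : Finset β) (hin : ∀ z, F z ∈ T)
    (hsurj : ∀ b ∈ T, ∃ z, F z = b) : Nat.card (orbitRel.Quotient G X) = T.card := by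
  rw [← Nat.card_eq_finsetCard T]
  refine Nat.card_congr (Equiv.ofBijective (fun q : orbitRel.Quotient G X =>
    Quotient.liftOn' q (fun z => (⟨F z, hin z⟩ : T)) ?_) ⟨?_, ?_⟩)
  · intro z w hzw
    obtain ⟨g, hg⟩ := hzw
    refine Subtype.ext ?_
    show F z = F w
    rw [← show g • w = z from hg, hinv]
  · rintro ⟨z⟩ ⟨w⟩ e
    obtain ⟨g, hg⟩ := hsep w z (congrArg Subtype.val e).symm
    exact Quotient.sound' ⟨g, hg⟩
  · rintro ⟨b, hb⟩
    obtain ⟨z, rfl⟩ := hsurj b hb
    exact ⟨Quotient.mk'' z, rfl⟩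

theorem FourTrans.orbits_point (h : FourTrans G α) : Nat.card (orbitRel.Quotient G α) = 1 := by
  obtain ⟨a, -⟩ := h.points
  refine (card_orbits_eq (fun _ : α => ()) (fun _ _ => rfl) (fun z w _ => ?_) {()}
    (fun _ => by simp) (fun _ _ => ⟨a, rfl⟩)).trans (by simp)
  obtain ⟨g, hg⟩ := h.exists_smul (k := 1) (by omega) ![z] ![w] (by intro i j; fin_cases i; fin_cases j; simp)
  exact ⟨g, hg 0⟩

theorem FourTrans.orbits_upair (h : FourTrans G α) : Nat.card (orbitRel.Quotient G (UPair α)) = 1 := by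
  obtain ⟨a, b, c, d, hab, -⟩ := h.points
  refine (card_orbits_eq (fun _ : UPair α => ()) (fun _ _ => rfl) (fun z w _ => ?_) {()}
    (fun _ => by simp) (fun _ _ => ⟨⟨{a, b}, Finset.card_pair hab⟩, rfl⟩)).trans (by simp)
  obtain ⟨c, d, hcd, hz⟩ := exists_pair_eq z
  obtain ⟨c', d', hcd', hw⟩ := exists_pair_eq w
  obtain ⟨g, hg⟩ := h.exists_smul (k := 2) (by omega) ![c, d] ![c', d'] (by
    intro i j; fin_cases i <;> fin_cases j <;> simp [hcd, hcd', hcd.symm, hcd'.symm])
  refine ⟨g, Subtype.ext ?_⟩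
  show z.1.image (g • ·) = w.1
  have h0 : g • c = c' := hg 0
  have h1 : g • d = d' := hg 1
  rw [hz, hw, Finset.image_insert, Finset.image_singleton, h0, h1]

theorem FourTrans.orbits_dpair (h : FourTrans G α) : Nat.card (orbitRel.Quotient G (DPair α)) = 1 := by
  obtain ⟨a, b, c, d, hab, -⟩ := h.points
  refine (card_orbits_eq (fun _ : DPair α => ()) (fun _ _ => rfl) (fun z w _ => ?_) {()}
    (fun _ => by simp) (fun _ _ => ⟨⟨(a, b), hab⟩, rfl⟩)).trans (by simp)
  obtain ⟨g, hg⟩ := h.exists_smul (k := 2) (by omega) ![z.1.1, z.1.2] ![w.1.1, w.1.2] (by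
    intro i j; fin_cases i <;> fin_cases j <;> simp [z.2, w.2, z.2.symm, w.2.symm])
  exact ⟨g, Subtype.ext (Prod.ext (hg 0) (hg 1))⟩

theorem FourTrans.orbits_dpair_point (h : FourTrans G α) :
    Nat.card (orbitRel.Quotient G (DPair α × α)) = 3 := by
  obtain ⟨a, b, c, d, hab, hac, -, hbc, -⟩ := h.points
  refine (card_orbits_eq (fun z : DPair α × α => (decide (z.2 = z.1.1.1), decide (z.2 = z.1.1.2)))
    (fun g z => ?_) (fun z w e => ?_) {(false, false), (true, false), (false, true)}
    (fun z => ?_) (fun q hq => ?_)).trans (by decide)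
  · exact Prod.ext (decide_eq_decide.2 (MulAction.injective g).eq_iff)
      (decide_eq_decide.2 (MulAction.injective g).eq_iff)
  · rw [Prod.ext_iff, decide_eq_decide, decide_eq_decide] at e
    obtain ⟨g, hg⟩ := h.exists_smul (k := 3) (by omega) ![z.1.1.1, z.1.1.2, z.2]
      ![w.1.1.1, w.1.1.2, w.2] (by
      intro i j
      fin_cases i <;> fin_cases j <;> simp [z.1.2, w.1.2, z.1.2.symm, w.1.2.symm] <;> grind)
    exact ⟨g, Prod.ext (Subtype.ext (Prod.ext (hg 0) (hg 1))) (hg 2)⟩
  · have h3 := z.1.2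
    by_cases h1 : z.2 = z.1.1.1 <;> by_cases h2 : z.2 = z.1.1.2 <;>
      first
        | exact absurd (h1.symm.trans h2) h3
        | simp [h1, h2, h3, h3.symm]
  · simp only [Finset.mem_insert, Finset.mem_singleton] at hq
    rcases hq with rfl | rfl | rfl
    · exact ⟨(⟨(a, b), hab⟩, c), by simp [hac.symm, hbc.symm]⟩
    · exact ⟨(⟨(a, b), hab⟩, a), by simp [hab]⟩
    · exact ⟨(⟨(a, b), hab⟩, b), by simp [hab.symm]⟩

theorem FourTrans.orbits_upair_point (h : FourTrans G α) :
    Nat.card (orbitRel.Quotient G (UPair α × α)) = 2 := by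
  obtain ⟨a, b, c, d, hab, hac, -, hbc, -⟩ := h.points
  refine (card_orbits_eq (fun z : UPair α × α => decide (z.2 ∈ z.1.1))
    (fun g z => decide_eq_decide.2 (mem_smul_upair_iff g z.1 z.2)) (fun z w e => ?_) Finset.univ
    (fun _ => Finset.mem_univ _) (fun q _ => ?_)).trans (by decide)
  · rw [decide_eq_decide] at e
    have key : ∀ z : UPair α × α, ∃ c d, c ≠ d ∧ z.1.1 = {c, d} ∧ (z.2 = c ↔ z.2 ∈ z.1.1) ∧ z.2 ≠ d := by
      intro z
      obtain ⟨c, d, hcd, hs⟩ := exists_pair_eq z.1
      by_cases hd : z.2 = d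
      · exact ⟨d, c, hcd.symm, by rw [hs, Finset.pair_comm], by simp [hs, hd],
          fun e => hcd (e.symm.trans hd)⟩
      · exact ⟨c, d, hcd, hs, by simp [hs, hd], hd⟩
    obtain ⟨c, d, hcd, hs, h1, h2⟩ := key z
    obtain ⟨c', d', hcd', hs', h1', h2'⟩ := key w
    obtain ⟨g, hg⟩ := h.exists_smul (k := 3) (by omega) ![c, d, z.2] ![c', d', w.2] (by
      intro i j
      fin_cases i <;> fin_cases j <;> simp [hcd, hcd', hcd.symm, hcd'.symm] <;> grind)
    refine ⟨g, Prod.ext (Subtype.ext ?_) (hg 2)⟩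
    show z.1.1.image (g • ·) = w.1.1
    have h0 : g • c = c' := hg 0
    have h1 : g • d = d' := hg 1
    rw [hs, hs', Finset.image_insert, Finset.image_singleton, h0, h1]
  · cases q
    · exact ⟨(⟨{a, b}, Finset.card_pair hab⟩, c), by simp [hac.symm, hbc.symm]⟩
    · exact ⟨(⟨{a, b}, Finset.card_pair hab⟩, a), by simp⟩

theorem FourTrans.orbits_dpair_dpair (h : FourTrans G α) :
    Nat.card (orbitRel.Quotient G (DPair α × DPair α)) = 7 := by
  obtain ⟨a, b, c, d, hab, hac, had, hbc, hbd, hcd⟩ := h.points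
  refine (card_orbits_eq (fun z : DPair α × DPair α => ((decide (z.1.1.1 = z.2.1.1),
      decide (z.1.1.1 = z.2.1.2)), (decide (z.1.1.2 = z.2.1.1), decide (z.1.1.2 = z.2.1.2))))
    (fun g z => ?_) (fun z w e => ?_)
    {((false, false), (false, false)), ((true, false), (false, false)), ((false, true), (false, false)),
      ((false, false), (true, false)), ((false, false), (false, true)), ((true, false), (false, true)),
      ((false, true), (true, false))}
    (fun z => ?_) (fun q hq => ?_)).trans (by decide)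
  · exact Prod.ext
      (Prod.ext (decide_eq_decide.2 (MulAction.injective g).eq_iff)
        (decide_eq_decide.2 (MulAction.injective g).eq_iff))
      (Prod.ext (decide_eq_decide.2 (MulAction.injective g).eq_iff)
        (decide_eq_decide.2 (MulAction.injective g).eq_iff))
  · simp only [Prod.ext_iff, decide_eq_decide] at e
    obtain ⟨g, hg⟩ := h.exists_smul (k := 4) le_rfl ![z.1.1.1, z.1.1.2, z.2.1.1, z.2.1.2]
      ![w.1.1.1, w.1.1.2, w.2.1.1, w.2.1.2] (by
      intro i j
      fin_cases i <;> fin_cases j <;>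
        simp [z.1.2, w.1.2, z.1.2.symm, w.1.2.symm, z.2.2, w.2.2, z.2.2.symm, w.2.2.symm] <;> grind)
    exact ⟨g, Prod.ext (Subtype.ext (Prod.ext (hg 0) (hg 1))) (Subtype.ext (Prod.ext (hg 2) (hg 3)))⟩
  · have h1 := z.1.2
    have h2 := z.2.2
    by_cases e1 : z.1.1.1 = z.2.1.1 <;> by_cases e2 : z.1.1.1 = z.2.1.2 <;>
      by_cases e3 : z.1.1.2 = z.2.1.1 <;> by_cases e4 : z.1.1.2 = z.2.1.2 <;>
      first
        | exact absurd (e1.symm.trans e2) h2
        | exact absurd (e1.trans e3.symm) h1
        | exact absurd (e2.trans e4.symm) h1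
        | exact absurd (e3.symm.trans e4) h2
        | simp [e1, e2, e3, e4, h1, h2, h1.symm, h2.symm] <;> grind
  · simp only [Finset.mem_insert, Finset.mem_singleton] at hq
    rcases hq with rfl | rfl | rfl | rfl | rfl | rfl | rfl
    · exact ⟨(⟨(a, b), hab⟩, ⟨(c, d), hcd⟩), by simp [hac, had, hbc, hbd]⟩
    · exact ⟨(⟨(a, b), hab⟩, ⟨(a, c), hac⟩), by simp [hac, hab.symm, hbc]⟩
    · exact ⟨(⟨(a, b), hab⟩, ⟨(c, a), hac.symm⟩), by simp [hac, hab.symm, hbc]⟩
    · exact ⟨(⟨(a, b), hab⟩, ⟨(b, c), hbc⟩), by simp [hac, hab, hbc]⟩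
    · exact ⟨(⟨(a, b), hab⟩, ⟨(c, b), hbc.symm⟩), by simp [hac, hab, hbc]⟩
    · exact ⟨(⟨(a, b), hab⟩, ⟨(a, b), hab⟩), by simp [hab, hab.symm]⟩
    · exact ⟨(⟨(a, b), hab⟩, ⟨(b, a), hab.symm⟩), by simp [hab, hab.symm]⟩

theorem FourTrans.orbits_dpair_upair (h : FourTrans G α) :
    Nat.card (orbitRel.Quotient G (DPair α × UPair α)) = 4 := by
  obtain ⟨a, b, c, d, hab, hac, had, hbc, hbd, hcd⟩ := h.points
  refine (card_orbits_eq (fun z : DPair α × UPair α =>
      (decide (z.1.1.1 ∈ z.2.1), decide (z.1.1.2 ∈ z.2.1)))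
    (fun g z => ?_) (fun z w e => ?_) Finset.univ (fun _ => Finset.mem_univ _)
    (fun q _ => ?_)).trans (by decide)
  · exact Prod.ext (decide_eq_decide.2 (mem_smul_upair_iff g z.2 _))
      (decide_eq_decide.2 (mem_smul_upair_iff g z.2 _))
  · simp only [Prod.ext_iff, decide_eq_decide] at e
    obtain ⟨p, q, hpq, hs, h1, h2, h3, h4⟩ := exists_order z.2 z.1.2
    obtain ⟨p', q', hpq', hs', h1', h2', h3', h4'⟩ := exists_order w.2 w.1.2
    obtain ⟨g, hg⟩ := h.exists_smul (k := 4) le_rfl ![z.1.1.1, z.1.1.2, p, q]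
      ![w.1.1.1, w.1.1.2, p', q'] (by
      intro i j
      fin_cases i <;> fin_cases j <;>
        simp [z.1.2, w.1.2, z.1.2.symm, w.1.2.symm, hpq, hpq', hpq.symm, hpq'.symm, h3, h3', h4, h4',
          h3.symm, h3'.symm, h4.symm, h4'.symm] <;> grind)
    refine ⟨g, Prod.ext (Subtype.ext (Prod.ext (hg 0) (hg 1))) (Subtype.ext ?_)⟩
    show z.2.1.image (g • ·) = w.2.1
    have e0 : g • p = p' := hg 2
    have e1 : g • q = q' := hg 3
    rw [hs, hs', Finset.image_insert, Finset.image_singleton, e0, e1]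
  · obtain ⟨_ | _, _ | _⟩ := q
    · exact ⟨(⟨(a, b), hab⟩, ⟨{c, d}, Finset.card_pair hcd⟩), by simp [hac, had, hbc, hbd]⟩
    · exact ⟨(⟨(a, b), hab⟩, ⟨{b, d}, Finset.card_pair hbd⟩), by simp [hab, had]⟩
    · exact ⟨(⟨(a, b), hab⟩, ⟨{a, d}, Finset.card_pair had⟩), by simp [hab.symm, hbd]⟩
    · exact ⟨(⟨(a, b), hab⟩, ⟨{a, b}, Finset.card_pair hab⟩), by simp⟩

theorem FourTrans.orbits_upair_upair (h : FourTrans G α) :
    Nat.card (orbitRel.Quotient G (UPair α × UPair α)) = 3 := by
  obtain ⟨a, b, c, d, hab, hac, had, hbc, hbd, hcd⟩ := h.points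
  refine (card_orbits_eq (fun z : UPair α × UPair α => (z.1.1 ∩ z.2.1).card)
    (fun g z => inter_smul_upair g z.1 z.2) (fun z w e => ?_) {0, 1, 2} (fun z => ?_)
    (fun q hq => ?_)).trans (by decide)
  · have key : ∀ z : UPair α × UPair α, ∃ a b c d, a ≠ b ∧ c ≠ d ∧ a ≠ d ∧ b ≠ c ∧
        z.1.1 = {a, b} ∧ z.2.1 = {c, d} ∧
        (a = c ↔ 1 ≤ (z.1.1 ∩ z.2.1).card) ∧ (b = d ↔ 2 ≤ (z.1.1 ∩ z.2.1).card) := by
      intro z
      obtain ⟨a, b, hab, hab', hs⟩ : ∃ a b, a ≠ b ∧ (b ∈ z.2.1 → a ∈ z.2.1) ∧ z.1.1 = {a, b} := by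
        obtain ⟨a, b, hab, hs⟩ := exists_pair_eq z.1
        by_cases hb : b ∈ z.2.1
        · by_cases ha : a ∈ z.2.1
          · exact ⟨a, b, hab, fun _ => ha, hs⟩
          · exact ⟨b, a, hab.symm, fun hc => absurd hc ha, by rw [hs, Finset.pair_comm]⟩
        · exact ⟨a, b, hab, fun hc => absurd hc hb, hs⟩
      obtain ⟨c, d, hcd, ht, h1, h2, h3, h4⟩ := exists_order z.2 hab
      refine ⟨a, b, c, d, hab, hcd, h3, h4, hs, ht, ?_⟩
      have hc : (z.1.1 ∩ z.2.1).card =
          (if a ∈ z.2.1 then 1 else 0) + (if b ∈ z.2.1 then 1 else 0) := by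
        rw [hs, ← Finset.filter_mem_eq_inter, Finset.card_filter, Finset.sum_pair hab]
      rw [h1, h2, hc]
      by_cases ha : a ∈ z.2.1 <;> by_cases hb : b ∈ z.2.1 <;> simp [ha, hb]
      exact absurd (hab' hb) ha
    obtain ⟨p, q, r, s, n1, n2, n3, n4, hs, ht, k1, k2⟩ := key z
    obtain ⟨p', q', r', s', n1', n2', n3', n4', hs', ht', k1', k2'⟩ := key w
    rw [e] at k1 k2
    obtain ⟨g, hg⟩ := h.exists_smul (k := 4) le_rfl ![p, q, r, s] ![p', q', r', s'] (by
      intro i j
      fin_cases i <;> fin_cases j <;>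
        simp [n1, n2, n3, n4, n1', n2', n3', n4', n1.symm, n2.symm, n3.symm, n4.symm, n1'.symm,
          n2'.symm, n3'.symm, n4'.symm] <;> grind)
    have e0 : g • p = p' := hg 0
    have e1 : g • q = q' := hg 1
    have e2 : g • r = r' := hg 2
    have e3 : g • s = s' := hg 3
    refine ⟨g, Prod.ext (Subtype.ext ?_) (Subtype.ext ?_)⟩
    · show z.1.1.image (g • ·) = w.1.1
      rw [hs, hs', Finset.image_insert, Finset.image_singleton, e0, e1]
    · show z.2.1.image (g • ·) = w.2.1
      rw [ht, ht', Finset.image_insert, Finset.image_singleton, e2, e3]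
  · have h1 := Finset.card_le_card (Finset.inter_subset_left (s₁ := z.1.1) (s₂ := z.2.1))
    rw [z.1.2] at h1
    simp only [Finset.mem_insert, Finset.mem_singleton]
    omega
  · simp only [Finset.mem_insert, Finset.mem_singleton] at hq
    rcases hq with rfl | rfl | rfl
    · exact ⟨(⟨{a, b}, Finset.card_pair hab⟩, ⟨{c, d}, Finset.card_pair hcd⟩),
        by simp [hac, had, hbc, hbd, Finset.ext_iff, hac.symm, had.symm, hbc.symm, hbd.symm]⟩
    · refine ⟨(⟨{a, b}, Finset.card_pair hab⟩, ⟨{a, c}, Finset.card_pair hac⟩), ?_⟩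
      show (({a, b} : Finset α) ∩ {a, c}).card = 1
      rw [show ({a, b} : Finset α) ∩ {a, c} = {a} by
        ext x; simp only [Finset.mem_inter, Finset.mem_insert, Finset.mem_singleton]; grind]
      simp
    · exact ⟨(⟨{a, b}, Finset.card_pair hab⟩, ⟨{a, b}, Finset.card_pair hab⟩), by
        simp [Finset.card_pair hab]⟩

section Chars

/-- The fixed point count. -/
noncomputable def fixCount (X : Type*) [MulAction G X] (g : G) : ℂ := (Nat.card (fixedBy X g) : ℂ)

variable (α) in
/-- The character from points and two-element subsets. -/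
noncomputable def subsetChar (g : G) : ℂ := fixCount (UPair α) g - fixCount α g

variable (α) in
/-- The character from points, subsets and ordered pairs. -/
noncomputable def wedgeChar (g : G) : ℂ :=
  fixCount (DPair α) g - fixCount (UPair α) g - fixCount α g + 1

variable [Fintype G]

theorem classInner_fixCount (X Y : Type*) [MulAction G X] [MulAction G Y] [Finite X] [Finite Y] :
    classInner (fixCount (G := G) X) (fixCount Y) = (Nat.card (orbitRel.Quotient G (X × Y)) : ℂ) := by
  rw [← classInner_card_fixedBy_one (X × Y)]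
  simp only [classInner, fixCount, map_natCast, map_one, mul_one]
  congr 1
  refine Finset.sum_congr rfl fun g _ => ?_
  rw [← Nat.cast_mul, ← Nat.card_prod]
  congr 1
  exact Nat.card_congr
    { toFun := fun p => ⟨(p.1.1, p.2.1), Prod.ext p.1.2 p.2.2⟩
      invFun := fun p => (⟨p.1.1, congrArg Prod.fst p.2⟩, ⟨p.1.2, congrArg Prod.snd p.2⟩)
      left_inv := fun _ => rfl
      right_inv := fun _ => rfl }

theorem classInner_fixCount_symm (X Y : Type*) [MulAction G X] [MulAction G Y] [Finite X] [Finite Y] :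
    classInner (fixCount (G := G) Y) (fixCount X) = (Nat.card (orbitRel.Quotient G (X × Y)) : ℂ) := by
  rw [classInner_conj_symm, classInner_fixCount, map_natCast]

theorem classInner_fixCount_one (X : Type*) [MulAction G X] [Finite X] :
    classInner (fixCount (G := G) X) (fun _ => 1) = (Nat.card (orbitRel.Quotient G X) : ℂ) :=
  classInner_card_fixedBy_one X

theorem classInner_one_fixCount (X : Type*) [MulAction G X] [Finite X] :
    classInner (fun _ : G => (1 : ℂ)) (fixCount X) = (Nat.card (orbitRel.Quotient G X) : ℂ) := by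
  rw [classInner_conj_symm, classInner_fixCount_one, map_natCast]

theorem FourTrans.isIrrCharacter_standard (h : FourTrans G α) :
    IsIrrCharacter G (fun g => fixCount α g - 1) := by
  haveI := h.trans
  haveI : IsMultiplyPretransitive G α 2 := isMultiplyPretransitive_of_le (by omega) h.card
  haveI : IsPretransitive G α := ⟨fun x y => by
    obtain ⟨g, hg⟩ := h.exists_smul (k := 1) (by omega) ![x] ![y]
      (by intro i j; fin_cases i; fin_cases j; simp)
    exact ⟨g, hg 0⟩⟩
  exact (isIrrCharacter_card_fixedBy_sub_one_iff α (le_trans (by omega) h.card)).2 inferInstance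

theorem fixCount_one (X : Type*) [MulAction G X] : fixCount X (1 : G) = (Nat.card X : ℂ) := by
  rw [fixCount, show fixedBy X (1 : G) = Set.univ from Set.ext fun x => by simp, Nat.card_univ]

theorem two_mul_card_upair (α : Type v) [DecidableEq α] [Finite α] :
    2 * Nat.card (UPair α) + Nat.card α = Nat.card α * Nat.card α := by
  haveI := Fintype.ofFinite α
  have h1 : Nat.card (UPair α) = (Finset.univ.powersetCard 2 : Finset (Finset α)).card := by
    rw [← Nat.card_eq_finsetCard]
    exact Nat.card_congr (Equiv.subtypeEquivRight fun s => by simp)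
  rw [h1, Finset.card_powersetCard, Finset.card_univ, ← Nat.card_eq_fintype_card, Nat.choose_two_right]
  set n := Nat.card α
  rcases Nat.eq_zero_or_pos n with hn | hn
  · simp [hn]
  have h2 : 2 ∣ n * (n - 1) := (Nat.even_mul_pred_self n).two_dvd
  rw [Nat.mul_div_cancel' h2]
  obtain ⟨m, hm⟩ := Nat.exists_eq_succ_of_ne_zero hn.ne'
  rw [hm, Nat.succ_sub_one, Nat.succ_eq_add_one]; ring

theorem card_dpair (α : Type v) [DecidableEq α] [Finite α] :
    Nat.card (DPair α) + Nat.card α = Nat.card α * Nat.card α := by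
  haveI := Fintype.ofFinite α
  have h1 : Nat.card (DPair α) = (Finset.univ.offDiag : Finset (α × α)).card := by
    rw [← Nat.card_eq_finsetCard]
    exact Nat.card_congr (Equiv.subtypeEquivRight fun s => by simp)
  rw [h1, Finset.offDiag_card, Finset.card_univ, Nat.card_eq_fintype_card,
    Nat.sub_add_cancel (Nat.le_mul_self _)]

theorem FourTrans.isIrrCharacter_subsetChar (h : FourTrans G α) :
    IsIrrCharacter G (subsetChar (G := G) α) := by
  refine isIrrCharacter_of_norm_one (θ := fixCount (G := G) (UPair α) - fixCount α)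
    ⟨_, _, isCharacter_card_fixedBy (UPair α), isCharacter_card_fixedBy α, rfl⟩ ?_ ?_
  · rw [classInner_sub_left, classInner_sub_right, classInner_sub_right, classInner_fixCount,
      classInner_fixCount, classInner_fixCount_symm (UPair α) α, classInner_fixCount,
      h.orbits_upair_upair, h.orbits_upair_point]
    have h2 : Nat.card (orbitRel.Quotient G (α × α)) = 2 := by
      haveI := h.trans
      haveI : IsMultiplyPretransitive G α 2 := isMultiplyPretransitive_of_le (by omega) h.card
      haveI : IsPretransitive G α := ⟨fun x y => by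
        obtain ⟨g, hg⟩ := h.exists_smul (k := 1) (by omega) ![x] ![y]
          (by intro i j; fin_cases i; fin_cases j; simp)
        exact ⟨g, hg 0⟩⟩
      exact (card_orbits_prod_eq_two_iff α (le_trans (by omega) h.card)).2 inferInstance
    rw [h2]; norm_num
  · simp only [Pi.sub_apply, fixCount_one, Complex.sub_re, Complex.natCast_re]
    have h1 := two_mul_card_upair α
    have h4 := h.card
    have h5 : 4 * Nat.card α ≤ Nat.card α * Nat.card α := Nat.mul_le_mul_right _ h4
    have : (Nat.card α : ℝ) < Nat.card (UPair α) := by exact_mod_cast (show Nat.card α < Nat.card (UPair α) by omega)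
    linarith

theorem FourTrans.isIrrCharacter_wedgeChar (h : FourTrans G α) :
    IsIrrCharacter G (wedgeChar (G := G) α) := by
  have h2 : Nat.card (orbitRel.Quotient G (α × α)) = 2 := by
    haveI := h.trans
    haveI : IsMultiplyPretransitive G α 2 := isMultiplyPretransitive_of_le (by omega) h.card
    haveI : IsPretransitive G α := ⟨fun x y => by
      obtain ⟨g, hg⟩ := h.exists_smul (k := 1) (by omega) ![x] ![y]
        (by intro i j; fin_cases i; fin_cases j; simp)
      exact ⟨g, hg 0⟩⟩
    exact (card_orbits_prod_eq_two_iff α (le_trans (by omega) h.card)).2 inferInstance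
  set o : G → ℂ := fun _ => 1
  have hrw : wedgeChar (G := G) α =
      fixCount (DPair α) - fixCount (UPair α) - (fixCount α - o) := funext fun g => by
    simp only [wedgeChar, Pi.sub_apply, o]; ring
  rw [hrw]
  refine isIrrCharacter_of_norm_one ?_ ?_ ?_
  · exact CfsgLib.Brauer.isGeneralizedCharacter_sub
      ⟨_, _, isCharacter_card_fixedBy (DPair α), isCharacter_card_fixedBy (UPair α), rfl⟩
      ⟨_, _, isCharacter_card_fixedBy α, IsIrrCharacter.isCharacter isIrrCharacter_one, rfl⟩
  · simp only [classInner_sub_left, classInner_sub_right]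
    simp only [classInner_fixCount_one, classInner_one_fixCount, o,
      classInner_self_of_isIrr isIrrCharacter_one,
      classInner_fixCount_symm (DPair α) (UPair α), classInner_fixCount_symm (DPair α) α,
      classInner_fixCount_symm (UPair α) α, classInner_fixCount]
    rw [h.orbits_dpair_dpair, h.orbits_dpair_upair, h.orbits_upair_upair, h.orbits_dpair_point,
      h.orbits_upair_point, h.orbits_dpair, h.orbits_upair, h.orbits_point, h2]
    norm_num
  · simp only [Pi.sub_apply, fixCount_one, o, Complex.sub_re, Complex.natCast_re, Complex.one_re]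
    have h1 := two_mul_card_upair α
    have h3 := card_dpair α
    have h5 : 4 * Nat.card α ≤ Nat.card α * Nat.card α := Nat.mul_le_mul_right _ h.card
    have : (Nat.card (UPair α) : ℝ) + Nat.card α ≤ Nat.card (DPair α) := by
      exact_mod_cast (show Nat.card (UPair α) + Nat.card α ≤ Nat.card (DPair α) by omega)
    linarith

end Chars

end CfsgLib.ZerosCodegree
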