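import Cfsg.Agent.Lib.ZerosCodegree.SmallPermChars
import Mathlib.GroupTheory.Perm.Cycle.PossibleTypes
import Mathlib.GroupTheory.SpecificGroups.Alternating

/-!
Zeros of the three smallest characters of the symmetric and alternating groups at permutations
without two-cycles and with few fixed points.
-/

set_option autoImplicit false
set_option linter.unusedSectionVars false
set_option linter.style.haveILetI false

open Cfsg MulAction Equiv Equiv.Perm

namespace CfsgLib.ZerosCodegree

variable {n : ℕ}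

theorem fourTrans_perm (hn : 4 ≤ n) : FourTrans (Perm (Fin n)) (Fin n) :=
  ⟨Equiv.Perm.isMultiplyPretransitive _ 4, by simpa using hn⟩

theorem fourTrans_alternating (hn : 6 ≤ n) : FourTrans (alternatingGroup (Fin n)) (Fin n) := by
  haveI := alternatingGroup.isMultiplyPretransitive (Fin n)
  exact ⟨isMultiplyPretransitive_of_le (n := Nat.card (Fin n) - 2) (by simp; omega)
    (Nat.sub_le _ _), by simp; omega⟩

theorem card_fixedBy_eq (g : Perm (Fin n)) :
    Nat.card (fixedBy (Fin n) g) = n - g.cycleType.sum := by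
  rw [sum_cycleType, show fixedBy (Fin n) g = ((g.supportᶜ : Finset (Fin n)) : Set (Fin n)) from
    Set.ext fun x => by simp, Nat.card_coe_set_eq, Set.ncard_coe_finset, Finset.card_compl,
    Fintype.card_fin]

/-- A permutation without two-cycles fixes each point it returns to after two steps. -/
theorem apply_eq_of_two_not_mem {g : Perm (Fin n)} (h2 : 2 ∉ g.cycleType) {x : Fin n}
    (hx : g (g x) = x) : g x = x := by
  by_contra hne
  apply h2
  have hc := g.isCycle_cycleOf hne
  have hmem : g.cycleOf x ∈ g.cycleFactorsFinset :=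
    cycleOf_mem_cycleFactorsFinset_iff.2 (mem_support.2 hne)
  have hp : g.cycleOf x ^ 2 = 1 := hc.pow_eq_one_iff.2 ⟨x, by rwa [cycleOf_apply_self],
    by rw [cycleOf_pow_apply_self, pow_two]; exact hx⟩
  have ho : orderOf (g.cycleOf x) = 2 :=
    orderOf_eq_prime hp fun e => hne (by rw [← cycleOf_apply_self g x, e]; rfl)
  rw [cycleType_def, Multiset.mem_map]
  exact ⟨_, hmem, by rw [Function.comp_apply, ← hc.orderOf, ho]⟩

/-- Fixed two-element sets consist of fixed points. -/
theorem card_fixedBy_upair {g : Perm (Fin n)} (h2 : 2 ∉ g.cycleType) :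
    Nat.card (fixedBy (UPair (Fin n)) g) = (n - g.cycleType.sum).choose 2 := by
  classical
  let F : Finset (Fin n) := Finset.univ.filter fun x => g x = x
  have hF : F.card = n - g.cycleType.sum := by
    rw [← card_fixedBy_eq, ← Nat.card_eq_finsetCard]
    exact Nat.card_congr (Equiv.subtypeEquivRight fun x => by simp [F])
  rw [← hF, ← Finset.card_powersetCard 2 F, ← Nat.card_eq_finsetCard]
  refine Nat.card_congr
    { toFun := fun s => ⟨s.1.1, Finset.mem_powersetCard.2 ⟨fun x hx => ?_, s.1.2⟩⟩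
      invFun := fun s => ⟨⟨s.1, (Finset.mem_powersetCard.1 s.2).2⟩, Subtype.ext ?_⟩
      left_inv := fun _ => rfl
      right_inv := fun _ => rfl }
  · obtain ⟨c, d, hcd, hs⟩ := exists_pair_eq s.1
    have hfix : s.1.1.image (g • ·) = s.1.1 := congrArg Subtype.val s.2
    rw [hs, Finset.image_insert, Finset.image_singleton] at hfix
    rw [hs, Finset.mem_insert, Finset.mem_singleton] at hx
    have hc : g c = c ∨ g c = d := by
      have := hfix.le (Finset.mem_insert_self (g • c) _)
      simpa using this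
    have hd : g d = c ∨ g d = d := by
      have := hfix.le (Finset.mem_insert_of_mem (Finset.mem_singleton_self (g • d)))
      simpa using this
    have key : g c = c ∧ g d = d := by
      rcases hc with hc | hc <;> rcases hd with hd | hd
      · exact absurd (g.injective (hc.trans hd.symm)) hcd
      · exact ⟨hc, hd⟩
      · have := apply_eq_of_two_not_mem h2 (x := c) (by rw [hc, hd])
        exact absurd (this.symm.trans hc) hcd
      · exact absurd (g.injective (hc.trans hd.symm)) hcd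
    rcases hx with rfl | rfl
    · simpa [F] using key.1
    · simpa [F] using key.2
  · show s.1.image (g • ·) = s.1
    conv_rhs => rw [← Finset.image_id (s := s.1)]
    refine Finset.image_congr fun x hx => ?_
    simpa [F] using (Finset.mem_powersetCard.1 s.2).1 hx

theorem card_fixedBy_dpair (g : Perm (Fin n)) :
    Nat.card (fixedBy (DPair (Fin n)) g) =
      (n - g.cycleType.sum) * (n - g.cycleType.sum) - (n - g.cycleType.sum) := by
  classical
  let F : Finset (Fin n) := Finset.univ.filter fun x => g x = x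
  have hF : F.card = n - g.cycleType.sum := by
    rw [← card_fixedBy_eq, ← Nat.card_eq_finsetCard]
    exact Nat.card_congr (Equiv.subtypeEquivRight fun x => by simp [F])
  rw [← hF, ← Finset.offDiag_card, ← Nat.card_eq_finsetCard]
  refine Nat.card_congr
    { toFun := fun s => ⟨s.1.1, Finset.mem_offDiag.2 ⟨?_, ?_, s.1.2⟩⟩
      invFun := fun s => ⟨⟨s.1, (Finset.mem_offDiag.1 s.2).2.2⟩, Subtype.ext (Prod.ext ?_ ?_)⟩
      left_inv := fun _ => rfl
      right_inv := fun _ => rfl }
  · exact Finset.mem_filter.2 ⟨Finset.mem_univ _, congrArg (fun t : DPair (Fin n) => t.1.1) s.2⟩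
  · exact Finset.mem_filter.2 ⟨Finset.mem_univ _, congrArg (fun t : DPair (Fin n) => t.1.2) s.2⟩
  · exact (Finset.mem_filter.1 (Finset.mem_offDiag.1 s.2).1).2
  · exact (Finset.mem_filter.1 (Finset.mem_offDiag.1 s.2).2.1).2

/-- One of the three small characters vanishes. -/
theorem exists_extending_zero (hn : 6 ≤ n) {g : Perm (Fin n)} (hg : g ∈ alternatingGroup (Fin n))
    (h : n - g.cycleType.sum = 1 ∨
      2 ∉ g.cycleType ∧ (n - g.cycleType.sum = 0 ∨ n - g.cycleType.sum = 2)) :
    ∃ χ : IrrCharacter (alternatingGroup (Fin n)),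
      (χ : alternatingGroup (Fin n) → ℂ) ⟨g, hg⟩ = 0 ∧
      ∃ ψ : IrrCharacter (Perm (Fin n)), ∀ x : alternatingGroup (Fin n),
        (ψ : Perm (Fin n) → ℂ) x = (χ : alternatingGroup (Fin n) → ℂ) x := by
  have hA := fourTrans_alternating hn
  have hS := fourTrans_perm (n := n) (by omega)
  rcases h with h | ⟨h2, h | h⟩
  · refine ⟨⟨_, hA.isIrrCharacter_standard⟩, ?_, ⟨_, hS.isIrrCharacter_standard⟩, fun x => rfl⟩
    show (Nat.card (fixedBy (Fin n) g) : ℂ) - 1 = 0
    rw [card_fixedBy_eq, h]; norm_num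
  · refine ⟨⟨_, hA.isIrrCharacter_subsetChar⟩, ?_, ⟨_, hS.isIrrCharacter_subsetChar⟩, fun x => rfl⟩
    show (Nat.card (fixedBy (UPair (Fin n)) g) : ℂ) - Nat.card (fixedBy (Fin n) g) = 0
    rw [card_fixedBy_eq, card_fixedBy_upair h2, h]; norm_num
  · refine ⟨⟨_, hA.isIrrCharacter_wedgeChar⟩, ?_, ⟨_, hS.isIrrCharacter_wedgeChar⟩, fun x => rfl⟩
    show (Nat.card (fixedBy (DPair (Fin n)) g) : ℂ) - Nat.card (fixedBy (UPair (Fin n)) g) -
      Nat.card (fixedBy (Fin n) g) + 1 = 0
    rw [card_fixedBy_eq, card_fixedBy_upair h2, card_fixedBy_dpair, h]; norm_num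

/-- An even permutation with given cycle type. -/
theorem exists_even_cycleType {m : Multiset ℕ} (hsum : m.sum ≤ n) (h2 : ∀ a ∈ m, 2 ≤ a)
    (hev : Even (m.sum + Multiset.card m)) :
    ∃ g : Perm (Fin n), g ∈ alternatingGroup (Fin n) ∧ g.cycleType = m := by
  obtain ⟨g, hg⟩ := (Equiv.Perm.exists_with_cycleType_iff (α := Fin n)).2
    ⟨by simpa using hsum, h2⟩
  exact ⟨g, by rw [Equiv.Perm.mem_alternatingGroup, sign_of_cycleType, hg, hev.neg_one_pow], hg⟩

/-- Cycle types of even two-elements. -/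
theorem exists_two_cycleType (hn : 7 ≤ n) : ∃ m : Multiset ℕ, m.sum ≤ n ∧ (∀ a ∈ m, 2 ≤ a) ∧
    (∀ a ∈ m, a ∣ 8) ∧ Even (m.sum + Multiset.card m) ∧
    (n - m.sum = 1 ∨ 2 ∉ m ∧ (n - m.sum = 0 ∨ n - m.sum = 2)) := by
  rcases Nat.even_or_odd n with he | ⟨k, hk⟩
  · obtain ⟨k, r, hr, hk⟩ : ∃ k r, (r = 0 ∨ r = 2) ∧ n = 4 * k + r := by
      obtain ⟨t, ht⟩ := he
      exact ⟨t / 2, 2 * (t % 2), by omega, by omega⟩
    rcases Nat.even_or_odd k with hk2 | ⟨j, hj⟩
    · refine ⟨Multiset.replicate k 4, ?_, ?_, ?_, ?_, Or.inr ⟨?_, ?_⟩⟩ <;>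
        simp [Multiset.mem_replicate, hk2, parity_simps] <;> omega
    · refine ⟨8 ::ₘ Multiset.replicate (k - 2) 4, ?_, ?_, ?_, ?_, Or.inr ⟨?_, ?_⟩⟩ <;>
        simp [Multiset.mem_replicate, Nat.even_iff] <;> omega
  · rcases Nat.even_or_odd k with hk2 | ⟨j, hj⟩
    · refine ⟨Multiset.replicate k 2, ?_, ?_, ?_, ?_, Or.inl ?_⟩ <;>
        simp [Multiset.mem_replicate, hk2, parity_simps] <;> omega
    · refine ⟨4 ::ₘ Multiset.replicate (k - 2) 2, ?_, ?_, ?_, ?_, Or.inl ?_⟩ <;>
        simp [Multiset.mem_replicate, Nat.even_iff] <;> omega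

theorem exists_twoElement_zero (hn : 7 ≤ n) :
    ∃ χ : IrrCharacter (alternatingGroup (Fin n)),
      (∃ x : alternatingGroup (Fin n), (∃ j : ℕ, orderOf x = 2 ^ j) ∧
        (χ : alternatingGroup (Fin n) → ℂ) x = 0) ∧
      ∃ ψ : IrrCharacter (Perm (Fin n)), ∀ x : alternatingGroup (Fin n),
        (ψ : Perm (Fin n) → ℂ) x = (χ : alternatingGroup (Fin n) → ℂ) x := by
  obtain ⟨m, h1, h2, h8, hev, h⟩ := exists_two_cycleType hn
  obtain ⟨g, hg, rfl⟩ := exists_even_cycleType h1 h2 hev
  obtain ⟨χ, h0, hψ⟩ := exists_extending_zero (by omega) hg h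
  refine ⟨χ, ⟨⟨g, hg⟩, ?_, h0⟩, hψ⟩
  have hd : orderOf (⟨g, hg⟩ : alternatingGroup (Fin n)) ∣ 2 ^ 3 := by
    rw [← Subgroup.orderOf_coe]
    show orderOf g ∣ 2 ^ 3
    rw [← lcm_cycleType]
    exact Multiset.lcm_dvd.2 h8
  obtain ⟨j, -, hj⟩ := (Nat.dvd_prime_pow Nat.prime_two).1 hd
  exact ⟨j, hj⟩

theorem exists_orderThree_zero (hn : 7 ≤ n) :
    ∃ χ : IrrCharacter (alternatingGroup (Fin n)),
      (∃ y : alternatingGroup (Fin n), orderOf y = 3 ∧
        (χ : alternatingGroup (Fin n) → ℂ) y = 0) ∧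
      ∃ ψ : IrrCharacter (Perm (Fin n)), ∀ x : alternatingGroup (Fin n),
        (ψ : Perm (Fin n) → ℂ) x = (χ : alternatingGroup (Fin n) → ℂ) x := by
  obtain ⟨g, hg, hm⟩ := exists_even_cycleType (n := n) (m := Multiset.replicate (n / 3) 3)
    (by simp; omega) (by simp [Multiset.mem_replicate])
    (by simp [Nat.even_iff]; omega)
  obtain ⟨χ, h0, hψ⟩ := exists_extending_zero (by omega) hg (by
    rw [hm]; simp [Multiset.mem_replicate]; omega)
  refine ⟨χ, ⟨⟨g, hg⟩, ?_, h0⟩, hψ⟩
  rw [← Subgroup.orderOf_coe]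
  show orderOf g = 3
  refine orderOf_eq_prime ?_ ?_
  · rw [← orderOf_dvd_iff_pow_eq_one, ← lcm_cycleType, hm]
    exact Multiset.lcm_dvd.2 fun a ha => by rw [Multiset.eq_of_mem_replicate ha]
  · intro e
    rw [e, cycleType_one] at hm
    have := congrArg Multiset.card hm
    simp at this; omega

end CfsgLib.ZerosCodegree
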