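import Cfsg.Agent.Lib.PSolvable.Basic
import Mathlib.GroupTheory.Sylow

/-!
Class sizes prime to `p` on `q`-elements give a Sylow `p`-subgroup normalising a Sylow `q`-subgroup.
-/

set_option autoImplicit false
set_option linter.unusedSectionVars false
set_option linter.style.haveILetI false

open Cfsg MulAction CfsgLib.Cores
open scoped Pointwise

namespace CfsgLib.ZerosCodegree

universe u
variable {G : Type u} [Group G] [Finite G]

theorem relIndex_dvd_index_of_normal_right (C N : Subgroup G) [N.Normal] :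
    C.relIndex N ∣ C.index := by
  have h1 := Subgroup.relIndex_mul_relIndex (C ⊓ N) C (C ⊔ N) inf_le_left le_sup_left
  have h2 := Subgroup.relIndex_mul_relIndex (C ⊓ N) N (C ⊔ N) inf_le_right le_sup_right
  rw [Subgroup.relIndex_sup_right, Subgroup.inf_relIndex_right, ← Subgroup.inf_relIndex_left C N] at h2
  have h3 : C.relIndex N = C.relIndex (C ⊔ N) := by
    refine Nat.eq_of_mul_eq_mul_left (Nat.pos_of_ne_zero (Subgroup.index_ne_zero_of_finite
      (H := (C ⊓ N).subgroupOf C))) ?_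
    show (C ⊓ N).relIndex C * _ = (C ⊓ N).relIndex C * _
    rw [h1, ← h2, mul_comm]
  rw [h3]
  exact Subgroup.relIndex_dvd_index_of_le le_sup_left

/-- A `q`-group acting on a set of size prime to `q` fixes a point. -/
theorem exists_fixed {A : Type*} [Group A] {q : ℕ} [Fact q.Prime] (hA : IsPGroup q A) (α : Type*)
    [MulAction A α] [Finite α] (h : ¬ q ∣ Nat.card α) : ∃ a : α, ∀ x : A, x • a = a := by
  obtain ⟨a, ha⟩ := hA.nonempty_fixed_point_of_prime_not_dvd_card α h
  exact ⟨a, ha⟩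

/-- An element normalising one Sylow subgroup of a normal subgroup of order prime to `q` centralises it
when it centralises another one and has `q`-power order. -/
theorem centralizes_of_normalizes {q : ℕ} [Fact q.Prime] (N : Subgroup G) [N.Normal]
    (hN : ¬ q ∣ Nat.card N) {y : G} (hy : IsPGroup q (Subgroup.zpowers y)) {P₀ P₁ : Subgroup G}
    {g : G} (hg : g ∈ N) (hconj : ∀ x, x ∈ P₁ ↔ g * x * g⁻¹ ∈ P₀)
    (h0 : y ∈ Subgroup.normalizer (P₀ : Set G)) (h1 : y ∈ Subgroup.centralizer (P₁ : Set G)) :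
    y ∈ Subgroup.centralizer (P₀ : Set G) := by
  classical
  -- the elements of `N` carrying `P₁` to `P₀`
  let α := {n : G // n ∈ N ∧ ∀ x, x ∈ P₁ ↔ n * x * n⁻¹ ∈ P₀}
  have hcard : Nat.card α = Nat.card (Subgroup.normalizer (P₁ : Set G) ⊓ N : Subgroup G) := by
    refine Nat.card_congr
      { toFun := fun n => ⟨g⁻¹ * n.1, ?_, N.mul_mem (N.inv_mem hg) n.2.1⟩
        invFun := fun m => ⟨g * m.1, N.mul_mem hg m.2.2, fun x => ?_⟩
        left_inv := fun n => Subtype.ext (mul_inv_cancel_left g n.1)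
        right_inv := fun m => Subtype.ext (inv_mul_cancel_left g m.1) }
    · refine Subgroup.mem_normalizer_iff.2 fun x => ?_
      rw [n.2.2 x, hconj]
      group
    · rw [(Subgroup.mem_normalizer_iff.1 m.2.1) x, hconj]
      group
  letI : MulAction (Subgroup.zpowers y) α :=
    { smul := fun z n => ⟨(z : G) * n.1 * (z : G)⁻¹,
        (inferInstance : N.Normal).conj_mem _ n.2.1 _, fun x => by
          have hz0 : (z : G) ∈ Subgroup.normalizer (P₀ : Set G) :=
            (Subgroup.zpowers_le.2 h0) z.2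
          have hz1 : (z : G) ∈ Subgroup.centralizer (P₁ : Set G) :=
            (Subgroup.zpowers_le.2 h1) z.2
          constructor
          · intro hx
            have hc : (z : G)⁻¹ * x * (z : G) = x := by
              rw [mul_assoc, Subgroup.mem_centralizer_iff.1 hz1 x hx, inv_mul_cancel_left]
            have h2 := (Subgroup.mem_normalizer_iff.1 hz0 _).1 ((n.2.2 x).1 hx)
            rw [show (z : G) * n.1 * (z : G)⁻¹ * x * ((z : G) * n.1 * (z : G)⁻¹)⁻¹ =
              (z : G) * (n.1 * ((z : G)⁻¹ * x * (z : G)) * n.1⁻¹) * (z : G)⁻¹ by group, hc]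
            exact h2
          · intro hx
            have h2 : n.1 * ((z : G)⁻¹ * x * (z : G)) * n.1⁻¹ ∈ P₀ := by
              rw [Subgroup.mem_normalizer_iff.1 hz0]
              convert hx using 1
              group
            have h3 := (n.2.2 _).2 h2
            have hc := Subgroup.mem_centralizer_iff.1 hz1 _ h3
            have : x = (z : G)⁻¹ * x * (z : G) := by
              calc x = (z : G) * ((z : G)⁻¹ * x * (z : G)) * (z : G)⁻¹ := by group
                _ = (z : G)⁻¹ * x * (z : G) := by rw [← hc, mul_inv_cancel_right]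
            rw [this]; exact h3⟩
      one_smul := fun n => Subtype.ext (show (1 : G) * n.1 * (1 : G)⁻¹ = n.1 by simp)
      mul_smul := fun a b n => Subtype.ext (show ((a * b : Subgroup.zpowers y) : G) * n.1 *
        ((a * b : Subgroup.zpowers y) : G)⁻¹ =
        (a : G) * ((b : G) * n.1 * (b : G)⁻¹) * (a : G)⁻¹ by rw [Subgroup.coe_mul]; group) }
  obtain ⟨n, hn⟩ := exists_fixed hy α (fun hd => hN ((hcard ▸ hd).trans
    (Subgroup.card_dvd_of_le inf_le_right)))
  have hfix : y * n.1 * y⁻¹ = n.1 :=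
    congrArg Subtype.val (hn ⟨y, Subgroup.mem_zpowers y⟩)
  have hyn : Commute y n.1 := mul_inv_eq_iff_eq_mul.1 hfix
  refine Subgroup.mem_centralizer_iff.2 fun x hx => ?_
  have hx' : n.1⁻¹ * x * n.1 ∈ P₁ := by
    rw [n.2.2, show n.1 * (n.1⁻¹ * x * n.1) * n.1⁻¹ = x by group]; exact hx
  have hc : Commute y (n.1⁻¹ * x * n.1) := (Subgroup.mem_centralizer_iff.1 h1 _ hx').symm
  have : Commute y x := by
    have := (hyn.mul_right hc).mul_right hyn.inv_right
    rwa [show n.1 * (n.1⁻¹ * x * n.1) * n.1⁻¹ = x by group] at this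
  exact this.symm

/-- A `q`-group centralises a Sylow `p`-subgroup of a normal subgroup of order prime to `q` when each
of its elements does so up to conjugacy. -/
theorem exists_sylow_centralized {p q : ℕ} [Fact p.Prime] [Fact q.Prime] (N : Subgroup G) [N.Normal]
    (hN : ¬ q ∣ Nat.card N) (Q : Subgroup G) (hQ : IsPGroup q Q)
    (h : ∀ y ∈ Q, ¬ p ∣ (Subgroup.centralizer ({y} : Set G)).index) :
    ∃ P₀ : Subgroup G, P₀ ≤ N ∧ ¬ p ∣ P₀.relIndex N ∧ Q ≤ Subgroup.centralizer (P₀ : Set G) := by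
  classical
  letI : MulAction Q (Sylow p N) :=
    MulAction.compHom _ ((MulAut.conjNormal : G →* MulAut N).comp Q.subtype)
  have hnd : ¬ q ∣ Nat.card (Sylow p N) := fun hd => by
    obtain ⟨S⟩ := (inferInstance : Nonempty (Sylow p N))
    exact hN (hd.trans ((Sylow.card_dvd_index S).trans (Subgroup.index_dvd_card _)))
  obtain ⟨S, hS⟩ := exists_fixed hQ (Sylow p N) hnd
  refine ⟨(S : Subgroup N).map N.subtype, Subgroup.map_subtype_le _, ?_, fun y hy => ?_⟩
  · rw [Subgroup.relIndex, Subgroup.subgroupOf, Subgroup.comap_map_eq_self_of_injective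
      Subtype.val_injective]
    exact S.not_dvd_index
  have hyN : y ∈ Subgroup.normalizer (((S : Subgroup N).map N.subtype : Subgroup G) : Set G) := by
    have key : ∀ y ∈ Q, ∀ x ∈ (S : Subgroup N).map N.subtype,
        y * x * y⁻¹ ∈ (S : Subgroup N).map N.subtype := by
      rintro y hy _ ⟨s, hs, rfl⟩
      have h1 : (MulAut.conjNormal y : MulAut N) • (S : Subgroup N) = (S : Subgroup N) := by
        rw [← Sylow.pointwise_smul_def]
        exact congrArg (fun T : Sylow p N => (T : Subgroup N)) (hS ⟨y, hy⟩)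
      refine ⟨MulAut.conjNormal y s, ?_, MulAut.conjNormal_apply y s⟩
      rw [← h1]
      exact Subgroup.smul_mem_pointwise_smul _ _ _ hs
    refine Subgroup.mem_normalizer_iff.2 fun x => ⟨key y hy x, fun hx => ?_⟩
    have := key y⁻¹ (Q.inv_mem hy) _ hx
    simpa [mul_assoc] using this
  obtain ⟨T, hT⟩ : ∃ T : Sylow p N,
      (T : Subgroup N) ≤ (Subgroup.centralizer ({y} : Set G)).subgroupOf N := by
    obtain ⟨R⟩ := (inferInstance : Nonempty (Sylow p ((Subgroup.centralizer ({y} : Set G)).subgroupOf N)))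
    refine ⟨⟨R.toSubgroup.map (Subgroup.subtype _), R.isPGroup'.map _, fun {V} hV hle => ?_⟩,
      Subgroup.map_subtype_le _⟩
    obtain ⟨W, hW⟩ := hV.exists_le_sylow
    have hR : ¬ p ∣ (R.toSubgroup.map (Subgroup.subtype _)).index := by
      rw [Subgroup.index_map_subtype]
      intro hd
      rcases ((Fact.out : p.Prime).dvd_mul).1 hd with h1 | h1
      · exact R.not_dvd_index h1
      · exact h y hy (h1.trans (relIndex_dvd_index_of_normal_right _ N))
    refine le_antisymm (fun x hx => ?_) hle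
    have hd : (R.toSubgroup.map (Subgroup.subtype _)).relIndex (W : Subgroup N) = 1 := by
      obtain ⟨k, hk⟩ := IsPGroup.iff_card.1 W.isPGroup'
      refine Nat.eq_one_of_dvd_coprimes (Nat.Coprime.pow_left k ((Fact.out : p.Prime).coprime_iff_not_dvd.2 hR))
        ?_ (Subgroup.relIndex_dvd_index_of_le (hle.trans hW))
      exact hk ▸ Subgroup.index_dvd_card _
    exact Subgroup.relIndex_eq_one.1 hd (hW hx)
  obtain ⟨n, hn⟩ := MulAction.exists_smul_eq N T S
  have hyp : IsPGroup q (Subgroup.zpowers y) := hQ.to_le (Subgroup.zpowers_le.2 hy)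
  refine centralizes_of_normalizes N hN hyp (P₁ := (T : Subgroup N).map N.subtype) n.2 (fun x => ?_)
    hyN ?_
  · have hS' : (S : Subgroup N) = MulAut.conj n • (T : Subgroup N) := by
      rw [← hn, Sylow.coe_subgroup_smul]
    constructor
    · rintro ⟨t, ht, rfl⟩
      refine ⟨n * t * n⁻¹, ?_, rfl⟩
      rw [hS']
      exact Subgroup.smul_mem_pointwise_smul _ (MulAut.conj n) _ ht
    · rintro ⟨s, hs, hsx⟩
      rw [SetLike.mem_coe, hS', Subgroup.mem_pointwise_smul_iff_inv_smul_mem] at hs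
      simp only [← map_inv, MulAut.smul_def, MulAut.conj_apply, inv_inv] at hs
      refine ⟨n⁻¹ * s * n, hs, ?_⟩
      have hsx' : (s : G) = (n : G) * x * (n : G)⁻¹ := hsx
      show ((n⁻¹ * s * n : N) : G) = x
      rw [Subgroup.coe_mul, Subgroup.coe_mul, Subgroup.coe_inv, hsx']
      group
  · refine Subgroup.mem_centralizer_iff.2 ?_
    rintro _ ⟨t, ht, rfl⟩
    exact Subgroup.mem_centralizer_singleton_iff.1 (hT ht)

/-- The induction step. -/
theorem exists_normalizes_of_quotient {p q : ℕ} [Fact p.Prime] [Fact q.Prime] (N : Subgroup G) [N.Normal]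
    (hN : ¬ p ∣ Nat.card N ∨ ¬ q ∣ Nat.card N)
    (h : ∀ y : G, (∃ k : ℕ, orderOf y = q ^ k) → ¬ p ∣ (Subgroup.centralizer ({y} : Set G)).index)
    (hquot : ∃ (P : Sylow p (G ⧸ N)) (Q : Sylow q (G ⧸ N)),
      (P : Subgroup (G ⧸ N)) ≤ Subgroup.normalizer ((Q : Subgroup (G ⧸ N)) : Set (G ⧸ N))) :
    ∃ (P : Sylow p G) (Q : Sylow q G),
      (P : Subgroup G) ≤ Subgroup.normalizer ((Q : Subgroup G) : Set G) := by
  classical
  obtain ⟨Pb, Qb, hPQ⟩ := hquot
  obtain ⟨P, rfl⟩ := Sylow.mapSurjective_surjective (QuotientGroup.mk'_surjective N) p Pb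
  obtain ⟨Q, rfl⟩ := Sylow.mapSurjective_surjective (QuotientGroup.mk'_surjective N) q Qb
  have horb : ¬ p ∣ Nat.card (orbit N Q) := by
    rw [Nat.card_congr (orbitEquivQuotientStabilizer N Q), ← Subgroup.index_eq_card]
    rcases hN with hN | hN
    · exact fun hd => hN (hd.trans (Subgroup.index_dvd_card _))
    · obtain ⟨P₀, -, hP₀, hQP⟩ := exists_sylow_centralized (p := p) N hN (Q : Subgroup G) Q.isPGroup'
        fun y hy => h y (by
          obtain ⟨k, hk⟩ := IsPGroup.iff_orderOf.1 Q.isPGroup' ⟨y, hy⟩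
          exact ⟨k, by rwa [← Subgroup.orderOf_mk y hy]⟩)
      refine fun hd => hP₀ (hd.trans ?_)
      refine Subgroup.index_dvd_of_le (fun x hx => ?_)
      show (x : G) • Q = Q
      rw [Sylow.smul_eq_iff_mem_normalizer]
      refine Subgroup.mem_normalizer_iff.2 fun z => ⟨fun hz => ?_, fun hz => ?_⟩
      · have h1 : (x : G) * z = z * (x : G) := Subgroup.mem_centralizer_iff.1 (hQP hz) _ hx
        rw [h1, mul_inv_cancel_right]; exact hz
      · have h1 : (x : G) * ((x : G) * z * (x : G)⁻¹) = (x : G) * z * (x : G)⁻¹ * (x : G) :=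
          Subgroup.mem_centralizer_iff.1 (hQP hz) _ hx
        rw [inv_mul_cancel_right] at h1
        have h2 : (x : G) * z * (x : G)⁻¹ = z := mul_left_cancel h1
        rwa [← h2]
  have hstab : ∀ x ∈ (P : Subgroup G), x • Q ∈ orbit N Q := by
    intro x hx
    set U : Subgroup G := (Q : Subgroup G) ⊔ N
    have hxQ : ((x • Q : Sylow q G) : Subgroup G) ≤ U := by
      intro z hz
      rw [Sylow.coe_subgroup_smul] at hz
      obtain ⟨w, hw, rfl⟩ := hz
      have h1 := (Subgroup.mem_normalizer_iff.1 (hPQ ⟨x, hx, rfl⟩) (QuotientGroup.mk' N w)).1 ⟨w, hw, rfl⟩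
      have hU : U = ((Q : Subgroup G).map (QuotientGroup.mk' N)).comap (QuotientGroup.mk' N) := by
        rw [Subgroup.comap_map_eq, QuotientGroup.ker_mk']
      rw [hU, Subgroup.mem_comap]
      show (QuotientGroup.mk' N) (x * w * x⁻¹) ∈ _
      simpa using h1
    obtain ⟨u, hu⟩ := MulAction.exists_smul_eq U (Q.subtype le_sup_left) ((x • Q).subtype hxQ)
    rw [Sylow.smul_subtype] at hu
    have hu' : (u : G) • Q = x • Q := Sylow.subtype_injective hu
    have hmem : (u : G) ∈ (↑(N ⊔ (Q : Subgroup G)) : Set G) := by rw [sup_comm]; exact u.2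
    rw [Subgroup.normal_mul] at hmem
    obtain ⟨n, hn, z, hz, hnz⟩ := hmem
    refine ⟨⟨n, hn⟩, ?_⟩
    show n • Q = x • Q
    rw [← hu', ← hnz, mul_smul, Sylow.smul_eq_iff_mem_normalizer.2 (Subgroup.le_normalizer hz)]
  letI : MulAction (P : Subgroup G) (orbit N Q) :=
    { smul := fun x R => ⟨(x : G) • R.1, by
        obtain ⟨n, hn⟩ := R.2
        obtain ⟨m, hm⟩ := hstab x x.2
        refine ⟨⟨(x : G) * n * (x : G)⁻¹, (inferInstance : N.Normal).conj_mem _ n.2 _⟩ * m, ?_⟩
        show ((x : G) * n * (x : G)⁻¹ * m) • Q = (x : G) • R.1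
        rw [← hn, mul_smul, show (m : G) • Q = (x : G) • Q from hm, ← mul_smul, inv_mul_cancel_right,
          mul_smul]
        rfl⟩
      one_smul := fun R => Subtype.ext (one_smul G R.1)
      mul_smul := fun a b R => Subtype.ext (mul_smul (a : G) (b : G) R.1) }
  obtain ⟨R, hR⟩ := exists_fixed P.isPGroup' (orbit N Q) horb
  exact ⟨P, R.1, fun x hx => Sylow.smul_eq_iff_mem_normalizer.1
    (congrArg Subtype.val (hR ⟨x, hx⟩))⟩

/-- A `q`-element class condition passes to quotients. -/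
theorem classSize_quotient {p q : ℕ} [Fact q.Prime] (N : Subgroup G) [N.Normal]
    (h : ∀ y : G, (∃ k : ℕ, orderOf y = q ^ k) → ¬ p ∣ (Subgroup.centralizer ({y} : Set G)).index) :
    ∀ y : G ⧸ N, (∃ k : ℕ, orderOf y = q ^ k) →
      ¬ p ∣ (Subgroup.centralizer ({y} : Set (G ⧸ N))).index := by
  rintro y ⟨k, hk⟩ hd
  obtain ⟨Q⟩ := (inferInstance : Nonempty (Sylow q (G ⧸ N)))
  obtain ⟨S, hS⟩ := (IsPGroup.of_card (n := k) (by rw [Nat.card_zpowers, hk]) :
    IsPGroup q (Subgroup.zpowers y)).exists_le_sylow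
  obtain ⟨T, rfl⟩ := Sylow.mapSurjective_surjective (QuotientGroup.mk'_surjective N) q S
  obtain ⟨z, hz, hzy⟩ := hS (Subgroup.mem_zpowers y)
  obtain ⟨l, hl⟩ := IsPGroup.iff_orderOf.1 T.isPGroup' ⟨z, hz⟩
  refine h z ⟨l, by rwa [← Subgroup.orderOf_mk z hz]⟩ (hd.trans ?_)
  rw [← Subgroup.index_comap_of_surjective _ (QuotientGroup.mk'_surjective N)]
  refine Subgroup.index_dvd_of_le fun c hc => ?_
  rw [Subgroup.mem_comap, Subgroup.mem_centralizer_singleton_iff, ← hzy, ← map_mul, ← map_mul,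
    Subgroup.mem_centralizer_singleton_iff.1 hc]

/-- The theorem. -/
theorem exists_sylow_normalizes_sylow (p q : ℕ) [Fact p.Prime] [Fact q.Prime] (hpq : p ≠ q) :
    ∀ (G : Type u) [Group G] [Finite G], IsPSolvable p G ∨ IsPSolvable q G →
      (∀ y : G, (∃ k : ℕ, orderOf y = q ^ k) → ¬ p ∣ (Subgroup.centralizer ({y} : Set G)).index) →
      ∃ (P : Sylow p G) (Q : Sylow q G),
        (P : Subgroup G) ≤ Subgroup.normalizer ((Q : Subgroup G) : Set G) := by
  intro G
  induction hn : Nat.card G using Nat.strong_induction_on generalizing G with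
  | _ n ih =>
  intro _ _ hsolv h
  rcases subsingleton_or_nontrivial G with hG | hG
  · obtain ⟨P⟩ := (inferInstance : Nonempty (Sylow p G))
    obtain ⟨Q⟩ := (inferInstance : Nonempty (Sylow q G))
    exact ⟨P, Q, fun x _ => Subsingleton.elim (1 : G) x ▸ one_mem _⟩
  have hdisj : ∀ {r s : ℕ}, r.Prime → s.Prime → r ≠ s → ∀ (V : Subgroup G), IsPGroup r V →
      ¬ s ∣ Nat.card V := fun {r s} hr hs hrs V hV hd => by
    haveI : Fact r.Prime := ⟨hr⟩
    obtain ⟨k, hk⟩ := IsPGroup.iff_card.1 hV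
    rw [hk] at hd
    exact hrs ((Nat.prime_dvd_prime_iff_eq hs hr).1 (hs.dvd_of_dvd_pow hd)).symm
  obtain ⟨N, hNn, hN0, hN⟩ : ∃ N : Subgroup G, N.Normal ∧ N ≠ ⊥ ∧
      (¬ p ∣ Nat.card N ∨ ¬ q ∣ Nat.card N) := by
    rcases hsolv with hs | hs
    · rcases CfsgLib.PSolvable.core_ne_bot hs with hc | hc
      · exact ⟨_, inferInstance, hc, Or.inr (hdisj Fact.out Fact.out hpq _ (isPGroup_pCore p _))⟩
      · exact ⟨_, inferInstance, hc,
          Or.inl ((Fact.out : p.Prime).coprime_iff_not_dvd.1 (card_pPrimeCore_coprime p).symm)⟩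
    · rcases CfsgLib.PSolvable.core_ne_bot hs with hc | hc
      · exact ⟨_, inferInstance, hc, Or.inl (hdisj Fact.out Fact.out hpq.symm _ (isPGroup_pCore q _))⟩
      · exact ⟨_, inferInstance, hc,
          Or.inr ((Fact.out : q.Prime).coprime_iff_not_dvd.1 (card_pPrimeCore_coprime q).symm)⟩
  haveI := hNn
  refine exists_normalizes_of_quotient N hN h (ih _ ?_ (G ⧸ N) rfl
    (hsolv.imp (fun hs => CfsgLib.PSolvable.isPSolvable_quotient hs N)
      (fun hs => CfsgLib.PSolvable.isPSolvable_quotient hs N)) (classSize_quotient N h))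
  rw [← hn, ← Subgroup.index_eq_card, ← N.card_mul_index]
  exact lt_mul_left (Nat.pos_of_ne_zero Subgroup.index_ne_zero_of_finite)
    (Nat.lt_of_le_of_ne Nat.card_pos fun h1 => hN0 ((Subgroup.card_eq_one).1 h1.symm))

end CfsgLib.ZerosCodegree
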